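import Mathlib

/-!
The Bruhat decomposition of `SL_n(F₂)` by Gaussian elimination.
-/

set_option autoImplicit false
set_option linter.unusedSimpArgs false
set_option linter.unusedVariables false
set_option linter.deprecated false

namespace Cfsg.Agent.Lib.KS2.BruhatF2

open Matrix

variable {n : ℕ}

/-- Upper unitriangular matrices. -/
def IsUT (A : Matrix (Fin n) (Fin n) (ZMod 2)) : Prop := (∀ i j, j < i → A i j = 0) ∧ ∀ i, A i i = 1

lemma z2 (a : ZMod 2) : a = 0 ∨ a = 1 := by
  revert a; decide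

lemma z2_add (a : ZMod 2) : a + a = 0 := by
  revert a; decide

lemma IsUT.one : IsUT (1 : Matrix (Fin n) (Fin n) (ZMod 2)) :=
  ⟨fun i j h => Matrix.one_apply_ne (ne_of_lt h).symm, fun i => Matrix.one_apply_eq i⟩

lemma IsUT.mul {A B : Matrix (Fin n) (Fin n) (ZMod 2)} (hA : IsUT A) (hB : IsUT B) : IsUT (A * B) := by
  constructor
  · intro i j hji
    rw [Matrix.mul_apply]
    apply Finset.sum_eq_zero
    intro c _
    by_cases hc : c < i
    · rw [hA.1 i c hc, zero_mul]
    · have : j < c := lt_of_lt_of_le hji (not_lt.mp hc)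
      rw [hB.1 c j this, mul_zero]
  · intro i
    rw [Matrix.mul_apply, Finset.sum_eq_single i]
    · rw [hA.2, hB.2, mul_one]
    · intro c _ hci
      rcases lt_or_gt_of_ne hci with h | h
      · rw [hA.1 i c h, zero_mul]
      · rw [hB.1 c i h, mul_zero]
    · simp

lemma IsUT.det {A : Matrix (Fin n) (Fin n) (ZMod 2)} (hA : IsUT A) : A.det = 1 := by
  rw [Matrix.det_of_upperTriangular (fun i j h => hA.1 i j h)]
  simp [hA.2]

/-- A row which is clean. -/
def Clean (h : Matrix (Fin n) (Fin n) (ZMod 2)) (r : Fin n) : Prop :=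
  ∃ c, h r c = 1 ∧ (∀ c', c' ≠ c → h r c' = 0) ∧ ∀ r', r' ≠ r → h r' c = 0

/-- One step of the elimination. -/
lemma step (h : Matrix (Fin n) (Fin n) (ZMod 2)) (r : Fin n) (hdet : h.det ≠ 0)
    (hclean : ∀ r', r < r' → Clean h r') :
    ∃ L R : Matrix (Fin n) (Fin n) (ZMod 2), IsUT L ∧ IsUT R ∧ Clean (L * h * R) r ∧ ∀ r', r < r' → Clean (L * h * R) r' := by
  classical
  have hrow : ∃ c, h r c ≠ 0 := by
    by_contra hcon
    push Not at hcon
    exact hdet (Matrix.det_eq_zero_of_row_eq_zero r hcon)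
  obtain ⟨c0, hc0⟩ := hrow
  obtain ⟨j, hj, hmin⟩ := (Finset.univ.filter (fun c => h r c ≠ 0)).exists_min_image id ⟨c0, by simpa using hc0⟩
  have hj1 : h r j = 1 := by
    have : h r j ≠ 0 := by simpa using hj
    exact (z2 _).resolve_left this
  have hleft : ∀ c, c < j → h r c = 0 := by
    intro c hc
    by_contra hne
    have := hmin c (by simpa using hne)
    exact absurd hc (not_lt.mpr this)
  have hlow : ∀ a, r < a → h a j = 0 := by
    intro a ha
    obtain ⟨c, hc1, hc2, hc3⟩ := hclean a ha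
    by_cases hcj : j = c
    · subst hcj
      have := hc3 r (ne_of_lt ha)
      rw [hj1] at this
      exact absurd this one_ne_zero
    · exact hc2 j hcj
  let X : Matrix (Fin n) (Fin n) (ZMod 2) := Matrix.of fun a b => if b = r ∧ a < r then h a j else 0
  let Y : Matrix (Fin n) (Fin n) (ZMod 2) := Matrix.of fun a b => if a = j ∧ j < b then h r b else 0
  have hXh : ∀ a b, (X * h) a b = (if a < r then h a j else 0) * h r b := by
    intro a b
    rw [Matrix.mul_apply, Finset.sum_eq_single r]
    · simp [X]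
    · intro c _ hc
      simp [X, hc]
    · simp
  have hMY : ∀ (M : Matrix (Fin n) (Fin n) (ZMod 2)) a b, (M * Y) a b = M a j * (if j < b then h r b else 0) := by
    intro M a b
    rw [Matrix.mul_apply, Finset.sum_eq_single j]
    · simp [Y]
    · intro c _ hc
      simp [Y, hc]
    · simp
  have hform : ∀ a b, ((1 + X) * h * (1 + Y)) a b = h a b + (if a < r then h a j * h r b else 0) +
      (if a < r then 0 else h a j) * (if j < b then h r b else 0) := by
    intro a b
    rw [mul_add, mul_one, Matrix.add_apply, hMY, add_mul, one_mul, Matrix.add_apply, Matrix.add_apply, hXh, hXh, hj1]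
    by_cases ha : a < r
    · simp [ha, z2_add]
    · simp [ha]
  refine ⟨1 + X, 1 + Y, ⟨?_, ?_⟩, ⟨?_, ?_⟩, ?_, ?_⟩
  · intro a b hba
    have hne : a ≠ b := (ne_of_lt hba).symm
    have : ¬ (b = r ∧ a < r) := by
      rintro ⟨rfl, hh⟩
      exact absurd hba (not_lt.mpr hh.le)
    simp [X, hne, this]
  · intro a
    have : ¬ (a = r ∧ a < r) := by
      rintro ⟨rfl, hh⟩
      exact lt_irrefl _ hh
    simp [X, this]
  · intro a b hba
    have hne : a ≠ b := (ne_of_lt hba).symm
    have : ¬ (a = j ∧ j < b) := by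
      rintro ⟨rfl, hh⟩
      exact absurd hba (not_lt.mpr hh.le)
    simp [Y, hne, this]
  · intro a
    have : ¬ (a = j ∧ j < a) := by
      rintro ⟨rfl, hh⟩
      exact lt_irrefl _ hh
    simp [Y, this]
  · refine ⟨j, ?_, ?_, ?_⟩
    · rw [hform]
      simp [hj1]
    · intro c' hc'
      rw [hform]
      rcases lt_or_gt_of_ne hc' with hlt | hgt
      · have h0 := hleft c' hlt
        simp [h0]
      · simp [hj1, hgt, z2_add]
    · intro r' hr'
      rw [hform]
      rcases lt_or_gt_of_ne hr' with hlt | hgt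
      · simp [hlt, hj1, z2_add]
      · have : ¬ r' < r := not_lt.mpr hgt.le
        simp [this, hlow r' hgt]
  · intro r₂ hr₂
    obtain ⟨c, hc1, hc2, hc3⟩ := hclean r₂ hr₂
    have hrc : h r c = 0 := hc3 r (ne_of_lt hr₂)
    have hr₂j : h r₂ j = 0 := hlow r₂ hr₂
    have hnot : ¬ r₂ < r := not_lt.mpr hr₂.le
    refine ⟨c, ?_, ?_, ?_⟩
    · rw [hform]
      simp [hnot, hr₂j, hc1]
    · intro c' hc'
      rw [hform]
      simp [hnot, hr₂j, hc2 c' hc']
    · intro r' hr'
      rw [hform, hc3 r' hr', hrc]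
      simp

theorem bruhat (g : Matrix (Fin n) (Fin n) (ZMod 2)) (hg : g.det ≠ 0) :
    ∃ u v : Matrix (Fin n) (Fin n) (ZMod 2), IsUT u ∧ IsUT v ∧ ∃ σ : Equiv.Perm (Fin n), ∀ a b, (u * g * v) a b = if b = σ a then 1 else 0 := by
  have main : ∀ k : ℕ, k ≤ n → ∃ u v : Matrix (Fin n) (Fin n) (ZMod 2), IsUT u ∧ IsUT v ∧ ∀ r : Fin n, n ≤ r.val + k → Clean (u * g * v) r := by
    intro k
    induction k with
    | zero =>
      intro _
      refine ⟨1, 1, IsUT.one, IsUT.one, ?_⟩
      intro r hr
      have := r.2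
      omega
    | succ k ih =>
      intro hk
      obtain ⟨u, v, hu, hv, hc⟩ := ih (by omega)
      set r : Fin n := ⟨n - k - 1, by omega⟩ with hr
      have hdet : (u * g * v).det ≠ 0 := by
        rw [Matrix.det_mul, Matrix.det_mul, hu.det, hv.det]
        simpa using hg
      obtain ⟨L, R, hL, hR, h1, h2⟩ := step (u * g * v) r hdet (by
        intro r' hr'
        apply hc
        have : n - k - 1 < r'.val := hr'
        omega)
      refine ⟨L * u, v * R, hL.mul hu, hv.mul hR, ?_⟩
      have e : L * u * g * (v * R) = L * (u * g * v) * R := by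
        simp only [Matrix.mul_assoc]
      intro r₂ hr₂
      rw [e]
      by_cases hr₃ : r₂ = r
      · rw [hr₃]; exact h1
      · apply h2
        show n - k - 1 < r₂.val
        have : r₂.val ≠ n - k - 1 := fun h' => hr₃ (Fin.ext h')
        omega
  obtain ⟨u, v, hu, hv, hc⟩ := main n le_rfl
  refine ⟨u, v, hu, hv, ?_⟩
  have hc' : ∀ r, Clean (u * g * v) r := fun r => hc r (by omega)
  choose c hc1 hc2 hc3 using hc'
  have hinj : Function.Injective c := by
    intro r r' hrr
    by_contra hne
    have := hc3 r' r (fun h' => hne h')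
    rw [← hrr, hc1] at this
    exact one_ne_zero this
  have hbij : Function.Bijective c := Finite.injective_iff_bijective.mp hinj
  refine ⟨Equiv.ofBijective c hbij, ?_⟩
  intro a b
  by_cases hb : b = c a
  · simp only [Equiv.ofBijective_apply, hb, if_true, hc1]
  · simp only [Equiv.ofBijective_apply, hb, if_false]
    exact hc2 a b hb

end Cfsg.Agent.Lib.KS2.BruhatF2
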