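import Mathlib

/-!
Sylow `2`-subgroups meeting non-trivially, from the opposition property of an index two subgroup.
-/

set_option autoImplicit false
set_option linter.unusedSimpArgs false
set_option linter.unusedVariables false
set_option linter.deprecated false

namespace Cfsg.Agent.Lib.KS2.OppSyl

open scoped Pointwise

/-- Self-normalizing Sylow subgroups. -/
def F1 (Γ : Type*) [Group Γ] : Prop := ∀ (P : Sylow 2 Γ) (g : Γ), g • P = P → g ∈ (P : Subgroup Γ)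

/-- The group of a Sylow subgroup is transitive on the opposite Sylow subgroups. -/
def F2 (Γ : Type*) [Group Γ] : Prop := ∀ P P' P'' : Sylow 2 Γ, (P : Subgroup Γ) ⊓ P' = ⊥ → (P : Subgroup Γ) ⊓ P'' = ⊥ →
  ∃ u ∈ (P : Subgroup Γ), u • P' = P''

lemma mem_smul_iff {Γ : Type*} [Group Γ] {p : ℕ} (P : Sylow p Γ) (g x : Γ) :
    x ∈ ((g • P : Sylow p Γ) : Subgroup Γ) ↔ g⁻¹ * x * g ∈ (P : Subgroup Γ) := by
  rw [Sylow.coe_subgroup_smul, Subgroup.mem_pointwise_smul_iff_inv_smul_mem]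
  simp [MulAut.smul_def, MulAut.conj_inv_apply]

lemma smul_eq_of_le {Γ : Type*} [Group Γ] {p : ℕ} (P Q : Sylow p Γ) (g : Γ)
    (h : ∀ x ∈ (P : Subgroup Γ), g * x * g⁻¹ ∈ (Q : Subgroup Γ)) : g • P = Q := by
  have hle : ((g • P : Sylow p Γ) : Subgroup Γ) ≤ Q := by
    intro x hx
    rw [mem_smul_iff] at hx
    have := h _ hx
    have e : g * (g⁻¹ * x * g) * g⁻¹ = x := by group
    rwa [e] at this
  exact (Sylow.ext ((g • P).is_maximal' Q.isPGroup' hle)).symm

section Main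

variable {G : Type*} [Group G] [Finite G] (N : Subgroup G) [hN : N.Normal] (hidx : N.index = 2)

include hidx

lemma exists_outside (Q : Sylow 2 G) : ∃ g ∈ (Q : Subgroup G), g ∉ N := by
  by_contra hcon
  push Not at hcon
  have h1 : (Q : Subgroup G) ≤ N := hcon
  have h2 := Subgroup.index_dvd_of_le h1
  rw [hidx] at h2
  exact Q.not_dvd_index h2

lemma not_dvd_index_subgroupOf (Q : Sylow 2 G) : ¬ 2 ∣ ((Q : Subgroup G).subgroupOf N).index := by
  obtain ⟨g, hg, hgN⟩ := exists_outside N hidx Q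
  have h1 : N.relIndex (Q : Subgroup G) = 2 := by
    have h2 : N.relIndex (Q : Subgroup G) ∣ 2 := by
      have h3 := Subgroup.relIndex_dvd_index_of_normal N (Q : Subgroup G)
      rwa [hidx] at h3
    rcases (Nat.dvd_prime Nat.prime_two).mp h2 with h3 | h3
    · exfalso
      rw [Subgroup.relIndex_eq_one] at h3
      exact hgN (h3 hg)
    · exact h3
  have c1 := Subgroup.card_mul_index (N.subgroupOf (Q : Subgroup G))
  have c2 := Subgroup.card_mul_index ((Q : Subgroup G).subgroupOf N)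
  have c3 := Subgroup.card_mul_index N
  have c4 := Subgroup.card_mul_index (Q : Subgroup G)
  have e : Nat.card (N.subgroupOf (Q : Subgroup G)) = Nat.card ((Q : Subgroup G).subgroupOf N) := by
    apply Nat.card_congr
    exact
      { toFun := fun a => ⟨⟨a.1.1, (Subgroup.mem_subgroupOf.mp a.2)⟩, by
          rw [Subgroup.mem_subgroupOf]; exact a.1.2⟩
        invFun := fun a => ⟨⟨a.1.1, (Subgroup.mem_subgroupOf.mp a.2)⟩, by
          rw [Subgroup.mem_subgroupOf]; exact a.1.2⟩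
        left_inv := fun a => rfl
        right_inv := fun a => rfl }
  have h1' : (N.subgroupOf (Q : Subgroup G)).index = 2 := h1
  rw [h1'] at c1
  rw [hidx] at c3
  set a := Nat.card ((Q : Subgroup G).subgroupOf N) with ha
  rw [e] at c1
  set i := ((Q : Subgroup G).subgroupOf N).index with hi
  have hpos : 0 < a := Nat.card_pos
  have key : (Q : Subgroup G).index = i := by
    have h5 : a * 2 * (Q : Subgroup G).index = Nat.card G := by rw [c1]; exact c4
    have h6 : a * i * 2 = Nat.card G := by rw [c2]; exact c3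
    have h7 : a * 2 * (Q : Subgroup G).index = a * 2 * i := by
      rw [h5, ← h6]; ring
    exact Nat.eq_of_mul_eq_mul_left (by positivity) h7
  rw [← key]
  exact Q.not_dvd_index

/-- The Sylow subgroup of `N` cut out by a Sylow subgroup of `G`. -/
noncomputable def sylN (Q : Sylow 2 G) : Sylow 2 N :=
  IsPGroup.toSylow (P := (Q : Subgroup G).subgroupOf N) Q.isPGroup'.comap_subtype (not_dvd_index_subgroupOf N hidx Q)

lemma mem_sylN (Q : Sylow 2 G) (a : N) : a ∈ (sylN N hidx Q : Subgroup N) ↔ (a : G) ∈ (Q : Subgroup G) := by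
  exact Iff.rfl

theorem main_opp (h1 : F1 N) (h2 : F2 N) (H : Sylow 2 G) (x : G) :
    (H : Subgroup G) ⊓ MulAut.conj x • (H : Subgroup G) ≠ ⊥ := by
  intro hbot
  set H₁ : Sylow 2 G := x • H with hH₁
  have hcoe : (H₁ : Subgroup G) = MulAut.conj x • (H : Subgroup G) := Sylow.coe_subgroup_smul
  rw [← hcoe] at hbot
  have hmem : ∀ a, a ∈ (H : Subgroup G) → a ∈ (H₁ : Subgroup G) → a = 1 := by
    intro a ha ha₁
    have : a ∈ (H : Subgroup G) ⊓ (H₁ : Subgroup G) := ⟨ha, ha₁⟩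
    rw [hbot] at this
    exact this
  obtain ⟨g, hg, hgN⟩ := exists_outside N hidx H
  obtain ⟨g₁, hg₁, hg₁N⟩ := exists_outside N hidx H₁
  set H₀ := sylN N hidx H with hH₀
  set H₁₀ := sylN N hidx H₁ with hH₁₀
  set H₂ := sylN N hidx (g • H₁) with hH₂
  have e₁ : (H₀ : Subgroup N) ⊓ H₂ = ⊥ := by
    rw [eq_bot_iff]
    intro a hab
    obtain ⟨ha, hb⟩ := Subgroup.mem_inf.mp hab
    rw [hH₀, mem_sylN] at ha
    rw [hH₂, mem_sylN, mem_smul_iff] at hb
    have h3 : g⁻¹ * (a : G) * g ∈ (H : Subgroup G) :=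
      (H : Subgroup G).mul_mem ((H : Subgroup G).mul_mem ((H : Subgroup G).inv_mem hg) ha) hg
    have h4 := hmem _ h3 hb
    have h5 : (a : G) = 1 := by
      have : (a : G) = g * (g⁻¹ * (a : G) * g) * g⁻¹ := by group
      rw [this, h4]
      group
    exact Subtype.ext h5
  have e₂ : (H₀ : Subgroup N) ⊓ H₁₀ = ⊥ := by
    rw [eq_bot_iff]
    intro a hab
    obtain ⟨ha, hb⟩ := Subgroup.mem_inf.mp hab
    rw [hH₀, mem_sylN] at ha
    rw [hH₁₀, mem_sylN] at hb
    exact Subtype.ext (hmem _ ha hb)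
  obtain ⟨u, hu, huH⟩ := h2 H₀ H₂ H₁₀ e₁ e₂
  have huH' : (u : G) ∈ (H : Subgroup G) := by
    rw [hH₀, mem_sylN] at hu
    exact hu
  set y : G := (u : G) * g with hy
  have hyH : y ∈ (H : Subgroup G) := (H : Subgroup G).mul_mem huH' hg
  have hyN : y ∉ N := by
    intro h
    apply hgN
    have : g = (u : G)⁻¹ * y := by rw [hy]; group
    rw [this]
    exact N.mul_mem (N.inv_mem u.2) h
  -- `y` normalizes `H₁₀`
  have hyn : ∀ b ∈ N, b ∈ (H₁ : Subgroup G) → y * b * y⁻¹ ∈ N ∧ y * b * y⁻¹ ∈ (H₁ : Subgroup G) := by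
    intro b hbN hb
    have hbN' : g * b * g⁻¹ ∈ N := hN.conj_mem b hbN g
    have h3 : (⟨g * b * g⁻¹, hbN'⟩ : N) ∈ (H₂ : Subgroup N) := by
      rw [hH₂, mem_sylN, mem_smul_iff]
      have e : g⁻¹ * (g * b * g⁻¹) * g = b := by group
      simp only [e]
      exact hb
    have h4 : u * (⟨g * b * g⁻¹, hbN'⟩ : N) * u⁻¹ ∈ (H₁₀ : Subgroup N) := by
      rw [← huH, mem_smul_iff]
      have e : u⁻¹ * (u * (⟨g * b * g⁻¹, hbN'⟩ : N) * u⁻¹) * u = ⟨g * b * g⁻¹, hbN'⟩ := by group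
      rw [e]
      exact h3
    rw [hH₁₀, mem_sylN] at h4
    have e : y * b * y⁻¹ = (u : G) * (g * b * g⁻¹) * (u : G)⁻¹ := by rw [hy]; group
    rw [e]
    exact ⟨N.mul_mem (N.mul_mem u.2 hbN') (N.inv_mem u.2), h4⟩
  -- `t = y g₁⁻¹` is in `N` and normalizes `H₁₀`
  have htN : y * g₁⁻¹ ∈ N := by
    rw [Subgroup.mul_mem_iff_of_index_two hidx]
    constructor
    · intro h; exact absurd h hyN
    · intro h; exact absurd (N.inv_mem_iff.mp h) hg₁N
  have htS : (⟨y * g₁⁻¹, htN⟩ : N) • H₁₀ = H₁₀ := by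
    apply smul_eq_of_le
    intro a ha
    rw [hH₁₀, mem_sylN] at ha ⊢
    have hg₁' : g₁⁻¹ * (a : G) * g₁ ∈ (H₁ : Subgroup G) :=
      (H₁ : Subgroup G).mul_mem ((H₁ : Subgroup G).mul_mem ((H₁ : Subgroup G).inv_mem hg₁) ha) hg₁
    have hg₁N' : g₁⁻¹ * (a : G) * g₁⁻¹⁻¹ ∈ N := hN.conj_mem (a : G) a.2 g₁⁻¹
    have e0 : g₁⁻¹ * (a : G) * g₁⁻¹⁻¹ = g₁⁻¹ * (a : G) * g₁ := by rw [inv_inv]
    rw [e0] at hg₁N'
    have h5 := (hyn _ hg₁N' hg₁').2
    have e : y * (g₁⁻¹ * (a : G) * g₁) * y⁻¹ = (y * g₁⁻¹) * (a : G) * (y * g₁⁻¹)⁻¹ := by group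
    rw [e] at h5
    exact h5
  have ht := h1 H₁₀ _ htS
  rw [hH₁₀, mem_sylN] at ht
  have hyH₁ : y ∈ (H₁ : Subgroup G) := by
    have : y = (y * g₁⁻¹) * g₁ := by group
    rw [this]
    exact (H₁ : Subgroup G).mul_mem ht hg₁
  have := hmem y hyH hyH₁
  apply hyN
  rw [this]
  exact N.one_mem

end Main

section Transfer

variable {Γ Δ : Type*} [Group Γ] [Group Δ] [Finite Γ] [Finite Δ] (e : Γ ≃* Δ)

/-- The image of a Sylow subgroup under an isomorphism. -/
def mapS (P : Sylow 2 Γ) : Sylow 2 Δ := P.mapSurjective (f := e.toMonoidHom) e.surjective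

lemma mem_mapS (P : Sylow 2 Γ) (b : Δ) : b ∈ (mapS e P : Subgroup Δ) ↔ e.symm b ∈ (P : Subgroup Γ) := by
  show b ∈ (P : Subgroup Γ).map e.toMonoidHom ↔ _
  constructor
  · rintro ⟨a, ha, rfl⟩
    show e.symm (e a) ∈ (P : Subgroup Γ)
    rw [e.symm_apply_apply]
    exact ha
  · intro h
    exact ⟨_, h, e.apply_symm_apply b⟩

include e in
lemma F1_of_equiv (h : F1 Δ) : F1 Γ := by
  intro P g hg
  have h1 : e g • mapS e P = mapS e P := by
    apply smul_eq_of_le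
    intro x hx
    rw [mem_mapS] at hx ⊢
    have e1 : e.symm (e g * x * (e g)⁻¹) = g * e.symm x * g⁻¹ := by simp
    rw [e1]
    have h2 : g * e.symm x * g⁻¹ ∈ ((g • P : Sylow 2 Γ) : Subgroup Γ) := by
      rw [mem_smul_iff]
      have e2 : g⁻¹ * (g * e.symm x * g⁻¹) * g = e.symm x := by group
      rw [e2]
      exact hx
    rwa [hg] at h2
  have h2 := h _ _ h1
  rw [mem_mapS] at h2
  simpa using h2

include e in
lemma F2_of_equiv (h : F2 Δ) : F2 Γ := by
  intro P P' P'' h1 h2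
  have t : ∀ Q : Sylow 2 Γ, (P : Subgroup Γ) ⊓ Q = ⊥ → (mapS e P : Subgroup Δ) ⊓ mapS e Q = ⊥ := by
    intro Q hQ
    rw [eq_bot_iff]
    intro b hb
    obtain ⟨hb1, hb2⟩ := Subgroup.mem_inf.mp hb
    rw [mem_mapS] at hb1 hb2
    have : e.symm b ∈ (P : Subgroup Γ) ⊓ Q := Subgroup.mem_inf.mpr ⟨hb1, hb2⟩
    rw [hQ] at this
    have e1 : e.symm b = 1 := this
    have : b = 1 := by simpa using e1
    exact this
  obtain ⟨u, hu, hu2⟩ := h _ _ _ (t _ h1) (t _ h2)
  rw [mem_mapS] at hu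
  refine ⟨e.symm u, hu, ?_⟩
  apply smul_eq_of_le
  intro x hx
  have h3 : u * e x * u⁻¹ ∈ (mapS e P'' : Subgroup Δ) := by
    rw [← hu2, mem_smul_iff]
    have e2 : u⁻¹ * (u * e x * u⁻¹) * u = e x := by group
    rw [e2, mem_mapS]
    simpa using hx
  rw [mem_mapS] at h3
  simpa using h3

end Transfer

end Cfsg.Agent.Lib.KS2.OppSyl
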