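import Mathlib
import Cfsg.Agent.Lib.KS2.BruhatF2
import Cfsg.Agent.Lib.KS2.OppSyl

/-!
Sylow `2`-subgroups of `SL_n(F₂)`: self-normalizing, and transitivity on opposites.
-/

set_option autoImplicit false
set_option linter.unusedSimpArgs false
set_option linter.unusedVariables false
set_option linter.deprecated false

namespace Cfsg.Agent.Lib.KS2.BruhatF2

open Matrix Cfsg.Agent.Lib.KS2.OppSyl

variable {n : ℕ}

local notation "S" => Matrix.SpecialLinearGroup (Fin n) (ZMod 2)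

/-- The upper unitriangular group. -/
def U₀ : Subgroup (Matrix.SpecialLinearGroup (Fin n) (ZMod 2)) where
  carrier := {A | IsUT A.1}
  mul_mem' := fun {a b} ha hb => IsUT.mul ha hb
  one_mem' := IsUT.one
  inv_mem' := by
    intro a ha
    have h1 : ∀ k : ℕ, IsUT ((a ^ k : Matrix.SpecialLinearGroup (Fin n) (ZMod 2)) : Matrix (Fin n) (Fin n) (ZMod 2)) := by
      intro k
      induction k with
      | zero => exact IsUT.one
      | succ k ih =>
        rw [pow_succ, Matrix.SpecialLinearGroup.coe_mul]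
        exact ih.mul ha
    have h2 : a⁻¹ = a ^ (orderOf a - 1) := by
      apply inv_eq_of_mul_eq_one_right
      rw [← pow_succ', Nat.sub_add_cancel (orderOf_pos a), pow_orderOf_eq_one]
    rw [h2]
    exact h1 _

lemma mem_U₀ {A : Matrix.SpecialLinearGroup (Fin n) (ZMod 2)} : A ∈ (U₀ : Subgroup (Matrix.SpecialLinearGroup (Fin n) (ZMod 2))) ↔ IsUT A.1 := Iff.rfl

lemma strict_pow {M : Matrix (Fin n) (Fin n) (ZMod 2)} (hM : ∀ i j, j ≤ i → M i j = 0) (k : ℕ) :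
    ∀ i j : Fin n, j.val < i.val + k → (M ^ k) i j = 0 := by
  induction k with
  | zero =>
    intro i j hij
    rw [pow_zero]
    exact Matrix.one_apply_ne (fun h => by rw [h] at hij; omega)
  | succ k ih =>
    intro i j hij
    rw [pow_succ, Matrix.mul_apply]
    apply Finset.sum_eq_zero
    intro c _
    by_cases hc : c.val < i.val + k
    · rw [ih i c hc, zero_mul]
    · rw [hM c j (by rw [Fin.le_def]; omega), mul_zero]

lemma U₀_pgroup : IsPGroup 2 (U₀ : Subgroup (Matrix.SpecialLinearGroup (Fin n) (ZMod 2))) := by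
  rintro ⟨A, hA⟩
  refine ⟨n, ?_⟩
  apply Subtype.ext
  show A ^ (2 ^ n) = 1
  apply Subtype.ext
  rw [Matrix.SpecialLinearGroup.coe_pow]
  by_cases hn : n = 0
  · subst hn
    ext i
    exact i.elim0
  haveI : NeZero n := ⟨hn⟩
  set M : Matrix (Fin n) (Fin n) (ZMod 2) := (A : Matrix (Fin n) (Fin n) (ZMod 2)) - 1 with hM
  have hMs : ∀ i j, j ≤ i → M i j = 0 := by
    intro i j hji
    rcases lt_or_eq_of_le hji with h | h
    · rw [hM, Matrix.sub_apply, hA.1 i j h, Matrix.one_apply_ne (ne_of_lt h).symm, sub_zero]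
    · rw [h, hM, Matrix.sub_apply, hA.2, Matrix.one_apply_eq, sub_self]
  have h1 : (A : Matrix (Fin n) (Fin n) (ZMod 2)) = 1 + M := by rw [hM]; abel
  rw [h1]
  haveI : CharP (Matrix (Fin n) (Fin n) (ZMod 2)) 2 := inferInstance
  rw [add_pow_char_pow_of_commute 2 n (Commute.one_left M), one_pow]
  have h2 : M ^ (2 ^ n) = 0 := by
    ext i j
    rw [strict_pow hMs]
    · simp
    · have : n < 2 ^ n := Nat.lt_two_pow_self
      have := j.2
      omega
  rw [h2, add_zero]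
  rfl

/-- Root elements. -/
def Xe (i j : Fin n) (h : i ≠ j) : Matrix.SpecialLinearGroup (Fin n) (ZMod 2) :=
  ⟨Matrix.transvection i j 1, Matrix.det_transvection_of_ne i j h 1⟩

lemma Xe_coe (i j : Fin n) (h : i ≠ j) :
    ((Xe i j h : Matrix.SpecialLinearGroup (Fin n) (ZMod 2)) : Matrix (Fin n) (Fin n) (ZMod 2)) = 1 + Matrix.single i j 1 := rfl

lemma Xe_apply (i j : Fin n) (h : i ≠ j) (a b : Fin n) :
    ((Xe i j h : Matrix.SpecialLinearGroup (Fin n) (ZMod 2)) : Matrix (Fin n) (Fin n) (ZMod 2)) a b =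
      (if a = b then 1 else 0) + (if a = i ∧ b = j then 1 else 0) := by
  rw [Xe_coe, Matrix.add_apply, Matrix.one_apply, Matrix.single_apply]
  congr 2
  simp only [eq_comm]

lemma Xe_mem {i j : Fin n} (h : i ≠ j) : Xe i j h ∈ (U₀ : Subgroup (Matrix.SpecialLinearGroup (Fin n) (ZMod 2))) ↔ i < j := by
  constructor
  · intro hX
    by_contra hlt
    have hji : j < i := lt_of_le_of_ne (not_lt.mp hlt) h.symm
    have := hX.1 i j hji
    rw [Xe_apply] at this
    simp [h] at this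
  · intro hij
    constructor
    · intro a b hba
      rw [Xe_apply]
      have h1 : a ≠ b := (ne_of_lt hba).symm
      have h2 : ¬ (a = i ∧ b = j) := by
        rintro ⟨rfl, rfl⟩
        exact absurd hij (not_lt.mpr hba.le)
      simp [h1, h2]
    · intro a
      rw [Xe_apply]
      have h2 : ¬ (a = i ∧ a = j) := by
        rintro ⟨rfl, h'⟩
        exact h h'
      simp [h2]

lemma Xe_ne {i j : Fin n} (h : i ≠ j) : Xe i j h ≠ 1 := by
  intro hX
  have := congrArg (fun A : Matrix.SpecialLinearGroup (Fin n) (ZMod 2) => (A : Matrix (Fin n) (Fin n) (ZMod 2)) i j) hX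
  simp only [Xe_apply, Matrix.SpecialLinearGroup.coe_one, Matrix.one_apply] at this
  simp [h] at this

/-- Permutation matrices. -/
def Wp (σ : Equiv.Perm (Fin n)) : Matrix.SpecialLinearGroup (Fin n) (ZMod 2) :=
  ⟨σ.permMatrix (ZMod 2), by
    rw [Matrix.det_permutation]
    rcases Int.units_eq_one_or (Equiv.Perm.sign σ) with h | h <;> rw [h] <;> decide⟩

lemma Wp_apply (σ : Equiv.Perm (Fin n)) (a b : Fin n) :
    ((Wp σ : Matrix.SpecialLinearGroup (Fin n) (ZMod 2)) : Matrix (Fin n) (Fin n) (ZMod 2)) a b = if b = σ a then 1 else 0 := by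
  show (σ.permMatrix (ZMod 2)) a b = _
  simp [Equiv.Perm.permMatrix, PEquiv.toMatrix_apply, eq_comm]

lemma mul_single_ap (M : Matrix (Fin n) (Fin n) (ZMod 2)) (i j a b : Fin n) :
    (M * (Matrix.single i j 1 : Matrix (Fin n) (Fin n) (ZMod 2)) : Matrix (Fin n) (Fin n) (ZMod 2)) a b = if b = j then M a i else 0 := by
  rw [Matrix.mul_apply, Finset.sum_eq_single i]
  · rw [Matrix.single_apply]
    by_cases hb : b = j
    · simp [hb]
    · have : ¬ j = b := fun h => hb h.symm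
      simp [hb, this]
  · intro c _ hc
    rw [Matrix.single_apply]
    have : ¬ i = c := fun h => hc h.symm
    simp [this]
  · simp

lemma single_mul_ap (M : Matrix (Fin n) (Fin n) (ZMod 2)) (i j a b : Fin n) :
    ((Matrix.single i j 1 : Matrix (Fin n) (Fin n) (ZMod 2)) * M : Matrix (Fin n) (Fin n) (ZMod 2)) a b = if a = i then M j b else 0 := by
  rw [Matrix.mul_apply, Finset.sum_eq_single j]
  · rw [Matrix.single_apply]
    by_cases ha : a = i
    · simp [ha]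
    · have : ¬ i = a := fun h => ha h.symm
      simp [ha, this]
  · intro c _ hc
    rw [Matrix.single_apply]
    have : ¬ j = c := fun h => hc h.symm
    simp [this]
  · simp

lemma Wp_conj (σ : Equiv.Perm (Fin n)) {i j : Fin n} (h : i ≠ j) (h' : σ⁻¹ i ≠ σ⁻¹ j) :
    Wp σ * Xe i j h = Xe (σ⁻¹ i) (σ⁻¹ j) h' * Wp σ := by
  apply Subtype.ext
  rw [Matrix.SpecialLinearGroup.coe_mul, Matrix.SpecialLinearGroup.coe_mul, Xe_coe, Xe_coe, mul_add, add_mul, mul_one, one_mul]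
  congr 1
  ext a b
  rw [mul_single_ap, single_mul_ap, Wp_apply, Wp_apply]
  have e1 : σ (σ⁻¹ j) = j := by simp
  rw [e1]
  by_cases hb : b = j
  · by_cases ha : a = σ⁻¹ i
    · have : i = σ a := by rw [ha]; simp
      simp [hb, ha]
    · have : ¬ i = σ a := by
        intro h3
        apply ha
        rw [h3]
        simp
      have ha' : ¬ a = σ.symm i := ha
      simp [hb, ha', this]
  · simp [hb]

/-- The Bruhat decomposition in `SL_n(F₂)`. -/
lemma bruhat_SL (g : Matrix.SpecialLinearGroup (Fin n) (ZMod 2)) :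
    ∃ u ∈ (U₀ : Subgroup (Matrix.SpecialLinearGroup (Fin n) (ZMod 2))), ∃ v ∈ (U₀ : Subgroup (Matrix.SpecialLinearGroup (Fin n) (ZMod 2))), ∃ σ, u * g * v = Wp σ := by
  obtain ⟨u, v, hu, hv, σ, hσ⟩ := bruhat (g : Matrix (Fin n) (Fin n) (ZMod 2)) (by rw [g.2]; exact one_ne_zero)
  refine ⟨⟨u, hu.det⟩, hu, ⟨v, hv.det⟩, hv, σ, ?_⟩
  apply Subtype.ext
  ext a b
  rw [Wp_apply, ← hσ]
  rfl

lemma strictMono_perm_eq (τ : Equiv.Perm (Fin n)) (h : StrictMono τ) : τ = 1 := by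
  have : (τ : Fin n → Fin n) = id := (StrictMono.range_inj h strictMono_id).mp (by
    rw [Set.range_id, τ.surjective.range_eq])
  ext x
  simp [congrFun this x]

lemma strictAnti_perm_eq (τ : Equiv.Perm (Fin n)) (h : ∀ i j, i < j → τ j < τ i) : ∀ x, τ x = Fin.rev x := by
  have h1 : StrictMono (fun x => τ (Fin.rev x)) := by
    intro a b hab
    exact h _ _ (Fin.rev_lt_rev.mpr hab)
  have h2 : (fun x => τ (Fin.rev x)) = id := (StrictMono.range_inj h1 strictMono_id).mp (by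
    rw [Set.range_id]
    apply Function.Surjective.range_eq
    intro y
    refine ⟨Fin.rev (τ⁻¹ y), ?_⟩
    simp)
  intro x
  have := congrFun h2 (Fin.rev x)
  simpa using this

/-- The self-normalizing property of `U₀`. -/
lemma U₀_self_norm (g : Matrix.SpecialLinearGroup (Fin n) (ZMod 2))
    (h : ∀ x ∈ (U₀ : Subgroup (Matrix.SpecialLinearGroup (Fin n) (ZMod 2))), g * x * g⁻¹ ∈ (U₀ : Subgroup (Matrix.SpecialLinearGroup (Fin n) (ZMod 2)))) :
    g ∈ (U₀ : Subgroup (Matrix.SpecialLinearGroup (Fin n) (ZMod 2))) := by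
  obtain ⟨u, hu, v, hv, σ, hσ⟩ := bruhat_SL g
  have hconj : ∀ x ∈ (U₀ : Subgroup (Matrix.SpecialLinearGroup (Fin n) (ZMod 2))), Wp σ * x * (Wp σ)⁻¹ ∈ (U₀ : Subgroup (Matrix.SpecialLinearGroup (Fin n) (ZMod 2))) := by
    intro x hx
    have h1 := h _ (U₀.mul_mem (U₀.mul_mem hv hx) (U₀.inv_mem hv))
    have h2 := U₀.mul_mem (U₀.mul_mem hu h1) (U₀.inv_mem hu)
    have e : Wp σ * x * (Wp σ)⁻¹ = u * (g * (v * x * v⁻¹) * g⁻¹) * u⁻¹ := by
      rw [← hσ]; group
    rw [e]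
    exact h2
  have hmono : StrictMono (σ⁻¹ : Equiv.Perm (Fin n)) := by
    intro i j hij
    have hne : i ≠ j := ne_of_lt hij
    have hne' : σ⁻¹ i ≠ σ⁻¹ j := fun h3 => hne ((σ⁻¹).injective h3)
    have h1 := hconj _ ((Xe_mem hne).mpr hij)
    have e : Wp σ * Xe i j hne * (Wp σ)⁻¹ = Xe (σ⁻¹ i) (σ⁻¹ j) hne' := by
      rw [Wp_conj σ hne hne']
      group
    rw [e, Xe_mem] at h1
    exact h1
  have hone : σ⁻¹ = 1 := strictMono_perm_eq _ hmono
  have hσ1 : σ = 1 := inv_eq_one.mp hone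
  have hW : Wp σ = 1 := by
    apply Subtype.ext
    ext a b
    rw [Wp_apply, hσ1]
    simp [Matrix.one_apply, eq_comm]
  rw [hW] at hσ
  have e : g = u⁻¹ * v⁻¹ := by
    have : g = u⁻¹ * (u * g * v) * v⁻¹ := by group
    rw [this, hσ]
    group
  rw [e]
  exact U₀.mul_mem (U₀.inv_mem hu) (U₀.inv_mem hv)

/-- The element with `g⁻¹ U₀ g` opposite to `U₀`. -/
lemma opp_form (g : Matrix.SpecialLinearGroup (Fin n) (ZMod 2))
    (h : ∀ x ∈ (U₀ : Subgroup (Matrix.SpecialLinearGroup (Fin n) (ZMod 2))), g⁻¹ * x * g ∈ (U₀ : Subgroup (Matrix.SpecialLinearGroup (Fin n) (ZMod 2))) → x = 1) :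
    ∃ u ∈ (U₀ : Subgroup (Matrix.SpecialLinearGroup (Fin n) (ZMod 2))), ∃ v ∈ (U₀ : Subgroup (Matrix.SpecialLinearGroup (Fin n) (ZMod 2))), g = u * Wp (Fin.revPerm) * v := by
  obtain ⟨u, hu, v, hv, σ, hσ⟩ := bruhat_SL g
  have hanti : ∀ i j, i < j → (σ⁻¹ : Equiv.Perm (Fin n)) j < (σ⁻¹ : Equiv.Perm (Fin n)) i := by
    intro i j hij
    have hne : i ≠ j := ne_of_lt hij
    have hne' : σ⁻¹ i ≠ σ⁻¹ j := fun h3 => hne ((σ⁻¹).injective h3)
    by_contra hcon
    have hlt : σ⁻¹ i < σ⁻¹ j := lt_of_le_of_ne (not_lt.mp hcon) hne'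
    set t := Xe (σ⁻¹ i) (σ⁻¹ j) hne' with ht
    have htU : t ∈ (U₀ : Subgroup (Matrix.SpecialLinearGroup (Fin n) (ZMod 2))) := (Xe_mem hne').mpr hlt
    have hx : u⁻¹ * t * u ∈ (U₀ : Subgroup (Matrix.SpecialLinearGroup (Fin n) (ZMod 2))) :=
      U₀.mul_mem (U₀.mul_mem (U₀.inv_mem hu) htU) hu
    have e1 : (Wp σ)⁻¹ * t * Wp σ = Xe i j hne := by
      rw [ht, mul_assoc, ← Wp_conj σ hne hne']
      group
    have e2 : g⁻¹ * (u⁻¹ * t * u) * g = v * ((Wp σ)⁻¹ * t * Wp σ) * v⁻¹ := by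
      rw [← hσ]; group
    have h3 := h _ hx (by
      rw [e2, e1]
      exact U₀.mul_mem (U₀.mul_mem hv ((Xe_mem hne).mpr hij)) (U₀.inv_mem hv))
    apply Xe_ne hne'
    have e3 : t = u * (u⁻¹ * t * u) * u⁻¹ := by group
    rw [← ht, e3, h3]
    group
  have hrev := strictAnti_perm_eq _ hanti
  have hσr : σ = Fin.revPerm := by
    ext x
    have h1 := hrev (σ x)
    have h2 : (σ⁻¹ : Equiv.Perm (Fin n)) (σ x) = x := by simp
    rw [h2] at h1
    have h3 : σ x = Fin.rev x := by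
      calc σ x = Fin.rev (Fin.rev (σ x)) := (Fin.rev_rev _).symm
        _ = Fin.rev x := by rw [← h1]
    rw [h3]
    rfl
  refine ⟨u⁻¹, U₀.inv_mem hu, v⁻¹, U₀.inv_mem hv, ?_⟩
  rw [← hσr, ← hσ]
  group

/-- `U₀` is a Sylow subgroup. -/
noncomputable def USyl : Sylow 2 (Matrix.SpecialLinearGroup (Fin n) (ZMod 2)) := by
  exact (Classical.choose (U₀_pgroup (n := n)).exists_le_sylow)

lemma USyl_coe : (USyl : Sylow 2 (Matrix.SpecialLinearGroup (Fin n) (ZMod 2))) = (U₀ : Subgroup (Matrix.SpecialLinearGroup (Fin n) (ZMod 2))) := by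
  have hle : (U₀ : Subgroup (Matrix.SpecialLinearGroup (Fin n) (ZMod 2))) ≤ (USyl : Sylow 2 (Matrix.SpecialLinearGroup (Fin n) (ZMod 2))) :=
    Classical.choose_spec (U₀_pgroup (n := n)).exists_le_sylow
  set Q : Sylow 2 (Matrix.SpecialLinearGroup (Fin n) (ZMod 2)) := USyl with hQ
  apply le_antisymm _ hle
  haveI hnil : Group.IsNilpotent (Q : Subgroup (Matrix.SpecialLinearGroup (Fin n) (ZMod 2))) := Q.isPGroup'.isNilpotent
  have hcond := normalizerCondition_of_isNilpotent (G := (Q : Subgroup (Matrix.SpecialLinearGroup (Fin n) (ZMod 2))))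
  rw [normalizerCondition_iff_only_full_group_self_normalizing] at hcond
  have htop := hcond ((U₀ : Subgroup (Matrix.SpecialLinearGroup (Fin n) (ZMod 2))).subgroupOf (Q : Subgroup (Matrix.SpecialLinearGroup (Fin n) (ZMod 2)))) (by
    apply le_antisymm _ Subgroup.le_normalizer
    intro t ht
    rw [Subgroup.mem_subgroupOf]
    apply U₀_self_norm
    intro x hx
    rw [Subgroup.mem_normalizer_iff] at ht
    have h1 := (ht ⟨x, hle hx⟩).mp (by rw [Subgroup.mem_subgroupOf]; exact hx)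
    rw [Subgroup.mem_subgroupOf] at h1
    exact h1)
  intro x hx
  have : (⟨x, hx⟩ : (Q : Subgroup (Matrix.SpecialLinearGroup (Fin n) (ZMod 2)))) ∈ (U₀ : Subgroup (Matrix.SpecialLinearGroup (Fin n) (ZMod 2))).subgroupOf (Q : Subgroup (Matrix.SpecialLinearGroup (Fin n) (ZMod 2))) := by
    rw [htop]; trivial
  rwa [Subgroup.mem_subgroupOf] at this

lemma mem_USyl {x : Matrix.SpecialLinearGroup (Fin n) (ZMod 2)} : x ∈ ((USyl : Sylow 2 (Matrix.SpecialLinearGroup (Fin n) (ZMod 2))) : Subgroup (Matrix.SpecialLinearGroup (Fin n) (ZMod 2))) ↔ x ∈ (U₀ : Subgroup (Matrix.SpecialLinearGroup (Fin n) (ZMod 2))) := by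
  rw [USyl_coe]

theorem F1_SL : F1 (Matrix.SpecialLinearGroup (Fin n) (ZMod 2)) := by
  intro P g hg
  obtain ⟨a, rfl⟩ := MulAction.exists_smul_eq (Matrix.SpecialLinearGroup (Fin n) (ZMod 2)) (USyl (n := n)) P
  rw [mem_smul_iff, mem_USyl]
  apply U₀_self_norm
  intro x hx
  have h1 : g * (a * x * a⁻¹) * g⁻¹ ∈ ((a • USyl : Sylow 2 (Matrix.SpecialLinearGroup (Fin n) (ZMod 2))) : Subgroup (Matrix.SpecialLinearGroup (Fin n) (ZMod 2))) := by
    rw [← hg, mem_smul_iff, mem_smul_iff]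
    have e : a⁻¹ * (g⁻¹ * (g * (a * x * a⁻¹) * g⁻¹) * g) * a = x := by group
    rw [e]
    exact mem_USyl.mpr hx
  rw [mem_smul_iff, mem_USyl] at h1
  have e : a⁻¹ * g * a * x * (a⁻¹ * g * a)⁻¹ = a⁻¹ * (g * (a * x * a⁻¹) * g⁻¹) * a := by group
  rw [e]
  exact h1

theorem F2_SL : F2 (Matrix.SpecialLinearGroup (Fin n) (ZMod 2)) := by
  intro P P' P'' h1 h2
  obtain ⟨a, rfl⟩ := MulAction.exists_smul_eq (Matrix.SpecialLinearGroup (Fin n) (ZMod 2)) (USyl (n := n)) P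
  obtain ⟨b, rfl⟩ := MulAction.exists_smul_eq (Matrix.SpecialLinearGroup (Fin n) (ZMod 2)) (USyl (n := n)) P'
  obtain ⟨c, rfl⟩ := MulAction.exists_smul_eq (Matrix.SpecialLinearGroup (Fin n) (ZMod 2)) (USyl (n := n)) P''
  have key : ∀ d : Matrix.SpecialLinearGroup (Fin n) (ZMod 2),
      ((a • USyl : Sylow 2 (Matrix.SpecialLinearGroup (Fin n) (ZMod 2))) : Subgroup (Matrix.SpecialLinearGroup (Fin n) (ZMod 2))) ⊓ ((d • USyl : Sylow 2 (Matrix.SpecialLinearGroup (Fin n) (ZMod 2))) : Subgroup (Matrix.SpecialLinearGroup (Fin n) (ZMod 2))) = ⊥ →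
      ∃ u ∈ (U₀ : Subgroup (Matrix.SpecialLinearGroup (Fin n) (ZMod 2))), ∃ v ∈ (U₀ : Subgroup (Matrix.SpecialLinearGroup (Fin n) (ZMod 2))), a⁻¹ * d = u * Wp (Fin.revPerm) * v := by
    intro d hd
    apply opp_form
    intro x hx hx2
    have hmem : a * x * a⁻¹ ∈ ((a • USyl : Sylow 2 (Matrix.SpecialLinearGroup (Fin n) (ZMod 2))) : Subgroup (Matrix.SpecialLinearGroup (Fin n) (ZMod 2))) ⊓ ((d • USyl : Sylow 2 (Matrix.SpecialLinearGroup (Fin n) (ZMod 2))) : Subgroup (Matrix.SpecialLinearGroup (Fin n) (ZMod 2))) := by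
      rw [Subgroup.mem_inf, mem_smul_iff, mem_smul_iff, mem_USyl, mem_USyl]
      constructor
      · have e : a⁻¹ * (a * x * a⁻¹) * a = x := by group
        rw [e]
        exact hx
      · have e : d⁻¹ * (a * x * a⁻¹) * d = (a⁻¹ * d)⁻¹ * x * (a⁻¹ * d) := by group
        rw [e]
        exact hx2
    rw [hd] at hmem
    have h3 : a * x * a⁻¹ = 1 := hmem
    have e : x = a⁻¹ * (a * x * a⁻¹) * a := by group
    rw [e, h3]
    group
  obtain ⟨u₁, hu₁, v₁, hv₁, e₁⟩ := key b h1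
  obtain ⟨u₂, hu₂, v₂, hv₂, e₂⟩ := key c h2
  refine ⟨a * (u₂ * u₁⁻¹) * a⁻¹, ?_, ?_⟩
  · rw [mem_smul_iff, mem_USyl]
    have e : a⁻¹ * (a * (u₂ * u₁⁻¹) * a⁻¹) * a = u₂ * u₁⁻¹ := by group
    rw [e]
    exact U₀.mul_mem hu₂ (U₀.inv_mem hu₁)
  · apply smul_eq_of_le
    intro x hx
    rw [mem_smul_iff, mem_USyl] at hx
    rw [mem_smul_iff, mem_USyl]
    have hb : b = a * (u₁ * Wp (Fin.revPerm) * v₁) := by
      rw [← e₁]; group
    have hc : c = a * (u₂ * Wp (Fin.revPerm) * v₂) := by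
      rw [← e₂]; group
    have e : c⁻¹ * (a * (u₂ * u₁⁻¹) * a⁻¹ * x * (a * (u₂ * u₁⁻¹) * a⁻¹)⁻¹) * c = (v₂⁻¹ * v₁) * (b⁻¹ * x * b) * (v₂⁻¹ * v₁)⁻¹ := by
      rw [hb, hc]
      group
    rw [e]
    exact U₀.mul_mem (U₀.mul_mem (U₀.mul_mem (U₀.inv_mem hv₂) hv₁) hx) (U₀.inv_mem (U₀.mul_mem (U₀.inv_mem hv₂) hv₁))

end Cfsg.Agent.Lib.KS2.BruhatF2
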