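import Cfsg.Agent.Lib.FF.CD2
import Mathlib

/-!
# The Chermak–Delgado lattice of a group: dimension calculus, atoms above an abelian member.
Owner: helper15.
-/

set_option autoImplicit false
set_option linter.unusedSectionVars false
set_option linter.unusedVariables false

namespace Cfsg.Agent.Lib.KS2.CLG

open Subgroup Cfsg Cfsg.Agent.Lib.FF
open scoped Pointwise commutatorElement

variable {G : Type*} [Group G] [Finite G]

/-- centralizer, as an abbreviation. -/
abbrev CC (W : Subgroup G) : Subgroup G := centralizer (W : Set G)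

/-- the conjugate `t W t⁻¹`. -/
abbrev cj (t : G) (W : Subgroup G) : Subgroup G := W.map (MulAut.conj t).toMonoidHom

/-- membership in the Chermak–Delgado lattice. -/
abbrev LL (W : Subgroup G) : Prop := IsCentralizerLarge W

theorem ll_sup {A B : Subgroup G} (h : LL A) (h' : LL B) : LL (A ⊔ B) := (cd_main h h').1
theorem ll_inf {A B : Subgroup G} (h : LL A) (h' : LL B) : LL (A ⊓ B) := (cd_main h h').2.1
theorem ll_cc {A : Subgroup G} (h : LL A) : LL (CC A) := isCentralizerLarge_centralizer h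
theorem cc_cc {A : Subgroup G} (h : LL A) : CC (CC A) = A := (eq_centralizer_centralizer h).symm
theorem cc_sup (A B : Subgroup G) : CC (A ⊔ B) = CC A ⊓ CC B := centralizer_sup_eq A B
theorem cc_inf {A B : Subgroup G} (h : LL A) (h' : LL B) : CC (A ⊓ B) = CC A ⊔ CC B :=
  (cd_main h h').2.2.2.1

theorem mem_sup_mul {A B : Subgroup G} (h : LL A) (h' : LL B) {x : G} (hx : x ∈ A ⊔ B) :
    ∃ a ∈ A, ∃ b ∈ B, a * b = x := by
  have h1 : x ∈ ((A ⊔ B : Subgroup G) : Set G) := hx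
  rw [cd_mul h h'] at h1
  obtain ⟨a, ha, b, hb, rfl⟩ := Set.mem_mul.mp h1
  exact ⟨a, ha, b, hb, rfl⟩

/-- additive size of a subgroup. -/
noncomputable def dm (W : Subgroup G) : ℕ := ArithmeticFunction.cardFactors (Nat.card W)

/-- additive size of the maximal measure. -/
noncomputable def mm (G : Type*) [Group G] : ℕ :=
  ArithmeticFunction.cardFactors (maxCentralizerProduct G)

theorem dm_mono {A B : Subgroup G} (h : A ≤ B) : dm A ≤ dm B := by
  obtain ⟨c, hc⟩ := Subgroup.card_dvd_of_le h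
  have hB : Nat.card B ≠ 0 := Nat.card_pos.ne'
  have hc0 : c ≠ 0 := by
    rintro rfl
    simp at hc
    exact hB hc
  have hA : Nat.card A ≠ 0 := Nat.card_pos.ne'
  unfold dm
  rw [hc, ArithmeticFunction.cardFactors_mul hA hc0]
  omega

theorem eq_of_le_dm {A B : Subgroup G} (h : A ≤ B) (hd : dm B ≤ dm A) : A = B := by
  obtain ⟨c, hc⟩ := Subgroup.card_dvd_of_le h
  have hB : Nat.card B ≠ 0 := Nat.card_pos.ne'
  have hc0 : c ≠ 0 := by
    rintro rfl
    simp at hc
    exact hB hc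
  have hA : Nat.card A ≠ 0 := Nat.card_pos.ne'
  unfold dm at hd
  rw [hc, ArithmeticFunction.cardFactors_mul hA hc0] at hd
  have h0 : ArithmeticFunction.cardFactors c = 0 := by omega
  rcases ArithmeticFunction.cardFactors_eq_zero_iff_eq_zero_or_one.mp h0 with h1 | h1
  · exact absurd h1 hc0
  · apply Subgroup.eq_of_le_of_card_ge h
    rw [hc, h1, mul_one]

theorem dm_sup_inf {A B : Subgroup G} (h : LL A) (h' : LL B) :
    dm (A ⊔ B) + dm (A ⊓ B) = dm A + dm B := by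
  have h1 := (cd_main h h').2.2.1
  have := congrArg (fun n => ArithmeticFunction.cardFactors n) h1
  rw [ArithmeticFunction.cardFactors_mul Nat.card_pos.ne' Nat.card_pos.ne',
    ArithmeticFunction.cardFactors_mul Nat.card_pos.ne' Nat.card_pos.ne'] at this
  exact this

theorem dm_add_cc {A : Subgroup G} (h : LL A) : dm A + dm (CC A) = mm G := by
  have h1 : Nat.card A * Nat.card (CC A) = maxCentralizerProduct G := h
  have := congrArg (fun n => ArithmeticFunction.cardFactors n) h1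
  rw [ArithmeticFunction.cardFactors_mul Nat.card_pos.ne' Nat.card_pos.ne'] at this
  exact this

theorem dm_conj (W : Subgroup G) (t : G) : dm (cj t W) = dm W := by
  unfold dm
  rw [card_conj]

theorem dm_eq_of_eq {A B : Subgroup G} (h : A = B) : dm A = dm B := by rw [h]

/-- the modular law in the lattice. -/
theorem mod_law {A B C : Subgroup G} (hA : LL A) (hC : LL C) (hAB : A ≤ B) :
    A ⊔ (B ⊓ C) = B ⊓ (A ⊔ C) := by
  apply le_antisymm
  · exact sup_le (le_inf hAB le_sup_left) (inf_le_inf_left _ le_sup_right)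
  · rintro x ⟨hxB, hx⟩
    obtain ⟨a, ha, c, hc, rfl⟩ := mem_sup_mul hA hC hx
    have hcB : c ∈ B := by
      have := B.mul_mem (B.inv_mem (hAB ha)) hxB
      simpa using this
    exact Subgroup.mul_mem_sup ha ⟨hcB, hc⟩

theorem le_cc_of_ab {W : Subgroup G} (h : IsMulCommutative W) : W ≤ CC W := fun x hx =>
  Subgroup.mem_centralizer_iff.mpr (fun y hy => comm_of_isMulCommutative h hy hx)

theorem ab_of_le {W W' : Subgroup G} (h : IsMulCommutative W') (hle : W ≤ W') : IsMulCommutative W :=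
  isMulCommutative_of_comm (fun a ha b hb => comm_of_isMulCommutative h (hle ha) (hle hb))

theorem cc_anti {A B : Subgroup G} (h : A ≤ B) : CC B ≤ CC A := Subgroup.centralizer_le h

omit [Finite G] in
theorem cj_eq_of_mem_cc {W : Subgroup G} {t : G} (ht : t ∈ CC W) : cj t W = W := by
  ext x
  rw [mem_conj_iff]
  constructor
  · intro h
    have h1 := Subgroup.mem_centralizer_iff.mp ht _ h
    have h2 : t⁻¹ * x * t = x := by
      have h3 : t⁻¹ * x * t * t = t * (t⁻¹ * x * t) * t⁻¹ * t := by rw [h1]; group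
      have h4 : t * (t⁻¹ * x * t) * t⁻¹ * t = x * t := by group
      rw [h4] at h3
      exact mul_right_cancel h3
    rwa [h2] at h
  · intro h
    have h1 := Subgroup.mem_centralizer_iff.mp ht _ h
    have h2 : t⁻¹ * x * t = x := by
      rw [mul_assoc, h1]; group
    rwa [h2]

omit [Finite G] in
theorem cj_cj (a b : G) (W : Subgroup G) : cj a (cj b W) = cj (a * b) W := conj_mul_conj W a b

omit [Finite G] in
theorem cj_one (W : Subgroup G) : cj 1 W = W := by
  ext x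
  rw [mem_conj_iff]
  simp

omit [Finite G] in
theorem cj_inv_cj (t : G) (W : Subgroup G) : cj t⁻¹ (cj t W) = W := by
  rw [cj_cj]; simp [cj_one]

omit [Finite G] in
theorem cj_cj_inv (t : G) (W : Subgroup G) : cj t (cj t⁻¹ W) = W := by
  rw [cj_cj]; simp [cj_one]

omit [Finite G] in
theorem cj_sup (t : G) (A B : Subgroup G) : cj t (A ⊔ B) = cj t A ⊔ cj t B := Subgroup.map_sup _ _ _

omit [Finite G] in
theorem cj_inf (t : G) (A B : Subgroup G) : cj t (A ⊓ B) = cj t A ⊓ cj t B :=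
  Subgroup.map_inf _ _ _ (MulEquiv.injective _)

omit [Finite G] in
theorem cj_mono (t : G) {A B : Subgroup G} (h : A ≤ B) : cj t A ≤ cj t B := Subgroup.map_mono h

omit [Finite G] in
theorem cj_cc (t : G) (W : Subgroup G) : CC (cj t W) = cj t (CC W) := centralizer_conj_eq W t

theorem ll_cj {W : Subgroup G} (h : LL W) (t : G) : LL (cj t W) := IsCentralizerLarge.conj h t

omit [Finite G] in
theorem ab_cj {W : Subgroup G} (h : IsMulCommutative W) (t : G) : IsMulCommutative (cj t W) := by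
  apply isMulCommutative_of_comm
  rintro _ ⟨a, ha, rfl⟩ _ ⟨b, hb, rfl⟩
  have := comm_of_isMulCommutative h ha hb
  simp only [MulEquiv.coe_toMonoidHom, MulAut.conj_apply]
  calc t * a * t⁻¹ * (t * b * t⁻¹) = t * (a * b) * t⁻¹ := by group
    _ = t * (b * a) * t⁻¹ := by rw [this]
    _ = _ := by group

omit [Finite G] in
theorem conj_mem_cj {W : Subgroup G} (t : G) {x : G} (hx : x ∈ W) : t * x * t⁻¹ ∈ cj t W :=
  conj_mem_conj hx

/-- atoms above `E` among the abelian members of the lattice. -/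
def At (E u : Subgroup G) : Prop :=
  LL u ∧ IsMulCommutative u ∧ E ≤ u ∧ E ≠ u ∧ ∀ W, LL W → E ≤ W → W ≤ u → W = E ∨ W = u

section atoms

variable {E u v : Subgroup G}

theorem At.ll (hu : At E u) : LL u := hu.1
theorem At.ab (hu : At E u) : IsMulCommutative u := hu.2.1
theorem At.le (hu : At E u) : E ≤ u := hu.2.2.1
theorem At.ne (hu : At E u) : E ≠ u := hu.2.2.2.1
theorem At.min (hu : At E u) {W : Subgroup G} (hW : LL W) (h1 : E ≤ W) (h2 : W ≤ u) : W = E ∨ W = u :=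
  hu.2.2.2.2 W hW h1 h2

theorem At.dm_lt (hu : At E u) : dm E < dm u := by
  by_contra h
  exact hu.ne (eq_of_le_dm hu.le (by omega))

theorem At.inf (hu : At E u) {W : Subgroup G} (hW : LL W) (hEW : E ≤ W) : u ⊓ W = E ∨ u ≤ W := by
  rcases hu.min (ll_inf hu.ll hW) (le_inf hu.le hEW) inf_le_left with h | h
  · left; exact h
  · right; exact inf_eq_left.mp h

theorem At.le_X (hu : At E u) : u ≤ CC E := fun x hx =>
  Subgroup.mem_centralizer_iff.mpr (fun y hy => comm_of_isMulCommutative hu.ab (hu.le hy) hx)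

theorem At.inf_ne (hu : At E u) (hv : At E v) (huv : u ≠ v) : u ⊓ v = E := by
  rcases hu.inf hv.ll hv.le with h | h
  · exact h
  · rcases hv.min hu.ll hu.le h with h1 | h1
    · exact absurd h1.symm hu.ne
    · exact absurd h1 huv

theorem At.le_cc (hu : At E u) : E ≤ CC u := hu.le.trans (le_cc_of_ab hu.ab)

/-- `X = C(E)` normalizes each atom. -/
theorem At.conj_eq (hE : LL E) (hu : At E u) {t : G} (ht : t ∈ CC E) : cj t u = u := by
  have hEt : cj t E = E := cj_eq_of_mem_cc ht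
  have hEV : E ≤ cj t u := by
    conv_lhs => rw [← hEt]
    exact cj_mono t hu.le
  have hVL : LL (cj t u) := ll_cj hu.ll t
  rcases hu.min (ll_inf hVL hu.ll) (le_inf hEV hu.le) inf_le_right with h | h
  · have h1 : t ∈ CC (cj t u ⊓ u) := by rw [h]; exact ht
    rw [cc_inf hVL hu.ll] at h1
    obtain ⟨c₂, hc₂, c₁, hc₁, rfl⟩ := mem_sup_mul (ll_cc hVL) (ll_cc hu.ll) h1
    have e1 : cj (c₂ * c₁) u = cj c₂ u := by
      rw [← cj_cj, cj_eq_of_mem_cc hc₁]
    rw [e1] at hc₂ ⊢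
    rw [cj_cc, mem_conj_iff] at hc₂
    have : c₂ ∈ CC u := by simpa using hc₂
    exact cj_eq_of_mem_cc this
  · have h1 : u ≤ cj t u := inf_eq_right.mp h
    exact (Subgroup.eq_of_le_of_card_ge h1 (le_of_eq (card_conj u t))).symm

theorem At.conj_mem (hE : LL E) (hu : At E u) {t x : G} (ht : t ∈ CC E) (hx : x ∈ u) : t * x * t⁻¹ ∈ u := by
  have := conj_mem_cj (W := u) t hx
  rwa [hu.conj_eq hE ht] at this

theorem At.comm_mem (hE : LL E) (hu : At E u) (hv : At E v) (huv : u ≠ v) {x y : G} (hx : x ∈ u) (hy : y ∈ v) :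
    ⁅x, y⁆ ∈ E := by
  rw [← hu.inf_ne hv huv]
  constructor
  · have h1 := hu.conj_mem hE (hv.le_X hy) (u.inv_mem hx)
    have : ⁅x, y⁆ = x * (y * x⁻¹ * y⁻¹) := by simp only [commutatorElement_def]; group
    rw [this]
    exact u.mul_mem hx h1
  · have h1 := hv.conj_mem hE (hu.le_X hx) hy
    have : ⁅x, y⁆ = (x * y * x⁻¹) * y⁻¹ := by simp only [commutatorElement_def]
    rw [this]
    exact v.mul_mem h1 (v.inv_mem hy)

/-- Commuting atoms. -/
theorem At.cc_iff {u v : Subgroup G} : u ≤ CC v ↔ v ≤ CC u := by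
  rw [Subgroup.le_centralizer_iff]

/-- Hyperbolic atoms have the same size. -/
theorem At.dm_eq_of_hyp (hE : LL E) (hu : At E u) (hv : At E v) (h1 : u ⊓ CC v = E) (h2 : v ⊓ CC u = E) :
    dm u = dm v := by
  have hXu : u ⊔ CC v ≤ CC E := sup_le hu.le_X (cc_anti hv.le)
  have hXv : v ⊔ CC u ≤ CC E := sup_le hv.le_X (cc_anti hu.le)
  have a1 := dm_sup_inf hu.ll (ll_cc hv.ll)
  have a2 := dm_sup_inf hv.ll (ll_cc hu.ll)
  rw [h1] at a1
  rw [h2] at a2
  have a3 := dm_mono hXu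
  have a4 := dm_mono hXv
  have a5 := dm_add_cc hE
  have a6 := dm_add_cc hu.ll
  have a7 := dm_add_cc hv.ll
  omega

theorem At.hyp_of_not_le (hu : At E u) (hv : At E v) (h : ¬ v ≤ CC u) : u ⊓ CC v = E ∧ v ⊓ CC u = E := by
  constructor
  · rcases hu.inf (ll_cc hv.ll) hv.le_cc with h1 | h1
    · exact h1
    · exact absurd (At.cc_iff.mp h1) h
  · rcases hv.inf (ll_cc hu.ll) hu.le_cc with h1 | h1
    · exact h1
    · exact absurd h1 h

end atoms

section pure

/-! Pure commutator identities. -/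

omit [Finite G] in
theorem cm_mul_left (x y z : G) (h : ⁅y, z⁆ * x = x * ⁅y, z⁆) : ⁅x * y, z⁆ = ⁅y, z⁆ * ⁅x, z⁆ := by
  have e : ⁅x * y, z⁆ = x * ⁅y, z⁆ * x⁻¹ * ⁅x, z⁆ := by
    simp only [commutatorElement_def]; group
  rw [e, ← h]
  group

omit [Finite G] in
theorem cm_mul_right (x y z : G) (h : ⁅x, z⁆ * y = y * ⁅x, z⁆) : ⁅x, y * z⁆ = ⁅x, y⁆ * ⁅x, z⁆ := by
  have e : ⁅x, y * z⁆ = ⁅x, y⁆ * (y * ⁅x, z⁆ * y⁻¹) := by
    simp only [commutatorElement_def]; group
  rw [e, ← h]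
  group

omit [Finite G] in
/-- Expansion of a commutation in class two. -/
theorem comm_prod (a₁ a₂ x₁ x₂ : G) (ha : a₁ * a₂ = a₂ * a₁) (hx : x₁ * x₂ = x₂ * x₁)
    (hα1 : ⁅a₁, x₂⁆ * a₁ = a₁ * ⁅a₁, x₂⁆) (hα2 : ⁅a₁, x₂⁆ * a₂ = a₂ * ⁅a₁, x₂⁆)
    (hβ1 : ⁅x₁, a₂⁆ * a₁ = a₁ * ⁅x₁, a₂⁆) (hβ2 : ⁅x₁, a₂⁆ * a₂ = a₂ * ⁅x₁, a₂⁆) :
    a₁ * x₁ * (a₂ * x₂) = a₂ * x₂ * (a₁ * x₁) ↔ ⁅a₁, x₂⁆ * ⁅x₁, a₂⁆ = 1 := by
  set α := ⁅a₁, x₂⁆ with hα
  set β := ⁅x₁, a₂⁆ with hβ
  have e1 : x₁ * a₂ = β * a₂ * x₁ := by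
    rw [hβ]; simp only [commutatorElement_def]; group
  have e2 : x₂ * a₁ = α⁻¹ * a₁ * x₂ := by
    rw [hα]; simp only [commutatorElement_def]; group
  have lhs : a₁ * x₁ * (a₂ * x₂) = β * (a₁ * a₂ * x₁ * x₂) := by
    calc a₁ * x₁ * (a₂ * x₂) = a₁ * (x₁ * a₂) * x₂ := by group
      _ = (a₁ * β) * a₂ * x₁ * x₂ := by rw [e1]; group
      _ = (β * a₁) * a₂ * x₁ * x₂ := by rw [hβ1]
      _ = _ := by group
  have hαi2 : α⁻¹ * a₂ = a₂ * α⁻¹ := by
    have : a₂ * α⁻¹ = α⁻¹ * (α * a₂) * α⁻¹ := by group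
    rw [this, hα2]; group
  have rhs : a₂ * x₂ * (a₁ * x₁) = α⁻¹ * (a₁ * a₂ * x₁ * x₂) := by
    calc a₂ * x₂ * (a₁ * x₁) = a₂ * (x₂ * a₁) * x₁ := by group
      _ = (a₂ * α⁻¹) * a₁ * x₂ * x₁ := by rw [e2]; group
      _ = (α⁻¹ * a₂) * a₁ * x₂ * x₁ := by rw [hαi2]
      _ = α⁻¹ * (a₂ * a₁) * (x₂ * x₁) := by group
      _ = α⁻¹ * (a₁ * a₂) * (x₁ * x₂) := by rw [← ha, ← hx]
      _ = _ := by group
  rw [lhs, rhs]
  constructor
  · intro h
    have h1 := mul_right_cancel h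
    rw [h1]; group
  · intro h
    have h1 : β = α⁻¹ := by
      rw [eq_inv_iff_mul_eq_one]
      have : β * α = α⁻¹ * (α * β) * α := by group
      rw [this, h]; group
    rw [h1]

end pure

end Cfsg.Agent.Lib.KS2.CLG
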