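import Cfsg.Agent.Lib.KS2.CLA
import Mathlib

/-!
# Lines and third points in the Chermak–Delgado lattice.  Owner: helper15.
-/

set_option autoImplicit false
set_option linter.unusedSectionVars false
set_option linter.unusedVariables false

namespace Cfsg.Agent.Lib.KS2.CLG

open Subgroup Cfsg Cfsg.Agent.Lib.FF
open scoped Pointwise commutatorElement

variable {G : Type*} [Group G] [Finite G]

/-- abelian points of the line `u ⊔ v` other than `u`. -/
def Gph (E u v S : Subgroup G) : Prop :=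
  LL S ∧ IsMulCommutative S ∧ E ≤ S ∧ S ≤ u ⊔ v ∧ S ⊓ u = E ∧ S ⊔ u = u ⊔ v

/-- third points on the line `a ⊔ b`. -/
def Pt (E a b W : Subgroup G) : Prop :=
  LL W ∧ E ≤ W ∧ W ≤ a ⊔ b ∧ W ⊓ a = E ∧ W ⊓ b = E ∧ W ⊔ a = a ⊔ b ∧ W ⊔ b = a ⊔ b

/-- the relation of having a third point on the line. -/
def Rl (E a b : Subgroup G) : Prop := a = b ∨ ∃ W, Pt E a b W

variable {E u v b S : Subgroup G}

theorem gph_refl (hu : At E u) (hv : At E v) (huv : u ≠ v) : Gph E u v v :=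
  ⟨hv.ll, hv.ab, hv.le, le_sup_right, hv.inf_ne hu huv.symm, sup_comm _ _⟩

theorem Gph.dm_eq (hu : At E u) (hv : At E v) (huv : u ≠ v) (h : Gph E u v S) : dm S = dm v := by
  obtain ⟨hSL, hSab, hES, hSle, hSu, hSsup⟩ := h
  have a1 := dm_sup_inf hSL hu.ll
  rw [hSu, hSsup] at a1
  have a2 := dm_sup_inf hu.ll hv.ll
  rw [hu.inf_ne hv huv] at a2
  omega

theorem Gph.at (hu : At E u) (hv : At E v) (huv : u ≠ v) (h : Gph E u v S) : At E S := by
  have hd := h.dm_eq hu hv huv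
  obtain ⟨hSL, hSab, hES, hSle, hSu, hSsup⟩ := h
  have a2 := dm_sup_inf hu.ll hv.ll
  rw [hu.inf_ne hv huv] at a2
  have a3 := hv.dm_lt
  refine ⟨hSL, hSab, hES, ?_, ?_⟩
  · intro h0
    rw [← h0] at hd
    omega
  · intro W hW hEW hWS
    have hWu : W ⊓ u = E :=
      le_antisymm (by rw [← hSu]; exact inf_le_inf_right _ hWS) (le_inf hEW hu.le)
    have b1 := dm_sup_inf hW hu.ll
    rw [hWu] at b1
    have hY := hv.min (ll_inf (ll_sup hW hu.ll) hv.ll) (le_inf (hEW.trans le_sup_left) hv.le) inf_le_right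
    have hS1 : (W ⊔ u) ⊔ v = u ⊔ v :=
      le_antisymm (sup_le (sup_le (hWS.trans hSle) le_sup_left) le_sup_right)
        (sup_le (le_sup_right.trans le_sup_left) le_sup_right)
    have b2 := dm_sup_inf (ll_sup hW hu.ll) hv.ll
    rw [hS1] at b2
    rcases hY with hY | hY
    · left
      rw [hY] at b2
      exact (eq_of_le_dm hEW (by omega)).symm
    · right
      have hv2 : v ≤ W ⊔ u := inf_eq_right.mp hY
      have hS2 : W ⊔ u = u ⊔ v :=
        le_antisymm (sup_le (hWS.trans hSle) le_sup_left) (sup_le le_sup_right hv2)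
      rw [hS2] at b1
      exact eq_of_le_dm hWS (by omega)

/-- A second point on a line: then all three points are on the same line and have equal size. -/
theorem gph_third (hu : At E u) (hv : At E v) (huv : u ≠ v) (h : Gph E u v S) (hne : S ≠ v) :
    Pt E u S v ∧ Pt E u v S ∧ dm u = dm v := by
  have hd := h.dm_eq hu hv huv
  have hSat := h.at hu hv huv
  obtain ⟨hSL, hSab, hES, hSle, hSu, hSsup⟩ := h
  have hSv : S ⊓ v = E := hSat.inf_ne hv hne
  have a1 := dm_sup_inf hSL hv.ll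
  rw [hSv] at a1
  have a2 := dm_sup_inf hu.ll hv.ll
  rw [hu.inf_ne hv huv] at a2
  have a3 := hv.dm_lt
  have hle : S ⊔ v ≤ u ⊔ v := sup_le hSle le_sup_right
  have hsv : S ⊔ v = u ⊔ v := by
    rcases hu.inf (ll_sup hSL hv.ll) (hES.trans le_sup_left) with h1 | h1
    · exfalso
      have a4 := dm_sup_inf hu.ll (ll_sup hSL hv.ll)
      rw [h1] at a4
      have : u ⊔ (S ⊔ v) = u ⊔ v := by
        apply le_antisymm (sup_le le_sup_left hle)
        exact sup_le le_sup_left (le_sup_right.trans le_sup_right)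
      rw [this] at a4
      omega
    · exact le_antisymm hle (sup_le h1 le_sup_right)
  have hsu : u ⊔ S = u ⊔ v := by rw [sup_comm]; exact hSsup
  have hdd : dm u = dm v := by
    rw [hsv] at a1
    omega
  refine ⟨⟨hv.ll, hv.le, ?_, hv.inf_ne hu huv.symm, ?_, ?_, ?_⟩,
    ⟨hSL, hES, hSle, hSu, hSv, hSsup, hsv⟩, hdd⟩
  · rw [hsu]; exact le_sup_right
  · rw [inf_comm]; exact hSv
  · rw [hsu, sup_comm]
  · rw [hsu, sup_comm]; exact hsv

theorem rl_of_gph (hu : At E u) (hv : At E v) (huv : u ≠ v) (hr : Rl E u v) (h : Gph E u v S) :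
    Rl E u S := by
  by_cases hne : S = v
  · rw [hne]; exact hr
  · exact Or.inr ⟨v, (gph_third hu hv huv h hne).1⟩

theorem Pt.dims {a c W : Subgroup G} (ha : At E a) (hc : At E c) (hac : a ≠ c) (h : Pt E a c W) :
    dm W = dm a ∧ dm a = dm c ∧ dm (a ⊔ c) + dm E = dm a + dm c := by
  obtain ⟨hL, hE, hle, h1, h2, h3, h4⟩ := h
  have a1 := dm_sup_inf hL ha.ll
  rw [h1, h3] at a1
  have a2 := dm_sup_inf hL hc.ll
  rw [h2, h4] at a2
  have a3 := dm_sup_inf ha.ll hc.ll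
  rw [ha.inf_ne hc hac] at a3
  omega

theorem Pt.symm {a c W : Subgroup G} (h : Pt E a c W) : Pt E c a W := by
  obtain ⟨hL, hE, hle, h1, h2, h3, h4⟩ := h
  refine ⟨hL, hE, ?_, h2, h1, ?_, ?_⟩
  · rwa [sup_comm]
  · rw [h4, sup_comm]
  · rw [h3, sup_comm]

theorem rl_symm {a c : Subgroup G} (h : Rl E a c) : Rl E c a := by
  rcases h with h | ⟨W, hW⟩
  · exact Or.inl h.symm
  · exact Or.inr ⟨W, hW.symm⟩

theorem rl_refl (a : Subgroup G) : Rl E a a := Or.inl rfl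

/-- Veblen–Young (Pasch): the relation is transitive on atoms. -/
theorem rl_trans {a c : Subgroup G} (ha : At E a) (hb : At E b) (hc : At E c)
    (h1 : Rl E a b) (h2 : Rl E b c) : Rl E a c := by
  by_cases hab : a = b
  · rw [hab]; exact h2
  by_cases hbc : b = c
  · rw [← hbc]; exact h1
  by_cases hac : a = c
  · exact Or.inl hac
  rcases h1 with h1 | ⟨s, hs⟩
  · exact absurd h1 hab
  rcases h2 with h2 | ⟨t, ht⟩
  · exact absurd h2 hbc
  right
  obtain ⟨D1, D2, D3⟩ := hs.dims ha hb hab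
  obtain ⟨D4, D5, D6⟩ := ht.dims hb hc hbc
  obtain ⟨hsL, hEs, hsle, hsa, hsb, hssa, hssb⟩ := hs
  obtain ⟨htL, hEt, htle, htb, htc, htsb, htsc⟩ := ht
  have Dac := dm_sup_inf ha.ll hc.ll
  rw [ha.inf_ne hc hac] at Dac
  have Dbc := dm_sup_inf hb.ll hc.ll
  rw [hb.inf_ne hc hbc] at Dbc
  have La := ha.dm_lt
  by_cases hcab : c ≤ a ⊔ b
  · have hsup : a ⊔ c = a ⊔ b := eq_of_le_dm (sup_le le_sup_left hcab) (by omega)
    have hsup2 : b ⊔ c = a ⊔ b := eq_of_le_dm (sup_le le_sup_right hcab) (by omega)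
    refine ⟨b, hb.ll, hb.le, ?_, hb.inf_ne ha (Ne.symm hab), hb.inf_ne hc hbc, ?_, ?_⟩
    · rw [hsup]; exact le_sup_right
    · rw [hsup, sup_comm]
    · rw [hsup, hsup2]
  · have hc0 : (a ⊔ b) ⊓ c = E := by
      rcases hc.inf (ll_sup ha.ll hb.ll) (ha.le.trans le_sup_left) with h | h
      · rwa [inf_comm]
      · exact absurd h hcab
    have hmid : (a ⊔ b) ⊓ (b ⊔ c) = b := by
      rw [← mod_law hb.ll hc.ll (le_sup_right : b ≤ a ⊔ b), hc0]
      exact sup_eq_left.mpr hb.le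
    have hst : s ⊓ t = E := by
      apply le_antisymm _ (le_inf hEs hEt)
      have : s ⊓ t ≤ b := by
        rw [← hmid]
        exact inf_le_inf hsle htle
      rw [← hsb]
      exact le_inf inf_le_left this
    have D7 := dm_sup_inf hsL htL
    rw [hst] at D7
    have Hac := ll_sup ha.ll hc.ll
    have Hst := ll_sup hsL htL
    have D8 := dm_sup_inf Hst Hac
    have D9 := dm_sup_inf (ll_sup ha.ll hb.ll) hc.ll
    rw [hc0] at D9
    have hle : (s ⊔ t) ⊔ (a ⊔ c) ≤ (a ⊔ b) ⊔ c := by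
      refine sup_le (sup_le (hsle.trans le_sup_left) (htle.trans (sup_le ?_ le_sup_right)))
        (sup_le (le_sup_left.trans le_sup_left) le_sup_right)
      exact le_sup_right.trans le_sup_left
    have D10 := dm_mono hle
    have HW := ll_inf Hst Hac
    have hEW : E ≤ (s ⊔ t) ⊓ (a ⊔ c) := le_inf (hEs.trans le_sup_left) (ha.le.trans le_sup_left)
    have hWa : (s ⊔ t) ⊓ (a ⊔ c) ⊓ a = E := by
      rcases ha.inf HW hEW with h | h
      · rwa [inf_comm]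
      · exfalso
        have h3 : a ≤ s ⊔ t := h.trans inf_le_left
        have h4 : a ⊔ b ≤ s ⊔ t := by
          rw [← hssa]
          exact sup_le le_sup_left h3
        have h5 : a ⊔ b = s ⊔ t := eq_of_le_dm h4 (by omega)
        have h6 : t ≤ b := by
          rw [← hmid]
          refine le_inf ?_ htle
          rw [h5]; exact le_sup_right
        have h7 : t = E := by
          rw [← htb]
          exact (inf_eq_left.mpr h6).symm
        rw [h7] at D4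
        omega
    have hWc : (s ⊔ t) ⊓ (a ⊔ c) ⊓ c = E := by
      rcases hc.inf HW hEW with h | h
      · rwa [inf_comm]
      · exfalso
        have h3 : c ≤ s ⊔ t := h.trans inf_le_left
        have h4 : b ⊔ c ≤ s ⊔ t := by
          rw [← htsc]
          exact sup_le le_sup_right h3
        have h5 : b ⊔ c = s ⊔ t := eq_of_le_dm h4 (by omega)
        have h6 : s ≤ b := by
          rw [← hmid]
          refine le_inf hsle ?_
          rw [h5]; exact le_sup_left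
        have h7 : s = E := by
          rw [← hsb]
          exact (inf_eq_left.mpr h6).symm
        rw [h7] at D1
        omega
    have D11 := dm_sup_inf HW ha.ll
    rw [hWa] at D11
    have D12 := dm_sup_inf HW hc.ll
    rw [hWc] at D12
    refine ⟨_, HW, hEW, inf_le_right, hWa, hWc, ?_, ?_⟩
    · exact (eq_of_le_dm (sup_le inf_le_right le_sup_left) (by omega))
    · exact (eq_of_le_dm (sup_le inf_le_right le_sup_right) (by omega))

omit [Finite G] in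
theorem mem_E_comm {e x : G} (hu : IsMulCommutative u) (hEu : E ≤ u) (he : e ∈ E) (hx : x ∈ u) : e * x = x * e :=
  comm_of_isMulCommutative hu (hEu he) hx

/-- Elementwise core of the next theorem. -/
theorem t2_comm (hE : LL E) (hu : At E u) (hb : At E b) (hv : At E v) (hub : u ≠ b) (huv : u ≠ v) {κ₁ κ₂ y₁ y₂ w₁ w₂ : G}
    (hκ₁ : κ₁ ∈ u) (hκ₂ : κ₂ ∈ u) (hy₁ : y₁ ∈ b) (hy₂ : y₂ ∈ b) (hw₁ : w₁ ∈ v) (hw₂ : w₂ ∈ v)
    (hs : κ₁ * y₁ * (κ₂ * y₂) = κ₂ * y₂ * (κ₁ * y₁))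
    (hc₁ : y₁⁻¹ * w₁ ∈ CC u) (hc₂ : y₂⁻¹ * w₂ ∈ CC u) :
    κ₁ * w₁ * (κ₂ * w₂) = κ₂ * w₂ * (κ₁ * w₁) := by
  have hκ := comm_of_isMulCommutative hu.ab hκ₁ hκ₂
  have hy := comm_of_isMulCommutative hb.ab hy₁ hy₂
  have hw := comm_of_isMulCommutative hv.ab hw₁ hw₂
  have central : ∀ {e x : G}, e ∈ E → x ∈ u → e * x = x * e := fun he hx => mem_E_comm hu.ab hu.le he hx
  have m1 : ⁅κ₁, y₂⁆ ∈ E := hu.comm_mem hE hb hub hκ₁ hy₂
  have m2 : ⁅y₁, κ₂⁆ ∈ E := hb.comm_mem hE hu hub.symm hy₁ hκ₂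
  have m3 : ⁅κ₁, w₂⁆ ∈ E := hu.comm_mem hE hv huv hκ₁ hw₂
  have m4 : ⁅w₁, κ₂⁆ ∈ E := hv.comm_mem hE hu huv.symm hw₁ hκ₂
  have h1 := (comm_prod κ₁ κ₂ y₁ y₂ hκ hy (central m1 hκ₁) (central m1 hκ₂) (central m2 hκ₁) (central m2 hκ₂)).mp hs
  rw [comm_prod κ₁ κ₂ w₁ w₂ hκ hw (central m3 hκ₁) (central m3 hκ₂) (central m4 hκ₁) (central m4 hκ₂)]
  have e1 : ⁅κ₁, w₂⁆ = ⁅κ₁, y₂⁆ := by
    have h0 : ⁅κ₁, y₂⁻¹ * w₂⁆ = 1 := by
      rw [commutatorElement_eq_one_iff_mul_comm]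
      exact Subgroup.mem_centralizer_iff.mp hc₂ κ₁ hκ₁
    have h3 := cm_mul_right κ₁ y₂ (y₂⁻¹ * w₂) (by rw [h0]; group)
    rw [h0, mul_one] at h3
    rw [← h3]
    congr 1
    group
  have e2 : ⁅w₁, κ₂⁆ = ⁅y₁, κ₂⁆ := by
    have h0 : ⁅y₁⁻¹ * w₁, κ₂⁆ = 1 := by
      rw [commutatorElement_eq_one_iff_mul_comm]
      exact (Subgroup.mem_centralizer_iff.mp hc₁ κ₂ hκ₂).symm
    have h3 := cm_mul_left y₁ (y₁⁻¹ * w₁) κ₂ (by rw [h0]; group)
    rw [h0, one_mul] at h3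
    rw [← h3]
    congr 1
    group
  rw [e1, e2]
  exact h1

/-- Perspectivity from a point on `b ⊔ v` orthogonal to `u`: a second abelian point on `u ⊔ b` forces one on
`u ⊔ v`, when `u` is hyperbolic to both `b` and `v`. -/
theorem t2_gph (hE : LL E) (hu : At E u) (hb : At E b) (hv : At E v) (hub : u ≠ b) (huv : u ≠ v)
    (hbv : b ≠ v) (hS : Gph E u b S) (hSb : S ≠ b) (hyb : ¬ b ≤ CC u) (hyv : ¬ v ≤ CC u) :
    ∃ G', Gph E u v G' ∧ G' ≠ v := by
  obtain ⟨Hub1, Hub2⟩ := hu.hyp_of_not_le hb hyb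
  obtain ⟨Huv1, Huv2⟩ := hu.hyp_of_not_le hv hyv
  have dub := hu.dm_eq_of_hyp hE hb Hub1 Hub2
  have duv := hu.dm_eq_of_hyp hE hv Huv1 Huv2
  have Dub := dm_sup_inf hu.ll hb.ll
  rw [hu.inf_ne hb hub] at Dub
  have Duv := dm_sup_inf hu.ll hv.ll
  rw [hu.inf_ne hv huv] at Duv
  have Dbv := dm_sup_inf hb.ll hv.ll
  rw [hb.inf_ne hv hbv] at Dbv
  have La := hu.dm_lt
  by_cases hvo : v ≤ u ⊔ b
  · have h1 : u ⊔ v = u ⊔ b := eq_of_le_dm (sup_le le_sup_left hvo) (by omega)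
    refine ⟨b, ⟨hb.ll, hb.ab, hb.le, ?_, hb.inf_ne hu hub.symm, ?_⟩, hbv⟩
    · rw [h1]; exact le_sup_right
    · rw [h1, sup_comm]
  have DS := hS.dm_eq hu hb hub
  have hSat := hS.at hu hb hub
  obtain ⟨-, ⟨hSL, hES, hSle, hSu, hSbb, hSsu, hSsb⟩, -⟩ := gph_third hu hb hub hS hSb
  have hSab := hS.2.1
  -- the point `c`
  have hcL : LL ((b ⊔ v) ⊓ CC u) := ll_inf (ll_sup hb.ll hv.ll) (ll_cc hu.ll)
  set c := (b ⊔ v) ⊓ CC u with hc
  have hEc : E ≤ c := le_inf (hb.le.trans le_sup_left) hu.le_cc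
  have A1 := dm_add_cc hE
  have A2 := dm_add_cc hu.ll
  have hbX : b ⊔ CC u = CC E := by
    have a1 := dm_sup_inf hb.ll (ll_cc hu.ll)
    rw [Hub2] at a1
    exact eq_of_le_dm (sup_le hb.le_X (cc_anti hu.le)) (by omega)
  have hbvX : b ⊔ v ≤ CC E := sup_le hb.le_X hv.le_X
  have hbc : b ⊔ c = b ⊔ v := by
    rw [hc, mod_law hb.ll (ll_cc hu.ll) (le_sup_left : b ≤ b ⊔ v), hbX]
    exact inf_eq_left.mpr hbvX
  have hcb : b ⊓ c = E := by
    apply le_antisymm _ (le_inf hb.le hEc)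
    rw [← Hub2]
    exact le_inf inf_le_left (inf_le_right.trans inf_le_right)
  have Dc := dm_sup_inf hb.ll hcL
  rw [hbc, hcb] at Dc
  have hv0 : (u ⊔ b) ⊓ v = E := by
    rcases hv.inf (ll_sup hu.ll hb.ll) (hu.le.trans le_sup_left) with h | h
    · rwa [inf_comm]
    · exact absurd h hvo
  have hmid : (u ⊔ b) ⊓ (b ⊔ v) = b := by
    rw [← mod_law hb.ll hv.ll (le_sup_right : b ≤ u ⊔ b), hv0]
    exact sup_eq_left.mpr hb.le
  have hSc : S ⊓ c = E := by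
    apply le_antisymm _ (le_inf hES hEc)
    rw [← Hub2]
    refine le_inf ?_ (inf_le_right.trans inf_le_right)
    rw [← hmid]
    exact inf_le_inf hSle inf_le_left
  have DSc := dm_sup_inf hSL hcL
  rw [hSc] at DSc
  have hScL := ll_sup hSL hcL
  have KK : ¬ b ≤ S ⊔ c := by
    intro h0
    have h1 : u ⊔ b ≤ S ⊔ c := by
      rw [← hSsb]
      exact sup_le le_sup_left h0
    have h2 : u ⊔ b = S ⊔ c := eq_of_le_dm h1 (by omega)
    have h3 : c ≤ b := by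
      rw [← hmid]
      refine le_inf ?_ inf_le_left
      rw [h2]; exact le_sup_right
    have h4 : c = E := by
      rw [← hcb]
      exact (inf_eq_right.mpr h3).symm
    rw [h4] at Dc
    omega
  have hGL : LL ((S ⊔ c) ⊓ (u ⊔ v)) := ll_inf hScL (ll_sup hu.ll hv.ll)
  have hEG : E ≤ (S ⊔ c) ⊓ (u ⊔ v) := le_inf (hES.trans le_sup_left) (hu.le.trans le_sup_left)
  have hGu : (S ⊔ c) ⊓ (u ⊔ v) ⊓ u = E := by
    rcases hu.inf hGL hEG with h | h
    · rwa [inf_comm]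
    · exfalso
      have h3 : u ≤ S ⊔ c := h.trans inf_le_left
      have h4 : b ≤ S ⊔ c := by
        have : b ≤ S ⊔ u := by rw [hSsu]; exact le_sup_right
        exact this.trans (sup_le le_sup_left h3)
      exact KK h4
  have hGsup : (S ⊔ c) ⊓ (u ⊔ v) ⊔ u = u ⊔ v := by
    have h1 := mod_law hu.ll hScL (le_sup_left : u ≤ u ⊔ v)
    rw [sup_comm, inf_comm, h1]
    apply inf_eq_left.mpr
    have h2 : v ≤ b ⊔ c := by rw [hbc]; exact le_sup_right
    have h3 : b ≤ u ⊔ (S ⊔ c) := by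
      have : b ≤ S ⊔ u := by rw [hSsu]; exact le_sup_right
      exact this.trans (sup_le (le_sup_left.trans le_sup_right) le_sup_left)
    exact sup_le le_sup_left (h2.trans (sup_le h3 (le_sup_right.trans le_sup_right)))
  have hGv : (S ⊔ c) ⊓ (u ⊔ v) ≠ v := by
    intro h0
    have h1 : v ≤ S ⊔ c := by rw [← h0]; exact inf_le_left
    have h2 : c ⊓ v = E := by
      apply le_antisymm _ (le_inf hEc hv.le)
      rw [← Huv2, inf_comm]
      exact inf_le_inf_left _ inf_le_right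
    have a1 := dm_sup_inf hcL hv.ll
    rw [h2] at a1
    have h3 : c ⊔ v = b ⊔ v := eq_of_le_dm (sup_le inf_le_left le_sup_right) (by omega)
    have h4 : b ≤ c ⊔ v := by rw [h3]; exact le_sup_left
    exact KK (h4.trans (sup_le le_sup_right h1))
  have hbuv : b ⊓ (u ⊔ v) = E := by
    rcases hb.inf (ll_sup hu.ll hv.ll) (hu.le.trans le_sup_left) with h | h
    · exact h
    · exfalso
      have h1 : u ⊔ b ≤ u ⊔ v := sup_le le_sup_left h
      have h2 : u ⊔ b = u ⊔ v := eq_of_le_dm h1 (by omega)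
      exact hvo (by rw [h2]; exact le_sup_right)
  -- representation of the elements
  have rep : ∀ g ∈ (S ⊔ c) ⊓ (u ⊔ v), ∃ κ ∈ u, ∃ y ∈ b, ∃ w ∈ v, g = κ * w ∧ κ * y ∈ S ∧ y⁻¹ * w ∈ CC u := by
    rintro g ⟨hg1, hg2⟩
    obtain ⟨s₀, hs₀, c₀, hc₀, rfl⟩ := mem_sup_mul hSL hcL hg1
    obtain ⟨κ, hκ, y, hy, rfl⟩ := mem_sup_mul hu.ll hb.ll (hSle hs₀)
    obtain ⟨y', hy', w', hw', hcc⟩ := mem_sup_mul hb.ll hv.ll hc₀.1
    obtain ⟨κ'', hκ'', w'', hw'', hgg⟩ := mem_sup_mul hu.ll hv.ll hg2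
    have h1 : y * y' ∈ b ⊓ (u ⊔ v) := by
      refine ⟨b.mul_mem hy hy', ?_⟩
      have : y * y' = κ⁻¹ * κ'' * (w'' * w'⁻¹) := by
        have e : κ * y * (y' * w') = κ'' * w'' := by rw [hcc, hgg]
        calc y * y' = κ⁻¹ * (κ * y * (y' * w')) * w'⁻¹ := by group
          _ = κ⁻¹ * (κ'' * w'') * w'⁻¹ := by rw [e]
          _ = _ := by group
      rw [this]
      exact Subgroup.mul_mem_sup (u.mul_mem (u.inv_mem hκ) hκ'') (v.mul_mem hw'' (v.inv_mem hw'))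
    rw [hbuv] at h1
    refine ⟨κ, hκ, y, hy, (y * y') * w', v.mul_mem (hv.le h1) hw', ?_, hs₀, ?_⟩
    · rw [← hcc]; group
    · have : y⁻¹ * (y * y' * w') = y' * w' := by group
      rw [this, hcc]
      exact hc₀.2
  refine ⟨_, ⟨hGL, ?_, hEG, inf_le_right, hGu, hGsup⟩, hGv⟩
  apply isMulCommutative_of_comm
  intro g₁ hg₁ g₂ hg₂
  obtain ⟨κ₁, hκ₁, y₁, hy₁, w₁, hw₁, rfl, hs₁, hc₁⟩ := rep g₁ hg₁
  obtain ⟨κ₂, hκ₂, y₂, hy₂, w₂, hw₂, rfl, hs₂, hc₂⟩ := rep g₂ hg₂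
  exact t2_comm hE hu hb hv hub huv hκ₁ hκ₂ hy₁ hy₂ hw₁ hw₂ (comm_of_isMulCommutative hSab hs₁ hs₂) hc₁ hc₂

end Cfsg.Agent.Lib.KS2.CLG
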