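import Cfsg.Agent.Lib.KS2.CLB
import Mathlib

/-!
# Generators move atoms along lines with an abelian third point.  Owner: helper15.
-/

set_option autoImplicit false
set_option linter.unusedSectionVars false
set_option linter.unusedVariables false

namespace Cfsg.Agent.Lib.KS2.CLG

open Subgroup Cfsg Cfsg.Agent.Lib.FF
open scoped Pointwise commutatorElement

variable {G : Type*} [Group G] [Finite G]

theorem card_sup_mul_le {A B : Subgroup G} (h : ∀ x ∈ A ⊔ B, ∃ a ∈ A, ∃ b ∈ B, x = a * b) :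
    Nat.card ↥(A ⊔ B) * Nat.card ↥(A ⊓ B) ≤ Nat.card A * Nat.card B := by
  have hrel : B.relIndex (A ⊔ B) ≤ B.relIndex A := by
    let φ := Subgroup.quotientSubgroupOfEmbeddingOfLE B (le_sup_left : A ≤ A ⊔ B)
    have hsurj : Function.Surjective φ := by
      intro q
      obtain ⟨x, rfl⟩ := QuotientGroup.mk_surjective q
      obtain ⟨a, ha, b, hb, hx⟩ := h x x.2
      refine ⟨QuotientGroup.mk ⟨a, ha⟩, ?_⟩
      rw [Subgroup.quotientSubgroupOfEmbeddingOfLE_apply_mk, QuotientGroup.eq, Subgroup.mem_subgroupOf]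
      show a⁻¹ * (x : G) ∈ B
      rw [hx]
      simpa using hb
    exact Nat.card_le_card_of_surjective φ hsurj
  have h1 : B.relIndex A * Nat.card ↥(A ⊓ B) = Nat.card A := by
    have := relIndex_mul_card (inf_le_left : A ⊓ B ≤ A)
    rwa [Subgroup.inf_relIndex_left A B] at this
  have h3 := relIndex_mul_card (le_sup_right : B ≤ A ⊔ B)
  rw [← h1, ← h3]
  calc B.relIndex (A ⊔ B) * Nat.card B * Nat.card ↥(A ⊓ B)
      ≤ B.relIndex A * Nat.card B * Nat.card ↥(A ⊓ B) := by gcongr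
    _ = _ := by ring

/-- Recognising a member of the lattice from a factorization. -/
theorem ll_of_factor {E u L S : Subgroup G} (hE : LL E) (hu : LL u) (hL : LL L) (hES : E ≤ S) (hEu : E ≤ u)
    (hsup : u ⊔ S = L) (hinf : u ⊓ S = E) (hprod : ∀ x ∈ u ⊔ S, ∃ a ∈ u, ∃ b ∈ S, x = a * b)
    (hfac : ∀ x ∈ CC E, ∃ c ∈ CC u, ∃ s ∈ CC S, x = c * s) : LL S := by
  have h1 := card_sup_mul_le hprod
  rw [hsup, hinf] at h1
  have hX : CC u ⊔ CC S = CC E := by
    apply le_antisymm (sup_le (cc_anti hEu) (cc_anti hES))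
    intro x hx
    obtain ⟨c, hc, s, hs, rfl⟩ := hfac x hx
    exact Subgroup.mul_mem_sup hc hs
  have hI : CC u ⊓ CC S = CC L := by
    rw [← hsup, cc_sup]
  have h2 := card_sup_mul_le (A := CC u) (B := CC S) (by
    intro x hx
    rw [hX] at hx
    exact hfac x hx)
  rw [hX, hI] at h2
  apply isCentralizerLarge_iff.mpr
  have hM1 : Nat.card L * Nat.card (CC L) = maxCentralizerProduct G := hL
  have hM2 : Nat.card E * Nat.card (CC E) = maxCentralizerProduct G := hE
  have hM3 : Nat.card u * Nat.card (CC u) = maxCentralizerProduct G := hu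
  have hpos : 0 < maxCentralizerProduct G := by rw [← hM1]; exact Nat.mul_pos Nat.card_pos Nat.card_pos
  rw [cdm]
  have : maxCentralizerProduct G * maxCentralizerProduct G ≤
      (Nat.card S * Nat.card (CC S)) * maxCentralizerProduct G := by
    calc maxCentralizerProduct G * maxCentralizerProduct G
        = (Nat.card L * Nat.card (CC L)) * (Nat.card E * Nat.card (CC E)) := by rw [hM1, hM2]
      _ = (Nat.card L * Nat.card E) * (Nat.card (CC E) * Nat.card (CC L)) := by ring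
      _ ≤ (Nat.card u * Nat.card S) * (Nat.card (CC u) * Nat.card (CC S)) := Nat.mul_le_mul h1 h2
      _ = (Nat.card S * Nat.card (CC S)) * (Nat.card u * Nat.card (CC u)) := by ring
      _ = _ := by rw [hM3]
  exact Nat.le_of_mul_le_mul_right this hpos

omit [Finite G] in
theorem norm_of_cj {W : Subgroup G} {g : G} (h : cj g W = W) : g ∈ normalizer (W : Set G) := by
  rw [Subgroup.mem_normalizer_iff]
  intro x
  constructor
  · intro hx
    have := conj_mem_cj (W := W) g hx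
    rwa [h] at this
  · intro hx
    have h1 : g * x * g⁻¹ ∈ cj g W := by rw [h]; exact hx
    rw [mem_conj_iff] at h1
    simpa [mul_assoc] using h1

omit [Finite G] in
theorem cj_of_norm {W : Subgroup G} {g : G} (h : g ∈ normalizer (W : Set G)) : cj g W = W := by
  rw [Subgroup.mem_normalizer_iff] at h
  ext x
  rw [mem_conj_iff]
  have := h (g⁻¹ * x * g)
  have e : g * (g⁻¹ * x * g) * g⁻¹ = x := by group
  rw [e] at this
  exact this

omit [Finite G] in
theorem norm_of_cc {W : Subgroup G} {g : G} (h : g ∈ CC W) : g ∈ normalizer (W : Set G) :=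
  norm_of_cj (cj_eq_of_mem_cc h)

theorem At.conj_at {E u : Subgroup G} (hu : At E u) {t : G} (h : cj t E = E) : At E (cj t u) := by
  have h' : cj t⁻¹ E = E := by
    conv_lhs => rw [← h]
    exact cj_inv_cj t E
  refine ⟨ll_cj hu.ll t, ab_cj hu.ab t, ?_, ?_, ?_⟩
  · have := cj_mono t hu.le
    rwa [h] at this
  · intro h0
    have h1 : cj t⁻¹ E = u := by rw [h0]; exact cj_inv_cj t u
    rw [h'] at h1
    exact hu.ne h1
  · intro W hW h1 h2
    have h3 : cj t⁻¹ W ≤ u := by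
      have := cj_mono t⁻¹ h2
      rwa [cj_inv_cj] at this
    have h4 : E ≤ cj t⁻¹ W := by
      have := cj_mono t⁻¹ h1
      rwa [h'] at this
    rcases hu.min (ll_cj hW t⁻¹) h4 h3 with h5 | h5
    · left
      have := congrArg (cj t) h5
      rwa [cj_cj_inv, h] at this
    · right
      have := congrArg (cj t) h5
      rwa [cj_cj_inv] at this

theorem f6a_aux {E W D : Subgroup G} (hE : LL E) (hEW : E ≤ W) (hD : LL D) {z : G} (hzD : z ∈ CC D) (hzE : cj z E = E)
    (hW : LL W) (hle : W ≤ E ⊔ D) : cj z W = W := by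
  have h1 : E ⊔ (W ⊓ D) = W ⊓ (E ⊔ D) := mod_law hE hD hEW
  rw [inf_eq_left.mpr hle] at h1
  rw [← h1, cj_sup, hzE, cj_eq_of_mem_cc (W := W ⊓ D)]
  exact cc_anti inf_le_right hzD

/-- Elements of an abelian member. -/
theorem f6a {E u Z : Subgroup G} (hE : LL E) (hu : At E u) (hZ : LL Z) (hZa : IsMulCommutative Z) {z : G} (hz : z ∈ Z)
    (hzE : cj z E = E) (hne : cj z u ≠ u) : ∃ S, Gph E u (cj z u) S ∧ S ≠ cj z u := by
  have hV := hu.conj_at hzE
  have hzE' : cj z⁻¹ E = E := by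
    conv_lhs => rw [← hzE]
    exact cj_inv_cj z E
  have hHZ : cj z u ≤ u ⊔ Z := by
    rintro _ ⟨x, hx, rfl⟩
    simp only [MulEquiv.coe_toMonoidHom, MulAut.conj_apply]
    exact (u ⊔ Z).mul_mem ((u ⊔ Z).mul_mem (Subgroup.mem_sup_right hz) (Subgroup.mem_sup_left hx))
      ((u ⊔ Z).inv_mem (Subgroup.mem_sup_right hz))
  have hHL := ll_sup hu.ll hV.ll
  have hDL : LL ((u ⊔ cj z u) ⊓ Z) := ll_inf hHL hZ
  set D := (u ⊔ cj z u) ⊓ Z with hD
  have hdec : u ⊔ D = u ⊔ cj z u := by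
    rw [hD, mod_law hu.ll hZ (le_sup_left : u ≤ u ⊔ cj z u)]
    exact inf_eq_left.mpr (sup_le le_sup_left hHZ)
  have hSL : LL (E ⊔ D) := ll_sup hE hDL
  have hzD : z ∈ CC D := by
    rw [Subgroup.mem_centralizer_iff]
    intro d hd
    exact comm_of_isMulCommutative hZa hd.2 hz
  have hzD' : z⁻¹ ∈ CC D := (CC D).inv_mem hzD
  have hSu : (E ⊔ D) ⊓ u = E := by
    rcases hu.inf hSL le_sup_left with h | h
    · rwa [inf_comm]
    · exact absurd (f6a_aux hE hu.le hDL hzD hzE hu.ll h) hne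
  have hSV : (E ⊔ D) ⊓ cj z u = E := by
    rcases hV.inf hSL le_sup_left with h | h
    · rwa [inf_comm]
    · exfalso
      have := f6a_aux hE hV.le hDL hzD' hzE' hV.ll h
      rw [cj_inv_cj] at this
      exact hne this.symm
  refine ⟨E ⊔ D, ⟨hSL, ?_, le_sup_left, ?_, hSu, ?_⟩, ?_⟩
  · apply isMulCommutative_sup (ab_of_le hu.ab hu.le) (ab_of_le hZa inf_le_right)
    intro a ha b hb
    have : b ∈ CC E := (sup_le hu.le_X hV.le_X) hb.1
    exact Subgroup.mem_centralizer_iff.mp this a ha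
  · exact sup_le (hu.le.trans le_sup_left) inf_le_left
  · apply le_antisymm (sup_le (sup_le (hu.le.trans le_sup_left) inf_le_left) le_sup_left)
    have h3 : D ≤ (E ⊔ D) ⊔ u := (le_sup_right : D ≤ E ⊔ D).trans (le_sup_left : E ⊔ D ≤ (E ⊔ D) ⊔ u)
    calc u ⊔ cj z u = u ⊔ D := hdec.symm
      _ ≤ _ := sup_le (le_sup_right : u ≤ (E ⊔ D) ⊔ u) h3
  · intro h0
    rw [h0, inf_idem] at hSV
    exact hV.ne hSV.symm

theorem cc_cc' {A : Subgroup G} (h : LL A) : centralizer ((CC A : Subgroup G) : Set G) = A := cc_cc h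

theorem centrally_large_cc {W : Subgroup G} (hW : LL W) (hab : IsMulCommutative W) : IsCentrallyLarge (CC W) := by
  apply (cl_iff_of_large (ll_cc hW)).mpr
  rw [cc_cc' hW]
  exact le_cc_of_ab hab

theorem cc_maxAbelian {A : Subgroup G} (hA : A ∈ maxAbelianSubgroups G) : CC A = A :=
  le_antisymm (centralizer_le_of_maxAbelian hA) (le_cc_of_ab hA.1)

/-- Elements of an abelian subgroup of largest order. -/
theorem f6b {E u A : Subgroup G} (hE : LL E) (hEa : IsMulCommutative E) (hu : At E u)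
    (hA : A ∈ maxAbelianSubgroups G) {a : G} (ha : a ∈ A)
    (haE : cj a E = E) (hne : cj a u ≠ u) : ∃ S, Gph E u (cj a u) S ∧ S ≠ cj a u := by
  have hV := hu.conj_at haE
  have hXcl := centrally_large_cc hE hEa
  have hQcl := centrally_large_cc hu.ll hu.ab
  have hCA := cc_maxAbelian hA
  have hEX : E ≤ CC E := le_cc_of_ab hEa
  -- the abelian subgroup `A₁`
  have hA₁ : (CC E ⊓ A) ⊔ E ∈ maxAbelianSubgroups G := by
    have := (cl_maxAbelian_main hXcl hA).2.2
    rwa [cc_cc' hE, inf_eq_right.mpr hEX] at this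
  set A₁ := (CC E ⊓ A) ⊔ E with hA₁def
  have hCA₁ := cc_maxAbelian hA₁
  have haX : a ∈ CC (CC E ⊓ A) := by
    rw [Subgroup.mem_centralizer_iff]
    intro y hy
    exact comm_of_isMulCommutative hA.1 hy.2 ha
  have haA₁ : cj a A₁ = A₁ := by
    rw [hA₁def, cj_sup, cj_eq_of_mem_cc haX, haE]
  have hElem : ∀ x ∈ A₁, ∃ y ∈ CC E ⊓ A, ∃ e ∈ E, x = y * e := by
    intro x hx
    refine exists_mul_of_mem_sup ?_ hx
    intro e he
    apply norm_of_cc
    rw [Subgroup.mem_centralizer_iff]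
    intro y hy
    exact (Subgroup.mem_centralizer_iff.mp hy.1 e he).symm
  -- `u ⊓ A`
  have huAL : LL (u ⊓ A) := by
    have h1 := ll_cc (cl_isCentralizerLarge (cl_maxAbelian_main hQcl hA).1)
    rwa [cc_sup, cc_cc hu.ll, hCA] at h1
  have huA : u ⊓ A ≤ E := by
    rcases hu.min (ll_sup hE huAL) le_sup_left (sup_le hu.le inf_le_left) with h | h
    · rw [← h]; exact le_sup_right
    · exfalso
      apply hne
      rw [← h, cj_sup, haE, cj_eq_of_mem_cc (W := u ⊓ A)]
      rw [Subgroup.mem_centralizer_iff]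
      intro y hy
      exact comm_of_isMulCommutative hA.1 hy.2 ha
  have huA₁ : u ⊓ A₁ = E := by
    apply le_antisymm _ (le_inf hu.le le_sup_right)
    rintro x ⟨hx1, hx2⟩
    obtain ⟨y, hy, e, he, rfl⟩ := hElem x hx2
    have hyu : y ∈ u := by
      have := u.mul_mem hx1 (u.inv_mem (hu.le he))
      simpa using this
    exact E.mul_mem (huA ⟨hyu, hy.2⟩) he
  have hVA₁ : cj a u ⊓ A₁ = E := by
    conv_lhs => rw [← haA₁]
    rw [← cj_inf, huA₁, haE]
  obtain ⟨m1, m2, m3⟩ := cl_maxAbelian_main hQcl hA₁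
  have huQ : u ≤ CC u := le_cc_of_ab hu.ab
  rw [cc_cc' hu.ll, inf_eq_right.mpr huQ] at m3
  have hQA : CC u ⊔ A₁ = CC E := by
    have h1 := eq_centralizer_centralizer (cl_isCentralizerLarge m1)
    rw [centralizer_sup_eq] at h1
    have h2 : CC (CC u) ⊓ CC A₁ = E := by rw [cc_cc hu.ll, hCA₁, huA₁]
    change CC u ⊔ A₁ = CC (CC (CC u) ⊓ CC A₁) at h1
    rw [h2] at h1
    exact h1
  have hprod : ((CC u ⊔ A₁ : Subgroup G) : Set G) = (CC u : Set G) * (A₁ : Set G) :=
    sup_eq_mul_of_card (le_of_eq m2)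
  rw [hQA] at hprod
  have hfac0 : ∀ x ∈ CC E, ∃ c ∈ CC u, ∃ a₁ ∈ A₁, x = c * a₁ := by
    intro x hx
    have : x ∈ ((CC E : Subgroup G) : Set G) := hx
    rw [hprod] at this
    obtain ⟨c, hc, a₁, ha₁, rfl⟩ := Set.mem_mul.mp this
    exact ⟨c, hc, a₁, ha₁, rfl⟩
  -- `B₀`
  have hB₀V : CC u ⊓ A₁ ≤ CC (cj a u) := by
    rintro x ⟨hx1, hx2⟩
    obtain ⟨y, hy, e, he, rfl⟩ := hElem x hx2
    apply (CC (cj a u)).mul_mem _ (hV.le_cc he)
    have hy1 : y ∈ CC u := by
      have := (CC u).mul_mem hx1 ((CC u).inv_mem (hu.le_cc he))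
      simpa using this
    rw [cj_cc, mem_conj_iff]
    have e0 : a⁻¹ * y * a = y := by
      have := comm_of_isMulCommutative hA.1 hy.2 ha
      rw [mul_assoc, this]; group
    rw [e0]
    exact hy1
  have key : ∀ y ∈ cj a u, ∃ x ∈ u, x⁻¹ * y ∈ A₁ := by
    intro y hy
    obtain ⟨c, hc, a₁, ha₁, rfl⟩ := hfac0 y (hV.le_X hy)
    have hcc : c ∈ CC ((CC u ⊓ A₁) ⊔ u) := by
      rw [cc_sup]
      refine ⟨Subgroup.mem_centralizer_iff.mpr ?_, hc⟩
      intro b hb
      have h1 : b * (c * a₁) = (c * a₁) * b := (Subgroup.mem_centralizer_iff.mp (hB₀V hb) _ hy).symm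
      have h2 : b * a₁ = a₁ * b := comm_of_isMulCommutative hA₁.1 hb.2 ha₁
      have h3 : (b * c) * a₁ = (c * b) * a₁ := by
        calc (b * c) * a₁ = b * (c * a₁) := by group
          _ = (c * a₁) * b := h1
          _ = c * (a₁ * b) := by group
          _ = c * (b * a₁) := by rw [h2]
          _ = _ := by group
      exact mul_right_cancel h3
    have hc2 := centralizer_le_of_maxAbelian m3 hcc
    have hn : u ≤ normalizer ((CC u ⊓ A₁ : Subgroup G) : Set G) := by
      intro w hw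
      apply norm_of_cc
      rw [Subgroup.mem_centralizer_iff]
      intro b hb
      exact (Subgroup.mem_centralizer_iff.mp hb.1 w hw).symm
    obtain ⟨b, hb, x, hx, rfl⟩ := exists_mul_of_mem_sup hn hc2
    refine ⟨x, hx, ?_⟩
    have e1 : b * x = x * b := (Subgroup.mem_centralizer_iff.mp hb.1 x hx).symm
    have e2 : x⁻¹ * (b * x * a₁) = b * a₁ := by
      rw [e1]; group
    rw [e2]
    exact A₁.mul_mem hb.2 ha₁
  have hSle1 : A₁ ⊓ (u ⊔ cj a u) ≤ A₁ := inf_le_left
  have hES : E ≤ A₁ ⊓ (u ⊔ cj a u) := le_inf le_sup_right (hu.le.trans le_sup_left)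
  have hSu : (A₁ ⊓ (u ⊔ cj a u)) ⊓ u = E := by
    apply le_antisymm _ (le_inf hES hu.le)
    rw [← huA₁, inf_comm]
    exact inf_le_inf_left _ inf_le_left
  have hSsup : u ⊔ (A₁ ⊓ (u ⊔ cj a u)) = u ⊔ cj a u := by
    apply le_antisymm (sup_le le_sup_left inf_le_right)
    refine sup_le le_sup_left ?_
    intro y hy
    obtain ⟨x, hx, h1⟩ := key y hy
    have : y = x * (x⁻¹ * y) := by group
    rw [this]
    refine Subgroup.mul_mem_sup hx ⟨h1, ?_⟩
    exact (u ⊔ cj a u).mul_mem (Subgroup.mem_sup_left (u.inv_mem hx)) (Subgroup.mem_sup_right hy)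
  have hXX : u ⊔ cj a u ≤ CC E := sup_le hu.le_X hV.le_X
  have hSL : LL (A₁ ⊓ (u ⊔ cj a u)) := by
    refine ll_of_factor hE hu.ll (ll_sup hu.ll hV.ll) hES hu.le hSsup (by rw [inf_comm]; exact hSu) ?_ ?_
    · intro x hx
      have hn : A₁ ⊓ (u ⊔ cj a u) ≤ normalizer (u : Set G) := by
        intro w hw
        exact norm_of_cj (hu.conj_eq hE (hXX hw.2))
      obtain ⟨k, hk, j, hj, rfl⟩ := exists_mul_of_mem_sup hn hx
      exact ⟨k, hk, j, hj, rfl⟩
    · intro x hx
      obtain ⟨c, hc, a₁, ha₁, rfl⟩ := hfac0 x hx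
      refine ⟨c, hc, a₁, ?_, rfl⟩
      rw [Subgroup.mem_centralizer_iff]
      intro s hs
      exact comm_of_isMulCommutative hA₁.1 hs.1 ha₁
  refine ⟨A₁ ⊓ (u ⊔ cj a u), ⟨hSL, ab_of_le hA₁.1 inf_le_left, hES, inf_le_right, hSu, ?_⟩, ?_⟩
  · rw [sup_comm]; exact hSsup
  · intro h0
    have h1 : cj a u ≤ A₁ := by rw [← h0]; exact inf_le_left
    rw [inf_eq_left.mpr h1] at hVA₁
    exact hV.ne hVA₁.symm

/-- Elements of minimal centrally large subgroups. -/
theorem f6c {E u R : Subgroup G} (hE : LL E) (hEa : IsMulCommutative E) (hu : At E u)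
    (hR : IsMinimalCentrallyLarge R) (hRE : ∀ t ∈ R, cj t E = E) {g : G} (hg : g ∈ R)
    (hne : cj g u ≠ u) : ∃ S, Gph E u (cj g u) S ∧ S ≠ cj g u := by
  have hQcl := centrally_large_cc hu.ll hu.ab
  obtain ⟨Q, hQle, hQ⟩ := exists_minimal_cl_le hQcl
  have h1 := min_cl_main hR hQ
  have hRL := cl_isCentralizerLarge hR.1
  have hCle : CC R ≤ R := cl_centralizer_le hR.1
  rw [inf_of_le_right hCle] at h1
  have hQL := cl_isCentralizerLarge hQ.1
  have hg2 : g ∈ CC R ⊔ (R ⊓ Q) := by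
    rw [sup_comm, h1]; exact hg
  obtain ⟨z, hz, r, hr, rfl⟩ := mem_sup_mul (ll_cc hRL) (ll_inf hRL hQL) hg2
  have e1 : cj (z * r) u = cj z u := by
    rw [← cj_cj, cj_eq_of_mem_cc (hQle hr.2)]
  rw [e1] at hne ⊢
  have hZa : IsMulCommutative (CC R) := by
    apply isMulCommutative_of_comm
    intro a ha b hb
    exact Subgroup.mem_centralizer_iff.mp hb a (hCle ha)
  exact f6a hE hu (ll_cc hRL) hZa hz (hRE z (hCle hz)) hne

theorem rl_of_gph_third {E u v S : Subgroup G} (hu : At E u) (hv : At E v) (huv : u ≠ v) (h : Gph E u v S) (hne : S ≠ v) :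
    Rl E u v := Or.inr ⟨S, (gph_third hu hv huv h hne).2.1⟩

/-- The subgroup of elements moving each atom along lines with third points. -/
def Tg (E : Subgroup G) : Subgroup G where
  carrier := {t | cj t E = E ∧ ∀ v, At E v → Rl E v (cj t v)}
  mul_mem' := by
    rintro t₁ t₂ ⟨h1, h2⟩ ⟨h3, h4⟩
    refine ⟨by rw [← cj_cj, h3, h1], fun v hv => ?_⟩
    rw [← cj_cj]
    have hv2 := hv.conj_at h3
    exact rl_trans hv hv2 (hv2.conj_at h1) (h4 v hv) (h2 _ hv2)
  one_mem' := ⟨cj_one E, fun v hv => by rw [cj_one]; exact rl_refl v⟩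
  inv_mem' := by
    rintro t ⟨h1, h2⟩
    have h' : cj t⁻¹ E = E := by
      conv_lhs => rw [← h1]
      exact cj_inv_cj t E
    refine ⟨h', fun v hv => ?_⟩
    have := h2 _ (hv.conj_at h')
    rw [cj_cj_inv] at this
    exact rl_symm this

/-- The group `T` of the theorem moves atoms along lines. -/
theorem T_le_Tg {E : Subgroup G} (hE : LL E) (hEa : IsMulCommutative E)
    (hTE : thompsonSubgroupA G ⊔ minimalCentrallyLargeJoin G ≤ normalizer (E : Set G)) :
    thompsonSubgroupA G ⊔ minimalCentrallyLargeJoin G ≤ Tg E := by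
  apply sup_le
  · apply sSup_le
    intro A hA a ha
    have hcj : cj a E = E := cj_of_norm (hTE (Subgroup.mem_sup_left (le_sSup hA ha)))
    refine ⟨hcj, fun v hv => ?_⟩
    by_cases hne : cj a v = v
    · rw [hne]; exact rl_refl v
    · obtain ⟨S, hS, hSne⟩ := f6b hE hEa hv hA ha hcj hne
      exact rl_of_gph_third hv (hv.conj_at hcj) (Ne.symm hne) hS hSne
  · apply sSup_le
    intro R hR g hg
    have hRE : ∀ t ∈ R, cj t E = E := fun t ht =>
      cj_of_norm (hTE (Subgroup.mem_sup_right (le_sSup hR ht)))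
    have hcj := hRE g hg
    refine ⟨hcj, fun v hv => ?_⟩
    by_cases hne : cj g v = v
    · rw [hne]; exact rl_refl v
    · obtain ⟨S, hS, hSne⟩ := f6c hE hEa hv hR hRE hg hne
      exact rl_of_gph_third hv (hv.conj_at hcj) (Ne.symm hne) hS hSne

/-- If an atom is moved by `T` then a generator moves it. -/
theorem exists_gen {E u : Subgroup G} (hE : LL E) (hEa : IsMulCommutative E) (hu : At E u)
    (hTE : thompsonSubgroupA G ⊔ minimalCentrallyLargeJoin G ≤ normalizer (E : Set G))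
    (hmv : ¬ thompsonSubgroupA G ⊔ minimalCentrallyLargeJoin G ≤ normalizer (u : Set G)) :
    ∃ g, cj g E = E ∧ cj g u ≠ u ∧ ∃ S, Gph E u (cj g u) S ∧ S ≠ cj g u := by
  by_contra hno
  push Not at hno
  apply hmv
  apply sup_le
  · apply sSup_le
    intro A hA a ha
    have hcj : cj a E = E := cj_of_norm (hTE (Subgroup.mem_sup_left (le_sSup hA ha)))
    apply norm_of_cj
    by_contra hne
    obtain ⟨S, hS, hSne⟩ := f6b hE hEa hu hA ha hcj hne
    exact hSne (hno a hcj hne S hS)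
  · apply sSup_le
    intro R hR g hg
    have hRE : ∀ t ∈ R, cj t E = E := fun t ht =>
      cj_of_norm (hTE (Subgroup.mem_sup_right (le_sSup hR ht)))
    have hcj := hRE g hg
    apply norm_of_cj
    by_contra hne
    obtain ⟨S, hS, hSne⟩ := f6c hE hEa hu hR hRE hg hne
    exact hSne (hno g hcj hne S hS)

end Cfsg.Agent.Lib.KS2.CLG
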