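import Cfsg.Agent.Lib.KS2.CLC
import Mathlib

/-!
# The abelian points of a thick line form a torsor for a `p`-group.  Owner: helper15.
-/

set_option autoImplicit false
set_option linter.unusedSectionVars false
set_option linter.unusedVariables false

namespace Cfsg.Agent.Lib.KS2.CLG

open Subgroup Cfsg Cfsg.Agent.Lib.FF
open scoped Pointwise commutatorElement

variable {G : Type*} [Group G] [Finite G]

/-- If a line has a third point, the whole of `C(E)` acts trivially modulo `E` on its points. -/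
theorem comm_third {E u v S : Subgroup G} (hE : LL E) (hu : At E u) (hv : At E v) (huv : u ≠ v) (hS : Pt E u v S)
    {c a : G} (hc : c ∈ CC E) (ha : a ∈ u) : ⁅c, a⁆ ∈ E := by
  obtain ⟨hSL, hES, hSle, hSu, hSv, hSsu, hSsv⟩ := hS
  have hc1 : c ∈ CC (S ⊓ u) := by rw [hSu]; exact hc
  rw [cc_inf hSL hu.ll] at hc1
  obtain ⟨c₀, hc₀, c₁, hc₁, rfl⟩ := mem_sup_mul (ll_cc hSL) (ll_cc hu.ll) hc1
  have ha2 : a ∈ S ⊔ v := by rw [hSsv]; exact Subgroup.mem_sup_left ha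
  obtain ⟨s, hs, y, hy, rfl⟩ := mem_sup_mul hSL hv.ll ha2
  have hc₀X : c₀ ∈ CC E := cc_anti hES hc₀
  have hc₁X : c₁ ∈ CC E := cc_anti hu.le hc₁
  set a := s * y with ha0
  have hsa : s = a * y⁻¹ := by rw [ha0]; group
  have e1 : c₁ * a * c₁⁻¹ = a := by
    have := Subgroup.mem_centralizer_iff.mp hc₁ a ha
    rw [← this]; group
  have e2 : c₀ * s * c₀⁻¹ = s := by
    have := Subgroup.mem_centralizer_iff.mp hc₀ s hs
    rw [← this]; group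
  -- the element `a⁻¹ (c₀ a c₀⁻¹)`
  have hmem : a⁻¹ * (c₀ * a * c₀⁻¹) ∈ u ⊓ v := by
    constructor
    · exact u.mul_mem (u.inv_mem ha) (hu.conj_mem hE hc₀X ha)
    · have e3 : a⁻¹ * (c₀ * a * c₀⁻¹) = y⁻¹ * (c₀ * y * c₀⁻¹)⁻¹ ⁻¹ := by
        have h1 : c₀ * a * c₀⁻¹ = c₀ * s * c₀⁻¹ * (c₀ * y * c₀⁻¹) := by
          rw [ha0]; group
        rw [h1, e2, hsa]
        group
      have e4 : a⁻¹ * (c₀ * a * c₀⁻¹) = y⁻¹ * (c₀ * y * c₀⁻¹) := by
        rw [e3]; group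
      rw [e4]
      exact v.mul_mem (v.inv_mem hy) (hv.conj_mem hE hc₀X hy)
  rw [hu.inf_ne hv huv] at hmem
  set e := a⁻¹ * (c₀ * a * c₀⁻¹) with he
  have e5 : c₀ * a * c₀⁻¹ = a * e := by rw [he]; group
  have e6 : ⁅c₀ * c₁, a⁆ = e := by
    have : ⁅c₀ * c₁, a⁆ = (c₀ * (c₁ * a * c₁⁻¹) * c₀⁻¹) * a⁻¹ := by
      simp only [commutatorElement_def]; group
    rw [this, e1, e5]
    have h7 : a * e = e * a := (mem_E_comm hu.ab hu.le hmem ha).symm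
    rw [h7]; group
  rw [e6]
  exact hmem

/-- The standing hypotheses on a line. -/
structure GCtx (E u v : Subgroup G) : Prop where
  hE : LL E
  hu : At E u
  hv : At E v
  huv : u ≠ v
  b1 : ∀ c ∈ CC E, ∀ a ∈ u, ⁅c, a⁆ ∈ E
  b2 : ∀ c ∈ CC E, ∀ y ∈ v, ⁅c, y⁆ ∈ E

theorem gctx_of_third {E u v S : Subgroup G} (hE : LL E) (hu : At E u) (hv : At E v) (huv : u ≠ v) (hS : Pt E u v S) :
    GCtx E u v :=
  ⟨hE, hu, hv, huv, fun c hc a ha => comm_third hE hu hv huv hS hc ha,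
    fun c hc y hy => comm_third hE hv hu huv.symm hS.symm hc hy⟩

section graph

variable {E u v : Subgroup G}

omit [Finite G] in
theorem central_X {e x : G} (he : e ∈ E) (hx : x ∈ CC E) : e * x = x * e :=
  Subgroup.mem_centralizer_iff.mp hx e he

/-- The target group of the graph maps. -/
abbrev Qb (E u : Subgroup G) : Type _ := ↥u ⧸ E.subgroupOf u

/-- commutators with points of `u` are additive. -/
theorem GCtx.add_a (C : GCtx E u v) {c a₁ a₂ : G} (hc : c ∈ CC E) (h₁ : a₁ ∈ u) (h₂ : a₂ ∈ u) :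
    ⁅c, a₁ * a₂⁆ = ⁅c, a₁⁆ * ⁅c, a₂⁆ :=
  cm_mul_right _ _ _ (central_X (C.b1 c hc a₂ h₂) (C.hu.le_X h₁))

theorem GCtx.add_c (C : GCtx E u v) {c₁ c₂ a : G} (hc₁ : c₁ ∈ CC E) (hc₂ : c₂ ∈ CC E) (h : a ∈ u) :
    ⁅c₁ * c₂, a⁆ = ⁅c₂, a⁆ * ⁅c₁, a⁆ :=
  cm_mul_left _ _ _ (central_X (C.b1 c₂ hc₂ a h) hc₁)

theorem GCtx.add_c' (C : GCtx E u v) {c₁ c₂ y : G} (hc₁ : c₁ ∈ CC E) (hc₂ : c₂ ∈ CC E) (h : y ∈ v) :
    ⁅c₁ * c₂, y⁆ = ⁅c₂, y⁆ * ⁅c₁, y⁆ :=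
  cm_mul_left _ _ _ (central_X (C.b2 c₂ hc₂ y h) hc₁)

theorem GCtx.add_y (C : GCtx E u v) {c y₁ y₂ : G} (hc : c ∈ CC E) (h₁ : y₁ ∈ v) (h₂ : y₂ ∈ v) :
    ⁅c, y₁ * y₂⁆ = ⁅c, y₁⁆ * ⁅c, y₂⁆ :=
  cm_mul_right _ _ _ (central_X (C.b2 c hc y₂ h₂) (C.hv.le_X h₁))

omit [Finite G] in
theorem comm_inv_left (c a : G) (h : ⁅c⁻¹, a⁆ * c = c * ⁅c⁻¹, a⁆) : ⁅c, a⁆ * ⁅c⁻¹, a⁆ = 1 := by
  have h1 := cm_mul_left c c⁻¹ a h
  rw [mul_inv_cancel, commutatorElement_one_left] at h1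
  have h2 : ⁅c⁻¹, a⁆ * ⁅c, a⁆ = 1 := h1.symm
  exact mul_eq_one_iff_eq_inv.mpr (mul_eq_one_iff_eq_inv.mp h2 ▸ by simp)

omit [Finite G] in
theorem comm_inv_right (c a : G) (h : ⁅c, a⁻¹⁆ * a = a * ⁅c, a⁻¹⁆) : ⁅c, a⁆ * ⁅c, a⁻¹⁆ = 1 := by
  have h1 := cm_mul_right c a a⁻¹ h
  rw [mul_inv_cancel, commutatorElement_one_right] at h1
  exact h1.symm

variable [hN : (E.subgroupOf u).Normal]

/-- Admissible maps: they parametrize the abelian points of the line. -/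
structure Adm (E u v : Subgroup G) [hN : (E.subgroupOf u).Normal] (φ : ↥v → Qb E u) : Prop where
  hom : ∀ y₁ y₂ : ↥v, φ (y₁ * y₂) = φ y₁ * φ y₂
  ker : ∀ y : ↥v, (y : G) ∈ E → φ y = 1
  sym : ∀ (y₁ y₂ : ↥v) (a₁ a₂ : ↥u), (QuotientGroup.mk a₁ : Qb E u) = φ y₁ →
    (QuotientGroup.mk a₂ : Qb E u) = φ y₂ → ⁅(a₁ : G), (y₂ : G)⁆ = ⁅(a₂ : G), (y₁ : G)⁆
  adj : ∀ c ∈ CC v, ∃ c' ∈ CC u, ∀ (y : ↥v) (a : ↥u), (QuotientGroup.mk a : Qb E u) = φ y →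
    ⁅c, (a : G)⁆ * ⁅c', (y : G)⁆ = 1

omit [Finite G] in
theorem qb_comm (hu : IsMulCommutative u) (x y : Qb E u) : x * y = y * x := by
  obtain ⟨a, rfl⟩ := QuotientGroup.mk_surjective x
  obtain ⟨b, rfl⟩ := QuotientGroup.mk_surjective y
  rw [← QuotientGroup.mk_mul, ← QuotientGroup.mk_mul]
  congr 1
  exact Subtype.ext (comm_of_isMulCommutative hu a.2 b.2)

omit [Finite G] in
theorem qb_eq_one {a : ↥u} : (QuotientGroup.mk a : Qb E u) = 1 ↔ (a : G) ∈ E := by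
  rw [QuotientGroup.eq_one_iff, Subgroup.mem_subgroupOf]

omit [Finite G] in
theorem qb_eq {a b : ↥u} : (QuotientGroup.mk a : Qb E u) = QuotientGroup.mk b ↔ (a : G)⁻¹ * b ∈ E := by
  rw [QuotientGroup.eq, Subgroup.mem_subgroupOf]
  simp

theorem adm_one (C : GCtx E u v) : Adm E u v (1 : ↥v → Qb E u) := by
  refine ⟨fun _ _ => by simp, fun _ _ => rfl, ?_, ?_⟩
  · intro y₁ y₂ a₁ a₂ h₁ h₂
    have e1 : (a₁ : G) ∈ E := qb_eq_one.mp h₁
    have e2 : (a₂ : G) ∈ E := qb_eq_one.mp h₂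
    rw [commutatorElement_eq_one_iff_mul_comm.mpr (mem_E_comm C.hv.ab C.hv.le e1 y₂.2),
      commutatorElement_eq_one_iff_mul_comm.mpr (mem_E_comm C.hv.ab C.hv.le e2 y₁.2)]
  · intro c hc
    refine ⟨1, one_mem _, fun y a h => ?_⟩
    have e1 : (a : G) ∈ E := qb_eq_one.mp h
    have e2 : ⁅c, (a : G)⁆ = 1 := by
      rw [commutatorElement_eq_one_iff_mul_comm]
      exact (Subgroup.mem_centralizer_iff.mp hc _ (C.hv.le e1)).symm
    rw [e2, commutatorElement_one_left, one_mul]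

theorem qb_split {φ ψ : ↥v → Qb E u} {y : ↥v} {a : ↥u} (h : (QuotientGroup.mk a : Qb E u) = (φ * ψ) y) :
    ∃ b d : ↥u, (QuotientGroup.mk b : Qb E u) = φ y ∧ (QuotientGroup.mk d : Qb E u) = ψ y ∧ a = b * d := by
  obtain ⟨b, hb⟩ := QuotientGroup.mk_surjective (φ y)
  refine ⟨b, b⁻¹ * a, hb, ?_, by group⟩
  rw [QuotientGroup.mk_mul, QuotientGroup.mk_inv, h, Pi.mul_apply, hb]
  group

theorem adm_mul (C : GCtx E u v) {φ ψ : ↥v → Qb E u} (hφ : Adm E u v φ) (hψ : Adm E u v ψ) :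
    Adm E u v (φ * ψ) := by
  have hc := qb_comm (E := E) C.hu.ab
  have hXa : ∀ a : ↥u, (a : G) ∈ CC E := fun a => C.hu.le_X a.2
  have hXy : ∀ y : ↥v, (y : G) ∈ CC E := fun y => C.hv.le_X y.2
  refine ⟨?_, ?_, ?_, ?_⟩
  · intro y₁ y₂
    simp only [Pi.mul_apply]
    rw [hφ.hom, hψ.hom, mul_assoc, mul_assoc, ← mul_assoc (φ y₂), hc (φ y₂), mul_assoc]
  · intro y hy
    simp only [Pi.mul_apply]
    rw [hφ.ker y hy, hψ.ker y hy, one_mul]
  · intro y₁ y₂ a₁ a₂ h₁ h₂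
    obtain ⟨b₁, d₁, hb₁, hd₁, rfl⟩ := qb_split h₁
    obtain ⟨b₂, d₂, hb₂, hd₂, rfl⟩ := qb_split h₂
    simp only [Subgroup.coe_mul]
    rw [cm_mul_left _ _ _ (central_X (C.b1 _ (hXy y₂) _ d₁.2 |> fun h => by
          have : ⁅(d₁ : G), (y₂ : G)⁆ = ⁅(y₂ : G), (d₁ : G)⁆⁻¹ := (commutatorElement_inv _ _).symm
          rw [this]; exact E.inv_mem h) (hXa b₁)),
      cm_mul_left _ _ _ (central_X (C.b1 _ (hXy y₁) _ d₂.2 |> fun h => by
          have : ⁅(d₂ : G), (y₁ : G)⁆ = ⁅(y₁ : G), (d₂ : G)⁆⁻¹ := (commutatorElement_inv _ _).symm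
          rw [this]; exact E.inv_mem h) (hXa b₂)),
      hφ.sym y₁ y₂ b₁ b₂ hb₁ hb₂, hψ.sym y₁ y₂ d₁ d₂ hd₁ hd₂]
  · intro c hc'
    obtain ⟨c₁, hc₁, h1⟩ := hφ.adj c hc'
    obtain ⟨c₂, hc₂, h2⟩ := hψ.adj c hc'
    refine ⟨c₁ * c₂, (CC u).mul_mem hc₁ hc₂, fun y a h => ?_⟩
    obtain ⟨b, d, hb, hd, rfl⟩ := qb_split h
    have hcX : c ∈ CC E := cc_anti C.hv.le hc'
    have hc₁X : c₁ ∈ CC E := cc_anti C.hu.le hc₁
    have hc₂X : c₂ ∈ CC E := cc_anti C.hu.le hc₂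
    simp only [Subgroup.coe_mul]
    rw [C.add_a hcX b.2 d.2, C.add_c' hc₁X hc₂X y.2]
    calc ⁅c, (b : G)⁆ * ⁅c, (d : G)⁆ * (⁅c₂, (y : G)⁆ * ⁅c₁, (y : G)⁆)
        = ⁅c, (b : G)⁆ * (⁅c, (d : G)⁆ * ⁅c₂, (y : G)⁆) * ⁅c₁, (y : G)⁆ := by group
      _ = 1 := by rw [h2 y d hd, mul_one, h1 y b hb]

theorem adm_inv (C : GCtx E u v) {φ : ↥v → Qb E u} (hφ : Adm E u v φ) : Adm E u v φ⁻¹ := by
  have hc := qb_comm (E := E) C.hu.ab
  have hXa : ∀ a : ↥u, (a : G) ∈ CC E := fun a => C.hu.le_X a.2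
  have hXy : ∀ y : ↥v, (y : G) ∈ CC E := fun y => C.hv.le_X y.2
  have hcom : ∀ (a : ↥u) (y : ↥v), ⁅(a : G), (y : G)⁆ ∈ E := by
    intro a y
    have : ⁅(a : G), (y : G)⁆ = ⁅(y : G), (a : G)⁆⁻¹ := (commutatorElement_inv _ _).symm
    rw [this]
    exact E.inv_mem (C.b1 _ (hXy y) _ a.2)
  have hm : ∀ {y : ↥v} {a : ↥u}, (QuotientGroup.mk a : Qb E u) = φ⁻¹ y → (QuotientGroup.mk a⁻¹ : Qb E u) = φ y := by
    intro y a h
    rw [QuotientGroup.mk_inv, h, Pi.inv_apply, inv_inv]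
  have hinv : ∀ (a : ↥u) (y : ↥v), ⁅(a : G), (y : G)⁆ = ⁅((a⁻¹ : ↥u) : G), (y : G)⁆⁻¹ := by
    intro a y
    have := comm_inv_left (a : G) (y : G) (central_X (by simpa using hcom a⁻¹ y) (hXa a))
    exact eq_inv_of_mul_eq_one_left this
  refine ⟨?_, ?_, ?_, ?_⟩
  · intro y₁ y₂
    simp only [Pi.inv_apply]
    rw [hφ.hom, mul_inv_rev, hc]
  · intro y hy
    simp only [Pi.inv_apply]
    rw [hφ.ker y hy, inv_one]
  · intro y₁ y₂ a₁ a₂ h₁ h₂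
    rw [hinv a₁ y₂, hinv a₂ y₁, hφ.sym y₁ y₂ a₁⁻¹ a₂⁻¹ (hm h₁) (hm h₂)]
  · intro c hc'
    obtain ⟨c₁, hc₁, h1⟩ := hφ.adj c hc'
    refine ⟨c₁⁻¹, (CC u).inv_mem hc₁, fun y a h => ?_⟩
    have hcX : c ∈ CC E := cc_anti C.hv.le hc'
    have hc₁X : c₁ ∈ CC E := cc_anti C.hu.le hc₁
    have e0 := h1 y a⁻¹ (hm h)
    simp only [Subgroup.coe_inv] at e0 ⊢
    have e1 : ⁅c, (a : G)⁆ = ⁅c, (a : G)⁻¹⁆⁻¹ := by
      have := comm_inv_right c (a : G) (central_X (C.b1 c hcX _ (u.inv_mem a.2)) (hXa a))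
      exact eq_inv_of_mul_eq_one_left this
    have e2 : ⁅c₁⁻¹, (y : G)⁆ = ⁅c₁, (y : G)⁆⁻¹ := by
      have := comm_inv_left c₁⁻¹ (y : G) (by
        rw [inv_inv]
        exact central_X (C.b2 c₁ hc₁X _ y.2) ((CC E).inv_mem hc₁X))
      rw [inv_inv] at this
      exact eq_inv_of_mul_eq_one_left this
    rw [e1, e2]
    have e3 : ⁅c₁, (y : G)⁆ = ⁅c, (a : G)⁻¹⁆⁻¹ := eq_inv_of_mul_eq_one_right e0
    rw [e3]
    group

/-- The group of admissible maps. -/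
def Gam (C : GCtx E u v) : Subgroup (↥v → Qb E u) where
  carrier := {φ | Adm E u v φ}
  mul_mem' := fun h₁ h₂ => adm_mul C h₁ h₂
  one_mem' := adm_one C
  inv_mem' := fun h => adm_inv C h

/-- `Gam` is a `p`-group. -/
theorem gam_pgroup {p : ℕ} [Fact p.Prime] (hG : IsPGroup p G) (C : GCtx E u v) : IsPGroup p ↥(Gam C) := by
  obtain ⟨n, hn⟩ := IsPGroup.iff_card.mp hG
  intro g
  refine ⟨n, ?_⟩
  apply Subtype.ext
  funext y
  simp only [Subgroup.coe_pow, Pi.pow_apply, OneMemClass.coe_one, Pi.one_apply]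
  obtain ⟨a, ha⟩ := QuotientGroup.mk_surjective ((g : ↥v → Qb E u) y)
  rw [← ha, ← QuotientGroup.mk_pow]
  rw [qb_eq_one]
  have : ((a ^ p ^ n : ↥u) : G) = 1 := by
    rw [Subgroup.coe_pow, ← hn, pow_card_eq_one']
  rw [this]
  exact one_mem _

/-- The graph of an admissible map. -/
def gr (C : GCtx E u v) (φ : ↥v → Qb E u) (h : Adm E u v φ) : Subgroup G where
  carrier := {x | ∃ (a : ↥u) (y : ↥v), (QuotientGroup.mk a : Qb E u) = φ y ∧ (a : G) * y = x}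
  mul_mem' := by
    rintro _ _ ⟨a₁, y₁, h₁, rfl⟩ ⟨a₂, y₂, h₂, rfl⟩
    have he : ⁅(y₁ : G), (a₂ : G)⁆ ∈ E := C.b1 _ (C.hv.le_X y₁.2) _ a₂.2
    refine ⟨a₁ * ⟨_, C.hu.le he⟩ * a₂, y₁ * y₂, ?_, ?_⟩
    · rw [QuotientGroup.mk_mul, QuotientGroup.mk_mul, h₁, h₂, h.hom, qb_eq_one.mpr he, mul_one]
    · simp only [Subgroup.coe_mul, commutatorElement_def]
      group
  one_mem' := ⟨1, 1, by
    rw [h.ker 1 (one_mem _)]
    rfl, by simp⟩
  inv_mem' := by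
    rintro _ ⟨a, y, h₁, rfl⟩
    have he : ⁅((y⁻¹ : ↥v) : G), ((a⁻¹ : ↥u) : G)⁆ ∈ E := C.b1 _ (C.hv.le_X (y⁻¹).2) _ (a⁻¹).2
    refine ⟨⟨_, C.hu.le he⟩ * a⁻¹, y⁻¹, ?_, ?_⟩
    · rw [QuotientGroup.mk_mul, qb_eq_one.mpr he, one_mul, QuotientGroup.mk_inv, h₁]
      have h2 := h.hom y⁻¹ y
      rw [inv_mul_cancel, h.ker 1 (one_mem _)] at h2
      exact eq_inv_of_mul_eq_one_left h2.symm |>.symm ▸ rfl
    · simp only [Subgroup.coe_mul, Subgroup.coe_inv, commutatorElement_def]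
      group

theorem mem_gr (C : GCtx E u v) {φ : ↥v → Qb E u} {h : Adm E u v φ} {x : G} :
    x ∈ gr C φ h ↔ ∃ (a : ↥u) (y : ↥v), (QuotientGroup.mk a : Qb E u) = φ y ∧ (a : G) * y = x := Iff.rfl

/-- Graphs are abelian points of the line. -/
theorem gr_gph (C : GCtx E u v) (φ : ↥v → Qb E u) (h : Adm E u v φ) : Gph E u v (gr C φ h) := by
  have hE := C.hE
  have hu := C.hu
  have hv := C.hv
  have hmem : ∀ (a : ↥u) (y : ↥v), (QuotientGroup.mk a : Qb E u) = φ y → (a : G) * y ∈ gr C φ h :=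
    fun a y hay => ⟨a, y, hay, rfl⟩
  have hinfuv : u ⊓ v = E := hu.inf_ne hv C.huv
  have hEle : E ≤ gr C φ h := by
    intro e he
    refine ⟨⟨e, hu.le he⟩, 1, ?_, by simp⟩
    rw [qb_eq_one.mpr he, h.ker 1 (one_mem _)]
  have hle : gr C φ h ≤ u ⊔ v := by
    rintro _ ⟨a, y, -, rfl⟩
    exact Subgroup.mul_mem_sup a.2 y.2
  have hinf : gr C φ h ⊓ u = E := by
    apply le_antisymm _ (le_inf hEle hu.le)
    rintro x ⟨⟨a, y, hay, rfl⟩, hx⟩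
    have hyu : (y : G) ∈ u := by
      have := u.mul_mem (u.inv_mem a.2) hx
      simpa using this
    have hyE : (y : G) ∈ E := by
      rw [← hinfuv]; exact ⟨hyu, y.2⟩
    have haE : (a : G) ∈ E := by
      apply qb_eq_one.mp
      rw [hay, h.ker y hyE]
    exact E.mul_mem haE hyE
  have hsup : gr C φ h ⊔ u = u ⊔ v := by
    apply le_antisymm (sup_le hle le_sup_left)
    refine sup_le le_sup_right ?_
    intro y hy
    obtain ⟨a, ha⟩ := QuotientGroup.mk_surjective (φ ⟨y, hy⟩)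
    have : y = (a : G)⁻¹ * ((a : G) * y) := by group
    rw [this]
    exact (gr C φ h ⊔ u).mul_mem (Subgroup.mem_sup_right (u.inv_mem a.2))
      (Subgroup.mem_sup_left (hmem a ⟨y, hy⟩ ha))
  have hsup' : u ⊔ gr C φ h = u ⊔ v := by rw [sup_comm]; exact hsup
  have hXX : u ⊔ v ≤ CC E := sup_le hu.le_X hv.le_X
  refine ⟨?_, ?_, hEle, hle, hinf, hsup⟩
  · refine ll_of_factor hE hu.ll (ll_sup hu.ll hv.ll) hEle hu.le hsup' (by rw [inf_comm]; exact hinf) ?_ ?_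
    · intro x hx
      have hn : gr C φ h ≤ normalizer (u : Set G) := by
        intro w hw
        exact norm_of_cj (hu.conj_eq hE (hXX (hle hw)))
      obtain ⟨k, hk, j, hj, rfl⟩ := exists_mul_of_mem_sup hn hx
      exact ⟨k, hk, j, hj, rfl⟩
    · intro x hx
      have hx1 : x ∈ CC (u ⊓ v) := by rw [hinfuv]; exact hx
      rw [cc_inf hu.ll hv.ll] at hx1
      obtain ⟨c₂, hc₂, c, hc, rfl⟩ := mem_sup_mul (ll_cc hu.ll) (ll_cc hv.ll) hx1
      obtain ⟨c', hc', hadj⟩ := h.adj c hc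
      refine ⟨c₂ * c'⁻¹, (CC u).mul_mem hc₂ ((CC u).inv_mem hc'), c' * c, ?_, by group⟩
      rw [Subgroup.mem_centralizer_iff]
      rintro _ ⟨a, y, hay, rfl⟩
      have hcX : c ∈ CC E := cc_anti hv.le hc
      have hc'X : c' ∈ CC E := cc_anti hu.le hc'
      have e1 : ⁅c' * c, (a : G)⁆ = ⁅c, (a : G)⁆ := by
        rw [C.add_c hc'X hcX a.2]
        have : ⁅c', (a : G)⁆ = 1 := commutatorElement_eq_one_iff_mul_comm.mpr
          (Subgroup.mem_centralizer_iff.mp hc' _ a.2).symm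
        rw [this, mul_one]
      have e2 : ⁅c' * c, (y : G)⁆ = ⁅c', (y : G)⁆ := by
        rw [C.add_c' hc'X hcX y.2]
        have : ⁅c, (y : G)⁆ = 1 := commutatorElement_eq_one_iff_mul_comm.mpr
          (Subgroup.mem_centralizer_iff.mp hc _ y.2).symm
        rw [this, one_mul]
      have e3 : ⁅c' * c, (a : G) * y⁆ = 1 := by
        rw [cm_mul_right _ _ _ (central_X (C.b2 _ ((CC E).mul_mem hc'X hcX) _ y.2) (hu.le_X a.2)), e1, e2]
        exact hadj y a hay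
      exact (commutatorElement_eq_one_iff_mul_comm.mp e3).symm
  · apply isMulCommutative_of_comm
    rintro _ ⟨a₁, y₁, h₁, rfl⟩ _ ⟨a₂, y₂, h₂, rfl⟩
    have m1 : ⁅(a₁ : G), (y₂ : G)⁆ ∈ E := by
      have : ⁅(a₁ : G), (y₂ : G)⁆ = ⁅(y₂ : G), (a₁ : G)⁆⁻¹ := (commutatorElement_inv _ _).symm
      rw [this]
      exact E.inv_mem (C.b1 _ (hv.le_X y₂.2) _ a₁.2)
    have m2 : ⁅(y₁ : G), (a₂ : G)⁆ ∈ E := C.b1 _ (hv.le_X y₁.2) _ a₂.2
    have central : ∀ {e x : G}, e ∈ E → x ∈ u → e * x = x * e := fun he hx => mem_E_comm hu.ab hu.le he hx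
    rw [comm_prod _ _ _ _ (comm_of_isMulCommutative hu.ab a₁.2 a₂.2) (comm_of_isMulCommutative hv.ab y₁.2 y₂.2)
      (central m1 a₁.2) (central m1 a₂.2) (central m2 a₁.2) (central m2 a₂.2)]
    rw [h.sym y₁ y₂ a₁ a₂ h₁ h₂, ← commutatorElement_inv (a₂ : G) (y₁ : G)]
    group

theorem gr_inj (C : GCtx E u v) {φ ψ : ↥v → Qb E u} (hφ : Adm E u v φ) (hψ : Adm E u v ψ)
    (h : gr C φ hφ = gr C ψ hψ) : φ = ψ := by
  have hinfuv : u ⊓ v = E := C.hu.inf_ne C.hv C.huv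
  funext y
  obtain ⟨a, ha⟩ := QuotientGroup.mk_surjective (φ y)
  have h1 : (a : G) * y ∈ gr C φ hφ := ⟨a, y, ha, rfl⟩
  rw [h] at h1
  obtain ⟨a', y', ha', e⟩ := h1
  have h2 : (a : G)⁻¹ * a' = y * (y' : G)⁻¹ := by
    have : (a' : G) = a * y * (y' : G)⁻¹ := by rw [← e]; group
    rw [this]; group
  have h3 : (a : G)⁻¹ * a' ∈ E := by
    rw [← hinfuv]
    refine ⟨u.mul_mem (u.inv_mem a.2) a'.2, ?_⟩
    rw [h2]
    exact v.mul_mem y.2 (v.inv_mem y'.2)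
  have h4 : ((y * y'⁻¹ : ↥v) : G) ∈ E := by
    simp only [Subgroup.coe_mul, Subgroup.coe_inv]
    rw [← h2]; exact h3
  have h5 : y = (y * y'⁻¹) * y' := by group
  rw [← ha, qb_eq.mpr h3, ha', h5, hψ.hom, hψ.ker _ h4, one_mul]

/-- Each abelian point of the line is a graph. -/
theorem gr_surj (C : GCtx E u v) {S : Subgroup G} (hS : Gph E u v S) :
    ∃ (φ : ↥v → Qb E u) (h : Adm E u v φ), gr C φ h = S := by
  classical
  have hE := C.hE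
  have hu := C.hu
  have hv := C.hv
  have hinfuv : u ⊓ v = E := hu.inf_ne hv C.huv
  obtain ⟨hSL, hSab, hES, hSle, hSu, hSsup⟩ := hS
  have hex : ∀ y : ↥v, ∃ a : ↥u, (a : G) * y ∈ S := by
    intro y
    have h1 : (y : G) ∈ u ⊔ S := by
      rw [sup_comm, hSsup]
      exact Subgroup.mem_sup_right y.2
    obtain ⟨a, ha, s, hs, e⟩ := mem_sup_mul hu.ll hSL h1
    refine ⟨⟨a⁻¹, u.inv_mem ha⟩, ?_⟩
    have : a⁻¹ * (y : G) = s := by rw [← e]; group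
    simp only
    rw [this]
    exact hs
  choose α hα using hex
  have key : ∀ (a : ↥u) (y : ↥v), (QuotientGroup.mk a : Qb E u) = QuotientGroup.mk (α y) ↔ (a : G) * y ∈ S := by
    intro a y
    rw [qb_eq]
    constructor
    · intro h
      have e1 : (a : G) * y = (a : G) * (α y : G)⁻¹ * ((α y : G) * y) := by group
      have e2 : (a : G) * (α y : G)⁻¹ ∈ E := by
        have h2 : (a : G) * (α y : G)⁻¹ = ((a : G)⁻¹ * (α y : G))⁻¹ := by
          have hc : Commute (a : G) (α y : G) := comm_of_isMulCommutative hu.ab a.2 (α y).2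
          rw [mul_inv_rev, inv_inv]
          exact hc.inv_right.eq
        rw [h2]
        exact E.inv_mem h
      rw [e1]
      exact S.mul_mem (hES e2) (hα y)
    · intro h
      have e1 : (a : G)⁻¹ * (α y : G) ∈ S ⊓ u := by
        refine ⟨?_, u.mul_mem (u.inv_mem a.2) (α y).2⟩
        have e2 : (a : G)⁻¹ * (α y : G) = ((α y : G) * y) * ((a : G) * y)⁻¹ := by
          have hc : Commute (a : G) (α y : G) := comm_of_isMulCommutative hu.ab a.2 (α y).2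
          calc (a : G)⁻¹ * (α y : G) = (α y : G) * (a : G)⁻¹ := hc.inv_left.eq
            _ = _ := by group
        rw [e2]
        exact S.mul_mem (hα y) (S.inv_mem h)
      rwa [hSu] at e1
  have hXa : ∀ a : ↥u, (a : G) ∈ CC E := fun a => hu.le_X a.2
  have hXy : ∀ y : ↥v, (y : G) ∈ CC E := fun y => hv.le_X y.2
  have hcmE : ∀ (a : ↥u) (y : ↥v), ⁅(a : G), (y : G)⁆ ∈ E := by
    intro a y
    have : ⁅(a : G), (y : G)⁆ = ⁅(y : G), (a : G)⁆⁻¹ := (commutatorElement_inv _ _).symm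
    rw [this]
    exact E.inv_mem (C.b1 _ (hXy y) _ a.2)
  have central : ∀ {e x : G}, e ∈ E → x ∈ u → e * x = x * e := fun he hx => mem_E_comm hu.ab hu.le he hx
  have hAdm : Adm E u v (fun y => (QuotientGroup.mk (α y) : Qb E u)) := by
    refine ⟨?_, ?_, ?_, ?_⟩
    · intro y₁ y₂
      rw [← QuotientGroup.mk_mul]
      symm
      rw [key]
      -- `(a₁ a₂)(y₁ y₂) ∈ S`
      have he := C.b1 _ (hXy y₁) _ (α y₂).2
      have e1 : ((α y₁ * α y₂ : ↥u) : G) * ((y₁ * y₂ : ↥v) : G) =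
          (⁅(y₁ : G), (α y₂ : G)⁆)⁻¹ * (((α y₁ : G) * y₁) * ((α y₂ : G) * y₂)) := by
        have h1 : (α y₁ : G) * ⁅(y₁ : G), (α y₂ : G)⁆ = ⁅(y₁ : G), (α y₂ : G)⁆ * (α y₁ : G) :=
          (central he (α y₁).2).symm
        have h2 : ((α y₁ : G) * y₁) * ((α y₂ : G) * y₂) =
            (α y₁ : G) * ⁅(y₁ : G), (α y₂ : G)⁆ * ((α y₂ : G) * y₁ * y₂) := by
          simp only [commutatorElement_def]; group
        rw [h2, h1]
        simp only [Subgroup.coe_mul]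
        group
      rw [e1]
      exact S.mul_mem (hES (E.inv_mem he)) (S.mul_mem (hα y₁) (hα y₂))
    · intro y hy
      symm
      have : (1 : Qb E u) = QuotientGroup.mk (1 : ↥u) := rfl
      rw [this, key]
      simpa using hES hy
    · intro y₁ y₂ a₁ a₂ h₁ h₂
      have h3 := (key a₁ y₁).mp h₁
      have h4 := (key a₂ y₂).mp h₂
      have m1 := hcmE a₁ y₂
      have m2 := C.b1 _ (hXy y₁) _ a₂.2
      have h5 := (comm_prod _ _ _ _ (comm_of_isMulCommutative hu.ab a₁.2 a₂.2)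
        (comm_of_isMulCommutative hv.ab y₁.2 y₂.2)
        (central m1 a₁.2) (central m1 a₂.2) (central m2 a₁.2) (central m2 a₂.2)).mp
        (comm_of_isMulCommutative hSab h3 h4)
      have h6 := eq_inv_of_mul_eq_one_left h5
      rw [h6, commutatorElement_inv]
    · intro c hc
      have hcX : c ∈ CC E := cc_anti hv.le hc
      have h1 : c ∈ CC (S ⊓ u) := by rw [hSu]; exact hcX
      rw [cc_inf hSL hu.ll] at h1
      obtain ⟨c₀, hc₀, c₁, hc₁, e⟩ := mem_sup_mul (ll_cc hSL) (ll_cc hu.ll) h1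
      refine ⟨c₁⁻¹, (CC u).inv_mem hc₁, fun y a h => ?_⟩
      have h3 := (key a y).mp h
      have hc₁X : c₁ ∈ CC E := cc_anti hu.le hc₁
      have hc'X : c₁⁻¹ ∈ CC E := (CC E).inv_mem hc₁X
      have hc₀e : c * c₁⁻¹ = c₀ := by rw [← e]; group
      have e3 : ⁅c * c₁⁻¹, (a : G) * y⁆ = 1 := by
        rw [hc₀e, commutatorElement_eq_one_iff_mul_comm]
        exact (Subgroup.mem_centralizer_iff.mp hc₀ _ h3).symm
      rw [cm_mul_right _ _ _ (central_X (C.b2 _ ((CC E).mul_mem hcX hc'X) _ y.2) (hu.le_X a.2))] at e3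
      have e1 : ⁅c * c₁⁻¹, (a : G)⁆ = ⁅c, (a : G)⁆ := by
        rw [C.add_c hcX hc'X a.2]
        have : ⁅c₁⁻¹, (a : G)⁆ = 1 := commutatorElement_eq_one_iff_mul_comm.mpr
          (Subgroup.mem_centralizer_iff.mp ((CC u).inv_mem hc₁) _ a.2).symm
        rw [this, one_mul]
      have e2 : ⁅c * c₁⁻¹, (y : G)⁆ = ⁅c₁⁻¹, (y : G)⁆ := by
        rw [C.add_c' hcX hc'X y.2]
        have : ⁅c, (y : G)⁆ = 1 := commutatorElement_eq_one_iff_mul_comm.mpr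
          (Subgroup.mem_centralizer_iff.mp hc _ y.2).symm
        rw [this, mul_one]
      rwa [e1, e2] at e3
  refine ⟨_, hAdm, ?_⟩
  ext x
  rw [mem_gr]
  constructor
  · rintro ⟨a, y, h, rfl⟩
    exact (key a y).mp h
  · intro hx
    obtain ⟨a, ha, y, hy, rfl⟩ := mem_sup_mul hu.ll hv.ll (hSle hx)
    exact ⟨⟨a, ha⟩, ⟨y, hy⟩, (key ⟨a, ha⟩ ⟨y, hy⟩).mpr hx, rfl⟩

end graph

/-- The number of abelian points on a thick line is divisible by `p`. -/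
theorem gph_dvd {p : ℕ} [Fact p.Prime] (hG : IsPGroup p G) {E u v S₀ : Subgroup G} (hE : LL E) (hu : At E u) (hv : At E v)
    (huv : u ≠ v) (hS₀ : Gph E u v S₀) (hne : S₀ ≠ v) : p ∣ Nat.card {S // Gph E u v S} := by
  have C : GCtx E u v := gctx_of_third hE hu hv huv (gph_third hu hv huv hS₀ hne).2.1
  haveI hN : (E.subgroupOf u).Normal := by
    constructor
    intro n hn g
    have : g * n * g⁻¹ = n := by
      have h1 : g * n = n * g := Subtype.ext (comm_of_isMulCommutative hu.ab g.2 n.2)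
      rw [h1]; group
    rwa [this]
  have hcard : Nat.card {S // Gph E u v S} = Nat.card ↥(Gam C) := by
    symm
    apply Nat.card_congr
    refine Equiv.ofBijective (fun φ => ⟨gr C φ.1 φ.2, gr_gph C φ.1 φ.2⟩) ⟨?_, ?_⟩
    · intro φ ψ h
      have h1 : gr C φ.1 φ.2 = gr C ψ.1 ψ.2 := congrArg Subtype.val h
      exact Subtype.ext (gr_inj C φ.2 ψ.2 h1)
    · rintro ⟨S, hS⟩
      obtain ⟨φ, h, e⟩ := gr_surj C hS
      exact ⟨⟨φ, h⟩, Subtype.ext e⟩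
  obtain ⟨n, hn⟩ := IsPGroup.iff_card.mp (gam_pgroup hG C)
  rw [hcard, hn]
  rcases n with _ | n
  · exfalso
    have h1 : Nat.card {S // Gph E u v S} = 1 := by rw [hcard, hn, pow_zero]
    have : Nontrivial {S // Gph E u v S} :=
      ⟨⟨⟨S₀, hS₀⟩, ⟨v, gph_refl hu hv huv⟩, fun h => hne (congrArg Subtype.val h)⟩⟩
    have h2 := Finite.one_lt_card_iff_nontrivial.mpr this
    omega
  · exact dvd_pow_self p (Nat.succ_ne_zero n)

end Cfsg.Agent.Lib.KS2.CLG
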