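import Cfsg.Agent.Lib.KS2.CLD
import Mathlib

/-!
# Counting atoms: a `p`-group fixes an atom.  Owner: helper15.
-/

set_option autoImplicit false
set_option linter.unusedSectionVars false
set_option linter.unusedVariables false

namespace Cfsg.Agent.Lib.KS2.CLG

open Subgroup Cfsg Cfsg.Agent.Lib.FF
open scoped Pointwise commutatorElement

variable {G : Type*} [Group G] [Finite G]

/-- Partition by the lines through a point. -/
theorem rays {p : ℕ} [Fact p.Prime] (hG : IsPGroup p G) {E q₀ : Subgroup G} (hE : LL E) (hq : At E q₀)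
    (F : Finset (Subgroup G))
    (h : ∀ v ∈ F, At E v ∧ v ≠ q₀ ∧ (∀ S, Gph E q₀ v S → S ∈ F) ∧ ∃ S, Gph E q₀ v S ∧ S ≠ v) :
    p ∣ F.card := by
  classical
  rw [Finset.card_eq_sum_card_image (fun v => q₀ ⊔ v) F]
  apply Finset.dvd_sum
  intro L hL
  obtain ⟨v, hv, rfl⟩ := Finset.mem_image.mp hL
  obtain ⟨hva, hvne, hcl, S₀, hS₀, hS₀ne⟩ := h v hv
  have hdvd := gph_dvd hG hE hq hva hvne.symm hS₀ hS₀ne
  have hcard : (F.filter (fun w => q₀ ⊔ w = q₀ ⊔ v)).card = Nat.card {S // Gph E q₀ v S} := by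
    symm
    apply Nat.subtype_card
    intro w
    rw [Finset.mem_filter]
    constructor
    · rintro ⟨hw, hsup⟩
      obtain ⟨hwa, hwne, -, -⟩ := h w hw
      refine ⟨hwa.ll, hwa.ab, hwa.le, ?_, hwa.inf_ne hq hwne, ?_⟩
      · rw [← hsup]; exact le_sup_right
      · rw [sup_comm]; exact hsup
    · intro hS
      refine ⟨hcl w hS, ?_⟩
      rw [sup_comm]
      exact hS.2.2.2.2.2
  rw [hcard]
  exact hdvd

/-- Counting fixed points. -/
theorem dvd_card_of_no_fixed {p : ℕ} [Fact p.Prime] (hG : IsPGroup p G) (T : Subgroup G) (C : Finset (Subgroup G))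
    (hinv : ∀ t ∈ T, ∀ v ∈ C, cj t v ∈ C) (hno : ∀ v ∈ C, ∃ t ∈ T, cj t v ≠ v) : p ∣ C.card := by
  have hT : IsPGroup p ↥T := hG.to_subgroup T
  letI : MulAction ↥T {x // x ∈ C} :=
    { smul := fun t v => ⟨cj t.1 v.1, hinv t.1 t.2 v.1 v.2⟩
      one_smul := fun v => Subtype.ext (cj_one v.1)
      mul_smul := fun a b v => Subtype.ext (cj_cj a.1 b.1 v.1).symm }
  have h := hT.card_modEq_card_fixedPoints {x // x ∈ C}
  have h0 : IsEmpty (MulAction.fixedPoints ↥T {x // x ∈ C}) := by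
    constructor
    rintro ⟨v, hv⟩
    obtain ⟨t, ht, hne⟩ := hno v.1 v.2
    have h1 := hv ⟨t, ht⟩
    exact hne (congrArg Subtype.val h1)
  have h0' : Nat.card (MulAction.fixedPoints ↥T {x // x ∈ C}) = 0 := Nat.card_of_isEmpty
  rw [h0'] at h
  have h2 : Nat.card {x // x ∈ C} = C.card := Nat.subtype_card C (fun _ => Iff.rfl)
  rw [h2] at h
  exact (Nat.modEq_zero_iff_dvd).mp h

theorem ab_sup_of_comm {E p v : Subgroup G} (hp : At E p) (hv : At E v) (h : v ≤ CC p) : IsMulCommutative ↥(p ⊔ v) :=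
  isMulCommutative_sup hp.ab hv.ab (fun a ha b hb => Subgroup.mem_centralizer_iff.mp (h hb) a ha)

/-- A commuting pair with a third point has a second abelian point on its line. -/
theorem gph_of_comm {E p v : Subgroup G} (hp : At E p) (hv : At E v) (hne : p ≠ v) (h : v ≤ CC p) (hr : Rl E p v) :
    ∃ S, Gph E p v S ∧ S ≠ v := by
  rcases hr with hr | ⟨W, hW⟩
  · exact absurd hr hne
  · obtain ⟨hL, hEW, hle, h1, h2, h3, h4⟩ := hW
    refine ⟨W, ⟨hL, ab_of_le (ab_sup_of_comm hp hv h) hle, hEW, hle, h1, h3⟩, ?_⟩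
    intro h0
    rw [h0, inf_idem] at h2
    exact hv.ne h2.symm

/-- The point on a commuting line orthogonal to a given atom. -/
theorem fib_gph {E u b v : Subgroup G} (hE : LL E) (hu : At E u) (hb : At E b) (hv : At E v) (hub : u ≠ b)
    (hcb : b ≤ CC u) (hcv : ¬ v ≤ CC u) : Gph E u b (CC v ⊓ (u ⊔ b)) := by
  obtain ⟨H1, H2⟩ := hu.hyp_of_not_le hv hcv
  have hd := hu.dm_eq_of_hyp hE hv H1 H2
  have hL := ll_inf (ll_cc hv.ll) (ll_sup hu.ll hb.ll)
  have hEle : E ≤ CC v ⊓ (u ⊔ b) := le_inf hv.le_cc (hu.le.trans le_sup_left)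
  have hXX : u ⊔ CC v = CC E := by
    have a1 := dm_sup_inf hu.ll (ll_cc hv.ll)
    rw [H1] at a1
    have a2 := dm_add_cc hE
    have a3 := dm_add_cc hv.ll
    exact eq_of_le_dm (sup_le hu.le_X (cc_anti hv.le)) (by omega)
  refine ⟨hL, ab_of_le (ab_sup_of_comm hu hb hcb) inf_le_right, hEle, inf_le_right, ?_, ?_⟩
  · apply le_antisymm _ (le_inf hEle hu.le)
    rw [← H1, inf_comm]
    exact inf_le_inf_left _ inf_le_left
  · have h1 := mod_law hu.ll (ll_cc hv.ll) (le_sup_left : u ≤ u ⊔ b)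
    rw [hXX, inf_eq_left.mpr (sup_le hu.le_X hb.le_X)] at h1
    rw [sup_comm, inf_comm, h1]

/-- The main counting theorem: a `p`-subgroup moving atoms along lines fixes an atom. -/
theorem exists_fixed_atom {p : ℕ} [Fact p.Prime] (hG : IsPGroup p G) {E u : Subgroup G} (hE : LL E) (hu : At E u)
    (T : Subgroup G) (hT1 : ∀ t ∈ T, cj t E = E) (hT2 : ∀ t ∈ T, ∀ v, At E v → Rl E v (cj t v))
    (hT3 : ∀ v, At E v → (∃ t ∈ T, cj t v ≠ v) → ∃ b, At E b ∧ b ≠ v ∧ ∃ S, Gph E v b S ∧ S ≠ b) :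
    ∃ v, At E v ∧ ∀ t ∈ T, cj t v = v := by
  classical
  by_contra hno
  push Not at hno
  haveI : Fintype (Subgroup G) := Fintype.ofFinite _
  obtain ⟨b, hb, hbu, S, hS, hSb⟩ := hT3 u hu (hno u hu)
  have hub : u ≠ b := hbu.symm
  let C : Finset (Subgroup G) := Finset.univ.filter (fun v => At E v ∧ Rl E u v)
  have memC : ∀ {v}, v ∈ C ↔ At E v ∧ Rl E u v := by
    intro v
    simp [C]
  have huC : u ∈ C := memC.mpr ⟨hu, rl_refl u⟩
  have hbC : b ∈ C := memC.mpr ⟨hb, rl_of_gph_third hu hb hub hS hSb⟩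
  have hdC : p ∣ C.card := by
    apply dvd_card_of_no_fixed hG T C
    · intro t ht v hv
      obtain ⟨h1, h2⟩ := memC.mp hv
      have h3 := h1.conj_at (hT1 t ht)
      exact memC.mpr ⟨h3, rl_trans hu h1 h3 h2 (hT2 t ht v h1)⟩
    · intro v hv
      exact hno v (memC.mp hv).1
  have gph_mem : ∀ {x w S : Subgroup G}, x ∈ C → w ∈ C → x ≠ w → Gph E x w S → S ∈ C := by
    intro x w S hx hw hxw hS
    obtain ⟨h1, h2⟩ := memC.mp hx
    obtain ⟨h3, h4⟩ := memC.mp hw
    have h5 : Rl E x w := rl_trans h1 hu h3 (rl_symm h2) h4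
    have h6 := hS.at h1 h3 hxw
    exact memC.mpr ⟨h6, rl_trans hu h1 h6 h2 (rl_of_gph h1 h3 hxw h5 hS)⟩
  have hrel : ∀ {x w : Subgroup G}, x ∈ C → w ∈ C → Rl E x w := by
    intro x w hx hw
    obtain ⟨h1, h2⟩ := memC.mp hx
    obtain ⟨h3, h4⟩ := memC.mp hw
    exact rl_trans h1 hu h3 (rl_symm h2) h4
  have hneS : ∀ {x w S : Subgroup G}, At E x → Gph E x w S → S ≠ x := by
    intro x w S hx hS h0
    have h1 := hS.2.2.2.2.1
    rw [h0, inf_idem] at h1
    exact hx.ne h1.symm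
  have huu : u ≤ CC u := le_cc_of_ab hu.ab
  -- commuting part
  have hC1 : p ∣ ((C.erase u).filter (fun v => v ≤ CC u)).card := by
    apply rays hG hE hu
    intro v hv
    rw [Finset.mem_filter, Finset.mem_erase] at hv
    obtain ⟨⟨hvu, hvC⟩, hvc⟩ := hv
    have hva := (memC.mp hvC).1
    refine ⟨hva, hvu, ?_, gph_of_comm hu hva hvu.symm hvc (memC.mp hvC).2⟩
    intro S hS
    rw [Finset.mem_filter, Finset.mem_erase]
    refine ⟨⟨hneS hu hS, gph_mem huC hvC hvu.symm hS⟩, ?_⟩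
    exact hS.2.2.2.1.trans (sup_le huu hvc)
  -- non-commuting part
  have hC2 : p ∣ ((C.erase u).filter (fun v => ¬ v ≤ CC u)).card := by
    by_cases hI : ∃ b' ∈ C, b' ≠ u ∧ b' ≤ CC u
    · obtain ⟨b', hb'C, hb'u, hb'c⟩ := hI
      have hb'a := (memC.mp hb'C).1
      rw [Finset.card_eq_sum_card_image (fun v => CC v ⊓ (u ⊔ b')) _]
      apply Finset.dvd_sum
      intro P hP
      obtain ⟨v₀, hv₀, rfl⟩ := Finset.mem_image.mp hP
      rw [Finset.mem_filter, Finset.mem_erase] at hv₀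
      obtain ⟨⟨hv₀u, hv₀C⟩, hv₀c⟩ := hv₀
      have hPg := fib_gph hE hu hb'a (memC.mp hv₀C).1 hb'u.symm hb'c hv₀c
      set P := CC v₀ ⊓ (u ⊔ b') with hPdef
      have hPa := hPg.at hu hb'a hb'u.symm
      have hPC : P ∈ C := gph_mem huC hb'C hb'u.symm hPg
      have hPu : P ≤ CC u := inf_le_right.trans (sup_le huu hb'c)
      apply rays hG hE hPa
      intro v hv
      rw [Finset.mem_filter, Finset.mem_filter, Finset.mem_erase] at hv
      obtain ⟨⟨⟨hvu, hvC⟩, hvc⟩, hvP⟩ := hv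
      have hva := (memC.mp hvC).1
      have hvne : v ≠ P := by
        intro h0
        exact hvc (h0 ▸ hPu)
      have hPcv : P ≤ CC v := by rw [← hvP]; exact inf_le_left
      have hvcP : v ≤ CC P := At.cc_iff.mp hPcv
      refine ⟨hva, hvne, ?_, gph_of_comm hPa hva hvne.symm hvcP (hrel hPC hvC)⟩
      intro S hS
      have hSC := gph_mem hPC hvC hvne.symm hS
      have hSa := (memC.mp hSC).1
      have hSnc : ¬ S ≤ CC u := by
        intro h0
        have h1 : v ≤ S ⊔ P := by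
          rw [hS.2.2.2.2.2]; exact le_sup_right
        exact hvc (h1.trans (sup_le h0 hPu))
      have hSu : S ≠ u := by
        intro h0
        exact hSnc (h0 ▸ huu)
      rw [Finset.mem_filter, Finset.mem_filter, Finset.mem_erase]
      refine ⟨⟨⟨hSu, hSC⟩, hSnc⟩, ?_⟩
      have hSg := fib_gph hE hu hb'a hSa hb'u.symm hb'c hSnc
      have hSga := hSg.at hu hb'a hb'u.symm
      have hSP : S ≤ CC P := hS.2.2.2.1.trans (sup_le (le_cc_of_ab hPa.ab) hvcP)
      have hPS : P ≤ CC S ⊓ (u ⊔ b') := le_inf (At.cc_iff.mpr hSP) inf_le_right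
      rcases hSga.min hPa.ll hPa.le hPS with h1 | h1
      · exact absurd h1.symm hPa.ne
      · exact h1.symm
    · push Not at hI
      have hbnc : ¬ b ≤ CC u := hI b hbC hub.symm
      apply rays hG hE hu
      intro v hv
      rw [Finset.mem_filter, Finset.mem_erase] at hv
      obtain ⟨⟨hvu, hvC⟩, hvc⟩ := hv
      have hva := (memC.mp hvC).1
      refine ⟨hva, hvu, ?_, ?_⟩
      · intro S' hS'
        have hS'C := gph_mem huC hvC hvu.symm hS'
        have hS'u := hneS hu hS'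
        rw [Finset.mem_filter, Finset.mem_erase]
        exact ⟨⟨hS'u, hS'C⟩, hI S' hS'C hS'u⟩
      · by_cases hvb : b = v
        · subst hvb
          exact ⟨S, hS, hSb⟩
        · exact t2_gph hE hu hb hva hub hvu.symm hvb hS hSb hbnc hvc
  have hsum := Finset.card_filter_add_card_filter_not (s := C.erase u) (fun v => v ≤ CC u)
  have hC3 : p ∣ (C.erase u).card := by
    rw [← hsum]
    exact dvd_add hC1 hC2
  have h4 := Finset.card_erase_add_one huC
  have h5 : p ∣ 1 := by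
    have := (Nat.dvd_add_right hC3).mp (h4 ▸ hdC)
    exact this
  exact (Fact.out : p.Prime).one_lt.ne' (Nat.dvd_one.mp h5)

end Cfsg.Agent.Lib.KS2.CLG
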