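import Cfsg.Agent.Lib.KS2.CLE
import Mathlib

/-!
# Glauberman's theorem on minimal centrally large subgroups.  Owner: helper15.
-/

set_option autoImplicit false
set_option linter.unusedSectionVars false
set_option linter.unusedVariables false

namespace Cfsg.Agent.Lib.KS2.CLG

open Subgroup Cfsg Cfsg.Agent.Lib.FF
open scoped Pointwise commutatorElement

variable {G : Type*} [Group G] [Finite G]

/-- `Q J(G)` is centrally large for centrally large `Q`. -/
theorem cl_sup_thompson {Q : Subgroup G} (hQ : IsCentrallyLarge Q) : IsCentrallyLarge (Q ⊔ thompsonSubgroupA G) := by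
  have hfin : {X : Subgroup G | IsCentrallyLarge X ∧ Q ≤ X ∧ X ≤ Q ⊔ thompsonSubgroupA G}.Finite := Set.toFinite _
  obtain ⟨X, hX, hmax⟩ := hfin.exists_maximal ⟨Q, hQ, le_rfl, le_sup_left⟩
  have hA : ∀ A ∈ maxAbelianSubgroups G, A ≤ X := by
    intro A hA
    have h1 : X ⊔ A ∈ {X : Subgroup G | IsCentrallyLarge X ∧ Q ≤ X ∧ X ≤ Q ⊔ thompsonSubgroupA G} :=
      ⟨(cl_maxAbelian_main hX.1 hA).1, hX.2.1.trans le_sup_left,
        sup_le hX.2.2 ((le_sSup hA).trans le_sup_right)⟩
    exact le_sup_right.trans (hmax h1 le_sup_left)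
  have hJ : thompsonSubgroupA G ≤ X := sSup_le hA
  have : Q ⊔ thompsonSubgroupA G = X := le_antisymm (sup_le hX.2.1 hJ) hX.2.2
  rw [this]
  exact hX.1

theorem cl_conj {R : Subgroup G} (hR : IsCentrallyLarge R) (t : G) : IsCentrallyLarge (cj t R) := by
  apply (cl_iff_of_large (ll_cj (cl_isCentralizerLarge hR) t)).mpr
  show CC (cj t R) ≤ cj t R
  rw [cj_cc]
  exact cj_mono t (cl_centralizer_le hR)

theorem cj_join (t : G) : cj t (centrallyLargeJoin G) = centrallyLargeJoin G := by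
  have h1 := cl_conj (centrallyLargeJoin_cl (G := G)) t
  have h2 : cj t (centrallyLargeJoin G) ≤ centrallyLargeJoin G := le_sSup h1
  exact Subgroup.eq_of_le_of_card_ge h2 (le_of_eq (card_conj _ t).symm)

/-- **Glauberman**: some minimal centrally large subgroup is normalized by `J(G)` and `G_MCL`. -/
theorem exists_min_cl_normal {p : ℕ} [Fact p.Prime] (hG : IsPGroup p G) :
    ∃ Q : Subgroup G, IsMinimalCentrallyLarge Q ∧ thompsonSubgroupA G ≤ normalizer (Q : Set G) ∧
      minimalCentrallyLargeJoin G ≤ normalizer (Q : Set G) := by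
  have hfin : {E : Subgroup G | LL E ∧ IsMulCommutative E ∧
      thompsonSubgroupA G ⊔ minimalCentrallyLargeJoin G ≤ normalizer (E : Set G)}.Finite := Set.toFinite _
  have hP := centrallyLargeJoin_cl (G := G)
  have hPL := cl_isCentralizerLarge hP
  have hmem0 : CC (centrallyLargeJoin G) ∈ {E : Subgroup G | LL E ∧ IsMulCommutative E ∧
      thompsonSubgroupA G ⊔ minimalCentrallyLargeJoin G ≤ normalizer (E : Set G)} := by
    refine ⟨ll_cc hPL, ?_, ?_⟩
    · apply isMulCommutative_of_comm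
      intro a ha b hb
      exact Subgroup.mem_centralizer_iff.mp hb a (cl_centralizer_le hP ha)
    · intro t _
      apply norm_of_cj
      rw [← cj_cc, cj_join]
  obtain ⟨E, ⟨hE, hEa, hTE⟩, hmax⟩ := hfin.exists_maximal ⟨_, hmem0⟩
  -- no atom above `E`
  have hnoat : ∀ u, ¬ At E u := by
    intro u hu
    have hT1 : ∀ t ∈ thompsonSubgroupA G ⊔ minimalCentrallyLargeJoin G, cj t E = E :=
      fun t ht => cj_of_norm (hTE ht)
    have hT2 : ∀ t ∈ thompsonSubgroupA G ⊔ minimalCentrallyLargeJoin G, ∀ v, At E v → Rl E v (cj t v) :=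
      fun t ht v hv => (T_le_Tg hE hEa hTE ht).2 v hv
    have hT3 : ∀ v, At E v → (∃ t ∈ thompsonSubgroupA G ⊔ minimalCentrallyLargeJoin G, cj t v ≠ v) →
        ∃ b, At E b ∧ b ≠ v ∧ ∃ S, Gph E v b S ∧ S ≠ b := by
      intro v hv ⟨t, ht, hne⟩
      have hmv : ¬ thompsonSubgroupA G ⊔ minimalCentrallyLargeJoin G ≤ normalizer (v : Set G) :=
        fun h => hne (cj_of_norm (h ht))
      obtain ⟨g, hg, hgne, S, hS, hSne⟩ := exists_gen hE hEa hv hTE hmv
      exact ⟨cj g v, hv.conj_at hg, hgne, S, hS, hSne⟩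
    obtain ⟨v, hv, hfix⟩ := exists_fixed_atom hG hE hu _ hT1 hT2 hT3
    have h1 := hmax ⟨hv.ll, hv.ab, fun t ht => norm_of_cj (hfix t ht)⟩ hv.le
    exact hv.ne (le_antisymm hv.le h1)
  refine ⟨CC E, ⟨centrally_large_cc hE hEa, ?_⟩, ?_, ?_⟩
  · intro R' hle hR'
    have hR'L := cl_isCentralizerLarge hR'
    have hCle := cl_centralizer_le hR'
    have hFa : IsMulCommutative (CC R') := by
      apply isMulCommutative_of_comm
      intro a ha b hb
      exact Subgroup.mem_centralizer_iff.mp hb a (hCle ha)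
    have hEF : E ≤ CC R' := by
      have := cc_anti hle
      rwa [cc_cc hE] at this
    by_cases hEq : E = CC R'
    · rw [hEq, cc_cc hR'L]
    · exfalso
      have hfin2 : {W : Subgroup G | LL W ∧ E ≤ W ∧ E ≠ W ∧ W ≤ CC R'}.Finite := Set.toFinite _
      obtain ⟨W, ⟨hW1, hW2, hW3, hW4⟩, hmin⟩ := hfin2.exists_minimal ⟨_, ll_cc hR'L, hEF, hEq, le_rfl⟩
      apply hnoat W
      refine ⟨hW1, ab_of_le hFa hW4, hW2, hW3, ?_⟩
      intro W' h1 h2 h3
      by_cases h4 : W' = E
      · exact Or.inl h4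
      · right
        exact le_antisymm h3 (hmin ⟨h1, h2, Ne.symm h4, h3.trans hW4⟩ h3)
  · intro t ht
    apply norm_of_cj
    rw [← cj_cc, cj_of_norm (hTE (Subgroup.mem_sup_left ht))]
  · intro t ht
    apply norm_of_cj
    rw [← cj_cc, cj_of_norm (hTE (Subgroup.mem_sup_right ht))]

end Cfsg.Agent.Lib.KS2.CLG
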