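import Mathlib
import Cfsg.Agent.Lib.KS2.SSConj2

/-!
# Counting the types of conjugacy classes of `GL_n(q)`
-/

set_option autoImplicit false
set_option linter.unusedSimpArgs false
set_option linter.unusedVariables false
set_option linter.deprecated false

universe u

namespace Cfsg.Agent.Lib.KS2.GLCount

open Polynomial Cfsg.Agent.Lib.KS2.SSConj

variable {F : Type u} [Field F] [Fintype F]

/-- Monic polynomials of degree `d` with nonzero constant term. -/
abbrev Pd (F : Type u) [Field F] (d : ℕ) := { f : F[X] // f.Monic ∧ f.natDegree = d ∧ f.coeff 0 ≠ 0 }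

/-- Their number. -/
def cc (q d : ℕ) : ℕ := match d with
  | 0 => 1
  | d + 1 => (q - 1) * q ^ d

lemma card_Pd (d : ℕ) : Nat.card (Pd F d) = cc (Fintype.card F) d := by
  cases d with
  | zero =>
    have : Unique (Pd F 0) :=
      { default := ⟨1, monic_one, natDegree_one, by simp⟩
        uniq := fun f => Subtype.ext (by
          show f.1 = 1
          exact eq_one_of_monic_natDegree_zero f.2.1 f.2.2.1) }
    simp [cc]
  | succ d =>
    exact card_poly_ne d

lemma finite_Pd (d : ℕ) : Finite (Pd F d) := by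
  cases d with
  | zero =>
    have : Subsingleton (Pd F 0) := ⟨fun f g => Subtype.ext (by
      rw [eq_one_of_monic_natDegree_zero f.2.1 f.2.2.1, eq_one_of_monic_natDegree_zero g.2.1 g.2.2.1])⟩
    infer_instance
  | succ d =>
    classical
    let E₁ : Pd F (d + 1) → (Fin (d + 1) → F) := fun f => polyEquiv d ⟨f.1, f.2.1, f.2.2.1⟩
    refine Finite.of_injective E₁ ?_
    intro f g h
    have := (polyEquiv d).injective h
    exact Subtype.ext (congrArg (fun z => z.1) this)

/-- The rational version of `cc`. -/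
noncomputable def cc' (q : ℚ) (d : ℕ) : ℚ := match d with
  | 0 => 1
  | d + 1 => (q - 1) * q ^ d

/-- The tuples of polynomials. -/
abbrev TT (F : Type u) [Field F] (m N : ℕ) :=
  { g : Fin m → F[X] // (∀ i, (g i).Monic ∧ (g i).coeff 0 ≠ 0) ∧ ∑ i : Fin m, ((i : ℕ) + 1) * (g i).natDegree = N }

/-- Splitting off the last polynomial. -/
noncomputable def splitTT (m N : ℕ) (g : TT F (m + 1) N) :
    Σ d : Fin (N / (m + 1) + 1), Pd F d.1 × TT F m (N - (m + 1) * d.1) := by
  have hsum : ∑ i : Fin m, ((i : ℕ) + 1) * (g.1 (Fin.castSucc i)).natDegree + (m + 1) * (g.1 (Fin.last m)).natDegree = N := by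
    have := g.2.2
    rw [Fin.sum_univ_castSucc] at this
    simpa using this
  have hd : (g.1 (Fin.last m)).natDegree < N / (m + 1) + 1 := by
    have h1 : (g.1 (Fin.last m)).natDegree ≤ N / (m + 1) := by
      rw [Nat.le_div_iff_mul_le (by omega : 0 < m + 1), mul_comm]
      omega
    omega
  exact ⟨⟨(g.1 (Fin.last m)).natDegree, hd⟩, ⟨g.1 (Fin.last m), (g.2.1 _).1, rfl, (g.2.1 _).2⟩,
    ⟨fun i => g.1 (Fin.castSucc i), fun i => g.2.1 _, Nat.eq_sub_of_add_eq hsum⟩⟩

lemma splitTT_inj (m N : ℕ) : Function.Injective (splitTT (F := F) m N) := by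
  intro g g' h
  have h1 : (g.1 (Fin.last m)) = (g'.1 (Fin.last m)) := by
    have h2 := congrArg (fun z => z.2.1.1) h
    simpa [splitTT] using h2
  have h3 : ∀ i : Fin m, g.1 (Fin.castSucc i) = g'.1 (Fin.castSucc i) := by
    intro i
    have h2 := congrArg (fun z => z.2.2.1 i) h
    simpa [splitTT] using h2
  apply Subtype.ext
  funext i
  refine Fin.lastCases ?_ ?_ i
  · exact h1
  · exact h3

lemma finite_TT : ∀ m N : ℕ, Finite (TT F m N) := by
  intro m
  induction m with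
  | zero =>
    intro N
    have : Subsingleton (TT F 0 N) := ⟨fun f g => Subtype.ext (funext fun i => i.elim0)⟩
    infer_instance
  | succ m ih =>
    intro N
    have hfin : ∀ d : Fin (N / (m + 1) + 1), Finite (Pd F d.1 × TT F m (N - (m + 1) * d.1)) := by
      intro d
      haveI := finite_Pd (F := F) d.1
      haveI := ih (N - (m + 1) * d.1)
      infer_instance
    exact Finite.of_injective _ (splitTT_inj (F := F) m N)

lemma card_TT_rec (m N : ℕ) :
    Nat.card (TT F (m + 1) N) ≤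
      ∑ d ∈ Finset.range (N / (m + 1) + 1), cc (Fintype.card F) d * Nat.card (TT F m (N - (m + 1) * d)) := by
  have hfin : ∀ d : Fin (N / (m + 1) + 1), Finite (Pd F d.1 × TT F m (N - (m + 1) * d.1)) := by
    intro d
    haveI := finite_Pd (F := F) d.1
    haveI := finite_TT (F := F) m (N - (m + 1) * d.1)
    infer_instance
  have h1 := Nat.card_le_card_of_injective _ (splitTT_inj (F := F) m N)
  refine h1.trans ?_
  rw [Nat.card_sigma, Finset.sum_range]
  refine le_of_eq (Finset.sum_congr rfl fun d _ => ?_)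
  rw [Nat.card_prod, card_Pd]

lemma card_TT_zero_zero : Nat.card (TT F 0 0) = 1 := by
  have : Unique (TT F 0 0) :=
    { default := ⟨fun i => i.elim0, fun i => i.elim0, by simp⟩
      uniq := fun f => Subtype.ext (funext fun i => i.elim0) }
  simp

lemma card_TT_zero_pos (N : ℕ) (hN : N ≠ 0) : Nat.card (TT F 0 N) = 0 := by
  have : IsEmpty (TT F 0 N) := ⟨fun f => hN (by
    have := f.2.2
    simpa using this.symm)⟩
  simp

lemma card_TT_N_zero (m : ℕ) : Nat.card (TT F m 0) ≤ 1 := by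
  induction m with
  | zero => rw [card_TT_zero_zero]
  | succ m ih =>
    have := card_TT_rec (F := F) m 0
    simp [cc] at this
    omega

lemma cc'_term (q : ℚ) (hq : q ≠ 0) (m d : ℕ) :
    cc' q (d + 1) * (q⁻¹) ^ ((m + 1) * (d + 1)) = (1 - q⁻¹) * ((q⁻¹) ^ m) ^ (d + 1) := by
  have h1 : (q⁻¹) ^ ((m + 1) * (d + 1)) = ((q⁻¹) ^ m) ^ (d + 1) * (q⁻¹) ^ d * q⁻¹ := by
    rw [← pow_mul, ← pow_add, ← pow_succ]
    congr 1
    ring
  have h2 : q ^ d * (q⁻¹) ^ d = 1 := by
    rw [← mul_pow, mul_inv_cancel₀ hq, one_pow]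
  rw [h1]
  show (q - 1) * q ^ d * (((q⁻¹) ^ m) ^ (d + 1) * (q⁻¹) ^ d * q⁻¹) = _
  have h3 : (q - 1) * q⁻¹ = 1 - q⁻¹ := by
    field_simp
  calc (q - 1) * q ^ d * (((q⁻¹) ^ m) ^ (d + 1) * (q⁻¹) ^ d * q⁻¹)
      = ((q - 1) * q⁻¹) * (q ^ d * (q⁻¹) ^ d) * ((q⁻¹) ^ m) ^ (d + 1) := by ring
    _ = _ := by rw [h2, h3, mul_one]

/-- Telescoping. -/
lemma tele (q : ℚ) (hq : q ≠ 0) (m : ℕ) (j : ℕ) :
    ∑ d ∈ Finset.range (j + 1), (cc' q d) * (q⁻¹) ^ ((m + 1) * d) * (1 - (q⁻¹) ^ m) =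
      (1 - (q⁻¹) ^ m) + (1 - q⁻¹) * ((q⁻¹) ^ m - ((q⁻¹) ^ m) ^ (j + 1)) := by
  induction j with
  | zero =>
    simp [cc']
  | succ j ih =>
    rw [Finset.sum_range_succ, ih, cc'_term q hq]
    ring

lemma cc_cast (q : ℕ) (hq : 1 ≤ q) (d : ℕ) : (cc q d : ℚ) = cc' (q : ℚ) d := by
  cases d with
  | zero => simp [cc, cc']
  | succ d =>
    simp only [cc, cc']
    push_cast [Nat.cast_sub hq]
    ring

lemma cc'_nonneg (q : ℚ) (hq : 1 ≤ q) (d : ℕ) : 0 ≤ cc' q d := by
  cases d with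
  | zero => simp [cc']
  | succ d =>
    show 0 ≤ (q - 1) * q ^ d
    have : 0 ≤ q - 1 := by linarith
    positivity

/-- The main numerical bound. -/
theorem bound (hq : 1 < Fintype.card F) (m N : ℕ) (hN : 1 ≤ N) :
    (Nat.card (TT F m N) : ℚ) ≤ ((Fintype.card F : ℕ) : ℚ) ^ N * (1 - (((Fintype.card F : ℕ) : ℚ)⁻¹) ^ m) := by
  obtain ⟨q, hqq⟩ : ∃ q : ℚ, q = ((Fintype.card F : ℕ) : ℚ) := ⟨_, rfl⟩
  rw [← hqq]
  have hq1 : 1 < q := by
    rw [hqq]
    exact_mod_cast hq
  have hq0 : q ≠ 0 := by linarith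
  have hx : 0 < q⁻¹ := by positivity
  have hx1 : q⁻¹ < 1 := inv_lt_one_of_one_lt₀ hq1
  induction m generalizing N with
  | zero =>
    rw [card_TT_zero_pos N (by omega)]
    simp
  | succ m ih =>
    have h1 := card_TT_rec (F := F) m N
    have h2 : (Nat.card (TT F (m + 1) N) : ℚ) ≤ ∑ d ∈ Finset.range (N / (m + 1) + 1),
        cc' q d * (Nat.card (TT F m (N - (m + 1) * d)) : ℚ) := by
      have h3 : (Nat.card (TT F (m + 1) N) : ℚ) ≤ ((∑ d ∈ Finset.range (N / (m + 1) + 1), cc (Fintype.card F) d * Nat.card (TT F m (N - (m + 1) * d)) : ℕ) : ℚ) := by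
        exact_mod_cast h1
      refine h3.trans (le_of_eq ?_)
      push_cast
      refine Finset.sum_congr rfl fun d _ => ?_
      rw [cc_cast _ (by omega), hqq]
    refine h2.trans ?_
    obtain ⟨y, hy⟩ : ∃ y : ℚ, y = (q⁻¹) ^ m := ⟨_, rfl⟩
    have hy0 : 0 ≤ y := by rw [hy]; positivity
    have hy1 : y ≤ 1 := by rw [hy]; exact pow_le_one₀ hx.le hx1.le
    have hstep : ∀ d, (m + 1) * d < N → cc' q d * (Nat.card (TT F m (N - (m + 1) * d)) : ℚ) ≤
        q ^ N * (cc' q d * (q⁻¹) ^ ((m + 1) * d) * (1 - y)) := by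
      intro d hd
      have h3 := ih (N - (m + 1) * d) (by omega)
      have h4 : q ^ (N - (m + 1) * d) = q ^ N * (q⁻¹) ^ ((m + 1) * d) := by
        rw [inv_pow, ← pow_sub₀ q hq0 hd.le]
      rw [h4, ← hy] at h3
      calc cc' q d * (Nat.card (TT F m (N - (m + 1) * d)) : ℚ) ≤ cc' q d * (q ^ N * (q⁻¹) ^ ((m + 1) * d) * (1 - y)) :=
            mul_le_mul_of_nonneg_left h3 (cc'_nonneg q hq1.le d)
        _ = _ := by ring
    have hfinal : q ^ N * (1 - (q⁻¹) ^ (m + 1)) = q ^ N * ((1 - y) + (1 - q⁻¹) * y) := by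
      rw [hy]
      ring
    rw [hfinal]
    by_cases hdvd : (m + 1) ∣ N
    · obtain ⟨D, rfl⟩ := hdvd
      have hD : 1 ≤ D := by
        by_contra hc
        have : D = 0 := by omega
        subst this
        simp at hN
      obtain ⟨D', rfl⟩ : ∃ D', D = D' + 1 := ⟨D - 1, by omega⟩
      rw [Nat.mul_div_cancel_left _ (Nat.succ_pos m), Finset.sum_range_succ]
      have h5 : ∑ d ∈ Finset.range (D' + 1), cc' q d * (Nat.card (TT F m ((m + 1) * (D' + 1) - (m + 1) * d)) : ℚ) ≤
          q ^ ((m + 1) * (D' + 1)) * ((1 - y) + (1 - q⁻¹) * (y - y ^ (D' + 1))) := by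
        have := tele q hq0 m D'
        rw [← hy] at this
        rw [← this, Finset.mul_sum]
        refine Finset.sum_le_sum fun d hd => ?_
        apply hstep
        have : d < D' + 1 := Finset.mem_range.mp hd
        exact Nat.mul_lt_mul_of_pos_left this (Nat.succ_pos m)
      have h6 : cc' q (D' + 1) * (Nat.card (TT F m ((m + 1) * (D' + 1) - (m + 1) * (D' + 1))) : ℚ) ≤ cc' q (D' + 1) := by
        rw [Nat.sub_self]
        have h7 : (Nat.card (TT F m 0) : ℚ) ≤ 1 := by exact_mod_cast card_TT_N_zero m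
        calc _ ≤ cc' q (D' + 1) * 1 := mul_le_mul_of_nonneg_left h7 (cc'_nonneg q hq1.le _)
          _ = _ := mul_one _
      have h8 : cc' q (D' + 1) = q ^ ((m + 1) * (D' + 1)) * ((1 - q⁻¹) * y ^ (D' + 1)) := by
        have h9 := cc'_term q hq0 m D'
        rw [← hy] at h9
        rw [← h9, mul_comm (cc' q (D' + 1)), ← mul_assoc, ← mul_pow, mul_inv_cancel₀ hq0]
        simp
      have h10 : q ^ ((m + 1) * (D' + 1)) * ((1 - y) + (1 - q⁻¹) * y) =
          q ^ ((m + 1) * (D' + 1)) * ((1 - y) + (1 - q⁻¹) * (y - y ^ (D' + 1))) + q ^ ((m + 1) * (D' + 1)) * ((1 - q⁻¹) * y ^ (D' + 1)) := by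
        ring
      rw [h10, ← h8]
      exact add_le_add h5 h6
    · have h5 : ∑ d ∈ Finset.range (N / (m + 1) + 1), cc' q d * (Nat.card (TT F m (N - (m + 1) * d)) : ℚ) ≤
          q ^ N * ((1 - y) + (1 - q⁻¹) * (y - y ^ (N / (m + 1) + 1))) := by
        have := tele q hq0 m (N / (m + 1))
        rw [← hy] at this
        rw [← this, Finset.mul_sum]
        refine Finset.sum_le_sum fun d hd => ?_
        apply hstep
        have h6 : d < N / (m + 1) + 1 := Finset.mem_range.mp hd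
        have h7 : (m + 1) * d ≤ N := by
          have h8 : d ≤ N / (m + 1) := by omega
          calc (m + 1) * d ≤ (m + 1) * (N / (m + 1)) := Nat.mul_le_mul_left _ h8
            _ ≤ N := Nat.mul_div_le _ _
        refine lt_of_le_of_ne h7 ?_
        intro h9
        exact hdvd ⟨d, h9.symm⟩
      refine h5.trans ?_
      have hqN : 0 ≤ q ^ N := by positivity
      apply mul_le_mul_of_nonneg_left _ hqN
      have h6 : 0 ≤ (1 - q⁻¹) * y ^ (N / (m + 1) + 1) := by
        have : 0 ≤ 1 - q⁻¹ := by linarith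
        positivity
      nlinarith

theorem card_TT_le (hq : 1 < Fintype.card F) (n : ℕ) (hn : 1 ≤ n) :
    Nat.card (TT F n n) ≤ Fintype.card F ^ n := by
  have h1 := bound (F := F) hq n n hn
  have hq0 : ((Fintype.card F : ℕ) : ℚ) ≠ 0 := by
    have : 0 < Fintype.card F := by omega
    exact_mod_cast this.ne'
  have h2 : ((Fintype.card F : ℕ) : ℚ) ^ n * (1 - (((Fintype.card F : ℕ) : ℚ)⁻¹) ^ n) = ((Fintype.card F : ℕ) : ℚ) ^ n - 1 := by
    rw [mul_sub, mul_one, ← mul_pow, mul_inv_cancel₀ hq0, one_pow]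
  rw [h2] at h1
  have h3 : (Nat.card (TT F n n) : ℚ) ≤ ((Fintype.card F ^ n : ℕ) : ℚ) := by
    push_cast
    linarith
  exact_mod_cast h3

end Cfsg.Agent.Lib.KS2.GLCount
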