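import Mathlib
import Cfsg.Agent.Lib.KS2.GLCount

/-!
# Conjugacy classes of `GL_n(q)` via primary decomposition
-/

set_option autoImplicit false
set_option linter.unusedSimpArgs false
set_option linter.unusedVariables false
set_option linter.deprecated false

universe u

namespace Cfsg.Agent.Lib.KS2.GLType

open Polynomial Module Cfsg.Agent.Lib.KS2.GLCount

variable {F : Type u} [Field F]

/-- The quotient modules. -/
abbrev Qt (f : F[X]) := F[X] ⧸ (Submodule.span F[X] {f} : Submodule F[X] F[X])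

/-- Decomposition into monic primary pieces. -/
structure Dec {V : Type u} [AddCommGroup V] [Module F V] (T : V →ₗ[F] V) where
  ι : Type u
  ft : Fintype ι
  p : ι → F[X]
  e : ι → ℕ
  hp : ∀ i, Irreducible (p i)
  hm : ∀ i, (p i).Monic
  he : ∀ i, e i ≠ 0
  φ : AEval' T ≃ₗ[F[X]] (∀ i, Qt (p i ^ e i))

lemma exists_dec {V : Type u} [AddCommGroup V] [Module F V] [FiniteDimensional F V] (T : V →ₗ[F] V) :
    Nonempty (Dec T) := by
  classical
  have htor : Module.IsTorsion F[X] (AEval' T) := Module.AEval.isTorsion_of_finiteDimensional (K := F) (M := V) T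
  obtain ⟨ι, ft, p, hp, e, ⟨φ⟩⟩ := Module.equiv_directSum_of_isTorsion htor
  let ι₀ := {i : ι // e i ≠ 0}
  let φ₁ := φ.trans (DirectSum.linearEquivFunOnFintype F[X] ι fun i => Qt (p i ^ e i))
  -- restriction to the nontrivial pieces
  have hsub : ∀ i, e i = 0 → Subsingleton (Qt (p i ^ e i)) := by
    intro i hi
    refine ⟨fun a b => ?_⟩
    obtain ⟨a, rfl⟩ := Submodule.Quotient.mk_surjective _ a
    obtain ⟨b, rfl⟩ := Submodule.Quotient.mk_surjective _ b
    rw [Submodule.Quotient.eq, Submodule.mem_span_singleton]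
    refine ⟨a - b, ?_⟩
    rw [hi, pow_zero]
    simp
  let res : (∀ i, Qt (p i ^ e i)) →ₗ[F[X]] (∀ i : ι₀, Qt (p i.1 ^ e i.1)) :=
    { toFun := fun f i => f i.1
      map_add' := fun f g => rfl
      map_smul' := fun c f => rfl }
  have hres : Function.Bijective res := by
    constructor
    · intro f g h
      funext i
      by_cases hi : e i = 0
      · haveI := hsub i hi
        exact Subsingleton.elim _ _
      · exact congrFun h ⟨i, hi⟩
    · intro f
      refine ⟨fun i => if hi : e i ≠ 0 then f ⟨i, hi⟩ else 0, ?_⟩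
      funext i
      show (if hi : e i.1 ≠ 0 then f ⟨i.1, hi⟩ else 0) = f i
      rw [dif_pos i.2]
  let φ₂ := φ₁.trans (LinearEquiv.ofBijective res hres)
  have hspan : ∀ i : ι₀, (Submodule.span F[X] {p i.1 ^ e i.1} : Submodule F[X] F[X]) = Submodule.span F[X] {(normalize (p i.1)) ^ e i.1} := by
    intro i
    apply Ideal.span_singleton_eq_span_singleton.mpr
    exact (associated_normalize _).pow_pow
  let φ₃ : (∀ i : ι₀, Qt (p i.1 ^ e i.1)) ≃ₗ[F[X]] (∀ i : ι₀, Qt ((normalize (p i.1)) ^ e i.1)) :=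
    LinearEquiv.piCongrRight fun i => Submodule.quotEquivOfEq _ _ (hspan i)
  exact ⟨{ ι := ι₀
           ft := inferInstance
           p := fun i => normalize (p i.1)
           e := fun i => e i.1
           hp := fun i => (associated_normalize _).irreducible (hp i.1)
           hm := fun i => monic_normalize (hp i.1).ne_zero
           he := fun i => i.2
           φ := φ₂.trans φ₃ }⟩

section DecLemmas

variable {V : Type u} [AddCommGroup V] [Module F V] [FiniteDimensional F V] {T : V →ₗ[F] V}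

lemma finrank_Qt (f : F[X]) : Module.finrank F (Qt f) = f.natDegree :=
  finrank_quotient_span_eq_natDegree

instance finite_Qt (f : F[X]) [Fact f.Monic] : Module.Finite F (Qt f) :=
  (Fact.out : f.Monic).finite_quotient

/-- The dimension formula. -/
lemma Dec.sum_deg (D : Dec T) : (letI := D.ft; ∑ i, D.e i * (D.p i).natDegree) = Module.finrank F V := by
  letI := D.ft
  have hfact : ∀ i, Fact ((D.p i) ^ (D.e i)).Monic := fun i => ⟨(D.hm i).pow _⟩
  have h1 : Module.finrank F V = Module.finrank F (∀ i, Qt (D.p i ^ D.e i)) := by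
    have e1 : V ≃ₗ[F] AEval' T := AEval'.of T
    have e2 : AEval' T ≃ₗ[F] (∀ i, Qt (D.p i ^ D.e i)) := D.φ.restrictScalars F
    exact (e1.trans e2).finrank_eq
  rw [h1, Module.finrank_pi_fintype]
  refine Finset.sum_congr rfl fun i _ => ?_
  rw [finrank_Qt, natDegree_pow]

lemma Dec.coeff_ne (D : Dec T) (hT : Function.Injective T) (i : D.ι) : (D.p i).coeff 0 ≠ 0 := by
  classical
  letI := D.ft
  intro h0
  have hX : (X : F[X]) ∣ D.p i := X_dvd_iff.mpr h0
  obtain ⟨r, hr⟩ := hX
  have hirr := D.hp i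
  have hru : IsUnit r := by
    rw [hr] at hirr
    exact (hirr.isUnit_or_isUnit rfl).resolve_left not_isUnit_X
  have hpi : D.p i = X := by
    have hmon := D.hm i
    rw [hr] at hmon
    have : r.Monic := monic_X.of_mul_monic_left hmon
    have h2 : r = 1 := Monic.eq_one_of_isUnit this hru
    rw [hr, h2, mul_one]
  obtain ⟨m, hm⟩ : ∃ m, D.e i = m + 1 := ⟨D.e i - 1, by have := D.he i; omega⟩
  let z : ∀ j, Qt (D.p j ^ D.e j) := Pi.single i (Submodule.Quotient.mk ((X : F[X]) ^ m))
  have hz : (X : F[X]) • z = 0 := by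
    funext j
    by_cases hj : j = i
    · subst hj
      show (X : F[X]) • (Pi.single j (Submodule.Quotient.mk ((X : F[X]) ^ m)) : ∀ j, Qt (D.p j ^ D.e j)) j = 0
      rw [Pi.single_eq_same, ← Submodule.Quotient.mk_smul, Submodule.Quotient.mk_eq_zero, Submodule.mem_span_singleton]
      refine ⟨1, ?_⟩
      rw [hpi, hm, one_smul, smul_eq_mul, pow_succ']
    · show (X : F[X]) • (Pi.single i (Submodule.Quotient.mk ((X : F[X]) ^ m)) : ∀ j, Qt (D.p j ^ D.e j)) j = 0
      rw [Pi.single_eq_of_ne hj, smul_zero]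
  have hz0 : z ≠ 0 := by
    intro h
    have h1 := congrFun h i
    simp only [z, Pi.single_eq_same, Pi.zero_apply] at h1
    rw [Submodule.Quotient.mk_eq_zero, Submodule.mem_span_singleton] at h1
    obtain ⟨c, hc⟩ := h1
    rw [hpi, hm, smul_eq_mul] at hc
    have h3 : (X : F[X]) ^ (m + 1) ∣ X ^ m := ⟨c, by rw [← hc]; ring⟩
    have h4 := natDegree_le_of_dvd h3 (pow_ne_zero _ X_ne_zero)
    simp at h4
  -- transport to `V`
  let v : V := (AEval'.of T).symm (D.φ.symm z)
  have hv : T v = 0 := by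
    have h1 : (X : F[X]) • (AEval'.of T v) = 0 := by
      have : AEval'.of T v = D.φ.symm z := (AEval'.of T).apply_symm_apply _
      rw [this, ← map_smul, hz, map_zero]
    rw [AEval'.X_smul_of] at h1
    exact (AEval'.of T).map_eq_zero_iff.mp h1
  have hv0 : v = 0 := hT (by rw [hv, map_zero])
  apply hz0
  have : D.φ.symm z = 0 := (AEval'.of T).symm.map_eq_zero_iff.mp hv0
  exact D.φ.symm.map_eq_zero_iff.mp this

end DecLemmas

section Tup

variable {V : Type u} [AddCommGroup V] [Module F V] [FiniteDimensional F V] {T : V →ₗ[F] V}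

open Classical in
/-- The tuple of polynomials attached to a decomposition. -/
noncomputable def Dec.tup (D : Dec T) (n : ℕ) (k : Fin n) : F[X] :=
  letI := D.ft
  ∏ i ∈ Finset.univ.filter (fun i => D.e i = (k : ℕ) + 1), D.p i

lemma Dec.tup_monic (D : Dec T) (n : ℕ) (k : Fin n) : (D.tup n k).Monic := by
  letI := D.ft
  unfold Dec.tup
  exact monic_prod_of_monic _ _ (fun i _ => D.hm i)

lemma Dec.tup_coeff (D : Dec T) (hT : Function.Injective T) (n : ℕ) (k : Fin n) : (D.tup n k).coeff 0 ≠ 0 := by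
  letI := D.ft
  unfold Dec.tup
  rw [coeff_zero_eq_eval_zero, eval_prod]
  refine Finset.prod_ne_zero_iff.mpr fun i _ => ?_
  rw [← coeff_zero_eq_eval_zero]
  exact D.coeff_ne hT i

lemma Dec.p_deg_pos (D : Dec T) (i : D.ι) : 1 ≤ (D.p i).natDegree := by
  have h1 := D.hp i
  have h2 := (D.hm i)
  have : (D.p i).natDegree ≠ 0 := by
    intro h
    have h3 := eq_one_of_monic_natDegree_zero h2 h
    rw [h3] at h1
    exact not_irreducible_one h1
  omega

lemma Dec.e_le (D : Dec T) (i : D.ι) : D.e i ≤ Module.finrank F V := by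
  classical
  letI := D.ft
  have h1 := D.sum_deg
  have h2 : D.e i * (D.p i).natDegree ≤ ∑ j, D.e j * (D.p j).natDegree :=
    Finset.single_le_sum (f := fun j => D.e j * (D.p j).natDegree) (fun _ _ => Nat.zero_le _) (Finset.mem_univ i)
  have h3 := Nat.le_mul_of_pos_right (D.e i) (D.p_deg_pos i)
  rw [← h1]
  exact h3.trans h2

lemma Dec.tup_sum (D : Dec T) (n : ℕ) (hn : Module.finrank F V = n) :
    ∑ k : Fin n, ((k : ℕ) + 1) * (D.tup n k).natDegree = n := by
  classical
  letI := D.ft
  have h1 : ∀ k : Fin n, (D.tup n k).natDegree = ∑ i ∈ Finset.univ.filter (fun i => D.e i = (k : ℕ) + 1), (D.p i).natDegree := by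
    intro k
    unfold Dec.tup
    rw [natDegree_prod_of_monic _ _ (fun i _ => D.hm i)]
  simp only [h1, Finset.mul_sum, Finset.sum_filter]
  rw [Finset.sum_comm]
  have h2 := D.sum_deg
  rw [hn] at h2
  refine Eq.trans ?_ h2
  refine Finset.sum_congr rfl fun i _ => ?_
  have hlt : D.e i - 1 < n := by
    have h3 := D.e_le i
    have h4 := D.he i
    omega
  refine (Finset.sum_eq_single (f := fun k : Fin n => ((k : ℕ) + 1) * if D.e i = (k : ℕ) + 1 then (D.p i).natDegree else 0) (s := Finset.univ) (⟨D.e i - 1, hlt⟩ : Fin n) ?_ ?_).trans ?_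
  · intro k _ hk
    rw [if_neg, mul_zero]
    intro h
    apply hk
    apply Fin.ext
    simp only
    omega
  · intro h
    exact absurd (Finset.mem_univ _) h
  · have h4 := D.he i
    have h5 : D.e i = D.e i - 1 + 1 := by omega
    simp only [← h5, if_true]

/-- The tuple determines the fibres of the decomposition. -/
lemma Dec.fibers {V' : Type u} [AddCommGroup V'] [Module F V'] [FiniteDimensional F V'] {T' : V' →ₗ[F] V'}
    (D : Dec T) (D' : Dec T') (n : ℕ) (hn : Module.finrank F V = n) (hn' : Module.finrank F V' = n) (h : D.tup n = D'.tup n)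
    (c : F[X] × ℕ) :
    Nat.card {i : D.ι // (D.p i, D.e i) = c} = Nat.card {i : D'.ι // (D'.p i, D'.e i) = c} := by
  classical
  letI := D.ft
  letI := D'.ft
  obtain ⟨π, m⟩ := c
  by_cases hm : 1 ≤ m ∧ m ≤ n
  · obtain ⟨k, rfl⟩ : ∃ k, m = k + 1 := ⟨m - 1, by omega⟩
    have hk : k < n := by omega
    have h1 := congrFun h ⟨k, hk⟩
    have hcount : ∀ {W : Type u} [AddCommGroup W] [Module F W] [FiniteDimensional F W] {S : W →ₗ[F] W} (E : Dec S),
        (letI := E.ft; Nat.card {i : E.ι // (E.p i, E.e i) = (π, k + 1)}) =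
          Multiset.count π (UniqueFactorizationMonoid.normalizedFactors (E.tup n ⟨k, hk⟩)) := by
      intro W _ _ _ S E
      letI := E.ft
      have h2 : E.tup n ⟨k, hk⟩ = ((Finset.univ.filter (fun i => E.e i = k + 1)).val.map E.p).prod := by
        unfold Dec.tup
        rfl
      rw [h2, UniqueFactorizationMonoid.normalizedFactors_prod_eq]
      · have h3 : ((Finset.univ.filter (fun i => E.e i = k + 1)).val.map E.p).map normalize = (Finset.univ.filter (fun i => E.e i = k + 1)).val.map E.p := by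
          rw [Multiset.map_map]
          refine Multiset.map_congr rfl fun i _ => ?_
          simp only [Function.comp]
          exact (E.hm i).normalize_eq_self
        rw [h3, Multiset.count_map, Nat.card_eq_fintype_card, Fintype.card_subtype]
        show _ = Multiset.card (Multiset.filter _ (Finset.univ.filter (fun i => E.e i = k + 1)).val)
        rw [← Finset.filter_val, Finset.filter_filter]
        show _ = Finset.card _
        congr 1
        ext i
        simp only [Finset.mem_filter, Finset.mem_univ, true_and, Prod.mk.injEq]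
        constructor
        · rintro ⟨h4, h5⟩
          exact ⟨h5, h4.symm⟩
        · rintro ⟨h4, h5⟩
          exact ⟨h5.symm, h4⟩
      · intro a ha
        obtain ⟨i, _, rfl⟩ := Multiset.mem_map.mp ha
        exact E.hp i
    rw [hcount D, hcount D', h1]
  · have hempty : ∀ {W : Type u} [AddCommGroup W] [Module F W] [FiniteDimensional F W] {S : W →ₗ[F] W} (E : Dec S),
        Module.finrank F W = n → IsEmpty {i : E.ι // (E.p i, E.e i) = (π, m)} := by
      intro W _ _ _ S E hW
      refine ⟨fun i => hm ?_⟩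
      have h2 : E.e i.1 = m := congrArg Prod.snd i.2
      have h3 := E.he i.1
      have h4 := E.e_le i.1
      omega
    haveI := hempty D hn
    haveI := hempty D' hn'
    rw [Nat.card_of_isEmpty, Nat.card_of_isEmpty]

/-- Equal tuples give isomorphic modules. -/
theorem Dec.iso_of_tup {V' : Type u} [AddCommGroup V'] [Module F V'] [FiniteDimensional F V'] {T' : V' →ₗ[F] V'}
    (D : Dec T) (D' : Dec T') (n : ℕ) (hn : Module.finrank F V = n) (hn' : Module.finrank F V' = n) (h : D.tup n = D'.tup n) :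
    Nonempty (AEval' T ≃ₗ[F[X]] AEval' T') := by
  classical
  letI := D.ft
  letI := D'.ft
  have hf := D.fibers D' n hn hn' h
  have he : ∀ c : F[X] × ℕ, Nonempty ({i : D.ι // (D.p i, D.e i) = c} ≃ {i : D'.ι // (D'.p i, D'.e i) = c}) := by
    intro c
    have h1 := hf c
    rw [Nat.card_eq_fintype_card, Nat.card_eq_fintype_card] at h1
    exact Fintype.card_eq.mp h1
  let E : ∀ c : F[X] × ℕ, {i : D.ι // (D.p i, D.e i) = c} ≃ {i : D'.ι // (D'.p i, D'.e i) = c} := fun c => (he c).some
  let σ : D.ι ≃ D'.ι := Equiv.ofFiberEquiv E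
  have hσ : ∀ i, (D'.p (σ i), D'.e (σ i)) = (D.p i, D.e i) := fun i => Equiv.ofFiberEquiv_map E i
  have hp : ∀ i, D'.p (σ i) = D.p i := fun i => congrArg Prod.fst (hσ i)
  have hE : ∀ i, D'.e (σ i) = D.e i := fun i => congrArg Prod.snd (hσ i)
  let ψ₁ : (∀ i, Qt (D.p i ^ D.e i)) ≃ₗ[F[X]] (∀ i, Qt (D'.p (σ i) ^ D'.e (σ i))) :=
    LinearEquiv.piCongrRight fun i => Submodule.quotEquivOfEq _ _ (by rw [hp, hE])
  let ψ₂ : (∀ i, Qt (D'.p (σ i) ^ D'.e (σ i))) ≃ₗ[F[X]] (∀ i, Qt (D'.p i ^ D'.e i)) :=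
    LinearEquiv.piCongrLeft F[X] (fun i => Qt (D'.p i ^ D'.e i)) σ
  exact ⟨D.φ.trans (ψ₁.trans (ψ₂.trans D'.φ.symm))⟩

end Tup

section Conj

variable {n : ℕ}

/-- Isomorphic modules give conjugate matrices. -/
theorem conj_of_iso (A B : GL (Fin n) F)
    (ψ : AEval' (Matrix.toLin' (A : Matrix (Fin n) (Fin n) F)) ≃ₗ[F[X]] AEval' (Matrix.toLin' (B : Matrix (Fin n) (Fin n) F))) :
    IsConj A B := by
  let TA := Matrix.toLin' (A : Matrix (Fin n) (Fin n) F)
  let TB := Matrix.toLin' (B : Matrix (Fin n) (Fin n) F)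
  let L : (Fin n → F) ≃ₗ[F] (Fin n → F) := (AEval'.of TA).trans ((ψ.restrictScalars F).trans (AEval'.of TB).symm)
  have hL : ∀ v, L (TA v) = TB (L v) := by
    intro v
    have h1 : (X : F[X]) • (AEval'.of TA v) = AEval'.of TA (TA v) := AEval'.X_smul_of _ v
    have h2 : ψ (AEval'.of TA (TA v)) = (X : F[X]) • ψ (AEval'.of TA v) := by
      rw [← h1, map_smul]
    have h3 : ψ (AEval'.of TA v) = AEval'.of TB (L v) := by
      show _ = AEval'.of TB ((AEval'.of TB).symm (ψ (AEval'.of TA v)))
      rw [LinearEquiv.apply_symm_apply]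
    rw [h3, AEval'.X_smul_of] at h2
    show (AEval'.of TB).symm (ψ (AEval'.of TA (TA v))) = _
    rw [h2, LinearEquiv.symm_apply_apply]
  let P : Matrix (Fin n) (Fin n) F := LinearMap.toMatrix' (L : (Fin n → F) →ₗ[F] (Fin n → F))
  let P' : Matrix (Fin n) (Fin n) F := LinearMap.toMatrix' (L.symm : (Fin n → F) →ₗ[F] (Fin n → F))
  have hPP' : P * P' = 1 := by
    rw [← LinearMap.toMatrix'_comp]
    simp
  have hP'P : P' * P = 1 := by
    rw [← LinearMap.toMatrix'_comp]
    simp
  let u : GL (Fin n) F := ⟨P, P', hPP', hP'P⟩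
  have hu : u * A = B * u := by
    apply Units.ext
    show P * (A : Matrix (Fin n) (Fin n) F) = (B : Matrix (Fin n) (Fin n) F) * P
    have h1 : P * (A : Matrix (Fin n) (Fin n) F) = LinearMap.toMatrix' (L.toLinearMap ∘ₗ TA) := by
      rw [LinearMap.toMatrix'_comp]
      simp [TA, P]
    have h2 : (B : Matrix (Fin n) (Fin n) F) * P = LinearMap.toMatrix' (TB ∘ₗ L.toLinearMap) := by
      rw [LinearMap.toMatrix'_comp]
      simp [TB, P]
    rw [h1, h2]
    congr 1
    apply LinearMap.ext
    intro v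
    exact hL v
  rw [isConj_iff]
  refine ⟨u, ?_⟩
  rw [hu, mul_inv_cancel_right]

end Conj

section Main

variable [Fintype F] {n : ℕ}

/-- The upper bound. -/
theorem card_classes_le (hn : 1 ≤ n) :
    Nat.card (ConjClasses (GL (Fin n) F)) ≤ Fintype.card F ^ n := by
  classical
  have hq : 1 < Fintype.card F := Fintype.one_lt_card
  refine le_trans ?_ (card_TT_le (F := F) hq n hn)
  haveI := finite_TT (F := F) n n
  have hrep : ∀ c : ConjClasses (GL (Fin n) F), ∃ g : GL (Fin n) F, ConjClasses.mk g = c := fun c => ConjClasses.exists_rep c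
  let rep : ConjClasses (GL (Fin n) F) → GL (Fin n) F := fun c => (hrep c).choose
  have hrep' : ∀ c, ConjClasses.mk (rep c) = c := fun c => (hrep c).choose_spec
  let dd : ∀ c, Dec (Matrix.toLin' ((rep c : GL (Fin n) F) : Matrix (Fin n) (Fin n) F)) := fun c => (exists_dec _).some
  have hinj : ∀ c, Function.Injective (Matrix.toLin' ((rep c : GL (Fin n) F) : Matrix (Fin n) (Fin n) F)) := by
    intro c v w hvw
    have h1 : ((rep c : GL (Fin n) F) : Matrix (Fin n) (Fin n) F).mulVec v = ((rep c : GL (Fin n) F) : Matrix (Fin n) (Fin n) F).mulVec w := by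
      simpa [Matrix.toLin'_apply] using hvw
    have h2 := congrArg (fun z => (((rep c)⁻¹ : GL (Fin n) F) : Matrix (Fin n) (Fin n) F).mulVec z) h1
    have h3 : (((rep c)⁻¹ : GL (Fin n) F) : Matrix (Fin n) (Fin n) F) * ((rep c : GL (Fin n) F) : Matrix (Fin n) (Fin n) F) = 1 := by
      rw [← Units.val_mul, inv_mul_cancel, Units.val_one]
    simp only [Matrix.mulVec_mulVec, h3, Matrix.one_mulVec] at h2
    exact h2
  have hdim : Module.finrank F (Fin n → F) = n := by simp
  let Φ : ConjClasses (GL (Fin n) F) → TT F n n := fun c =>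
    ⟨(dd c).tup n, fun k => ⟨(dd c).tup_monic n k, (dd c).tup_coeff (hinj c) n k⟩, (dd c).tup_sum n hdim⟩
  refine Nat.card_le_card_of_injective Φ ?_
  intro c c' h
  have h1 : (dd c).tup n = (dd c').tup n := congrArg Subtype.val h
  obtain ⟨ψ⟩ := (dd c).iso_of_tup (dd c') n hdim hdim h1
  have h2 := conj_of_iso (rep c) (rep c') ψ
  rw [← hrep' c, ← hrep' c']
  exact ConjClasses.mk_eq_mk_iff_isConj.mpr h2

/-- The lower bound. -/
theorem le_card_classes (k : ℕ) :
    Nat.card (Pd F (k + 1)) ≤ Nat.card (ConjClasses (GL (Fin (k + 1)) F)) := by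
  classical
  obtain ⟨p, hp⟩ := CharP.exists F
  haveI : Fact p.Prime := ⟨CharP.char_is_prime F p⟩
  haveI : Finite (Pd F (k + 1)) := finite_Pd (k + 1)
  have hex := fun f : Pd F (k + 1) => Cfsg.Agent.Lib.KS2.SSConj.exists_matrix (p := p) (n := k + 1) f.1 f.2.1 f.2.2.1 f.2.2.2
  let rep : Pd F (k + 1) → GL (Fin (k + 1)) F := fun f => (hex f).choose
  have hrep : ∀ f, ((rep f : GL (Fin (k + 1)) F) : Matrix (Fin (k + 1)) (Fin (k + 1)) F).charpoly = f.1 := fun f => (hex f).choose_spec.2
  refine Nat.card_le_card_of_injective (fun f => ConjClasses.mk (rep f)) ?_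
  intro f f' h
  have h2 := ConjClasses.mk_eq_mk_iff_isConj.mp h
  obtain ⟨u, hu⟩ := isConj_iff.mp h2
  apply Subtype.ext
  rw [← hrep f, ← hrep f', ← hu]
  have h3 : ((u * rep f * u⁻¹ : GL (Fin (k + 1)) F) : Matrix (Fin (k + 1)) (Fin (k + 1)) F) =
      (u : Matrix (Fin (k + 1)) (Fin (k + 1)) F) * (rep f : GL (Fin (k + 1)) F) * ((u⁻¹ : GL (Fin (k + 1)) F) : Matrix (Fin (k + 1)) (Fin (k + 1)) F) := rfl
  rw [h3]
  have h4 : ((u⁻¹ : GL (Fin (k + 1)) F) : Matrix (Fin (k + 1)) (Fin (k + 1)) F) = ((u : GL (Fin (k + 1)) F) : Matrix (Fin (k + 1)) (Fin (k + 1)) F)⁻¹ := by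
    simp
  rw [h4]
  exact (Matrix.charpoly_units_conj u _).symm

end Main

end Cfsg.Agent.Lib.KS2.GLType
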