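import Mathlib

/-!
An abelian group of permutations is inverted by an involution: on each orbit, choose a base point
`r`, and send `a • r` to `a⁻¹ • r`.
-/

set_option autoImplicit false

namespace Cfsg.Agent.Lib.KS2

open Equiv

variable {α : Type*}

/-- If `A` is an abelian group of permutations of `α`, there is an involution `t` of `α`
with `t a t⁻¹ = a⁻¹` for all `a ∈ A`. -/
theorem exists_inverting_involution (A : Subgroup (Perm α))
    (hA : ∀ a ∈ A, ∀ b ∈ A, a * b = b * a) :
    ∃ t : Perm α, t * t = 1 ∧ ∀ a ∈ A, t * a * t⁻¹ = a⁻¹ := by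
  classical
  -- the orbit representative
  let rel : Setoid α := MulAction.orbitRel A α
  let r : α → α := fun x => (Quotient.out (Quotient.mk rel x) : α)
  have hr : ∀ x, ∃ a : A, (a : Perm α) (r x) = x := by
    intro x
    have h : rel (r x) x := Quotient.exact (Quotient.out_eq (Quotient.mk rel x))
    -- `MulAction.orbitRel`: r x ∈ orbit of x
    obtain ⟨a, ha⟩ := h
    refine ⟨a⁻¹, ?_⟩
    have ha' : (a : Perm α) x = r x := ha
    simp [← ha']
  have hrr : ∀ x y, rel x y → r x = r y := by
    intro x y h
    have : Quotient.mk rel x = Quotient.mk rel y := Quotient.sound h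
    simp only [r, this]
  choose c hc using hr
  -- the map
  let f : α → α := fun x => ((c x : Perm α)⁻¹) (r x)
  -- key property: any element of A sending the base point to x has inverse sending base point to f x
  have key : ∀ x (a : Perm α), a ∈ A → a (r x) = x → a⁻¹ (r x) = f x := by
    intro x a ha hax
    have hcA : (c x : Perm α) ∈ A := (c x).2
    -- b := a⁻¹ * c x fixes r x
    have h1 : (a⁻¹ * (c x : Perm α)) (r x) = r x := by
      show a⁻¹ ((c x : Perm α) (r x)) = r x
      rw [hc x, Equiv.Perm.inv_eq_iff_eq]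
      exact hax.symm
    have hcomm : (c x : Perm α) * a⁻¹ = a⁻¹ * (c x : Perm α) :=
      hA _ hcA _ (A.inv_mem ha)
    -- so c x (a⁻¹ (r x)) = r x
    have h2 : (c x : Perm α) (a⁻¹ (r x)) = r x := by
      have : ((c x : Perm α) * a⁻¹) (r x) = r x := by rw [hcomm]; exact h1
      exact this
    show a⁻¹ (r x) = (c x : Perm α)⁻¹ (r x)
    rw [Equiv.Perm.eq_inv_iff_eq]
    exact h2
  have rsame : ∀ (a : Perm α), a ∈ A → ∀ x, r (a x) = r x := by
    intro a ha x
    apply hrr
    exact ⟨⟨a, ha⟩, rfl⟩
  have ffx : ∀ x, f (f x) = x := by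
    intro x
    have hcA : (c x : Perm α) ∈ A := (c x).2
    have hrr' : r (r x) = r x := by
      have := rsame _ hcA (r x)
      rw [hc x] at this
      exact this.symm
    have h1 : r (f x) = r x := by
      have := rsame _ (A.inv_mem hcA) (r x)
      rw [hrr'] at this
      exact this
    have h2 : ((c x : Perm α)⁻¹) (r (f x)) = f x := by rw [h1]
    have h3 := key (f x) ((c x : Perm α)⁻¹) (A.inv_mem hcA) h2
    rw [← h3, h1]
    simp [hc x]
  let t : Perm α := ⟨f, f, ffx, ffx⟩
  have ht : ∀ x, t x = f x := fun _ => rfl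
  refine ⟨t, ?_, ?_⟩
  · ext x
    simp [ht, ffx]
  · intro a ha
    have hfa : ∀ x, f (a x) = a⁻¹ (f x) := by
      intro x
      have hcA : (c x : Perm α) ∈ A := (c x).2
      have h1 : r (a x) = r x := rsame a ha x
      have h2 : (a * (c x : Perm α)) (r (a x)) = a x := by
        rw [h1]; simp [hc x]
      have h3 := key (a x) (a * (c x : Perm α)) (A.mul_mem ha hcA) h2
      rw [← h3, h1, mul_inv_rev]
      have hcomm := hA _ (A.inv_mem hcA) _ (A.inv_mem ha)
      rw [hcomm]
      rfl
    ext x
    have hx : t⁻¹ x = f x := rfl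
    simp only [Perm.coe_mul, Function.comp_apply, hx]
    rw [ht, hfa, ffx]

/-- In a group `G`, if `t` normalizes `P` and inverts it, `t² = 1`, and some element of `P` is not
an involution, then `C_N(P)` has even index in `N = N_G(P)`. -/
theorem two_dvd_index_of_inverting {G : Type*} [Group G] [Finite G] (P : Subgroup G) (t : G)
    (ht2 : t * t = 1) (hinv : ∀ a ∈ P, t * a * t⁻¹ = a⁻¹) (a : G) (ha : a ∈ P) (ha2 : a * a ≠ 1) :
    2 ∣ ((Subgroup.centralizer (P : Set G)).subgroupOf (Subgroup.normalizer (P : Set G))).index := by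
  classical
  set N := Subgroup.normalizer (P : Set G) with hN
  set C := Subgroup.centralizer (P : Set G) with hC
  have htN : t ∈ N := by
    have htt : t⁻¹ = t := by
      rw [inv_eq_iff_mul_eq_one]; exact ht2
    rw [hN, Subgroup.mem_normalizer_iff]
    intro x
    constructor
    · intro hx
      have := hinv x hx
      show t * x * t⁻¹ ∈ P
      rw [this]; exact P.inv_mem hx
    · intro hx
      have hx' : t * x * t⁻¹ ∈ P := hx
      have h2 := hinv _ hx'
      have h3 : t * (t * x * t⁻¹) * t⁻¹ = x := by
        rw [htt]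
        calc t * (t * x * t) * t = (t * t) * x * (t * t) := by group
          _ = x := by rw [ht2]; group
      rw [h3] at h2
      rw [h2]
      exact P.inv_mem hx'
  let C' : Subgroup N := C.subgroupOf N
  have hnorm : C'.Normal := by
    constructor
    intro c hc g
    rw [Subgroup.mem_subgroupOf] at hc ⊢
    rw [hC, Subgroup.mem_centralizer_iff] at hc ⊢
    intro x hx
    have hg : (g : G)⁻¹ ∈ N := N.inv_mem g.2
    have hx' : (g : G)⁻¹ * x * (g : G)⁻¹⁻¹ ∈ P := by
      have := (Subgroup.mem_normalizer_iff.mp hg x).mp hx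
      exact this
    have h := hc _ hx'
    simp only [inv_inv] at h hx'
    simp only [Subgroup.coe_mul, InvMemClass.coe_inv]
    calc x * ((g : G) * c * (g : G)⁻¹) = (g : G) * ((g : G)⁻¹ * x * g * c) * (g : G)⁻¹ := by group
      _ = (g : G) * ((c : G) * ((g : G)⁻¹ * x * g)) * (g : G)⁻¹ := by rw [h]
      _ = _ := by group
  let t' : N := ⟨t, htN⟩
  have ht'C : t' ∉ C' := by
    intro h
    rw [Subgroup.mem_subgroupOf, hC, Subgroup.mem_centralizer_iff] at h
    have h1 := h a ha
    have h2 := hinv a ha
    have : a * t * t⁻¹ = a⁻¹ := by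
      rw [h1]; exact h2
    simp only [mul_inv_cancel_right] at this
    apply ha2
    nth_rewrite 1 [this]
    simp
  have hq : orderOf ((t' : N ⧸ C')) = 2 := by
    apply orderOf_eq_prime
    · rw [sq, ← QuotientGroup.mk_mul]
      have : t' * t' = 1 := Subtype.ext ht2
      rw [this]; rfl
    · intro h
      apply ht'C
      exact (QuotientGroup.eq_one_iff t').mp h
  have := orderOf_dvd_natCard ((t' : N ⧸ C'))
  rw [hq] at this
  exact this

end Cfsg.Agent.Lib.KS2
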