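import Mathlib

/-!
# Jordan bases for nilpotent endomorphisms
-/

set_option autoImplicit false
set_option linter.unusedSimpArgs false
set_option linter.unusedVariables false
set_option linter.deprecated false

namespace Cfsg.Agent.Lib.KS2.Jordan

open Polynomial Module DirectSum

universe u v

variable {F : Type u} {V : Type v} [Field F] [AddCommGroup V] [Module F V]

/-- Jordan basis property. -/
def IsJordanBasis {ι : Type*} (T : Module.End F V) (e : ι → ℕ) (b : Module.Basis (Σ i, Fin (e i)) F V) : Prop :=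
  ∀ (i : ι) (j : Fin (e i)), T (b ⟨i, j⟩) = if h : (j : ℕ) + 1 < e i then b ⟨i, ⟨j + 1, h⟩⟩ else 0

/-- identity map. -/
noncomputable def adjEquiv (F : Type*) [Field F] (e : ℕ) :
    AdjoinRoot ((X : F[X]) ^ e) ≃ₗ[F] (F[X] ⧸ (F[X] ∙ ((X : F[X]) ^ e))) where
  toFun := fun x => x
  invFun := fun x => x
  map_add' := fun _ _ => rfl
  map_smul' := fun c x => by
    induction x using Submodule.Quotient.induction_on with
    | _ f =>
      show (Submodule.Quotient.mk (c • f) : F[X] ⧸ (F[X] ∙ ((X : F[X]) ^ e))) = c • Submodule.Quotient.mk f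
      rfl
  left_inv := fun _ => rfl
  right_inv := fun _ => rfl

/-- basis of `F[X] / X^e`. -/
noncomputable def quotBasis (F : Type*) [Field F] (e : ℕ) :
    Module.Basis (Fin e) F (F[X] ⧸ (F[X] ∙ ((X : F[X]) ^ e))) :=
  (((AdjoinRoot.powerBasis' (monic_X_pow (R := F) e)).basis).reindex (finCongr (by simp))).map (adjEquiv F e)

lemma quotBasis_apply (e : ℕ) (j : Fin e) :
    quotBasis F e j = Submodule.Quotient.mk ((X : F[X]) ^ (j : ℕ)) := by
  unfold quotBasis
  rw [Module.Basis.map_apply, Module.Basis.reindex_apply]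
  rw [PowerBasis.coe_basis]
  simp [AdjoinRoot.powerBasis']
  rfl

lemma dfinsupp_basis_apply {F₀ ι : Type*} [Field F₀] [DecidableEq ι] (Q : ι → Type*) [∀ i, AddCommGroup (Q i)]
    [∀ i, Module F₀ (Q i)] (η : ι → Type*) (b : ∀ i, Module.Basis (η i) F₀ (Q i)) (i : ι) (j : η i) :
    (DFinsupp.basis b ⟨i, j⟩) = DFinsupp.single i (b i j) := by
  classical
  unfold DFinsupp.basis
  rw [Module.Basis.coe_ofRepr]
  simp only [LinearEquiv.trans_symm, LinearEquiv.symm_symm, LinearEquiv.trans_apply]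
  show DFinsupp.mapRange.linearEquiv (fun i => (b i).repr.symm) (sigmaFinsuppEquivDFinsupp (Finsupp.single ⟨i, j⟩ (1:F₀))) = _
  rw [sigmaFinsuppEquivDFinsupp_single]
  rw [DFinsupp.mapRange.linearEquiv_apply, DFinsupp.mapRange_single]
  rw [Module.Basis.repr_symm_single_one]

theorem exists_jordan [FiniteDimensional F V] (T : Module.End F V) (hT : IsNilpotent T) :
    ∃ (ι : Type u) (_ : Fintype ι) (e : ι → ℕ) (b : Module.Basis (Σ i, Fin (e i)) F V), IsJordanBasis T e b := by
  classical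
  have tors : IsTorsion F[X] (AEval' T) := AEval.isTorsion_of_finiteDimensional F V T
  haveI : Module.Finite F[X] (AEval' T) := inferInstance
  obtain ⟨ι, _, p, hp, e, ⟨φ⟩⟩ := Module.equiv_directSum_of_isTorsion tors
  obtain ⟨M, hM⟩ := hT
  let o := AEval'.of T
  have hX : ∀ v, o (T v) = (X : F[X]) • o v := fun v => (AEval'.X_smul_of T v).symm
  have hXp : ∀ (k : ℕ) (v : V), (X : F[X]) ^ k • o v = o ((T ^ k) v) := by
    intro k
    induction k with
    | zero => intro v; simp
    | succ k ih =>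
      intro v
      rw [pow_succ', mul_smul, ih, ← hX, ← Module.End.mul_apply, ← pow_succ']
  have hXM : ∀ x : AEval' T, (X : F[X]) ^ M • x = 0 := by
    intro x
    obtain ⟨v, rfl⟩ := o.surjective x
    rw [hXp, hM]
    simp
  have hs : ∀ i, (F[X] ∙ p i ^ e i) = (F[X] ∙ (X : F[X]) ^ e i) := by
    intro i
    by_cases h0 : e i = 0
    · rw [h0]; simp
    have h1 : (X : F[X]) ^ M • (lof F[X] ι (fun i => F[X] ⧸ F[X] ∙ p i ^ e i) i (Submodule.Quotient.mk 1)) = 0 := by
      have := hXM (φ.symm (lof F[X] ι (fun i => F[X] ⧸ F[X] ∙ p i ^ e i) i (Submodule.Quotient.mk 1)))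
      rw [← map_smul] at this
      exact φ.symm.injective (by rw [this, map_zero])
    have h1' : (X : F[X]) ^ M • (Submodule.Quotient.mk 1 : F[X] ⧸ F[X] ∙ p i ^ e i) = Submodule.Quotient.mk ((X : F[X]) ^ M) := by
      rw [← Submodule.Quotient.mk_smul, smul_eq_mul, mul_one]
    rw [← map_smul, h1'] at h1
    have h2 : (Submodule.Quotient.mk ((X : F[X]) ^ M) : F[X] ⧸ F[X] ∙ p i ^ e i) = 0 := by
      apply DirectSum.of_injective (β := fun i => F[X] ⧸ F[X] ∙ p i ^ e i) i
      rw [map_zero]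
      exact h1
    rw [Submodule.Quotient.mk_eq_zero, Submodule.mem_span_singleton] at h2
    obtain ⟨a, ha⟩ := h2
    rw [smul_eq_mul] at ha
    have h3 : p i ∣ (X : F[X]) ^ M := by
      rw [← ha]
      exact Dvd.dvd.mul_left (dvd_pow_self _ h0) _
    have h4 : p i ∣ (X : F[X]) := (hp i).prime.dvd_of_dvd_pow h3
    have h5 : Associated (p i) (X : F[X]) := (hp i).associated_of_dvd irreducible_X h4
    obtain ⟨u, hu⟩ := (h5.pow_pow (n := e i))
    refine Submodule.span_singleton_eq_span_singleton.mpr ⟨u, ?_⟩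
    rw [Units.smul_def, smul_eq_mul, mul_comm]
    exact hu
  let ψ : (⨁ i, F[X] ⧸ F[X] ∙ p i ^ e i) ≃ₗ[F[X]] (⨁ i, F[X] ⧸ F[X] ∙ (X : F[X]) ^ e i) :=
    DFinsupp.mapRange.linearEquiv (fun i => Submodule.quotEquivOfEq _ _ (hs i))
  let Φ := φ.trans ψ
  let B : Module.Basis (Σ i, Fin (e i)) F (⨁ i, F[X] ⧸ F[X] ∙ (X : F[X]) ^ e i) :=
    DFinsupp.basis (fun i => quotBasis F (e i))
  let Ψ : V ≃ₗ[F] (⨁ i, F[X] ⧸ F[X] ∙ (X : F[X]) ^ e i) := o.trans (Φ.restrictScalars F)
  refine ⟨ι, inferInstance, e, B.map Ψ.symm, ?_⟩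
  intro i j
  have hB : ∀ (i : ι) (j : Fin (e i)), B ⟨i, j⟩ = lof F[X] ι (fun i => F[X] ⧸ F[X] ∙ (X : F[X]) ^ e i) i (Submodule.Quotient.mk ((X : F[X]) ^ (j : ℕ))) := by
    intro i j
    have := dfinsupp_basis_apply (F₀ := F) (fun i => F[X] ⧸ F[X] ∙ (X : F[X]) ^ e i) (fun i => Fin (e i)) (fun i => quotBasis F (e i)) i j
    rw [quotBasis_apply] at this
    exact this
  have hΨ : ∀ v, Ψ (T v) = (X : F[X]) • Ψ v := by
    intro v
    show Φ (o (T v)) = (X : F[X]) • Φ (o v)
    rw [hX, map_smul]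
  apply Ψ.injective
  rw [hΨ]
  have h0 : Ψ ((B.map Ψ.symm) ⟨i, j⟩) = B ⟨i, j⟩ := by simp
  rw [h0, hB, ← map_smul, ← Submodule.Quotient.mk_smul, smul_eq_mul, ← pow_succ']
  split_ifs with h
  · have h1 : Ψ ((B.map Ψ.symm) ⟨i, ⟨j + 1, h⟩⟩) = B ⟨i, ⟨j + 1, h⟩⟩ := by simp
    rw [h1, hB]
  · have h1 : (j : ℕ) + 1 = e i := by
      have := j.2
      omega
    rw [h1, map_zero]
    have : (Submodule.Quotient.mk ((X : F[X]) ^ e i) : F[X] ⧸ F[X] ∙ (X : F[X]) ^ e i) = 0 := by
      rw [Submodule.Quotient.mk_eq_zero]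
      exact Submodule.mem_span_singleton_self _
    rw [this, map_zero]

/-! ### Powers and ranks -/

section Rank

variable {ι : Type*} [Fintype ι] {T : Module.End F V} {e : ι → ℕ} {b : Module.Basis (Σ i, Fin (e i)) F V}

lemma pow_apply (hb : IsJordanBasis T e b) (k : ℕ) (i : ι) (j : Fin (e i)) :
    (T ^ k) (b ⟨i, j⟩) = if h : (j : ℕ) + k < e i then b ⟨i, ⟨j + k, h⟩⟩ else 0 := by
  induction k with
  | zero => simp
  | succ k ih =>
    rw [pow_succ', Module.End.mul_apply, ih]
    by_cases h : (j : ℕ) + k < e i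
    · rw [dif_pos h, hb]
      by_cases h2 : (j : ℕ) + k + 1 < e i
      · rw [dif_pos h2, dif_pos (by omega)]
        rfl
      · rw [dif_neg h2, dif_neg (by omega)]
    · rw [dif_neg h, map_zero, dif_neg (by omega)]

lemma nilpotent_of_jordan (hb : IsJordanBasis T e b) : IsNilpotent T := by
  classical
  obtain ⟨M, hM⟩ : ∃ M, ∀ i, e i ≤ M := ⟨∑ i, e i, fun i => Finset.single_le_sum (f := e) (fun _ _ => Nat.zero_le _) (Finset.mem_univ i)⟩
  refine ⟨M, b.ext fun x => ?_⟩
  obtain ⟨i, j⟩ := x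
  rw [pow_apply hb, dif_neg]
  · simp
  · have := hM i
    omega

theorem finrank_range_pow (hb : IsJordanBasis T e b) (k : ℕ) :
    Module.finrank F (LinearMap.range (T ^ k)) = ∑ i, (e i - k) := by
  classical
  -- the set of indices in the image
  let A : Finset (Σ i, Fin (e i)) := Finset.univ.filter (fun x => k ≤ (x.2 : ℕ))
  have h1 : LinearMap.range (T ^ k) = Submodule.span F (b '' (A : Set (Σ i, Fin (e i)))) := by
    rw [LinearMap.range_eq_map, ← b.span_eq, Submodule.map_span]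
    apply le_antisymm
    · apply Submodule.span_le.mpr
      rintro _ ⟨_, ⟨x, rfl⟩, rfl⟩
      obtain ⟨i, j⟩ := x
      simp only [SetLike.mem_coe]
      rw [pow_apply hb]
      split_ifs with h
      · apply Submodule.subset_span
        exact ⟨⟨i, ⟨j + k, h⟩⟩, by simp [A], rfl⟩
      · exact Submodule.zero_mem _
    · apply Submodule.span_le.mpr
      rintro _ ⟨⟨i, j⟩, hx, rfl⟩
      have hx' : k ≤ (j : ℕ) := by simpa [A] using hx
      apply Submodule.subset_span
      refine ⟨b ⟨i, ⟨j - k, by have := j.2; omega⟩⟩, ⟨_, rfl⟩, ?_⟩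
      rw [pow_apply hb, dif_pos (by have := j.2; simp only; omega)]
      congr 2
      apply Fin.ext
      simp only
      omega
  rw [h1]
  have h2 : LinearIndependent F (fun x : {x // x ∈ A} => b x) := b.linearIndependent.comp _ Subtype.val_injective
  have h3 := finrank_span_eq_card h2
  have h4 : Set.range (fun x : {x // x ∈ A} => b x) = b '' (A : Set (Σ i, Fin (e i))) := by
    ext y
    constructor
    · rintro ⟨x, rfl⟩
      exact ⟨x.1, x.2, rfl⟩
    · rintro ⟨x, hx, rfl⟩
      exact ⟨⟨x, hx⟩, rfl⟩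
  rw [h4] at h3
  rw [h3, Fintype.card_coe]
  have h5 : A = Finset.univ.sigma (fun i => Finset.univ.filter (fun j : Fin (e i) => k ≤ (j : ℕ))) := by
    ext ⟨i, j⟩
    simp [A]
  rw [h5, Finset.card_sigma]
  refine Finset.sum_congr rfl fun i _ => ?_
  have h6 : (Finset.univ.filter (fun j : Fin (e i) => k ≤ (j : ℕ))).map Fin.valEmbedding = Finset.Ico k (e i) := by
    ext x
    simp only [Finset.mem_map, Finset.mem_filter, Finset.mem_univ, true_and, Fin.valEmbedding_apply, Finset.mem_Ico]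
    constructor
    · rintro ⟨j, hj, rfl⟩
      exact ⟨hj, j.2⟩
    · rintro ⟨h1, h2⟩
      exact ⟨⟨x, h2⟩, h1, rfl⟩
  rw [← Finset.card_map Fin.valEmbedding, h6, Nat.card_Ico]

end Rank

/-! ### Multisets -/

lemma sum_tsub_diff (s : Multiset ℕ) (k : ℕ) :
    (s.map (fun x => x - k)).sum = (s.map (fun x => x - (k + 1))).sum + s.countP (fun x => k < x) := by
  induction s using Multiset.induction_on with
  | empty => simp
  | cons a s ih =>
    rw [Multiset.map_cons, Multiset.map_cons, Multiset.sum_cons, Multiset.sum_cons, ih, Multiset.countP_cons]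
    split_ifs with h <;> omega

lemma card_filter_diff (s : Multiset ℕ) (k : ℕ) :
    s.countP (fun x => k < x) = s.count (k + 1) + s.countP (fun x => k + 1 < x) := by
  induction s using Multiset.induction_on with
  | empty => simp
  | cons a s ih =>
    rw [Multiset.countP_cons, Multiset.countP_cons, ih]
    by_cases h : a = k + 1
    · subst h
      rw [Multiset.count_cons_self]
      simp
      omega
    · rw [Multiset.count_cons_of_ne (by omega)]
      by_cases h2 : k < a
      · rw [if_pos h2, if_pos (by omega)]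
        omega
      · rw [if_neg h2, if_neg (by omega)]
        omega

theorem multiset_unique {s s' : Multiset ℕ} (hs : ∀ x ∈ s, 0 < x) (hs' : ∀ x ∈ s', 0 < x)
    (h : ∀ k, (s.map (fun x => x - k)).sum = (s'.map (fun x => x - k)).sum) : s = s' := by
  have h1 : ∀ k, s.countP (fun x => k < x) = s'.countP (fun x => k < x) := by
    intro k
    have h2 := sum_tsub_diff s k
    have h3 := sum_tsub_diff s' k
    rw [h k, h (k + 1)] at h2
    omega
  ext a
  cases a with
  | zero =>
    rw [Multiset.count_eq_zero_of_notMem (fun h0 => by simpa using hs 0 h0),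
      Multiset.count_eq_zero_of_notMem (fun h0 => by simpa using hs' 0 h0)]
  | succ a =>
    have h2 := card_filter_diff s a
    have h3 := card_filter_diff s' a
    rw [h1 a, h1 (a + 1)] at h2
    omega

/-! ### Reindexing and conjugacy -/

lemma reindex_jordan {ι κ : Type*} {T : Module.End F V} {e : ι → ℕ} {b : Module.Basis (Σ i, Fin (e i)) F V}
    (hb : IsJordanBasis T e b) (f : κ → ι) (hf : Function.Injective f) (hsurj : ∀ i, 0 < e i → i ∈ Set.range f) :
    ∃ b' : Module.Basis (Σ k, Fin (e (f k))) F V, IsJordanBasis T (fun k => e (f k)) b' := by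
  have hbij : Function.Bijective (fun x : (Σ k, Fin (e (f k))) => (⟨f x.1, x.2⟩ : Σ i, Fin (e i))) := by
    constructor
    · rintro ⟨k, j⟩ ⟨k', j'⟩ h
      simp only at h
      have h1 : f k = f k' := congrArg Sigma.fst h
      obtain rfl := hf h1
      simp only [Sigma.mk.injEq, heq_eq_eq, true_and] at h
      rw [h]
    · rintro ⟨i, j⟩
      obtain ⟨k, rfl⟩ := hsurj i (by have := j.2; omega)
      exact ⟨⟨k, j⟩, rfl⟩
  let φ := Equiv.ofBijective _ hbij
  refine ⟨b.reindex φ.symm, ?_⟩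
  intro k j
  have h1 : ∀ (k : κ) (j : Fin (e (f k))), (b.reindex φ.symm) ⟨k, j⟩ = b ⟨f k, j⟩ := by
    intro k j
    rw [Module.Basis.reindex_apply]
    simp [φ]
  rw [h1, hb]
  split_ifs with h
  · rw [h1]
  · rfl

/-- Positive Jordan bases over `Fin m`. -/
theorem exists_jordan_fin [FiniteDimensional F V] (T : Module.End F V) (hT : IsNilpotent T) :
    ∃ (m : ℕ) (e : Fin m → ℕ) (b : Module.Basis (Σ i, Fin (e i)) F V), IsJordanBasis T e b ∧ ∀ i, 0 < e i := by
  classical
  obtain ⟨ι, _, e, b, hb⟩ := exists_jordan T hT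
  let P := {i // 0 < e i}
  let φ : Fin (Fintype.card P) ≃ P := (Fintype.equivFin P).symm
  obtain ⟨b', hb'⟩ := reindex_jordan hb (fun k => (φ k).1) (fun a c h => φ.injective (Subtype.ext h))
    (fun i hi => ⟨φ.symm ⟨i, hi⟩, by simp⟩)
  exact ⟨_, _, b', hb', fun i => (φ i).2⟩

lemma exists_perm_of_map_eq {m : ℕ} {e e' : Fin m → ℕ} (h : Finset.univ.val.map e = Finset.univ.val.map e') :
    ∃ σ : Equiv.Perm (Fin m), ∀ i, e' (σ i) = e i := by
  classical
  have h1 : ∀ v, Fintype.card {i // e i = v} = Fintype.card {i // e' i = v} := by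
    intro v
    have h2 := congrArg (Multiset.count v) h
    rw [Multiset.count_map, Multiset.count_map] at h2
    rw [Fintype.card_subtype, Fintype.card_subtype]
    simp only [Finset.card, Finset.filter_val]
    simpa [eq_comm] using h2
  let σ : Equiv.Perm (Fin m) := (Equiv.sigmaFiberEquiv e).symm.trans
    ((Equiv.sigmaCongrRight (fun v => Fintype.equivOfCardEq (h1 v))).trans (Equiv.sigmaFiberEquiv e'))
  refine ⟨σ, fun i => ?_⟩
  show e' ((Fintype.equivOfCardEq (h1 (e i))) ⟨i, rfl⟩).1 = e i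
  exact ((Fintype.equivOfCardEq (h1 (e i))) ⟨i, rfl⟩).2

/-- Two Jordan bases with same type give conjugate endomorphisms. -/
theorem conj_of_type {V' : Type*} [AddCommGroup V'] [Module F V'] {m : ℕ} {T : Module.End F V} {T' : Module.End F V'}
    {e e' : Fin m → ℕ} {b : Module.Basis (Σ i, Fin (e i)) F V} {b' : Module.Basis (Σ i, Fin (e' i)) F V'}
    (hb : IsJordanBasis T e b) (hb' : IsJordanBasis T' e' b')
    (h : Finset.univ.val.map e = Finset.univ.val.map e') :
    ∃ g : V ≃ₗ[F] V', ∀ v, g (T v) = T' (g v) := by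
  classical
  obtain ⟨σ, hσ⟩ := exists_perm_of_map_eq h
  let φ : (Σ i, Fin (e i)) ≃ (Σ i, Fin (e' i)) := Equiv.sigmaCongr σ (fun i => finCongr (hσ i).symm)
  have hφ : ∀ (i : Fin m) (j : Fin (e i)), φ ⟨i, j⟩ = ⟨σ i, ⟨j, by have := j.2; have h2 := hσ i; omega⟩⟩ := fun i j => rfl
  refine ⟨b.equiv b' φ, fun v => ?_⟩
  have hcomp : (b.equiv b' φ).toLinearMap ∘ₗ T = T' ∘ₗ (b.equiv b' φ).toLinearMap := by
    refine b.ext fun x => ?_
    obtain ⟨i, j⟩ := x
    simp only [LinearMap.comp_apply, LinearEquiv.coe_coe]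
    rw [Module.Basis.equiv_apply, hφ, hb, hb']
    by_cases h1 : (j : ℕ) + 1 < e i
    · rw [dif_pos h1, dif_pos (by have h2 := hσ i; simp only; omega), Module.Basis.equiv_apply, hφ]
    · rw [dif_neg h1, dif_neg (by have h2 := hσ i; simp only; omega), map_zero]
  exact LinearMap.congr_fun hcomp v

/-- Rank invariants. -/
theorem type_unique {V' : Type*} [AddCommGroup V'] [Module F V'] {m m' : ℕ} {T : Module.End F V} {T' : Module.End F V'}
    {e : Fin m → ℕ} {e' : Fin m' → ℕ} {b : Module.Basis (Σ i, Fin (e i)) F V} {b' : Module.Basis (Σ i, Fin (e' i)) F V'}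
    (hb : IsJordanBasis T e b) (hb' : IsJordanBasis T' e' b') (hpos : ∀ i, 0 < e i) (hpos' : ∀ i, 0 < e' i)
    (g : V ≃ₗ[F] V') (hg : ∀ v, g (T v) = T' (g v)) :
    Finset.univ.val.map e = Finset.univ.val.map e' := by
  apply multiset_unique
  · intro x hx
    obtain ⟨i, -, rfl⟩ := Multiset.mem_map.mp hx
    exact hpos i
  · intro x hx
    obtain ⟨i, -, rfl⟩ := Multiset.mem_map.mp hx
    exact hpos' i
  intro k
  have h1 := finrank_range_pow hb k
  have h2 := finrank_range_pow hb' k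
  have hgp : ∀ (k : ℕ) v, g ((T ^ k) v) = (T' ^ k) (g v) := by
    intro k
    induction k with
    | zero => intro v; simp
    | succ k ih =>
      intro v
      rw [pow_succ, Module.End.mul_apply, ih, hg, pow_succ, Module.End.mul_apply]
  have h3 : LinearMap.range (T' ^ k) = (LinearMap.range (T ^ k)).map g.toLinearMap := by
    ext y
    constructor
    · rintro ⟨w, rfl⟩
      refine ⟨(T ^ k) (g.symm w), ⟨_, rfl⟩, ?_⟩
      simp [hgp]
    · rintro ⟨_, ⟨w, rfl⟩, rfl⟩
      exact ⟨g w, (hgp k w).symm⟩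
  have h4 : Module.finrank F (LinearMap.range (T' ^ k)) = Module.finrank F (LinearMap.range (T ^ k)) := by
    rw [h3]
    exact LinearEquiv.finrank_map_eq g _
  rw [Multiset.map_map, Multiset.map_map]
  have h5 : ∀ {m : ℕ} (e : Fin m → ℕ), (Multiset.map ((fun x => x - k) ∘ e) Finset.univ.val).sum = ∑ i, (e i - k) := fun _ => rfl
  rw [h5, h5, ← h1, ← h2, h4]

end Cfsg.Agent.Lib.KS2.Jordan
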