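import Mathlib
import Cfsg.Agent.Lib.Known3.Singer

/-!
# The Fine–Herstein theorem: counting nilpotent matrices over a finite field.
-/

set_option autoImplicit false
set_option linter.unusedSimpArgs false
set_option linter.unusedVariables false
set_option linter.deprecated false

namespace Cfsg.Agent.Lib.KS2.Nilp

open Matrix Polynomial Cfsg.Agent.Lib.Known3

variable {F : Type*} [Field F]

/-- Nilpotent matrices. -/
abbrev Nil (F : Type*) [Field F] (k : ℕ) := {N : Matrix (Fin k) (Fin k) F // IsNilpotent N}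

/-- The block matrix. -/
noncomputable def blockM {k l : ℕ} (N : Matrix (Fin k) (Fin k) F) (u : GL (Fin l) F) :
    Matrix (Fin k ⊕ Fin l) (Fin k ⊕ Fin l) F :=
  fromBlocks N 0 0 (u : Matrix (Fin l) (Fin l) F)

/-- The parameter space. -/
abbrev Dom (F : Type*) [Field F] (k l : ℕ) := GL (Fin k ⊕ Fin l) F × Nil F k × GL (Fin l) F

/-- The parametrization. -/
noncomputable def Phi {k l n : ℕ} (e : Fin k ⊕ Fin l ≃ Fin n) (x : Dom F k l) : Matrix (Fin n) (Fin n) F :=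
  Matrix.reindex e e ((x.1 : Matrix (Fin k ⊕ Fin l) (Fin k ⊕ Fin l) F) * blockM x.2.1.1 x.2.2 *
    ((x.1⁻¹ : GL (Fin k ⊕ Fin l) F) : Matrix (Fin k ⊕ Fin l) (Fin k ⊕ Fin l) F))

lemma charpoly_nil {k : ℕ} (N : Nil F k) : (N.1).charpoly = X ^ k := by
  have h1 : IsNilpotent (Matrix.toLin' N.1) := N.2.map (Matrix.toLinAlgEquiv' (R := F) (n := Fin k))
  have h2 := IsNilpotent.charpoly_eq_X_pow_finrank h1
  rw [Matrix.charpoly_toLin'] at h2
  simpa using h2

lemma coeff_zero_charpoly_units {l : ℕ} (u : GL (Fin l) F) : (u : Matrix (Fin l) (Fin l) F).charpoly.coeff 0 ≠ 0 := by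
  intro h0
  have h1 := Matrix.det_eq_sign_charpoly_coeff (u : Matrix (Fin l) (Fin l) F)
  rw [h0, mul_zero] at h1
  exact (Matrix.isUnits_det_units u).ne_zero h1

lemma charpoly_Phi {k l n : ℕ} (e : Fin k ⊕ Fin l ≃ Fin n) (x : Dom F k l) :
    (Phi e x).charpoly = X ^ k * (x.2.2 : Matrix (Fin l) (Fin l) F).charpoly := by
  unfold Phi
  rw [Matrix.charpoly_reindex]
  have h4 : ((x.1⁻¹ : GL (Fin k ⊕ Fin l) F) : Matrix (Fin k ⊕ Fin l) (Fin k ⊕ Fin l) F) =
      (x.1 : Matrix (Fin k ⊕ Fin l) (Fin k ⊕ Fin l) F)⁻¹ := by simp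
  rw [h4, Matrix.charpoly_units_conj x.1, blockM, Matrix.charpoly_fromBlocks_zero₁₂, charpoly_nil x.2.1]

/-- The invariant `k`. -/
noncomputable def nu {n : ℕ} (A : Matrix (Fin n) (Fin n) F) : ℕ := A.charpoly.natTrailingDegree

lemma nu_Phi {k l n : ℕ} (e : Fin k ⊕ Fin l ≃ Fin n) (x : Dom F k l) : nu (Phi e x) = k := by
  unfold nu
  rw [charpoly_Phi, mul_comm, natTrailingDegree_mul_X_pow (Matrix.charpoly_monic _).ne_zero]
  have : (x.2.2 : Matrix (Fin l) (Fin l) F).charpoly.natTrailingDegree = 0 :=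
    natTrailingDegree_eq_zero.mpr (Or.inr (coeff_zero_charpoly_units x.2.2))
  omega

lemma nu_le {n : ℕ} (A : Matrix (Fin n) (Fin n) F) : nu A ≤ n := by
  unfold nu
  have h1 := natTrailingDegree_le_natDegree A.charpoly
  rwa [Matrix.charpoly_natDegree_eq_dim, Fintype.card_fin] at h1

/-! ### Representation -/

/-- A matrix from a linear equivalence. -/
noncomputable def glOf {ι : Type*} [Fintype ι] [DecidableEq ι] (e : (ι → F) ≃ₗ[F] (ι → F)) : GL ι F where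
  val := LinearMap.toMatrix' e.toLinearMap
  inv := LinearMap.toMatrix' e.symm.toLinearMap
  val_inv := by
    rw [← LinearMap.toMatrix'_comp]
    simp
  inv_val := by
    rw [← LinearMap.toMatrix'_comp]
    simp

lemma glOf_mulVec {ι : Type*} [Fintype ι] [DecidableEq ι] (e : (ι → F) ≃ₗ[F] (ι → F)) (v : ι → F) :
    ((glOf e : GL ι F) : Matrix ι ι F) *ᵥ v = e v := by
  show (LinearMap.toMatrix' e.toLinearMap) *ᵥ v = e v
  rw [LinearMap.toMatrix'_mulVec]
  rfl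

/-- Fitting decomposition gives a representation. -/
theorem exists_rep {n : ℕ} (A : Matrix (Fin n) (Fin n) F) :
    ∃ k l, k + l = n ∧ ∀ e : Fin k ⊕ Fin l ≃ Fin n, ∃ x : Dom F k l, Phi e x = A := by
  classical
  set T : Module.End F (Fin n → F) := Matrix.toLin' A with hT
  obtain ⟨M, hM, hM1⟩ := (T.eventually_isCompl_ker_pow_range_pow.and (Filter.eventually_ge_atTop 1)).exists
  set X := LinearMap.ker (T ^ M) with hX
  set Y := LinearMap.range (T ^ M) with hY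
  have hfr : Module.finrank F X + Module.finrank F Y = n := by
    have := Submodule.finrank_add_eq_of_isCompl hM
    simpa using this
  obtain ⟨k, hk⟩ : ∃ k, k = Module.finrank F X := ⟨_, rfl⟩
  obtain ⟨l, hl⟩ : ∃ l, l = Module.finrank F Y := ⟨_, rfl⟩
  refine ⟨k, l, by omega, ?_⟩
  intro e
  have hXinv : ∀ v ∈ X, T v ∈ X := by
    intro v hv
    have h1 : (T ^ M) v = 0 := hv
    show (T ^ M) (T v) = 0
    rw [← Module.End.mul_apply, ← pow_succ, pow_succ', Module.End.mul_apply, h1, map_zero]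
  have hYinv : ∀ v ∈ Y, T v ∈ Y := by
    rintro v ⟨w, rfl⟩
    exact ⟨T w, by rw [← Module.End.mul_apply, ← pow_succ, pow_succ', Module.End.mul_apply]⟩
  let b₁ : Module.Basis (Fin k) F X := Module.finBasisOfFinrankEq F X hk.symm
  let b₂ : Module.Basis (Fin l) F Y := Module.finBasisOfFinrankEq F Y hl.symm
  let φ₁ : (Fin k → F) ≃ₗ[F] X := b₁.equivFun.symm
  let φ₂ : (Fin l → F) ≃ₗ[F] Y := b₂.equivFun.symm
  let C₁ : Module.End F (Fin k → F) := φ₁.symm.toLinearMap ∘ₗ (T.restrict hXinv) ∘ₗ φ₁.toLinearMap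
  let C₂ : Module.End F (Fin l → F) := φ₂.symm.toLinearMap ∘ₗ (T.restrict hYinv) ∘ₗ φ₂.toLinearMap
  have hC₁ : ∀ v, ((φ₁ (C₁ v) : X) : Fin n → F) = T (φ₁ v : Fin n → F) := by
    intro v
    simp [C₁]
  have hC₂ : ∀ v, ((φ₂ (C₂ v) : Y) : Fin n → F) = T (φ₂ v : Fin n → F) := by
    intro v
    simp [C₂]
  -- nilpotency
  have hC₁pow : ∀ (j : ℕ) (v : Fin k → F), ((φ₁ ((C₁ ^ j) v) : X) : Fin n → F) = (T ^ j) (φ₁ v : Fin n → F) := by
    intro j
    induction j with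
    | zero => intro v; simp
    | succ j ih =>
      intro v
      rw [pow_succ, pow_succ, Module.End.mul_apply, Module.End.mul_apply, ih, hC₁]
  have hC₁nil : C₁ ^ M = 0 := by
    refine LinearMap.ext fun v => ?_
    apply φ₁.injective
    apply Subtype.ext
    rw [hC₁pow]
    have : (T ^ M) ((φ₁ v : X) : Fin n → F) = 0 := (φ₁ v : X).2
    rw [this]
    simp
  have hNnil : IsNilpotent (LinearMap.toMatrix' C₁) := by
    have h0 : IsNilpotent C₁ := ⟨M, hC₁nil⟩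
    exact h0.map (LinearMap.toMatrixAlgEquiv' (R := F) (n := Fin k))
  -- invertibility
  have hC₂inj : Function.Injective C₂ := by
    rw [injective_iff_map_eq_zero]
    intro v hv
    have h1 := hC₂ v
    rw [hv, map_zero] at h1
    have h2 : T (φ₂ v : Fin n → F) = 0 := by simpa using h1.symm
    have h3 : (φ₂ v : Fin n → F) ∈ X := by
      show (T ^ M) _ = 0
      obtain ⟨j, hj⟩ : ∃ j, M = j + 1 := ⟨M - 1, by omega⟩
      rw [hj, pow_succ, Module.End.mul_apply, h2, map_zero]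
    have h4 : (φ₂ v : Fin n → F) ∈ X ⊓ Y := ⟨h3, (φ₂ v).2⟩
    rw [hM.1.eq_bot, Submodule.mem_bot] at h4
    have h5 : φ₂ v = 0 := Subtype.ext h4
    exact φ₂.injective (by rw [h5, map_zero])
  let E₂ : (Fin l → F) ≃ₗ[F] (Fin l → F) := LinearEquiv.ofInjectiveEndo C₂ hC₂inj
  let u : GL (Fin l) F := glOf E₂
  have hu : ∀ v, (u : Matrix (Fin l) (Fin l) F) *ᵥ v = C₂ v := fun v => glOf_mulVec E₂ v
  -- the global change of basis
  let φ : ((Fin k ⊕ Fin l) → F) ≃ₗ[F] (Fin n → F) :=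
    (LinearEquiv.sumArrowLequivProdArrow (Fin k) (Fin l) F F).trans
      ((φ₁.prodCongr φ₂).trans (Submodule.prodEquivOfIsCompl X Y hM))
  have hφ : ∀ v, φ v = (φ₁ (fun i => v (Sum.inl i)) : Fin n → F) + (φ₂ (fun i => v (Sum.inr i)) : Fin n → F) := by
    intro v
    rfl
  let σ : (Fin n → F) ≃ₗ[F] ((Fin k ⊕ Fin l) → F) := LinearEquiv.funCongrLeft F F e
  have hσ : ∀ w i, σ w i = w (e i) := fun _ _ => rfl
  let g : GL (Fin k ⊕ Fin l) F := glOf (φ.trans σ)
  refine ⟨(g, ⟨LinearMap.toMatrix' C₁, hNnil⟩, u), ?_⟩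
  -- the equation
  have hB : ∀ v, φ (blockM (LinearMap.toMatrix' C₁) u *ᵥ v) = T (φ v) := by
    intro v
    unfold blockM
    rw [hφ, hφ, map_add, ← hC₁, ← hC₂]
    congr 3
    · congr 1
      funext i
      have : (fromBlocks (LinearMap.toMatrix' C₁) 0 0 (u : Matrix (Fin l) (Fin l) F) *ᵥ v) (Sum.inl i) =
          (LinearMap.toMatrix' C₁ *ᵥ (fun j => v (Sum.inl j))) i := by
        simp [Matrix.mulVec, dotProduct, Fintype.sum_sum_type]
      rw [this, LinearMap.toMatrix'_mulVec]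
    · congr 1
      funext i
      have : (fromBlocks (LinearMap.toMatrix' C₁) 0 0 (u : Matrix (Fin l) (Fin l) F) *ᵥ v) (Sum.inr i) =
          ((u : Matrix (Fin l) (Fin l) F) *ᵥ (fun j => v (Sum.inr j))) i := by
        simp [Matrix.mulVec, dotProduct, Fintype.sum_sum_type]
      rw [this, hu]
  -- conclude
  have hA' : A.submatrix e e * (g : Matrix (Fin k ⊕ Fin l) (Fin k ⊕ Fin l) F) =
      (g : Matrix (Fin k ⊕ Fin l) (Fin k ⊕ Fin l) F) * blockM (LinearMap.toMatrix' C₁) u := by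
    apply Matrix.toLin'.injective
    refine LinearMap.ext fun v => ?_
    simp only [Matrix.toLin'_mul, LinearMap.comp_apply, Matrix.toLin'_apply]
    rw [glOf_mulVec, glOf_mulVec]
    simp only [LinearEquiv.trans_apply]
    rw [hB]
    funext i
    rw [hσ]
    have h5 : φ v = (σ (φ v)) ∘ e.symm := by
      funext j
      rw [Function.comp_apply, hσ, e.apply_symm_apply]
    have h6 : (A.submatrix e e *ᵥ (σ (φ v))) i = (A *ᵥ (φ v)) (e i) := by
      have h7 : σ (φ v) = (φ v) ∘ e := by funext j; rw [hσ]; rfl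
      rw [h7]
      have := Matrix.submatrix_mulVec_equiv A ((φ v) ∘ e) e e
      have h8 : ((φ v) ∘ e) ∘ e.symm = φ v := by funext j; simp
      rw [h8] at this
      exact congrFun this i
    rw [h6]
    rfl
  unfold Phi
  have hfinal : (g : Matrix (Fin k ⊕ Fin l) (Fin k ⊕ Fin l) F) * blockM (LinearMap.toMatrix' C₁) u *
      ((g⁻¹ : GL (Fin k ⊕ Fin l) F) : Matrix (Fin k ⊕ Fin l) (Fin k ⊕ Fin l) F) = A.submatrix e e := by
    rw [← hA', mul_assoc]
    have : (g : Matrix (Fin k ⊕ Fin l) (Fin k ⊕ Fin l) F) * ((g⁻¹ : GL (Fin k ⊕ Fin l) F) : Matrix (Fin k ⊕ Fin l) (Fin k ⊕ Fin l) F) = 1 := by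
      rw [← Units.val_mul]; simp
    rw [this, mul_one]
  show Matrix.reindex e e ((g : Matrix (Fin k ⊕ Fin l) (Fin k ⊕ Fin l) F) * blockM (LinearMap.toMatrix' C₁) u *
      ((g⁻¹ : GL (Fin k ⊕ Fin l) F) : Matrix (Fin k ⊕ Fin l) (Fin k ⊕ Fin l) F)) = A
  rw [hfinal]
  ext i j
  simp [Matrix.reindex_apply, Matrix.submatrix_apply]

/-! ### Fibres -/

section Fibre

open Singer

variable [Fintype F] {k l : ℕ}

lemma nil_of_pow_zero {k : ℕ} (N : Matrix (Fin k) (Fin k) F) (hN : IsNilpotent N) (a : GL (Fin k) F) :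
    IsNilpotent (((a⁻¹ : GL (Fin k) F) : Matrix (Fin k) (Fin k) F) * N * (a : Matrix (Fin k) (Fin k) F)) := by
  obtain ⟨m, hm⟩ := hN
  refine ⟨m, ?_⟩
  have h1 : ((a⁻¹ : GL (Fin k) F) : Matrix (Fin k) (Fin k) F) * (a : Matrix (Fin k) (Fin k) F) = 1 := by
    rw [← Units.val_mul]; simp
  have h2 : ∀ j : ℕ, (((a⁻¹ : GL (Fin k) F) : Matrix (Fin k) (Fin k) F) * N * (a : Matrix (Fin k) (Fin k) F)) ^ j =
      ((a⁻¹ : GL (Fin k) F) : Matrix (Fin k) (Fin k) F) * N ^ j * (a : Matrix (Fin k) (Fin k) F) := by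
    intro j
    induction j with
    | zero =>
      simp only [pow_zero, _root_.mul_one]
      exact h1.symm
    | succ j ih =>
      rw [pow_succ, ih, pow_succ]
      have h3 : (a : Matrix (Fin k) (Fin k) F) * ((a⁻¹ : GL (Fin k) F) : Matrix (Fin k) (Fin k) F) = 1 := by
        rw [← Units.val_mul]; simp
      calc _ = ((a⁻¹ : GL (Fin k) F) : Matrix (Fin k) (Fin k) F) * N ^ j *
            ((a : Matrix (Fin k) (Fin k) F) * ((a⁻¹ : GL (Fin k) F) : Matrix (Fin k) (Fin k) F)) * N *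
            (a : Matrix (Fin k) (Fin k) F) := by simp only [mul_assoc]
        _ = _ := by rw [h3, _root_.mul_one]; simp only [mul_assoc]
  rw [h2, hm]
  simp

/-- The action of `GL_k × GL_l` on the parameter space. -/
noncomputable def act (x₀ : Dom F k l) (p : GL (Fin k) F × GL (Fin l) F) : Dom F k l :=
  (x₀.1 * blockHom (Fin k) (Fin l) p,
    ⟨((p.1⁻¹ : GL (Fin k) F) : Matrix (Fin k) (Fin k) F) * x₀.2.1.1 * (p.1 : Matrix (Fin k) (Fin k) F),
      nil_of_pow_zero _ x₀.2.1.2 p.1⟩,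
    p.2⁻¹ * x₀.2.2 * p.2)

lemma block_conj (N : Matrix (Fin k) (Fin k) F) (u : GL (Fin l) F) (p : GL (Fin k) F × GL (Fin l) F) :
    ((blockHom (Fin k) (Fin l) p : GL (Fin k ⊕ Fin l) F) : Matrix (Fin k ⊕ Fin l) (Fin k ⊕ Fin l) F) *
      blockM (((p.1⁻¹ : GL (Fin k) F) : Matrix (Fin k) (Fin k) F) * N * (p.1 : Matrix (Fin k) (Fin k) F))
        (p.2⁻¹ * u * p.2) =
    blockM N u * ((blockHom (Fin k) (Fin l) p : GL (Fin k ⊕ Fin l) F) : Matrix (Fin k ⊕ Fin l) (Fin k ⊕ Fin l) F) := by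
  rw [blockHom_val]
  unfold blockM
  rw [Matrix.fromBlocks_multiply, Matrix.fromBlocks_multiply]
  have h3 : (p.1 : Matrix (Fin k) (Fin k) F) * ((p.1⁻¹ : GL (Fin k) F) : Matrix (Fin k) (Fin k) F) = 1 := by
    rw [← Units.val_mul]; simp
  have h4 : (p.2 : Matrix (Fin l) (Fin l) F) * ((p.2⁻¹ : GL (Fin l) F) : Matrix (Fin l) (Fin l) F) = 1 := by
    rw [← Units.val_mul]; simp
  congr 1
  · simp only [← mul_assoc, Matrix.zero_mul, Matrix.mul_zero, add_zero, zero_add]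
    rw [h3, one_mul]
  · simp
  · simp
  · simp only [Units.val_mul, ← mul_assoc, Matrix.zero_mul, Matrix.mul_zero, add_zero, zero_add]
    rw [h4, one_mul]

lemma Phi_act {n : ℕ} (e : Fin k ⊕ Fin l ≃ Fin n) (x₀ : Dom F k l) (p : GL (Fin k) F × GL (Fin l) F) :
    Phi e (act x₀ p) = Phi e x₀ := by
  unfold Phi act
  congr 1
  simp only [Units.val_mul, _root_.mul_inv_rev]
  have h1 := block_conj x₀.2.1.1 x₀.2.2 p
  have h2 : ((blockHom (Fin k) (Fin l) p : GL (Fin k ⊕ Fin l) F) : Matrix (Fin k ⊕ Fin l) (Fin k ⊕ Fin l) F) *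
      (((blockHom (Fin k) (Fin l) p)⁻¹ : GL (Fin k ⊕ Fin l) F) : Matrix (Fin k ⊕ Fin l) (Fin k ⊕ Fin l) F) = 1 := by
    rw [← Units.val_mul]; simp
  calc _ = (x₀.1 : Matrix (Fin k ⊕ Fin l) (Fin k ⊕ Fin l) F) *
        (((blockHom (Fin k) (Fin l) p : GL (Fin k ⊕ Fin l) F) : Matrix (Fin k ⊕ Fin l) (Fin k ⊕ Fin l) F) *
      blockM (((p.1⁻¹ : GL (Fin k) F) : Matrix (Fin k) (Fin k) F) * x₀.2.1.1 * (p.1 : Matrix (Fin k) (Fin k) F))
        (p.2⁻¹ * x₀.2.2 * p.2)) *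
        (((blockHom (Fin k) (Fin l) p)⁻¹ : GL (Fin k ⊕ Fin l) F) : Matrix (Fin k ⊕ Fin l) (Fin k ⊕ Fin l) F) *
        ((x₀.1⁻¹ : GL (Fin k ⊕ Fin l) F) : Matrix (Fin k ⊕ Fin l) (Fin k ⊕ Fin l) F) := by
        simp only [mul_assoc]
    _ = (x₀.1 : Matrix (Fin k ⊕ Fin l) (Fin k ⊕ Fin l) F) * blockM x₀.2.1.1 x₀.2.2 *
        (((blockHom (Fin k) (Fin l) p : GL (Fin k ⊕ Fin l) F) : Matrix (Fin k ⊕ Fin l) (Fin k ⊕ Fin l) F) *
        (((blockHom (Fin k) (Fin l) p)⁻¹ : GL (Fin k ⊕ Fin l) F) : Matrix (Fin k ⊕ Fin l) (Fin k ⊕ Fin l) F)) *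
        ((x₀.1⁻¹ : GL (Fin k ⊕ Fin l) F) : Matrix (Fin k ⊕ Fin l) (Fin k ⊕ Fin l) F) := by
        rw [h1]; simp only [mul_assoc]
    _ = _ := by rw [h2, _root_.mul_one]

lemma act_injective (x₀ : Dom F k l) : Function.Injective (act x₀) := by
  intro p p' h
  have h1 : x₀.1 * blockHom (Fin k) (Fin l) p = x₀.1 * blockHom (Fin k) (Fin l) p' := congrArg Prod.fst h
  exact blockHom_injective _ _ (mul_left_cancel h1)

/-- No nonzero intertwiner between a nilpotent matrix and a unit. -/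
lemma intertwine_zero {k l : ℕ} {N : Matrix (Fin k) (Fin k) F} (hN : IsNilpotent N)
    {u : Matrix (Fin l) (Fin l) F} (hu : IsUnit u) {b : Matrix (Fin k) (Fin l) F} (h : N * b = b * u) : b = 0 := by
  obtain ⟨m, hm⟩ := hN
  have h1 : ∀ j : ℕ, N ^ j * b = b * u ^ j := by
    intro j
    induction j with
    | zero => simp
    | succ j ih =>
      rw [pow_succ', Matrix.mul_assoc, ih, ← Matrix.mul_assoc, h, Matrix.mul_assoc, ← pow_succ']
  have h2 := h1 m
  rw [hm, Matrix.zero_mul] at h2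
  have h3 : IsUnit (u ^ m) := hu.pow m
  obtain ⟨w, hw⟩ := h3
  have h4 : b * ((w : Matrix (Fin l) (Fin l) F) * ((w⁻¹ : (Matrix (Fin l) (Fin l) F)ˣ) : Matrix (Fin l) (Fin l) F)) = 0 := by
    rw [← Matrix.mul_assoc, hw, ← h2, Matrix.zero_mul]
  rw [Units.mul_inv, Matrix.mul_one] at h4
  exact h4

lemma intertwine_zero' {k l : ℕ} {N : Matrix (Fin k) (Fin k) F} (hN : IsNilpotent N)
    {u : Matrix (Fin l) (Fin l) F} (hu : IsUnit u) {c : Matrix (Fin l) (Fin k) F} (h : u * c = c * N) : c = 0 := by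
  obtain ⟨m, hm⟩ := hN
  have h1 : ∀ j : ℕ, u ^ j * c = c * N ^ j := by
    intro j
    induction j with
    | zero => simp
    | succ j ih =>
      rw [pow_succ', Matrix.mul_assoc, ih, ← Matrix.mul_assoc, h, Matrix.mul_assoc, ← pow_succ']
  have h2 := h1 m
  rw [hm, Matrix.mul_zero] at h2
  have h3 : IsUnit (u ^ m) := hu.pow m
  obtain ⟨w, hw⟩ := h3
  have h4 : (((w⁻¹ : (Matrix (Fin l) (Fin l) F)ˣ) : Matrix (Fin l) (Fin l) F) * (w : Matrix (Fin l) (Fin l) F)) * c = 0 := by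
    rw [Matrix.mul_assoc, hw, h2, Matrix.mul_zero]
  rw [Units.inv_mul, Matrix.one_mul] at h4
  exact h4

lemma act_surj {n : ℕ} (e : Fin k ⊕ Fin l ≃ Fin n) (x₀ x : Dom F k l) (hx : Phi e x = Phi e x₀) :
    ∃ p, act x₀ p = x := by
  have h0 : (x.1 : Matrix (Fin k ⊕ Fin l) (Fin k ⊕ Fin l) F) * blockM x.2.1.1 x.2.2 *
    ((x.1⁻¹ : GL (Fin k ⊕ Fin l) F) : Matrix (Fin k ⊕ Fin l) (Fin k ⊕ Fin l) F) =
    (x₀.1 : Matrix (Fin k ⊕ Fin l) (Fin k ⊕ Fin l) F) * blockM x₀.2.1.1 x₀.2.2 *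
    ((x₀.1⁻¹ : GL (Fin k ⊕ Fin l) F) : Matrix (Fin k ⊕ Fin l) (Fin k ⊕ Fin l) F) := (Matrix.reindex e e).injective hx
  set h : GL (Fin k ⊕ Fin l) F := x₀.1⁻¹ * x.1 with hh
  have h1 : blockM x₀.2.1.1 x₀.2.2 * (h : Matrix (Fin k ⊕ Fin l) (Fin k ⊕ Fin l) F) =
      (h : Matrix (Fin k ⊕ Fin l) (Fin k ⊕ Fin l) F) * blockM x.2.1.1 x.2.2 := by
    have h2 : ((x₀.1⁻¹ : GL (Fin k ⊕ Fin l) F) : Matrix (Fin k ⊕ Fin l) (Fin k ⊕ Fin l) F) *
        (x₀.1 : Matrix (Fin k ⊕ Fin l) (Fin k ⊕ Fin l) F) = 1 := by rw [← Units.val_mul]; simp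
    have h3 : ((x.1⁻¹ : GL (Fin k ⊕ Fin l) F) : Matrix (Fin k ⊕ Fin l) (Fin k ⊕ Fin l) F) *
        (x.1 : Matrix (Fin k ⊕ Fin l) (Fin k ⊕ Fin l) F) = 1 := by rw [← Units.val_mul]; simp
    rw [hh, Units.val_mul]
    calc _ = ((x₀.1⁻¹ : GL (Fin k ⊕ Fin l) F) : Matrix (Fin k ⊕ Fin l) (Fin k ⊕ Fin l) F) *
        ((x₀.1 : Matrix (Fin k ⊕ Fin l) (Fin k ⊕ Fin l) F) * blockM x₀.2.1.1 x₀.2.2 *
        ((x₀.1⁻¹ : GL (Fin k ⊕ Fin l) F) : Matrix (Fin k ⊕ Fin l) (Fin k ⊕ Fin l) F)) *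
        (x.1 : Matrix (Fin k ⊕ Fin l) (Fin k ⊕ Fin l) F) := by
          rw [← mul_assoc ((x₀.1⁻¹ : GL (Fin k ⊕ Fin l) F) : Matrix (Fin k ⊕ Fin l) (Fin k ⊕ Fin l) F), ← mul_assoc ((x₀.1⁻¹ : GL (Fin k ⊕ Fin l) F) : Matrix (Fin k ⊕ Fin l) (Fin k ⊕ Fin l) F), h2, one_mul]
          simp only [mul_assoc]
      _ = _ := by
          rw [← h0]
          simp only [mul_assoc]
          rw [h3, _root_.mul_one]
  obtain ⟨a, b, c, d, hblk⟩ : ∃ a b c d, (h : Matrix (Fin k ⊕ Fin l) (Fin k ⊕ Fin l) F) = fromBlocks a b c d :=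
    ⟨_, _, _, _, (Matrix.fromBlocks_toBlocks _).symm⟩
  rw [hblk] at h1
  unfold blockM at h1
  rw [Matrix.fromBlocks_multiply, Matrix.fromBlocks_multiply] at h1
  simp only [Matrix.zero_mul, Matrix.mul_zero, add_zero, zero_add] at h1
  obtain ⟨ha, hb, hc, hd⟩ := Matrix.fromBlocks_inj.mp h1
  have hb0 : b = 0 := intertwine_zero x₀.2.1.2 (Units.isUnit x.2.2) hb
  have hc0 : c = 0 := intertwine_zero' x.2.1.2 (Units.isUnit x₀.2.2) hc
  have hdet : (h : Matrix (Fin k ⊕ Fin l) (Fin k ⊕ Fin l) F).det ≠ 0 := (Matrix.isUnits_det_units h).ne_zero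
  rw [hblk, hb0, hc0, Matrix.det_fromBlocks_zero₂₁] at hdet
  have hda : a.det ≠ 0 := left_ne_zero_of_mul hdet
  have hdd : d.det ≠ 0 := right_ne_zero_of_mul hdet
  let A : GL (Fin k) F := Matrix.GeneralLinearGroup.mkOfDetNeZero a hda
  let D : GL (Fin l) F := Matrix.GeneralLinearGroup.mkOfDetNeZero d hdd
  have hA : (A : Matrix (Fin k) (Fin k) F) = a := rfl
  have hD : (D : Matrix (Fin l) (Fin l) F) = d := rfl
  refine ⟨(A, D), ?_⟩
  have hhb : blockHom (Fin k) (Fin l) (A, D) = h := by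
    apply Units.ext
    rw [blockHom_val, hblk, hb0, hc0]
    rfl
  unfold act
  refine Prod.ext ?_ (Prod.ext ?_ ?_)
  · show x₀.1 * blockHom (Fin k) (Fin l) (A, D) = x.1
    rw [hhb, hh, mul_inv_cancel_left]
  · apply Subtype.ext
    show ((A⁻¹ : GL (Fin k) F) : Matrix (Fin k) (Fin k) F) * x₀.2.1.1 * (A : Matrix (Fin k) (Fin k) F) = x.2.1.1
    rw [mul_assoc, hA, ha, ← hA, ← mul_assoc, ← Units.val_mul]
    simp
  · apply Units.ext
    show ((D⁻¹ * x₀.2.2 * D : GL (Fin l) F) : Matrix (Fin l) (Fin l) F) = (x.2.2 : Matrix (Fin l) (Fin l) F)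
    rw [Units.val_mul, Units.val_mul, mul_assoc, hD, hd, ← hD, ← mul_assoc, ← Units.val_mul]
    simp

end Fibre

/-! ### Counting -/

section Count

open Singer

variable (F) [Fintype F]

/-- `|GL_n|`. -/
noncomputable def gN (n : ℕ) : ℕ := Nat.card (GL (Fin n) F)
/-- number of nilpotent matrices -/
noncomputable def nN (n : ℕ) : ℕ := Nat.card (Nil F n)
/-- number of matrices with invariant `k`. -/
noncomputable def tN (n k : ℕ) : ℕ := Nat.card {A : Matrix (Fin n) (Fin n) F // nu A = k}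

lemma gN_pos (n : ℕ) : 0 < gN F n := Nat.card_pos

theorem fib_card {k l n : ℕ} (e : Fin k ⊕ Fin l ≃ Fin n) (x₀ : Dom F k l) :
    Nat.card {x : Dom F k l // Phi e x = Phi e x₀} = gN F k * gN F l := by
  have hb : Function.Bijective (fun p : GL (Fin k) F × GL (Fin l) F =>
      (⟨act x₀ p, Phi_act e x₀ p⟩ : {x : Dom F k l // Phi e x = Phi e x₀})) := by
    constructor
    · intro p p' h
      exact act_injective x₀ (congrArg Subtype.val h)
    · rintro ⟨x, hx⟩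
      obtain ⟨p, hp⟩ := act_surj e x₀ x hx
      exact ⟨p, Subtype.ext hp⟩
  rw [← Nat.card_congr (Equiv.ofBijective _ hb), Nat.card_prod]
  rfl

theorem count_rel {n k l : ℕ} (h : k + l = n) :
    gN F n * nN F k * gN F l = tN F n k * (gN F k * gN F l) := by
  classical
  let e : Fin k ⊕ Fin l ≃ Fin n := finSumFinEquiv.trans (finCongr h)
  let f : Dom F k l → {A : Matrix (Fin n) (Fin n) F // nu A = k} := fun x => ⟨Phi e x, nu_Phi e x⟩
  have hsurj : ∀ t, ∃ x, f x = t := by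
    rintro ⟨A, hA⟩
    obtain ⟨k', l', hkl, hrep⟩ := exists_rep A
    obtain ⟨x, hx⟩ := hrep (finSumFinEquiv.trans (finCongr hkl))
    have h1 := nu_Phi (finSumFinEquiv.trans (finCongr hkl)) x
    rw [hx, hA] at h1
    subst h1
    have h2 : l' = l := by omega
    subst h2
    obtain ⟨y, hy⟩ := hrep e
    exact ⟨y, Subtype.ext hy⟩
  have hfib : ∀ t, Nat.card {x // f x = t} = gN F k * gN F l := by
    intro t
    obtain ⟨x₀, rfl⟩ := hsurj t
    rw [← fib_card F e x₀]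
    refine Nat.card_congr (Equiv.subtypeEquivRight fun x => ?_)
    exact Subtype.ext_iff
  haveI : Fintype {A : Matrix (Fin n) (Fin n) F // nu A = k} := Fintype.ofFinite _
  have h1 : Nat.card (Dom F k l) = tN F n k * (gN F k * gN F l) := by
    rw [← Nat.card_congr (Equiv.sigmaFiberEquiv f), Nat.card_sigma]
    simp only [hfib]
    rw [Finset.sum_const, smul_eq_mul, Finset.card_univ, tN, Nat.card_eq_fintype_card]
  rw [← h1, Nat.card_prod, Nat.card_prod]
  have h2 : Nat.card (GL (Fin k ⊕ Fin l) F) = gN F n := Nat.card_congr (reindexGL e).toEquiv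
  rw [h2, mul_assoc]
  rfl

theorem sum_tN (n : ℕ) : ∑ k ∈ Finset.range (n + 1), tN F n k = Fintype.card F ^ (n * n) := by
  classical
  have h1 := Finset.card_eq_sum_card_fiberwise (f := nu (F := F) (n := n))
    (s := (Finset.univ : Finset (Matrix (Fin n) (Fin n) F))) (t := Finset.range (n + 1))
    (fun A _ => by simpa [Nat.lt_succ_iff] using nu_le A)
  have h2 : Fintype.card (Matrix (Fin n) (Fin n) F) = Fintype.card F ^ (n * n) := by
    rw [pow_mul]
    have h3 : Fintype.card (Fin n → Fin n → F) = (Fintype.card F ^ n) ^ n := by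
      rw [Fintype.card_fun, Fintype.card_fun, Fintype.card_fin]
    exact h3
  rw [Finset.card_univ, h2] at h1
  rw [h1]
  refine Finset.sum_congr rfl fun k _ => ?_
  rw [tN, Nat.card_eq_fintype_card, Fintype.card_subtype]

theorem sum_ratio (n : ℕ) : ∑ k ∈ Finset.range (n + 1), ((nN F k : ℚ) / gN F k) =
    (Fintype.card F ^ (n * n) : ℕ) / gN F n := by
  rw [← sum_tN, Nat.cast_sum, Finset.sum_div]
  refine Finset.sum_congr rfl fun k hk => ?_
  have hk' : k + (n - k) = n := by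
    have := Finset.mem_range.mp hk
    omega
  have h1 := count_rel F hk'
  have h2 := gN_pos F n
  have h3 := gN_pos F k
  have h4 := gN_pos F (n - k)
  have h5 : ((gN F n : ℚ)) * nN F k * gN F (n - k) = tN F n k * (gN F k * gN F (n - k)) := by
    exact_mod_cast h1
  have h2' : (gN F n : ℚ) ≠ 0 := by positivity
  have h3' : (gN F k : ℚ) ≠ 0 := by positivity
  have h4' : (gN F (n - k) : ℚ) ≠ 0 := by positivity
  field_simp
  have h6 : ((gN F n : ℚ)) * nN F k = tN F n k * gN F k := by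
    apply mul_right_cancel₀ h4'
    rw [h5]
    ring
  linarith

theorem gN_succ (n : ℕ) : gN F (n + 1) = gN F n * Fintype.card F ^ n * (Fintype.card F ^ (n + 1) - 1) := by
  unfold gN
  rw [Matrix.card_GL_field, Matrix.card_GL_field, Fin.prod_univ_succ]
  set q := Fintype.card F
  have h1 : ∀ i : Fin n, (q ^ (n + 1) - q ^ ((Fin.succ i : Fin (n + 1)) : ℕ)) = q * (q ^ n - q ^ (i : ℕ)) := by
    intro i
    rw [Fin.val_succ, pow_succ', pow_succ', Nat.mul_sub]
  simp only [h1, Finset.prod_mul_distrib, Finset.prod_const, Finset.card_univ, Fintype.card_fin]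
  simp only [Fin.val_zero, pow_zero]
  ring

theorem nN_succ (n : ℕ) : nN F (n + 1) = Fintype.card F ^ ((n + 1) * n) := by
  have h1 := sum_ratio F n
  have h2 := sum_ratio F (n + 1)
  rw [Finset.sum_range_succ, h1] at h2
  have hq : 1 < Fintype.card F := Fintype.one_lt_card
  have h3 := gN_succ F n
  have h4 := gN_pos F n
  have h5 := gN_pos F (n + 1)
  set q := Fintype.card F with hq'
  have h6 : 1 ≤ q ^ (n + 1) := Nat.one_le_pow _ _ (by omega)
  have h3' : (gN F (n + 1) : ℚ) = gN F n * (q : ℚ) ^ n * ((q : ℚ) ^ (n + 1) - 1) := by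
    rw [h3]
    push_cast [Nat.cast_sub h6]
    ring
  have h4' : (gN F n : ℚ) ≠ 0 := by positivity
  have h5' : (gN F (n + 1) : ℚ) ≠ 0 := by positivity
  have h7 : (q : ℚ) ≠ 0 := by positivity
  have h8 : ((nN F (n + 1) : ℕ) : ℚ) = ((q ^ ((n + 1) * n) : ℕ) : ℚ) := by
    push_cast at h2 ⊢
    have h9 : (nN F (n + 1) : ℚ) / gN F (n + 1) = (q : ℚ) ^ ((n + 1) * (n + 1)) / gN F (n + 1) - (q : ℚ) ^ (n * n) / gN F n := by
      linarith
    have h10 : (nN F (n + 1) : ℚ) = (q : ℚ) ^ ((n + 1) * (n + 1)) - (q : ℚ) ^ (n * n) / gN F n * gN F (n + 1) := by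
      field_simp at h9 ⊢
      linarith
    rw [h10, h3']
    field_simp
    ring
  exact_mod_cast h8

theorem nN_zero : nN F 0 = 1 := by
  unfold nN
  have : Unique (Nil F 0) := ⟨⟨⟨0, ⟨1, by simp⟩⟩⟩, fun x => Subtype.ext (by ext i; exact i.elim0)⟩
  exact Nat.card_unique

theorem nN_eq (n : ℕ) : nN F n = Fintype.card F ^ (n * (n - 1)) := by
  cases n with
  | zero => simpa using nN_zero F
  | succ n =>
    rw [nN_succ]
    simp

/-- Unipotent elements correspond to nilpotent matrices. -/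
noncomputable def unipEquiv (p : ℕ) [Fact p.Prime] [CharP F p] (n : ℕ) [NeZero n] :
    {g : GL (Fin n) F // ∃ k : ℕ, orderOf g = p ^ k} ≃ Nil F n := by
  classical
  haveI : Nonempty (Fin n) := ⟨⟨0, Nat.pos_of_ne_zero (NeZero.ne n)⟩⟩
  haveI : CharP (Matrix (Fin n) (Fin n) F) p := Matrix.charP p
  have hp : p.Prime := Fact.out
  refine Equiv.ofBijective (fun g => ⟨(g.1 : Matrix (Fin n) (Fin n) F) - 1, ?_⟩) ⟨?_, ?_⟩
  · obtain ⟨g, k, hk⟩ := g
    refine ⟨p ^ k, ?_⟩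
    have h1 : g ^ p ^ k = 1 := by
      rw [← hk]
      exact pow_orderOf_eq_one g
    have h2 : (g : Matrix (Fin n) (Fin n) F) ^ p ^ k = 1 := by
      rw [← Units.val_pow_eq_pow_val, h1]
      rfl
    rw [sub_pow_char_pow_of_commute (p := p) (n := k) (Commute.one_right _), h2, one_pow, sub_self]
  · rintro ⟨g, hg⟩ ⟨g', hg'⟩ h
    have h1 : (g : Matrix (Fin n) (Fin n) F) - 1 = (g' : Matrix (Fin n) (Fin n) F) - 1 := congrArg Subtype.val h
    exact Subtype.ext (Units.ext (sub_left_injective h1))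
  · rintro ⟨N, hN⟩
    have hu : IsUnit (1 + N) := hN.isUnit_one_add
    obtain ⟨g, hg⟩ := hu
    obtain ⟨m, hm⟩ := hN
    have h1 : (g : Matrix (Fin n) (Fin n) F) ^ p ^ m = 1 := by
      rw [hg, add_pow_char_pow_of_commute (p := p) (n := m) (Commute.one_left _), one_pow]
      have hpm : m ≤ p ^ m := (Nat.lt_pow_self hp.one_lt).le
      rw [pow_eq_zero_of_le hpm hm, add_zero]
    have h2 : g ^ p ^ m = 1 := by
      apply Units.ext
      rw [Units.val_pow_eq_pow_val, h1]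
      rfl
    obtain ⟨j, -, hj⟩ := (Nat.dvd_prime_pow hp).mp (orderOf_dvd_of_pow_eq_one h2)
    refine ⟨⟨g, j, hj⟩, Subtype.ext ?_⟩
    show (g : Matrix (Fin n) (Fin n) F) - 1 = N
    rw [hg]
    simp

theorem card_unip (p : ℕ) [Fact p.Prime] [CharP F p] (n : ℕ) :
    Nat.card {g : GL (Fin n) F // ∃ k : ℕ, orderOf g = p ^ k} = Fintype.card F ^ (n * (n - 1)) := by
  cases n with
  | zero =>
    have : Unique {g : GL (Fin 0) F // ∃ k : ℕ, orderOf g = p ^ k} :=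
      { default := ⟨1, 0, by simp⟩
        uniq := fun x => Subtype.ext (Units.ext (by ext i; exact i.elim0)) }
    simp
  | succ n =>
    rw [← nN_eq, nN]
    exact Nat.card_congr (unipEquiv F p (n + 1))

end Count

end Cfsg.Agent.Lib.KS2.Nilp
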