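import Mathlib
import Cfsg.Agent.Lib.KS2.Jordan
import Cfsg.Agent.Lib.KS2.Nilp

/-!
# Unipotent classes of `GL_n` and partitions
-/

set_option autoImplicit false
set_option linter.unusedSimpArgs false
set_option linter.unusedVariables false
set_option linter.deprecated false

namespace Cfsg.Agent.Lib.KS2.Jordan

open Matrix Module

universe u

variable {F : Type u} [Field F]

/-- Model nilpotent matrix. -/
theorem exists_model {m n : ℕ} (e : Fin m → ℕ) (he : ∑ i, e i = n) :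
    ∃ (N : Matrix (Fin n) (Fin n) F) (b : Module.Basis (Σ i, Fin (e i)) F (Fin n → F)),
      IsJordanBasis (Matrix.toLin' N) e b := by
  classical
  have hc : Fintype.card (Σ i, Fin (e i)) = n := by
    rw [Fintype.card_sigma]
    simpa using he
  let eq := Fintype.equivFinOfCardEq hc
  let b : Module.Basis (Σ i, Fin (e i)) F (Fin n → F) := (Pi.basisFun F (Fin n)).reindex eq.symm
  let f : (Σ i, Fin (e i)) → (Fin n → F) := fun x => if h : (x.2 : ℕ) + 1 < e x.1 then b ⟨x.1, ⟨x.2 + 1, h⟩⟩ else 0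
  let T : Module.End F (Fin n → F) := b.constr F f
  refine ⟨LinearMap.toMatrix' T, b, ?_⟩
  intro i j
  rw [Matrix.toLin'_toMatrix']
  show b.constr F f (b ⟨i, j⟩) = _
  rw [Module.Basis.constr_basis]

/-- A list realization of a multiset. -/
lemma exists_fin_of_multiset (s : Multiset ℕ) : ∃ (m : ℕ) (e : Fin m → ℕ), Finset.univ.val.map e = s := by
  refine ⟨s.toList.length, s.toList.get, ?_⟩
  rw [Fin.univ_val_map, List.ofFn_get, Multiset.coe_toList]

variable [Fintype F]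

lemma nil_of_unip (p : ℕ) [Fact p.Prime] [CharP F p] {n : ℕ} (g : GL (Fin n) F) (hg : ∃ k : ℕ, orderOf g = p ^ k) :
    IsNilpotent ((g : Matrix (Fin n) (Fin n) F) - 1) := by
  cases n with
  | zero => exact ⟨1, Subsingleton.elim _ _⟩
  | succ n =>
    haveI : CharP (Matrix (Fin (n + 1)) (Fin (n + 1)) F) p := Matrix.charP p
    obtain ⟨k, hk⟩ := hg
    refine ⟨p ^ k, ?_⟩
    have h1 : g ^ p ^ k = 1 := by
      rw [← hk]
      exact pow_orderOf_eq_one g
    have h2 : (g : Matrix (Fin (n + 1)) (Fin (n + 1)) F) ^ p ^ k = 1 := by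
      rw [← Units.val_pow_eq_pow_val, h1]
      rfl
    rw [sub_pow_char_pow_of_commute (p := p) (n := k) (Commute.one_right _), h2, one_pow, sub_self]

lemma unip_of_nil (p : ℕ) [Fact p.Prime] [CharP F p] {n : ℕ} (g : GL (Fin n) F)
    (hg : IsNilpotent ((g : Matrix (Fin n) (Fin n) F) - 1)) : ∃ k : ℕ, orderOf g = p ^ k := by
  have hp : p.Prime := Fact.out
  cases n with
  | zero =>
    refine ⟨0, ?_⟩
    have : g = 1 := Units.ext (Subsingleton.elim _ _)
    simp [this]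
  | succ n =>
    haveI : CharP (Matrix (Fin (n + 1)) (Fin (n + 1)) F) p := Matrix.charP p
    obtain ⟨m, hm⟩ := hg
    have h1 : (g : Matrix (Fin (n + 1)) (Fin (n + 1)) F) ^ p ^ m = 1 := by
      have h3 := sub_pow_char_pow_of_commute (p := p) (n := m) (Commute.one_right (g : Matrix (Fin (n + 1)) (Fin (n + 1)) F))
      have hpm : m ≤ p ^ m := (Nat.lt_pow_self hp.one_lt).le
      rw [pow_eq_zero_of_le hpm hm, one_pow] at h3
      exact (sub_eq_zero.mp h3.symm)
    have h2 : g ^ p ^ m = 1 := by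
      apply Units.ext
      rw [Units.val_pow_eq_pow_val, h1]
      rfl
    obtain ⟨j, -, hj⟩ := (Nat.dvd_prime_pow hp).mp (orderOf_dvd_of_pow_eq_one h2)
    exact ⟨j, hj⟩

/-- Conjugacy of units from intertwiner. -/
lemma isConj_of_intertwine {n : ℕ} (g g' : GL (Fin n) F) (φ : (Fin n → F) ≃ₗ[F] (Fin n → F))
    (hφ : ∀ v, φ (Matrix.toLin' ((g : Matrix (Fin n) (Fin n) F) - 1) v) =
      Matrix.toLin' ((g' : Matrix (Fin n) (Fin n) F) - 1) (φ v)) : IsConj g g' := by
  rw [isConj_iff]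
  let h : GL (Fin n) F := Nilp.glOf φ
  have h1 : (h : Matrix (Fin n) (Fin n) F) * (g : Matrix (Fin n) (Fin n) F) =
      (g' : Matrix (Fin n) (Fin n) F) * (h : Matrix (Fin n) (Fin n) F) := by
    apply Matrix.toLin'.injective
    refine LinearMap.ext fun v => ?_
    simp only [Matrix.toLin'_mul, LinearMap.comp_apply, Matrix.toLin'_apply]
    rw [Nilp.glOf_mulVec, Nilp.glOf_mulVec]
    have h2 := hφ v
    rw [Matrix.toLin'_apply, Matrix.toLin'_apply, Matrix.sub_mulVec, Matrix.sub_mulVec, Matrix.one_mulVec, Matrix.one_mulVec, map_sub] at h2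
    exact (sub_left_injective h2)
  refine ⟨h, Units.ext ?_⟩
  rw [Units.val_mul, Units.val_mul, h1, mul_assoc, ← Units.val_mul]
  simp

/-- Intertwiner from conjugacy. -/
lemma intertwine_of_isConj {n : ℕ} (g g' : GL (Fin n) F) (hc : IsConj g g') :
    ∃ φ : (Fin n → F) ≃ₗ[F] (Fin n → F), ∀ v, φ (Matrix.toLin' ((g : Matrix (Fin n) (Fin n) F) - 1) v) =
      Matrix.toLin' ((g' : Matrix (Fin n) (Fin n) F) - 1) (φ v) := by
  rw [isConj_iff] at hc
  obtain ⟨h, rfl⟩ := hc
  have h1 : (h : Matrix (Fin n) (Fin n) F) * ((h⁻¹ : GL (Fin n) F) : Matrix (Fin n) (Fin n) F) = 1 := by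
    rw [← Units.val_mul]; simp
  have h2 : ((h⁻¹ : GL (Fin n) F) : Matrix (Fin n) (Fin n) F) * (h : Matrix (Fin n) (Fin n) F) = 1 := by
    rw [← Units.val_mul]; simp
  let φ : (Fin n → F) ≃ₗ[F] (Fin n → F) := LinearEquiv.ofLinear (Matrix.toLin' (h : Matrix (Fin n) (Fin n) F))
    (Matrix.toLin' ((h⁻¹ : GL (Fin n) F) : Matrix (Fin n) (Fin n) F))
    (by rw [← Matrix.toLin'_mul, h1]; simp) (by rw [← Matrix.toLin'_mul, h2]; simp)
  refine ⟨φ, fun v => ?_⟩
  show (h : Matrix (Fin n) (Fin n) F) *ᵥ (((g : Matrix (Fin n) (Fin n) F) - 1) *ᵥ v) =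
    ((((h * g * h⁻¹ : GL (Fin n) F) : Matrix (Fin n) (Fin n) F)) - 1) *ᵥ ((h : Matrix (Fin n) (Fin n) F) *ᵥ v)
  rw [Matrix.mulVec_mulVec, Matrix.mulVec_mulVec]
  congr 1
  rw [Units.val_mul, Units.val_mul, Matrix.mul_sub, Matrix.sub_mul, mul_assoc (h : Matrix (Fin n) (Fin n) F) (g : Matrix (Fin n) (Fin n) F),
    mul_assoc (h : Matrix (Fin n) (Fin n) F), mul_assoc (g : Matrix (Fin n) (Fin n) F), h2]
  simp

/-- Type data attached to a unipotent element. -/
def HasType {n : ℕ} (g : GL (Fin n) F) (s : Multiset ℕ) : Prop :=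
  ∃ (m : ℕ) (e : Fin m → ℕ) (b : Module.Basis (Σ i, Fin (e i)) F (Fin n → F)),
    IsJordanBasis (Matrix.toLin' ((g : Matrix (Fin n) (Fin n) F) - 1)) e b ∧ (∀ i, 0 < e i) ∧ Finset.univ.val.map e = s

lemma sum_of_hasType {n : ℕ} {g : GL (Fin n) F} {s : Multiset ℕ} (h : HasType g s) : s.sum = n := by
  obtain ⟨m, e, b, -, -, rfl⟩ := h
  have h1 := Module.finrank_eq_card_basis b
  rw [Module.finrank_fin_fun, Fintype.card_sigma] at h1
  have h2 : (Finset.univ.val.map e).sum = ∑ i, e i := rfl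
  rw [h2]
  simpa using h1.symm

lemma pos_of_hasType {n : ℕ} {g : GL (Fin n) F} {s : Multiset ℕ} (h : HasType g s) : ∀ x ∈ s, 0 < x := by
  obtain ⟨m, e, b, -, hpos, rfl⟩ := h
  intro x hx
  obtain ⟨i, -, rfl⟩ := Multiset.mem_map.mp hx
  exact hpos i

lemma exists_hasType_of_nil {n : ℕ} (g : GL (Fin n) F) (hg : IsNilpotent ((g : Matrix (Fin n) (Fin n) F) - 1)) :
    ∃ s, HasType g s := by
  have h1 : IsNilpotent (Matrix.toLin' ((g : Matrix (Fin n) (Fin n) F) - 1)) :=
    hg.map (Matrix.toLinAlgEquiv' (R := F) (n := Fin n))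
  obtain ⟨m, e, b, hb, hpos⟩ := exists_jordan_fin _ h1
  exact ⟨_, m, e, b, hb, hpos, rfl⟩

lemma exists_of_multiset {n : ℕ} (s : Multiset ℕ) (hpos : ∀ x ∈ s, 0 < x) (hs : s.sum = n) :
    ∃ g : GL (Fin n) F, IsNilpotent ((g : Matrix (Fin n) (Fin n) F) - 1) ∧ HasType g s := by
  obtain ⟨m, e, rfl⟩ := exists_fin_of_multiset s
  obtain ⟨N, b, hb⟩ := exists_model (F := F) e hs
  have hN : IsNilpotent N := by
    have h1 := nilpotent_of_jordan hb
    have h2 := h1.map (Matrix.toLinAlgEquiv' (R := F) (n := Fin n)).symm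
    have h3 : (Matrix.toLinAlgEquiv' (R := F) (n := Fin n)).symm (Matrix.toLin' N) = N := by
      rw [AlgEquiv.symm_apply_eq]
      rfl
    rwa [h3] at h2
  obtain ⟨u, hu⟩ := hN.isUnit_one_add
  have hu' : (u : Matrix (Fin n) (Fin n) F) - 1 = N := by
    rw [hu]
    simp
  refine ⟨u, by rw [hu']; exact hN, m, e, b, by rw [hu']; exact hb, ?_, rfl⟩
  intro i
  exact hpos _ (Multiset.mem_map.mpr ⟨i, Finset.mem_univ_val i, rfl⟩)

lemma isConj_of_type {n : ℕ} {g g' : GL (Fin n) F} {s : Multiset ℕ} (h : HasType g s) (h' : HasType g' s) : IsConj g g' := by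
  obtain ⟨m, e, b, hb, hpos, hs⟩ := h
  obtain ⟨m', e', b', hb', hpos', hs'⟩ := h'
  have hm : m = m' := by
    have h1 := congrArg Multiset.card (hs.trans hs'.symm)
    simpa using h1
  subst hm
  obtain ⟨φ, hφ⟩ := conj_of_type hb hb' (hs.trans hs'.symm)
  exact isConj_of_intertwine g g' φ hφ

lemma type_eq_of_isConj {n : ℕ} {g g' : GL (Fin n) F} {s s' : Multiset ℕ} (h : HasType g s) (h' : HasType g' s') (hc : IsConj g g') : s = s' := by
  obtain ⟨m, e, b, hb, hpos, rfl⟩ := h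
  obtain ⟨m', e', b', hb', hpos', rfl⟩ := h'
  obtain ⟨φ, hφ⟩ := intertwine_of_isConj g g' hc
  exact type_unique hb hb' hpos hpos' φ hφ

/-- **Unipotent classes are in bijection with partitions.** -/
theorem card_unip_classes (p : ℕ) [Fact p.Prime] [CharP F p] (n : ℕ) :
    Nat.card {C : ConjClasses (GL (Fin n) F) //
      ∃ g : GL (Fin n) F, (∃ k : ℕ, orderOf g = p ^ k) ∧ ConjClasses.mk g = C} =
      Fintype.card (Nat.Partition n) := by
  classical
  have hex : ∀ l : Nat.Partition n, ∃ g : GL (Fin n) F, IsNilpotent ((g : Matrix (Fin n) (Fin n) F) - 1) ∧ HasType g l.parts :=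
    fun l => exists_of_multiset l.parts (fun x hx => l.parts_pos hx) l.parts_sum
  choose G hG1 hG2 using hex
  let Ψ : Nat.Partition n → {C : ConjClasses (GL (Fin n) F) //
      ∃ g : GL (Fin n) F, (∃ k : ℕ, orderOf g = p ^ k) ∧ ConjClasses.mk g = C} :=
    fun l => ⟨ConjClasses.mk (G l), G l, unip_of_nil p _ (hG1 l), rfl⟩
  have hΨ : Function.Bijective Ψ := by
    constructor
    · intro l l' h
      have h1 : ConjClasses.mk (G l) = ConjClasses.mk (G l') := congrArg Subtype.val h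
      have h2 : IsConj (G l) (G l') := ConjClasses.mk_eq_mk_iff_isConj.mp h1
      have h3 := type_eq_of_isConj (hG2 l) (hG2 l') h2
      exact Nat.Partition.ext h3
    · rintro ⟨_, g, hg, rfl⟩
      obtain ⟨s, hs⟩ := exists_hasType_of_nil g (nil_of_unip p g hg)
      let l : Nat.Partition n := ⟨s, fun {x} hx => pos_of_hasType hs x hx, sum_of_hasType hs⟩
      refine ⟨l, Subtype.ext ?_⟩
      exact ConjClasses.mk_eq_mk_iff_isConj.mpr (isConj_of_type (hG2 l) hs)
  rw [← Nat.card_congr (Equiv.ofBijective Ψ hΨ), Nat.card_eq_fintype_card]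

end Cfsg.Agent.Lib.KS2.Jordan
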