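import Mathlib
import Cfsg.Prelude.Def_Classical
import Cfsg.Agent.Lib.KS2.LawFam1

/-!
Words that are laws in `PSU_n(q)` force `n` and `q` to be small.
-/

set_option autoImplicit false
set_option linter.unusedSimpArgs false
set_option linter.unusedVariables false

namespace Cfsg.Agent.Lib.KS2.Law

open Matrix
open scoped MatrixGroups

variable {F : Type*} [Field F] {n : ℕ}

/-- A representation preserving the Hermitian form. -/
noncomputable def toSU {q : ℕ} {K : Type*} [Group K] (R : K →* Matrix (Fin n) (Fin n) F) (h : ∀ k, (R k).det = 1)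
    (hf : ∀ k u v, Cfsg.hermForm n F q (R k *ᵥ u) (R k *ᵥ v) = Cfsg.hermForm n F q u v) : K →* Cfsg.SU n F q :=
  MonoidHom.mk' (fun k => ⟨⟨R k, h k⟩, fun u v => hf k u v⟩)
    (fun a b => Subtype.ext (Subtype.ext (map_mul R a b)))

lemma toSU_injective {q : ℕ} {K : Type*} [Group K] (R : K →* Matrix (Fin n) (Fin n) F) (h : ∀ k, (R k).det = 1)
    (hf : ∀ k u v, Cfsg.hermForm n F q (R k *ᵥ u) (R k *ᵥ v) = Cfsg.hermForm n F q u v)
    (hR : Function.Injective R) : Function.Injective (toSU R h hf) := by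
  intro a b hab
  apply hR
  exact congrArg (fun x : Cfsg.SU n F q => ((x : SpecialLinearGroup (Fin n) F) : Matrix (Fin n) (Fin n) F)) hab

lemma perm_herm {q : ℕ} (τ : Equiv.Perm (Fin n)) (u v : Fin n → F) :
    Cfsg.hermForm n F q (Mrep (permEnd F (Fin n)) τ *ᵥ u) (Mrep (permEnd F (Fin n)) τ *ᵥ v) = Cfsg.hermForm n F q u v := by
  rw [Mrep_mulVec, Mrep_mulVec]
  simp only [Cfsg.hermForm, permEnd_apply]
  exact Equiv.sum_comp (τ⁻¹) (fun j => u j * v j ^ q)

/-- The two-term sum lemma. -/
lemma sum_two {ι : Type*} [Fintype ι] [DecidableEq ι] (f g : ι → F) (a b : ι) (hab : a ≠ b)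
    (h : f a + f b = g a + g b) (h' : ∀ i, i ≠ a → i ≠ b → f i = g i) : ∑ i, f i = ∑ i, g i := by
  have e : ∀ p : ι → F, ∑ i, p i = p a + (p b + ∑ i ∈ (Finset.univ.erase a).erase b, p i) := by
    intro p
    rw [Finset.add_sum_erase _ _ (by simp [hab.symm]), Finset.add_sum_erase _ _ (Finset.mem_univ a)]
  rw [e f, e g, ← add_assoc, ← add_assoc, h]
  congr 1
  refine Finset.sum_congr rfl fun i hi => ?_
  simp only [Finset.mem_erase, Finset.mem_univ, and_true] at hi
  exact h' i hi.2 hi.1

section Frob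

variable [Fintype F]

/-- The involution of a field with `q²` elements. -/
lemma exists_frob {q : ℕ} (hcard : Fintype.card F = q ^ 2) :
    ∃ σ : F →+* F, (∀ x, σ x = x ^ q) ∧ (∀ x, σ (σ x) = x) := by
  obtain ⟨p, hc, m, hp, hm⟩ := FiniteField.card' (K := F)
  have hq0 : q ≠ 0 := by
    rintro rfl
    have := Fintype.card_pos (α := F)
    simp at hcard
  have hdvd : q ∣ p ^ (m : ℕ) := by
    rw [← hm, hcard]
    exact Dvd.intro _ (by ring)
  obtain ⟨k, -, rfl⟩ := (Nat.dvd_prime_pow hp).mp hdvd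
  haveI : Fact p.Prime := ⟨hp⟩
  haveI : ExpChar F p := ExpChar.prime hp
  refine ⟨iterateFrobenius F p k, fun x => iterateFrobenius_def p k x, ?_⟩
  intro x
  rw [iterateFrobenius_def, iterateFrobenius_def, ← pow_mul, ← pow_two, ← hcard]
  exact FiniteField.pow_card x

/-- Elements of the relevant norms. -/
lemma exists_norm {q : ℕ} (hcard : Fintype.card F = q ^ 2) :
    ∃ (c c' ε : F), c ^ (q + 1) = -1 ∧ c' ^ (q + 1) = -1 ∧ c ≠ c' ∧ ε ≠ 0 ∧ ε ^ q = -ε := by
  classical
  obtain ⟨g, hg⟩ := IsCyclic.exists_generator (α := Fˣ)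
  have hq2 : 2 ≤ q := by
    by_contra h
    have h1 : q = 0 ∨ q = 1 := by omega
    have h2 := Fintype.one_lt_card (α := F)
    rcases h1 with rfl | rfl <;> simp [hcard] at h2
  have hord : orderOf g = q ^ 2 - 1 := by
    rw [orderOf_eq_card_of_forall_mem_zpowers hg, Nat.card_eq_fintype_card, Fintype.card_units, hcard]
  have hq3 : q - 1 < q ^ 2 - 1 := by
    have : q < q ^ 2 := by nlinarith
    omega
  have hzeta : (((g ^ (q - 1) : Fˣ) : F)) ≠ 1 := by
    intro h
    have h1 : g ^ (q - 1) = 1 := Units.ext h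
    have h2 := orderOf_dvd_of_pow_eq_one h1
    rw [hord] at h2
    have := Nat.le_of_dvd (by omega) h2
    omega
  have hzeta2 : (((g ^ (q - 1) : Fˣ) : F)) ^ (q + 1) = 1 := by
    have h1 : (g ^ (q - 1)) ^ (q + 1) = 1 := by
      rw [← pow_mul]
      have : (q - 1) * (q + 1) = q ^ 2 - 1 := by
        obtain ⟨r, rfl⟩ : ∃ r, q = r + 1 := ⟨q - 1, by omega⟩
        simp only [Nat.add_sub_cancel]
        have : (r + 1) ^ 2 = r * (r + 1 + 1) + 1 := by ring
        omega
      rw [this, ← hord, pow_orderOf_eq_one]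
    have := congrArg Units.val h1
    simpa using this
  set ζ : F := ((g ^ (q - 1) : Fˣ) : F) with hζ
  have hζ0 : ζ ≠ 0 := Units.ne_zero _
  have main : ∃ (c ε : F), c ^ (q + 1) = -1 ∧ c ≠ 0 ∧ ε ≠ 0 ∧ ε ^ q = -ε := by
    by_cases hch : (2 : F) = 0
    · have hneg : (-1 : F) = 1 := by linear_combination -hch
      refine ⟨1, 1, by simp [hneg], one_ne_zero, one_ne_zero, by simp [hneg]⟩
    · -- odd characteristic: `q` is odd
      have hne1 : (-1 : F) ≠ 1 := by
        intro h
        apply hch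
        linear_combination -h
      have hqodd : Odd q := by
        by_contra hne
        rw [Nat.not_odd_iff_even] at hne
        have h1 : ((-1 : Fˣ)) ^ 2 = 1 := by simp
        have h2 : orderOf (-1 : Fˣ) = 2 := by
          apply orderOf_eq_prime h1
          intro h3
          apply hne1
          have := congrArg Units.val h3
          simpa using this
        have h3 : 2 ∣ Nat.card Fˣ := by
          rw [← h2]
          exact orderOf_dvd_natCard _
        rw [Nat.card_eq_fintype_card, Fintype.card_units, hcard] at h3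
        obtain ⟨r, hr⟩ := hne
        have h4 : q ^ 2 = 2 * (2 * r * r) := by rw [hr]; ring
        omega
      obtain ⟨r, hr⟩ := hqodd
      have hr0 : 1 ≤ r := by omega
      set e := r * (q + 1) with he
      have he2 : 2 * e = q ^ 2 - 1 := by
        have : q ^ 2 = 2 * (r * (q + 1)) + 1 := by rw [hr]; ring
        omega
      have hs1 : ((g ^ e : Fˣ)) ^ 2 = 1 := by
        rw [← pow_mul, mul_comm, he2, ← hord, pow_orderOf_eq_one]
      have hs2 : ((g ^ e : Fˣ)) ≠ 1 := by
        intro h
        have h2 := orderOf_dvd_of_pow_eq_one h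
        rw [hord, ← he2] at h2
        have h3 : 0 < e := by rw [he]; positivity
        have := Nat.le_of_dvd h3 h2
        omega
      have hs3 : (((g ^ e : Fˣ)) : F) = -1 := by
        have h1 : (((g ^ e : Fˣ)) : F) ^ 2 = 1 := by
          have := congrArg Units.val hs1
          simpa using this
        have h2 : (((g ^ e : Fˣ)) : F) ≠ 1 := fun h => hs2 (Units.ext h)
        have h3 : ((((g ^ e : Fˣ)) : F) - 1) * (((g ^ e : Fˣ)) + 1) = 0 := by linear_combination h1
        rcases mul_eq_zero.mp h3 with h4 | h4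
        · exact absurd (sub_eq_zero.mp h4) h2
        · linear_combination h4
      refine ⟨((g ^ r : Fˣ) : F), ((g ^ (r + 1) : Fˣ) : F), ?_, Units.ne_zero _, Units.ne_zero _, ?_⟩
      · rw [← Units.val_pow_eq_pow_val, ← pow_mul]
        exact hs3
      · rw [← Units.val_pow_eq_pow_val, ← pow_mul]
        have e1 : (r + 1) * q = e + (r + 1) := by
          rw [he, hr]; ring
        rw [e1, pow_add, Units.val_mul, hs3]
        ring
  obtain ⟨c, ε, h1, h2, h3, h4⟩ := main
  refine ⟨c, c * ζ, ε, h1, ?_, ?_, h3, h4⟩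
  · rw [mul_pow, h1, hzeta2, mul_one]
  · intro h
    apply hzeta
    field_simp at h
    exact h.symm

/-- The fixed field has at least `q` elements. -/
lemma card_F0 {q : ℕ} (hcard : Fintype.card F = q ^ 2) (σ : F →+* F) (hσ : ∀ x, σ x = x ^ q) (hσσ : ∀ x, σ (σ x) = x) :
    q ≤ Nat.card (σ.eqLocusField (RingHom.id F)) := by
  classical
  obtain ⟨g, hg⟩ := IsCyclic.exists_generator (α := Fˣ)
  have hord : orderOf g = q ^ 2 - 1 := by
    rw [orderOf_eq_card_of_forall_mem_zpowers hg, Nat.card_eq_fintype_card, Fintype.card_units, hcard]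
  have hq2 : 2 ≤ q := by
    by_contra h
    have h1 : q = 0 ∨ q = 1 := by omega
    have h2 := Fintype.one_lt_card (α := F)
    rcases h1 with rfl | rfl <;> simp [hcard] at h2
  set a : F := (g : F) with ha
  have hy : σ (a ^ (q + 1)) = a ^ (q + 1) := by
    rw [map_pow, pow_succ, ← hσ, hσσ, pow_succ, ← hσ]
    ring
  have hmem : ∀ j : ℕ, a ^ ((q + 1) * j) ∈ σ.eqLocusField (RingHom.id F) := by
    intro j
    show σ (a ^ ((q + 1) * j)) = a ^ ((q + 1) * j)
    rw [pow_mul, map_pow, hy]
  let ψ : Fin q → σ.eqLocusField (RingHom.id F) := fun i =>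
    if h : (i : ℕ) = 0 then 0 else ⟨a ^ ((q + 1) * ((i : ℕ) - 1)), hmem _⟩
  have hpow : ∀ i j : ℕ, i < q - 1 → j < q - 1 → a ^ ((q + 1) * i) = a ^ ((q + 1) * j) → i = j := by
    intro i j hi hj h
    have h1 : g ^ ((q + 1) * i) = g ^ ((q + 1) * j) := by
      apply Units.ext
      simpa using h
    have hlt : ∀ i : ℕ, i < q - 1 → (q + 1) * i < orderOf g := by
      intro i hi
      rw [hord]
      have h3 : (q + 1) * (q - 1) = q ^ 2 - 1 := by
        obtain ⟨r, rfl⟩ : ∃ r, q = r + 1 := ⟨q - 1, by omega⟩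
        simp only [Nat.add_sub_cancel]
        have : (r + 1) ^ 2 = (r + 1 + 1) * r + 1 := by ring
        omega
      rw [← h3]
      exact Nat.mul_lt_mul_of_pos_left hi (by omega)
    have h2 := pow_injOn_Iio_orderOf (x := g) (hlt i hi) (hlt j hj) h1
    exact Nat.eq_of_mul_eq_mul_left (by omega : 0 < q + 1) h2
  have hψ : Function.Injective ψ := by
    intro i j hij
    apply Fin.ext
    simp only [ψ] at hij
    by_cases hi : (i : ℕ) = 0
    · by_cases hj : (j : ℕ) = 0
      · omega
      · exfalso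
        rw [dif_pos hi, dif_neg hj] at hij
        have h1 := congrArg Subtype.val hij
        simp only [ZeroMemClass.coe_zero] at h1
        exact pow_ne_zero _ (Units.ne_zero g) h1.symm
    · by_cases hj : (j : ℕ) = 0
      · exfalso
        rw [dif_neg hi, dif_pos hj] at hij
        have h1 := congrArg Subtype.val hij
        simp only [ZeroMemClass.coe_zero] at h1
        exact pow_ne_zero _ (Units.ne_zero g) h1
      · rw [dif_neg hi, dif_neg hj] at hij
        have h1 := congrArg Subtype.val hij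
        simp only at h1
        have := hpow _ _ (by have := i.2; omega) (by have := j.2; omega) h1
        omega
  have := Nat.card_le_card_of_injective ψ hψ
  simpa using this

section Conj

variable (σ : F →+* F)

/-- The form `x₀ σ(y₁) - x₁ σ(y₀)`. -/
def aform (x y : Fin 2 → F) : F := x 0 * σ (y 1) - x 1 * σ (y 0)

/-- The Hermitian form on two coordinates. -/
def hform (x y : Fin 2 → F) : F := x 0 * σ (y 0) + x 1 * σ (y 1)

lemma aform_map (B : Matrix (Fin 2) (Fin 2) F) (hB : ∀ i j, σ (B i j) = B i j)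
    (hdet : B 0 0 * B 1 1 - B 0 1 * B 1 0 = 1) (x y : Fin 2 → F) :
    aform σ (B *ᵥ x) (B *ᵥ y) = aform σ x y := by
  simp only [aform, mulVec, dotProduct, Fin.sum_univ_two, map_add, map_mul, hB]
  linear_combination (x 0 * σ (y 1) - x 1 * σ (y 0)) * hdet

lemma hform_P (c c' ε μ : F) (hc : c * σ c = -1) (hc' : c' * σ c' = -1) (hμ : σ μ * (1 + c * σ c') = ε)
    (hμ' : μ * (1 + c' * σ c) = -ε) (x y : Fin 2 → F) :
    hform σ (!![1, μ; c, μ * c'] *ᵥ x) (!![1, μ; c, μ * c'] *ᵥ y) = ε * aform σ x y := by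
  simp only [hform, aform, mulVec, dotProduct, Fin.sum_univ_two, map_add, map_mul, map_one]
  simp
  linear_combination (x 0 * σ (y 0)) * hc + (x 1 * σ μ * μ * σ (y 1)) * hc' + (x 0 * σ (y 1)) * hμ + (x 1 * σ (y 0)) * hμ'

end Conj

section Rep

variable {σ : F →+* F}

/-- Conjugation by `P` on `SL₂`. -/
def conjSL (P P' : Matrix (Fin 2) (Fin 2) F) (h1 : P * P' = 1) (h2 : P' * P = 1) : SL(2, F) →* SL(2, F) :=
  MonoidHom.mk' (fun A => ⟨P * A.1 * P', by
      rw [det_mul, det_mul, A.2, mul_one, ← det_mul, h1, det_one]⟩)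
    (fun A B => by
      apply Subtype.ext
      show P * (A.1 * B.1) * P' = (P * A.1 * P') * (P * B.1 * P')
      calc P * (A.1 * B.1) * P' = P * A.1 * (P' * P) * B.1 * P' := by
            rw [h2]; simp only [mul_assoc, one_mul]
        _ = _ := by simp only [mul_assoc])

lemma conjSL_coe (P P' : Matrix (Fin 2) (Fin 2) F) (h1 : P * P' = 1) (h2 : P' * P = 1) (A : SL(2, F)) :
    (conjSL P P' h1 h2 A).1 = P * A.1 * P' := rfl

lemma conjSL_injective (P P' : Matrix (Fin 2) (Fin 2) F) (h1 : P * P' = 1) (h2 : P' * P = 1) :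
    Function.Injective (conjSL P P' h1 h2) := by
  intro A B h
  have h3 : P * A.1 * P' = P * B.1 * P' := congrArg Subtype.val h
  apply Subtype.ext
  calc A.1 = (P' * P) * A.1 * (P' * P) := by rw [h2]; simp
    _ = P' * (P * A.1 * P') * P := by simp only [mul_assoc]
    _ = P' * (P * B.1 * P') * P := by rw [h3]
    _ = (P' * P) * B.1 * (P' * P) := by simp only [mul_assoc]
    _ = _ := by rw [h2]; simp

/-- The inclusion of `SL₂` of the fixed field. -/
def inclF0 (σ : F →+* F) : SL(2, σ.eqLocusField (RingHom.id F)) →* SL(2, F) :=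
  Matrix.SpecialLinearGroup.map (σ.eqLocusField (RingHom.id F)).subtype

lemma inclF0_injective (σ : F →+* F) : Function.Injective (inclF0 σ) := by
  intro A B h
  apply Subtype.ext
  ext i j
  have h6 := congrArg (fun X : SL(2, F) => X.1 i j) h
  exact h6

end Rep

/-- `PSU`: a law bounds the rank and the field. -/
theorem psu_bound {q : ℕ} (hcard : Fintype.card F = q ^ 2) (w : FreeGroup ℕ) (hw : w ≠ 1) (hn : 2 ≤ n)
    (hlaw : ∀ f : ℕ → Cfsg.PSU n F q, FreeGroup.lift f w = 1) :
    n < w.toWord.length + 5 ∧ q ≤ Dw w.toWord := by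
  constructor
  · by_contra hlt
    obtain ⟨ρ, hρ⟩ := alternating_noncentral w hw n (by omega)
    let R : alternatingGroup (Fin n) →* Matrix (Fin n) (Fin n) F := (Mrep (permEnd F (Fin n))).comp (altSub (Fin n))
    have hdet : ∀ k, (R k).det = 1 := fun k => det_perm k.1 k.2
    have hinj : Function.Injective R := (Mrep_injective _ permEnd_injective).comp (altSub_injective _)
    have hf : ∀ k u v, Cfsg.hermForm n F q (R k *ᵥ u) (R k *ᵥ v) = Cfsg.hermForm n F q u v := fun k u v => perm_herm k.1 u v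
    obtain ⟨f, hf'⟩ := no_law_of_embed (toSU R hdet hf) (toSU_injective R hdet hf hinj) w ρ hρ
    exact hf' (hlaw f)
  · by_contra hlt
    push Not at hlt
    obtain ⟨σ, hσ, hσσ⟩ := exists_frob hcard
    have hF0 := card_F0 hcard σ hσ hσσ
    classical
    letI : Fintype (σ.eqLocusField (RingHom.id F)) := Fintype.ofFinite _
    rw [Nat.card_eq_fintype_card] at hF0
    obtain ⟨ρ, hρ⟩ := sl2_not_law (F := σ.eqLocusField (RingHom.id F)) w hw (lt_of_lt_of_le hlt hF0)
    obtain ⟨c, c', ε, hc, hc', hcc', hε0, hε⟩ := exists_norm hcard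
    -- translate to `σ`
    have hc1 : c * σ c = -1 := by rw [hσ, ← hc]; ring
    have hc2 : c' * σ c' = -1 := by rw [hσ, ← hc']; ring
    have hc0 : c ≠ 0 := by
      rintro rfl
      simp at hc1
    have hc'0 : c' ≠ 0 := by
      rintro rfl
      simp at hc2
    have hε1 : σ ε = -ε := by rw [hσ, hε]
    set κ : F := 1 + c * σ c' with hκ
    have hκ0 : κ ≠ 0 := by
      intro h0
      apply hcc'
      have h1 : c' * κ = c' - c := by
        rw [hκ]
        linear_combination c * hc2
      rw [h0, mul_zero] at h1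
      exact (sub_eq_zero.mp h1.symm).symm
    set μ : F := σ (ε / κ) with hμdef
    have hμ0 : μ ≠ 0 := by
      intro h0
      have h1 : σ μ = 0 := by rw [h0, map_zero]
      rw [hμdef, hσσ] at h1
      exact (div_ne_zero hε0 hκ0) h1
    have hμ : σ μ * (1 + c * σ c') = ε := by
      rw [hμdef, hσσ, ← hκ]
      field_simp
    have hμ' : μ * (1 + c' * σ c) = -ε := by
      have h1 := congrArg σ hμ
      simp only [map_mul, map_add, map_one, hσσ, hε1] at h1
      rw [← h1]
      ring
    set d : F := μ * (c' - c) with hd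
    have hd0 : d ≠ 0 := mul_ne_zero hμ0 (sub_ne_zero.mpr (Ne.symm hcc'))
    set P : Matrix (Fin 2) (Fin 2) F := !![1, μ; c, μ * c'] with hP
    set P' : Matrix (Fin 2) (Fin 2) F := !![μ * c' / d, -μ / d; -c / d, 1 / d] with hP'
    have h12 : P * P' = 1 := by
      rw [hP, hP', Matrix.mul_fin_two, Matrix.one_fin_two]
      congr 2
      · ext i
        fin_cases i
        · simp only [Fin.zero_eta, Matrix.cons_val_zero]
          rw [hd]; field_simp [sub_ne_zero.mpr (Ne.symm hcc')]; ring
        · simp only [Fin.mk_one, Matrix.cons_val_one, Matrix.cons_val_zero]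
          ring
      · congr 1
        ext i
        fin_cases i
        · simp only [Fin.zero_eta, Matrix.cons_val_zero]
          ring
        · simp only [Fin.mk_one, Matrix.cons_val_one, Matrix.cons_val_zero]
          rw [hd]; field_simp [sub_ne_zero.mpr (Ne.symm hcc')]; ring
    have h21 : P' * P = 1 := mul_eq_one_comm.mp h12
    have hab : (⟨0, by omega⟩ : Fin n) ≠ ⟨1, by omega⟩ := by simp [Fin.ext_iff]
    let R : SL(2, σ.eqLocusField (RingHom.id F)) →* Matrix (Fin n) (Fin n) F :=
      (Mrep (blkEnd (F := F) _ _ hab)).comp ((slCoe F).comp ((conjSL P P' h12 h21).comp (inclF0 σ)))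
    have hdet : ∀ k, (R k).det = 1 := fun k => det_blk _ _ hab _
    have hinj : Function.Injective R :=
      (Mrep_injective _ (blkEnd_injective _ _ hab)).comp (slCoe_injective.comp ((conjSL_injective P P' h12 h21).comp (inclF0_injective σ)))
    have hf : ∀ k u v, Cfsg.hermForm n F q (R k *ᵥ u) (R k *ᵥ v) = Cfsg.hermForm n F q u v := by
      intro k u v
      set B : Matrix (Fin 2) (Fin 2) F := (inclF0 σ k).1 with hB
      show Cfsg.hermForm n F q (Mrep (blkEnd (F := F) _ _ hab) (P * B * P') *ᵥ u)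
        (Mrep (blkEnd (F := F) _ _ hab) (P * B * P') *ᵥ v) = _
      rw [Mrep_mulVec, Mrep_mulVec]
      have hBσ : ∀ i j, σ (B i j) = B i j := fun i j => (k.1 i j).2
      have hBdet : B 0 0 * B 1 1 - B 0 1 * B 1 0 = 1 := SL2.det_rel (inclF0 σ k)
      unfold Cfsg.hermForm
      apply sum_two _ _ _ _ hab
      · simp only [blkEnd_a, blkEnd_b, ← hσ]
        -- pass to two-vectors
        set a := (⟨0, by omega⟩ : Fin n)
        set b := (⟨1, by omega⟩ : Fin n)
        set uh : Fin 2 → F := ![u a, u b] with huh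
        set vh : Fin 2 → F := ![v a, v b] with hvh
        have hC : ∀ z : Fin 2 → F, (P * B * P') *ᵥ z = P *ᵥ (B *ᵥ (P' *ᵥ z)) := by
          intro z
          rw [mulVec_mulVec, mulVec_mulVec, mul_assoc]
        have hid : ∀ z : Fin 2 → F, P *ᵥ (P' *ᵥ z) = z := by
          intro z
          rw [mulVec_mulVec, h12, one_mulVec]
        have key : hform σ ((P * B * P') *ᵥ uh) ((P * B * P') *ᵥ vh) = hform σ uh vh := by
          rw [hC, hC, hform_P σ c c' ε μ hc1 hc2 hμ hμ', aform_map σ B hBσ hBdet, ← hform_P σ c c' ε μ hc1 hc2 hμ hμ', hid, hid]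
        simp only [hform, mulVec, dotProduct, Fin.sum_univ_two] at key
        simpa [huh, hvh] using key
      · intro i h1 h2
        rw [blkEnd_other _ _ _ _ _ _ h1 h2, blkEnd_other _ _ _ _ _ _ h1 h2]
    obtain ⟨f, hf'⟩ := no_law_of_embed (toSU R hdet hf) (toSU_injective R hdet hf hinj) w ρ hρ
    exact hf' (hlaw f)

end Frob

end Cfsg.Agent.Lib.KS2.Law
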