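import Mathlib
import Cfsg.Prelude.Def_Classical
import Cfsg.Agent.Lib.KS2.LawFam2
import Cfsg.Agent.Lib.KS2.LawFam3

/-!
The three families of orthogonal groups, and the order bound.
-/

set_option autoImplicit false
set_option linter.unusedSimpArgs false
set_option linter.unusedVariables false

namespace Cfsg.Agent.Lib.KS2.Law

open Matrix
open scoped MatrixGroups

variable {F : Type*} [Field F]

/-- The hyperbolic sum is preserved by the column representation. -/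
lemma orth_sum {ι : Type} [Fintype ι] [DecidableEq ι] {m : ℕ} (j : Fin m ⊕ Fin m → ι) (hj : Function.Injective j)
    (i₀ i₁ : Fin m) (hi : i₀ ≠ i₁)
    (h1 : j (Sum.inl i₀) ≠ j (Sum.inr i₁)) (h2 : j (Sum.inl i₀) ≠ j (Sum.inl i₁)) (h3 : j (Sum.inl i₀) ≠ j (Sum.inr i₀))
    (h4 : j (Sum.inr i₁) ≠ j (Sum.inl i₁)) (h5 : j (Sum.inr i₁) ≠ j (Sum.inr i₀)) (h6 : j (Sum.inl i₁) ≠ j (Sum.inr i₀))
    (A : SL(2, F)) (v : ι → F) :
    ∑ i, orthEnd _ _ _ _ h1 h2 h3 h4 h5 h6 (A : Matrix (Fin 2) (Fin 2) F) v (j (Sum.inl i)) *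
        orthEnd _ _ _ _ h1 h2 h3 h4 h5 h6 (A : Matrix (Fin 2) (Fin 2) F) v (j (Sum.inr i)) =
      ∑ i, v (j (Sum.inl i)) * v (j (Sum.inr i)) := by
  apply sum_two _ _ i₀ i₁ hi
  · rw [orthEnd_a0, orthEnd_b0, orthEnd_a1, orthEnd_b1]
    have hd := SL2.det_rel A
    linear_combination (v (j (Sum.inl i₀)) * v (j (Sum.inr i₀)) + v (j (Sum.inl i₁)) * v (j (Sum.inr i₁))) * hd
  · intro i h7 h8
    have e1 : ∀ (x y : Fin m ⊕ Fin m), x ≠ y → j x ≠ j y := fun x y h => fun h' => h (hj h')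
    have n1 : j (Sum.inl i) ≠ j (Sum.inl i₀) := e1 _ _ (by simpa using h7)
    have n2 : j (Sum.inl i) ≠ j (Sum.inr i₁) := e1 _ _ (by simp)
    have n3 : j (Sum.inl i) ≠ j (Sum.inl i₁) := e1 _ _ (by simpa using h8)
    have n4 : j (Sum.inl i) ≠ j (Sum.inr i₀) := e1 _ _ (by simp)
    have n5 : j (Sum.inr i) ≠ j (Sum.inl i₀) := e1 _ _ (by simp)
    have n6 : j (Sum.inr i) ≠ j (Sum.inr i₁) := e1 _ _ (by simpa using h8)
    have n7 : j (Sum.inr i) ≠ j (Sum.inl i₁) := e1 _ _ (by simp)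
    have n8 : j (Sum.inr i) ≠ j (Sum.inr i₀) := e1 _ _ (by simpa using h7)
    rw [orthEnd_other _ _ _ _ _ _ _ _ _ _ _ _ _ n1 n2 n3 n4, orthEnd_other _ _ _ _ _ _ _ _ _ _ _ _ _ n5 n6 n7 n8]

section Odd

variable (m : ℕ)

/-- The permutations of the odd-dimensional form. -/
def tauOdd : Equiv.Perm (Fin m) →* Equiv.Perm (Unit ⊕ (Fin m ⊕ Fin m)) where
  toFun σ := Equiv.sumCongr (Equiv.refl _) (Equiv.sumCongr σ σ)
  map_one' := by
    ext x
    rcases x with x | x | x <;> rfl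
  map_mul' a b := by
    ext x
    rcases x with x | x | x <;> rfl

lemma tauOdd_injective : Function.Injective (tauOdd m) := by
  intro a b h
  apply Equiv.ext
  intro x
  have := congrArg (fun τ : Equiv.Perm (Unit ⊕ (Fin m ⊕ Fin m)) => τ (Sum.inr (Sum.inl x))) h
  simpa [tauOdd] using this

theorem pomegaOdd_bound [Fintype F] (w : FreeGroup ℕ) (hw : w ≠ 1) (hm : 2 ≤ m)
    (hlaw : ∀ f : ℕ → Cfsg.POmega F (Cfsg.quadFormOdd m F), FreeGroup.lift f w = 1) :
    m < w.toWord.length + 5 ∧ Fintype.card F < Dw w.toWord + 4 := by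
  have hi : (⟨0, by omega⟩ : Fin m) ≠ ⟨1, by omega⟩ := by simp [Fin.ext_iff]
  have hinj : Function.Injective (fun x : Fin m ⊕ Fin m => (Sum.inr x : Unit ⊕ (Fin m ⊕ Fin m))) := Sum.inr_injective
  refine pomega_bound_gen w hw m _ (tauOdd m) (tauOdd_injective m) ?_
    (Sum.inr (Sum.inl ⟨0, by omega⟩)) (Sum.inr (Sum.inr ⟨1, by omega⟩)) (Sum.inr (Sum.inl ⟨1, by omega⟩)) (Sum.inr (Sum.inr ⟨0, by omega⟩))
    (by simp) (by simp [Fin.ext_iff]) (by simp) (by simp) (by simp [Fin.ext_iff]) (by simp) ?_ hlaw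
  · intro σ u
    simp only [Cfsg.quadFormOdd, permEnd_apply]
    congr 1
    exact Equiv.sum_comp (σ⁻¹) (fun i : Fin m => u (Sum.inr (Sum.inl i)) * u (Sum.inr (Sum.inr i)))
  · intro A u
    simp only [Cfsg.quadFormOdd]
    rw [orthEnd_other _ _ _ _ _ _ _ _ _ _ _ _ _ (by simp) (by simp) (by simp) (by simp)]
    congr 1
    exact orth_sum (fun x : Fin m ⊕ Fin m => (Sum.inr x : Unit ⊕ (Fin m ⊕ Fin m))) hinj _ _ hi _ _ _ _ _ _ A u

end Odd

section Plus

variable (m : ℕ)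

theorem pomegaPlus_bound [Fintype F] (w : FreeGroup ℕ) (hw : w ≠ 1) (hm : 2 ≤ m)
    (hlaw : ∀ f : ℕ → Cfsg.POmega F (Cfsg.quadFormPlus m F), FreeGroup.lift f w = 1) :
    m < w.toWord.length + 5 ∧ Fintype.card F < Dw w.toWord + 4 := by
  have hi : (⟨0, by omega⟩ : Fin m) ≠ ⟨1, by omega⟩ := by simp [Fin.ext_iff]
  refine pomega_bound_gen w hw m _ (dblHom (Fin m)) (dblHom_injective _) ?_
    (Sum.inl ⟨0, by omega⟩) (Sum.inr ⟨1, by omega⟩) (Sum.inl ⟨1, by omega⟩) (Sum.inr ⟨0, by omega⟩)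
    (by simp) (by simp [Fin.ext_iff]) (by simp) (by simp) (by simp [Fin.ext_iff]) (by simp) ?_ hlaw
  · intro σ u
    simp only [Cfsg.quadFormPlus, permEnd_apply]
    exact Equiv.sum_comp (σ⁻¹) (fun i : Fin m => u (Sum.inl i) * u (Sum.inr i))
  · intro A u
    simp only [Cfsg.quadFormPlus]
    exact orth_sum (fun x : Fin m ⊕ Fin m => x) Function.injective_id _ _ hi _ _ _ _ _ _ A u

end Plus

section Minus

variable (m : ℕ)

/-- The permutations of the minus-type form. -/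
def tauMinus : Equiv.Perm (Fin m) →* Equiv.Perm ((Fin m ⊕ Fin m) ⊕ Fin 2) where
  toFun σ := Equiv.sumCongr (Equiv.sumCongr σ σ) (Equiv.refl _)
  map_one' := by
    ext x
    rcases x with (x | x) | x <;> rfl
  map_mul' a b := by
    ext x
    rcases x with (x | x) | x <;> rfl

lemma tauMinus_injective : Function.Injective (tauMinus m) := by
  intro a b h
  apply Equiv.ext
  intro x
  have := congrArg (fun τ : Equiv.Perm ((Fin m ⊕ Fin m) ⊕ Fin 2) => τ (Sum.inl (Sum.inl x))) h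
  simpa [tauMinus] using this

theorem pomegaMinus_bound [Fintype F] (a b : F) (w : FreeGroup ℕ) (hw : w ≠ 1) (hm : 2 ≤ m)
    (hlaw : ∀ f : ℕ → Cfsg.POmega F (Cfsg.quadFormMinus m F a b), FreeGroup.lift f w = 1) :
    m < w.toWord.length + 5 ∧ Fintype.card F < Dw w.toWord + 4 := by
  have hi : (⟨0, by omega⟩ : Fin m) ≠ ⟨1, by omega⟩ := by simp [Fin.ext_iff]
  have hinj : Function.Injective (fun x : Fin m ⊕ Fin m => (Sum.inl x : (Fin m ⊕ Fin m) ⊕ Fin 2)) := Sum.inl_injective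
  refine pomega_bound_gen w hw m _ (tauMinus m) (tauMinus_injective m) ?_
    (Sum.inl (Sum.inl ⟨0, by omega⟩)) (Sum.inl (Sum.inr ⟨1, by omega⟩)) (Sum.inl (Sum.inl ⟨1, by omega⟩)) (Sum.inl (Sum.inr ⟨0, by omega⟩))
    (by simp) (by simp [Fin.ext_iff]) (by simp) (by simp) (by simp [Fin.ext_iff]) (by simp) ?_ hlaw
  · intro σ u
    simp only [Cfsg.quadFormMinus, permEnd_apply]
    congr 1
    exact Equiv.sum_comp (σ⁻¹) (fun i : Fin m => u (Sum.inl (Sum.inl i)) * u (Sum.inl (Sum.inr i)))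
  · intro A u
    simp only [Cfsg.quadFormMinus]
    rw [orthEnd_other _ _ _ _ _ _ _ _ _ _ _ _ (Sum.inr 0) (by simp) (by simp) (by simp) (by simp),
      orthEnd_other _ _ _ _ _ _ _ _ _ _ _ _ (Sum.inr 1) (by simp) (by simp) (by simp) (by simp)]
    congr 1
    exact orth_sum (fun x : Fin m ⊕ Fin m => (Sum.inl x : (Fin m ⊕ Fin m) ⊕ Fin 2)) hinj _ _ hi _ _ _ _ _ _ A u

end Minus

/-- The order of a quotient by an injection into matrices. -/
lemma card_quot_le {H : Type*} [Group H] [Finite H] {ι : Type} [Fintype ι] [DecidableEq ι] [Fintype F]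
    (f : H → Matrix ι ι F) (hf : Function.Injective f) (Z : Subgroup H) [Z.Normal] :
    Nat.card (H ⧸ Z) ≤ Fintype.card F ^ (Fintype.card ι * Fintype.card ι) := by
  have h1 : Nat.card (H ⧸ Z) ≤ Nat.card H :=
    Nat.card_le_card_of_surjective _ (QuotientGroup.mk'_surjective Z)
  have h2 : Nat.card H ≤ Nat.card (Matrix ι ι F) := Nat.card_le_card_of_injective f hf
  have h3 : Nat.card (Matrix ι ι F) = Fintype.card F ^ (Fintype.card ι * Fintype.card ι) := by
    have h4 : Nat.card (Matrix ι ι F) = Nat.card (ι → ι → F) := rfl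
    rw [h4, Nat.card_fun, Nat.card_fun, Nat.card_eq_fintype_card, Nat.card_eq_fintype_card, ← pow_mul]
  omega

end Cfsg.Agent.Lib.KS2.Law
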