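import Mathlib
import Cfsg.Agent.Lib.KS2.O79a

/-!
Groups of order 7920: elements inverting one Sylow subgroup and centralizing another; the transfer.
-/

set_option autoImplicit false
set_option linter.unusedSectionVars false
set_option linter.unusedVariables false

namespace Cfsg.Agent.Lib.KS2.O79

open Subgroup
open scoped commutatorElement

variable {G : Type*} [Group G] [Finite G]

section sylow

variable {p : ℕ} [hp : Fact p.Prime]

lemma mem_smul_sylow (g x : G) (P : Sylow p G) : x ∈ (g • P : Sylow p G) ↔ g⁻¹ * x * g ∈ P :=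
  Cfsg.Agent.Lib.PSolv.mem_conj_smul g x P

lemma stab_triv (hcard : ∀ P : Sylow p G, Nat.card P = p) (P P' : Sylow p G) (hne : P ≠ P') {w : G}
    (hw : w ∈ P) (hfix : w • P' = P') : w = 1 := by
  have h1 : w ∈ normalizer ((P' : Subgroup G) : Set G) := Sylow.smul_eq_iff_mem_normalizer.mp hfix
  have h2 : w ∈ (P : Subgroup G) ⊓ (P' : Subgroup G) := by
    rw [← IsPGroup.inf_normalizer_sylow P.isPGroup' P']
    exact ⟨hw, h1⟩
  by_contra hw1
  have ho : orderOf w = p := by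
    have h3 : orderOf w ∣ Nat.card P := Subgroup.orderOf_dvd_natCard _ hw
    rw [hcard] at h3
    rcases (Nat.dvd_prime hp.out).mp h3 with h4 | h4
    · exact (hw1 (orderOf_eq_one_iff.mp h4)).elim
    · exact h4
  have hz : Nat.card (zpowers w) = p := by rw [Nat.card_zpowers, ho]
  have e1 : zpowers w = (P : Subgroup G) := by
    apply Subgroup.eq_of_le_of_card_ge
    · rw [zpowers_le]
      exact h2.1
    · rw [hz, hcard]
  have e2 : zpowers w = (P' : Subgroup G) := by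
    apply Subgroup.eq_of_le_of_card_ge
    · rw [zpowers_le]
      exact h2.2
    · rw [hz, hcard]
  exact hne (Sylow.ext (e1.symm.trans e2))

lemma sq_eq_one_of (hp2 : p ≠ 2) (P : Subgroup G) (hcard : Nat.card P = p) {u : G} (hu : u ∈ P) (h : u * u = 1) : u = 1 := by
  have h1 : orderOf u ∣ p := by
    rw [← hcard]
    exact Subgroup.orderOf_dvd_natCard _ hu
  have h2 : orderOf u ∣ 2 := orderOf_dvd_of_pow_eq_one (by rw [sq, h])
  have h3 : Nat.Coprime p 2 := (Nat.coprime_primes hp.out Nat.prime_two).mpr hp2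
  have h4 : orderOf u ∣ Nat.gcd p 2 := Nat.dvd_gcd h1 h2
  rw [h3.gcd_eq_one] at h4
  exact orderOf_eq_one_iff.mp (Nat.dvd_one.mp h4)

lemma comm_of_prime (P : Subgroup G) (hcard : Nat.card P = p) {a b : G} (ha : a ∈ P) (hb : b ∈ P) : a * b = b * a := by
  have hcyc : IsCyclic P := isCyclic_of_prime_card hcard
  have hB : IsMulCommutative P := IsCyclic.isMulCommutative
  exact congrArg Subtype.val (hB.is_comm.comm ⟨a, ha⟩ ⟨b, hb⟩)

lemma card_ne_one_subtype {X : Type*} [Group X] [Finite X] : Nat.card {v : X // v ≠ 1} = Nat.card X - 1 := by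
  classical
  haveI : Fintype X := Fintype.ofFinite X
  simp only [Nat.card_eq_fintype_card]
  rw [Fintype.card_subtype_compl]
  simp

/-- An element cannot invert a Sylow subgroup of prime order and centralize another one, if there are few of them. -/
theorem not_inv_cen (hcard : ∀ P : Sylow p G, Nat.card P = p) (hp2 : p ≠ 2)
    (hΩ : Nat.card (Sylow p G) < p * (p - 1)) (c : G) (Q₁ Q₂ : Sylow p G)
    (h1 : ∀ u ∈ Q₁, c * u * c⁻¹ = u⁻¹) (h2 : ∀ u ∈ Q₂, c * u * c⁻¹ = u) : False := by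
  classical
  have hc1 : c • Q₁ = Q₁ := by
    apply Sylow.ext
    apply Subgroup.eq_of_le_of_card_ge
    · intro x hx
      have h3 : c⁻¹ * x * c ∈ Q₁ := (mem_smul_sylow c x Q₁).mp hx
      have e := h1 _ h3
      have h4 : x = (c⁻¹ * x * c)⁻¹ := by
        rw [← e]
        group
      rw [h4]
      exact (Q₁ : Subgroup G).inv_mem h3
    · rw [hcard, hcard]
  have hne : Q₂ ≠ Q₁ := by
    intro h
    have : Nontrivial (Q₁ : Subgroup G) := by
      apply Finite.one_lt_card_iff_nontrivial.mp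
      rw [hcard]
      exact hp.out.one_lt
    obtain ⟨⟨u, hu⟩, hu1⟩ := exists_ne (1 : (Q₁ : Subgroup G))
    have e1 := h1 u hu
    have e2 := h2 u (h ▸ hu)
    rw [e2] at e1
    apply hu1
    apply Subtype.ext
    apply sq_eq_one_of hp2 (Q₁ : Subgroup G) (hcard Q₁) hu
    calc u * u = u⁻¹ * u := by rw [← e1]
      _ = 1 := by group
  let Φ : ↥(Q₁ : Subgroup G) × {v : ↥(Q₂ : Subgroup G) // v ≠ 1} → Sylow p G :=
    fun a => (a.1 : G) • ((a.2.1 : G) • Q₁)
  have hinj : Function.Injective Φ := by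
    rintro ⟨⟨u, hu⟩, ⟨⟨v, hv⟩, hv1⟩⟩ ⟨⟨u', hu'⟩, ⟨⟨v', hv'⟩, hv1'⟩⟩ h
    have h : u • v • Q₁ = u' • v' • Q₁ := h
    have hv0 : v ≠ 1 := fun h0 => hv1 (Subtype.ext h0)
    have hfix : ∀ {v₀ : G}, v₀ ∈ Q₂ → c • v₀ • Q₁ = v₀ • Q₁ := by
      intro v₀ hv₀
      have e := h2 v₀ hv₀
      have e' : c * v₀ = v₀ * c := mul_inv_eq_iff_eq_mul.mp e
      rw [smul_smul, e', mul_smul, hc1]
    have hact : ∀ {u₀ : G} (ω : Sylow p G), u₀ ∈ Q₁ → c • ω = ω → c • u₀ • ω = u₀⁻¹ • ω := by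
      intro u₀ ω hu₀ hω
      have e := h1 u₀ hu₀
      have e' : c * u₀ = u₀⁻¹ * c := mul_inv_eq_iff_eq_mul.mp e
      rw [smul_smul, e', mul_smul, hω]
    have hω1 : (v • Q₁) ≠ Q₁ := by
      intro h0
      exact hv0 (stab_triv hcard Q₂ Q₁ hne hv h0)
    have h3 := congrArg (fun ω => c • ω) h
    rw [hact _ hu (hfix hv), hact _ hu' (hfix hv')] at h3
    -- express `v' • Q₁` through `v • Q₁`
    have h4 : v' • Q₁ = (u'⁻¹ * u) • (v • Q₁) := by
      rw [mul_smul, h, inv_smul_smul]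
    rw [h4] at h3
    have h5 : (u * u'⁻¹ * u'⁻¹ * u) • (v • Q₁) = v • Q₁ := by
      have e6 : u * u'⁻¹ * u'⁻¹ * u = u * (u'⁻¹ * (u'⁻¹ * u)) := by group
      rw [e6, mul_smul, mul_smul u'⁻¹, ← h3, smul_inv_smul]
    have hw : u * u'⁻¹ * u'⁻¹ * u ∈ (Q₁ : Subgroup G) :=
      (Q₁ : Subgroup G).mul_mem ((Q₁ : Subgroup G).mul_mem ((Q₁ : Subgroup G).mul_mem hu ((Q₁ : Subgroup G).inv_mem hu')) ((Q₁ : Subgroup G).inv_mem hu')) hu
    have h7 := stab_triv hcard Q₁ (v • Q₁) (Ne.symm hω1) hw h5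
    have he : (u * u'⁻¹) * (u * u'⁻¹) = 1 := by
      have hcm : u'⁻¹ * u = u * u'⁻¹ := comm_of_prime (Q₁ : Subgroup G) (hcard Q₁) ((Q₁ : Subgroup G).inv_mem hu') hu
      calc (u * u'⁻¹) * (u * u'⁻¹) = u * (u'⁻¹ * u) * u'⁻¹ := by group
        _ = u * (u * u'⁻¹) * u'⁻¹ := by rw [hcm]
        _ = u * (u'⁻¹ * u) * u'⁻¹ := by rw [hcm]
        _ = u * u'⁻¹ * (u * u'⁻¹) := by group
        _ = u * u'⁻¹ * (u'⁻¹ * u) := by rw [hcm]
        _ = u * u'⁻¹ * u'⁻¹ * u := by group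
        _ = 1 := h7
    have h8 : u * u'⁻¹ = 1 := sq_eq_one_of hp2 (Q₁ : Subgroup G) (hcard Q₁)
      ((Q₁ : Subgroup G).mul_mem hu ((Q₁ : Subgroup G).inv_mem hu')) he
    have huu : u = u' := mul_inv_eq_one.mp h8
    subst huu
    have h9 : v • Q₁ = v' • Q₁ := smul_left_cancel _ h
    have h10 : (v'⁻¹ * v) • Q₁ = Q₁ := by
      rw [mul_smul, h9, inv_smul_smul]
    have h11 := stab_triv hcard Q₂ Q₁ hne ((Q₂ : Subgroup G).mul_mem ((Q₂ : Subgroup G).inv_mem hv') hv) h10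
    have hvv : v' = v := by
      have := inv_mul_eq_one.mp h11
      exact this
    subst hvv
    rfl
  have hle := Nat.card_le_card_of_injective Φ hinj
  rw [Nat.card_prod, card_ne_one_subtype, hcard Q₁, hcard Q₂] at hle
  omega

end sylow

section transfer

variable {p : ℕ} [hp : Fact p.Prime]

/-- The sign of an element of the normalizer. -/
noncomputable def sgnHom (Q : Subgroup G)
    (hdich : ∀ h ∈ normalizer (Q : Set G), (∀ u ∈ Q, h * u * h⁻¹ = u) ∨ (∀ u ∈ Q, h * u * h⁻¹ = u⁻¹))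
    (hne : ∃ u ∈ Q, u ≠ u⁻¹) : normalizer (Q : Set G) →* ℤˣ := by
  classical
  refine MonoidHom.mk' (fun h => if (∀ u ∈ Q, (h : G) * u * (h : G)⁻¹ = u) then 1 else -1) ?_
  have hex : ∀ h : G, (∀ u ∈ Q, h * u * h⁻¹ = u⁻¹) → ¬ (∀ u ∈ Q, h * u * h⁻¹ = u) := by
    intro h h1 h2
    obtain ⟨u, hu, hu1⟩ := hne
    exact hu1 ((h2 u hu).symm.trans (h1 u hu))
  have hc : ∀ (a b u : G), (a * b) * u * (a * b)⁻¹ = a * (b * u * b⁻¹) * a⁻¹ := by
    intro a b u
    group
  have hi : ∀ (a u : G), a * u⁻¹ * a⁻¹ = (a * u * a⁻¹)⁻¹ := by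
    intro a u
    group
  intro a b
  have ha := hdich a a.2
  have hb := hdich b b.2
  have hab : ((a * b : normalizer (Q : Set G)) : G) = (a : G) * (b : G) := rfl
  simp only [hab]
  by_cases h1 : ∀ u ∈ Q, (a : G) * u * (a : G)⁻¹ = u
  · by_cases h2 : ∀ u ∈ Q, (b : G) * u * (b : G)⁻¹ = u
    · have h3 : ∀ u ∈ Q, ((a : G) * b) * u * ((a : G) * b)⁻¹ = u := by
        intro u hu
        rw [hc, h2 u hu, h1 u hu]
      rw [if_pos h3, if_pos h1, if_pos h2, one_mul]
    · have hb' := hb.resolve_left h2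
      have h3 : ¬ ∀ u ∈ Q, ((a : G) * b) * u * ((a : G) * b)⁻¹ = u := by
        apply hex
        intro u hu
        rw [hc, hb' u hu, hi, h1 u hu]
      rw [if_neg h3, if_pos h1, if_neg h2, one_mul]
  · have ha' := ha.resolve_left h1
    by_cases h2 : ∀ u ∈ Q, (b : G) * u * (b : G)⁻¹ = u
    · have h3 : ¬ ∀ u ∈ Q, ((a : G) * b) * u * ((a : G) * b)⁻¹ = u := by
        apply hex
        intro u hu
        rw [hc, h2 u hu, ha' u hu]
      rw [if_neg h3, if_neg h1, if_pos h2, mul_one]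
    · have hb' := hb.resolve_left h2
      have h3 : ∀ u ∈ Q, ((a : G) * b) * u * ((a : G) * b)⁻¹ = u := by
        intro u hu
        rw [hc, hb' u hu, hi, ha' u hu, inv_inv]
      rw [if_pos h3, if_neg h1, if_neg h2]
      simp

lemma sgnHom_apply (Q : Subgroup G) (hdich) (hne) (h : normalizer (Q : Set G)) [Decidable (∀ u ∈ Q, (h : G) * u * (h : G)⁻¹ = u)] :
    sgnHom Q hdich hne h = if (∀ u ∈ Q, (h : G) * u * (h : G)⁻¹ = u) then 1 else -1 := by
  unfold sgnHom
  simp only [MonoidHom.mk'_apply]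
  congr

lemma cen_even (Q : Subgroup G) {t : G} (ht : ∀ u ∈ Q, t * u * t⁻¹ = u⁻¹) (k : ℕ) :
    ∀ u ∈ Q, t ^ (2 * k) * u * (t ^ (2 * k))⁻¹ = u := by
  induction k with
  | zero =>
    intro u _
    simp
  | succ k ih =>
    intro u hu
    have e : t ^ (2 * (k + 1)) = t ^ (2 * k) * t * t := by
      rw [mul_add, pow_add, mul_one, sq, mul_assoc]
    rw [e]
    have e2 : t ^ (2 * k) * t * t * u * (t ^ (2 * k) * t * t)⁻¹ = t ^ (2 * k) * (t * (t * u * t⁻¹) * t⁻¹) * (t ^ (2 * k))⁻¹ := by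
      group
    rw [e2, ht u hu]
    have e3 : t * u⁻¹ * t⁻¹ = (t * u * t⁻¹)⁻¹ := by group
    rw [e3, ht u hu, inv_inv]
    exact ih u hu

/-- The transfer argument. -/
theorem transfer_contra (Q : Sylow p G)
    (hdich : ∀ h ∈ normalizer ((Q : Subgroup G) : Set G), (∀ u ∈ (Q : Subgroup G), h * u * h⁻¹ = u) ∨ (∀ u ∈ (Q : Subgroup G), h * u * h⁻¹ = u⁻¹))
    (hne : ∃ u ∈ (Q : Subgroup G), u ≠ u⁻¹)
    (hexcl : ∀ (c : G) (Q₁ Q₂ : Sylow p G), (∀ u ∈ Q₁, c * u * c⁻¹ = u⁻¹) → (∀ u ∈ Q₂, c * u * c⁻¹ = u) → False)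
    (hodd : Odd (normalizer ((Q : Subgroup G) : Set G)).index)
    (t : G) (e : ℕ) (hte : t ^ (2 ^ e) = 1) (htinv : ∀ u ∈ (Q : Subgroup G), t * u * t⁻¹ = u⁻¹)
    (htc : t ∈ commutator G) : False := by
  classical
  set H : Subgroup G := normalizer ((Q : Subgroup G) : Set G) with hH
  let ϕ : H →* ℤˣ := sgnHom (Q : Subgroup G) hdich hne
  haveI : Fintype (Quotient (MulAction.orbitRel (zpowers t) (G ⧸ H))) := Fintype.ofFinite _
  have hV1 : MonoidHom.transfer ϕ t = 1 := by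
    have := Abelianization.commutator_subset_ker (MonoidHom.transfer ϕ) htc
    exact this
  have hV2 := MonoidHom.transfer_eq_prod_quotient_orbitRel_zpowers_quot ϕ t
  have hper : ∀ ω : G ⧸ H, Function.IsPeriodicPt (t • ·) (2 ^ e) ω := by
    intro ω
    unfold Function.IsPeriodicPt Function.IsFixedPt
    simp only [smul_iterate, hte, one_smul]
  have hpos : ∀ ω : G ⧸ H, 0 < Function.minimalPeriod (t • ·) ω := by
    intro ω
    exact (hper ω).minimalPeriod_pos (by positivity)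
  have hfactor : ∀ q : Quotient (MulAction.orbitRel (zpowers t) (G ⧸ H)),
      ϕ ⟨q.out.out⁻¹ * t ^ Function.minimalPeriod (t • ·) q.out * q.out.out,
        QuotientGroup.out_conj_pow_minimalPeriod_mem H t q.out⟩ = (-1) ^ Function.minimalPeriod (t • ·) q.out := by
    intro q
    set n := Function.minimalPeriod (t • ·) q.out with hn
    set y := q.out.out with hy
    have hmem : y⁻¹ * t ^ n * y ∈ H := QuotientGroup.out_conj_pow_minimalPeriod_mem H t q.out
    have hdvd : n ∣ 2 ^ e := (hper q.out).minimalPeriod_dvd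
    obtain ⟨i, _, hi⟩ := (Nat.dvd_prime_pow Nat.prime_two).mp hdvd
    rcases i with _ | i
    · -- fixed point
      have hn1 : n = 1 := by rw [hi, pow_zero]
      have hnc : ¬ ∀ u ∈ (Q : Subgroup G), (y⁻¹ * t ^ n * y) * u * (y⁻¹ * t ^ n * y)⁻¹ = u := by
        intro hcen
        apply hexcl t Q (y • Q) htinv
        intro x hx
        have hx' : y⁻¹ * x * y ∈ Q := (mem_smul_sylow y x Q).mp hx
        have h3 := hcen _ hx'
        rw [hn1, pow_one] at h3
        have h4 : y⁻¹ * t * y * (y⁻¹ * x * y) * (y⁻¹ * t * y)⁻¹ = y⁻¹ * (t * x * t⁻¹) * y := by group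
        rw [h4] at h3
        have h5 := mul_right_cancel h3
        exact mul_left_cancel h5
      have e1 : ϕ ⟨y⁻¹ * t ^ n * y, hmem⟩ = -1 := by
        simp only [ϕ]
        rw [sgnHom_apply]
        rw [if_neg hnc]
      rw [e1]
      change (-1 : ℤˣ) = (-1) ^ n
      rw [hn1, pow_one]
    · -- even period
      have hn2 : n = 2 * 2 ^ i := by rw [hi, pow_succ, mul_comm]
      have hcent := cen_even (Q : Subgroup G) htinv (2 ^ i)
      rw [← hn2] at hcent
      have hcc : ∀ u ∈ (Q : Subgroup G), (y⁻¹ * t ^ n * y) * u * (y⁻¹ * t ^ n * y)⁻¹ = u := by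
        by_contra hcon
        have hinv := (hdich _ hmem).resolve_left hcon
        apply hexcl (y⁻¹ * t ^ n * y) Q (y⁻¹ • Q) hinv
        intro x hx
        have hx' : y⁻¹⁻¹ * x * y⁻¹ ∈ Q := (mem_smul_sylow y⁻¹ x Q).mp hx
        rw [inv_inv] at hx'
        have h3 := hcent _ hx'
        have h4 : y⁻¹ * t ^ n * y * x * (y⁻¹ * t ^ n * y)⁻¹ = y⁻¹ * (t ^ n * (y * x * y⁻¹) * (t ^ n)⁻¹) * y := by group
        rw [h4, h3]
        group
      have e1 : ϕ ⟨y⁻¹ * t ^ n * y, hmem⟩ = 1 := by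
        simp only [ϕ]
        rw [sgnHom_apply]
        rw [if_pos hcc]
      rw [e1]
      change (1 : ℤˣ) = (-1) ^ n
      rw [hn2, pow_mul]
      simp
  have hsum : ∑ q : Quotient (MulAction.orbitRel (zpowers t) (G ⧸ H)), Function.minimalPeriod (t • ·) q.out = H.index := by
    haveI : ∀ q : MulAction.orbitRel.Quotient (zpowers t) (G ⧸ H), Finite (ZMod (Function.minimalPeriod (t • ·) q.out)) := by
      intro q
      haveI : NeZero (Function.minimalPeriod (t • ·) q.out) := ⟨(hpos _).ne'⟩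
      infer_instance
    have h1 := Nat.card_congr (Subgroup.quotientEquivSigmaZMod H t)
    rw [Nat.card_sigma] at h1
    simp only [Nat.card_zmod] at h1
    exact h1.symm
  have hprod : MonoidHom.transfer ϕ t = (-1) ^ H.index := by
    rw [hV2, ← hsum, ← Finset.prod_pow_eq_pow_sum]
    exact Finset.prod_congr rfl fun q _ => hfactor q
  rw [hV1, hodd.neg_one_pow] at hprod
  exact absurd hprod (by decide)

end transfer

section dich

variable {p : ℕ} [hp : Fact p.Prime]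

/-- Elements acting with square one. -/
lemma dich_of (Q : Subgroup G) (hQ : Nat.card Q = p) {h : G} (hh : h ∈ normalizer (Q : Set G))
    (h2 : ∀ u ∈ Q, h * (h * u * h⁻¹) * h⁻¹ = u) : (∀ u ∈ Q, h * u * h⁻¹ = u) ∨ (∀ u ∈ Q, h * u * h⁻¹ = u⁻¹) := by
  classical
  have hmemQ : ∀ u ∈ Q, h * u * h⁻¹ ∈ Q := fun u hu => (mem_normalizer_iff.mp hh u).mp hu
  by_cases hex : ∃ u₀ ∈ Q, u₀ ≠ 1 ∧ h * u₀ * h⁻¹ = u₀
  · left
    obtain ⟨u₀, hu₀, hne, hfix⟩ := hex
    intro u hu
    let F : Subgroup Q := (centralizer ({h} : Set G)).subgroupOf Q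
    have hF : F = ⊥ ∨ F = ⊤ := by
      haveI : Fact (Nat.card Q).Prime := by rw [hQ]; exact hp
      exact Subgroup.eq_bot_or_eq_top_of_prime_card F
    have hu₀F : (⟨u₀, hu₀⟩ : Q) ∈ F := by
      rw [mem_subgroupOf, mem_centralizer_iff]
      intro x hx
      rw [Set.mem_singleton_iff] at hx
      subst hx
      exact (mul_inv_eq_iff_eq_mul.mp hfix)
    rcases hF with hF | hF
    · rw [hF, mem_bot] at hu₀F
      exact (hne (congrArg Subtype.val hu₀F)).elim
    · have huF : (⟨u, hu⟩ : Q) ∈ F := by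
        rw [hF]
        exact mem_top _
      rw [mem_subgroupOf, mem_centralizer_iff] at huF
      have := huF h rfl
      exact mul_inv_eq_iff_eq_mul.mpr this
  · right
    push Not at hex
    intro u hu
    have hw : u * (h * u * h⁻¹) ∈ Q := Q.mul_mem hu (hmemQ u hu)
    by_contra hcon
    have hw1 : u * (h * u * h⁻¹) ≠ 1 := by
      intro h1
      exact hcon (eq_inv_of_mul_eq_one_right h1)
    apply hex _ hw hw1
    have e : h * (u * (h * u * h⁻¹)) * h⁻¹ = (h * u * h⁻¹) * (h * (h * u * h⁻¹) * h⁻¹) := by group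
    rw [e, h2 u hu]
    exact comm_of_prime Q hQ (hmemQ u hu) hu

/-- The action on a subgroup of prime order has bounded order. -/
lemma act_sq (Q : Subgroup G) (hQ : Nat.card Q = p) {h : G} (hh : h ∈ normalizer (Q : Set G)) (d : ℕ)
    (hd : Nat.gcd (Nat.card (normalizer (Q : Set G))) (p - 1) ∣ d) :
    ∀ u ∈ Q, (MulAut.conj (h ^ d)) u = u := by
  classical
  have hcyc : IsCyclic Q := isCyclic_of_prime_card hQ
  let α := Q.normalizerMonoidHom ⟨h, hh⟩
  have h1 : α ^ Nat.card (normalizer (Q : Set G)) = 1 := by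
    simp only [α]
    rw [← map_pow, pow_card_eq_one', map_one]
  have h2 : α ^ (p - 1) = 1 := by
    have := pow_card_eq_one' (x := α)
    rw [hcyc.card_mulAut, hQ, Nat.totient_prime hp.out] at this
    exact this
  have h3 : α ^ Nat.gcd (Nat.card (normalizer (Q : Set G))) (p - 1) = 1 := pow_gcd_eq_one.mpr ⟨h1, h2⟩
  have h4 : α ^ d = 1 := by
    obtain ⟨k, rfl⟩ := hd
    rw [pow_mul, h3, one_pow]
  intro u hu
  have h5 : (Q.normalizerMonoidHom (⟨h, hh⟩ ^ d)) ⟨u, hu⟩ = ⟨u, hu⟩ := by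
    rw [map_pow]
    change (α ^ d) ⟨u, hu⟩ = ⟨u, hu⟩
    rw [h4]
    rfl
  have h6 := congrArg Subtype.val h5
  exact h6

end dich

end Cfsg.Agent.Lib.KS2.O79
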