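import Mathlib
import Cfsg.Agent.Lib.KS2.O79b
import Cfsg.Agent.Lib.Char.Burnside

/-!
Groups of order 7920 with disconnected prime graph: the proof.
-/

set_option autoImplicit false
set_option linter.unusedSectionVars false
set_option linter.unusedVariables false

namespace Cfsg.Agent.Lib.KS2.O79

open Subgroup
open scoped commutatorElement

variable {G : Type*} [Group G] [Finite G]

lemma card_sylow_eq {X : Type*} [Group X] [Finite X] {n p k m : ℕ} [hp : Fact p.Prime] (hn : Nat.card X = n)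
    (P : Sylow p X) (he : n = p ^ k * m) (hm : ¬ p ∣ m) (hn0 : n ≠ 0) : Nat.card P = p ^ k := by
  have h := P.card_eq_multiplicity
  have hm0 : m ≠ 0 := by
    rintro rfl
    exact hm (dvd_zero _)
  have e : (Nat.card X).factorization p = k := by
    rw [hn, he, Nat.factorization_mul (pow_ne_zero _ hp.out.ne_zero) hm0, Nat.factorization_pow]
    simp [Nat.factorization_eq_zero_of_not_dvd hm, hp.out.factorization_self]
  rw [h, e]

/-- Partitions of the prime graph. -/
structure Part (G : Type*) [Group G] (A : Set ℕ) : Prop where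
  ha : ∃ a, a ∈ A ∧ (a = 2 ∨ a = 3 ∨ a = 5 ∨ a = 11)
  hb : ∃ b, b ∉ A ∧ (b = 2 ∨ b = 3 ∨ b = 5 ∨ b = 11)
  hno : ∀ p q, p ∈ A → q ∉ A → (p = 2 ∨ p = 3 ∨ p = 5 ∨ p = 11) → (q = 2 ∨ q = 3 ∨ q = 5 ∨ q = 11) → ¬ Adj G p q

lemma Part.same {A : Set ℕ} (hP : Part G A) {p q : ℕ} (hp : p = 2 ∨ p = 3 ∨ p = 5 ∨ p = 11)
    (hq : q = 2 ∨ q = 3 ∨ q = 5 ∨ q = 11) (h : Adj G p q) : p ∈ A ↔ q ∈ A := by
  constructor
  · intro hpA
    by_contra hqA
    exact hP.hno p q hpA hqA hp hq h
  · intro hqA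
    by_contra hpA
    apply hP.hno q p hqA hpA hq hp
    obtain ⟨g, hg⟩ := h
    exact ⟨g, by rw [hg, mul_comm]⟩

lemma Part.conn_false {A : Set ℕ} (hP : Part G A) (h1 : 2 ∈ A ↔ 11 ∈ A) (h2 : 3 ∈ A ↔ 11 ∈ A) (h3 : 5 ∈ A ↔ 11 ∈ A) : False := by
  obtain ⟨a, ha, ha'⟩ := hP.ha
  obtain ⟨b, hb, hb'⟩ := hP.hb
  have h4 : 11 ∈ A := by
    rcases ha' with rfl | rfl | rfl | rfl
    · exact h1.mp ha
    · exact h2.mp ha
    · exact h3.mp ha
    · exact ha
  rcases hb' with rfl | rfl | rfl | rfl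
  · exact hb (h1.mpr h4)
  · exact hb (h2.mpr h4)
  · exact hb (h3.mpr h4)
  · exact hb h4

lemma exists_prime_dvd_order {y : G} (hy : y ≠ 1) : ∃ r : ℕ, r.Prime ∧ r ∣ orderOf y := by
  apply Nat.exists_prime_and_dvd
  intro h
  exact hy (orderOf_eq_one_iff.mp h)

lemma prime_dvd_order_of_mem_sylow {p : ℕ} [hp : Fact p.Prime] (S : Subgroup G) (hS : IsPGroup p S) {g : G} (hg : g ∈ S) (hg1 : g ≠ 1) :
    p ∣ orderOf g := by
  obtain ⟨k, hk⟩ := hS ⟨g, hg⟩
  have hk' : g ^ p ^ k = 1 := congrArg Subtype.val hk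
  obtain ⟨i, _, hi⟩ := (Nat.dvd_prime_pow hp.out).mp (orderOf_dvd_of_pow_eq_one hk')
  have h6 : i ≠ 0 := by
    intro h0
    rw [h0, pow_zero, orderOf_eq_one_iff] at hi
    exact hg1 hi
  rw [hi]
  exact dvd_pow_self _ h6

/-- The isolated prime. -/
lemma iso5_dvd (hord : Nat.card G = 7920) (hiso : ∀ q, (q = 2 ∨ q = 3 ∨ q = 11) → ¬ Adj G 5 q)
    (K : Subgroup G) [hK : K.Normal] (h5 : ¬ 5 ∣ Nat.card K) (S : Sylow 5 G) : 5 ∣ Nat.card K - 1 := by
  haveI : Fact (Nat.Prime 5) := ⟨Nat.prime_five⟩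
  have hS : Nat.card S = 5 := by
    have := card_sylow_eq (k := 1) (m := 1584) hord S (by norm_num) (by norm_num) (by norm_num)
    simpa using this
  rw [← hS]
  apply card_dvd_sub_one
  intro g hg hg1 y hy hy1 hc
  obtain ⟨r, hr, hry⟩ := exists_prime_dvd_order hy1
  have hrK : r ∣ Nat.card K := hry.trans (Subgroup.orderOf_dvd_natCard K hy)
  have hr7920 : r ∣ 7920 := by
    rw [← hord]
    exact hrK.trans (Subgroup.card_subgroup_dvd_card K)
  have hg5 : 5 ∣ orderOf g := prime_dvd_order_of_mem_sylow (S : Subgroup G) S.isPGroup' hg hg1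
  have hne : 5 ≠ r := by
    rintro rfl
    exact h5 hrK
  have hadj : Adj G 5 r := adj_of_commute Nat.prime_five hr hne hc hg5 hry
  rcases prime_dvd_7920 hr hr7920 with rfl | rfl | rfl | rfl
  · exact hiso 2 (Or.inl rfl) hadj
  · exact hiso 3 (Or.inr (Or.inl rfl)) hadj
  · exact hne rfl
  · exact hiso 11 (Or.inr (Or.inr rfl)) hadj

/-- The case of a normal subgroup of order eleven. -/
lemma case_eleven (hord : Nat.card G = 7920) (hiso : ∀ q, (q = 2 ∨ q = 3 ∨ q = 11) → ¬ Adj G 5 q)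
    (N : Subgroup G) [hN : N.Normal] (hcN : Nat.card N = 11) : False := by
  classical
  haveI : Fact (Nat.Prime 5) := ⟨Nat.prime_five⟩
  haveI : Fact (Nat.Prime 11) := ⟨by norm_num⟩
  have h1 := card_normalizer_dvd N hcN
  rw [normalizer_eq_top_iff.mpr hN] at h1
  rw [inf_top_eq, Subgroup.card_top, hord] at h1
  set C := centralizer (N : Set G) with hC
  have hCn : C.Normal := Subgroup.normal_centralizer
  have h5 : ¬ 5 ∣ Nat.card C := by
    intro h
    obtain ⟨z, hz⟩ := exists_prime_orderOf_dvd_card' (G := C) 5 h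
    have hne : Nontrivial N := by
      apply Finite.one_lt_card_iff_nontrivial.mp
      rw [hcN]
      norm_num
    obtain ⟨⟨y, hy⟩, hy1⟩ := exists_ne (1 : N)
    have hy1' : y ≠ 1 := fun h0 => hy1 (Subtype.ext h0)
    have hyo : 11 ∣ orderOf y := by
      have h2 : orderOf y ∣ 11 := by
        rw [← hcN]
        exact Subgroup.orderOf_dvd_natCard N hy
      rcases (Nat.dvd_prime (by norm_num)).mp h2 with h3 | h3
      · exact (hy1' (orderOf_eq_one_iff.mp h3)).elim
      · rw [h3]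
    have hc : Commute (z : G) y := (z.2 y hy).symm
    have hzo : 5 ∣ orderOf (z : G) := by
      rw [Subgroup.orderOf_coe, hz]
    exact hiso 11 (Or.inr (Or.inr rfl)) (adj_of_commute Nat.prime_five (by norm_num) (by norm_num) hc hzo hyo)
  obtain ⟨S⟩ : Nonempty (Sylow 5 G) := inferInstance
  have h2 := iso5_dvd hord hiso C h5 S
  have h3 : Nat.card C ∣ 7920 := by
    rw [← hord]
    exact Subgroup.card_subgroup_dvd_card C
  obtain ⟨m, hm⟩ := h3
  have hc0 : 0 < Nat.card C := Nat.card_pos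
  have h4 : m ∣ 10 := by
    have h6 : (11 - 1) = 10 := rfl
    rw [hm] at h1
    exact Nat.dvd_of_mul_dvd_mul_left hc0 h1
  have hm10 : m ≤ 10 := Nat.le_of_dvd (by norm_num) h4
  interval_cases m <;> first | omega | (exfalso; revert h4; decide)

/-- The case of a normal Sylow 2-subgroup. -/
lemma case_sixteen (hord : Nat.card G = 7920) (hiso : ∀ q, (q = 2 ∨ q = 3 ∨ q = 11) → ¬ Adj G 5 q)
    (N : Subgroup G) [hN : N.Normal] (hcN : Nat.card N = 16) : False := by
  classical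
  haveI : Fact (Nat.Prime 5) := ⟨Nat.prime_five⟩
  have hH : Nat.card (G ⧸ N) = 495 := by
    have h1 := Subgroup.card_eq_card_quotient_mul_card_subgroup N
    rw [hord, hcN] at h1
    omega
  obtain ⟨P⟩ : Nonempty (Sylow 5 (G ⧸ N)) := inferInstance
  have hPc : Nat.card P = 5 := by
    have := card_sylow_eq (k := 1) (m := 99) hH P (by norm_num) (by norm_num) (by norm_num)
    simpa using this
  have h2 := card_normalizer_dvd (P : Subgroup (G ⧸ N)) hPc
  have hnorm : normalizer ((P : Subgroup (G ⧸ N)) : Set (G ⧸ N)) ≤ centralizer ((P : Subgroup (G ⧸ N)) : Set (G ⧸ N)) := by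
    have h3 : Nat.card (normalizer ((P : Subgroup (G ⧸ N)) : Set (G ⧸ N))) ∣ 495 := by
      rw [← hH]
      exact Subgroup.card_subgroup_dvd_card _
    have h4 : Nat.Coprime (Nat.card (normalizer ((P : Subgroup (G ⧸ N)) : Set (G ⧸ N)))) (5 - 1) :=
      Nat.Coprime.coprime_dvd_left h3 (by norm_num)
    have h5 := h4.dvd_of_dvd_mul_right h2
    have h6 : centralizer ((P : Subgroup (G ⧸ N)) : Set (G ⧸ N)) ⊓ normalizer ((P : Subgroup (G ⧸ N)) : Set (G ⧸ N)) =
        normalizer ((P : Subgroup (G ⧸ N)) : Set (G ⧸ N)) := by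
      apply Subgroup.eq_of_le_of_card_ge inf_le_right
      exact Nat.le_of_dvd Nat.card_pos h5
    exact inf_eq_right.mp h6
  have hc := MonoidHom.ker_transferSylow_isComplement' P hnorm
  have hidx : (MonoidHom.transferSylow P hnorm).ker.index = 5 := by
    rw [hc.symm.index_eq_card]
    exact hPc
  let K : Subgroup G := (MonoidHom.transferSylow P hnorm).ker.comap (QuotientGroup.mk' N)
  have hKn : K.Normal := Subgroup.Normal.comap inferInstance _
  have hKi : K.index = 5 := by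
    rw [Subgroup.index_comap_of_surjective _ (QuotientGroup.mk'_surjective N), hidx]
  have hKc : Nat.card K = 1584 := by
    have h7 := K.card_mul_index
    rw [hKi, hord] at h7
    omega
  obtain ⟨S⟩ : Nonempty (Sylow 5 G) := inferInstance
  have h5 : ¬ 5 ∣ Nat.card K := by
    rw [hKc]
    norm_num
  have h8 := iso5_dvd hord hiso K h5 S
  rw [hKc] at h8
  norm_num at h8

lemma prop1 {a b c : Prop} (h1 : a ↔ ¬ c) (h2 : b ↔ c) (h3 : a ↔ b) : False := by
  by_cases hc : c
  · exact h1.mp (h3.mpr (h2.mpr hc)) hc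
  · exact hc (h2.mp (h3.mp (h1.mpr hc)))

lemma prop2 {a c : Prop} (h : ¬ (a ↔ ¬ c)) : a ↔ c := by
  by_cases ha : a <;> by_cases hc : c <;> simp_all

lemma prop3 {a : Prop} (h : a ↔ ¬ a) : False := by
  by_cases ha : a
  · exact h.mp ha ha
  · exact ha (h.mpr ha)

lemma not_opp {P : Prop} {d v : ℕ} (hd : ¬ d ∣ v - 1) (f : P → d ∣ v - 1) : ¬ P := fun e => hd (f e)

/-- Normal subgroups of prime power order. -/
lemma case_pgroup (hord : Nat.card G = 7920) {A : Set ℕ} (hP : Part G A) (N : Subgroup G) [hN : N.Normal]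
    (hN1 : N ≠ ⊥) {r : ℕ} (hr : r.Prime) (hNr : IsPGroup r N) : False := by
  classical
  haveI : Fact (Nat.Prime 2) := ⟨Nat.prime_two⟩
  haveI : Fact (Nat.Prime 3) := ⟨Nat.prime_three⟩
  haveI : Fact (Nat.Prime 5) := ⟨Nat.prime_five⟩
  haveI : Fact (Nat.Prime 11) := ⟨by norm_num⟩
  haveI : Fact r.Prime := ⟨hr⟩
  obtain ⟨j, hj⟩ := IsPGroup.iff_card.mp hNr
  have hj0 : j ≠ 0 := by
    rintro rfl
    rw [pow_zero] at hj
    exact hN1 (Subgroup.card_eq_one.mp hj)
  have hdv : r ^ j ∣ 7920 := by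
    rw [← hj, ← hord]
    exact Subgroup.card_subgroup_dvd_card N
  have hr7920 : r ∣ 7920 := (dvd_pow_self r hj0).trans hdv
  have hrL := prime_dvd_7920 hr hr7920
  have hfree : ∀ s, (s = 2 ∨ s = 3 ∨ s = 5 ∨ s = 11) → (s ∈ A ↔ r ∉ A) → ∀ [Fact s.Prime], ∀ S : Sylow s G, Nat.card S ∣ r ^ j - 1 := by
    intro s hs hopp _ S
    rw [← hj]
    apply card_dvd_sub_one
    intro g hg hg1 y hy hy1 hc
    have hg5 : s ∣ orderOf g := prime_dvd_order_of_mem_sylow (S : Subgroup G) S.isPGroup' hg hg1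
    have hyr : r ∣ orderOf y := prime_dvd_order_of_mem_sylow N hNr hy hy1
    have hne : s ≠ r := by
      rintro rfl
      exact prop3 hopp
    have hadj : Adj G s r := adj_of_commute (Fact.out) hr hne hc hg5 hyr
    have := hP.same hs hrL hadj
    exact prop1 hopp Iff.rfl this
  obtain ⟨S2⟩ : Nonempty (Sylow 2 G) := inferInstance
  obtain ⟨S3⟩ : Nonempty (Sylow 3 G) := inferInstance
  obtain ⟨S5⟩ : Nonempty (Sylow 5 G) := inferInstance
  obtain ⟨S11⟩ : Nonempty (Sylow 11 G) := inferInstance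
  have c2 : Nat.card S2 = 16 := by
    have := card_sylow_eq (k := 4) (m := 495) hord S2 (by norm_num) (by norm_num) (by norm_num)
    simpa using this
  have c3 : Nat.card S3 = 9 := by
    have := card_sylow_eq (k := 2) (m := 880) hord S3 (by norm_num) (by norm_num) (by norm_num)
    simpa using this
  have c5 : Nat.card S5 = 5 := by
    have := card_sylow_eq (k := 1) (m := 1584) hord S5 (by norm_num) (by norm_num) (by norm_num)
    simpa using this
  have c11 : Nat.card S11 = 11 := by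
    have := card_sylow_eq (k := 1) (m := 720) hord S11 (by norm_num) (by norm_num) (by norm_num)
    simpa using this
  have f2 : (2 ∈ A ↔ r ∉ A) → 16 ∣ r ^ j - 1 := fun h => c2 ▸ hfree 2 (by simp) h S2
  have f3 : (3 ∈ A ↔ r ∉ A) → 9 ∣ r ^ j - 1 := fun h => c3 ▸ hfree 3 (by simp) h S3
  have f5 : (5 ∈ A ↔ r ∉ A) → 5 ∣ r ^ j - 1 := fun h => c5 ▸ hfree 5 (by simp) h S5
  have f11 : (11 ∈ A ↔ r ∉ A) → 11 ∣ r ^ j - 1 := fun h => c11 ▸ hfree 11 (by simp) h S11
  -- the values of `r ^ j`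
  have hcases : r ^ j = 2 ∨ r ^ j = 4 ∨ r ^ j = 8 ∨ r ^ j = 16 ∨ r ^ j = 3 ∨ r ^ j = 9 ∨ r ^ j = 5 ∨ r ^ j = 11 := by
    have hjb : j ≤ 12 := by
      by_contra hcon
      have h1 : 2 ^ 13 ≤ r ^ j := by
        calc 2 ^ 13 ≤ r ^ 13 := Nat.pow_le_pow_left hr.two_le 13
          _ ≤ r ^ j := Nat.pow_le_pow_right hr.pos (by omega)
      have h2 := Nat.le_of_dvd (by norm_num) hdv
      omega
    rcases hrL with rfl | rfl | rfl | rfl <;> interval_cases j <;>
      first
        | exact absurd rfl hj0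
        | (norm_num; done)
        | (exfalso; revert hdv; norm_num; done)
  have hiso_of : (5 ∈ A ↔ r ∉ A) → (2 ∈ A ↔ r ∈ A) → (3 ∈ A ↔ r ∈ A) → (11 ∈ A ↔ r ∈ A) →
      ∀ q, (q = 2 ∨ q = 3 ∨ q = 11) → ¬ Adj G 5 q := by
    intro h5 h2 h3 h11 q hq hadj
    rcases hq with rfl | rfl | rfl
    · exact prop1 h5 h2 (hP.same (p := 5) (by simp) (by simp) hadj)
    · exact prop1 h5 h3 (hP.same (p := 5) (by simp) (by simp) hadj)
    · exact prop1 h5 h11 (hP.same (p := 5) (by simp) (by simp) hadj)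
  have hconn : (2 ∈ A ↔ r ∈ A) → (3 ∈ A ↔ r ∈ A) → (5 ∈ A ↔ r ∈ A) → (11 ∈ A ↔ r ∈ A) → False := by
    intro h2 h3 h5 h11
    exact hP.conn_false (h2.trans h11.symm) (h3.trans h11.symm) (h5.trans h11.symm)
  rcases hcases with h | h | h | h | h | h | h | h <;> rw [h] at f2 f3 f5 f11
  · exact hconn (prop2 (not_opp (by decide) f2)) (prop2 (not_opp (by decide) f3)) (prop2 (not_opp (by decide) f5)) (prop2 (not_opp (by decide) f11))
  · exact hconn (prop2 (not_opp (by decide) f2)) (prop2 (not_opp (by decide) f3)) (prop2 (not_opp (by decide) f5)) (prop2 (not_opp (by decide) f11))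
  · exact hconn (prop2 (not_opp (by decide) f2)) (prop2 (not_opp (by decide) f3)) (prop2 (not_opp (by decide) f5)) (prop2 (not_opp (by decide) f11))
  · by_cases h5 : (5 ∈ A ↔ r ∉ A)
    · rw [← hj] at h
      exact case_sixteen hord (hiso_of h5 (prop2 (not_opp (by decide) f2)) (prop2 (not_opp (by decide) f3)) (prop2 (not_opp (by decide) f11))) N h
    · exact hconn (prop2 (not_opp (by decide) f2)) (prop2 (not_opp (by decide) f3)) (prop2 h5) (prop2 (not_opp (by decide) f11))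
  · exact hconn (prop2 (not_opp (by decide) f2)) (prop2 (not_opp (by decide) f3)) (prop2 (not_opp (by decide) f5)) (prop2 (not_opp (by decide) f11))
  · exact hconn (prop2 (not_opp (by decide) f2)) (prop2 (not_opp (by decide) f3)) (prop2 (not_opp (by decide) f5)) (prop2 (not_opp (by decide) f11))
  · exact hconn (prop2 (not_opp (by decide) f2)) (prop2 (not_opp (by decide) f3)) (prop2 (not_opp (by decide) f5)) (prop2 (not_opp (by decide) f11))
  · by_cases h5 : (5 ∈ A ↔ r ∉ A)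
    · rw [← hj] at h
      exact case_eleven hord (hiso_of h5 (prop2 (not_opp (by decide) f2)) (prop2 (not_opp (by decide) f3)) (prop2 (not_opp (by decide) f11))) N h
    · exact hconn (prop2 (not_opp (by decide) f2)) (prop2 (not_opp (by decide) f3)) (prop2 h5) (prop2 (not_opp (by decide) f11))

end Cfsg.Agent.Lib.KS2.O79
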