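import Mathlib
import Cfsg.Agent.Lib.KS2.O79c

/-!
Groups of order 7920 with disconnected prime graph: perfect minimal normal subgroups.
-/

set_option autoImplicit false
set_option linter.unusedSectionVars false
set_option linter.unusedVariables false

namespace Cfsg.Agent.Lib.KS2.O79

open Subgroup
open scoped commutatorElement

variable {G : Type*} [Group G] [Finite G]

lemma card_sylow11 (hord : Nat.card G = 7920) [Fact (Nat.Prime 11)] (P : Sylow 11 G) : Nat.card P = 11 := by
  have := card_sylow_eq (k := 1) (m := 720) hord P (by norm_num) (by norm_num) (by norm_num)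
  simpa using this

lemma card_normalizer_mul (hord : Nat.card G = 7920) [Fact (Nat.Prime 11)] (Q : Sylow 11 G) :
    Nat.card (normalizer ((Q : Subgroup G) : Set G)) * Nat.card (Sylow 11 G) = 7920 := by
  have h1 : Nat.card (Sylow 11 G) = (normalizer ((Q : Subgroup G) : Set G)).index := Q.card_eq_index_normalizer
  rw [h1, Subgroup.card_mul_index, hord]

/-- No perfect proper normal subgroup contains a Sylow 11-subgroup when there are 45 Sylow 11-subgroups. -/
lemma no45 (hord : Nat.card G = 7920) (N : Subgroup G) [hN : N.Normal] (hNt : N ≠ ⊤) (hperf : ⁅N, N⁆ = N)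
    [Fact (Nat.Prime 11)] (Q : Sylow 11 G) (hQN : (Q : Subgroup G) ≤ N) (hn : Nat.card (Sylow 11 G) = 45) : False := by
  classical
  have hcard := card_sylow11 hord
  have hH : Nat.card (normalizer ((Q : Subgroup G) : Set G)) = 176 := by
    have := card_normalizer_mul hord Q
    rw [hn] at this
    omega
  have hfr := frattini_count N Q hQN
  rw [hH] at hfr
  set H := normalizer ((Q : Subgroup G) : Set G) with hHdef
  have hd1 : N.index ≠ 1 := by
    intro h
    exact hNt (Subgroup.index_eq_one.mp h)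
  have hQle : (Q : Subgroup G) ≤ N ⊓ H := le_inf hQN Subgroup.le_normalizer
  have h11 : 11 ∣ Nat.card ↥(N ⊓ H) := by
    rw [← hcard Q]
    exact Subgroup.card_dvd_of_le hQle
  have hb88 : Nat.card ↥(N ⊓ H) ∣ 88 := by
    obtain ⟨m, hm⟩ := h11
    rw [hm] at hfr ⊢
    have h16 : N.index * m = 16 := by
      have h0 : 11 * (N.index * m) = 176 := by rw [← hfr]; ring
      omega
    have hmd : m ∣ 16 := ⟨N.index, by rw [← h16, mul_comm]⟩
    have hm16 : m ≤ 16 := Nat.le_of_dvd (by norm_num) hmd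
    interval_cases m <;> first | omega | (revert hmd; decide) | decide
  -- an element not centralizing `Q`
  have hex : ∃ g ∈ N, g ∈ H ∧ ∃ u ∈ (Q : Subgroup G), g * u ≠ u * g := by
    by_contra hcon
    push Not at hcon
    apply perfect_normal_sylow N hperf Q hQN (by rw [hcard]; norm_num)
    intro x hx hxH u hu
    exact hcon x hx hxH u hu
  obtain ⟨g, hgN, hgH, u, hu, hgu⟩ := hex
  have hg88 : g ^ 88 = 1 := by
    have h1 : orderOf g ∣ Nat.card ↥(N ⊓ H) := Subgroup.orderOf_dvd_natCard _ ⟨hgN, hgH⟩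
    exact orderOf_dvd_iff_pow_eq_one.mp (h1.trans hb88)
  have hsq : ∀ h ∈ H, ∀ u ∈ (Q : Subgroup G), h * (h * u * h⁻¹) * h⁻¹ = u := by
    intro h hh u hu
    have h1 := act_sq (Q : Subgroup G) (hcard Q) hh 2 (by rw [hH]; norm_num) u hu
    rw [MulAut.conj_apply] at h1
    have e : h * (h * u * h⁻¹) * h⁻¹ = h ^ 2 * u * (h ^ 2)⁻¹ := by
      rw [sq]
      group
    rw [e]
    exact h1
  have hdich : ∀ h ∈ H, (∀ u ∈ (Q : Subgroup G), h * u * h⁻¹ = u) ∨ (∀ u ∈ (Q : Subgroup G), h * u * h⁻¹ = u⁻¹) :=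
    fun h hh => dich_of (Q : Subgroup G) (hcard Q) hh (hsq h hh)
  have hginv : ∀ u ∈ (Q : Subgroup G), g * u * g⁻¹ = u⁻¹ := by
    apply (hdich g hgH).resolve_left
    intro hcen
    exact hgu (mul_inv_eq_iff_eq_mul.mp (hcen u hu))
  -- the element of 2-power order
  have hcen10 := cen_even (Q : Subgroup G) hginv 5
  have htinv : ∀ u ∈ (Q : Subgroup G), g ^ 11 * u * (g ^ 11)⁻¹ = u⁻¹ := by
    intro u hu
    have e : g ^ 11 = g ^ (2 * 5) * g := by
      rw [← pow_succ]
    rw [e]
    have e2 : g ^ (2 * 5) * g * u * (g ^ (2 * 5) * g)⁻¹ = g ^ (2 * 5) * (g * u * g⁻¹) * (g ^ (2 * 5))⁻¹ := by group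
    rw [e2, hginv u hu]
    have e3 : g ^ (2 * 5) * u⁻¹ * (g ^ (2 * 5))⁻¹ = (g ^ (2 * 5) * u * (g ^ (2 * 5))⁻¹)⁻¹ := by group
    rw [e3, hcen10 u hu]
  have htN : g ^ 11 ∈ N := N.pow_mem hgN 11
  have htc : g ^ 11 ∈ commutator G := by
    rw [_root_.commutator_def]
    have h1 : ⁅N, N⁆ ≤ ⁅(⊤ : Subgroup G), (⊤ : Subgroup G)⁆ := Subgroup.commutator_mono le_top le_top
    apply h1
    rw [hperf]
    exact htN
  have ht8 : (g ^ 11) ^ (2 ^ 3) = 1 := by
    rw [← pow_mul]
    exact hg88
  have hne : ∃ u ∈ (Q : Subgroup G), u ≠ u⁻¹ := by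
    haveI : Nontrivial (Q : Subgroup G) := by
      apply Finite.one_lt_card_iff_nontrivial.mp
      rw [hcard]
      norm_num
    obtain ⟨⟨v, hv⟩, hv1⟩ := exists_ne (1 : (Q : Subgroup G))
    refine ⟨v, hv, ?_⟩
    intro h
    apply hv1
    apply Subtype.ext
    apply sq_eq_one_of (p := 11) (by norm_num) (Q : Subgroup G) (hcard Q) hv
    calc v * v = v⁻¹ * v := by rw [← h]
      _ = 1 := by group
  apply transfer_contra Q hdich hne
    (fun c Q₁ Q₂ h1 h2 => not_inv_cen hcard (by norm_num) (by rw [hn]; norm_num) c Q₁ Q₂ h1 h2)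
    (?_) (g ^ 11) 3 ht8 htinv htc
  have h1 : Nat.card (Sylow 11 G) = (normalizer ((Q : Subgroup G) : Set G)).index := Q.card_eq_index_normalizer
  rw [← h1, hn]
  decide

/-- Central elements of order prime to `11` when there are 12 Sylow 11-subgroups. -/
lemma triv_action (hord : Nat.card G = 7920) [Fact (Nat.Prime 11)] (Q : Sylow 11 G) (hn : Nat.card (Sylow 11 G) = 12)
    (y : G) (hyH : y ∈ normalizer ((Q : Subgroup G) : Set G)) (hyC : ∀ u ∈ (Q : Subgroup G), y * u = u * y)
    {r : ℕ} (hr : r.Coprime 11) (hyr : y ^ r = 1) (ω : Sylow 11 G) : y • ω = ω := by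
  classical
  have hcard := card_sylow11 hord
  by_cases hω : ω = Q
  · subst hω
    exact Sylow.smul_eq_iff_mem_normalizer.mpr hyH
  have hQ : ∀ g ∈ (Q : Subgroup G), g • Q = Q := fun g hg =>
    Sylow.smul_eq_iff_mem_normalizer.mpr (Subgroup.le_normalizer hg)
  let f : ↥(Q : Subgroup G) → {ω' : Sylow 11 G // ω' ≠ Q} := fun g => ⟨(g : G) • ω, by
    intro h
    apply hω
    have h1 : ω = (g : G)⁻¹ • Q := eq_inv_smul_iff.mpr h
    rw [h1]
    exact hQ _ ((Q : Subgroup G).inv_mem g.2)⟩
  have hfinj : Function.Injective f := by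
    intro a b hab
    have h1 : (a : G) • ω = (b : G) • ω := congrArg Subtype.val hab
    have h2 : ((b : G)⁻¹ * a) • ω = ω := by
      rw [mul_smul, h1, inv_smul_smul]
    have h3 := stab_triv hcard Q ω (Ne.symm hω) ((Q : Subgroup G).mul_mem ((Q : Subgroup G).inv_mem b.2) a.2) h2
    exact Subtype.ext (inv_mul_eq_one.mp h3).symm
  have hcd : Nat.card {ω' : Sylow 11 G // ω' ≠ Q} = 11 := by
    haveI : Fintype (Sylow 11 G) := Fintype.ofFinite _
    have h1 : Fintype.card (Sylow 11 G) = 12 := by rw [← Nat.card_eq_fintype_card, hn]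
    rw [Nat.card_eq_fintype_card, Fintype.card_subtype_compl]
    simp [h1]
  have hfbij : Function.Bijective f := hfinj.bijective_of_nat_card_le (by rw [hcd, hcard Q])
  have hyω : y • ω ≠ Q := by
    intro h
    apply hω
    have h1 : y • Q = Q := Sylow.smul_eq_iff_mem_normalizer.mpr hyH
    have h2 : y • ω = y • Q := by rw [h, h1]
    exact smul_left_cancel _ h2
  obtain ⟨g, hg⟩ := hfbij.2 ⟨y • ω, hyω⟩
  have hg' : (g : G) • ω = y • ω := congrArg Subtype.val hg
  have hit : ∀ k : ℕ, y ^ k • ω = (g : G) ^ k • ω := by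
    intro k
    induction k with
    | zero => simp
    | succ k ih =>
      have hcm : y ^ k * (g : G) = (g : G) * y ^ k := by
        have : Commute y (g : G) := hyC g g.2
        exact (this.pow_left k)
      rw [pow_succ, mul_smul, ← hg', ← mul_smul, hcm, mul_smul, ih, ← mul_smul, ← pow_succ']
  have h1 := hit r
  rw [hyr, one_smul] at h1
  have h2 := stab_triv hcard Q ω (Ne.symm hω) ((Q : Subgroup G).pow_mem g.2 r) h1.symm
  have h3 : (g : G) ^ 11 = 1 := by
    have := pow_card_eq_one' (x := g)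
    rw [hcard Q] at this
    exact congrArg Subtype.val this
  have h4 : (g : G) = 1 := by
    have h5 : orderOf (g : G) ∣ Nat.gcd r 11 := Nat.dvd_gcd (orderOf_dvd_of_pow_eq_one h2) (orderOf_dvd_of_pow_eq_one h3)
    rw [hr.gcd_eq_one] at h5
    exact orderOf_eq_one_iff.mp (Nat.dvd_one.mp h5)
  rw [← hg', h4, one_smul]

/-- Twelve Sylow 11-subgroups. -/
lemma case12 (hord : Nat.card G = 7920) {A : Set ℕ} (hP : Part G A) (N : Subgroup G) [hN : N.Normal]
    (hNt : N ≠ ⊤) (hmin : ∀ M : Subgroup G, M.Normal → M ≤ N → M = ⊥ ∨ M = N)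
    [Fact (Nat.Prime 11)] (Q : Sylow 11 G) (hQN : (Q : Subgroup G) ≤ N) (hn : Nat.card (Sylow 11 G) = 12) : False := by
  classical
  haveI : Fact (Nat.Prime 2) := ⟨Nat.prime_two⟩
  haveI : Fact (Nat.Prime 3) := ⟨Nat.prime_three⟩
  haveI : Fact (Nat.Prime 5) := ⟨Nat.prime_five⟩
  have hcard := card_sylow11 hord
  have hH : Nat.card (normalizer ((Q : Subgroup G) : Set G)) = 660 := by
    have := card_normalizer_mul hord Q
    rw [hn] at this
    omega
  have h1 := card_normalizer_dvd (Q : Subgroup G) (hcard Q)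
  rw [hH] at h1
  set H := normalizer ((Q : Subgroup G) : Set G) with hHdef
  set C := centralizer ((Q : Subgroup G) : Set G) with hCdef
  have h66 : 66 ∣ Nat.card ↥(C ⊓ H) := by
    have h0 : (11 - 1) = 10 := rfl
    rw [h0] at h1
    omega
  obtain ⟨y2, hy2⟩ := exists_prime_orderOf_dvd_card' (G := ↥(C ⊓ H)) 2 ((by norm_num : 2 ∣ 66).trans h66)
  obtain ⟨y3, hy3⟩ := exists_prime_orderOf_dvd_card' (G := ↥(C ⊓ H)) 3 ((by norm_num : 3 ∣ 66).trans h66)
  have hy2o : orderOf (y2 : G) = 2 := by rw [Subgroup.orderOf_coe, hy2]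
  have hy3o : orderOf (y3 : G) = 3 := by rw [Subgroup.orderOf_coe, hy3]
  have hC : ∀ y : ↥(C ⊓ H), ∀ u ∈ (Q : Subgroup G), (y : G) * u = u * (y : G) := by
    intro y u hu
    exact (y.2.1 u hu).symm
  have ht2 : ∀ ω : Sylow 11 G, (y2 : G) • ω = ω := fun ω =>
    triv_action hord Q hn y2 y2.2.2 (hC y2) (r := 2) (by norm_num) (by rw [← hy2o]; exact pow_orderOf_eq_one _) ω
  have ht3 : ∀ ω : Sylow 11 G, (y3 : G) • ω = ω := fun ω =>
    triv_action hord Q hn y3 y3.2.2 (hC y3) (r := 3) (by norm_num) (by rw [← hy3o]; exact pow_orderOf_eq_one _) ω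
  let K : Subgroup G := (MulAction.toPermHom G (Sylow 11 G)).ker
  have hKn : K.Normal := MonoidHom.normal_ker _
  have hmemK : ∀ y : G, (∀ ω : Sylow 11 G, y • ω = ω) → y ∈ K := by
    intro y hy
    rw [MonoidHom.mem_ker]
    ext1 ω
    exact hy ω
  have hy2K : (y2 : G) ∈ K := hmemK _ ht2
  have hy3K : (y3 : G) ∈ K := hmemK _ ht3
  have hcn : Nontrivial (Sylow 11 G) := by
    apply Finite.one_lt_card_iff_nontrivial.mp
    rw [hn]
    norm_num
  obtain ⟨ω₀, hω₀⟩ := exists_ne Q
  haveI : Nontrivial (Q : Subgroup G) := by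
    apply Finite.one_lt_card_iff_nontrivial.mp
    rw [hcard]
    norm_num
  obtain ⟨⟨u, hu⟩, hu1⟩ := exists_ne (1 : (Q : Subgroup G))
  have hu1' : u ≠ 1 := fun h0 => hu1 (Subtype.ext h0)
  have huo : orderOf u = 11 := by
    have h2 : orderOf u ∣ 11 := by
      rw [← hcard Q]
      exact Subgroup.orderOf_dvd_natCard _ hu
    rcases (Nat.dvd_prime (by norm_num)).mp h2 with h3 | h3
    · exact (hu1' (orderOf_eq_one_iff.mp h3)).elim
    · exact h3
  have hdis : N ⊓ K = ⊥ := by
    rcases hmin (N ⊓ K) (Subgroup.normal_inf_normal _ _) inf_le_left with h | h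
    · exact h
    · exfalso
      have h2 : u ∈ K := (inf_eq_left.mp h) (hQN hu)
      have h3 : u • ω₀ = ω₀ := by
        have h4 : MulAction.toPermHom G (Sylow 11 G) u = 1 := h2
        exact congrArg (fun σ : Equiv.Perm (Sylow 11 G) => σ ω₀) h4
      exact hu1' (stab_triv hcard Q ω₀ (Ne.symm hω₀) hu h3)
  have hcom : ∀ a ∈ N, ∀ b ∈ K, Commute a b := by
    intro a ha b hb
    exact Subgroup.commute_of_normal_of_disjoint N K hN hKn (disjoint_iff.mpr hdis) a b ha hb
  have a2 : Adj G 11 2 := adj_of_commute (by norm_num) Nat.prime_two (by norm_num) (hcom u (hQN hu) _ hy2K)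
    (by rw [huo]) (by rw [hy2o])
  have a3 : Adj G 11 3 := adj_of_commute (by norm_num) Nat.prime_three (by norm_num) (hcom u (hQN hu) _ hy3K)
    (by rw [huo]) (by rw [hy3o])
  have e2 := hP.same (p := 11) (q := 2) (by simp) (by simp) a2
  have e3 := hP.same (p := 11) (q := 3) (by simp) (by simp) a3
  have hfr := frattini_count N Q hQN
  rw [hH] at hfr
  have hcN : Nat.card N * N.index = 7920 := by rw [Subgroup.card_mul_index, hord]
  have h12 : 12 ∣ Nat.card N := by
    refine ⟨Nat.card ↥(N ⊓ H), ?_⟩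
    have hpos : 0 < N.index := Nat.pos_of_ne_zero (Subgroup.index_ne_zero_of_finite)
    apply Nat.eq_of_mul_eq_mul_right hpos
    calc Nat.card N * N.index = 12 * (N.index * Nat.card ↥(N ⊓ H)) := by rw [hcN, hfr]
      _ = 12 * Nat.card ↥(N ⊓ H) * N.index := by ring
  have e5 : 5 ∈ A ↔ 11 ∈ A := by
    by_cases h5 : 5 ∣ Nat.card N
    · obtain ⟨z, hz⟩ := exists_prime_orderOf_dvd_card' (G := N) 5 h5
      have hzo : orderOf (z : G) = 5 := by rw [Subgroup.orderOf_coe, hz]
      have a5 : Adj G 5 2 := adj_of_commute Nat.prime_five Nat.prime_two (by norm_num) (hcom z z.2 _ hy2K)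
        (by rw [hzo]) (by rw [hy2o])
      have := hP.same (p := 5) (q := 2) (by simp) (by simp) a5
      exact this.trans e2.symm
    · have h5G : 5 ∣ Nat.card G := by rw [hord]; norm_num
      obtain ⟨x, hx⟩ := exists_prime_orderOf_dvd_card' (G := G) 5 h5G
      have h3N : 3 ∣ Nat.card N := (by norm_num : 3 ∣ 12).trans h12
      obtain ⟨z, hzN, hz3, hc⟩ := exists_fixed_elt (s := 5) (r := 3) N x hx h5 h3N (by
        intro j hj hjd
        have hd : 3 ^ j ∣ 7920 := by
          rw [← hord]
          exact hjd.trans (Subgroup.card_subgroup_dvd_card N)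
        have hj2 : j ≤ 2 := by
          by_contra hcon
          have h4 : 3 ^ 3 ∣ 3 ^ j := pow_dvd_pow 3 (by omega)
          have h5 := h4.trans hd
          revert h5
          decide
        interval_cases j <;> decide)
      have a5 : Adj G 5 3 := adj_of_commute Nat.prime_five Nat.prime_three (by norm_num) hc (by rw [hx]) hz3
      have := hP.same (p := 5) (q := 3) (by simp) (by simp) a5
      exact this.trans e3.symm
  exact hP.conn_false e2.symm e3.symm e5

set_option maxRecDepth 100000 in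
lemma rep45 : ∀ m ∈ Finset.range 46, m ∣ 45 → ∃ a ∈ Finset.range 3, ∃ b ∈ Finset.range 2, m = 3 ^ a * 5 ^ b := by decide

set_option maxRecDepth 100000 in
lemma rep80 : ∀ m ∈ Finset.range 81, m ∣ 80 → ∃ a ∈ Finset.range 5, ∃ b ∈ Finset.range 2, m = 2 ^ a * 5 ^ b := by decide

set_option maxRecDepth 100000 in
lemma rep144 : ∀ m ∈ Finset.range 145, m ∣ 144 → ∃ a ∈ Finset.range 5, ∃ b ∈ Finset.range 3, m = 2 ^ a * 3 ^ b := by decide

/-- Perfect minimal normal subgroups. -/
lemma case_perfect (hord : Nat.card G = 7920) {A : Set ℕ} (hP : Part G A) (N : Subgroup G) [hN : N.Normal]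
    (hN1 : N ≠ ⊥) (hNt : N ≠ ⊤) (hmin : ∀ M : Subgroup G, M.Normal → M ≤ N → M = ⊥ ∨ M = N) (hperf : ⁅N, N⁆ = N) : False := by
  classical
  haveI : Fact (Nat.Prime 2) := ⟨Nat.prime_two⟩
  haveI : Fact (Nat.Prime 3) := ⟨Nat.prime_three⟩
  haveI : Fact (Nat.Prime 5) := ⟨Nat.prime_five⟩
  haveI : Fact (Nat.Prime 11) := ⟨by norm_num⟩
  have hcard := card_sylow11 hord
  by_cases h11 : 11 ∣ Nat.card N
  · obtain ⟨y, hy⟩ := exists_prime_orderOf_dvd_card' (G := N) 11 h11
    have hyo : orderOf (y : G) = 11 := by rw [Subgroup.orderOf_coe, hy]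
    have hzp : IsPGroup 11 (zpowers (y : G)) := by
      rw [IsPGroup.iff_card]
      exact ⟨1, by rw [Nat.card_zpowers, hyo, pow_one]⟩
    obtain ⟨Q, hQ⟩ := hzp.exists_le_sylow
    have hQe : zpowers (y : G) = (Q : Subgroup G) := by
      apply Subgroup.eq_of_le_of_card_ge hQ
      rw [Nat.card_zpowers, hyo, hcard]
    have hQN : (Q : Subgroup G) ≤ N := by
      rw [← hQe, zpowers_le]
      exact y.2
    have hmod := card_sylow_modEq_one 11 G
    have hdvd : Nat.card (Sylow 11 G) ∣ 720 := by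
      have h1 := Q.card_dvd_index
      have h2 : (Q : Subgroup G).index = 720 := by
        have h3 := (Q : Subgroup G).card_mul_index
        rw [hcard, hord] at h3
        omega
      rwa [h2] at h1
    have hcases : Nat.card (Sylow 11 G) = 1 ∨ Nat.card (Sylow 11 G) = 12 ∨ Nat.card (Sylow 11 G) = 45 ∨ Nat.card (Sylow 11 G) = 144 := by
      have hle := Nat.le_of_dvd (by norm_num) hdvd
      generalize Nat.card (Sylow 11 G) = n at hmod hdvd hle ⊢
      unfold Nat.ModEq at hmod
      interval_cases n <;> first | (revert hmod; decide) | (revert hdvd; decide) | simp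
    have hnm := card_normalizer_mul hord Q
    rcases hcases with hn | hn | hn | hn
    · -- a normal Sylow subgroup
      have hQn : (Q : Subgroup G).Normal := by
        have h1 : Nat.card (Sylow 11 G) = (normalizer ((Q : Subgroup G) : Set G)).index := Q.card_eq_index_normalizer
        rw [hn] at h1
        exact normalizer_eq_top_iff.mp (Subgroup.index_eq_one.mp h1.symm)
      have hQ1 : (Q : Subgroup G) ≠ ⊥ := by
        intro h
        have := hcard Q
        rw [h, Subgroup.card_bot] at this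
        omega
      rcases hmin _ hQn hQN with h | h
      · exact hQ1 h
      · apply hN1
        rw [← hperf, eq_bot_iff]
        rw [Subgroup.commutator_le]
        intro a ha b hb
        rw [← h] at ha hb
        rw [mem_bot, commutatorElement_eq_one_iff_mul_comm]
        exact comm_of_prime (Q : Subgroup G) (hcard Q) ha hb
    · exact case12 hord hP N hNt hmin Q hQN hn
    · exact no45 hord N hNt hperf Q hQN hn
    · -- 144 Sylow subgroups
      rw [hn] at hnm
      have hH : Nat.card (normalizer ((Q : Subgroup G) : Set G)) = 55 := by omega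
      have hfr := frattini_count N Q hQN
      rw [hH] at hfr
      set H := normalizer ((Q : Subgroup G) : Set G) with hHdef
      have hd1 : N.index ≠ 1 := fun h => hNt (Subgroup.index_eq_one.mp h)
      have hQle : (Q : Subgroup G) ≤ N ⊓ H := le_inf hQN Subgroup.le_normalizer
      have hb11 : 11 ∣ Nat.card ↥(N ⊓ H) := by
        rw [← hcard Q]
        exact Subgroup.card_dvd_of_le hQle
      have hb : Nat.card ↥(N ⊓ H) = 11 := by
        obtain ⟨m, hm⟩ := hb11
        rw [hm] at hfr ⊢
        have h5 : N.index * m = 5 := by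
          have h0 : 11 * (N.index * m) = 55 := by rw [← hfr]; ring
          omega
        have hmd : m ∣ 5 := ⟨N.index, by rw [← h5, mul_comm]⟩
        rcases (Nat.dvd_prime Nat.prime_five).mp hmd with rfl | rfl
        · rfl
        · omega
      have hQe2 : (Q : Subgroup G) = N ⊓ H := by
        apply Subgroup.eq_of_le_of_card_ge hQle
        rw [hb, hcard]
      apply perfect_normal_sylow N hperf Q hQN (by rw [hcard]; norm_num)
      intro x hx hxH u hu
      have hxQ : x ∈ (Q : Subgroup G) := by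
        rw [hQe2]
        exact ⟨hx, hxH⟩
      exact comm_of_prime (Q : Subgroup G) (hcard Q) hxQ hu
  · -- `N` has order prime to `11`
    have hd7920 : Nat.card N ∣ 7920 := by
      rw [← hord]
      exact Subgroup.card_subgroup_dvd_card N
    have hd720 : Nat.card N ∣ 720 := by
      have h1 : Nat.Coprime (Nat.card N) 11 := ((Nat.Prime.coprime_iff_not_dvd (by norm_num)).mpr h11).symm
      have e : (7920 : ℕ) = 11 * 720 := by norm_num
      rw [e] at hd7920
      exact h1.dvd_of_dvd_mul_left hd7920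
    have hperf' : commutator N = ⊤ := by
      apply Subgroup.map_injective N.subtype_injective
      rw [Subgroup.map_subtype_commutator, hperf, ← MonoidHom.range_eq_map, Subgroup.range_subtype]
    haveI hnt : Nontrivial N := (Subgroup.nontrivial_iff_ne_bot N).mpr hN1
    have hnsol : ∀ p q a b : ℕ, p.Prime → q.Prime → Nat.card N ≠ p ^ a * q ^ b := by
      intro p q a b hp hq hc
      have hs : Group.IsSolvable N := Cfsg.Agent.Lib.Char.isSolvable_of_card p q a b hp hq hc
      have h1 : commutator N < ⊤ := IsSolvable.commutator_lt_top_of_nontrivial N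
      rw [hperf'] at h1
      exact lt_irrefl _ h1
    have hm2 : 2 ∣ Nat.card N := by
      by_contra h
      have h1 : Nat.Coprime (Nat.card N) 2 := ((Nat.Prime.coprime_iff_not_dvd Nat.prime_two).mpr h).symm
      have h2 : Nat.card N ∣ 45 := by
        have e : (720 : ℕ) = 2 ^ 4 * 45 := by norm_num
        rw [e] at hd720
        exact (Nat.Coprime.pow_right 4 h1).dvd_of_dvd_mul_left hd720
      have hle := Nat.le_of_dvd (by norm_num) h2
      obtain ⟨a, _, b, _, hab⟩ := rep45 _ (Finset.mem_range.mpr (by omega)) h2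
      exact hnsol 3 5 a b Nat.prime_three Nat.prime_five hab
    have hm3 : 3 ∣ Nat.card N := by
      by_contra h
      have h1 : Nat.Coprime (Nat.card N) 3 := ((Nat.Prime.coprime_iff_not_dvd Nat.prime_three).mpr h).symm
      have h2 : Nat.card N ∣ 80 := by
        have e : (720 : ℕ) = 3 ^ 2 * 80 := by norm_num
        rw [e] at hd720
        exact (Nat.Coprime.pow_right 2 h1).dvd_of_dvd_mul_left hd720
      have hle := Nat.le_of_dvd (by norm_num) h2
      obtain ⟨a, _, b, _, hab⟩ := rep80 _ (Finset.mem_range.mpr (by omega)) h2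
      exact hnsol 2 5 a b Nat.prime_two Nat.prime_five hab
    have hm5 : 5 ∣ Nat.card N := by
      by_contra h
      have h1 : Nat.Coprime (Nat.card N) 5 := ((Nat.Prime.coprime_iff_not_dvd Nat.prime_five).mpr h).symm
      have h2 : Nat.card N ∣ 144 := by
        have e : (720 : ℕ) = 5 * 144 := by norm_num
        rw [e] at hd720
        exact h1.dvd_of_dvd_mul_left hd720
      have hle := Nat.le_of_dvd (by norm_num) h2
      obtain ⟨a, _, b, _, hab⟩ := rep144 _ (Finset.mem_range.mpr (by omega)) h2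
      exact hnsol 2 3 a b Nat.prime_two Nat.prime_three hab
    obtain ⟨x, hx⟩ := exists_prime_orderOf_dvd_card' (G := G) 11 (by rw [hord]; norm_num)
    have hmod : ∀ r : ℕ, r.Prime → r ≠ 11 → (∀ j, 1 ≤ j → r ^ j ∣ Nat.card N → ¬ r ^ j ≡ 1 [MOD 11]) → r ∣ Nat.card N → Adj G 11 r := by
      intro r hr hr11 hj hrN
      haveI : Fact r.Prime := ⟨hr⟩
      obtain ⟨z, hzN, hz, hc⟩ := exists_fixed_elt (s := 11) (r := r) N x hx h11 hrN hj
      exact adj_of_commute (by norm_num) hr (Ne.symm hr11) hc (by rw [hx]) hz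
    have a2 : Adj G 11 2 := hmod 2 Nat.prime_two (by norm_num) (by
      intro j hj hjd
      have hjb : j ≤ 4 := by
        by_contra hcon
        have h4 : 2 ^ 5 ∣ 2 ^ j := pow_dvd_pow 2 (by omega)
        have h5 := (h4.trans hjd).trans hd720
        revert h5
        decide
      interval_cases j <;> decide) hm2
    have a3 : Adj G 11 3 := hmod 3 Nat.prime_three (by norm_num) (by
      intro j hj hjd
      have hjb : j ≤ 2 := by
        by_contra hcon
        have h4 : 3 ^ 3 ∣ 3 ^ j := pow_dvd_pow 3 (by omega)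
        have h5 := (h4.trans hjd).trans hd720
        revert h5
        decide
      interval_cases j <;> decide) hm3
    have a5 : Adj G 11 5 := hmod 5 Nat.prime_five (by norm_num) (by
      intro j hj hjd
      have hjb : j ≤ 1 := by
        by_contra hcon
        have h4 : 5 ^ 2 ∣ 5 ^ j := pow_dvd_pow 5 (by omega)
        have h5 := (h4.trans hjd).trans hd720
        revert h5
        decide
      interval_cases j <;> decide) hm5
    have e2 := hP.same (p := 11) (q := 2) (by simp) (by simp) a2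
    have e3 := hP.same (p := 11) (q := 3) (by simp) (by simp) a3
    have e5 := hP.same (p := 11) (q := 5) (by simp) (by simp) a5
    exact hP.conn_false e2.symm e3.symm e5.symm

/-- The main theorem. -/
theorem main {G : Type*} [Group G] [Finite G] (hord : Nat.card G = 7920)
    (hdisc : (∃ A : Set ℕ, (∃ a ∈ A, a.Prime ∧ a ∣ Nat.card G) ∧ (∃ b ∉ A, b.Prime ∧ b ∣ Nat.card G) ∧
      ∀ a ∈ A, ∀ b ∉ A, a.Prime → b.Prime → a ∣ Nat.card G → b ∣ Nat.card G → ¬ ∃ g : G, orderOf g = a * b)) :
    IsSimpleGroup G := by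
  classical
  obtain ⟨A, ⟨a, haA, ha, haG⟩, ⟨b, hbA, hb, hbG⟩, hno⟩ := hdisc
  rw [hord] at haG hbG
  have hP : Part G A := by
    refine ⟨⟨a, haA, prime_dvd_7920 ha haG⟩, ⟨b, hbA, prime_dvd_7920 hb hbG⟩, ?_⟩
    intro p q hpA hqA hp hq hadj
    have hpp : p.Prime := by
      rcases hp with rfl | rfl | rfl | rfl <;> norm_num
    have hqp : q.Prime := by
      rcases hq with rfl | rfl | rfl | rfl <;> norm_num
    have hdvd : ∀ r : ℕ, (r = 2 ∨ r = 3 ∨ r = 5 ∨ r = 11) → r ∣ Nat.card G := by
      intro r hr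
      rw [hord]
      rcases hr with rfl | rfl | rfl | rfl <;> norm_num
    exact hno p hpA q hqA hpp hqp (hdvd p hp) (hdvd q hq) hadj
  haveI hnt : Nontrivial G := by
    apply Finite.one_lt_card_iff_nontrivial.mp
    rw [hord]
    norm_num
  refine ⟨?_⟩
  intro H hH
  by_contra hcon
  push Not at hcon
  obtain ⟨hH1, hH2⟩ := hcon
  obtain ⟨N, hNn, hN1, hNH, hmin⟩ := Cfsg.Agent.Lib.Core.exists_minimal_normal_le hH hH1
  have hNt : N ≠ ⊤ := by
    intro h
    apply hH2
    rw [eq_top_iff, ← h]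
    exact hNH
  haveI := hNn
  rcases min_normal_cases N hN1 hmin with hperf | ⟨r, hr, hNr⟩
  · exact case_perfect hord hP N hN1 hNt hmin hperf
  · exact case_pgroup hord hP N hN1 hr hNr

end Cfsg.Agent.Lib.KS2.O79
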