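import Mathlib
import Cfsg.Prelude.Def_Classical

/-!
Sylow `2`-subgroups of `O⁺(2m, 2)` pairwise meet: the pointwise stabiliser of a totally singular
`(m-1)`-space is a `2`-group, and any subspace of codimension at least two has a nontrivial pointwise stabiliser.
-/

set_option autoImplicit false
set_option linter.unusedSectionVars false
set_option linter.unusedVariables false

namespace Cfsg.Agent.Lib.KS2.OplusSyl

open Matrix

variable {F : Type*} [Field F] [Fintype F] {m : ℕ}

/-- The polar form of the hyperbolic form. -/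
def B (u v : Fin m ⊕ Fin m → F) : F := ∑ i : Fin m, (u (.inl i) * v (.inr i) + v (.inl i) * u (.inr i))

local notation "Q" => Cfsg.quadFormPlus m F

lemma Q_add (u v : Fin m ⊕ Fin m → F) : Q (u + v) = Q u + Q v + B u v := by
  simp only [Cfsg.quadFormPlus, B, Pi.add_apply, ← Finset.sum_add_distrib]
  refine Finset.sum_congr rfl fun i _ => ?_
  ring

lemma Q_smul (c : F) (v : Fin m ⊕ Fin m → F) : Q (c • v) = c * c * Q v := by
  simp only [Cfsg.quadFormPlus, Pi.smul_apply, smul_eq_mul, Finset.mul_sum]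
  refine Finset.sum_congr rfl fun i _ => ?_
  ring

lemma B_comm (u v : Fin m ⊕ Fin m → F) : B u v = B v u := by
  simp only [B]
  refine Finset.sum_congr rfl fun i _ => ?_
  ring

lemma B_add_left (u u' v : Fin m ⊕ Fin m → F) : B (u + u') v = B u v + B u' v := by
  simp only [B, Pi.add_apply, ← Finset.sum_add_distrib]
  refine Finset.sum_congr rfl fun i _ => ?_
  ring

lemma B_add_right (u v v' : Fin m ⊕ Fin m → F) : B u (v + v') = B u v + B u v' := by
  rw [B_comm, B_add_left, B_comm v, B_comm v']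

lemma B_smul_left (c : F) (u v : Fin m ⊕ Fin m → F) : B (c • u) v = c * B u v := by
  simp only [B, Pi.smul_apply, smul_eq_mul, Finset.mul_sum]
  refine Finset.sum_congr rfl fun i _ => ?_
  ring

lemma B_smul_right (c : F) (u v : Fin m ⊕ Fin m → F) : B u (c • v) = c * B u v := by
  rw [B_comm, B_smul_left, B_comm]

lemma B_self_eq (v : Fin m ⊕ Fin m → F) : B v v = 2 * Q v := by
  simp only [B, Cfsg.quadFormPlus, Finset.mul_sum]
  refine Finset.sum_congr rfl fun i _ => ?_
  ring

/-- The vector `e_{inl i}`. -/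
def eL (i : Fin m) : Fin m ⊕ Fin m → F := Pi.single (.inl i) 1
/-- The vector `e_{inr i}`. -/
def eR (i : Fin m) : Fin m ⊕ Fin m → F := Pi.single (.inr i) 1

lemma B_eL (i : Fin m) (v : Fin m ⊕ Fin m → F) : B (eL i) v = v (.inr i) := by
  classical
  simp only [B, eL, Pi.single_apply]
  rw [Finset.sum_eq_single i]
  · simp
  · intro j _ hj
    simp [hj]
  · simp

lemma B_eR (i : Fin m) (v : Fin m ⊕ Fin m → F) : B (eR i) v = v (.inl i) := by
  classical
  simp only [B, eR, Pi.single_apply]
  rw [Finset.sum_eq_single i]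
  · simp
  · intro j _ hj
    simp [hj]
  · simp

lemma B_nondeg {v : Fin m ⊕ Fin m → F} (h : ∀ u, B u v = 0) : v = 0 := by
  ext k
  rcases k with i | i
  · simpa [B_eR] using h (eR i)
  · simpa [B_eL] using h (eL i)

/-- `B u` as a linear form. -/
def Bl (u : Fin m ⊕ Fin m → F) : (Fin m ⊕ Fin m → F) →ₗ[F] F where
  toFun := B u
  map_add' := B_add_right u
  map_smul' c v := B_smul_right c u v

section F2

variable (hF : Fintype.card F = 2)
include hF

lemma two_eq : (2 : F) = 0 := by
  have h1 : ((Fintype.card F : ℕ) : F) = 0 := Nat.cast_card_eq_zero F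
  rw [hF] at h1
  exact_mod_cast h1

lemma eq_zero_or_one (x : F) : x = 0 ∨ x = 1 := by
  classical
  by_cases h : x = 0
  · exact Or.inl h
  · right
    by_contra h1
    have h2 : ({0, 1, x} : Finset F).card ≤ Fintype.card F := Finset.card_le_univ _
    have h3 : ({0, 1, x} : Finset F).card = 3 := by
      rw [Finset.card_insert_of_notMem, Finset.card_insert_of_notMem, Finset.card_singleton]
      · simpa using Ne.symm h1
      · simp only [Finset.mem_insert, Finset.mem_singleton, not_or]
        exact ⟨zero_ne_one, Ne.symm h⟩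
    rw [hF, h3] at h2
    omega

lemma neg_eq (x : F) : -x = x := by
  have := two_eq hF
  linear_combination (-x) * this

lemma add_self' (x : F) : x + x = 0 := by
  have := two_eq hF
  linear_combination x * this

lemma mul_self' (x : F) : x * x = x := by
  rcases eq_zero_or_one hF x with rfl | rfl <;> simp

end F2

/-- Elements of the isometry group act on vectors. -/
abbrev G (m : ℕ) (F : Type*) [Field F] := Cfsg.isometryGroup F (Cfsg.quadFormPlus m F)

/-- The action on vectors. -/
def act (g : G m F) (u : Fin m ⊕ Fin m → F) : Fin m ⊕ Fin m → F :=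
  ((g : Matrix.GeneralLinearGroup (Fin m ⊕ Fin m) F) : Matrix (Fin m ⊕ Fin m) (Fin m ⊕ Fin m) F) *ᵥ u

lemma act_mul (g h : G m F) (u : Fin m ⊕ Fin m → F) : act (g * h) u = act g (act h u) := by
  simp [act, Matrix.mulVec_mulVec]

lemma act_one (u : Fin m ⊕ Fin m → F) : act (1 : G m F) u = u := by
  simp [act]

lemma act_inv_act (g : G m F) (u : Fin m ⊕ Fin m → F) : act g⁻¹ (act g u) = u := by
  rw [← act_mul, inv_mul_cancel, act_one]

lemma act_act_inv (g : G m F) (u : Fin m ⊕ Fin m → F) : act g (act g⁻¹ u) = u := by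
  rw [← act_mul, mul_inv_cancel, act_one]

lemma act_add (g : G m F) (u v : Fin m ⊕ Fin m → F) : act g (u + v) = act g u + act g v := by
  simp [act, Matrix.mulVec_add]

lemma act_smul (g : G m F) (c : F) (u : Fin m ⊕ Fin m → F) : act g (c • u) = c • act g u := by
  simp [act, Matrix.mulVec_smul]

lemma act_Q (g : G m F) (u : Fin m ⊕ Fin m → F) : Q (act g u) = Q u := g.2 u 0

lemma act_B (g : G m F) (u v : Fin m ⊕ Fin m → F) : B (act g u) (act g v) = B u v := by
  have h1 := Q_add (act g u) (act g v)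
  have h2 := Q_add u v
  rw [← act_add, act_Q, act_Q, act_Q] at h1
  rw [h1] at h2
  linear_combination h2

/-- Build an isometry from an involutive linear map. -/
noncomputable def mkG (ρ : (Fin m ⊕ Fin m → F) →ₗ[F] (Fin m ⊕ Fin m → F)) (h2 : ∀ u, ρ (ρ u) = u) (hQ : ∀ u, Q (ρ u) = Q u) : G m F := by
  classical
  refine ⟨⟨LinearMap.toMatrix' ρ, LinearMap.toMatrix' ρ, ?_, ?_⟩, ?_⟩
  · rw [← LinearMap.toMatrix'_comp]
    have : ρ ∘ₗ ρ = LinearMap.id := LinearMap.ext h2
    rw [this, LinearMap.toMatrix'_id]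
  · rw [← LinearMap.toMatrix'_comp]
    have : ρ ∘ₗ ρ = LinearMap.id := LinearMap.ext h2
    rw [this, LinearMap.toMatrix'_id]
  · intro u v
    change Q (LinearMap.toMatrix' ρ *ᵥ u) = Q u
    rw [LinearMap.toMatrix'_mulVec, hQ]

lemma act_mkG (ρ : (Fin m ⊕ Fin m → F) →ₗ[F] (Fin m ⊕ Fin m → F)) (h2 : ∀ u, ρ (ρ u) = u) (hQ : ∀ u, Q (ρ u) = Q u)
    (u : Fin m ⊕ Fin m → F) : act (mkG ρ h2 hQ) u = ρ u := by
  classical
  change LinearMap.toMatrix' ρ *ᵥ u = ρ u
  rw [LinearMap.toMatrix'_mulVec]

lemma eq_one_of_act {g : G m F} (h : ∀ u, act g u = u) : g = 1 := by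
  apply Subtype.ext
  apply Units.ext
  apply Matrix.ext_of_mulVec_single
  intro i
  have h1 := h (Pi.single i 1)
  change ((g : Matrix.GeneralLinearGroup (Fin m ⊕ Fin m) F) : Matrix (Fin m ⊕ Fin m) (Fin m ⊕ Fin m) F) *ᵥ Pi.single i 1 = (1 : Matrix (Fin m ⊕ Fin m) (Fin m ⊕ Fin m) F) *ᵥ Pi.single i 1
  rw [Matrix.one_mulVec]
  exact h1

/-- The transvection in a vector of norm `1`. -/
def tvL (v : Fin m ⊕ Fin m → F) : (Fin m ⊕ Fin m → F) →ₗ[F] (Fin m ⊕ Fin m → F) :=
  LinearMap.id + (Bl v).smulRight v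

lemma tvL_apply (v u : Fin m ⊕ Fin m → F) : tvL v u = u + B v u • v := rfl

/-- The Siegel map for a totally singular pair. -/
def siL (a b : Fin m ⊕ Fin m → F) : (Fin m ⊕ Fin m → F) →ₗ[F] (Fin m ⊕ Fin m → F) :=
  LinearMap.id + (Bl a).smulRight b + (Bl b).smulRight a

lemma siL_apply (a b u : Fin m ⊕ Fin m → F) : siL a b u = u + B a u • b + B b u • a := rfl

/-- A nontrivial isometry fixing `⊥`-complement of a subspace of dimension at least two. -/
theorem exists_fix (hF : Fintype.card F = 2) (X : Submodule F (Fin m ⊕ Fin m → F)) (hX : 2 ≤ Module.finrank F X) :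
    ∃ y : G m F, y ≠ 1 ∧ ∀ u, (∀ x ∈ X, B x u = 0) → act y u = u := by
  classical
  have h20 := two_eq hF
  by_cases hN : ∃ v ∈ X, Q v = 1
  · obtain ⟨v, hvX, hv⟩ := hN
    have hvv : B v v = 0 := by rw [B_self_eq, h20, zero_mul]
    have h2 : ∀ u, tvL v (tvL v u) = u := by
      intro u
      simp only [tvL_apply, B_add_right, B_smul_right, hvv, mul_zero, add_zero]
      ext k
      simp only [Pi.add_apply, Pi.smul_apply, smul_eq_mul]
      linear_combination (B v u * v k) * h20
    have hQ : ∀ u, Q (tvL v u) = Q u := by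
      intro u
      rw [tvL_apply, Q_add, Q_smul, hv, B_smul_right, B_comm u v, mul_self' hF]
      have := add_self' hF (B v u)
      linear_combination this
    have hv0 : v ≠ 0 := by
      rintro rfl
      simp [Cfsg.quadFormPlus] at hv
    refine ⟨mkG (tvL v) h2 hQ, ?_, ?_⟩
    · intro h1
      obtain ⟨u, hu⟩ : ∃ u, B u v ≠ 0 := by
        by_contra hc
        push Not at hc
        exact hv0 (B_nondeg hc)
      have h3 := act_mkG (tvL v) h2 hQ u
      rw [h1, act_one, tvL_apply] at h3
      have h4 : B v u • v = 0 := by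
        have : u = u + B v u • v := h3
        simpa using this
      rw [B_comm] at h4
      exact (smul_ne_zero hu hv0) h4
    · intro u hu
      rw [act_mkG, tvL_apply, hu v hvX]
      simp
  · have hQ0 : ∀ v ∈ X, Q v = 0 := by
      intro v hv
      rcases eq_zero_or_one hF (Q v) with h | h
      · exact h
      · exact absurd ⟨v, hv, h⟩ hN
    have hXpos : 0 < Module.finrank F X := by omega
    obtain ⟨a, ha⟩ : ∃ a : X, a ≠ 0 := by
      haveI : Nontrivial X := Module.nontrivial_of_finrank_pos hXpos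
      exact exists_ne 0
    have ha' : (a : Fin m ⊕ Fin m → F) ≠ 0 := fun h => ha (Subtype.ext h)
    obtain ⟨b, hb⟩ : ∃ b : X, (b : Fin m ⊕ Fin m → F) ∉ Submodule.span F {(a : Fin m ⊕ Fin m → F)} := by
      by_contra hc
      push Not at hc
      have h1 : (⊤ : Submodule F X) ≤ Submodule.span F {a} := by
        intro b _
        obtain ⟨c, hc'⟩ := Submodule.mem_span_singleton.mp (hc b)
        refine Submodule.mem_span_singleton.mpr ⟨c, Subtype.ext ?_⟩
        simpa using hc'
      have h2 := Submodule.finrank_mono h1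
      rw [finrank_top] at h2
      have h3 := finrank_span_le_card (R := F) ({a} : Set X)
      simp only [Set.toFinset_singleton, Finset.card_singleton] at h3
      omega
    have hQa := hQ0 a a.2
    have hQb := hQ0 b b.2
    have hab : B (a : Fin m ⊕ Fin m → F) b = 0 := by
      have h1 := Q_add (a : Fin m ⊕ Fin m → F) b
      rw [hQ0 _ (X.add_mem a.2 b.2), hQa, hQb] at h1
      linear_combination -h1
    have haa : B (a : Fin m ⊕ Fin m → F) a = 0 := by rw [B_self_eq, hQa, mul_zero]
    have hbb : B (b : Fin m ⊕ Fin m → F) b = 0 := by rw [B_self_eq, hQb, mul_zero]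
    have hba : B (b : Fin m ⊕ Fin m → F) a = 0 := by rw [B_comm, hab]
    have h2 : ∀ u, siL (a : Fin m ⊕ Fin m → F) b (siL (a : Fin m ⊕ Fin m → F) b u) = u := by
      intro u
      simp only [siL_apply, B_add_right, B_smul_right, hab, haa, hbb, hba, mul_zero, add_zero]
      ext k
      simp only [Pi.add_apply, Pi.smul_apply, smul_eq_mul]
      linear_combination (B (a : Fin m ⊕ Fin m → F) u * (b : Fin m ⊕ Fin m → F) k + B (b : Fin m ⊕ Fin m → F) u * (a : Fin m ⊕ Fin m → F) k) * h20
    have hQ : ∀ u, Q (siL (a : Fin m ⊕ Fin m → F) b u) = Q u := by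
      intro u
      rw [siL_apply, Q_add, Q_add, Q_smul, Q_smul, hQa, hQb, B_add_left, B_smul_left, B_smul_right, B_smul_right, B_smul_right, B_comm u,
        B_comm u, hba]
      have := add_self' hF (B (a : Fin m ⊕ Fin m → F) u * B (b : Fin m ⊕ Fin m → F) u)
      linear_combination this
    refine ⟨mkG _ h2 hQ, ?_, ?_⟩
    · intro h1
      obtain ⟨u, hu⟩ : ∃ u, B (a : Fin m ⊕ Fin m → F) u ≠ 0 := by
        by_contra hc
        push Not at hc
        exact ha' (B_nondeg (fun u => by rw [B_comm]; exact hc u))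
      have h3 := act_mkG _ h2 hQ u
      rw [h1, act_one, siL_apply] at h3
      apply hb
      refine Submodule.mem_span_singleton.mpr ⟨(B (a : Fin m ⊕ Fin m → F) u)⁻¹ * B (b : Fin m ⊕ Fin m → F) u, ?_⟩
      have h5 : B (a : Fin m ⊕ Fin m → F) u • (b : Fin m ⊕ Fin m → F) + B (b : Fin m ⊕ Fin m → F) u • (a : Fin m ⊕ Fin m → F) = 0 := by
        have : u = u + (B (a : Fin m ⊕ Fin m → F) u • (b : Fin m ⊕ Fin m → F) + B (b : Fin m ⊕ Fin m → F) u • (a : Fin m ⊕ Fin m → F)) := by
          rw [← add_assoc]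
          exact h3
        simpa using this
      ext k
      have h6 := congrFun h5 k
      simp only [Pi.add_apply, Pi.smul_apply, smul_eq_mul, Pi.zero_apply] at h6 ⊢
      field_simp
      have := neg_eq hF ((B (b : Fin m ⊕ Fin m → F) u) * (a : Fin m ⊕ Fin m → F) k)
      linear_combination (-1 : F) * h6 + (B (b : Fin m ⊕ Fin m → F) u * (a : Fin m ⊕ Fin m → F) k) * h20
    · intro u hu
      rw [act_mkG, siL_apply, hu a a.2, hu b b.2]
      simp

end Cfsg.Agent.Lib.KS2.OplusSyl
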