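import Mathlib
import Cfsg.Agent.Lib.KS2.OplusSyl

/-!
Sylow `2`-subgroups of `O⁺(2m, 2)` pairwise meet: the pointwise stabiliser of `⟨e_i : i ≠ i₀⟩` is a `2`-group.
-/

set_option autoImplicit false
set_option linter.unusedSectionVars false
set_option linter.unusedVariables false

namespace Cfsg.Agent.Lib.KS2.OplusSyl

open Matrix
open scoped Pointwise

variable {F : Type*} [Field F] [Fintype F] {m : ℕ}

local notation "Q" => Cfsg.quadFormPlus m F

lemma act_R (g : G m F) (i : Fin m) (hg : act g (eL i) = eL i) (v : Fin m ⊕ Fin m → F) : act g v (.inr i) = v (.inr i) := by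
  have h := act_B g (eL i) v
  rw [hg, B_eL, B_eL] at h
  exact h

lemma act_sum (g : G m F) {ι : Type*} (s : Finset ι) (f : ι → Fin m ⊕ Fin m → F) : act g (∑ i ∈ s, f i) = ∑ i ∈ s, act g (f i) := by
  simp [act, Matrix.mulVec_sum]

/-- Expansion of a vector whose `inr` coordinates vanish. -/
lemma expand_L (v : Fin m ⊕ Fin m → F) (h : ∀ i, v (.inr i) = 0) : v = ∑ i, v (.inl i) • eL i := by
  classical
  ext k
  rcases k with j | j
  · simp only [Finset.sum_apply, Pi.smul_apply, smul_eq_mul, eL, Pi.single_apply, Sum.inl.injEq, mul_ite, mul_one, mul_zero]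
    simp
  · simp only [Finset.sum_apply, Pi.smul_apply, smul_eq_mul, eL, Pi.single_apply]
    simp [h]

/-- Values on the perp are determined by the two coordinates at `i₀`. -/
lemma Q_perp (i₀ : Fin m) (u : Fin m ⊕ Fin m → F) (h : ∀ i, i ≠ i₀ → u (.inr i) = 0) : Q u = u (.inl i₀) * u (.inr i₀) := by
  classical
  simp only [Cfsg.quadFormPlus]
  rw [Finset.sum_eq_single i₀]
  · intro j _ hj
    rw [h j hj, mul_zero]
  · simp

section Main

variable (hF : Fintype.card F = 2) (i₀ : Fin m) (g : G m F) (hg : ∀ i, i ≠ i₀ → act g (eL i) = eL i)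
include hF hg

lemma fix_W (v : Fin m ⊕ Fin m → F) (h : ∀ i, v (.inr i) = 0) (h0 : v (.inl i₀) = 0) : act g v = v := by
  classical
  nth_rw 2 [expand_L v h]
  nth_rw 1 [expand_L v h]
  rw [act_sum]
  refine Finset.sum_congr rfl fun i _ => ?_
  rw [act_smul]
  by_cases hi : i = i₀
  · rw [hi, h0]
    simp
  · rw [hg i hi]

lemma act_sq_perp (v : Fin m ⊕ Fin m → F) (h : ∀ i, i ≠ i₀ → v (.inr i) = 0) :
    act g (act g v) (.inl i₀) = v (.inl i₀) ∧ act g (act g v) (.inr i₀) = v (.inr i₀) := by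
  classical
  -- coordinates of images of `e`, `f`
  set e : Fin m ⊕ Fin m → F := eL i₀ with he
  set f : Fin m ⊕ Fin m → F := eR i₀ with hf
  have hperp : ∀ u : Fin m ⊕ Fin m → F, (∀ i, i ≠ i₀ → u (.inr i) = 0) → ∀ i, i ≠ i₀ → act g u (.inr i) = 0 := by
    intro u hu i hi
    rw [act_R g i (hg i hi), hu i hi]
  have hep : ∀ i, i ≠ i₀ → e (.inr i) = 0 := by
    intro i _
    simp [he, eL]
  have hfp : ∀ i, i ≠ i₀ → f (.inr i) = 0 := by
    intro i hi
    simp [hf, eR, Pi.single_apply, hi]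
  have h1 := act_Q g e
  have h2 := act_Q g f
  have h3 := act_Q g (e + f)
  have hQe : Q e = 0 := by
    rw [Q_perp i₀ e hep]
    simp [he, eL]
  have hQf : Q f = 0 := by
    rw [Q_perp i₀ f hfp]
    simp [hf, eR]
  have hQef : Q (e + f) = 1 := by
    rw [Q_perp i₀ (e + f) (fun i hi => by simp [hep i hi, hfp i hi])]
    simp [he, hf, eL, eR]
  rw [Q_perp i₀ _ (hperp e hep), hQe] at h1
  rw [Q_perp i₀ _ (hperp f hfp), hQf] at h2
  rw [act_add, Q_perp i₀ _ (fun i hi => by simp [hperp e hep i hi, hperp f hfp i hi]), hQef] at h3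
  simp only [Pi.add_apply] at h3
  -- decomposition
  have hdec : ∀ u : Fin m ⊕ Fin m → F, (∀ i, i ≠ i₀ → u (.inr i) = 0) →
      act g u = (u - u (.inl i₀) • e - u (.inr i₀) • f) + u (.inl i₀) • act g e + u (.inr i₀) • act g f := by
    intro u hu
    have h5 : act g (u - u (.inl i₀) • e - u (.inr i₀) • f) = u - u (.inl i₀) • e - u (.inr i₀) • f := by
      apply fix_W hF i₀ g hg
      · intro i
        by_cases hi : i = i₀
        · subst hi
          simp [he, hf, eL, eR]
        · simp [he, hf, eL, eR, Pi.single_apply, hi, hu i hi]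
      · simp [he, hf, eL, eR]
    have h6 : u = (u - u (.inl i₀) • e - u (.inr i₀) • f) + u (.inl i₀) • e + u (.inr i₀) • f := by abel
    nth_rw 1 [h6]
    rw [act_add, act_add, act_smul, act_smul, h5]
  have hcoord : ∀ u : Fin m ⊕ Fin m → F, (∀ i, i ≠ i₀ → u (.inr i) = 0) →
      act g u (.inl i₀) = u (.inl i₀) * act g e (.inl i₀) + u (.inr i₀) * act g f (.inl i₀) ∧
      act g u (.inr i₀) = u (.inl i₀) * act g e (.inr i₀) + u (.inr i₀) * act g f (.inr i₀) := by
    intro u hu
    rw [hdec u hu]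
    simp [he, hf, eL, eR]
  have hv1 := hcoord v h
  have hv2 := hcoord (act g v) (hperp v h)
  rw [hv2.1, hv2.2, hv1.1, hv1.2]
  generalize act g e (.inl i₀) = a₁ at *
  generalize act g e (.inr i₀) = a₂ at *
  generalize act g f (.inl i₀) = b₁ at *
  generalize act g f (.inr i₀) = b₂ at *
  rcases eq_zero_or_one hF a₁ with rfl | rfl <;> rcases eq_zero_or_one hF a₂ with rfl | rfl <;>
    rcases eq_zero_or_one hF b₁ with rfl | rfl <;> rcases eq_zero_or_one hF b₂ with rfl | rfl <;>
    first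
      | (exfalso; simp at h1 h2 h3; done)
      | (exfalso; simp [add_self' hF] at h1 h2 h3; done)
      | (constructor <;> simp)

/-- `g ^ 8 = 1`. -/
theorem pow_eight : g ^ 8 = 1 := by
  have h20 := two_eq hF
  obtain ⟨n, hnd⟩ : ∃ n : (Fin m ⊕ Fin m → F) → (Fin m ⊕ Fin m → F), ∀ v, n v = act g (act g v) + v := ⟨_, fun _ => rfl⟩
  have hn1 : ∀ v, ∀ i, i ≠ i₀ → n v (.inr i) = 0 := by
    intro v i hi
    simp only [hnd, Pi.add_apply]
    rw [act_R g i (hg i hi), act_R g i (hg i hi), add_self' hF]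
  have hn2 : ∀ v, (∀ i, i ≠ i₀ → v (.inr i) = 0) → (∀ i, n v (.inr i) = 0) ∧ n v (.inl i₀) = 0 := by
    intro v hv
    have h1 := act_sq_perp hF i₀ g hg v hv
    refine ⟨?_, ?_⟩
    · intro i
      by_cases hi : i = i₀
      · subst hi
        simp only [hnd, Pi.add_apply]
        rw [h1.2, add_self' hF]
      · exact hn1 v i hi
    · simp only [hnd, Pi.add_apply]
      rw [h1.1, add_self' hF]
  have hn3 : ∀ v, (∀ i, v (.inr i) = 0) → v (.inl i₀) = 0 → n v = 0 := by
    intro v h1 h2
    simp only [hnd]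
    rw [fix_W hF i₀ g hg v h1 h2, fix_W hF i₀ g hg v h1 h2]
    ext k
    simp only [Pi.add_apply, Pi.zero_apply]
    exact add_self' hF _
  have hn0 : ∀ v, n (n (n v)) = 0 := by
    intro v
    have h1 := hn2 (n v) (hn1 v)
    exact hn3 _ h1.1 h1.2
  have hadd : ∀ u v, n (u + v) = n u + n v := by
    intro u v
    simp only [hnd, act_add]
    abel
  have hA : ∀ v, act g (act g v) = v + n v := by
    intro v
    ext k
    simp only [hnd, Pi.add_apply]
    linear_combination (-v k) * h20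
  have hAA : ∀ w, act (g * g) w = w + n w := by
    intro w
    rw [act_mul, hA]
  have h4 : ∀ v, act ((g * g) * (g * g)) v = v + n (n v) := by
    intro v
    rw [act_mul, hAA, hAA, hadd]
    ext k
    simp only [Pi.add_apply]
    linear_combination (n v k) * h20
  have h8 : ∀ v, act (g ^ 8) v = v := by
    intro v
    have e8 : g ^ 8 = (g * g) * (g * g) * ((g * g) * (g * g)) := by
      simp only [pow_succ, pow_zero, one_mul, mul_assoc]
    rw [e8, act_mul, h4, h4, hadd, hadd, hn0 (n v)]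
    ext k
    simp only [Pi.add_apply, Pi.zero_apply]
    linear_combination (n (n v) k) * h20
  exact eq_one_of_act h8

end Main

/-- The pointwise stabiliser. -/
def T0 (i₀ : Fin m) : Subgroup (G m F) where
  carrier := {g | ∀ i, i ≠ i₀ → act g (eL i) = eL i}
  mul_mem' := by
    intro a b ha hb i hi
    rw [act_mul, hb i hi, ha i hi]
  one_mem' := fun i _ => act_one _
  inv_mem' := by
    intro a ha i hi
    nth_rw 1 [← ha i hi]
    rw [act_inv_act]

lemma T0_pgroup (hF : Fintype.card F = 2) (i₀ : Fin m) : IsPGroup 2 (T0 i₀ : Subgroup (G m F)) := by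
  intro g
  refine ⟨3, ?_⟩
  apply Subtype.ext
  exact pow_eight hF i₀ g.1 g.2

/-- The main theorem. -/
theorem sylow_meet (hF : Fintype.card F = 2) (hm : 1 ≤ m) (H : Sylow 2 (G m F)) (x : G m F) :
    (H : Subgroup (G m F)) ⊓ MulAut.conj x • (H : Subgroup (G m F)) ≠ ⊥ := by
  classical
  let i₀ : Fin m := ⟨0, by omega⟩
  obtain ⟨H₀, hH₀⟩ := (T0_pgroup hF i₀).exists_le_sylow
  obtain ⟨c, hc⟩ := MulAction.exists_smul_eq (G m F) H₀ H
  -- the vectors
  let J := {i : Fin m // i ≠ i₀}
  let u : J ⊕ J → Fin m ⊕ Fin m → F := fun k => match k with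
    | Sum.inl i => act c (eL i.1)
    | Sum.inr i => act x (act c (eL i.1))
  let L : (Fin m ⊕ Fin m → F) →ₗ[F] (J ⊕ J → F) := LinearMap.pi (fun k => Bl (u k))
  have hJ : Fintype.card J = m - 1 := by
    simp [J, Fintype.card_subtype_compl, Fintype.card_fin]
  have hdim : 2 ≤ Module.finrank F (LinearMap.ker L) := by
    have h1 := LinearMap.finrank_range_add_finrank_ker L
    have h2 : Module.finrank F (LinearMap.range L) ≤ Module.finrank F (J ⊕ J → F) := Submodule.finrank_le _
    rw [Module.finrank_fintype_fun_eq_card, Fintype.card_sum, hJ] at h2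
    rw [Module.finrank_fintype_fun_eq_card, Fintype.card_sum, Fintype.card_fin] at h1
    omega
  obtain ⟨y, hy1, hy⟩ := exists_fix hF (LinearMap.ker L) hdim
  have hfix : ∀ k, act y (u k) = u k := by
    intro k
    apply hy
    intro z hz
    have h3 : L z k = 0 := by
      rw [LinearMap.mem_ker.mp hz]
      rfl
    change B (u k) z = 0 at h3
    rw [B_comm]
    exact h3
  have h1 : y ∈ (H : Subgroup (G m F)) := by
    have ht : c⁻¹ * y * c ∈ (T0 i₀ : Subgroup (G m F)) := by
      intro i hi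
      rw [act_mul, act_mul, hfix (Sum.inl ⟨i, hi⟩ : J ⊕ J)] 
      exact act_inv_act c _
    have ht' := hH₀ ht
    rw [← hc, Sylow.coe_subgroup_smul, Subgroup.mem_smul_pointwise_iff_exists]
    refine ⟨_, ht', ?_⟩
    simp only [MulAut.smul_def, MulAut.conj_apply]
    group
  have h2 : y ∈ MulAut.conj x • (H : Subgroup (G m F)) := by
    have ht : (x * c)⁻¹ * y * (x * c) ∈ (T0 i₀ : Subgroup (G m F)) := by
      intro i hi
      rw [act_mul, act_mul, act_mul, hfix (Sum.inr ⟨i, hi⟩ : J ⊕ J)]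
      change act (x * c)⁻¹ (act x (act c (eL i))) = eL i
      rw [← act_mul x c]
      exact act_inv_act (x * c) _
    have ht' := hH₀ ht
    rw [← hc, Sylow.coe_subgroup_smul, Subgroup.mem_smul_pointwise_iff_exists]
    refine ⟨c * ((x * c)⁻¹ * y * (x * c)) * c⁻¹, ?_, ?_⟩
    · rw [Subgroup.mem_smul_pointwise_iff_exists]
      exact ⟨_, ht', by simp only [MulAut.smul_def, MulAut.conj_apply]⟩
    · simp only [MulAut.smul_def, MulAut.conj_apply]
      group
  intro hbot
  have h3 : y ∈ (H : Subgroup (G m F)) ⊓ MulAut.conj x • (H : Subgroup (G m F)) := ⟨h1, h2⟩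
  rw [hbot, Subgroup.mem_bot] at h3
  exact hy1 h3

end Cfsg.Agent.Lib.KS2.OplusSyl
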