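import Mathlib

/-!
# Intersections of Sylow 2-subgroups of `PGL₂(q)` for `q` a Mersenne prime.
-/

set_option autoImplicit false

open Matrix
open scoped MatrixGroups Pointwise

namespace Cfsg.Agent.Lib.KS2.PGLSyl

variable {F : Type*} [Field F]

/-- The matrix `J = (0 1; -1 0)`. -/
noncomputable def J : GL (Fin 2) F :=
  GeneralLinearGroup.mkOfDetNeZero !![0, 1; -1, 0] (by simp [det_fin_two])

lemma J_coe : ((J : GL (Fin 2) F) : Matrix (Fin 2) (Fin 2) F) = !![0, 1; -1, 0] := rfl

lemma J_sq : (J : GL (Fin 2) F) * J = -1 := by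
  apply Units.ext
  rw [Units.val_mul, J_coe]
  ext i j
  fin_cases i <;> fin_cases j <;> simp [Matrix.mul_apply, Fin.sum_univ_two]

lemma J_trace : Matrix.trace ((J : GL (Fin 2) F) : Matrix (Fin 2) (Fin 2) F) = 0 := by
  rw [J_coe]; simp [Matrix.trace_fin_two]

lemma neg_one_mem_center : (-1 : GL (Fin 2) F) ∈ Subgroup.center (GL (Fin 2) F) := by
  rw [Subgroup.mem_center_iff]
  intro g
  simp

lemma isSquare_of {a b c e f g : F} (h1 : a ^ 2 + b * c = -1) (h2 : 2 * a * e + b * g + c * f = 0)
    (h3 : e ^ 2 + f * g = 0) (h4 : ¬(e = 0 ∧ f = 0 ∧ g = 0)) : IsSquare (-1 : F) := by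
  by_cases hf : f = 0
  · subst hf
    have he : e = 0 := by simpa using h3
    subst he
    have hg : g ≠ 0 := fun hg => h4 ⟨rfl, rfl, hg⟩
    have hb : b = 0 := by
      have : b * g = 0 := by linear_combination h2
      exact (mul_eq_zero.mp this).resolve_right hg
    subst hb
    exact ⟨a, by linear_combination -h1⟩
  · refine ⟨a - b * e / f, ?_⟩
    have hg : g = -(e ^ 2 / f) := by
      field_simp
      linear_combination h3
    have hc : c = (2 * a * e * f * -1 + b * e ^ 2) / f ^ 2 := by
      rw [hg] at h2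
      field_simp at h2 ⊢
      linear_combination h2
    rw [hc] at h1
    field_simp at h1 ⊢
    linear_combination -h1

lemma entries_of_sq (A : GL (Fin 2) F) (hA : A * A = -1)
    (trA : Matrix.trace (A : Matrix (Fin 2) (Fin 2) F) = 0) :
    (A : Matrix (Fin 2) (Fin 2) F) 1 1 = -(A : Matrix (Fin 2) (Fin 2) F) 0 0 ∧
      (A : Matrix (Fin 2) (Fin 2) F) 0 0 ^ 2 + (A : Matrix (Fin 2) (Fin 2) F) 0 1 * (A : Matrix (Fin 2) (Fin 2) F) 1 0 = -1 := by
  have h1 : (A : Matrix (Fin 2) (Fin 2) F) 1 1 = -(A : Matrix (Fin 2) (Fin 2) F) 0 0 := by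
    rw [Matrix.trace_fin_two] at trA
    linear_combination trA
  refine ⟨h1, ?_⟩
  have h2 := congrArg (fun u : GL (Fin 2) F => (u : Matrix (Fin 2) (Fin 2) F) 0 0) hA
  simp only [Units.val_mul, Matrix.mul_apply, Fin.sum_univ_two, Units.val_neg, Units.val_one] at h2
  simp only [Matrix.neg_apply, Matrix.one_apply_eq] at h2
  linear_combination h2

/-- The main matrix lemma. -/
theorem exists_T (h2 : (2 : F) ≠ 0) (hs : ¬IsSquare (-1 : F)) (A B : GL (Fin 2) F) (hA : A * A = -1) (hB : B * B = -1)
    (trA : Matrix.trace (A : Matrix (Fin 2) (Fin 2) F) = 0) (trB : Matrix.trace (B : Matrix (Fin 2) (Fin 2) F) = 0)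
    (hAc : A ∉ Subgroup.center (GL (Fin 2) F)) :
    ∃ T : GL (Fin 2) F, T ∉ Subgroup.center (GL (Fin 2) F) ∧ (T * A = A * T ∨ T * A = -(A * T)) ∧
      (T * B = B * T ∨ T * B = -(B * T)) := by
  set a := (A : Matrix (Fin 2) (Fin 2) F) with ha
  set b := (B : Matrix (Fin 2) (Fin 2) F) with hb
  have haa : a * a = -1 := by
    have := congrArg Units.val hA
    simpa using this
  have hbb : b * b = -1 := by
    have := congrArg Units.val hB
    simpa using this
  set T₀ : Matrix (Fin 2) (Fin 2) F := a * b - b * a with hT₀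
  by_cases h0 : T₀ = 0
  · refine ⟨A, hAc, Or.inl rfl, Or.inl ?_⟩
    apply Units.ext
    rw [Units.val_mul, Units.val_mul]
    exact sub_eq_zero.mp h0
  · have hdet : T₀.det ≠ 0 := by
      intro hd
      apply hs
      obtain ⟨e1, e2⟩ := entries_of_sq A hA trA
      obtain ⟨e3, e4⟩ := entries_of_sq B hB trB
      have hT00 : T₀ 0 0 = a 0 1 * b 1 0 - b 0 1 * a 1 0 := by
        simp only [hT₀, Matrix.sub_apply, Matrix.mul_apply, Fin.sum_univ_two]
        ring
      have hT01 : T₀ 0 1 = 2 * (a 0 0 * b 0 1 - a 0 1 * b 0 0) := by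
        simp only [hT₀, Matrix.sub_apply, Matrix.mul_apply, Fin.sum_univ_two]
        rw [show a 1 1 = -a 0 0 from e1, show b 1 1 = -b 0 0 from e3]; ring
      have hT10 : T₀ 1 0 = 2 * (a 1 0 * b 0 0 - a 0 0 * b 1 0) := by
        simp only [hT₀, Matrix.sub_apply, Matrix.mul_apply, Fin.sum_univ_two]
        rw [show a 1 1 = -a 0 0 from e1, show b 1 1 = -b 0 0 from e3]; ring
      have hT11 : T₀ 1 1 = -T₀ 0 0 := by
        rw [hT00]
        simp only [hT₀, Matrix.sub_apply, Matrix.mul_apply, Fin.sum_univ_two]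
        ring
      rw [Matrix.det_fin_two, hT11] at hd
      refine isSquare_of (a := a 0 0) (b := a 0 1) (c := a 1 0) (e := T₀ 0 0) (f := T₀ 0 1) (g := T₀ 1 0) e2 ?_ ?_ ?_
      · rw [hT00, hT01, hT10]; ring
      · linear_combination -hd
      · rintro ⟨c1, c2, c3⟩
        apply h0
        ext i j
        fin_cases i <;> fin_cases j
        · simpa using c1
        · simpa using c2
        · simpa using c3
        · simp only [Fin.mk_one, Fin.isValue, Matrix.zero_apply]
          rw [hT11, c1, neg_zero]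
    let T : GL (Fin 2) F := GeneralLinearGroup.mkOfDetNeZero T₀ hdet
    have hTc : (T : Matrix (Fin 2) (Fin 2) F) = T₀ := rfl
    have hTA : T₀ * a = -(a * T₀) := by
      rw [hT₀]
      have e1 : (a * b - b * a) * a = a * b * a - b * (a * a) := by noncomm_ring
      have e2 : a * (a * b - b * a) = (a * a) * b - a * b * a := by noncomm_ring
      rw [e1, e2, haa]
      noncomm_ring
    have hTB : T₀ * b = -(b * T₀) := by
      rw [hT₀]
      have e1 : (a * b - b * a) * b = a * (b * b) - b * a * b := by noncomm_ring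
      have e2 : b * (a * b - b * a) = b * a * b - (b * b) * a := by noncomm_ring
      rw [e1, e2, hbb]
      noncomm_ring
    refine ⟨T, ?_, Or.inr ?_, Or.inr ?_⟩
    · intro hcen
      have h3 := Subgroup.mem_center_iff.mp hcen A
      have h4 : a * T₀ = T₀ * a := by
        have := congrArg Units.val h3
        simpa [hTc, ha] using this
      rw [hTA] at h4
      have h5 : (2 : F) • (a * T₀) = 0 := by
        rw [two_smul]
        nth_rewrite 2 [h4]
        simp
      have h6 : a * T₀ = 0 := by
        rcases smul_eq_zero.mp h5 with h | h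
        · exact absurd h h2
        · exact h
      have h7 : T₀ = 0 := by
        have h8 : (A⁻¹ : GL (Fin 2) F).val * (a * T₀) = T₀ := by
          rw [← mul_assoc]
          simp [ha]
        rw [← h8, h6, mul_zero]
      exact h0 h7
    · apply Units.ext
      simp only [Units.val_mul, Units.val_neg]
      exact hTA
    · apply Units.ext
      simp only [Units.val_mul, Units.val_neg]
      exact hTB

/-! ### Commuting in the quotient -/

/-- Commuting in the quotient. -/
lemma commute_mk_iff (A B : GL (Fin 2) F) :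
    (QuotientGroup.mk A : GL (Fin 2) F ⧸ Subgroup.center (GL (Fin 2) F)) * (QuotientGroup.mk B) =
      (QuotientGroup.mk B) * (QuotientGroup.mk A) ↔ (A * B = B * A ∨ A * B = -(B * A)) := by
  constructor
  · intro h
    rw [← QuotientGroup.mk_mul, ← QuotientGroup.mk_mul, QuotientGroup.eq] at h
    have hc : (A * B)⁻¹ * (B * A) ∈ Subgroup.center (GL (Fin 2) F) := h
    set c := (A * B)⁻¹ * (B * A) with hcdef
    have h3 : B * A = A * B * c := by rw [hcdef]; group
    obtain ⟨s, hs⟩ := GeneralLinearGroup.mem_center_iff_val_mem_range_scalar.mp hc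
    have hdet : (GeneralLinearGroup.det c : Fˣ) = 1 := by
      rw [hcdef, map_mul, map_inv, map_mul, map_mul, mul_comm (GeneralLinearGroup.det B)]
      simp
    have hdet2 : (c : Matrix (Fin 2) (Fin 2) F).det = 1 := by
      have := congrArg Units.val hdet
      simpa using this
    rw [← hs, Matrix.scalar_apply, Matrix.det_diagonal] at hdet2
    simp only [Finset.prod_const, Finset.card_univ, Fintype.card_fin] at hdet2
    have h4 : (s - 1) * (s + 1) = 0 := by linear_combination hdet2
    rcases mul_eq_zero.mp h4 with h1 | h1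
    · left
      have hs1 : s = 1 := by linear_combination h1
      have hc1 : c = 1 := by
        apply Units.ext
        rw [← hs, hs1]
        simp
      rw [hc1, mul_one] at h3
      exact h3.symm
    · right
      have hs1 : s = -1 := by linear_combination h1
      have hc1 : c = -1 := by
        apply Units.ext
        rw [← hs, hs1]
        ext i j
        fin_cases i <;> fin_cases j <;> simp [Matrix.scalar_apply, Matrix.diagonal]
      rw [hc1, mul_neg, mul_one] at h3
      rw [h3, neg_neg]
  · rintro (h | h)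
    · rw [← QuotientGroup.mk_mul, ← QuotientGroup.mk_mul, h]
    · rw [← QuotientGroup.mk_mul, ← QuotientGroup.mk_mul, h, QuotientGroup.eq]
      have : (-(B * A))⁻¹ * (B * A) = -1 := by
        simp
      rw [this]
      exact neg_one_mem_center

/-- The elements of `GL₂` commuting with `J` up to sign. -/
noncomputable def param (hs : ¬IsSquare (-1 : F)) : Bool × {v : F × F // v ≠ 0} → GL (Fin 2) F
  | (true, v) => GeneralLinearGroup.mkOfDetNeZero !![v.1.1, v.1.2; -v.1.2, v.1.1] (by
      rw [det_fin_two_of]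
      intro h
      apply v.2
      have h2 : v.1.2 = 0 := by
        by_contra hb
        exact hs ⟨v.1.1 / v.1.2, by field_simp; linear_combination -h⟩
      have h1 : v.1.1 = 0 := by
        rw [h2] at h
        simpa using h
      exact Prod.ext h1 h2)
  | (false, v) => GeneralLinearGroup.mkOfDetNeZero !![v.1.1, v.1.2; v.1.2, -v.1.1] (by
      rw [det_fin_two_of]
      intro h
      apply v.2
      have h2 : v.1.2 = 0 := by
        by_contra hb
        exact hs ⟨v.1.1 / v.1.2, by field_simp; linear_combination h⟩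
      have h1 : v.1.1 = 0 := by
        rw [h2] at h
        simpa using h
      exact Prod.ext h1 h2)

lemma param_mem (hs : ¬IsSquare (-1 : F)) (p : Bool × {v : F × F // v ≠ 0}) :
    param hs p * J = J * param hs p ∨ param hs p * J = -(J * param hs p) := by
  obtain ⟨b, v⟩ := p
  cases b
  · right
    apply Units.ext
    simp only [Units.val_mul, Units.val_neg, J_coe]
    show !![v.1.1, v.1.2; v.1.2, -v.1.1] * !![0, 1; -1, 0] = -(!![0, 1; -1, 0] * !![v.1.1, v.1.2; v.1.2, -v.1.1])
    ext i j
    fin_cases i <;> fin_cases j <;> simp [Matrix.mul_apply, Fin.sum_univ_two]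
  · left
    apply Units.ext
    simp only [Units.val_mul, J_coe]
    show !![v.1.1, v.1.2; -v.1.2, v.1.1] * !![0, 1; -1, 0] = !![0, 1; -1, 0] * !![v.1.1, v.1.2; -v.1.2, v.1.1]
    ext i j
    fin_cases i <;> fin_cases j <;> simp [Matrix.mul_apply, Fin.sum_univ_two]

lemma param_bij (h2 : (2 : F) ≠ 0) (hs : ¬IsSquare (-1 : F)) :
    Function.Bijective (fun p : Bool × {v : F × F // v ≠ 0} =>
      (⟨param hs p, param_mem hs p⟩ : {g : GL (Fin 2) F // g * J = J * g ∨ g * J = -(J * g)})) := by
  constructor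
  · rintro ⟨b, v⟩ ⟨b', v'⟩ hh
    have hh2 : param hs (b, v) = param hs (b', v') := congrArg Subtype.val hh
    have key : ∀ i j, (param hs (b, v) : Matrix (Fin 2) (Fin 2) F) i j = (param hs (b', v') : Matrix (Fin 2) (Fin 2) F) i j := by
      intro i j; rw [hh2]
    have ev : ∀ (w : {v : F × F // v ≠ 0}), (param hs (true, w) : Matrix (Fin 2) (Fin 2) F) = !![w.1.1, w.1.2; -w.1.2, w.1.1] := fun _ => rfl
    have ev' : ∀ (w : {v : F × F // v ≠ 0}), (param hs (false, w) : Matrix (Fin 2) (Fin 2) F) = !![w.1.1, w.1.2; w.1.2, -w.1.1] := fun _ => rfl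
    cases b <;> cases b'
    · simp only [ev'] at key
      have e1 : v.1.1 = v'.1.1 := by simpa using key 0 0
      have e2 : v.1.2 = v'.1.2 := by simpa using key 0 1
      rw [Subtype.ext (Prod.ext e1 e2)]
    · simp only [ev, ev'] at key
      have e1 : v.1.1 = v'.1.1 := by simpa using key 0 0
      have e2 : v.1.2 = v'.1.2 := by simpa using key 0 1
      have e3 : v.1.2 = -v'.1.2 := by simpa using key 1 0
      have e4 : -v.1.1 = v'.1.1 := by simpa using key 1 1
      exfalso
      apply v.2
      have e5 : (2 : F) * v.1.2 = 0 := by linear_combination e2 + e3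
      have e6 : (2 : F) * v.1.1 = 0 := by linear_combination e1 - e4
      exact Prod.ext ((mul_eq_zero.mp e6).resolve_left h2) ((mul_eq_zero.mp e5).resolve_left h2)
    · simp only [ev, ev'] at key
      have e1 : v.1.1 = v'.1.1 := by simpa using key 0 0
      have e2 : v.1.2 = v'.1.2 := by simpa using key 0 1
      have e3 : -v.1.2 = v'.1.2 := by simpa using key 1 0
      have e4 : v.1.1 = -v'.1.1 := by simpa using key 1 1
      exfalso
      apply v.2
      have e5 : (2 : F) * v.1.2 = 0 := by linear_combination e2 - e3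
      have e6 : (2 : F) * v.1.1 = 0 := by linear_combination e1 + e4
      exact Prod.ext ((mul_eq_zero.mp e6).resolve_left h2) ((mul_eq_zero.mp e5).resolve_left h2)
    · simp only [ev] at key
      have e1 : v.1.1 = v'.1.1 := by simpa using key 0 0
      have e2 : v.1.2 = v'.1.2 := by simpa using key 0 1
      rw [Subtype.ext (Prod.ext e1 e2)]
  · rintro ⟨g, hg⟩
    set m := (g : Matrix (Fin 2) (Fin 2) F) with hm
    have hdet : m.det ≠ 0 := (Matrix.isUnits_det_units g).ne_zero
    have hv : ((m 0 0, m 0 1) : F × F) ≠ 0 → True := fun _ => trivial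
    rcases hg with hg | hg
    · have h3 : m * !![0, 1; -1, 0] = !![0, 1; -1, 0] * m := by
        have := congrArg Units.val hg
        simpa [J_coe, hm] using this
      have e1 : -m 0 1 = m 1 0 := by
        have := congrFun (congrFun h3 0) 0
        simpa [Matrix.mul_apply, Fin.sum_univ_two] using this
      have e2 : m 0 0 = m 1 1 := by
        have := congrFun (congrFun h3 0) 1
        simpa [Matrix.mul_apply, Fin.sum_univ_two] using this
      have hne : ((m 0 0, m 0 1) : F × F) ≠ 0 := by
        intro h0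
        have h00 : m 0 0 = 0 := congrArg Prod.fst h0
        have h01 : m 0 1 = 0 := congrArg Prod.snd h0
        apply hdet
        rw [Matrix.det_fin_two, ← e2, h00, h01]
        simp
      refine ⟨(true, ⟨(m 0 0, m 0 1), hne⟩), ?_⟩
      apply Subtype.ext
      apply Units.ext
      show !![m 0 0, m 0 1; -m 0 1, m 0 0] = m
      ext i j
      fin_cases i <;> fin_cases j
      · rfl
      · rfl
      · simpa using e1
      · simpa using e2
    · have h3 : m * !![0, 1; -1, 0] = -(!![0, 1; -1, 0] * m) := by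
        have := congrArg Units.val hg
        simpa [J_coe, hm] using this
      have e1 : -m 0 1 = -m 1 0 := by
        have := congrFun (congrFun h3 0) 0
        rw [Matrix.neg_apply] at this
        simpa [Matrix.mul_apply, Fin.sum_univ_two] using this
      have e2 : m 0 0 = -m 1 1 := by
        have := congrFun (congrFun h3 0) 1
        rw [Matrix.neg_apply] at this
        simpa [Matrix.mul_apply, Fin.sum_univ_two] using this
      have e1' : m 0 1 = m 1 0 := neg_injective e1
      have hne : ((m 0 0, m 0 1) : F × F) ≠ 0 := by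
        intro h0
        have h00 : m 0 0 = 0 := congrArg Prod.fst h0
        have h01 : m 0 1 = 0 := congrArg Prod.snd h0
        apply hdet
        have h11 : m 1 1 = 0 := by
          rw [h00] at e2
          simpa using e2.symm
        rw [Matrix.det_fin_two, h11, h01]
        simp
      refine ⟨(false, ⟨(m 0 0, m 0 1), hne⟩), ?_⟩
      apply Subtype.ext
      apply Units.ext
      show !![m 0 0, m 0 1; m 0 1, -m 0 0] = m
      ext i j
      fin_cases i <;> fin_cases j
      · rfl
      · rfl
      · simpa using e1'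
      · simp [e2]

section Main

variable {G' : Type*} [Group G']

lemma mem_conj_centralizer (g t z : G') :
    t ∈ MulAut.conj g • Subgroup.centralizer ({z} : Set G') ↔ t * (g * z * g⁻¹) = (g * z * g⁻¹) * t := by
  rw [Subgroup.mem_pointwise_smul_iff_inv_smul_mem, Subgroup.mem_centralizer_singleton_iff]
  simp only [MulAut.smul_def, map_inv, MulAut.conj_inv_apply]
  constructor
  · intro h
    calc t * (g * z * g⁻¹) = g * (g⁻¹ * t * g * z) * g⁻¹ := by group
      _ = g * (z * (g⁻¹ * t * g)) * g⁻¹ := by rw [h]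
      _ = _ := by group
  · intro h
    calc g⁻¹ * t * g * z = g⁻¹ * (t * (g * z * g⁻¹)) * g := by group
      _ = g⁻¹ * ((g * z * g⁻¹) * t) * g := by rw [h]
      _ = _ := by group

lemma card_comap_mk {P : Type*} [Group P] [Finite P] (Z : Subgroup P) [Z.Normal] (C : Subgroup (P ⧸ Z)) :
    Nat.card (C.comap (QuotientGroup.mk' Z)) = Nat.card C * Nat.card Z := by
  have h1 := Subgroup.card_mul_index (C.comap (QuotientGroup.mk' Z))
  have h2 := Subgroup.card_mul_index C
  have h3 : (C.comap (QuotientGroup.mk' Z)).index = C.index :=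
    Subgroup.index_comap_of_surjective _ (QuotientGroup.mk'_surjective Z)
  have h4 := Subgroup.card_eq_card_quotient_mul_card_subgroup Z
  have h5 : C.index ≠ 0 := Subgroup.index_ne_zero_of_finite
  rw [h3, h4, ← h2] at h1
  have h6 : Nat.card (C.comap (QuotientGroup.mk' Z)) * C.index = (Nat.card C * Nat.card Z) * C.index := by
    rw [h1]; ring
  exact Nat.eq_of_mul_eq_mul_right (Nat.pos_of_ne_zero h5) h6

end Main

section Card

variable {q k : ℕ} [hqp : Fact q.Prime]

local notation "F₀" => ZMod q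
local notation "P" => GL (Fin 2) (ZMod q)
local notation "Z₀" => Subgroup.center (GL (Fin 2) (ZMod q))
local notation "G₀" => (GL (Fin 2) (ZMod q) ⧸ Subgroup.center (GL (Fin 2) (ZMod q)))

lemma card_center : Nat.card Z₀ = q - 1 := by
  rw [GeneralLinearGroup.center_eq_range_scalar]
  have hinj : Function.Injective (GeneralLinearGroup.scalar (Fin 2) : (ZMod q)ˣ →* P) := by
    intro a b hab
    have h1 := congrArg (fun u : P => (u : Matrix (Fin 2) (Fin 2) (ZMod q)) 0 0) hab
    simp only [GeneralLinearGroup.scalar, Units.coe_map] at h1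
    apply Units.ext
    simpa using h1
  rw [Nat.card_congr (MonoidHom.ofInjective hinj).toEquiv.symm, Nat.card_eq_fintype_card, ZMod.card_units]

/-- The centralizer of `J` in `PGL₂`. -/
noncomputable def CJ : Subgroup G₀ := Subgroup.centralizer ({(QuotientGroup.mk (J : P) : G₀)} : Set G₀)

lemma card_comap_CJ (h2 : (2 : ZMod q) ≠ 0) (hs : ¬IsSquare (-1 : ZMod q)) :
    Nat.card ((CJ (q := q)).comap (QuotientGroup.mk' Z₀)) = 2 * (q ^ 2 - 1) := by
  have e : ((CJ (q := q)).comap (QuotientGroup.mk' Z₀) : Set P) = {g : P | g * J = J * g ∨ g * J = -(J * g)} := by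
    ext g
    simp only [Subgroup.coe_comap, Set.mem_preimage, SetLike.mem_coe, CJ, Subgroup.mem_centralizer_singleton_iff,
      QuotientGroup.mk'_apply, Set.mem_setOf_eq]
    exact commute_mk_iff g J
  have e2 : Nat.card ((CJ (q := q)).comap (QuotientGroup.mk' Z₀)) =
      Nat.card {g : P // g * J = J * g ∨ g * J = -(J * g)} := by
    apply Nat.card_congr
    exact Equiv.subtypeEquivRight (fun g => by
      have := Set.ext_iff.mp e g
      simpa using this)
  rw [e2, ← Nat.card_congr (Equiv.ofBijective _ (param_bij h2 hs)), Nat.card_prod, Nat.card_eq_fintype_card (α := Bool)]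
  have h3 : Nat.card {v : ZMod q × ZMod q // v ≠ 0} = q ^ 2 - 1 := by
    rw [Nat.card_eq_fintype_card, Fintype.card_subtype_compl]
    simp [ZMod.card, sq]
  rw [h3]
  simp

lemma J_not_center : (J : P) ∉ Z₀ := by
  intro h
  obtain ⟨a, ha⟩ := GeneralLinearGroup.mem_center_iff_val_mem_range_scalar.mp h
  have h1 := congrFun (congrFun ha 0) 1
  simp [J_coe, Matrix.scalar_apply, Matrix.diagonal] at h1

lemma factorization_two {n a m : ℕ} (hn : n = 2 ^ a * m) (hm : Odd m) : n.factorization 2 = a := by
  have hm0 : m ≠ 0 := hm.pos.ne'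
  rw [hn, Nat.factorization_mul (by positivity) hm0, Finsupp.add_apply, Nat.Prime.factorization_pow Nat.prime_two]
  have : m.factorization 2 = 0 := Nat.factorization_eq_zero_of_not_dvd (by
    intro h
    exact (Nat.not_even_iff_odd.mpr hm) (even_iff_two_dvd.mpr h))
  simp [this]

theorem main (hk : q + 1 = 2 ^ k) (hq : 7 ≤ q) (H : Sylow 2 G₀) (x : G₀) :
    (H : Subgroup G₀) ⊓ MulAut.conj x • (H : Subgroup G₀) ≠ ⊥ := by
  have hk3 : 3 ≤ k := by
    by_contra hlt
    have : k ≤ 2 := by omega
    have : 2 ^ k ≤ 2 ^ 2 := Nat.pow_le_pow_right (by norm_num) this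
    omega
  obtain ⟨j, rfl⟩ : ∃ j, k = j + 3 := ⟨k - 3, by omega⟩
  have hpow : 2 ^ (j + 3) = 8 * 2 ^ j := by ring
  have hq4 : q % 4 = 3 := by omega
  have hs : ¬IsSquare (-1 : ZMod q) := by
    rw [ZMod.exists_sq_eq_neg_one_iff]
    simpa using hq4
  have h2 : (2 : ZMod q) ≠ 0 := by
    have : ((2 : ℕ) : ZMod q) ≠ 0 := by
      rw [Ne, ZMod.natCast_eq_zero_iff]
      intro hd
      have := Nat.le_of_dvd (by norm_num) hd
      omega
    simpa using this
  -- cardinalities
  have hq1 : 0 < q - 1 := by omega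
  have hcardC : Nat.card (CJ (q := q)) = 2 ^ (j + 4) := by
    have h3 := card_comap_mk Z₀ (CJ (q := q))
    rw [card_comap_CJ h2 hs, card_center] at h3
    have h4 : 2 * (q ^ 2 - 1) = (2 ^ (j + 4)) * (q - 1) := by
      obtain ⟨r, rfl⟩ : ∃ r, q = r + 1 := ⟨q - 1, by omega⟩
      have : r + 1 + 1 = 8 * 2 ^ j := by omega
      have e1 : (r + 1) ^ 2 - 1 = r * (r + 2) := by
        have : (r + 1) ^ 2 = r * (r + 2) + 1 := by ring
        omega
      rw [e1]
      simp only [Nat.add_sub_cancel]
      have e2 : r + 2 = 8 * 2 ^ j := by omega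
      rw [e2, pow_add]
      ring
    rw [h4] at h3
    exact (Nat.eq_of_mul_eq_mul_right hq1 h3).symm
  have hcardG : Nat.card G₀ = 2 ^ (j + 4) * ((2 ^ (j + 2) - 1) * q) := by
    have h3 := Subgroup.card_eq_card_quotient_mul_card_subgroup Z₀
    rw [card_center, Matrix.card_GL_field] at h3
    simp only [Fin.prod_univ_two, Fin.val_zero, Fin.val_one, pow_zero, pow_one, ZMod.card] at h3
    have h4 : (q ^ 2 - 1) * (q ^ 2 - q) = (2 ^ (j + 4) * ((2 ^ (j + 2) - 1) * q)) * (q - 1) := by
      obtain ⟨r, rfl⟩ : ∃ r, q = r + 1 := ⟨q - 1, by omega⟩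
      have e0 : r + 2 = 8 * 2 ^ j := by omega
      have e1 : (r + 1) ^ 2 - 1 = r * (r + 2) := by
        have : (r + 1) ^ 2 = r * (r + 2) + 1 := by ring
        omega
      have e2 : (r + 1) ^ 2 - (r + 1) = r * (r + 1) := by
        have : (r + 1) ^ 2 = r * (r + 1) + (r + 1) := by ring
        omega
      have e3 : r = 2 * (2 ^ (j + 2) - 1) := by
        have : 2 ^ (j + 2) = 4 * 2 ^ j := by ring
        omega
      rw [e1, e2]
      simp only [Nat.add_sub_cancel]
      rw [e0]
      have e4 : 2 ^ (j + 4) = 16 * 2 ^ j := by ring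
      rw [e4]
      nth_rewrite 1 [e3]
      ring
    rw [h4] at h3
    exact (Nat.eq_of_mul_eq_mul_right hq1 h3).symm
  have hodd : Odd ((2 ^ (j + 2) - 1) * q) := by
    apply Odd.mul
    · have : 2 ^ (j + 2) = 2 * 2 ^ (j + 1) := by ring
      have h5 : 0 < 2 ^ (j + 1) := by positivity
      exact ⟨2 ^ (j + 1) - 1, by omega⟩
    · exact hqp.out.odd_of_ne_two (by omega)
  have hfac : (Nat.card G₀).factorization 2 = j + 4 := factorization_two hcardG hodd
  let C₀ : Sylow 2 G₀ := Sylow.ofCard (CJ (q := q)) (by rw [hcardC, hfac])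
  have hC₀ : (C₀ : Subgroup G₀) = CJ (q := q) := Sylow.coe_ofCard _ _
  obtain ⟨g, hg⟩ := MulAction.exists_smul_eq G₀ C₀ H
  obtain ⟨g₀, rfl⟩ := QuotientGroup.mk_surjective g
  obtain ⟨x₀, rfl⟩ := QuotientGroup.mk_surjective x
  have hH : (H : Subgroup G₀) = MulAut.conj (QuotientGroup.mk g₀ : G₀) • CJ (q := q) := by
    rw [← hg, Sylow.smul_def, Sylow.pointwise_smul_def, hC₀]
  set A : P := g₀ * J * g₀⁻¹ with hA
  set B : P := x₀ * A * x₀⁻¹ with hB
  have hAA : A * A = -1 := by
    calc A * A = g₀ * (J * J) * g₀⁻¹ := by rw [hA]; group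
      _ = -1 := by rw [J_sq]; simp
  have hBB : B * B = -1 := by
    calc B * B = x₀ * (A * A) * x₀⁻¹ := by rw [hB]; group
      _ = -1 := by rw [hAA]; simp
  have trA : Matrix.trace (A : Matrix (Fin 2) (Fin 2) (ZMod q)) = 0 := by
    have : (A : Matrix (Fin 2) (Fin 2) (ZMod q)) = (g₀ : Matrix (Fin 2) (Fin 2) (ZMod q)) * (J : P) * ((g₀⁻¹ : P) : Matrix (Fin 2) (Fin 2) (ZMod q)) := rfl
    rw [this, Matrix.trace_units_conj, J_trace]
  have trB : Matrix.trace (B : Matrix (Fin 2) (Fin 2) (ZMod q)) = 0 := by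
    have : (B : Matrix (Fin 2) (Fin 2) (ZMod q)) = (x₀ : Matrix (Fin 2) (Fin 2) (ZMod q)) * (A : P) * ((x₀⁻¹ : P) : Matrix (Fin 2) (Fin 2) (ZMod q)) := rfl
    rw [this, Matrix.trace_units_conj, trA]
  have hAc : A ∉ Z₀ := by
    intro hc
    apply J_not_center (q := q)
    have h6 : g₀⁻¹ * A * g₀ = J := by rw [hA]; group
    have h7 : g₀⁻¹ * A = A * g₀⁻¹ := Subgroup.mem_center_iff.mp hc g₀⁻¹
    have h4 : J = A := by rw [← h6, h7]; group
    rw [h4]; exact hc
  obtain ⟨T, hT1, hT2, hT3⟩ := exists_T h2 hs A B hAA hBB trA trB hAc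
  intro hbot
  have hmem : (QuotientGroup.mk T : G₀) ∈ (H : Subgroup G₀) ⊓ MulAut.conj (QuotientGroup.mk x₀ : G₀) • (H : Subgroup G₀) := by
    refine Subgroup.mem_inf.mpr ⟨?_, ?_⟩
    · rw [hH, CJ, mem_conj_centralizer]
      have := (commute_mk_iff T A).mpr hT2
      rw [hA] at this
      simpa only [QuotientGroup.mk_mul, QuotientGroup.mk_inv] using this
    · rw [hH, CJ, smul_smul, ← map_mul, mem_conj_centralizer]
      have := (commute_mk_iff T B).mpr hT3
      rw [hB, hA] at this
      have e1 : (QuotientGroup.mk (x₀ * (g₀ * J * g₀⁻¹) * x₀⁻¹) : G₀) =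
          ((QuotientGroup.mk x₀ : G₀) * QuotientGroup.mk g₀) * QuotientGroup.mk J *
            ((QuotientGroup.mk x₀ : G₀) * QuotientGroup.mk g₀)⁻¹ := by
        simp only [QuotientGroup.mk_mul, QuotientGroup.mk_inv]
        group
      rw [e1] at this
      exact this
  rw [hbot, Subgroup.mem_bot, QuotientGroup.eq_one_iff] at hmem
  exact hT1 hmem

end Card

end Cfsg.Agent.Lib.KS2.PGLSyl
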