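import Mathlib
import Cfsg.Agent.Lib.KS2.PSL2
import Cfsg.Agent.Lib.KS2.TorusPow

set_option autoImplicit false
set_option linter.unusedSimpArgs false
set_option linter.unusedVariables false

namespace Cfsg.Agent.Lib.KS2.SL2

open Matrix
open scoped MatrixGroups

variable {F : Type*} [Field F]

lemma char_two_of_dvd_card [Fintype F] (h2 : 2 ∣ Fintype.card F) : CharP F 2 := by
  obtain ⟨p, hp⟩ := CharP.exists F
  obtain ⟨n, hpp, hq⟩ := FiniteField.card F p
  rw [hq] at h2
  have := (Nat.prime_two.dvd_of_dvd_pow h2)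
  have h3 := (Nat.prime_dvd_prime_iff_eq Nat.prime_two hpp).mp this
  rw [← h3] at hp
  exact hp

lemma two_eq_zero_of_char [CharP F 2] : (2 : F) = 0 := by
  have := CharP.cast_eq_zero F 2
  exact_mod_cast this

lemma pi_injective_char2 [CharP F 2] :
    Function.Injective (pi : SL(2, F) → Matrix.ProjectiveSpecialLinearGroup (Fin 2) F) := by
  rw [injective_iff_map_eq_one]
  intro g hg
  obtain ⟨h01, h10, h3⟩ := (pi_eq_one_iff g).mp hg
  have hd := det_rel g
  have h2 : (2 : F) = 0 := two_eq_zero_of_char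
  rw [h01, h10, ← h3] at hd
  have h4 : ((g : Matrix (Fin 2) (Fin 2) F) 0 0 - 1) ^ 2 = 0 := by
    linear_combination hd - ((g : Matrix (Fin 2) (Fin 2) F) 0 0 - 1) * h2
  have h5 : (g : Matrix (Fin 2) (Fin 2) F) 0 0 = 1 := by
    have := pow_eq_zero_iff (n := 2) (by norm_num) |>.mp h4
    linear_combination this
  apply ext4
  · simpa using h5
  · simpa using h01
  · simpa using h10
  · simp [← h3, h5]

/-- An Artin–Schreier-anisotropic value. -/
lemma exists_anisotropic [Fintype F] : [CharP F 2] → ∃ ν : F, ∀ u : F, u ^ 2 - 1 * u + ν ≠ 0 := by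
  intro _
  by_contra hno
  push Not at hno
  have h2 : (2 : F) = 0 := two_eq_zero_of_char
  -- `u ↦ u² - u` is surjective yet not injective
  have hs : Function.Surjective (fun u : F => u ^ 2 - 1 * u) := by
    intro ν
    obtain ⟨u, hu⟩ := hno (-ν)
    exact ⟨u, by simp only; linear_combination hu⟩
  have hi := Finite.injective_iff_surjective.mpr hs
  have h0 : (fun u : F => u ^ 2 - 1 * u) 0 = (fun u : F => u ^ 2 - 1 * u) 1 := by simp
  have := hi h0
  exact zero_ne_one this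

/-- The key point: a vector `(x,y)` of norm one with `g (x,y)` of norm one. -/
lemma exists_norm_one_pair [Fintype F] [CharP F 2] (ν : F) (hν : ∀ u : F, u ^ 2 - 1 * u + ν ≠ 0)
    (g : SL(2, F)) : ∃ x y : F, nform 1 ν x y = 1 ∧
      nform 1 ν ((g : Matrix (Fin 2) (Fin 2) F) 0 0 * x + (g : Matrix (Fin 2) (Fin 2) F) 0 1 * y)
        ((g : Matrix (Fin 2) (Fin 2) F) 1 0 * x + (g : Matrix (Fin 2) (Fin 2) F) 1 1 * y) = 1 := by
  have h2 : (2 : F) = 0 := two_eq_zero_of_char
  have hrc : ringChar F = 2 := ringChar.eq F 2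
  set A := (g : Matrix (Fin 2) (Fin 2) F) 0 0
  set B := (g : Matrix (Fin 2) (Fin 2) F) 0 1
  set C := (g : Matrix (Fin 2) (Fin 2) F) 1 0
  set D := (g : Matrix (Fin 2) (Fin 2) F) 1 1
  have hd : A * D - B * C = 1 := det_rel g
  have hsq : ∀ e : F, ∃ r : F, r ^ 2 = e := by
    intro e
    obtain ⟨r, hr⟩ := FiniteField.isSquare_of_char_two hrc e
    exact ⟨r, by rw [hr]; ring⟩
  obtain ⟨a, ha⟩ := hsq (A ^ 2 + A * C + ν * C ^ 2 + 1)
  obtain ⟨b, hb⟩ := hsq (B ^ 2 + B * D + ν * D ^ 2 + ν)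
  -- nonzero vector killed by `a x + b y`
  obtain ⟨x₀, y₀, hne, hl⟩ : ∃ x₀ y₀ : F, ¬ (x₀ = 0 ∧ y₀ = 0) ∧ a * x₀ + b * y₀ = 0 := by
    by_cases hab : a = 0 ∧ b = 0
    · exact ⟨1, 0, by simp, by simp [hab.1, hab.2]⟩
    · refine ⟨b, a, fun h => hab ⟨h.2, h.1⟩, ?_⟩
      linear_combination a * b * h2
  have hN : nform 1 ν x₀ y₀ ≠ 0 := fun h => hne (nform_eq_zero 1 ν hν h)
  obtain ⟨l, hl2⟩ := hsq (nform 1 ν x₀ y₀)⁻¹
  have hl0 : l ≠ 0 := by
    rintro rfl
    rw [zero_pow (by norm_num)] at hl2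
    exact inv_ne_zero hN hl2.symm
  have hlN : l ^ 2 * nform 1 ν x₀ y₀ = 1 := by
    rw [hl2]; exact inv_mul_cancel₀ hN
  refine ⟨l * x₀, l * y₀, ?_, ?_⟩
  · have e1 : nform 1 ν (l * x₀) (l * y₀) = l ^ 2 * nform 1 ν x₀ y₀ := by simp only [nform]; ring
    rw [e1, hlN]
  · -- difference of the two forms
    have hmain : nform 1 ν (A * x₀ + B * y₀) (C * x₀ + D * y₀) = nform 1 ν x₀ y₀ := by
      simp only [nform]
      have h3 : (a * x₀ + b * y₀) ^ 2 = 0 := by rw [hl]; ring
      have h4 : a ^ 2 * x₀ ^ 2 + b ^ 2 * y₀ ^ 2 = 0 := by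
        linear_combination h3 - a * b * x₀ * y₀ * h2
      rw [ha, hb] at h4
      linear_combination h4 + x₀ * y₀ * hd + (-x₀ ^ 2 + (A * B + B * C + ν * C * D) * x₀ * y₀ - ν * y₀ ^ 2) * h2
    have e1 : nform 1 ν (A * (l * x₀) + B * (l * y₀)) (C * (l * x₀) + D * (l * y₀)) =
        l ^ 2 * nform 1 ν (A * x₀ + B * y₀) (C * x₀ + D * y₀) := by simp only [nform]; ring
    rw [e1, hmain, hlN]

/-- The subgroup of upper unitriangular matrices, as a homomorphism from `F`. -/
def uxHom : Multiplicative F →* SL(2, F) where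
  toFun r := ux (1 : F) (Multiplicative.toAdd r) (by ring)
  map_one' := by
    apply ext4 <;> simp
  map_mul' r s := by
    apply ext4 <;> simp [mul00, mul01, mul10, mul11, add_comm]

lemma uxHom_apply (r : Multiplicative F) : uxHom r = ux (1 : F) (Multiplicative.toAdd r) (by ring) := rfl

lemma uxHom_injective : Function.Injective (uxHom : Multiplicative F → SL(2, F)) := by
  rw [injective_iff_map_eq_one]
  intro r hr
  have := (ux_one_eq_one_iff _).mp hr
  exact this

theorem aba [Fintype F] (h2 : 2 ∣ Fintype.card F) :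
    ∃ A B : Subgroup (Matrix.ProjectiveSpecialLinearGroup (Fin 2) F),
      IsCyclic A ∧ Nat.card A = Fintype.card F + 1 ∧ IsMulCommutative B ∧ (∀ b ∈ B, b * b = 1) ∧
        Nat.card B = Fintype.card F ∧
        ∀ g : Matrix.ProjectiveSpecialLinearGroup (Fin 2) F, ∃ a ∈ A, ∃ b ∈ B, ∃ c ∈ A, g = a * b * c := by
  have hchar : CharP F 2 := char_two_of_dvd_card h2
  obtain ⟨ν, hν⟩ := exists_anisotropic (F := F)
  have hinj := pi_injective_char2 (F := F)
  have h20 : (2 : F) = 0 := two_eq_zero_of_char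
  refine ⟨(torus 1 ν).map pi, (uxHom (F := F)).range.map pi, ?_, ?_, ?_, ?_, ?_, ?_⟩
  · have := torus_isCyclic 1 ν hν
    exact (Subgroup.equivMapOfInjective (torus 1 ν) pi hinj).isCyclic.mp this
  · rw [Nat.card_congr (Subgroup.equivMapOfInjective (torus 1 ν) pi hinj).toEquiv.symm]
    exact card_torus 1 ν hν
  · constructor
    constructor
    rintro ⟨_, _, ⟨r, rfl⟩, rfl⟩ ⟨_, _, ⟨s, rfl⟩, rfl⟩
    apply Subtype.ext
    show pi (uxHom r) * pi (uxHom s) = pi (uxHom s) * pi (uxHom r)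
    rw [← map_mul, ← map_mul, ← map_mul, ← map_mul, mul_comm]
  · rintro _ ⟨_, ⟨r, rfl⟩, rfl⟩
    show pi (uxHom r) * pi (uxHom r) = 1
    rw [← map_mul, ← map_mul]
    have : r * r = 1 := by
      apply Multiplicative.toAdd.injective
      show Multiplicative.toAdd r + Multiplicative.toAdd r = 0
      linear_combination (Multiplicative.toAdd r) * h20
    rw [this, map_one, map_one]
  · rw [Nat.card_congr (Subgroup.equivMapOfInjective _ pi hinj).toEquiv.symm]
    rw [Nat.card_congr (MonoidHom.ofInjective (uxHom_injective (F := F))).toEquiv.symm]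
    simp
  · intro g
    obtain ⟨g', rfl⟩ := pi_surj g
    obtain ⟨x, y, hxy, hxy'⟩ := exists_norm_one_pair ν hν g'
    set c := tmk 1 ν x y hxy with hc
    set a := tmk 1 ν _ _ hxy' with ha
    have hu : a⁻¹ * g' * c = ux (1 : F) ((a⁻¹ * g' * c : SL(2, F)) 0 1) (by ring) := by
      have hxy2 : nform 1 ν _ _ = 1 := hxy'
      simp only [nform] at hxy2
      have h00 : (a⁻¹ * g' * c : SL(2, F)) 0 0 = 1 := by
        simp only [mul00, mul10, mul01, mul11, inv00, inv01, inv10, inv11, ha, hc, tmk, mk00, mk01, mk10, mk11]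
        linear_combination hxy2
      have h10 : (a⁻¹ * g' * c : SL(2, F)) 1 0 = 0 := by
        simp only [mul00, mul10, mul01, mul11, inv00, inv01, inv10, inv11, ha, hc, tmk, mk00, mk01, mk10, mk11]
        ring
      have hdet := det_rel (a⁻¹ * g' * c)
      rw [h00, h10] at hdet
      apply ext4
      · simpa using h00
      · simp
      · simpa using h10
      · simp only [ux11]
        linear_combination hdet
    refine ⟨pi a, ⟨a, tmk_mem _ _ _ _ _, rfl⟩, pi (ux (1 : F) ((a⁻¹ * g' * c : SL(2, F)) 0 1) (by ring)),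
      ⟨_, ⟨Multiplicative.ofAdd ((a⁻¹ * g' * c : SL(2, F)) 0 1), rfl⟩, rfl⟩, pi c⁻¹, ⟨c⁻¹, inv_mem (tmk_mem _ _ _ _ _), rfl⟩, ?_⟩
    rw [← hu]
    simp only [map_mul, map_inv]
    group

end Cfsg.Agent.Lib.KS2.SL2
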