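import Mathlib
import Cfsg.Agent.Lib.KS2.SSConj
import Cfsg.Agent.Lib.KS2.PGraph
import Cfsg.Agent.Lib.Known3.PSLElements

/-!
# Element orders of `PSL₃(q)`: the forward direction.
-/

set_option autoImplicit false
set_option linter.unusedSimpArgs false
set_option linter.unusedVariables false
set_option linter.deprecated false

universe u

namespace Cfsg.Agent.Lib.KS2.PSL3

open Polynomial Matrix Cfsg.Agent.Lib.Known3 Cfsg.Agent.Lib.Known3.PSLBasic Cfsg.Agent.Lib.Known3.PSLCyclic

variable {F : Type u} [Field F] [Fintype F]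

/-- A monic irreducible quadratic divides `X^(q+1) - δ`. -/
lemma quad_dvd {f : F[X]} (hf : Irreducible f) (hm : f.Monic) (hd : f.natDegree = 2) :
    f ∣ X ^ (Fintype.card F + 1) - C (f.coeff 0) := by
  classical
  haveI : Fact (Irreducible f) := ⟨hf⟩
  let K := AdjoinRoot f
  let ρ : K := AdjoinRoot.root f
  have hρ : aeval ρ f = 0 := AdjoinRoot.eval₂_root f
  have hf2 : f = X ^ 2 + C (f.coeff 1) * X + C (f.coeff 0) := by
    conv_lhs => rw [Polynomial.as_sum_range_C_mul_X_pow' f (n := 3) (by omega)]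
    simp only [Finset.sum_range_succ, Finset.sum_range_zero, zero_add, pow_zero, pow_one, mul_one]
    have : f.coeff 2 = 1 := by
      have := hm.coeff_natDegree
      rwa [hd] at this
    rw [this]
    simp
    ring
  have hquad : ∀ z : K, aeval z f = z ^ 2 + algebraMap F K (f.coeff 1) * z + algebraMap F K (f.coeff 0) := by
    intro z
    have h := congrArg (aeval z) hf2
    rw [map_add, map_add, map_pow, map_mul, aeval_X, aeval_C, aeval_C] at h
    exact h
  have h1 := hquad ρ
  rw [hρ] at h1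
  have hexp : aeval (ρ ^ Fintype.card F) f = 0 := by
    have h2 : aeval (ρ ^ Fintype.card F) f = aeval ρ (expand F (Fintype.card F) f) := by
      rw [expand_aeval]
    rw [h2, FiniteField.expand_card, map_pow, hρ, zero_pow Fintype.card_ne_zero]
  have h3 := hquad (ρ ^ Fintype.card F)
  rw [hexp] at h3
  have hne : ρ ^ Fintype.card F ≠ ρ := by
    intro heq
    obtain ⟨c, hc⟩ := mem_range_of_pow_card_eq (F := F) (E := K) heq
    have h4 : (X - C c) ∣ f := by
      rw [dvd_iff_isRoot, IsRoot, ← (AdjoinRoot.coe_injective' (f := f)).eq_iff]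
      have : ((eval c f : F) : K) = aeval (algebraMap F K c) f := by
        rw [aeval_algebraMap_apply]
        simp [Polynomial.aeval_def, Polynomial.eval₂_eq_eval_map]
        rfl
      rw [this, hc, hρ]
      simp
    obtain ⟨g, hg⟩ := h4
    have h5 := (hf.isUnit_or_isUnit hg)
    rcases h5 with h5 | h5
    · have := natDegree_eq_zero_of_isUnit h5
      simp at this
    · have h6 := natDegree_eq_zero_of_isUnit h5
      rw [hg, natDegree_mul (X_sub_C_ne_zero c) h5.ne_zero, natDegree_X_sub_C, h6] at hd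
      omega
  have h4 : ρ ^ Fintype.card F = -algebraMap F K (f.coeff 1) - ρ := by
    have h5 : (ρ ^ Fintype.card F - ρ) * (ρ ^ Fintype.card F + ρ + algebraMap F K (f.coeff 1)) = 0 := by
      linear_combination h1 - h3
    rcases mul_eq_zero.mp h5 with h6 | h6
    · exact absurd (sub_eq_zero.mp h6) hne
    · linear_combination h6
  have h5 : ρ ^ (Fintype.card F + 1) = algebraMap F K (f.coeff 0) := by
    rw [pow_succ, h4]
    linear_combination h1
  rw [← AdjoinRoot.mk_eq_zero]
  simp only [map_sub, map_pow, AdjoinRoot.mk_X, AdjoinRoot.mk_C]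
  rw [sub_eq_zero]
  exact h5

section Lin

variable {V : Type u} [AddCommGroup V] [Module F V] [FiniteDimensional F V]

/-- Powers of a restriction. -/
lemma restrict_pow_coe (T : Module.End F V) (W : Submodule F V) (hW : ∀ v ∈ W, T v ∈ W) (k : ℕ) (w : W) :
    (((T.restrict hW) ^ k) w : V) = (T ^ k) (w : V) := by
  induction k generalizing w with
  | zero => simp
  | succ k ih =>
    rw [pow_succ, pow_succ, Module.End.mul_apply, Module.End.mul_apply, ih]
    rfl

/-- An invariant line gives an eigenvalue. -/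
lemma exists_eigen_of_line (T : Module.End F V) (L : Submodule F V) (hL : ∀ v ∈ L, T v ∈ L)
    (h1 : Module.finrank F L = 1) : ∃ b : F, ∃ v₁ ∈ L, v₁ ≠ 0 ∧ (∀ v ∈ L, T v = b • v) ∧ ∀ v ∈ L, ∃ c : F, v = c • v₁ := by
  obtain ⟨v₁, hv₁, hgen⟩ := finrank_eq_one_iff'.mp h1
  obtain ⟨b, hb⟩ := hgen ⟨T v₁, hL _ v₁.2⟩
  have hb' : T (v₁ : V) = b • (v₁ : V) := by
    have := congrArg Subtype.val hb
    simpa using this.symm
  have hgen2 : ∀ v ∈ L, ∃ c : F, v = c • (v₁ : V) := by
    intro v hv
    obtain ⟨c, hc⟩ := hgen ⟨v, hv⟩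
    refine ⟨c, ?_⟩
    have := congrArg Subtype.val hc
    simpa using this.symm
  refine ⟨b, v₁, v₁.2, fun h => hv₁ (Subtype.ext h), ?_, hgen2⟩
  intro v hv
  obtain ⟨c, rfl⟩ := hgen2 v hv
  rw [map_smul, hb', smul_comm]

lemma pow_apply_of_eigen (T : Module.End F V) {b : F} {v : V} (h : T v = b • v) (k : ℕ) : (T ^ k) v = b ^ k • v := by
  induction k with
  | zero => simp
  | succ k ih =>
    rw [pow_succ, Module.End.mul_apply, h, map_smul, ih, smul_smul, pow_succ, mul_comm]

/-- If `T` is injective and `L` is an invariant line then `T^(q-1)` is trivial on it. -/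
lemma line_pow (T : Module.End F V) (hinj : ∀ v, T v = 0 → v = 0) (L : Submodule F V) (hL : ∀ v ∈ L, T v ∈ L)
    (h1 : Module.finrank F L = 1) (v : V) (hv : v ∈ L) : (T ^ (Fintype.card F - 1)) v = v := by
  obtain ⟨b, v₁, hv₁, hv₁0, hb, -⟩ := exists_eigen_of_line T L hL h1
  have hb0 : b ≠ 0 := by
    rintro rfl
    have := hb v₁ hv₁
    rw [zero_smul] at this
    exact hv₁0 (hinj _ this)
  rw [pow_apply_of_eigen T (hb v hv), FiniteField.pow_card_sub_one_eq_one b hb0, one_smul]

/-- The characteristic polynomial on an invariant line. -/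
lemma charpoly_line (T : Module.End F V) {a : F} (h1 : Module.finrank F V = 1) (ha : ∀ v, T v = a • v) :
    T.charpoly = X - C a := by
  have hm := LinearMap.charpoly_monic T
  have hd : T.charpoly.natDegree = 1 := by rw [LinearMap.charpoly_natDegree, h1]
  have he := hm.eq_X_add_C hd
  have hz := LinearMap.aeval_self_charpoly T
  rw [he] at hz
  obtain ⟨v, hv⟩ : ∃ v : V, v ≠ 0 := by
    haveI : Nontrivial V := Module.nontrivial_of_finrank_pos (R := F) (by omega)
    exact exists_ne 0
  have h2 := congrArg (fun Q : Module.End F V => Q v) hz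
  simp only [map_add, aeval_X, aeval_C, LinearMap.add_apply, ha, Module.algebraMap_end_apply, LinearMap.zero_apply] at h2
  rw [← add_smul] at h2
  have h3 : a + T.charpoly.coeff 0 = 0 := (smul_eq_zero.mp h2).resolve_right hv
  rw [he]
  have h4 : T.charpoly.coeff 0 = -a := by linear_combination h3
  rw [h4]
  simp [sub_eq_add_neg]

end Lin

/-- The scalar criterion. -/
lemma cls_pow_of_compl {n : ℕ} (x : Matrix.SpecialLinearGroup (Fin n) F) (t : ℕ) (c : F)
    (V₁ V₂ : Submodule F (Fin n → F)) (hc : IsCompl V₁ V₂)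
    (h1 : ∀ v ∈ V₁, ((Matrix.mulVecLin (x : Matrix (Fin n) (Fin n) F)) ^ t) v = c • v)
    (h2 : ∀ v ∈ V₂, ((Matrix.mulVecLin (x : Matrix (Fin n) (Fin n) F)) ^ t) v = c • v) :
    cls x ^ t = 1 := by
  rw [cls_pow_eq_one_iff]
  refine ⟨c, ?_⟩
  apply Matrix.toLin'.injective
  refine LinearMap.ext fun v => ?_
  have hv : v ∈ V₁ ⊔ V₂ := by rw [hc.2.eq_top]; trivial
  obtain ⟨a, ha, b, hb, rfl⟩ := Submodule.mem_sup.mp hv
  have e1 : Matrix.toLin' ((x : Matrix (Fin n) (Fin n) F) ^ t) = (Matrix.mulVecLin (x : Matrix (Fin n) (Fin n) F)) ^ t := by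
    rw [Matrix.toLin'_apply', Cfsg.Agent.Lib.KS2.PGraph.mulVecLin_pow]
  rw [e1, map_add, h1 a ha, h2 b hb]
  simp [Matrix.smul_mulVec]

lemma inj_mulVecLin {n : ℕ} (x : Matrix.SpecialLinearGroup (Fin n) F) (v : Fin n → F)
    (h : (Matrix.mulVecLin (x : Matrix (Fin n) (Fin n) F)) v = 0) : v = 0 := by
  have h1 : ((x⁻¹ : Matrix.SpecialLinearGroup (Fin n) F) : Matrix (Fin n) (Fin n) F) * (x : Matrix (Fin n) (Fin n) F) = 1 := by
    rw [← Matrix.SpecialLinearGroup.coe_mul]; simp
  have h2 : ((x⁻¹ : Matrix.SpecialLinearGroup (Fin n) F) : Matrix (Fin n) (Fin n) F) *ᵥ ((x : Matrix (Fin n) (Fin n) F) *ᵥ v) = v := by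
    rw [Matrix.mulVec_mulVec, h1, Matrix.one_mulVec]
  rw [← h2]
  have h3 : (x : Matrix (Fin n) (Fin n) F) *ᵥ v = 0 := h
  rw [h3, Matrix.mulVec_zero]

/-- The determinant formula. -/
lemma det_relation (x : Matrix.SpecialLinearGroup (Fin 3) F) {a : F} (g : F[X])
    (h : (Matrix.mulVecLin (x : Matrix (Fin 3) (Fin 3) F)).charpoly = (X - C a) * g) :
    a * g.coeff 0 = 1 := by
  have h1 := Matrix.det_eq_sign_charpoly_coeff (x : Matrix (Fin 3) (Fin 3) F)
  rw [x.2] at h1
  have h2 : (x : Matrix (Fin 3) (Fin 3) F).charpoly = (X - C a) * g := by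
    rw [← Matrix.charpoly_toLin', Matrix.toLin'_apply']
    exact h
  rw [h2, Polynomial.mul_coeff_zero] at h1
  simp at h1
  linear_combination -h1

/-- The set of orders. -/
def Good (q p m : ℕ) : Prop :=
  m ∣ (q ^ 2 + q + 1) / Nat.gcd 3 (q - 1) ∨ m ∣ (q ^ 2 - 1) / Nat.gcd 3 (q - 1) ∨ m ∣ q - 1 ∨
    m ∣ p * (q - 1) / Nat.gcd 3 (q - 1) ∨ (p = 2 ∧ m ∣ 4)

lemma num_facts (q p : ℕ) (hq : 2 ≤ q) : ∃ d k g₃ l, Nat.gcd 3 (q - 1) = d ∧ q - 1 = d * k ∧ 3 = d * g₃ ∧ q + 2 = d * l ∧
    (q ^ 2 - 1) / Nat.gcd 3 (q - 1) = (q + 1) * k ∧ p * (q - 1) / Nat.gcd 3 (q - 1) = p * k ∧ 0 < d := by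
  set d := Nat.gcd 3 (q - 1) with hd
  have hd0 : 0 < d := Nat.gcd_pos_of_pos_left _ (by norm_num)
  obtain ⟨k, hk⟩ : d ∣ q - 1 := Nat.gcd_dvd_right _ _
  obtain ⟨g₃, hg₃⟩ : d ∣ 3 := Nat.gcd_dvd_left _ _
  have hl : d ∣ q + 2 := by
    have : q + 2 = (q - 1) + 3 := by omega
    rw [this]
    exact Nat.dvd_add (Nat.gcd_dvd_right _ _) (Nat.gcd_dvd_left _ _)
  obtain ⟨l, hl⟩ := hl
  refine ⟨d, k, g₃, l, rfl, hk, hg₃, hl, ?_, ?_, hd0⟩
  · have h1 : q ^ 2 - 1 = d * ((q + 1) * k) := by
      have : q ^ 2 - 1 = (q + 1) * (q - 1) := by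
        obtain ⟨r, rfl⟩ : ∃ r, q = r + 1 := ⟨q - 1, by omega⟩
        have e : (r + 1) ^ 2 = (r + 1 + 1) * r + 1 := by ring
        simp [e]
      rw [this, hk]; ring
    rw [h1, Nat.mul_div_cancel_left _ hd0]
  · rw [hk, show p * (d * k) = d * (p * k) by ring, Nat.mul_div_cancel_left _ hd0]

lemma cA_three {q : ℕ} (hq : 2 ≤ q) : cA q 3 = (q ^ 2 + q + 1) / Nat.gcd 3 (q - 1) := by
  have h1 : cC q 3 = q ^ 2 + q + 1 := by
    rw [cC_eq_sum hq]
    simp [Finset.sum_range_succ]
    ring
  unfold cA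
  rw [h1]
  congr 1
  obtain ⟨r, rfl⟩ : ∃ r, q = r + 1 := ⟨q - 1, by omega⟩
  have e : (r + 1) ^ 2 + (r + 1) + 1 = 3 + r * (r + 3) := by ring
  simp only [Nat.add_sub_cancel]
  rw [e, Nat.gcd_add_mul_left_left]

/-- Powers in characteristic `p`. -/
lemma end_pow_char {W : Type u} [AddCommGroup W] [Module F W] [Nontrivial W] {p : ℕ} [hp : Fact p.Prime] [CharP F p]
    (S : Module.End F W) (b : F) {j s : ℕ} (hj : (S - algebraMap F _ b) ^ j = 0) (hjs : j ≤ p ^ s) :
    S ^ (p ^ s) = algebraMap F _ (b ^ (p ^ s)) := by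
  haveI : CharP (Module.End F W) p :=
    charP_of_injective_algebraMap (R := F) (A := Module.End F W) (FaithfulSMul.algebraMap_injective F _) p
  have h1 : Commute S (algebraMap F (Module.End F W) b) := (Algebra.commute_algebraMap_right b S)
  have h2 := sub_pow_char_pow_of_commute (p := p) (n := s) h1
  have h3 : (S - algebraMap F _ b) ^ (p ^ s) = 0 := by
    obtain ⟨i, hi⟩ := Nat.exists_eq_add_of_le hjs
    rw [hi, pow_add, hj, zero_mul]
  rw [h3] at h2
  rw [map_pow]
  exact (sub_eq_zero.mp h2.symm)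

variable {p : ℕ} [hp : Fact p.Prime] [CharP F p]

omit hp [CharP F p] in
lemma cls_pow_of_end {n : ℕ} (x : Matrix.SpecialLinearGroup (Fin n) F) (t : ℕ) (c : F)
    (h : ∀ v, ((Matrix.mulVecLin (x : Matrix (Fin n) (Fin n) F)) ^ t) v = c • v) : cls x ^ t = 1 :=
  cls_pow_of_compl x t c ⊤ ⊥ isCompl_top_bot (fun v _ => h v) (fun v _ => h v)

include hp in
theorem forward_line (x : Matrix.SpecialLinearGroup (Fin 3) F) (V₁ V₂ : Submodule F (Fin 3 → F)) (hc : IsCompl V₁ V₂)
    (hd1 : Module.finrank F V₁ = 1)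
    (hi1 : ∀ v ∈ V₁, (Matrix.mulVecLin (x : Matrix (Fin 3) (Fin 3) F)) v ∈ V₁)
    (hi2 : ∀ v ∈ V₂, (Matrix.mulVecLin (x : Matrix (Fin 3) (Fin 3) F)) v ∈ V₂) :
    Good (Fintype.card F) p (orderOf (cls x)) := by
  classical
  have hpp : p.Prime := hp.out
  set q := Fintype.card F with hq
  have hq2 : 2 ≤ q := Fintype.one_lt_card
  set T := Matrix.mulVecLin (x : Matrix (Fin 3) (Fin 3) F) with hT
  have hinj : ∀ v, T v = 0 → v = 0 := inj_mulVecLin x
  obtain ⟨d, k, g₃, l, hd, hk, hg₃, hl, ht1, ht2, hd0⟩ := num_facts q p hq2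
  obtain ⟨a, v₁, hv₁, hv₁0, ha, hgen⟩ := exists_eigen_of_line T V₁ hi1 hd1
  have ha0 : a ≠ 0 := by
    rintro rfl
    have := ha v₁ hv₁
    rw [zero_smul] at this
    exact hv₁0 (hinj _ this)
  have hfr : Module.finrank F V₁ + Module.finrank F V₂ = 3 := by
    have := Submodule.finrank_add_eq_of_isCompl hc
    simpa using this
  have hd2 : Module.finrank F V₂ = 2 := by omega
  set S := T.restrict hi2 with hS
  haveI : Nontrivial V₂ := Module.nontrivial_of_finrank_pos (R := F) (by omega)
  haveI : Nontrivial (Fin 3 → F) := inferInstance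
  have hA : (T.restrict hi1).charpoly = X - C a := by
    apply charpoly_line _ hd1
    intro v
    apply Subtype.ext
    exact ha v v.2
  have hχ : T.charpoly = (X - C a) * S.charpoly := by
    rw [SSConj.charpoly_isCompl T V₁ V₂ hc hi1 hi2, hA]
  have hdet : a * S.charpoly.coeff 0 = 1 := det_relation x _ hχ
  have hV₁ : ∀ t, ∀ v ∈ V₁, (T ^ t) v = a ^ t • v := fun t v hv => pow_apply_of_eigen T (ha v hv) t
  have hcoe : ∀ t (w : V₂), (T ^ t) (w : Fin 3 → F) = ((S ^ t) w : V₂) := by
    intro t w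
    rw [hS, restrict_pow_coe]
  have hinjS : ∀ w, S w = 0 → w = 0 := by
    intro w hw
    apply Subtype.ext
    apply hinj
    exact congrArg Subtype.val hw
  have hV₂end : ∀ (t : ℕ) (c : F), S ^ t = algebraMap F _ c → ∀ v ∈ V₂, (T ^ t) v = c • v := by
    intro t c hS' v hv
    have := hcoe t ⟨v, hv⟩
    rw [hS'] at this
    simpa [Module.algebraMap_end_apply] using this
  rcases Dichotomy.decomp_or_cyclic S with ⟨L₁, L₂, hLc, hL1, hL2, hi1', hi2'⟩ | ⟨pp, e, w₀, hirr, he, h1, h2⟩
  · -- the diagonal case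
    have hfrL : Module.finrank F L₁ + Module.finrank F L₂ = 2 := by
      have := Submodule.finrank_add_eq_of_isCompl hLc
      rwa [hd2] at this
    have hL1' : Module.finrank F L₁ ≠ 0 := fun h => hL1 (Submodule.finrank_eq_zero.mp h)
    have hL2' : Module.finrank F L₂ ≠ 0 := fun h => hL2 (Submodule.finrank_eq_zero.mp h)
    have h3 : cls x ^ (q - 1) = 1 := by
      apply cls_pow_of_compl x (q - 1) 1 V₁ V₂ hc
      · intro v hv
        rw [hV₁ _ v hv, FiniteField.pow_card_sub_one_eq_one a ha0]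
      · intro v hv
        have hv' : (⟨v, hv⟩ : V₂) ∈ L₁ ⊔ L₂ := by rw [hLc.2.eq_top]; trivial
        obtain ⟨w₁, hw₁, w₂, hw₂, hw⟩ := Submodule.mem_sup.mp hv'
        have e1 := line_pow S hinjS L₁ hi1' (by omega) w₁ hw₁
        have e2 := line_pow S hinjS L₂ hi2' (by omega) w₂ hw₂
        have e3 := hcoe (q - 1) ⟨v, hv⟩
        rw [← hw, map_add, e1, e2, hw] at e3
        rw [one_smul]
        exact e3
    exact Or.inr (Or.inr (Or.inl (orderOf_dvd_of_pow_eq_one h3)))
  · -- the cyclic case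
    set f := normalize pp with hf
    have hpp0 : pp ≠ 0 := hirr.ne_zero
    have hassoc : Associated pp f := associated_normalize pp
    have hfirr : Irreducible f := hassoc.irreducible hirr
    have hfm : f.Monic := Polynomial.monic_normalize hpp0
    have hcyc : SSConj.CycF S (f ^ e) w₀ := by
      refine ⟨?_, h2⟩
      intro r
      rw [h1]
      exact (hassoc.pow_pow).dvd_iff_dvd_left
    have hχS : S.charpoly = f ^ e := SSConj.charpoly_of_cyc (hfm.pow e) hcyc
    have hdeg : e * f.natDegree = 2 := by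
      have h3 := LinearMap.charpoly_natDegree S
      rw [hχS, natDegree_pow, hd2] at h3
      exact h3
    have hfdeg : 0 < f.natDegree := hfirr.natDegree_pos
    have hzero : aeval S (f ^ e) = 0 := by
      rw [← hχS]; exact LinearMap.aeval_self_charpoly S
    have he2 : e = 1 ∨ e = 2 := by
      have : e ∣ 2 := ⟨_, hdeg.symm⟩
      exact (Nat.dvd_prime Nat.prime_two).mp this
    rcases he2 with rfl | rfl
    · -- irreducible quadratic
      have hf2 : f.natDegree = 2 := by omega
      rw [pow_one] at hχS hzero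
      set δ := f.coeff 0 with hδ
      rw [hχS, ← hδ] at hdet
      have hδ0 : δ ≠ 0 := by
        rintro h0
        rw [h0, mul_zero] at hdet
        exact zero_ne_one hdet
      obtain ⟨g, hg⟩ := quad_dvd hfirr hfm hf2
      have h3 : S ^ (q + 1) = algebraMap F _ δ := by
        have h4 := congrArg (aeval S) hg
        rw [map_mul, hzero, zero_mul, map_sub, map_pow, aeval_X, aeval_C] at h4
        exact sub_eq_zero.mp h4
      have h4 : cls x ^ ((q + 1) * k) = 1 := by
        apply cls_pow_of_compl x _ (δ ^ k) V₁ V₂ hc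
        · intro v hv
          rw [hV₁ _ v hv]
          congr 1
          -- a ^ ((q+1) k) = δ ^ k
          have h5 : a ^ ((q + 2) * k) = 1 := by
            rw [hl, show d * l * k = (d * k) * l by ring, ← hk, pow_mul,
              FiniteField.pow_card_sub_one_eq_one a ha0, one_pow]
          have h6 : a ^ k * δ ^ k = 1 := by rw [← mul_pow, hdet, one_pow]
          calc a ^ ((q + 1) * k) = a ^ ((q + 1) * k) * (a ^ k * δ ^ k) := by rw [h6, mul_one]
            _ = a ^ ((q + 2) * k) * δ ^ k := by ring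
            _ = δ ^ k := by rw [h5, one_mul]
        · apply hV₂end
          rw [pow_mul, h3, map_pow]
      have h5 := orderOf_dvd_of_pow_eq_one h4
      exact Or.inr (Or.inl (by rw [ht1]; exact h5))
    · -- the Jordan block of size two
      have hf1 : f.natDegree = 1 := by omega
      have hfX := hfm.eq_X_add_C hf1
      set b := -f.coeff 0 with hb
      have hfb : f = X - C b := by
        rw [hfX]
        simp [hb, sub_eq_add_neg]
      rw [hχS] at hdet
      have hcoef : (f ^ 2).coeff 0 = b ^ 2 := by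
        rw [hfb, pow_two, Polynomial.mul_coeff_zero]
        simp
        ring
      rw [hcoef] at hdet
      have hb0 : b ≠ 0 := by
        rintro h0
        rw [h0] at hdet
        simp at hdet
      have h3 : (S - algebraMap F _ b) ^ 2 = 0 := by
        rw [hfb] at hzero
        simpa using hzero
      have h4 : S ^ (p ^ 1) = algebraMap F _ (b ^ (p ^ 1)) :=
        end_pow_char S b h3 (by simpa using hpp.two_le)
      simp only [pow_one] at h4
      have h5 : cls x ^ (p * k) = 1 := by
        apply cls_pow_of_compl x _ (b ^ (p * k)) V₁ V₂ hc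
        · intro v hv
          rw [hV₁ _ v hv]
          congr 1
          have h6 : b ^ (3 * (p * k)) = 1 := by
            rw [hg₃, show d * g₃ * (p * k) = (d * k) * (g₃ * p) by ring, ← hk, pow_mul,
              FiniteField.pow_card_sub_one_eq_one b hb0, one_pow]
          have h7 : a ^ (p * k) * b ^ (2 * (p * k)) = 1 := by
            rw [pow_mul b 2, ← mul_pow, hdet, one_pow]
          calc a ^ (p * k) = a ^ (p * k) * b ^ (3 * (p * k)) := by rw [h6, mul_one]
            _ = (a ^ (p * k) * b ^ (2 * (p * k))) * b ^ (p * k) := by ring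
            _ = b ^ (p * k) := by rw [h7, one_mul]
        · apply hV₂end
          rw [pow_mul, h4, pow_mul]
          simp only [map_pow]
      have h6 := orderOf_dvd_of_pow_eq_one h5
      exact Or.inr (Or.inr (Or.inr (Or.inl (by rw [ht2]; exact h6))))

include hp in
theorem forward (x : Matrix.SpecialLinearGroup (Fin 3) F) :
    Good (Fintype.card F) p (orderOf (cls x)) := by
  classical
  have hpp : p.Prime := hp.out
  set q := Fintype.card F with hq
  have hq2 : 2 ≤ q := Fintype.one_lt_card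
  haveI : Nontrivial (Fin 3 → F) := inferInstance
  set T := Matrix.mulVecLin (x : Matrix (Fin 3) (Fin 3) F) with hT
  rcases Dichotomy.decomp_or_cyclic T with ⟨V₁, V₂, hc, h1, h2, hi1, hi2⟩ | ⟨pp, e, v₀, hirr, he, h1, h2⟩
  · have hfr : Module.finrank F V₁ + Module.finrank F V₂ = 3 := by
      have := Submodule.finrank_add_eq_of_isCompl hc
      simpa using this
    have h1' : Module.finrank F V₁ ≠ 0 := fun h => h1 (Submodule.finrank_eq_zero.mp h)
    have h2' : Module.finrank F V₂ ≠ 0 := fun h => h2 (Submodule.finrank_eq_zero.mp h)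
    by_cases h3 : Module.finrank F V₁ = 1
    · exact forward_line x V₁ V₂ hc h3 hi1 hi2
    · exact forward_line x V₂ V₁ hc.symm (by omega) hi2 hi1
  · set f := normalize pp with hf
    have hpp0 : pp ≠ 0 := hirr.ne_zero
    have hassoc : Associated pp f := associated_normalize pp
    have hfirr : Irreducible f := hassoc.irreducible hirr
    have hfm : f.Monic := Polynomial.monic_normalize hpp0
    have hcyc : SSConj.CycF T (f ^ e) v₀ := by
      refine ⟨?_, h2⟩
      intro r
      rw [h1]
      exact (hassoc.pow_pow).dvd_iff_dvd_left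
    have hχS : T.charpoly = f ^ e := SSConj.charpoly_of_cyc (hfm.pow e) hcyc
    have hdeg : e * f.natDegree = 3 := by
      have h3 := LinearMap.charpoly_natDegree T
      rw [hχS, natDegree_pow] at h3
      simpa using h3
    have hfdeg : 0 < f.natDegree := hfirr.natDegree_pos
    have hzero : aeval T (f ^ e) = 0 := by
      rw [← hχS]; exact LinearMap.aeval_self_charpoly T
    have he2 : e = 1 ∨ e = 3 := by
      have : e ∣ 3 := ⟨_, hdeg.symm⟩
      exact (Nat.dvd_prime Nat.prime_three).mp this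
    rcases he2 with rfl | rfl
    · obtain ⟨-, c, hc⟩ := cyclic_case (p := p) x hirr he h1 h2
      have h3 : cls x ^ (cA q 3) = 1 := by
        rw [cls_pow_eq_one_iff]
        refine ⟨c, ?_⟩
        simpa using hc
      have h4 := orderOf_dvd_of_pow_eq_one h3
      rw [cA_three hq2] at h4
      exact Or.inl h4
    · have hf1 : f.natDegree = 1 := by omega
      have hfX := hfm.eq_X_add_C hf1
      set a := -f.coeff 0 with ha
      have hfb : f = X - C a := by
        rw [hfX]
        simp [ha, sub_eq_add_neg]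
      have h3 : (T - algebraMap F _ a) ^ 3 = 0 := by
        rw [hfb] at hzero
        simpa using hzero
      obtain ⟨d, k, g₃, l, hd, hk, hg₃, hl, ht1, ht2, hd0⟩ := num_facts q p hq2
      by_cases hp2 : p = 2
      · subst hp2
        have h4 : T ^ (2 ^ 2) = algebraMap F _ (a ^ (2 ^ 2)) := end_pow_char T a h3 (by norm_num)
        have h5 : cls x ^ (2 ^ 2) = 1 := by
          apply cls_pow_of_end x _ (a ^ (2 ^ 2))
          intro v
          rw [h4, Module.algebraMap_end_apply]
        exact Or.inr (Or.inr (Or.inr (Or.inr ⟨rfl, by simpa using orderOf_dvd_of_pow_eq_one h5⟩)))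
      · have hp3 : 3 ≤ p := by
          have := hpp.two_le
          omega
        have h4 : T ^ (p ^ 1) = algebraMap F _ (a ^ (p ^ 1)) := end_pow_char T a h3 (by simpa using hp3)
        have h5 : cls x ^ (p ^ 1) = 1 := by
          apply cls_pow_of_end x _ (a ^ (p ^ 1))
          intro v
          rw [h4, Module.algebraMap_end_apply]
        have h6 : orderOf (cls x) ∣ p := by simpa using orderOf_dvd_of_pow_eq_one h5
        exact Or.inr (Or.inr (Or.inr (Or.inl (by rw [ht2]; exact h6.trans (dvd_mul_right _ _)))))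

end Cfsg.Agent.Lib.KS2.PSL3
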