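import Mathlib
import Cfsg.Agent.Lib.KS2.PSL3F

/-!
# Element orders of `PSL₃(q)`: the backward direction.
-/

set_option autoImplicit false
set_option linter.unusedSimpArgs false
set_option linter.unusedVariables false
set_option linter.deprecated false

universe u

namespace Cfsg.Agent.Lib.KS2.PSL3

open Polynomial Matrix Cfsg.Agent.Lib.Known3 Cfsg.Agent.Lib.Known3.PSLBasic Cfsg.Agent.Lib.Known3.PSLCyclic

variable {F : Type u} [Field F] [Fintype F]

/-- The order of a generator of the units. -/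
lemma exists_gen : ∃ g : Fˣ, orderOf g = Fintype.card F - 1 := by
  classical
  obtain ⟨g, hg⟩ := IsCyclic.exists_ofOrder_eq_natCard (α := Fˣ)
  exact ⟨g, by rw [hg, Nat.card_eq_fintype_card, Fintype.card_units]⟩

lemma pow_eq_one_iff_of_gen {g : Fˣ} (hg : orderOf g = Fintype.card F - 1) (t : ℕ) :
    (g : F) ^ t = 1 ↔ Fintype.card F - 1 ∣ t := by
  rw [← hg, orderOf_dvd_iff_pow_eq_one, ← Units.val_pow_eq_pow_val, Units.val_eq_one]

/-- An element of order `q - 1`. -/
theorem order_diag : ∃ y : Matrix.ProjectiveSpecialLinearGroup (Fin 3) F, orderOf y = Fintype.card F - 1 := by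
  classical
  obtain ⟨g, hg⟩ := exists_gen (F := F)
  have hg0 : (g : F) ≠ 0 := g.ne_zero
  let D : Fin 3 → F := ![(g : F), (g : F)⁻¹, 1]
  have hdet : (Matrix.diagonal D).det = 1 := by
    rw [Matrix.det_diagonal, Fin.prod_univ_three]
    simp [D, hg0]
  let w : Matrix.SpecialLinearGroup (Fin 3) F := ⟨Matrix.diagonal D, hdet⟩
  refine ⟨cls w, Nat.dvd_antisymm ?_ ?_⟩
  · apply orderOf_dvd_of_pow_eq_one
    rw [cls_pow_eq_one_iff]
    refine ⟨1, ?_⟩
    show (Matrix.diagonal D) ^ (Fintype.card F - 1) = _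
    rw [Matrix.diagonal_pow, one_smul, ← Matrix.diagonal_one]
    congr 1
    funext i
    fin_cases i
    · simp [D, (pow_eq_one_iff_of_gen hg _).mpr dvd_rfl]
    · simp [D, (pow_eq_one_iff_of_gen hg _).mpr dvd_rfl]
    · simp [D]
  · have h1 : cls w ^ orderOf (cls w) = 1 := pow_orderOf_eq_one _
    rw [cls_pow_eq_one_iff] at h1
    obtain ⟨c, hc⟩ := h1
    have hc' : (Matrix.diagonal D) ^ orderOf (cls w) = c • 1 := hc
    rw [Matrix.diagonal_pow] at hc'
    have e0 := congrFun (congrFun hc' 0) 0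
    have e2 := congrFun (congrFun hc' 2) 2
    simp [D] at e0 e2
    rw [← e2] at e0
    exact (pow_eq_one_iff_of_gen hg _).mp e0

/-- The powers of the matrix with a Jordan block. -/
noncomputable def jM (b c : F) (t : ℕ) : Matrix (Fin 3) (Fin 3) F :=
  !![b ^ t, (t : F) * b ^ (t - 1), 0; 0, b ^ t, 0; 0, 0, c ^ t]

lemma jM_pow (b c : F) (t : ℕ) : (jM b c 1) ^ t = jM b c t := by
  induction t with
  | zero =>
    ext i j
    fin_cases i <;> fin_cases j <;> simp [jM]
  | succ t ih =>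
    rw [pow_succ, ih]
    ext i j
    fin_cases i <;> fin_cases j <;> simp [jM, Matrix.mul_apply, Fin.sum_univ_three, pow_succ]
    cases t with
    | zero => simp
    | succ t =>
      simp [pow_succ]
      ring

variable {p : ℕ} [hp : Fact p.Prime] [CharP F p]

/-- An element of order `p (q - 1) / d`. -/
theorem order_jordan : ∃ y : Matrix.ProjectiveSpecialLinearGroup (Fin 3) F,
    orderOf y = p * (Fintype.card F - 1) / Nat.gcd 3 (Fintype.card F - 1) := by
  classical
  have hpp : p.Prime := hp.out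
  set q := Fintype.card F with hq
  have hq2 : 2 ≤ q := Fintype.one_lt_card
  obtain ⟨g, hg⟩ := exists_gen (F := F)
  rw [← hq] at hg
  have hg0 : (g : F) ≠ 0 := g.ne_zero
  obtain ⟨d, k, g₃, l, hd, hk, hg₃, hl, ht1, ht2, hd0⟩ := num_facts q p hq2
  rw [ht2]
  set b : F := (g : F) with hb
  set c : F := (b⁻¹) ^ 2 with hc
  have hdet : (jM b c 1).det = 1 := by
    rw [jM, Matrix.det_fin_three]
    simp [hc, hb, hg0]
    field_simp
  let w : Matrix.SpecialLinearGroup (Fin 3) F := ⟨jM b c 1, hdet⟩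
  have hw : ∀ t, (w : Matrix (Fin 3) (Fin 3) F) ^ t = jM b c t := fun t => jM_pow b c t
  have hpq : ¬ p ∣ q - 1 := by
    intro h
    obtain ⟨n, hn⟩ := FiniteField.card F p
    have h1 : p ∣ q := by rw [hq, hn.2]; exact dvd_pow_self _ n.ne_zero
    have h2 : p ∣ q - (q - 1) := Nat.dvd_sub h1 h
    have h3 : q - (q - 1) = 1 := by omega
    rw [h3] at h2
    exact hpp.one_lt.ne' (Nat.dvd_one.mp h2)
  have hpk : ¬ p ∣ k := fun h => hpq (by rw [hk]; exact h.trans (dvd_mul_left _ _))
  have hpF : (p : F) = 0 := CharP.cast_eq_zero F p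
  have hcb : c * b ^ 2 = 1 := by rw [hc]; field_simp
  refine ⟨cls w, Nat.dvd_antisymm ?_ ?_⟩
  · apply orderOf_dvd_of_pow_eq_one
    rw [cls_pow_eq_one_iff, hw]
    refine ⟨b ^ (p * k), ?_⟩
    have h1 : c ^ (p * k) = b ^ (p * k) := by
      have h2 : b ^ (3 * (p * k)) = 1 := by
        rw [hg₃, show d * g₃ * (p * k) = (d * k) * (g₃ * p) by ring, ← hk, pow_mul,
          (pow_eq_one_iff_of_gen (by rw [← hq]; exact hg) _).mpr dvd_rfl, one_pow]
      have h3 : c ^ (p * k) * b ^ (2 * (p * k)) = 1 := by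
        rw [pow_mul b 2, ← mul_pow, hcb, one_pow]
      calc c ^ (p * k) = c ^ (p * k) * b ^ (3 * (p * k)) := by rw [h2, mul_one]
        _ = (c ^ (p * k) * b ^ (2 * (p * k))) * b ^ (p * k) := by ring
        _ = b ^ (p * k) := by rw [h3, one_mul]
    ext i j
    fin_cases i <;> fin_cases j <;> simp [jM, Matrix.one_apply, h1, hpF]
  · set t := orderOf (cls w) with ht
    have h1 : cls w ^ t = 1 := pow_orderOf_eq_one _
    rw [cls_pow_eq_one_iff, hw] at h1
    obtain ⟨c', hc'⟩ := h1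
    have e01 := congrFun (congrFun hc' 0) 1
    have e00 := congrFun (congrFun hc' 0) 0
    have e22 := congrFun (congrFun hc' 2) 2
    simp [jM, Matrix.one_apply] at e01 e00 e22
    have h2 : p ∣ t := by
      rcases e01 with h | h
      · exact (CharP.cast_eq_zero_iff F p t).mp h
      · exact absurd h.1 hg0
    have h3 : b ^ (3 * t) = 1 := by
      have h4 : c ^ t * b ^ (2 * t) = 1 := by
        rw [pow_mul b 2, ← mul_pow, hcb, one_pow]
      have h5 : c ^ t = b ^ t := by rw [e22, e00]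
      rw [h5] at h4
      rw [← h4]
      ring
    have h5 : q - 1 ∣ 3 * t := (pow_eq_one_iff_of_gen (by rw [← hq]; exact hg) _).mp h3
    have h6 : k ∣ t := by
      have h7 : d * Nat.gcd g₃ k = d := by
        rw [← Nat.gcd_mul_left, ← hk, ← hg₃]
        exact hd
      have h8 : Nat.gcd g₃ k = 1 := by
        have : d * Nat.gcd g₃ k = d * 1 := by rw [h7, mul_one]
        exact Nat.eq_of_mul_eq_mul_left hd0 this
      have h9 : d * k ∣ d * (g₃ * t) := by
        rw [← hk, show d * (g₃ * t) = (d * g₃) * t by ring, ← hg₃]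
        exact h5
      have h10 : k ∣ g₃ * t := Nat.dvd_of_mul_dvd_mul_left hd0 h9
      exact (Nat.Coprime.dvd_of_dvd_mul_left (Nat.coprime_comm.mp h8) h10)
    have hcop : Nat.Coprime p k := (Nat.Prime.coprime_iff_not_dvd hpp).mpr hpk
    exact hcop.mul_dvd_of_dvd_of_dvd h2 h6

omit hp [CharP F p] in
/-- Singer cycle of degree two with the determinant. -/
theorem exists_singer_two : ∃ y : GL (Fin 2) F, orderOf y = Fintype.card F ^ 2 - 1 ∧
    ((y ^ (Fintype.card F + 1) : GL (Fin 2) F) : Matrix (Fin 2) (Fin 2) F) =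
      (y : Matrix (Fin 2) (Fin 2) F).det • (1 : Matrix (Fin 2) (Fin 2) F) := by
  classical
  obtain ⟨p, hp⟩ := CharP.exists F
  have : Fact p.Prime := ⟨CharP.char_is_prime F p⟩
  have hq2 : 2 ≤ Fintype.card F := Fintype.one_lt_card
  haveI : NeZero 2 := ⟨by norm_num⟩
  let E := FiniteField.Extension F p 2
  have hfr : Module.finrank F E = 2 := FiniteField.finrank_extension F p 2
  have hE : Nat.card E = Fintype.card F ^ 2 := by
    rw [FiniteField.natCard_extension, Nat.card_eq_fintype_card]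
  let b : Module.Basis (Fin 2) F E := Module.finBasisOfFinrankEq F E hfr
  haveI : Fintype E := Fintype.ofFinite E
  haveI : Fintype Eˣ := Fintype.ofFinite Eˣ
  obtain ⟨γ, hγ⟩ := IsCyclic.exists_generator (α := Eˣ)
  have hord : orderOf γ = Fintype.card F ^ 2 - 1 := by
    rw [orderOf_eq_card_of_forall_mem_zpowers hγ, Nat.card_units, hE]
  refine ⟨Singer.unitsEmb b γ, ?_, ?_⟩
  · rw [orderOf_injective _ (Singer.unitsEmb_injective b), hord]
  · rw [Singer.unitsEmb_val, ← Algebra.norm_eq_matrix_det, ← map_pow, Singer.unitsEmb_val]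
    have h1 := FiniteField.algebraMap_norm_eq_pow (K := F) (K' := E) (x := (γ : E))
    rw [hE, Nat.card_eq_fintype_card] at h1
    have h2 : (Fintype.card F ^ 2 - 1) / (Fintype.card F - 1) = Fintype.card F + 1 := by
      apply Nat.div_eq_of_eq_mul_left (by omega)
      obtain ⟨r, hr⟩ : ∃ r, Fintype.card F = r + 1 := ⟨Fintype.card F - 1, by omega⟩
      rw [hr]
      have e : (r + 1) ^ 2 = (r + 1 + 1) * r + 1 := by ring
      simp [e]
    rw [h2] at h1
    rw [Units.val_pow_eq_pow_val, ← h1, AlgHom.commutes, Algebra.algebraMap_eq_smul_one]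

/-- The block element. -/
noncomputable def blk (y : GL (Fin 2) F) (u : Fˣ) : GL (Fin 3) F :=
  Singer.reindexGL (F := F) (finSumFinEquiv : Fin 2 ⊕ Fin 1 ≃ Fin 3)
    (Singer.blockHom (Fin 2) (Fin 1) (y, GeneralLinearGroup.scalar (Fin 1) u))

lemma blk_pow (y : GL (Fin 2) F) (u : Fˣ) (t : ℕ) : blk y u ^ t = blk (y ^ t) (u ^ t) := by
  unfold blk
  rw [← map_pow, ← map_pow, Prod.pow_mk, ← map_pow]

lemma blk_eq_smul_iff (y : GL (Fin 2) F) (u : Fˣ) (c : F) :
    ((blk y u : GL (Fin 3) F) : Matrix (Fin 3) (Fin 3) F) = c • 1 ↔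
      (y : Matrix (Fin 2) (Fin 2) F) = c • 1 ∧ (u : F) = c := by
  unfold blk
  rw [Singer.reindexGL_val, Singer.blockHom_val]
  set e : Fin 2 ⊕ Fin 1 ≃ Fin 3 := finSumFinEquiv
  have hscal : ((GeneralLinearGroup.scalar (Fin 1) u : GL (Fin 1) F) : Matrix (Fin 1) (Fin 1) F) = Matrix.scalar (Fin 1) (u : F) := rfl
  constructor
  · intro h
    have h1 : ∀ i j, (Matrix.fromBlocks (y : Matrix (Fin 2) (Fin 2) F) 0 0 (Matrix.scalar (Fin 1) (u : F))) i j =
        (c • (1 : Matrix (Fin 3) (Fin 3) F)) (e i) (e j) := by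
      intro i j
      rw [← h, hscal]
      simp [Matrix.reindex_apply]
    constructor
    · ext i j
      have := h1 (Sum.inl i) (Sum.inl j)
      simp only [Matrix.fromBlocks_apply₁₁] at this
      rw [this]
      simp [Matrix.one_apply, e.apply_eq_iff_eq]
    · have := h1 (Sum.inr 0) (Sum.inr 0)
      simpa [Matrix.scalar_apply, Matrix.diagonal_apply] using this
  · rintro ⟨h1, h2⟩
    rw [hscal, h1, h2]
    ext i j
    obtain ⟨i, rfl⟩ := e.surjective i
    obtain ⟨j, rfl⟩ := e.surjective j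
    simp only [Matrix.reindex_apply, Matrix.submatrix_apply, Equiv.symm_apply_apply]
    rcases i with i | i <;> rcases j with j | j <;>
      simp [Matrix.one_apply, Matrix.scalar_apply, Matrix.diagonal_apply, e.apply_eq_iff_eq]
    all_goals (try (fin_cases i; fin_cases j; simp))

lemma blk_det (y : GL (Fin 2) F) (u : Fˣ) :
    ((blk y u : GL (Fin 3) F) : Matrix (Fin 3) (Fin 3) F).det = (y : Matrix (Fin 2) (Fin 2) F).det * (u : F) := by
  unfold blk
  rw [Singer.reindexGL_val, Matrix.det_reindex_self, Singer.blockHom_val, Matrix.det_fromBlocks_zero₂₁]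
  simp [GeneralLinearGroup.scalar]

/-- An element of order `(q² - 1) / d`. -/
theorem order_quad : ∃ y : Matrix.ProjectiveSpecialLinearGroup (Fin 3) F,
    orderOf y = (Fintype.card F ^ 2 - 1) / Nat.gcd 3 (Fintype.card F - 1) := by
  classical
  set q := Fintype.card F with hq
  have hq2 : 2 ≤ q := Fintype.one_lt_card
  obtain ⟨y, hy, hy2⟩ := exists_singer_two (F := F)
  rw [← hq] at hy hy2
  obtain ⟨d, k, g₃, l, hd, hk, hg₃, hl, ht1, ht2, hd0⟩ := num_facts q 1 hq2
  rw [ht1]
  set δ : F := (y : Matrix (Fin 2) (Fin 2) F).det with hδ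
  have hδ0 : δ ≠ 0 := (Matrix.isUnits_det_units y).ne_zero
  let u : Fˣ := (Units.mk0 δ hδ0)⁻¹
  have hu : (u : F) = δ⁻¹ := by simp [u]
  have hdet : ((blk y u : GL (Fin 3) F) : Matrix (Fin 3) (Fin 3) F).det = 1 := by
    rw [blk_det, hu]
    exact mul_inv_cancel₀ hδ0
  let w : Matrix.SpecialLinearGroup (Fin 3) F := ⟨_, hdet⟩
  have hw : ∀ t, (w : Matrix (Fin 3) (Fin 3) F) ^ t = ((blk (y ^ t) (u ^ t) : GL (Fin 3) F) : Matrix (Fin 3) (Fin 3) F) := by
    intro t
    rw [← blk_pow]
    rfl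
  have hq1 : 0 < q - 1 := by omega
  have hq21 : q ^ 2 - 1 = (q + 1) * (q - 1) := by
    obtain ⟨r, hr⟩ : ∃ r, q = r + 1 := ⟨q - 1, by omega⟩
    rw [hr]
    have e : (r + 1) ^ 2 = (r + 1 + 1) * r + 1 := by ring
    simp [e]
  have hpowδ : δ ^ (q - 1) = 1 := by
    rw [hq]; exact FiniteField.pow_card_sub_one_eq_one δ hδ0
  refine ⟨cls w, Nat.dvd_antisymm ?_ ?_⟩
  · apply orderOf_dvd_of_pow_eq_one
    rw [cls_pow_eq_one_iff, hw]
    refine ⟨δ ^ k, ?_⟩
    rw [blk_eq_smul_iff]
    constructor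
    · rw [pow_mul, Units.val_pow_eq_pow_val, hy2, _root_.smul_pow, one_pow]
    · rw [Units.val_pow_eq_pow_val, hu]
      have h1 : δ ^ ((q + 2) * k) = 1 := by
        rw [hl, show d * l * k = (d * k) * l by ring, ← hk, pow_mul, hpowδ, one_pow]
      have h2 : δ⁻¹ ^ ((q + 1) * k) * δ ^ ((q + 1) * k) = 1 := by
        rw [← mul_pow, inv_mul_cancel₀ hδ0, one_pow]
      calc δ⁻¹ ^ ((q + 1) * k) = δ⁻¹ ^ ((q + 1) * k) * δ ^ ((q + 2) * k) := by rw [h1, mul_one]
        _ = (δ⁻¹ ^ ((q + 1) * k) * δ ^ ((q + 1) * k)) * δ ^ k := by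
            rw [show (q + 2) * k = (q + 1) * k + k by ring, pow_add]; ring
        _ = δ ^ k := by rw [h2, one_mul]
  · set t := orderOf (cls w) with ht
    have h1 : cls w ^ t = 1 := pow_orderOf_eq_one _
    rw [cls_pow_eq_one_iff, hw] at h1
    obtain ⟨c, hc⟩ := h1
    obtain ⟨hc1, hc2⟩ := (blk_eq_smul_iff _ _ _).mp hc
    have hc0 : c ≠ 0 := by
      rw [← hc2]; exact (u ^ t).ne_zero
    -- `q + 1` divides `t`
    have h2 : (y ^ t) ^ (q - 1) = 1 := by
      apply Units.ext
      rw [Units.val_pow_eq_pow_val, hc1, _root_.smul_pow, one_pow]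
      have : c ^ (q - 1) = 1 := by rw [hq]; exact FiniteField.pow_card_sub_one_eq_one c hc0
      rw [this, one_smul, Units.val_one]
    have h3 : (q + 1) * (q - 1) ∣ t * (q - 1) := by
      rw [← hq21, ← hy]
      apply orderOf_dvd_of_pow_eq_one
      rw [pow_mul]
      exact h2
    have h4 : q + 1 ∣ t := Nat.dvd_of_mul_dvd_mul_right hq1 h3
    obtain ⟨s, hs⟩ := h4
    -- the value of the scalar
    have h5 : c = δ ^ s := by
      have h6 : ((y ^ t : GL (Fin 2) F) : Matrix (Fin 2) (Fin 2) F) = δ ^ s • 1 := by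
        rw [hs, pow_mul, Units.val_pow_eq_pow_val, hy2, _root_.smul_pow, one_pow]
      rw [hc1] at h6
      have h7 := congrFun (congrFun h6 0) 0
      simpa using h7
    have h8 : δ ^ ((q + 2) * s) = 1 := by
      have h9 : δ⁻¹ ^ t = δ ^ s := by
        rw [← h5, ← hc2, Units.val_pow_eq_pow_val, hu]
      have h10 : δ ^ t * δ⁻¹ ^ t = 1 := by
        rw [← mul_pow, mul_inv_cancel₀ hδ0, one_pow]
      rw [h9, hs, ← pow_add] at h10
      rw [← h10]
      congr 1
      ring
    -- the order of `δ`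
    have hδord : ∀ n, δ ^ n = 1 → q - 1 ∣ n := by
      intro n hn
      have h11 : y ^ ((q + 1) * n) = 1 := by
        apply Units.ext
        rw [pow_mul, Units.val_pow_eq_pow_val, hy2, _root_.smul_pow, one_pow, hn, one_smul, Units.val_one]
      have h12 : (q + 1) * (q - 1) ∣ (q + 1) * n := by
        rw [← hq21, ← hy]
        exact orderOf_dvd_of_pow_eq_one h11
      exact Nat.dvd_of_mul_dvd_mul_left (by omega) h12
    have h13 := hδord _ h8
    have h14 : k ∣ s := by
      have hgcd : Nat.gcd k l = 1 := by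
        have h15 : Nat.gcd (q + 2) (q - 1) = d := by
          have : q + 2 = 3 + (q - 1) := by omega
          rw [this, Nat.gcd_add_self_left]
          exact hd
        rw [hl, hk, Nat.gcd_mul_left] at h15
        have h16 : d * Nat.gcd l k = d * 1 := by rw [h15, mul_one]
        have := Nat.eq_of_mul_eq_mul_left hd0 h16
        rwa [Nat.gcd_comm] at this
      have h17 : d * k ∣ d * (l * s) := by
        rw [← hk, show d * (l * s) = (d * l) * s by ring, ← hl]
        exact h13
      have h18 : k ∣ l * s := Nat.dvd_of_mul_dvd_mul_left hd0 h17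
      exact Nat.Coprime.dvd_of_dvd_mul_left hgcd h18
    rw [hs]
    exact Nat.mul_dvd_mul_left _ h14

/-- The main theorem: the spectrum of `PSL₃(q)`. -/
theorem spectrum :
    Set.range (orderOf : Matrix.ProjectiveSpecialLinearGroup (Fin 3) F → ℕ) =
      {m : ℕ | m ∣ (Fintype.card F ^ 2 + Fintype.card F + 1) / Nat.gcd 3 (Fintype.card F - 1) ∨
        m ∣ (Fintype.card F ^ 2 - 1) / Nat.gcd 3 (Fintype.card F - 1) ∨ m ∣ Fintype.card F - 1 ∨
        m ∣ p * (Fintype.card F - 1) / Nat.gcd 3 (Fintype.card F - 1) ∨ (p = 2 ∧ m ∣ 4)} := by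
  have hq2 : 2 ≤ Fintype.card F := Fintype.one_lt_card
  ext m
  constructor
  · rintro ⟨y, rfl⟩
    obtain ⟨x, rfl⟩ := cls_surjective y
    exact forward (p := p) x
  · rintro (h | h | h | h | ⟨rfl, h⟩)
    · rw [← cA_three hq2] at h
      exact PSLElements.exists_orderOf_of_dvd_cA (by norm_num) h
    · obtain ⟨y, hy⟩ := order_quad (F := F)
      exact Orders.exists_orderOf_of_dvd y (hy ▸ h)
    · obtain ⟨y, hy⟩ := order_diag (F := F)
      exact Orders.exists_orderOf_of_dvd y (hy ▸ h)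
    · obtain ⟨y, hy⟩ := order_jordan (F := F) (p := p)
      exact Orders.exists_orderOf_of_dvd y (hy ▸ h)
    · have h1 := PSLElements.orderOf_cls_jordU (F := F) (p := 2) (n := 3) (by norm_num) (e' := 3) (b := 2)
        (by norm_num) le_rfl (by norm_num) (by norm_num)
      exact Orders.exists_orderOf_of_dvd _ (show m ∣ orderOf (cls (PSLElements.jordU F 3 3)) by rw [h1]; simpa using h)

end Cfsg.Agent.Lib.KS2.PSL3
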