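import Mathlib
import Cfsg.Agent.Lib.KS2.RegTv

/-!
The regular unipotent matrix `Um` (all ones on and above the diagonal), its inverse `Ui = 1 - NN`,
their action on the standard basis.
-/

set_option autoImplicit false
set_option linter.unusedSimpArgs false
set_option linter.unusedVariables false

namespace Cfsg.Agent.Lib.KS2.Reg

open Matrix Module
open scoped MatrixGroups

variable {F : Type*} [Field F] {n : ℕ}

/-- Standard basis vector. -/
def ev (j : Fin n) : Fin n → F := Pi.single j 1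

lemma ev_apply (j k : Fin n) : (ev j : Fin n → F) k = if k = j then 1 else 0 := by
  simp [ev, Pi.single_apply]

lemma ev_vecMul (j : Fin n) (A : Matrix (Fin n) (Fin n) F) (x : Fin n) : ((ev j : Fin n → F) ᵥ* A) x = A j x := by
  simp [ev, Matrix.vecMul, dotProduct, Pi.single_apply]

lemma mulVec_ev (j : Fin n) (A : Matrix (Fin n) (Fin n) F) (x : Fin n) : (A *ᵥ (ev j : Fin n → F)) x = A x j := by
  simp [ev, Matrix.mulVec, dotProduct, Pi.single_apply]

lemma dot_ev (f : Fin n → F) (j : Fin n) : f ⬝ᵥ ev j = f j := by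
  simp [ev, dotProduct, Pi.single_apply]

lemma ev_dot (f : Fin n → F) (j : Fin n) : ev j ⬝ᵥ f = f j := by
  simp [ev, dotProduct, Pi.single_apply]

lemma sum_ev (f : Fin n → F) : f = ∑ j, f j • ev j := by
  ext k
  simp [ev, Finset.sum_apply, Pi.single_apply]

/-- The matrix with ones on the superdiagonal. -/
def NN : Matrix (Fin n) (Fin n) F := Matrix.of fun i j => if (j : ℕ) = i + 1 then 1 else 0

/-- All ones on and above the diagonal. -/
def Um : Matrix (Fin n) (Fin n) F := Matrix.of fun i j => if i ≤ j then 1 else 0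

/-- The inverse of `Um`. -/
def Ui : Matrix (Fin n) (Fin n) F := 1 - NN

lemma NN_apply (i j : Fin n) : (NN : Matrix (Fin n) (Fin n) F) i j = if (j : ℕ) = i + 1 then 1 else 0 := rfl

lemma Um_apply (i j : Fin n) : (Um : Matrix (Fin n) (Fin n) F) i j = if i ≤ j then 1 else 0 := rfl

lemma NN_pow (k : ℕ) (a b : Fin n) :
    ((NN : Matrix (Fin n) (Fin n) F) ^ k) a b = if b.val = a.val + k then 1 else 0 := by
  induction k generalizing a b with
  | zero =>
    simp only [pow_zero, Matrix.one_apply, add_zero, Fin.ext_iff]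
    by_cases h : a.val = b.val
    · simp [h]
    · have : ¬ b.val = a.val := fun h' => h h'.symm
      simp [h, this]
  | succ i ih =>
    rw [pow_succ, Matrix.mul_apply]
    simp only [ih, NN_apply, mul_ite, mul_one, mul_zero]
    by_cases h : b.val = a.val + (i + 1)
    · have hlt : a.val + i < n := by have := b.2; omega
      rw [Finset.sum_eq_single (⟨a.val + i, hlt⟩ : Fin n)]
      · simp [h, add_assoc]
      · intro c _ hc
        have : ¬ c.val = a.val + i := fun h' => hc (Fin.ext h')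
        simp [this]
      · simp
    · rw [if_neg h]
      apply Finset.sum_eq_zero
      intro c _
      by_cases h1 : b.val = c.val + 1
      · have : ¬ c.val = a.val + i := by omega
        simp [h1, this]
      · simp [h1]

lemma Um_mul_NN (i j : Fin n) : (Um * NN : Matrix (Fin n) (Fin n) F) i j = if i < j then 1 else 0 := by
  rw [Matrix.mul_apply]
  simp only [Um_apply, NN_apply, mul_ite, mul_one, mul_zero]
  by_cases hj : (j : ℕ) = 0
  · have : ¬ i < j := by
      rw [Fin.lt_def]; omega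
    rw [if_neg this]
    apply Finset.sum_eq_zero
    intro c _
    have : ¬ (j : ℕ) = c + 1 := by omega
    simp [this]
  · have hlt : (j : ℕ) - 1 < n := by have := j.2; omega
    rw [Finset.sum_eq_single (⟨(j : ℕ) - 1, hlt⟩ : Fin n)]
    · have e : (j : ℕ) = (j : ℕ) - 1 + 1 := by omega
      have h2 : (i ≤ (⟨(j : ℕ) - 1, hlt⟩ : Fin n)) ↔ i < j := by
        simp only [Fin.le_def, Fin.lt_def]; omega
      simp only [← e, if_true, h2]
    · intro c _ hc
      have : ¬ (j : ℕ) = c + 1 := by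
        intro h
        apply hc
        apply Fin.ext
        simp only
        omega
      simp [this]
    · simp

lemma Um_sub_one : (Um : Matrix (Fin n) (Fin n) F) - 1 = Um * NN := by
  ext i j
  rw [Um_mul_NN, Matrix.sub_apply, Um_apply, Matrix.one_apply]
  rcases lt_trichotomy i j with h | h | h
  · simp [h, h.le, h.ne]
  · subst h; simp
  · have h1 : ¬ i ≤ j := not_le.mpr h
    have h2 : ¬ i < j := not_lt.mpr h.le
    have h3 : i ≠ j := h.ne'
    simp [h1, h2, h3]

lemma Um_mul_Ui : (Um : Matrix (Fin n) (Fin n) F) * Ui = 1 := by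
  unfold Ui
  rw [mul_sub, mul_one, ← Um_sub_one]
  abel

lemma Ui_mul_Um : (Ui : Matrix (Fin n) (Fin n) F) * Um = 1 := mul_eq_one_comm.mp Um_mul_Ui

lemma NN_comm : Commute (Um : Matrix (Fin n) (Fin n) F) NN := by
  have h1 : (NN : Matrix (Fin n) (Fin n) F) * Um = Um - 1 := by
    have : (NN : Matrix (Fin n) (Fin n) F) = 1 - Ui := by unfold Ui; abel
    rw [this, sub_mul, one_mul, Ui_mul_Um]
  show Um * NN = NN * Um
  rw [h1, Um_sub_one]

lemma Um_det : (Um : Matrix (Fin n) (Fin n) F).det = 1 := by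
  rw [Matrix.det_of_isUpperTriangular]
  · simp [Um_apply]
  · intro i j h
    simp only [id] at h
    have : ¬ i ≤ j := not_le.mpr h
    simp [Um_apply, this]

/-- The regular unipotent element. -/
def uu : SpecialLinearGroup (Fin n) F := ⟨Um, Um_det⟩

@[simp] lemma uu_coe : ((uu : SpecialLinearGroup (Fin n) F) : Matrix (Fin n) (Fin n) F) = Um := rfl

lemma uu_inv_coe : (((uu : SpecialLinearGroup (Fin n) F)⁻¹ : SpecialLinearGroup (Fin n) F) : Matrix (Fin n) (Fin n) F) = Ui := by
  have h := coe_inv_mul (uu : SpecialLinearGroup (Fin n) F)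
  calc (((uu : SpecialLinearGroup (Fin n) F)⁻¹ : SpecialLinearGroup (Fin n) F) : Matrix (Fin n) (Fin n) F)
      = (((uu : SpecialLinearGroup (Fin n) F)⁻¹ : SpecialLinearGroup (Fin n) F) : Matrix (Fin n) (Fin n) F) * (Um * Ui) := by
        rw [Um_mul_Ui, mul_one]
    _ = _ := by
        rw [← mul_assoc]
        rw [uu_coe] at h
        rw [h, one_mul]

lemma Um_sub_one_pow (k : ℕ) : ((Um : Matrix (Fin n) (Fin n) F) - 1) ^ k = Um ^ k * NN ^ k := by
  rw [Um_sub_one, NN_comm.mul_pow]

lemma uu_nilp : IsNilpotent ((Um : Matrix (Fin n) (Fin n) F) - 1) := by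
  refine ⟨n, ?_⟩
  rw [Um_sub_one_pow]
  have : (NN : Matrix (Fin n) (Fin n) F) ^ n = 0 := by
    ext a b
    rw [NN_pow]
    have : ¬ b.val = a.val + n := by have := b.2; omega
    simp [this]
  rw [this, mul_zero]

lemma uu_pow_ne (hn : 1 ≤ n) : ((Um : Matrix (Fin n) (Fin n) F) - 1) ^ (n - 1) ≠ 0 := by
  intro h
  rw [Um_sub_one_pow] at h
  have h1 : (NN : Matrix (Fin n) (Fin n) F) ^ (n - 1) = 0 := by
    have hinv : (Ui : Matrix (Fin n) (Fin n) F) ^ (n - 1) * Um ^ (n - 1) = 1 := by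
      have hc : Commute (Ui : Matrix (Fin n) (Fin n) F) Um := by
        show Ui * Um = Um * Ui
        rw [Ui_mul_Um, Um_mul_Ui]
      rw [← hc.mul_pow, Ui_mul_Um, one_pow]
    calc (NN : Matrix (Fin n) (Fin n) F) ^ (n - 1)
        = (Ui : Matrix (Fin n) (Fin n) F) ^ (n - 1) * Um ^ (n - 1) * NN ^ (n - 1) := by rw [hinv, one_mul]
      _ = _ := by rw [mul_assoc, h, mul_zero]
  have h2 := congrFun (congrFun h1 ⟨0, by omega⟩) ⟨n - 1, by omega⟩
  rw [NN_pow] at h2
  simp at h2

lemma Ui_mulVec (y : Fin n → F) (i : Fin n) :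
    ((Ui : Matrix (Fin n) (Fin n) F) *ᵥ y) i = y i - (if h : (i : ℕ) + 1 < n then y ⟨i + 1, h⟩ else 0) := by
  unfold Ui
  rw [sub_mulVec, one_mulVec, Pi.sub_apply]
  congr 1
  simp only [mulVec, dotProduct, NN_apply]
  split_ifs with h
  · rw [Finset.sum_eq_single (⟨(i : ℕ) + 1, h⟩ : Fin n)]
    · simp
    · intro c _ hc
      have : ¬ (c : ℕ) = i + 1 := fun h' => hc (Fin.ext h')
      simp [this]
    · simp
  · apply Finset.sum_eq_zero
    intro c _
    have : ¬ (c : ℕ) = i + 1 := by have := c.2; omega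
    simp [this]

lemma ev_Ui_succ (j k : Fin n) (h : (k : ℕ) = j + 1) :
    (ev j : Fin n → F) ᵥ* Ui = ev j - ev k := by
  ext x
  rw [ev_vecMul, Pi.sub_apply, ev_apply, ev_apply]
  simp only [Ui, Matrix.sub_apply, Matrix.one_apply, NN_apply]
  have e1 : (x = j) ↔ (j = x) := eq_comm
  have e2 : ((x : ℕ) = j + 1) ↔ (x = k) := by
    rw [← h, Fin.ext_iff]
  simp only [e1, e2]

lemma ev_Ui_last (j : Fin n) (h : (j : ℕ) + 1 = n) :
    (ev j : Fin n → F) ᵥ* Ui = ev j := by
  ext x
  rw [ev_vecMul, ev_apply]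
  simp only [Ui, Matrix.sub_apply, Matrix.one_apply, NN_apply]
  have e1 : (x = j) ↔ (j = x) := eq_comm
  have e2 : ¬ ((x : ℕ) = j + 1) := by have := x.2; omega
  simp [e1, e2]

lemma ev_Um (j x : Fin n) : ((ev j : Fin n → F) ᵥ* Um) x = if j ≤ x then 1 else 0 := by
  rw [ev_vecMul, Um_apply]

lemma Um_ev (j x : Fin n) : ((Um : Matrix (Fin n) (Fin n) F) *ᵥ ev j) x = if x ≤ j then 1 else 0 := by
  rw [mulVec_ev, Um_apply]

lemma Tv_mulVec (y f w : Fin n → F) (h : f ⬝ᵥ y = 0) :
    ((Tv y f h : SpecialLinearGroup (Fin n) F) : Matrix (Fin n) (Fin n) F) *ᵥ w = w + (f ⬝ᵥ w) • y := by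
  rw [Tv_coe, add_mulVec, one_mulVec]
  congr 1
  ext i
  simp only [mulVec, dotProduct, vecMulVec_apply, Pi.smul_apply, smul_eq_mul, Finset.sum_mul]
  refine Finset.sum_congr rfl fun x _ => ?_
  ring

lemma vecMul_Tv (y f w : Fin n → F) (h : f ⬝ᵥ y = 0) :
    w ᵥ* ((Tv y f h : SpecialLinearGroup (Fin n) F) : Matrix (Fin n) (Fin n) F) = w + (w ⬝ᵥ y) • f := by
  rw [Tv_coe, vecMul_add, vecMul_one]
  congr 1
  ext i
  simp only [vecMul, dotProduct, vecMulVec_apply, Pi.smul_apply, smul_eq_mul, Finset.sum_mul]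
  refine Finset.sum_congr rfl fun x _ => ?_
  ring

end Cfsg.Agent.Lib.KS2.Reg
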