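import Mathlib
import Cfsg.Agent.Lib.KS2.RegUm

/-!
`SL_n(F)`, `n ≥ 3`, `F` finite, is generated by three conjugates of the regular unipotent element `uu`.
-/

set_option autoImplicit false
set_option linter.unusedSimpArgs false
set_option linter.unusedVariables false

namespace Cfsg.Agent.Lib.KS2.Reg

open Matrix Module
open scoped MatrixGroups

variable {F : Type*} [Field F] {n : ℕ}

lemma Tv_congr {y y' f f' : Fin n → F} (h : f ⬝ᵥ y = 0) (e1 : y = y') (e2 : f = f') :
    Tv y f h = Tv y' f' (by rw [← e1, ← e2]; exact h) := by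
  subst e1 e2; rfl

/-- The set of all `f` with `1 + e ⊗ f ∈ H`. -/
def RR (H : Subgroup (SpecialLinearGroup (Fin n) F)) (e f : Fin n → F) : Prop :=
  ∃ hf : f ⬝ᵥ e = 0, Tv e f hf ∈ H

section RR

variable {H : Subgroup (SpecialLinearGroup (Fin n) F)} {e : Fin n → F}

lemma RR_zero : RR H e 0 := by
  refine ⟨by simp, ?_⟩
  have : Tv e (0 : Fin n → F) (by simp) = 1 := by
    apply sl_ext
    simp
  rw [this]
  exact H.one_mem

lemma RR_add {f f' : Fin n → F} (h : RR H e f) (h' : RR H e f') : RR H e (f + f') := by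
  obtain ⟨hf, hm⟩ := h
  obtain ⟨hf', hm'⟩ := h'
  have hh : (f + f') ⬝ᵥ e = 0 := by rw [add_dotProduct, hf, hf', add_zero]
  refine ⟨hh, ?_⟩
  rw [← Tv_mul e f f' hf hf' hh]
  exact H.mul_mem hm hm'

lemma RR_neg {f : Fin n → F} (h : RR H e f) : RR H e (-f) := by
  obtain ⟨hf, hm⟩ := h
  have hh : (-f) ⬝ᵥ e = 0 := by rw [neg_dotProduct, hf, neg_zero]
  refine ⟨hh, ?_⟩
  rw [← Tv_inv e f hf hh]
  exact H.inv_mem hm

lemma RR_sub {f f' : Fin n → F} (h : RR H e f) (h' : RR H e f') : RR H e (f - f') := by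
  rw [sub_eq_add_neg]
  exact RR_add h (RR_neg h')

lemma RR_sum {ι : Type*} (s : Finset ι) (f : ι → Fin n → F) (h : ∀ i ∈ s, RR H e (f i)) :
    RR H e (∑ i ∈ s, f i) :=
  Finset.sum_induction _ (RR H e) (fun _ _ => RR_add) RR_zero h

/-- conjugating by an element fixing `e`. -/
lemma RR_conj (g : SpecialLinearGroup (Fin n) F) (hg : g ∈ H) (hge : (g : Matrix (Fin n) (Fin n) F) *ᵥ e = e)
    {f : Fin n → F} (h : RR H e f) :
    RR H e (f ᵥ* ((g⁻¹ : SpecialLinearGroup (Fin n) F) : Matrix (Fin n) (Fin n) F)) := by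
  obtain ⟨hf, hm⟩ := h
  have h' : (f ᵥ* ((g⁻¹ : SpecialLinearGroup (Fin n) F) : Matrix (Fin n) (Fin n) F)) ⬝ᵥ ((g : Matrix (Fin n) (Fin n) F) *ᵥ e) = 0 := by
    rw [dot_conj]; exact hf
  have h2 := H.mul_mem (H.mul_mem hg hm) (H.inv_mem hg)
  rw [Tv_conj g e f hf h'] at h2
  rw [hge] at h'
  refine ⟨h', ?_⟩
  convert h2 using 2
  rw [hge]

/-- commutator with a transvection `1 + y' ⊗ f'` with `f' ⬝ e = 0`. -/
lemma RR_comm {y' f' : Fin n → F} (hf' : f' ⬝ᵥ y' = 0) (hm' : Tv y' f' hf' ∈ H) (h0 : f' ⬝ᵥ e = 0)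
    {f : Fin n → F} (h : RR H e f) : RR H e ((f ⬝ᵥ y') • f') := by
  obtain ⟨hf, hm⟩ := h
  have h'' : ((f ⬝ᵥ y') • f') ⬝ᵥ e = 0 := by rw [smul_dotProduct, h0, smul_zero]
  refine ⟨h'', ?_⟩
  rw [← Tv_comm e y' f f' hf hf' h0 h'']
  exact H.mul_mem (H.mul_mem (H.mul_mem hm hm') (H.inv_mem hm)) (H.inv_mem hm')

end RR

section G

/-- The elementary "Weyl" element sending `e_a ↦ -e_b`, `e_b ↦ e_a`. -/
def Ga (a b : Fin n) (hab : a ≠ b) : SpecialLinearGroup (Fin n) F :=
  Tv (ev a) (ev b) (by rw [dot_ev, ev_apply, if_neg hab]) *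
  Tv (ev b) (-ev a) (by rw [neg_dotProduct, dot_ev, ev_apply, if_neg hab.symm, neg_zero]) *
  Tv (ev a) (ev b) (by rw [dot_ev, ev_apply, if_neg hab])

lemma Ga_mulVec (a b : Fin n) (hab : a ≠ b) (w : Fin n → F) (i : Fin n) :
    (((Ga a b hab : SpecialLinearGroup (Fin n) F) : Matrix (Fin n) (Fin n) F) *ᵥ w) i =
      if i = a then w b else if i = b then - w a else w i := by
  unfold Ga
  simp only [Matrix.SpecialLinearGroup.coe_mul, ← mulVec_mulVec, Tv_mulVec]
  simp only [neg_dotProduct, ev_dot, add_dotProduct, smul_dotProduct, dot_ev, ev_apply,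
    Pi.add_apply, Pi.smul_apply, smul_eq_mul, if_neg hab, if_neg hab.symm, if_true, mul_one, mul_zero, add_zero]
  by_cases h1 : i = a
  · subst h1
    simp [hab, hab.symm]
  · by_cases h2 : i = b
    · subst h2
      simp [h1, hab, hab.symm]
    · simp [h1, h2]

lemma Ga_inv_mulVec (a b : Fin n) (hab : a ≠ b) (w : Fin n → F) (i : Fin n) :
    ((((Ga a b hab)⁻¹ : SpecialLinearGroup (Fin n) F) : Matrix (Fin n) (Fin n) F) *ᵥ w) i =
      if i = a then - w b else if i = b then w a else w i := by
  set z : Fin n → F := fun i => if i = a then - w b else if i = b then w a else w i with hz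
  have h1 : ((Ga a b hab : SpecialLinearGroup (Fin n) F) : Matrix (Fin n) (Fin n) F) *ᵥ z = w := by
    ext i
    rw [Ga_mulVec]
    by_cases h1 : i = a
    · subst h1
      simp [hz, hab, hab.symm]
    · by_cases h2 : i = b
      · subst h2
        simp [hz, h1, hab, hab.symm]
      · simp [hz, h1, h2]
  have h2 : ((((Ga a b hab)⁻¹ : SpecialLinearGroup (Fin n) F) : Matrix (Fin n) (Fin n) F) *ᵥ w) = z := by
    rw [← h1, mulVec_mulVec, coe_inv_mul, one_mulVec]
  rw [h2]

lemma vecMul_Ga (a b : Fin n) (hab : a ≠ b) (w : Fin n → F) (i : Fin n) :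
    (w ᵥ* ((Ga a b hab : SpecialLinearGroup (Fin n) F) : Matrix (Fin n) (Fin n) F)) i =
      if i = a then - w b else if i = b then w a else w i := by
  unfold Ga
  simp only [Matrix.SpecialLinearGroup.coe_mul, ← vecMul_vecMul, vecMul_Tv]
  simp only [neg_dotProduct, ev_dot, add_dotProduct, smul_dotProduct, dot_ev, ev_apply,
    Pi.add_apply, Pi.smul_apply, Pi.neg_apply, smul_eq_mul, if_neg hab, if_neg hab.symm, if_true, mul_one, mul_zero, add_zero]
  by_cases h1 : i = a
  · subst h1
    simp [hab, hab.symm]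
  · by_cases h2 : i = b
    · subst h2
      simp [h1, hab, hab.symm]
    · simp [h1, h2]

lemma vecMul_Ga_inv (a b : Fin n) (hab : a ≠ b) (w : Fin n → F) (i : Fin n) :
    (w ᵥ* (((Ga a b hab)⁻¹ : SpecialLinearGroup (Fin n) F) : Matrix (Fin n) (Fin n) F)) i =
      if i = a then w b else if i = b then - w a else w i := by
  set z : Fin n → F := fun i => if i = a then w b else if i = b then - w a else w i with hz
  have h1 : z ᵥ* ((Ga a b hab : SpecialLinearGroup (Fin n) F) : Matrix (Fin n) (Fin n) F) = w := by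
    ext i
    rw [vecMul_Ga]
    by_cases h1 : i = a
    · subst h1
      simp [hz, hab, hab.symm]
    · by_cases h2 : i = b
      · subst h2
        simp [hz, h1, hab, hab.symm]
      · simp [hz, h1, h2]
  have h2 : (w ᵥ* (((Ga a b hab)⁻¹ : SpecialLinearGroup (Fin n) F) : Matrix (Fin n) (Fin n) F)) = z := by
    rw [← h1, vecMul_vecMul, coe_mul_inv, vecMul_one]
  rw [h2]

end G

/-- The vector `v e₀`. -/
def y0 (n : ℕ) : Fin n → F := fun i => if (i : ℕ) + 1 = n then -1 else 1

section Main

variable (hn : 3 ≤ n)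
include hn

/-- `R` is everything if it contains `α • e_l`, and `1 + y₀ ⊗ α c₀ ∈ H`, `uu ∈ H`, `α` a generator. -/
lemma RR_all (H : Subgroup (SpecialLinearGroup (Fin n) F)) (huu : uu ∈ H) (α : F) (hαg : ∀ x : F, x ≠ 0 → ∃ k : ℕ, x = α ^ (k + 2))
    (hτ : RR H (ev ⟨0, by omega⟩) (α • ev ⟨n - 1, by omega⟩))
    (hdot : (α • (ev ⟨1, by omega⟩ + ev ⟨n - 1, by omega⟩) : Fin n → F) ⬝ᵥ y0 n = 0)
    (hτ' : Tv (y0 n) (α • (ev ⟨1, by omega⟩ + ev ⟨n - 1, by omega⟩) : Fin n → F) hdot ∈ H) :
    ∀ f : Fin n → F, f ⬝ᵥ ev ⟨0, by omega⟩ = 0 → RR H (ev ⟨0, by omega⟩) f := by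
  set i0 : Fin n := ⟨0, by omega⟩ with hi0
  set i1 : Fin n := ⟨1, by omega⟩ with hi1
  set i2 : Fin n := ⟨2, by omega⟩ with hi2
  set il : Fin n := ⟨n - 1, by omega⟩ with hil
  have hue : (uu : SpecialLinearGroup (Fin n) F).1 *ᵥ (ev i0 : Fin n → F) = ev i0 := by
    ext x
    show ((Um : Matrix (Fin n) (Fin n) F) *ᵥ ev i0) x = _
    rw [Um_ev, ev_apply]
    by_cases hx : x = i0
    · subst hx; simp
    · have : ¬ x ≤ i0 := by
        intro h
        apply hx
        apply Fin.ext
        have := Fin.le_def.mp h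
        simp only [hi0] at this ⊢
        omega
      simp [hx, this]
  have stepUi : ∀ {f : Fin n → F}, RR H (ev i0) f → RR H (ev i0) (f ᵥ* Ui) := by
    intro f hf
    have := RR_conj uu huu hue hf
    rwa [uu_inv_coe] at this
  have stepS : ∀ (β : F) (j k : Fin n), (k : ℕ) = j + 1 → RR H (ev i0) (β • ev j) → RR H (ev i0) (β • ev k) := by
    intro β j k hk h
    have h1 := RR_sub h (stepUi h)
    have e : β • ev j - (β • ev j : Fin n → F) ᵥ* Ui = β • ev k := by
      rw [smul_vecMul, ev_Ui_succ j k hk, smul_sub]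
      abel
    rwa [e] at h1
  have stepC : ∀ β : F, RR H (ev i0) (β • (ev i1 + ev il)) → ∀ j : Fin n, j ≠ i0 → RR H (ev i0) (β • ev j) := by
    intro β h
    have h2 : RR H (ev i0) (β • ev i2) := by
      have h1 := RR_sub h (stepUi h)
      have e : β • (ev i1 + ev il) - (β • (ev i1 + ev il) : Fin n → F) ᵥ* Ui = β • ev i2 := by
        rw [smul_vecMul, add_vecMul, ev_Ui_succ i1 i2 rfl, ev_Ui_last il (by simp only [hil]; omega), smul_add, smul_add, smul_sub]
        abel
      rwa [e] at h1
    have hge : ∀ m : ℕ, ∀ hm : m + 2 < n, RR H (ev i0) (β • ev ⟨m + 2, hm⟩) := by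
      intro m
      induction m with
      | zero => intro hm; exact h2
      | succ m ih =>
        intro hm
        exact stepS β ⟨m + 2, by omega⟩ _ rfl (ih (by omega))
    have hl : RR H (ev i0) (β • ev il) := by
      have := hge (n - 3) (by omega)
      convert this using 3
      apply Fin.ext
      show n - 1 = n - 3 + 2
      omega
    have h11 : RR H (ev i0) (β • ev i1) := by
      have := RR_sub h hl
      have e : β • (ev i1 + ev il) - β • ev il = (β • ev i1 : Fin n → F) := by
        rw [smul_add]; abel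
      rwa [e] at this
    intro j hj
    by_cases hj1 : j = i1
    · rw [hj1]; exact h11
    · have hj2 : 2 ≤ (j : ℕ) := by
        have h1 : (j : ℕ) ≠ 0 := fun h' => hj (Fin.ext h')
        have h2 : (j : ℕ) ≠ 1 := fun h' => hj1 (Fin.ext h')
        omega
      have := hge ((j : ℕ) - 2) (by have := j.2; omega)
      convert this using 3
      apply Fin.ext
      simp only
      omega
  have hf0 : (α • (ev i1 + ev il) : Fin n → F) ⬝ᵥ ev i0 = 0 := by
    rw [dot_ev]
    have h1 : i0 ≠ i1 := by
      intro h; have := congrArg Fin.val h; simp [hi0, hi1] at this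
    have h2 : i0 ≠ il := by
      intro h; have := congrArg Fin.val h; simp only [hi0, hil] at this; omega
    simp [ev_apply, h1, h2]
  have stepA : ∀ {f : Fin n → F}, RR H (ev i0) f → RR H (ev i0) ((f ⬝ᵥ y0 n) • (α • (ev i1 + ev il))) :=
    fun hf => RR_comm hdot hτ' hf0 hf
  have hB2 : ∀ j : Fin n, j ≠ i0 → RR H (ev i0) ((α ^ 2) • ev j) := by
    apply stepC
    have h1 := RR_neg (stepA hτ)
    have e : (-(((α • ev il : Fin n → F) ⬝ᵥ y0 n) • (α • (ev i1 + ev il))) : Fin n → F) = (α ^ 2) • (ev i1 + ev il) := by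
      rw [smul_dotProduct, ev_dot]
      have : (y0 n : Fin n → F) il = -1 := by
        simp only [y0, hil]
        rw [if_pos (by omega)]
      rw [this, smul_smul]
      ext x
      simp only [Pi.neg_apply, Pi.smul_apply, smul_eq_mul]
      ring
    rwa [e] at h1
  have hBk : ∀ k : ℕ, ∀ j : Fin n, j ≠ i0 → RR H (ev i0) ((α ^ (k + 2)) • ev j) := by
    intro k
    induction k with
    | zero => simpa using hB2
    | succ k ih =>
      apply stepC
      have hne : i1 ≠ i0 := by
        intro h; have := congrArg Fin.val h; simp [hi0, hi1] at this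
      have h1 := stepA (ih i1 hne)
      have e : ((((α ^ (k + 2)) • ev i1 : Fin n → F) ⬝ᵥ y0 n) • (α • (ev i1 + ev il)) : Fin n → F) = (α ^ (k + 1 + 2)) • (ev i1 + ev il) := by
        rw [smul_dotProduct, ev_dot]
        have : (y0 n : Fin n → F) i1 = 1 := by
          simp only [y0, hi1]
          rw [if_neg (by omega)]
        rw [this, smul_smul]
        ext x
        simp only [Pi.smul_apply, smul_eq_mul]
        ring
      rwa [e] at h1
  intro f hf
  rw [sum_ev f]
  apply RR_sum
  intro j _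
  by_cases hj : j = i0
  · subst hj
    rw [dot_ev] at hf
    rw [hf, zero_smul]
    exact RR_zero
  · by_cases hx : f j = 0
    · rw [hx, zero_smul]
      exact RR_zero
    · obtain ⟨k, hk⟩ := hαg _ hx
      rw [hk]
      exact hBk k j hj

/-- The spanning statement. -/
lemma span_top_of (W : Submodule F (Fin n → F)) (h0 : ev ⟨0, by omega⟩ ∈ W) (hy : y0 n ∈ W)
    (hst : ∀ y ∈ W, (Ui : Matrix (Fin n) (Fin n) F) *ᵥ y ∈ W) : W = ⊤ := by
  set w : ℕ → Fin n → F := fun j i => if (i : ℕ) < j then 1 else if (i : ℕ) = j then -1 else 0 with hw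
  have h1 : ∀ k : ℕ, k ≤ n - 1 → w (n - 1 - k) ∈ W := by
    intro k
    induction k with
    | zero =>
      intro _
      have : w (n - 1 - 0) = y0 n := by
        ext i
        simp only [hw, y0, Nat.sub_zero]
        have := i.2
        by_cases hi : (i : ℕ) + 1 = n
        · have h1 : ¬ (i : ℕ) < n - 1 := by omega
          have h2 : (i : ℕ) = n - 1 := by omega
          rw [if_neg h1, if_pos h2, if_pos hi]
        · have h1 : (i : ℕ) < n - 1 := by omega
          rw [if_pos h1, if_neg hi]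
      rw [this]; exact hy
    | succ k ih =>
      intro hk
      have h2 := W.sub_mem (ih (by omega)) (hst _ (ih (by omega)))
      have : w (n - 1 - (k + 1)) = w (n - 1 - k) - (Ui : Matrix (Fin n) (Fin n) F) *ᵥ w (n - 1 - k) := by
        ext i
        rw [Pi.sub_apply, Ui_mulVec]
        simp only [hw]
        have := i.2
        by_cases hi : (i : ℕ) + 1 < n
        · simp only [hi, dif_pos]
          have e1 : ((i : ℕ) + 1 < n - 1 - k) ↔ ((i : ℕ) < n - 1 - (k + 1)) := by omega
          have e2 : ((i : ℕ) + 1 = n - 1 - k) ↔ ((i : ℕ) = n - 1 - (k + 1)) := by omega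
          simp only [e1, e2]
          ring
        · rw [dif_neg hi]
          have e1 : ¬ ((i : ℕ) < n - 1 - (k + 1)) := by omega
          have e2 : ¬ ((i : ℕ) = n - 1 - (k + 1)) := by omega
          simp [e1, e2]
      rw [this]; exact h2
  have h2 : ∀ j : ℕ, ∀ hj : j < n, ev ⟨j, hj⟩ ∈ W := by
    intro j
    induction j using Nat.strong_induction_on with
    | _ j ih =>
      intro hj
      have h3 : w j ∈ W := by
        have := h1 (n - 1 - j) (by omega)
        have e : n - 1 - (n - 1 - j) = j := by omega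
        rwa [e] at this
      have e : ev ⟨j, hj⟩ = (∑ i : Fin n, if (i : ℕ) < j then (ev i : Fin n → F) else 0) - w j := by
        ext x
        rw [Pi.sub_apply, Finset.sum_apply]
        simp only [hw, ev_apply]
        have e1 : ∑ c : Fin n, (if (c : ℕ) < j then (ev c : Fin n → F) else 0) x = if (x : ℕ) < j then 1 else 0 := by
          rw [Finset.sum_eq_single x]
          · by_cases hx : (x : ℕ) < j
            · simp [hx, ev_apply]
            · simp [hx]
          · intro c _ hc
            by_cases hx : (c : ℕ) < j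
            · simp only [hx, if_true, ev_apply]
              rw [if_neg (Ne.symm hc)]
            · simp [hx]
          · simp
        rw [e1]
        by_cases hx : (x : ℕ) < j
        · have : x ≠ ⟨j, hj⟩ := fun h => by rw [h] at hx; simp at hx
          simp [hx, this]
        · by_cases hx2 : (x : ℕ) = j
          · have : x = ⟨j, hj⟩ := Fin.ext hx2
            simp [hx2, this]
          · have : x ≠ ⟨j, hj⟩ := fun h => hx2 (congrArg Fin.val h)
            simp [hx, hx2, this]
      rw [e]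
      refine W.sub_mem (W.sum_mem ?_) h3
      intro i _
      by_cases hi : (i : ℕ) < j
      · simp only [hi, if_true]
        exact ih i hi i.2
      · simp only [hi, if_false]
        exact W.zero_mem
  rw [eq_top_iff]
  intro f _
  rw [sum_ev f]
  exact W.sum_mem fun j _ => W.smul_mem _ (h2 j j.2)

end Main

/-- The generation theorem. -/
theorem sl_three_conj [Fintype F] (hn : 3 ≤ n) :
    ∃ g h : SpecialLinearGroup (Fin n) F,
      Subgroup.closure ({uu, g * uu * g⁻¹, h * uu * h⁻¹} : Set (SpecialLinearGroup (Fin n) F)) = ⊤ := by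
  haveI : Nontrivial (Fin n) := Fin.nontrivial_iff_two_le.mpr (by omega)
  set i0 : Fin n := ⟨0, by omega⟩ with hi0
  set i1 : Fin n := ⟨1, by omega⟩ with hi1
  set iq : Fin n := ⟨n - 2, by omega⟩ with hiq
  set il : Fin n := ⟨n - 1, by omega⟩ with hil
  have h01 : i0 ≠ i1 := by
    intro h; have := congrArg Fin.val h; simp [hi0, hi1] at this
  have h0l : i0 ≠ il := by
    intro h; have := congrArg Fin.val h; simp only [hi0, hil] at this; omega
  have h1l : i1 ≠ il := by
    intro h; have := congrArg Fin.val h; simp only [hi1, hil] at this; omega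
  have h0q : i0 ≠ iq := by
    intro h; have := congrArg Fin.val h; simp only [hi0, hiq] at this; omega
  have hql : iq ≠ il := by
    intro h; have := congrArg Fin.val h; simp only [hiq, hil] at this; omega
  obtain ⟨a, ha⟩ := IsCyclic.exists_generator (α := Fˣ)
  set α : F := (a : F) with hα
  have hαg : ∀ x : F, x ≠ 0 → ∃ k : ℕ, x = α ^ (k + 2) := by
    intro x hx
    have hm := ha (Units.mk0 x hx)
    rw [← mem_powers_iff_mem_zpowers] at hm
    obtain ⟨m, hm⟩ := hm
    have hpos := orderOf_pos a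
    refine ⟨m + 2 * orderOf a - 2, ?_⟩
    have e : m + 2 * orderOf a - 2 + 2 = m + orderOf a * 2 := by omega
    rw [e, pow_add, pow_mul]
    have h1 : (α ^ orderOf a) = 1 := by
      rw [hα, ← Units.val_pow_eq_pow_val, pow_orderOf_eq_one]; rfl
    rw [h1, one_pow, mul_one, hα, ← Units.val_pow_eq_pow_val]
    simp only at hm
    rw [hm]
    rfl
  set e0 : Fin n → F := ev i0 with he0
  set g : SpecialLinearGroup (Fin n) F := Ga i0 il h0l with hg
  have hqe : (α • ev iq : Fin n → F) ⬝ᵥ e0 = 0 := by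
    rw [he0, dot_ev]
    simp [ev_apply, h0q]
  set h : SpecialLinearGroup (Fin n) F := Tv e0 (α • ev iq) hqe with hh
  refine ⟨g, h, ?_⟩
  set H := Subgroup.closure ({uu, g * uu * g⁻¹, h * uu * h⁻¹} : Set (SpecialLinearGroup (Fin n) F)) with hH
  have huu : uu ∈ H := Subgroup.subset_closure (by simp)
  have hv : g * uu * g⁻¹ ∈ H := Subgroup.subset_closure (by simp)
  have hh' : h * uu * h⁻¹ ∈ H := Subgroup.subset_closure (by simp)
  -- the transvection `τ`
  have hlsum : (α • ev il : Fin n → F) ⬝ᵥ e0 = 0 := by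
    rw [he0, dot_ev]
    simp [ev_apply, h0l]
  have hUe : (Um : Matrix (Fin n) (Fin n) F) *ᵥ e0 = e0 := by
    ext x
    rw [he0, Um_ev, ev_apply]
    by_cases hx : x = i0
    · subst hx; simp
    · have : ¬ x ≤ i0 := by
        intro h
        apply hx
        apply Fin.ext
        have := Fin.le_def.mp h
        simp only [hi0] at this ⊢
        omega
      simp [hx, this]
  have hτ : RR H e0 (α • ev il) := by
    refine ⟨hlsum, ?_⟩
    have hsum : (α • (ev iq + ev il) : Fin n → F) ⬝ᵥ e0 = 0 := by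
      rw [he0, dot_ev]
      simp [ev_apply, h0l, h0q]
    have h2 : (α • (ev iq + ev il) : Fin n → F) ᵥ* Ui = α • ev iq := by
      rw [smul_vecMul, add_vecMul, ev_Ui_succ iq il (by simp only [hiq, hil]; omega), ev_Ui_last il (by simp only [hil]; omega)]
      congr 1
      abel
    have h3 : uu * Tv e0 (α • (ev iq + ev il)) hsum * uu⁻¹ = h := by
      have hd : ((α • (ev iq + ev il) : Fin n → F) ᵥ* ((uu⁻¹ : SpecialLinearGroup (Fin n) F) : Matrix (Fin n) (Fin n) F)) ⬝ᵥ ((uu : SpecialLinearGroup (Fin n) F) : Matrix (Fin n) (Fin n) F) *ᵥ e0 = 0 := by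
        rw [dot_conj]; exact hsum
      rw [Tv_conj uu e0 _ hsum hd]
      apply sl_ext
      simp only [Tv_coe, hh, uu_inv_coe, h2, uu_coe, hUe]
    have h4 : uu⁻¹ * (h * uu * h⁻¹) = Tv e0 (α • ev il) hlsum := by
      have hin : (-(α • ev iq) : Fin n → F) ⬝ᵥ e0 = 0 := by simp [hqe]
      have h5 : uu⁻¹ * (h * uu * h⁻¹) = Tv e0 (α • (ev iq + ev il)) hsum * h⁻¹ := by
        have h6 : h * uu = uu * Tv e0 (α • (ev iq + ev il)) hsum := by
          rw [← h3]; group
        rw [← mul_assoc, ← mul_assoc, mul_assoc (uu⁻¹) h uu, h6]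
        group
      rw [h5, hh, Tv_inv e0 _ hqe hin, Tv_mul e0 _ _ hsum hin (by simp [hsum, hqe, hlsum, smul_add, add_dotProduct])]
      apply sl_ext
      simp only [Tv_coe]
      congr 2
      rw [smul_add]
      abel
    rw [← h4]
    exact H.mul_mem (H.inv_mem huu) hh'
  -- the vector and covector
  have hvy : (((g * uu * g⁻¹ : SpecialLinearGroup (Fin n) F)) : Matrix (Fin n) (Fin n) F) *ᵥ e0 = y0 n := by
    simp only [Matrix.SpecialLinearGroup.coe_mul, ← mulVec_mulVec, uu_coe]
    ext x
    rw [hg, Ga_mulVec]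
    have e1 : (((Ga i0 il h0l)⁻¹ : SpecialLinearGroup (Fin n) F) : Matrix (Fin n) (Fin n) F) *ᵥ e0 = ev il := by
      ext y
      rw [Ga_inv_mulVec, he0]
      by_cases h1 : y = i0
      · subst h1
        simp [ev_apply, h0l, h0l.symm]
      · by_cases h2 : y = il
        · subst h2
          simp [ev_apply, h0l, h0l.symm]
        · simp [ev_apply, h1, h2]
    rw [e1]
    simp only [Um_ev, y0]
    by_cases h1 : x = i0
    · subst h1
      have h2 : (i0 : ℕ) + 1 ≠ n := by simp only [hi0]; omega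
      have h3 : i0 ≤ il := by rw [Fin.le_def]; simp only [hi0]; omega
      have h4 : il ≤ il := le_refl _
      simp [h2, h4]
    · by_cases h2 : x = il
      · subst h2
        have h3 : (il : ℕ) + 1 = n := by simp only [hil]; omega
        have h4 : i0 ≤ il := by rw [Fin.le_def]; simp only [hi0]; omega
        simp [h0l.symm, h3, h4]
      · have h3 : (x : ℕ) + 1 ≠ n := by
          intro h'
          apply h2
          apply Fin.ext
          simp only [hil]; omega
        have h4 : x ≤ il := by rw [Fin.le_def]; simp only [hil]; have := x.2; omega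
        simp [h1, h2, h3, h4]
  have hvinv : ((g * uu * g⁻¹)⁻¹ : SpecialLinearGroup (Fin n) F) = g * uu⁻¹ * g⁻¹ := by group
  have hvc : (ev il : Fin n → F) ᵥ* (((g * uu * g⁻¹)⁻¹ : SpecialLinearGroup (Fin n) F) : Matrix (Fin n) (Fin n) F) = ev i1 + ev il := by
    rw [hvinv]
    simp only [Matrix.SpecialLinearGroup.coe_mul, ← vecMul_vecMul, uu_inv_coe]
    have e1 : (ev il : Fin n → F) ᵥ* ((g : SpecialLinearGroup (Fin n) F) : Matrix (Fin n) (Fin n) F) = - ev i0 := by
      ext y
      rw [hg, vecMul_Ga, Pi.neg_apply]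
      by_cases h1 : y = i0
      · subst h1
        simp [ev_apply, h0l, h0l.symm]
      · by_cases h2 : y = il
        · subst h2
          simp [ev_apply, h0l, h0l.symm]
        · simp [ev_apply, h1, h2]
    rw [e1, neg_vecMul, ev_Ui_succ i0 i1 (by simp only [hi0, hi1])]
    ext y
    rw [hg, vecMul_Ga_inv]
    by_cases h1 : y = i0
    · subst h1
      simp [ev_apply, h01, h01.symm, h0l, h0l.symm, h1l, h1l.symm]
    · by_cases h2 : y = il
      · subst h2
        simp [ev_apply, h01, h01.symm, h0l, h0l.symm, h1l, h1l.symm]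
      · by_cases h3 : y = i1
        · subst h3
          simp [ev_apply, h01, h01.symm, h0l, h0l.symm, h1l, h1l.symm]
        · simp [ev_apply, h1, h2, h3]
  have hsum : (α • ev il : Fin n → F) ⬝ᵥ e0 = 0 := hlsum
  have hdot : (α • (ev i1 + ev il) : Fin n → F) ⬝ᵥ y0 n = 0 := by
    have h1 : (y0 n : Fin n → F) i1 = 1 := by
      simp only [y0, hi1]
      rw [if_neg (by omega)]
    have h2 : (y0 n : Fin n → F) il = -1 := by
      simp only [y0, hil]
      rw [if_pos (by omega)]
    rw [smul_dotProduct, add_dotProduct, ev_dot, ev_dot, h1, h2]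
    simp
  have hτ' : Tv (y0 n) (α • (ev i1 + ev il) : Fin n → F) hdot ∈ H := by
    have hd : ((α • ev il : Fin n → F) ᵥ* (((g * uu * g⁻¹)⁻¹ : SpecialLinearGroup (Fin n) F) : Matrix (Fin n) (Fin n) F)) ⬝ᵥ (((g * uu * g⁻¹ : SpecialLinearGroup (Fin n) F)) : Matrix (Fin n) (Fin n) F) *ᵥ e0 = 0 := by
      rw [dot_conj]; exact hlsum
    have h1 := H.mul_mem (H.mul_mem hv hτ.2) (H.inv_mem hv)
    rw [Tv_conj _ e0 _ hlsum hd] at h1
    convert h1 using 1
    apply sl_ext
    simp only [Tv_coe]
    rw [hvy, smul_vecMul, hvc]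
  have hR := RR_all hn H huu α hαg hτ hdot hτ'
  refine top_of_span H e0 (fun f hf => (hR f hf).2) ?_
  apply span_top_of hn
  · apply Submodule.subset_span
    refine ⟨1, H.one_mem, ?_⟩
    simp [he0, hi0]
  · apply Submodule.subset_span
    exact ⟨_, hv, hvy.symm⟩
  · intro y hy
    induction hy using Submodule.span_induction with
    | mem y hy =>
      obtain ⟨k, hk, rfl⟩ := hy
      apply Submodule.subset_span
      refine ⟨uu⁻¹ * k, H.mul_mem (H.inv_mem huu) hk, ?_⟩
      simp only [Matrix.SpecialLinearGroup.coe_mul, ← mulVec_mulVec, uu_inv_coe]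
    | zero => simp
    | add x y _ _ hx hy =>
      rw [mulVec_add]
      exact Submodule.add_mem _ hx hy
    | smul c x _ hx =>
      rw [mulVec_smul]
      exact Submodule.smul_mem _ c hx

end Cfsg.Agent.Lib.KS2.Reg
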