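import Mathlib
import Cfsg.Agent.Lib.KS2.RegSL

/-!
Pairs of conjugate regular unipotent elements generating `SL_n(F)`, `n ≥ 4`: `uu` and `t uu t⁻¹`, with `t` the root
element opposite to the highest root.  Part 1: vectors, covectors, pairing.
-/

set_option autoImplicit false
set_option linter.unusedSimpArgs false
set_option linter.unusedVariables false

namespace Cfsg.Agent.Lib.KS2.Reg

open Matrix Module
open scoped MatrixGroups

variable {F : Type*} [Field F] {n : ℕ}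

lemma uu_pow_coe (k : ℕ) :
    (((uu : SpecialLinearGroup (Fin n) F) ^ k : SpecialLinearGroup (Fin n) F) : Matrix (Fin n) (Fin n) F) = Um ^ k := by
  induction k with
  | zero => simp
  | succ k ih => rw [pow_succ, Matrix.SpecialLinearGroup.coe_mul, ih, uu_coe, pow_succ]

lemma uu_pow_inv_coe (k : ℕ) :
    ((((uu : SpecialLinearGroup (Fin n) F) ^ k)⁻¹ : SpecialLinearGroup (Fin n) F) : Matrix (Fin n) (Fin n) F) = Ui ^ k := by
  induction k with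
  | zero => simp
  | succ k ih =>
    rw [pow_succ, _root_.mul_inv_rev, Matrix.SpecialLinearGroup.coe_mul, ih, uu_inv_coe, pow_succ']

lemma Ui_Um_comm : Commute (Ui : Matrix (Fin n) (Fin n) F) Um := by
  show Ui * Um = Um * Ui
  rw [Ui_mul_Um, Um_mul_Ui]

lemma Ui_pow_mul_Um_pow_self (k : ℕ) : (Ui : Matrix (Fin n) (Fin n) F) ^ k * Um ^ k = 1 := by
  rw [← Ui_Um_comm.mul_pow, Ui_mul_Um, one_pow]

lemma Um_pow_mul_Ui_pow_self (k : ℕ) : (Um : Matrix (Fin n) (Fin n) F) ^ k * Ui ^ k = 1 := by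
  rw [← Ui_Um_comm.symm.mul_pow, Um_mul_Ui, one_pow]

lemma Ui_pow_mul_Um_pow (k d : ℕ) : (Ui : Matrix (Fin n) (Fin n) F) ^ (k + d) * Um ^ k = Ui ^ d := by
  rw [add_comm, pow_add, mul_assoc, Ui_pow_mul_Um_pow_self, mul_one]

lemma Ui_pow_mul_Um_pow' (k s : ℕ) : (Ui : Matrix (Fin n) (Fin n) F) ^ k * Um ^ (k + s) = Um ^ s := by
  rw [pow_add, ← mul_assoc, Ui_pow_mul_Um_pow_self, one_mul]

/-- The vector `uᵏ e`. -/
def Lv (il : Fin n) (k : ℕ) : Fin n → F := (Um ^ k) *ᵥ ev il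

/-- The covector `φ u⁻ʲ`. -/
def Cv (i0 : Fin n) (j : ℕ) : Fin n → F := ev i0 ᵥ* (Ui ^ j)

lemma Cv_dot_Lv (i0 il : Fin n) (j k : ℕ) :
    (Cv i0 j : Fin n → F) ⬝ᵥ Lv il k = ((Ui : Matrix (Fin n) (Fin n) F) ^ j * Um ^ k : Matrix (Fin n) (Fin n) F) i0 il := by
  unfold Cv Lv
  rw [dotProduct_mulVec, vecMul_vecMul, dot_ev, ev_vecMul]

/-- Pairing in the forward direction. -/
def Dd (i0 il : Fin n) (d : ℕ) : F := ((Ui : Matrix (Fin n) (Fin n) F) ^ d : Matrix (Fin n) (Fin n) F) i0 il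

/-- Pairing in the backward direction. -/
def Ee (i0 il : Fin n) (s : ℕ) : F := ((Um : Matrix (Fin n) (Fin n) F) ^ s : Matrix (Fin n) (Fin n) F) i0 il

lemma pair_ge (i0 il : Fin n) (k d : ℕ) : (Cv i0 (k + d) : Fin n → F) ⬝ᵥ Lv il k = (Dd i0 il d : F) := by
  rw [Cv_dot_Lv, Ui_pow_mul_Um_pow]; rfl

lemma pair_le (i0 il : Fin n) (k s : ℕ) : (Cv i0 k : Fin n → F) ⬝ᵥ Lv il (k + s) = (Ee i0 il s : F) := by
  rw [Cv_dot_Lv, Ui_pow_mul_Um_pow']; rfl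

lemma mul_Ui_apply (M : Matrix (Fin n) (Fin n) F) (a b : Fin n) :
    (M * Ui : Matrix (Fin n) (Fin n) F) a b = M a b - (if h : 0 < (b : ℕ) then M a ⟨(b : ℕ) - 1, by have := b.2; omega⟩ else 0) := by
  unfold Ui
  rw [mul_sub, mul_one, Matrix.sub_apply]
  congr 1
  rw [Matrix.mul_apply]
  simp only [NN_apply, mul_ite, mul_one, mul_zero]
  split_ifs with h
  · rw [Finset.sum_eq_single (⟨(b : ℕ) - 1, by have := b.2; omega⟩ : Fin n)]
    · rw [if_pos (by simp only; omega)]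
    · intro c _ hc
      rw [if_neg]
      intro h'
      apply hc
      apply Fin.ext
      simp only
      omega
    · simp
  · apply Finset.sum_eq_zero
    intro c _
    rw [if_neg]
    omega

lemma Ui_pow_apply_gt (d : ℕ) (a b : Fin n) (h : (a : ℕ) + d < b) :
    ((Ui : Matrix (Fin n) (Fin n) F) ^ d : Matrix (Fin n) (Fin n) F) a b = 0 := by
  induction d generalizing b with
  | zero =>
    rw [pow_zero, Matrix.one_apply_ne]
    intro e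
    rw [e] at h
    simp at h
  | succ d ih =>
    rw [pow_succ, mul_Ui_apply, ih b (by omega)]
    rw [dif_pos (by omega), ih _ (by simp only; omega)]
    simp

lemma Ui_pow_apply_top (d : ℕ) (a b : Fin n) (h : (b : ℕ) = a + d) :
    ((Ui : Matrix (Fin n) (Fin n) F) ^ d : Matrix (Fin n) (Fin n) F) a b = (-1) ^ d := by
  induction d generalizing b with
  | zero =>
    have : a = b := Fin.ext (by simpa using h.symm)
    simp [this]
  | succ d ih =>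
    rw [pow_succ, mul_Ui_apply, Ui_pow_apply_gt d a b (by omega)]
    rw [dif_pos (by omega), ih _ (by simp only; omega), pow_succ]
    ring

lemma Dd_eq_zero (i0 il : Fin n) (h0 : (i0 : ℕ) = 0) (hl : (il : ℕ) + 1 = n) (d : ℕ) (hd : d + 2 ≤ n) :
    (Dd i0 il d : F) = 0 :=
  Ui_pow_apply_gt d i0 il (by omega)

lemma Dd_top (i0 il : Fin n) (h0 : (i0 : ℕ) = 0) (hl : (il : ℕ) + 1 = n) :
    (Dd i0 il (n - 1) : F) = (-1) ^ (n - 1) :=
  Ui_pow_apply_top (n - 1) i0 il (by omega)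

lemma Ee_one (i0 il : Fin n) (h0 : (i0 : ℕ) = 0) : (Ee i0 il 1 : F) = 1 := by
  unfold Ee
  rw [pow_one, Um_apply, if_pos]
  rw [Fin.le_def]; omega

/-- An `R`-type predicate for the orbit of `u`: all `1 + a uᵏ e ⊗ φ u⁻ᵏ⁻ᵈ` belong to `H`. -/
def Pd (H : Subgroup (SpecialLinearGroup (Fin n) F)) (i0 il : Fin n) (d : ℕ) (a : F) : Prop :=
  ∀ k : ℕ, RR H (Lv il k) (a • Cv i0 (k + d))

/-- Conjugating `R`. -/
lemma RR_move {H : Subgroup (SpecialLinearGroup (Fin n) F)} {e f : Fin n → F}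
    (g : SpecialLinearGroup (Fin n) F) (hg : g ∈ H) (h : RR H e f) :
    RR H ((g : Matrix (Fin n) (Fin n) F) *ᵥ e) (f ᵥ* ((g⁻¹ : SpecialLinearGroup (Fin n) F) : Matrix (Fin n) (Fin n) F)) := by
  obtain ⟨hf, hm⟩ := h
  have h' : (f ᵥ* ((g⁻¹ : SpecialLinearGroup (Fin n) F) : Matrix (Fin n) (Fin n) F)) ⬝ᵥ ((g : Matrix (Fin n) (Fin n) F) *ᵥ e) = 0 := by
    rw [dot_conj]; exact hf
  refine ⟨h', ?_⟩
  have h2 := H.mul_mem (H.mul_mem hg hm) (H.inv_mem hg)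
  rwa [Tv_conj g e f hf h'] at h2

section

variable {H : Subgroup (SpecialLinearGroup (Fin n) F)} {i0 il : Fin n}

lemma RR_up (huu : uu ∈ H) {k j : ℕ} {a : F} (h : RR H (Lv il k) (a • Cv i0 j)) :
    RR H (Lv il (k + 1)) (a • Cv i0 (j + 1)) := by
  have h1 := RR_move uu huu h
  have e1 : ((uu : SpecialLinearGroup (Fin n) F) : Matrix (Fin n) (Fin n) F) *ᵥ Lv il k = Lv il (k + 1) := by
    unfold Lv
    rw [uu_coe, mulVec_mulVec, pow_succ']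
  have e2 : (a • Cv i0 j : Fin n → F) ᵥ* (((uu : SpecialLinearGroup (Fin n) F)⁻¹ : SpecialLinearGroup (Fin n) F) : Matrix (Fin n) (Fin n) F) = a • Cv i0 (j + 1) := by
    rw [uu_inv_coe, smul_vecMul]
    unfold Cv
    rw [vecMul_vecMul, pow_succ]
  rwa [e1, e2] at h1

lemma RR_down (huu : uu ∈ H) {k j : ℕ} {a : F} (h : RR H (Lv il (k + 1)) (a • Cv i0 (j + 1))) :
    RR H (Lv il k) (a • Cv i0 j) := by
  have h1 := RR_move uu⁻¹ (H.inv_mem huu) h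
  have e1 : (((uu : SpecialLinearGroup (Fin n) F)⁻¹ : SpecialLinearGroup (Fin n) F) : Matrix (Fin n) (Fin n) F) *ᵥ Lv il (k + 1) = Lv il k := by
    unfold Lv
    rw [uu_inv_coe, mulVec_mulVec, pow_succ', ← mul_assoc, Ui_mul_Um, one_mul]
  have e2 : (a • Cv i0 (j + 1) : Fin n → F) ᵥ* (((uu⁻¹ : SpecialLinearGroup (Fin n) F)⁻¹ : SpecialLinearGroup (Fin n) F) : Matrix (Fin n) (Fin n) F) = a • Cv i0 j := by
    rw [inv_inv, uu_coe, smul_vecMul]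
    unfold Cv
    rw [vecMul_vecMul, pow_succ, mul_assoc, Ui_mul_Um, mul_one]
  rwa [e1, e2] at h1

/-- From one `k` to all. -/
lemma Pd_of (huu : uu ∈ H) {k0 d : ℕ} {a : F} (h : RR H (Lv il k0) (a • Cv i0 (k0 + d))) :
    Pd H i0 il d a := by
  have h0 : RR H (Lv il 0) (a • Cv i0 d) := by
    induction k0 with
    | zero => simpa using h
    | succ k ih =>
      apply ih
      apply RR_down huu
      have e : k + 1 + d = k + d + 1 := by ring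
      rwa [e] at h
  intro k
  induction k with
  | zero => simpa using h0
  | succ k ih =>
    have := RR_up huu ih
    have e : k + 1 + d = k + d + 1 := by ring
    rwa [e]

lemma Pd_add {d : ℕ} {a b : F} (ha : Pd H i0 il d a) (hb : Pd H i0 il d b) : Pd H i0 il d (a + b) := by
  intro k
  rw [add_smul]
  exact RR_add (ha k) (hb k)

lemma Pd_neg {d : ℕ} {a : F} (ha : Pd H i0 il d a) : Pd H i0 il d (-a) := by
  intro k
  rw [neg_smul]
  exact RR_neg (ha k)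

lemma Pd_zero {d : ℕ} : Pd H i0 il d (0 : F) := by
  intro k
  rw [zero_smul]
  exact RR_zero

lemma Pd_sub {d : ℕ} {a b : F} (ha : Pd H i0 il d a) (hb : Pd H i0 il d b) : Pd H i0 il d (a - b) := by
  rw [sub_eq_add_neg]
  exact Pd_add ha (Pd_neg hb)

lemma Pd_natCast_mul {d : ℕ} {a : F} (ha : Pd H i0 il d a) (m : ℕ) : Pd H i0 il d ((m : F) * a) := by
  induction m with
  | zero => simpa using Pd_zero
  | succ m ih =>
    have := Pd_add ih ha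
    have e : (((m + 1 : ℕ) : F)) * a = (m : F) * a + a := by push_cast; ring
    rwa [e]

/-- The wrap-around rule. -/
lemma Pd_wrap (huu : uu ∈ H) (hn : 1 ≤ n) {d₁ d₂ A : ℕ} {a a' : F} (ha : Pd H i0 il d₁ a) (ha' : Pd H i0 il d₂ a')
    (hA : d₁ + d₂ + 1 = A + n) (hDA : (Dd i0 il A : F) = 0) :
    Pd H i0 il A (a * Dd i0 il (n - 1) * a') := by
  apply Pd_of huu (k0 := n)
  have h1 := ha n
  have h2 := ha' (d₁ + 1)
  obtain ⟨hf', hm'⟩ := h2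
  have e1 : d₁ + 1 + d₂ = n + A := by omega
  have h0 : (a' • Cv i0 (d₁ + 1 + d₂) : Fin n → F) ⬝ᵥ Lv il n = 0 := by
    rw [e1, smul_dotProduct, pair_ge, hDA, smul_zero]
  have h3 := RR_comm hf' hm' h0 h1
  have e2 : (a • Cv i0 (n + d₁) : Fin n → F) ⬝ᵥ Lv il (d₁ + 1) = a * Dd i0 il (n - 1) := by
    have : n + d₁ = d₁ + 1 + (n - 1) := by omega
    rw [smul_dotProduct, this, pair_ge, smul_eq_mul]
  rw [e2, e1, smul_smul] at h3
  exact h3

end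

section Word

variable {P : Matrix (Fin n) (Fin 3) F} {Q : Matrix (Fin 3) (Fin n) F}

lemma star_step {Pi M M' M'' : Matrix (Fin 3) (Fin 3) F} (hQP : Q * P = Pi) (h : M + M' + M * Pi * M' = M'') :
    ((1 : Matrix (Fin n) (Fin n) F) + P * M * Q) * (1 + P * M' * Q) = 1 + P * M'' * Q := by
  rw [← h, ← hQP]
  simp only [Matrix.mul_add, Matrix.add_mul, Matrix.mul_one, Matrix.one_mul, Matrix.mul_assoc]
  abel

end Word

lemma chain_s1 (β c : F) : (!![β, 0, 0; 0, 0, 0; 0, 0, 0] : Matrix (Fin 3) (Fin 3) F) + !![0, 0, 0; 0, -β, 0; 0, 0, 0] + !![β, 0, 0; 0, 0, 0; 0, 0, 0] * !![0, 1, c; 0, 0, 1; 0, 0, 0] * !![0, 0, 0; 0, -β, 0; 0, 0, 0] = !![β, -β^2, 0; 0, -β, 0; 0, 0, 0] := by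
  ext i j; fin_cases i <;> fin_cases j <;> simp [Matrix.mul_apply, Fin.sum_univ_three] <;> ring

lemma chain_s2 (β c : F) : (!![β, -β^2, 0; 0, -β, 0; 0, 0, 0] : Matrix (Fin 3) (Fin 3) F) + !![0, 0, 0; 0, 0, 0; 0, 0, β] + !![β, -β^2, 0; 0, -β, 0; 0, 0, 0] * !![0, 1, c; 0, 0, 1; 0, 0, 0] * !![0, 0, 0; 0, 0, 0; 0, 0, β] = !![β, -β^2, β^2*c - β^3; 0, -β, -β^2; 0, 0, β] := by
  ext i j; fin_cases i <;> fin_cases j <;> simp [Matrix.mul_apply, Fin.sum_univ_three] <;> ring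

lemma chain_s3 (β c : F) : (!![β, -β^2, β^2*c - β^3; 0, -β, -β^2; 0, 0, β] : Matrix (Fin 3) (Fin 3) F) + !![-β, 0, 0; 0, 0, 0; 0, 0, 0] + !![β, -β^2, β^2*c - β^3; 0, -β, -β^2; 0, 0, β] * !![0, 1, c; 0, 0, 1; 0, 0, 0] * !![-β, 0, 0; 0, 0, 0; 0, 0, 0] = !![0, -β^2, β^2*c - β^3; 0, -β, -β^2; 0, 0, β] := by
  ext i j; fin_cases i <;> fin_cases j <;> simp [Matrix.mul_apply, Fin.sum_univ_three] <;> ring

lemma chain_s4 (β c : F) : (!![0, -β^2, β^2*c - β^3; 0, -β, -β^2; 0, 0, β] : Matrix (Fin 3) (Fin 3) F) + !![0, 0, 0; 0, β, 0; 0, 0, 0] + !![0, -β^2, β^2*c - β^3; 0, -β, -β^2; 0, 0, β] * !![0, 1, c; 0, 0, 1; 0, 0, 0] * !![0, 0, 0; 0, β, 0; 0, 0, 0] = !![0, -β^2, β^2*c - β^3; 0, 0, -β^2; 0, 0, β] := by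
  ext i j; fin_cases i <;> fin_cases j <;> simp [Matrix.mul_apply, Fin.sum_univ_three] <;> ring

lemma chain_s5 (β c : F) : (!![0, -β^2, β^2*c - β^3; 0, 0, -β^2; 0, 0, β] : Matrix (Fin 3) (Fin 3) F) + !![0, 0, 0; 0, 0, 0; 0, 0, -β] + !![0, -β^2, β^2*c - β^3; 0, 0, -β^2; 0, 0, β] * !![0, 1, c; 0, 0, 1; 0, 0, 0] * !![0, 0, 0; 0, 0, 0; 0, 0, -β] = !![0, -β^2, β^2*c; 0, 0, -β^2; 0, 0, 0] := by
  ext i j; fin_cases i <;> fin_cases j <;> simp [Matrix.mul_apply, Fin.sum_univ_three] <;> ring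

lemma chain_s6 (β c : F) : (!![0, -β^2, β^2*c; 0, 0, -β^2; 0, 0, 0] : Matrix (Fin 3) (Fin 3) F) + !![β, 0, 0; 0, 0, 0; 0, 0, 0] + !![0, -β^2, β^2*c; 0, 0, -β^2; 0, 0, 0] * !![0, 1, c; 0, 0, 1; 0, 0, 0] * !![β, 0, 0; 0, 0, 0; 0, 0, 0] = !![β, -β^2, β^2*c; 0, 0, -β^2; 0, 0, 0] := by
  ext i j; fin_cases i <;> fin_cases j <;> simp [Matrix.mul_apply, Fin.sum_univ_three] <;> ring

lemma chain_s7 (β c : F) : (!![β, -β^2, β^2*c; 0, 0, -β^2; 0, 0, 0] : Matrix (Fin 3) (Fin 3) F) + !![0, 0, 0; 0, 0, 0; 0, 0, -β] + !![β, -β^2, β^2*c; 0, 0, -β^2; 0, 0, 0] * !![0, 1, c; 0, 0, 1; 0, 0, 0] * !![0, 0, 0; 0, 0, 0; 0, 0, -β] = !![β, -β^2, β^3; 0, 0, -β^2; 0, 0, -β] := by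
  ext i j; fin_cases i <;> fin_cases j <;> simp [Matrix.mul_apply, Fin.sum_univ_three] <;> ring

lemma chain_s8 (β c : F) : (!![β, -β^2, β^3; 0, 0, -β^2; 0, 0, -β] : Matrix (Fin 3) (Fin 3) F) + !![0, 0, 0; 0, β, 0; 0, 0, 0] + !![β, -β^2, β^3; 0, 0, -β^2; 0, 0, -β] * !![0, 1, c; 0, 0, 1; 0, 0, 0] * !![0, 0, 0; 0, β, 0; 0, 0, 0] = !![β, 0, β^3; 0, β, -β^2; 0, 0, -β] := by
  ext i j; fin_cases i <;> fin_cases j <;> simp [Matrix.mul_apply, Fin.sum_univ_three] <;> ring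

lemma chain_s9 (β c : F) : (!![β, 0, β^3; 0, β, -β^2; 0, 0, -β] : Matrix (Fin 3) (Fin 3) F) + !![-β, 0, 0; 0, 0, 0; 0, 0, 0] + !![β, 0, β^3; 0, β, -β^2; 0, 0, -β] * !![0, 1, c; 0, 0, 1; 0, 0, 0] * !![-β, 0, 0; 0, 0, 0; 0, 0, 0] = !![0, 0, β^3; 0, β, -β^2; 0, 0, -β] := by
  ext i j; fin_cases i <;> fin_cases j <;> simp [Matrix.mul_apply, Fin.sum_univ_three] <;> ring

lemma chain_s10 (β c : F) : (!![0, 0, β^3; 0, β, -β^2; 0, 0, -β] : Matrix (Fin 3) (Fin 3) F) + !![0, 0, 0; 0, 0, 0; 0, 0, β] + !![0, 0, β^3; 0, β, -β^2; 0, 0, -β] * !![0, 1, c; 0, 0, 1; 0, 0, 0] * !![0, 0, 0; 0, 0, 0; 0, 0, β] = !![0, 0, β^3; 0, β, 0; 0, 0, 0] := by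
  ext i j; fin_cases i <;> fin_cases j <;> simp [Matrix.mul_apply, Fin.sum_univ_three] <;> ring

lemma chain_s11 (β c : F) : (!![0, 0, β^3; 0, β, 0; 0, 0, 0] : Matrix (Fin 3) (Fin 3) F) + !![0, 0, 0; 0, -β, 0; 0, 0, 0] + !![0, 0, β^3; 0, β, 0; 0, 0, 0] * !![0, 1, c; 0, 0, 1; 0, 0, 0] * !![0, 0, 0; 0, -β, 0; 0, 0, 0] = !![0, 0, β^3; 0, 0, 0; 0, 0, 0] := by
  ext i j; fin_cases i <;> fin_cases j <;> simp [Matrix.mul_apply, Fin.sum_univ_three] <;> ring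

/-- The word giving a transvection. -/
lemma word_T (L0 L1 L2 f0 f1 f2 : Fin n → F) (β c : F)
    (h00 : f0 ⬝ᵥ L0 = 0) (h11 : f1 ⬝ᵥ L1 = 0) (h22 : f2 ⬝ᵥ L2 = 0) (h10 : f1 ⬝ᵥ L0 = 0) (h20 : f2 ⬝ᵥ L0 = 0)
    (h21 : f2 ⬝ᵥ L1 = 0) (h01 : f0 ⬝ᵥ L1 = 1) (h12 : f1 ⬝ᵥ L2 = 1) (h02 : f0 ⬝ᵥ L2 = c)
    (T0 T1 T2 : SpecialLinearGroup (Fin n) F)
    (hT0 : (T0 : Matrix (Fin n) (Fin n) F) = 1 + vecMulVec L0 (β • f0))
    (hT1 : (T1 : Matrix (Fin n) (Fin n) F) = 1 + vecMulVec L1 (β • f1))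
    (hT2 : (T2 : Matrix (Fin n) (Fin n) F) = 1 + vecMulVec L2 (β • f2))
    (hT0' : ((T0⁻¹ : SpecialLinearGroup (Fin n) F) : Matrix (Fin n) (Fin n) F) = 1 + vecMulVec L0 ((-β) • f0))
    (hT1' : ((T1⁻¹ : SpecialLinearGroup (Fin n) F) : Matrix (Fin n) (Fin n) F) = 1 + vecMulVec L1 ((-β) • f1))
    (hT2' : ((T2⁻¹ : SpecialLinearGroup (Fin n) F) : Matrix (Fin n) (Fin n) F) = 1 + vecMulVec L2 ((-β) • f2)) :
    (((T0 * T1⁻¹) * (T2 * T0⁻¹) * (T1 * T2⁻¹) * (T0 * T2⁻¹) * (T1 * T0⁻¹) * (T2 * T1⁻¹) : SpecialLinearGroup (Fin n) F) : Matrix (Fin n) (Fin n) F)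
      = 1 + vecMulVec L0 ((β ^ 3) • f2) := by
  set P : Matrix (Fin n) (Fin 3) F := Matrix.of fun a i => ![L0, L1, L2] i a with hP
  set Q : Matrix (Fin 3) (Fin n) F := Matrix.of fun j b => ![f0, f1, f2] j b with hQ
  have hQP : Q * P = !![0, 1, c; 0, 0, 1; 0, 0, 0] := by
    ext j k
    rw [Matrix.mul_apply]
    fin_cases j <;> fin_cases k
    · simpa [hP, hQ, dotProduct] using h00
    · simpa [hP, hQ, dotProduct] using h01
    · simpa [hP, hQ, dotProduct] using h02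
    · simpa [hP, hQ, dotProduct] using h10
    · simpa [hP, hQ, dotProduct] using h11
    · simpa [hP, hQ, dotProduct] using h12
    · simpa [hP, hQ, dotProduct] using h20
    · simpa [hP, hQ, dotProduct] using h21
    · simpa [hP, hQ, dotProduct] using h22
  have e0 : ∀ b : F, vecMulVec L0 (b • f0) = P * !![b, 0, 0; 0, 0, 0; 0, 0, 0] * Q := by
    intro b
    ext x y
    simp [hP, hQ, vecMulVec_apply, Matrix.mul_apply, Fin.sum_univ_three]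
    ring
  have e1 : ∀ b : F, vecMulVec L1 (b • f1) = P * !![0, 0, 0; 0, b, 0; 0, 0, 0] * Q := by
    intro b
    ext x y
    simp [hP, hQ, vecMulVec_apply, Matrix.mul_apply, Fin.sum_univ_three]
    ring
  have e2 : ∀ b : F, vecMulVec L2 (b • f2) = P * !![0, 0, 0; 0, 0, 0; 0, 0, b] * Q := by
    intro b
    ext x y
    simp [hP, hQ, vecMulVec_apply, Matrix.mul_apply, Fin.sum_univ_three]
    ring
  have e3 : vecMulVec L0 ((β ^ 3) • f2) = P * !![0, 0, β ^ 3; 0, 0, 0; 0, 0, 0] * Q := by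
    ext x y
    simp [hP, hQ, vecMulVec_apply, Matrix.mul_apply, Fin.sum_univ_three]
    ring
  simp only [Matrix.SpecialLinearGroup.coe_mul, hT0, hT1, hT2, hT0', hT1', hT2', e0, e1, e2, e3]
  have s1 := star_step hQP (chain_s1 β c)
  have s2 := star_step hQP (chain_s2 β c)
  have s3 := star_step hQP (chain_s3 β c)
  have s4 := star_step hQP (chain_s4 β c)
  have s5 := star_step hQP (chain_s5 β c)
  have s6 := star_step hQP (chain_s6 β c)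
  have s7 := star_step hQP (chain_s7 β c)
  have s8 := star_step hQP (chain_s8 β c)
  have s9 := star_step hQP (chain_s9 β c)
  have s10 := star_step hQP (chain_s10 β c)
  have s11 := star_step hQP (chain_s11 β c)
  simp only [← mul_assoc]
  rw [s1, s2, s3, s4, s5, s6, s7, s8, s9, s10, s11]

end Cfsg.Agent.Lib.KS2.Reg
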