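import Mathlib
import Cfsg.Agent.Lib.KS2.RegPair

/-!
Pairs of conjugate regular unipotent elements generating `SL_n(F)`, `n ≥ 4`.  Part 2: the elements `T k`, the rules.
-/

set_option autoImplicit false
set_option linter.unusedSimpArgs false
set_option linter.unusedVariables false

namespace Cfsg.Agent.Lib.KS2.Reg

open Matrix Module
open scoped MatrixGroups

variable {F : Type*} [Field F] {n : ℕ}

lemma Dd_zero {i0 il : Fin n} (hne : i0 ≠ il) : (Dd i0 il 0 : F) = 0 := by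
  unfold Dd
  rw [pow_zero, Matrix.one_apply_ne hne]

lemma Lv_zero (il : Fin n) : (Lv il 0 : Fin n → F) = ev il := by
  simp [Lv]

lemma Cv_zero (i0 : Fin n) : (Cv i0 0 : Fin n → F) = ev i0 := by
  simp [Cv]

lemma TK_dot {i0 il : Fin n} (hne : i0 ≠ il) (β : F) (k : ℕ) : (β • Cv i0 k : Fin n → F) ⬝ᵥ Lv il k = 0 := by
  have := pair_ge (F := F) i0 il k 0
  rw [add_zero] at this
  rw [smul_dotProduct, this, Dd_zero hne, smul_zero]

/-- The transvections `T k`. -/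
def TK {i0 il : Fin n} (hne : i0 ≠ il) (β : F) (k : ℕ) : SpecialLinearGroup (Fin n) F :=
  Tv (Lv il k) (β • Cv i0 k) (TK_dot hne β k)

lemma TK_conj {i0 il : Fin n} (hne : i0 ≠ il) (β : F) (k : ℕ) :
    (uu : SpecialLinearGroup (Fin n) F) ^ k * TK hne β 0 * ((uu : SpecialLinearGroup (Fin n) F) ^ k)⁻¹ = TK hne β k := by
  unfold TK
  have hd : ((β • Cv i0 0 : Fin n → F) ᵥ* (((uu : SpecialLinearGroup (Fin n) F) ^ k)⁻¹ : SpecialLinearGroup (Fin n) F).1) ⬝ᵥ (((uu : SpecialLinearGroup (Fin n) F) ^ k : SpecialLinearGroup (Fin n) F).1 *ᵥ (Lv il 0)) = 0 := by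
    rw [dot_conj]; exact TK_dot hne β 0
  rw [Tv_conj _ _ _ _ hd]
  apply sl_ext
  simp only [Tv_coe]
  congr 2
  · rw [uu_pow_coe, Lv_zero]; rfl
  · rw [uu_pow_inv_coe, Cv_zero, smul_vecMul]; rfl

lemma TK_inv_coe {i0 il : Fin n} (hne : i0 ≠ il) (β : F) (k : ℕ) :
    (((TK hne β k)⁻¹ : SpecialLinearGroup (Fin n) F) : Matrix (Fin n) (Fin n) F) = 1 + vecMulVec (Lv il k) ((-β) • Cv i0 k) := by
  unfold TK
  have h' : (-(β • Cv i0 k) : Fin n → F) ⬝ᵥ Lv il k = 0 := by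
    rw [neg_dotProduct, TK_dot hne, neg_zero]
  rw [Tv_inv _ _ _ h', Tv_coe, neg_smul]

lemma TK_mul_inv_mem {i0 il : Fin n} (hne : i0 ≠ il) (β : F) {H : Subgroup (SpecialLinearGroup (Fin n) F)}
    (huu : uu ∈ H) (hv : TK hne β 0 * uu * (TK hne β 0)⁻¹ ∈ H) (i j : ℕ) :
    TK hne β i * (TK hne β j)⁻¹ ∈ H := by
  rw [← TK_conj hne β i, ← TK_conj hne β j]
  set t := TK hne β 0 with ht
  set U : SpecialLinearGroup (Fin n) F := uu with hU
  have e : U ^ i * t * (U ^ i)⁻¹ * (U ^ j * t * (U ^ j)⁻¹)⁻¹ =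
      U ^ i * (t * U ^ ((-(i : ℤ)) + (j : ℤ)) * t⁻¹) * (U ^ j)⁻¹ := by
    rw [_root_.zpow_add, _root_.zpow_neg, zpow_natCast, zpow_natCast]
    simp only [_root_.mul_inv_rev, inv_inv, mul_assoc]
  rw [e, ← conj_zpow]
  exact H.mul_mem (H.mul_mem (H.pow_mem huu i) (H.zpow_mem hv _)) (H.inv_mem (H.pow_mem huu j))

section Main

variable {i0 il : Fin n} {H : Subgroup (SpecialLinearGroup (Fin n) F)} {β : F}

/-- The move. -/
lemma Pd_move (hne : i0 ≠ il) (h0 : (i0 : ℕ) = 0) (hl : (il : ℕ) + 1 = n) (huu : uu ∈ H)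
    (hT : ∀ i j, TK hne β i * (TK hne β j)⁻¹ ∈ H) {d s : ℕ} {a : F} (ha : Pd H i0 il d a) (hds : d + s + 2 ≤ n) :
    Pd H i0 il (d + s) (a * Ee i0 il s * β) := by
  apply Pd_of huu (k0 := 0)
  have hd : (Dd i0 il d : F) = 0 := Dd_eq_zero i0 il h0 hl d (by omega)
  have hj : (Dd i0 il (d + s) : F) = 0 := Dd_eq_zero i0 il h0 hl _ hds
  have h1 := ha 0
  rw [zero_add] at h1
  have h2 := RR_move _ (hT (d + s) 0) h1
  have e1 : ((TK hne β (d + s) * (TK hne β 0)⁻¹ : SpecialLinearGroup (Fin n) F) : Matrix (Fin n) (Fin n) F) *ᵥ Lv il 0 = Lv il 0 := by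
    rw [Matrix.SpecialLinearGroup.coe_mul, ← mulVec_mulVec, TK_inv_coe]
    have a1 : (1 + vecMulVec (Lv il 0) ((-β) • Cv i0 0) : Matrix (Fin n) (Fin n) F) *ᵥ Lv il 0 = Lv il 0 := by
      have hh : (Cv i0 0 : Fin n → F) ⬝ᵥ Lv il 0 = 0 := by
        have := pair_ge (F := F) i0 il 0 0
        rw [add_zero] at this
        rw [this, Dd_zero hne]
      rw [add_mulVec, one_mulVec, vecMulVec_mulVec]
      simp [smul_dotProduct, hh]
    rw [a1]
    show (((1 : Matrix (Fin n) (Fin n) F) + vecMulVec (Lv il (d + s)) (β • Cv i0 (d + s))) *ᵥ Lv il 0) = Lv il 0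
    have hh : (Cv i0 (d + s) : Fin n → F) ⬝ᵥ Lv il 0 = 0 := by
      have := pair_ge (F := F) i0 il 0 (d + s)
      rw [zero_add] at this
      rw [this, hj]
    rw [add_mulVec, one_mulVec, vecMulVec_mulVec]
    simp [smul_dotProduct, hh]
  have e2 : (a • Cv i0 d : Fin n → F) ᵥ* (((TK hne β (d + s) * (TK hne β 0)⁻¹)⁻¹ : SpecialLinearGroup (Fin n) F) : Matrix (Fin n) (Fin n) F)
      = a • Cv i0 d - (a * Ee i0 il s * β) • Cv i0 (d + s) := by
    rw [_root_.mul_inv_rev, inv_inv, Matrix.SpecialLinearGroup.coe_mul, ← vecMul_vecMul, TK_inv_coe]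
    have a1 : (a • Cv i0 d : Fin n → F) ᵥ* ((TK hne β 0 : SpecialLinearGroup (Fin n) F) : Matrix (Fin n) (Fin n) F) = a • Cv i0 d := by
      have hh : (Cv i0 d : Fin n → F) ⬝ᵥ Lv il 0 = 0 := by
        have := pair_ge (F := F) i0 il 0 d
        rw [zero_add] at this
        rw [this, hd]
      unfold TK
      rw [vecMul_Tv, smul_dotProduct, hh]
      simp
    rw [a1, vecMul_add, vecMul_one, vecMul_vecMulVec]
    have hh : (a • Cv i0 d : Fin n → F) ⬝ᵥ Lv il (d + s) = a * Ee i0 il s := by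
      rw [smul_dotProduct, pair_le, smul_eq_mul]
    rw [hh, sub_eq_add_neg]
    congr 1
    ext x
    simp only [Pi.smul_apply, Pi.neg_apply, smul_eq_mul]
    ring
  rw [e1, e2] at h2
  have h3 := RR_sub h1 h2
  have e3 : (a • Cv i0 d - (a • Cv i0 d - (a * Ee i0 il s * β) • Cv i0 (d + s)) : Fin n → F) = (a * Ee i0 il s * β) • Cv i0 (0 + (d + s)) := by
    rw [zero_add]; abel
  rwa [e3] at h3

/-- The base. -/
lemma Pd_base (hn : 4 ≤ n) (hne : i0 ≠ il) (h0 : (i0 : ℕ) = 0) (hl : (il : ℕ) + 1 = n) (huu : uu ∈ H)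
    (hT : ∀ i j, TK hne β i * (TK hne β j)⁻¹ ∈ H) : Pd H i0 il 2 (β ^ 3) := by
  apply Pd_of huu (k0 := 0)
  have D0 : (Dd i0 il 0 : F) = 0 := Dd_zero hne
  have D1 : (Dd i0 il 1 : F) = 0 := Dd_eq_zero i0 il h0 hl 1 (by omega)
  have D2 : (Dd i0 il 2 : F) = 0 := Dd_eq_zero i0 il h0 hl 2 (by omega)
  have E1 : (Ee i0 il 1 : F) = 1 := Ee_one i0 il h0
  have hw := word_T (Lv il 0) (Lv il 1) (Lv il 2) (Cv i0 0) (Cv i0 1) (Cv i0 2) β (Ee i0 il 2 : F)
    (by simpa [D0] using pair_ge (F := F) i0 il 0 0)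
    (by simpa [D0] using pair_ge (F := F) i0 il 1 0)
    (by simpa [D0] using pair_ge (F := F) i0 il 2 0)
    (by simpa [D1] using pair_ge (F := F) i0 il 0 1)
    (by simpa [D2] using pair_ge (F := F) i0 il 0 2)
    (by simpa [D1] using pair_ge (F := F) i0 il 1 1)
    (by simpa [E1] using pair_le (F := F) i0 il 0 1)
    (by simpa [E1] using pair_le (F := F) i0 il 1 1)
    (by simpa using pair_le (F := F) i0 il 0 2)
    (TK hne β 0) (TK hne β 1) (TK hne β 2) rfl rfl rfl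
    (TK_inv_coe hne β 0) (TK_inv_coe hne β 1) (TK_inv_coe hne β 2)
  have hmem := H.mul_mem (H.mul_mem (H.mul_mem (H.mul_mem (H.mul_mem (hT 0 1) (hT 2 0)) (hT 1 2)) (hT 0 2)) (hT 1 0)) (hT 2 1)
  have hd : (β ^ 3 • Cv i0 (0 + 2) : Fin n → F) ⬝ᵥ Lv il 0 = 0 := by
    rw [smul_dotProduct, pair_ge, D2, smul_zero]
  refine ⟨hd, ?_⟩
  convert hmem using 1
  apply sl_ext
  rw [hw, Tv_coe]

lemma Pd_wrap' (hn : 4 ≤ n) (h0 : (i0 : ℕ) = 0) (hl : (il : ℕ) + 1 = n) (huu : uu ∈ H)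
    {d₁ d₂ A : ℕ} {a a' : F} (ha : Pd H i0 il d₁ a) (ha' : Pd H i0 il d₂ a')
    (hA : d₁ + d₂ + 1 = A + n) (hAn : A + 2 ≤ n) : Pd H i0 il A (a * a') := by
  have h1 := Pd_wrap huu (by omega) ha ha' hA (Dd_eq_zero i0 il h0 hl A hAn)
  rw [Dd_top i0 il h0 hl] at h1
  rcases neg_one_pow_eq_or F (n - 1) with h | h
  · rw [h] at h1
    simpa using h1
  · rw [h] at h1
    have := Pd_neg h1
    simpa using this

end Main

end Cfsg.Agent.Lib.KS2.Reg
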