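import Mathlib
import Cfsg.Agent.Lib.KS2.RegPair2

/-!
Pairs of conjugate regular unipotent elements generating `SL_n(F)`, `n ≥ 4`.  Part 3: all root groups, generation.
-/

set_option autoImplicit false
set_option linter.unusedSimpArgs false
set_option linter.unusedVariables false

namespace Cfsg.Agent.Lib.KS2.Reg

open Matrix Module
open scoped MatrixGroups

variable {F : Type*} [Field F] {n : ℕ}

lemma NN_pow_self : (NN : Matrix (Fin n) (Fin n) F) ^ n = 0 := by
  ext a b
  rw [NN_pow]
  have : ¬ b.val = a.val + n := by have := b.2; omega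
  simp [this]

lemma Ee_jump {p : ℕ} [Fact p.Prime] [CharP F p] (e m : ℕ) (hn : n = p ^ e * m) (i0 il : Fin n)
    (h0 : (i0 : ℕ) = 0) (hl : (il : ℕ) + 1 = n) :
    (Ee i0 il (p ^ e + 1) : F) = m := by
  haveI : Nonempty (Fin n) := ⟨i0⟩
  have hU : (Ui : Matrix (Fin n) (Fin n) F) ^ (p ^ e) = 1 - NN ^ (p ^ e) := by
    unfold Ui
    rw [sub_pow_char_pow_of_commute p e (Commute.one_left _), one_pow]
  set X : Matrix (Fin n) (Fin n) F := NN ^ (p ^ e) with hX
  have hXm : X ^ m = 0 := by
    rw [hX, ← pow_mul, ← hn, NN_pow_self]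
  have hW : (1 - X) * ∑ i ∈ Finset.range m, X ^ i = 1 := by
    rw [mul_neg_geom_sum, hXm, sub_zero]
  have hUm : (Um : Matrix (Fin n) (Fin n) F) ^ (p ^ e) = ∑ i ∈ Finset.range m, X ^ i := by
    calc (Um : Matrix (Fin n) (Fin n) F) ^ (p ^ e) = Um ^ (p ^ e) * ((1 - X) * ∑ i ∈ Finset.range m, X ^ i) := by
          rw [hW, mul_one]
      _ = (Um ^ (p ^ e) * Ui ^ (p ^ e)) * ∑ i ∈ Finset.range m, X ^ i := by
          rw [hU, mul_assoc]
      _ = _ := by rw [Um_pow_mul_Ui_pow_self, one_mul]
  unfold Ee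
  rw [pow_succ, hUm, Finset.sum_mul, Matrix.sum_apply]
  have h1 : ∀ i ∈ Finset.range m, ((X ^ i * Um : Matrix (Fin n) (Fin n) F) i0 il) = 1 := by
    intro i hi
    have him : i < m := Finset.mem_range.mp hi
    have hlt : p ^ e * i < n := by
      rw [hn]
      have : 0 < p ^ e := pow_pos (Fact.out : p.Prime).pos _
      exact Nat.mul_lt_mul_of_pos_left him this
    rw [hX, ← pow_mul, Matrix.mul_apply, Finset.sum_eq_single (⟨p ^ e * i, hlt⟩ : Fin n)]
    · rw [NN_pow, if_pos (by simp [h0]), one_mul, Um_apply, if_pos]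
      rw [Fin.le_def]
      simp only
      omega
    · intro c _ hc
      rw [NN_pow, if_neg, zero_mul]
      intro h'
      apply hc
      apply Fin.ext
      simp only
      omega
    · simp
  rw [Finset.sum_congr rfl h1]
  simp

section Main

variable {i0 il : Fin n} {H : Subgroup (SpecialLinearGroup (Fin n) F)} {β : F}

theorem Pd_all [Fintype F] (hn : 4 ≤ n) (hne : i0 ≠ il) (h0 : (i0 : ℕ) = 0) (hl : (il : ℕ) + 1 = n) (huu : uu ∈ H)
    (hT : ∀ i j, TK hne β i * (TK hne β j)⁻¹ ∈ H) (hβ0 : β ≠ 0) (hβg : ∀ x : F, x ≠ 0 → ∃ k : ℕ, x = β ^ k) :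
    ∀ d, d + 2 ≤ n → ∀ a : F, Pd H i0 il d a := by
  have up : ∀ {d : ℕ} {a : F}, Pd H i0 il d a → d + 3 ≤ n → Pd H i0 il (d + 1) (a * β) := by
    intro d a ha hd
    have := Pd_move hne h0 hl huu hT (s := 1) ha (by omega)
    rwa [Ee_one i0 il h0, mul_one] at this
  have pows : ∀ d, 2 ≤ d → d + 2 ≤ n → Pd H i0 il d (β ^ (d + 1)) := by
    intro d hd
    induction d, hd using Nat.le_induction with
    | base => intro _; exact Pd_base hn hne h0 hl huu hT
    | succ d hd ih =>
      intro hd2
      have := up (ih (by omega)) (by omega)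
      rwa [← pow_succ] at this
  have wr : ∀ {d₁ d₂ A : ℕ} {a a' : F}, Pd H i0 il d₁ a → Pd H i0 il d₂ a' → d₁ + d₂ + 1 = A + n → A + 2 ≤ n →
      Pd H i0 il A (a * a') := fun ha ha' hA hAn => Pd_wrap' hn h0 hl huu ha ha' hA hAn
  set Sc : F → Prop := fun c => ∀ a, Pd H i0 il 2 a → Pd H i0 il 2 (c * a) with hSc
  have hS1 : Sc 1 := fun a ha => by simpa using ha
  have hSmul : ∀ {c c' : F}, Sc c → Sc c' → Sc (c * c') := by
    intro c c' h h' a ha
    rw [mul_assoc]
    exact h _ (h' _ ha)
  have hSpow : ∀ {c : F}, Sc c → ∀ k : ℕ, Sc (c ^ k) := by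
    intro c h k
    induction k with
    | zero => simpa using hS1
    | succ k ih =>
      rw [pow_succ]
      exact hSmul ih h
  have hSnat : ∀ m : ℕ, Sc (m : F) := fun m a ha => Pd_natCast_mul ha m
  have hSinv : ∀ {c : F}, c ≠ 0 → Sc c → Sc c⁻¹ := by
    intro c hc h
    have h1 : c ^ (Fintype.card F - 1) = 1 := FiniteField.pow_card_sub_one_eq_one c hc
    have hcard : 2 ≤ Fintype.card F := Fintype.one_lt_card
    have h2 : c⁻¹ = c ^ (Fintype.card F - 2) := by
      have e : Fintype.card F - 1 = Fintype.card F - 2 + 1 := by omega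
      rw [e, pow_succ] at h1
      field_simp
      rw [mul_comm]
      exact h1.symm
    rw [h2]
    exact hSpow h _
  have hζ : Sc (β ^ n) := by
    intro a ha
    have h1 := wr ha (pows (n - 2) (by omega) (by omega)) (A := 1) (by omega) (by omega)
    have h2 := up h1 (by omega)
    have e : a * β ^ (n - 2 + 1) * β = β ^ n * a := by
      have : n = (n - 2 + 1) + 1 := by omega
      conv_rhs => rw [this, pow_succ]
      ring
    rwa [e] at h2
  obtain ⟨p, hc⟩ := CharP.exists F
  have hp : p.Prime := CharP.char_is_prime F p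
  haveI : Fact p.Prime := ⟨hp⟩
  obtain ⟨e, m, hnd, hnm⟩ := Nat.exists_eq_pow_mul_and_not_dvd (n := n) (by omega) p hp.ne_one
  set P := p ^ e with hP
  have hPpos : 0 < P := pow_pos hp.pos _
  have hm0 : (m : F) ≠ 0 := by
    intro h
    exact hnd ((CharP.cast_eq_zero_iff F p m).mp h)
  have hβP : Sc (β ^ P) := by
    by_cases hm1 : m = 1
    · have : P = n := by rw [hnm, hm1, mul_one]
      rw [this]
      exact hζ
    · have hm2 : 2 ≤ m := by
        rcases Nat.lt_or_ge m 2 with h | h
        · interval_cases m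
          · simp at hnm; omega
          · exact absurd rfl hm1
        · exact h
      have hP3 : P + 3 ≤ n := by
        by_contra hcon
        have h2P : 2 * P ≤ n := by
          rw [hnm]
          nlinarith
        have hP2 : P ≤ 2 := by omega
        rcases (by omega : P = 1 ∨ P = 2) with h1 | h2
        · omega
        · have hn4 : n = 4 := by omega
          have hm2' : m = 2 := by
            rw [h2, hn4] at hnm
            omega
          have hp2 : p = 2 := by
            have : p ∣ 2 := by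
              rw [← h2, hP]
              apply dvd_pow_self
              rintro rfl
              simp [hP] at h2
            exact (Nat.prime_dvd_prime_iff_eq hp Nat.prime_two).mp this
          apply hnd
          rw [hm2', hp2]
      have hEe : (Ee i0 il (P + 1) : F) = m := Ee_jump e m hnm i0 il h0 hl
      have hstep : ∀ a, Pd H i0 il 2 a → Pd H i0 il (P + 1) (a * β ^ (n - 2 + 1) * β ^ (n - 2 + 1) * m * β) := by
        intro a ha
        have h1 := wr ha (pows (n - 2) (by omega) (by omega)) (A := 1) (by omega) (by omega)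
        have h2 := wr h1 (pows (n - 2) (by omega) (by omega)) (A := 0) (by omega) (by omega)
        have h3 := Pd_move hne h0 hl huu hT (d := 0) (s := P + 1) h2 (by omega)
        rw [hEe, zero_add] at h3
        exact h3
      have hkey : ∃ t E : ℕ, Sc ((m : F) * β ^ E) ∧ E + P = t * n := by
        by_cases hP1 : P = 1
        · refine ⟨2, 2 * (n - 2 + 1) + 1, ?_, by omega⟩
          intro a ha
          have h1 := hstep a ha
          rw [hP1] at h1
          have e : (m : F) * β ^ (2 * (n - 2 + 1) + 1) * a = a * β ^ (n - 2 + 1) * β ^ (n - 2 + 1) * m * β := by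
            rw [pow_succ, two_mul, pow_add]
            ring
          rw [e]
          exact h1
        · have hP2 : 2 ≤ P := by omega
          refine ⟨3, 2 * (n - 2 + 1) + 1 + (n - P + 1), ?_, by omega⟩
          intro a ha
          have h1 := hstep a ha
          have h2 := wr h1 (pows (n - P) (by omega) (by omega)) (A := 2) (by omega) (by omega)
          have e : (m : F) * β ^ (2 * (n - 2 + 1) + 1 + (n - P + 1)) * a
              = a * β ^ (n - 2 + 1) * β ^ (n - 2 + 1) * m * β * β ^ (n - P + 1) := by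
            rw [pow_add, pow_succ, two_mul, pow_add]
            ring
          rw [e]
          exact h2
      obtain ⟨t, E, hS, hE⟩ := hkey
      have hne' : (m : F) * β ^ E ≠ 0 := mul_ne_zero hm0 (pow_ne_zero _ hβ0)
      have e : β ^ P = (β ^ n) ^ t * ((m : F) * β ^ E)⁻¹ * (m : F) := by
        have h1 : (β ^ n) ^ t = β ^ E * β ^ P := by
          rw [← pow_mul, ← pow_add, hE, mul_comm]
        rw [h1]
        have h2 : β ^ E ≠ 0 := pow_ne_zero _ hβ0
        field_simp
      rw [e]
      exact hSmul (hSmul (hSpow hζ t) (hSinv hne' hS)) (hSnat m)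
  have hSall : ∀ c : F, c ≠ 0 → Sc c := by
    intro c hcne
    haveI : ExpChar F p := ExpChar.prime hp
    have hsurj : Function.Surjective (iterateFrobenius F p e) :=
      Finite.injective_iff_surjective.mp (iterateFrobenius F p e).injective
    obtain ⟨c', hc'⟩ := hsurj c
    rw [iterateFrobenius_def] at hc'
    have hc'0 : c' ≠ 0 := by
      rintro rfl
      apply hcne
      rw [← hc', zero_pow (by positivity)]
    obtain ⟨k, hk⟩ := hβg c' hc'0
    have e2 : c = (β ^ P) ^ k := by
      rw [← hc', hk, ← pow_mul, ← pow_mul, mul_comm]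
    rw [e2]
    exact hSpow hβP k
  have A2 : ∀ a, Pd H i0 il 2 a := by
    intro a
    by_cases ha : a = 0
    · rw [ha]; exact Pd_zero
    · have h1 := hSall (a / β ^ 3) (div_ne_zero ha (pow_ne_zero _ hβ0)) _ (Pd_base hn hne h0 hl huu hT)
      have e : a / β ^ 3 * β ^ 3 = a := by
        field_simp
      rwa [e] at h1
  have Ad : ∀ d, 2 ≤ d → d + 2 ≤ n → ∀ a, Pd H i0 il d a := by
    intro d hd
    induction d, hd using Nat.le_induction with
    | base => intro _; exact A2
    | succ d hd ih =>
      intro hd2 a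
      have := up (ih (by omega) (a / β)) (by omega)
      have e : a / β * β = a := by field_simp
      rwa [e] at this
  have A1 : ∀ a, Pd H i0 il 1 a := by
    intro a
    have h1 := wr (A2 (a / β ^ (n - 2 + 1))) (pows (n - 2) (by omega) (by omega)) (A := 1) (by omega) (by omega)
    have e : a / β ^ (n - 2 + 1) * β ^ (n - 2 + 1) = a := by
      have := pow_ne_zero (n - 2 + 1) hβ0
      field_simp
    rwa [e] at h1
  have A0 : ∀ a, Pd H i0 il 0 a := by
    intro a
    have h1 := wr (A1 (a / β ^ (n - 2 + 1))) (pows (n - 2) (by omega) (by omega)) (A := 0) (by omega) (by omega)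
    have e : a / β ^ (n - 2 + 1) * β ^ (n - 2 + 1) = a := by
      have := pow_ne_zero (n - 2 + 1) hβ0
      field_simp
    rwa [e] at h1
  intro d hd
  rcases (by omega : d = 0 ∨ d = 1 ∨ 2 ≤ d) with rfl | rfl | h
  · exact A0
  · exact A1
  · exact Ad d h hd

/-- All transvections with centre `ev il`. -/
lemma RR_of_all (hn : 4 ≤ n) (h0 : (i0 : ℕ) = 0) (hl : (il : ℕ) + 1 = n)
    (hall : ∀ d, d + 2 ≤ n → ∀ a : F, Pd H i0 il d a) (f : Fin n → F) (hf : f ⬝ᵥ ev il = 0) :
    RR H (ev il) f := by
  have key : ∀ r t : ℕ, r + t + 2 ≤ n → ∀ a : F,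
      RR H (ev il) (a • ((ev i0 : Fin n → F) ᵥ* ((NN : Matrix (Fin n) (Fin n) F) ^ r * Ui ^ t))) := by
    intro r
    induction r with
    | zero =>
      intro t ht a
      have := hall t (by omega) a 0
      rw [zero_add, Lv_zero] at this
      rw [pow_zero, one_mul]
      exact this
    | succ r ih =>
      intro t ht a
      have e : (NN : Matrix (Fin n) (Fin n) F) ^ (r + 1) * Ui ^ t = NN ^ r * Ui ^ t - NN ^ r * Ui ^ (t + 1) := by
        have e1 : (NN : Matrix (Fin n) (Fin n) F) * Ui ^ t = Ui ^ t - Ui ^ (t + 1) := by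
          have e2 : (NN : Matrix (Fin n) (Fin n) F) = 1 - Ui := by unfold Ui; abel
          rw [e2, sub_mul, one_mul, ← pow_succ']
        rw [pow_succ, mul_assoc, e1, mul_sub]
      rw [e, vecMul_sub, smul_sub]
      exact RR_sub (ih t (by omega) a) (ih (t + 1) (by omega) a)
  have hev : ∀ (j : Fin n), j ≠ il → ∀ a : F, RR H (ev il) (a • (ev j : Fin n → F)) := by
    intro j hj a
    have hj2 : (j : ℕ) + 2 ≤ n := by
      have h1 : (j : ℕ) ≠ il := fun h => hj (Fin.ext h)
      have := j.2
      omega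
    have h1 := key j 0 (by omega) a
    have e : (ev i0 : Fin n → F) ᵥ* ((NN : Matrix (Fin n) (Fin n) F) ^ (j : ℕ) * Ui ^ 0) = ev j := by
      ext x
      rw [pow_zero, mul_one, ev_vecMul, NN_pow, ev_apply, h0, zero_add]
      have : (x : ℕ) = j ↔ x = j := Fin.ext_iff.symm
      simp only [this]
    rwa [e] at h1
  rw [sum_ev f]
  apply RR_sum
  intro j _
  by_cases hj : j = il
  · subst hj
    rw [dot_ev] at hf
    rw [hf, zero_smul]
    exact RR_zero
  · exact hev j hj _

end Main

/-- `SL_n(F)`, `n ≥ 4`, is generated by two conjugates of `uu`. -/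
theorem sl_two_conj [Fintype F] (hn : 4 ≤ n) :
    ∃ g : SpecialLinearGroup (Fin n) F, Subgroup.closure ({uu, g * uu * g⁻¹} : Set (SpecialLinearGroup (Fin n) F)) = ⊤ := by
  haveI : Nontrivial (Fin n) := Fin.nontrivial_iff_two_le.mpr (by omega)
  set i0 : Fin n := ⟨0, by omega⟩ with hi0
  set il : Fin n := ⟨n - 1, by omega⟩ with hil
  have h0 : (i0 : ℕ) = 0 := rfl
  have hl : (il : ℕ) + 1 = n := by simp only [hil]; omega
  have hne : i0 ≠ il := by
    intro h
    have := congrArg Fin.val h
    simp only [hi0, hil] at this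
    omega
  obtain ⟨a, ha⟩ := IsCyclic.exists_generator (α := Fˣ)
  set β : F := (a : F) with hβ
  have hβ0 : β ≠ 0 := a.ne_zero
  have hβg : ∀ x : F, x ≠ 0 → ∃ k : ℕ, x = β ^ k := by
    intro x hx
    have hm := ha (Units.mk0 x hx)
    rw [← mem_powers_iff_mem_zpowers] at hm
    obtain ⟨m, hm⟩ := hm
    refine ⟨m, ?_⟩
    rw [hβ, ← Units.val_pow_eq_pow_val]
    simp only at hm
    rw [hm]
    rfl
  refine ⟨TK hne β 0, ?_⟩
  set H := Subgroup.closure ({uu, TK hne β 0 * uu * (TK hne β 0)⁻¹} : Set (SpecialLinearGroup (Fin n) F)) with hH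
  have huu : uu ∈ H := Subgroup.subset_closure (by simp)
  have hv : TK hne β 0 * uu * (TK hne β 0)⁻¹ ∈ H := Subgroup.subset_closure (by simp)
  have hT := TK_mul_inv_mem hne β huu hv
  have hall := Pd_all hn hne h0 hl huu hT hβ0 hβg
  refine top_of_span H (ev il) (fun f hf => (RR_of_all hn h0 hl hall f hf).2) ?_
  set W : Submodule F (Fin n → F) := Submodule.span F {y | ∃ h ∈ H, y = (h : Matrix (Fin n) (Fin n) F) *ᵥ ev il} with hW
  have h1 : (ev il : Fin n → F) ∈ W := by
    apply Submodule.subset_span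
    exact ⟨1, H.one_mem, by simp⟩
  have hst : ∀ y ∈ W, (Ui : Matrix (Fin n) (Fin n) F) *ᵥ y ∈ W := by
    intro y hy
    induction hy using Submodule.span_induction with
    | mem y hy =>
      obtain ⟨k, hk, rfl⟩ := hy
      apply Submodule.subset_span
      refine ⟨uu⁻¹ * k, H.mul_mem (H.inv_mem huu) hk, ?_⟩
      simp only [Matrix.SpecialLinearGroup.coe_mul, ← mulVec_mulVec, uu_inv_coe]
    | zero => simp
    | add x y _ _ hx hy =>
      rw [mulVec_add]
      exact Submodule.add_mem _ hx hy
    | smul c x _ hx =>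
      rw [mulVec_smul]
      exact Submodule.smul_mem _ c hx
  have hNN : ∀ y ∈ W, (NN : Matrix (Fin n) (Fin n) F) *ᵥ y ∈ W := by
    intro y hy
    have e : (NN : Matrix (Fin n) (Fin n) F) *ᵥ y = y - (Ui : Matrix (Fin n) (Fin n) F) *ᵥ y := by
      unfold Ui
      rw [sub_mulVec, one_mulVec]
      abel
    rw [e]
    exact W.sub_mem hy (hst y hy)
  have hpow : ∀ k : ℕ, ((NN : Matrix (Fin n) (Fin n) F) ^ k) *ᵥ ev il ∈ W := by
    intro k
    induction k with
    | zero => simpa using h1
    | succ k ih =>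
      rw [pow_succ', ← mulVec_mulVec]
      exact hNN _ ih
  have hev : ∀ j : Fin n, (ev j : Fin n → F) ∈ W := by
    intro j
    have h2 := hpow (n - 1 - j)
    have e : ((NN : Matrix (Fin n) (Fin n) F) ^ (n - 1 - (j : ℕ))) *ᵥ ev il = ev j := by
      ext x
      rw [mulVec_ev, NN_pow, ev_apply]
      have := j.2
      have := x.2
      have e2 : ((il : ℕ) = (x : ℕ) + (n - 1 - (j : ℕ))) ↔ x = j := by
        rw [Fin.ext_iff]
        omega
      simp only [e2]
    rwa [e] at h2
  rw [eq_top_iff]
  intro f _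
  rw [sum_ev f]
  exact W.sum_mem fun j _ => W.smul_mem _ (hev j)

end Cfsg.Agent.Lib.KS2.Reg
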