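import Mathlib
import Cfsg.Agent.Lib.KS2.RegPair3

/-!
`SL_3(F)`, odd characteristic: generated by two conjugates of the companion matrix of `(X - 1)³`.
-/

set_option autoImplicit false
set_option linter.unusedSimpArgs false
set_option linter.unusedVariables false

namespace Cfsg.Agent.Lib.KS2.Reg

open Matrix Module
open scoped MatrixGroups

variable {F : Type*} [Field F]

/-- The companion matrix of `(X - 1)³`. -/
def Cm : SpecialLinearGroup (Fin 3) F :=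
  ⟨!![0, 0, 1; 1, 0, -3; 0, 1, 3], by simp [Matrix.det_fin_three]⟩

/-- Its inverse. -/
def Cmi : SpecialLinearGroup (Fin 3) F :=
  ⟨!![3, 1, 0; -3, 0, 1; 1, 0, 0], by simp [Matrix.det_fin_three]⟩

lemma Cm_coe : ((Cm : SpecialLinearGroup (Fin 3) F) : Matrix (Fin 3) (Fin 3) F) = !![0, 0, 1; 1, 0, -3; 0, 1, 3] := rfl

lemma Cmi_coe : ((Cmi : SpecialLinearGroup (Fin 3) F) : Matrix (Fin 3) (Fin 3) F) = !![3, 1, 0; -3, 0, 1; 1, 0, 0] := rfl

lemma Cm_mul_Cmi : (Cm : SpecialLinearGroup (Fin 3) F) * Cmi = 1 := by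
  apply sl_ext
  rw [Matrix.SpecialLinearGroup.coe_mul, Cm_coe, Cmi_coe]
  ext i j
  fin_cases i <;> fin_cases j <;> simp [Matrix.mul_apply, Fin.sum_univ_three]

lemma Cm_inv : (Cm : SpecialLinearGroup (Fin 3) F)⁻¹ = Cmi := inv_eq_of_mul_eq_one_right Cm_mul_Cmi

lemma Cm_sub_one_pow_three : (((Cm : SpecialLinearGroup (Fin 3) F) : Matrix (Fin 3) (Fin 3) F) - 1) ^ 3 = 0 := by
  rw [Cm_coe]
  ext i j
  fin_cases i <;> fin_cases j <;> simp [pow_succ, Matrix.mul_apply, Fin.sum_univ_three, Matrix.one_apply] <;> ring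

lemma Cm_sub_one_pow_two : (((Cm : SpecialLinearGroup (Fin 3) F) : Matrix (Fin 3) (Fin 3) F) - 1) ^ (3 - 1) ≠ 0 := by
  rw [Cm_coe]
  intro h
  have := congrFun (congrFun h 2) 0
  simp [pow_succ, Matrix.mul_apply, Fin.sum_univ_three, Matrix.one_apply] at this

lemma Cm_ev0 : ((Cm : SpecialLinearGroup (Fin 3) F) : Matrix (Fin 3) (Fin 3) F) *ᵥ ev 0 = ev 1 := by
  ext x
  rw [mulVec_ev, ev_apply, Cm_coe]
  fin_cases x <;> simp

lemma Cm_ev1 : ((Cm : SpecialLinearGroup (Fin 3) F) : Matrix (Fin 3) (Fin 3) F) *ᵥ ev 1 = ev 2 := by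
  ext x
  rw [mulVec_ev, ev_apply, Cm_coe]
  fin_cases x <;> simp

lemma Cmi_ev1 : ((Cmi : SpecialLinearGroup (Fin 3) F) : Matrix (Fin 3) (Fin 3) F) *ᵥ ev 1 = ev 0 := by
  ext x
  rw [mulVec_ev, ev_apply, Cmi_coe]
  fin_cases x <;> simp

lemma Cmi_ev2 : ((Cmi : SpecialLinearGroup (Fin 3) F) : Matrix (Fin 3) (Fin 3) F) *ᵥ ev 2 = ev 1 := by
  ext x
  rw [mulVec_ev, ev_apply, Cmi_coe]
  fin_cases x <;> simp

lemma ev2_Cmi : (ev 2 : Fin 3 → F) ᵥ* ((Cmi : SpecialLinearGroup (Fin 3) F) : Matrix (Fin 3) (Fin 3) F) = ev 0 := by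
  ext x
  rw [ev_vecMul, ev_apply, Cmi_coe]
  fin_cases x <;> simp

lemma ev0_Cm : (ev 0 : Fin 3 → F) ᵥ* ((Cm : SpecialLinearGroup (Fin 3) F) : Matrix (Fin 3) (Fin 3) F) = ev 2 := by
  ext x
  rw [ev_vecMul, ev_apply, Cm_coe]
  fin_cases x <;> simp

section Roots

variable {H : Subgroup (SpecialLinearGroup (Fin 3) F)}

/-- `x₀₂(a)`. -/
def X02 (H : Subgroup (SpecialLinearGroup (Fin 3) F)) (a : F) : Prop := RR H (ev 0) (a • ev 2)
/-- `x₁₀(a)`. -/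
def X10 (H : Subgroup (SpecialLinearGroup (Fin 3) F)) (a : F) : Prop := RR H (ev 1) (a • ev 0)
/-- `x₁₂(a)`. -/
def X12 (H : Subgroup (SpecialLinearGroup (Fin 3) F)) (a : F) : Prop := RR H (ev 1) (a • ev 2)
/-- `x₂₀(a)`. -/
def X20 (H : Subgroup (SpecialLinearGroup (Fin 3) F)) (a : F) : Prop := RR H (ev 2) (a • ev 0)

lemma X10_of_X02 (hC : Cm ∈ H) {a : F} (h : X02 H a) : X10 H a := by
  have := RR_move Cm hC h
  rw [Cm_ev0, Cm_inv, smul_vecMul, ev2_Cmi] at this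
  exact this

lemma X20_of_X12 (hC : Cm ∈ H) {a : F} (h : X12 H a) : X20 H a := by
  have := RR_move Cm hC h
  rw [Cm_ev1, Cm_inv, smul_vecMul, ev2_Cmi] at this
  exact this

lemma X02_of_X10 (hC : Cm ∈ H) {a : F} (h : X10 H a) : X02 H a := by
  have := RR_move Cm⁻¹ (H.inv_mem hC) h
  rw [inv_inv, Cm_inv, Cmi_ev1, smul_vecMul, ev0_Cm] at this
  exact this

lemma X12_of_X20 (hC : Cm ∈ H) {a : F} (h : X20 H a) : X12 H a := by
  have := RR_move Cm⁻¹ (H.inv_mem hC) h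
  rw [inv_inv, Cm_inv, Cmi_ev2, smul_vecMul, ev0_Cm] at this
  exact this

lemma X12_comm {a b : F} (h1 : X10 H a) (h2 : X02 H b) : X12 H (a * b) := by
  obtain ⟨hf, hm⟩ := h2
  have h0 : (b • ev 2 : Fin 3 → F) ⬝ᵥ ev 1 = 0 := by
    rw [smul_dotProduct, dot_ev, ev_apply]; simp
  have := RR_comm hf hm h0 h1
  have e : ((a • ev 0 : Fin 3 → F) ⬝ᵥ ev 0) • (b • ev 2 : Fin 3 → F) = (a * b) • ev 2 := by
    rw [smul_dotProduct, dot_ev, ev_apply, smul_smul]; simp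
  rw [e] at this
  exact this

lemma X10_comm {a b : F} (h1 : X12 H a) (h2 : X20 H b) : X10 H (a * b) := by
  obtain ⟨hf, hm⟩ := h2
  have h0 : (b • ev 0 : Fin 3 → F) ⬝ᵥ ev 1 = 0 := by
    rw [smul_dotProduct, dot_ev, ev_apply]; simp
  have := RR_comm hf hm h0 h1
  have e : ((a • ev 2 : Fin 3 → F) ⬝ᵥ ev 2) • (b • ev 0 : Fin 3 → F) = (a * b) • ev 0 := by
    rw [smul_dotProduct, dot_ev, ev_apply, smul_smul]; simp
  rw [e] at this
  exact this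

lemma X02_add {a b : F} (h1 : X02 H a) (h2 : X02 H b) : X02 H (a + b) := by
  unfold X02 at *
  rw [add_smul]
  exact RR_add h1 h2

lemma X02_neg {a : F} (h1 : X02 H a) : X02 H (-a) := by
  unfold X02 at *
  rw [neg_smul]
  exact RR_neg h1

lemma X02_zero : X02 H (0 : F) := by
  unfold X02
  rw [zero_smul]
  exact RR_zero

lemma X12_add {a b : F} (h1 : X12 H a) (h2 : X12 H b) : X12 H (a + b) := by
  unfold X12 at *
  rw [add_smul]
  exact RR_add h1 h2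

lemma X12_neg {a : F} (h1 : X12 H a) : X12 H (-a) := by
  unfold X12 at *
  rw [neg_smul]
  exact RR_neg h1

lemma X12_zero : X12 H (0 : F) := by
  unfold X12
  rw [zero_smul]
  exact RR_zero

/-- The conclusion. -/
theorem top_of_X (hC : Cm ∈ H) (h1 : ∀ a, X10 H a) (h2 : ∀ a, X12 H a) : H = ⊤ := by
  apply top_of_span H (ev 1)
  · intro f hf
    rw [dot_ev] at hf
    have h3 : RR H (ev 1) (f 0 • ev 0 + f 2 • ev 2) := RR_add (h1 _) (h2 _)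
    have e : f = f 0 • ev 0 + f 2 • ev 2 := by
      ext x
      fin_cases x <;> simp [ev_apply, hf]
    rw [← e] at h3
    obtain ⟨_, h4⟩ := h3
    exact h4
  · rw [eq_top_iff]
    set W := Submodule.span F {y | ∃ h ∈ H, y = (h : Matrix (Fin 3) (Fin 3) F) *ᵥ (ev 1 : Fin 3 → F)} with hW
    have h1 : (ev 1 : Fin 3 → F) ∈ W := Submodule.subset_span ⟨1, H.one_mem, by simp⟩
    have h2' : (ev 2 : Fin 3 → F) ∈ W := Submodule.subset_span ⟨Cm, hC, Cm_ev1.symm⟩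
    have h0 : (ev 0 : Fin 3 → F) ∈ W := Submodule.subset_span ⟨Cm⁻¹, H.inv_mem hC, by rw [Cm_inv, Cmi_ev1]⟩
    intro f _
    rw [sum_ev f, Fin.sum_univ_three]
    exact W.add_mem (W.add_mem (W.smul_mem _ h0) (W.smul_mem _ h1)) (W.smul_mem _ h2')

end Roots

/-- The conjugating matrix. -/
def Gd (l b : F) (hl : l ≠ 0) : SpecialLinearGroup (Fin 3) F :=
  ⟨!![1, 0, 0; 0, l, l * b; 0, 0, l⁻¹], by simp [Matrix.det_fin_three, hl]⟩

/-- Its inverse. -/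
def Gdi (l b : F) (hl : l ≠ 0) : SpecialLinearGroup (Fin 3) F :=
  ⟨!![1, 0, 0; 0, l⁻¹, - b * l; 0, 0, l], by simp [Matrix.det_fin_three, hl]⟩

lemma Gd_inv (l b : F) (hl : l ≠ 0) : (Gd l b hl)⁻¹ = Gdi l b hl := by
  apply inv_eq_of_mul_eq_one_right
  apply sl_ext
  rw [Matrix.SpecialLinearGroup.coe_mul]
  show (!![1, 0, 0; 0, l, l * b; 0, 0, l⁻¹] : Matrix (Fin 3) (Fin 3) F) * !![1, 0, 0; 0, l⁻¹, - b * l; 0, 0, l] = _
  ext i j
  fin_cases i <;> fin_cases j <;> simp [Matrix.mul_apply, Fin.sum_univ_three, hl] <;> field_simp <;> ring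

/-- The element `s = u⁻¹ v`. -/
def Ss (l b : F) (hl : l ≠ 0) : SpecialLinearGroup (Fin 3) F :=
  ⟨!![l, b, 3 * l + l ^ 2 * (3 * b - 3 - b ^ 2); 0, l⁻¹ ^ 2, 3 - b - 3 * l; 0, 0, l], by
    simp [Matrix.det_fin_three, hl]
    field_simp⟩

lemma Ss_coe (l b : F) (hl : l ≠ 0) : ((Ss l b hl : SpecialLinearGroup (Fin 3) F) : Matrix (Fin 3) (Fin 3) F) =
    !![l, b, 3 * l + l ^ 2 * (3 * b - 3 - b ^ 2); 0, l⁻¹ ^ 2, 3 - b - 3 * l; 0, 0, l] := rfl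

lemma Ss_eq (l b : F) (hl : l ≠ 0) : Cm * Ss l b hl * (Gd l b hl) = Gd l b hl * Cm := by
  apply sl_ext
  simp only [Matrix.SpecialLinearGroup.coe_mul]
  rw [Cm_coe, Ss_coe]
  show _ * (!![1, 0, 0; 0, l, l * b; 0, 0, l⁻¹] : Matrix (Fin 3) (Fin 3) F) = (!![1, 0, 0; 0, l, l * b; 0, 0, l⁻¹] : Matrix (Fin 3) (Fin 3) F) * _
  ext i j
  fin_cases i <;> fin_cases j <;> simp [Matrix.mul_apply, Fin.sum_univ_three, hl] <;> field_simp <;> ring

lemma Ss_mem (l b : F) (hl : l ≠ 0) {H : Subgroup (SpecialLinearGroup (Fin 3) F)} (hC : Cm ∈ H)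
    (hv : Gd l b hl * Cm * (Gd l b hl)⁻¹ ∈ H) : Ss l b hl ∈ H := by
  have e : Ss l b hl = Cm⁻¹ * (Gd l b hl * Cm * (Gd l b hl)⁻¹) := by
    rw [← Ss_eq]
    group
  rw [e]
  exact H.mul_mem (H.inv_mem hC) hv

end Cfsg.Agent.Lib.KS2.Reg
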