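import Mathlib
import Cfsg.Agent.Lib.KS2.RegN3

/-!
`SL_3(F)`, odd characteristic: generated by two conjugates of the companion matrix of `(X - 1)³`.
-/

set_option autoImplicit false
set_option linter.unusedSimpArgs false
set_option linter.unusedVariables false

namespace Cfsg.Agent.Lib.KS2.Reg

open Matrix Module
open scoped MatrixGroups

variable {F : Type*} [Field F]

lemma exists_gen [Fintype F] : ∃ β : F, β ≠ 0 ∧ ∀ x : F, x ≠ 0 → ∃ k : ℕ, x = β ^ k := by
  obtain ⟨a, ha⟩ := IsCyclic.exists_generator (α := Fˣ)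
  refine ⟨(a : F), a.ne_zero, ?_⟩
  intro x hx
  have hm := ha (Units.mk0 x hx)
  rw [← mem_powers_iff_mem_zpowers] at hm
  obtain ⟨m, hm⟩ := hm
  refine ⟨m, ?_⟩
  rw [← Units.val_pow_eq_pow_val]
  simp only at hm
  rw [hm]
  rfl

lemma Ss_neg_one_sq (b : F) (h : (-1 : F) ≠ 0) :
    Ss (-1) b h ^ 2 = Tv (ev 0) ((b ^ 2 + 12) • ev 2) (by rw [smul_dotProduct, dot_ev, ev_apply]; simp) := by
  apply sl_ext
  rw [pow_two, Matrix.SpecialLinearGroup.coe_mul, Ss_coe, Tv_coe]
  ext i j
  fin_cases i <;> fin_cases j <;>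
    simp [Matrix.mul_apply, Fin.sum_univ_three, vecMulVec_apply, ev_apply, Matrix.one_apply] <;> ring

section Char3

theorem sl3_char3 [Fintype F] [CharP F 3] :
    ∃ g : SpecialLinearGroup (Fin 3) F, Subgroup.closure ({Cm, g * Cm * g⁻¹} : Set (SpecialLinearGroup (Fin 3) F)) = ⊤ := by
  obtain ⟨b, hb0, hbg⟩ := exists_gen (F := F)
  have h3 : (3 : F) = 0 := by exact_mod_cast CharP.cast_eq_zero F 3
  have h2 : (2 : F) ≠ 0 := by
    intro h
    have : (1 : F) = 0 := by linear_combination h3 - h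
    exact one_ne_zero this
  have h12 : (12 : F) = 0 := by linear_combination 4 * h3
  have hm1 : (-1 : F) ≠ 0 := by simp
  refine ⟨Gd (-1) b hm1, ?_⟩
  set H := Subgroup.closure ({Cm, Gd (-1) b hm1 * Cm * (Gd (-1) b hm1)⁻¹} : Set (SpecialLinearGroup (Fin 3) F)) with hH
  have hC : Cm ∈ H := Subgroup.subset_closure (by simp)
  have hv : Gd (-1) b hm1 * Cm * (Gd (-1) b hm1)⁻¹ ∈ H := Subgroup.subset_closure (by simp)
  have hs := Ss_mem (-1) b hm1 hC hv
  have hτ : X02 H (b ^ 2) := by
    have h1 := H.pow_mem hs 2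
    rw [Ss_neg_one_sq, h12, add_zero] at h1
    exact ⟨_, h1⟩
  set K : F → Prop := fun a => ∀ x, X02 H x → X02 H (a * x) with hK
  have Kmul : ∀ {a a' : F}, K a → K a' → K (a * a') := by
    intro a a' h h' x hx
    rw [mul_assoc]
    exact h _ (h' _ hx)
  have Kone : K 1 := fun x hx => by simpa using hx
  have Kpow : ∀ {a : F}, K a → ∀ k : ℕ, K (a ^ k) := by
    intro a h k
    induction k with
    | zero => simpa using Kone
    | succ k ih =>
      rw [pow_succ]
      exact Kmul ih h
  have Kadd : ∀ {a a' : F}, K a → K a' → K (a + a') := by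
    intro a a' h h' x hx
    rw [add_mul]
    exact X02_add (h _ hx) (h' _ hx)
  have Kneg : ∀ {a : F}, K a → K (-a) := by
    intro a h x hx
    rw [neg_mul]
    exact X02_neg (h _ hx)
  have Ksix : K (b ^ 2 * (b ^ 2 * b ^ 2)) := by
    intro x hx
    have h1 := X12_comm (X10_of_X02 hC hx) hτ
    have h2 := X12_comm (X10_of_X02 hC hτ) hτ
    have h3' := X10_comm h1 (X20_of_X12 hC h2)
    have h4 := X02_of_X10 hC h3'
    have e : x * b ^ 2 * (b ^ 2 * b ^ 2) = b ^ 2 * (b ^ 2 * b ^ 2) * x := by ring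
    rwa [e] at h4
  have hcard : (3 : ℕ) ∣ Fintype.card F := by
    obtain ⟨n, hp, hn⟩ := FiniteField.card F 3
    rw [hn]
    exact dvd_pow_self 3 (PNat.ne_zero n)
  obtain ⟨m, hm⟩ := hcard
  have Ktwo : K (b ^ 2) := by
    have h1 := Kpow Ksix m
    have e : (b ^ 2 * (b ^ 2 * b ^ 2)) ^ m = b ^ 2 := by
      have e1 : b ^ 2 * (b ^ 2 * b ^ 2) = (b ^ 2) ^ 3 := by ring
      rw [e1, ← pow_mul, ← hm, FiniteField.pow_card]
    rwa [e] at h1
  have Ksq : ∀ x : F, K (x ^ 2) := by
    intro x
    by_cases hx : x = 0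
    · subst hx
      intro y _
      simpa using X02_zero
    · obtain ⟨k, hk⟩ := hbg x hx
      have := Kpow Ktwo k
      have e : (b ^ 2) ^ k = x ^ 2 := by
        rw [hk, ← pow_mul, ← pow_mul, mul_comm]
      rwa [e] at this
  have Kall : ∀ x : F, K x := by
    intro x
    have e : x = ((x + 1) / 2) ^ 2 + - ((x - 1) / 2) ^ 2 := by
      field_simp
      ring
    rw [e]
    exact Kadd (Ksq _) (Kneg (Ksq _))
  have hb2 : b ^ 2 ≠ 0 := pow_ne_zero _ hb0
  have A02 : ∀ a, X02 H a := by
    intro a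
    have := Kall (a / b ^ 2) _ hτ
    have e : a / b ^ 2 * b ^ 2 = a := by field_simp
    rwa [e] at this
  have A10 : ∀ a, X10 H a := fun a => X10_of_X02 hC (A02 a)
  have A12 : ∀ a, X12 H a := by
    intro a
    have := X12_comm (A10 a) (A02 1)
    rwa [mul_one] at this
  exact top_of_X hC A10 A12

end Char3

lemma exists_nat_of_card_prime {p : ℕ} [Fintype F] [Fact p.Prime] [CharP F p] (hq : Fintype.card F = p) (x : F) : ∃ n : ℕ, (n : F) = x := by
  have hinj : Function.Injective (ZMod.castHom (dvd_refl p) F) := (ZMod.castHom (dvd_refl p) F).injective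
  have hsurj : Function.Surjective (ZMod.castHom (dvd_refl p) F) := by
    haveI : Fintype (ZMod p) := ZMod.fintype p
    have hc : Fintype.card (ZMod p) = Fintype.card F := by
      rw [ZMod.card, hq]
    exact (Fintype.bijective_iff_injective_and_card _).mpr ⟨hinj, hc⟩ |>.2
  obtain ⟨z, hz⟩ := hsurj x
  refine ⟨z.val, ?_⟩
  rw [← hz]
  simp

lemma RR_smul_left {n : ℕ} {H : Subgroup (SpecialLinearGroup (Fin n) F)} {e f : Fin n → F} (κ : F)
    (h : RR H (κ • e) f) : RR H e (κ • f) := by
  obtain ⟨hf, hm⟩ := h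
  have h' : (κ • f) ⬝ᵥ e = 0 := by
    rw [smul_dotProduct]
    rw [dotProduct_smul] at hf
    exact hf
  refine ⟨h', ?_⟩
  convert hm using 1
  apply sl_ext
  simp only [Tv_coe]
  rw [vecMulVec_smul, smul_vecMulVec]

section Large

variable [Fintype F]

/-- The powers of `s`. -/
lemma Ss_pow (l : F) (hl : l ≠ 0) (m : ℕ) (G : ℕ → F) (hG0 : G 0 = 0)
    (hG : ∀ m, G (m + 1) = G m * l + (l⁻¹ ^ 2) ^ m) :
    ((Ss l 0 hl ^ m : SpecialLinearGroup (Fin 3) F) : Matrix (Fin 3) (Fin 3) F) =
      !![l ^ m, 0, (m : F) * l ^ m * (3 - 3 * l); 0, (l⁻¹ ^ 2) ^ m, (3 - 3 * l) * G m; 0, 0, l ^ m] := by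
  induction m with
  | zero =>
    ext i j
    fin_cases i <;> fin_cases j <;> simp [hG0, Matrix.one_apply]
  | succ m ih =>
    rw [pow_succ, Matrix.SpecialLinearGroup.coe_mul, ih, Ss_coe, hG]
    ext i j
    fin_cases i <;> fin_cases j <;> simp [Matrix.mul_apply, Fin.sum_univ_three, pow_succ] <;> field_simp <;> ring

theorem sl3_large {p : ℕ} [Fact p.Prime] [CharP F p] (hp2 : p ≠ 2) (hp3 : p ≠ 3) :
    ∃ g : SpecialLinearGroup (Fin 3) F, Subgroup.closure ({Cm, g * Cm * g⁻¹} : Set (SpecialLinearGroup (Fin 3) F)) = ⊤ := by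
  have hpp : p.Prime := Fact.out
  obtain ⟨l, hl0, hlg⟩ := exists_gen (F := F)
  have h2 : (2 : F) ≠ 0 := by
    intro h
    have : (p : ℕ) ∣ 2 := by
      have h' : ((2 : ℕ) : F) = 0 := by exact_mod_cast h
      exact (CharP.cast_eq_zero_iff F p 2).mp h'
    exact hp2 ((Nat.prime_dvd_prime_iff_eq hpp Nat.prime_two).mp this)
  have h3 : (3 : F) ≠ 0 := by
    intro h
    have : (p : ℕ) ∣ 3 := by
      have h' : ((3 : ℕ) : F) = 0 := by exact_mod_cast h
      exact (CharP.cast_eq_zero_iff F p 3).mp h'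
    exact hp3 ((Nat.prime_dvd_prime_iff_eq hpp Nat.prime_three).mp this)
  have hpow1 : ∀ x : F, x ≠ 0 → x ^ (Fintype.card F - 1) = 1 := fun x hx => FiniteField.pow_card_sub_one_eq_one x hx
  have hl3 : l ^ 3 ≠ 1 := by
    intro h
    obtain ⟨k, hk⟩ := hlg (-1) (by simp)
    have h1 : ((-1 : F)) ^ 3 = 1 := by
      rw [hk, ← pow_mul, mul_comm, pow_mul, h, one_pow]
    apply h2
    have : (-1 : F) = 1 := by simpa [Odd.neg_one_pow (by decide : Odd 3)] using h1
    linear_combination - this
  have hl1 : l ≠ 1 := by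
    intro h
    apply hl3
    rw [h, one_pow]
  refine ⟨Gd l 0 hl0, ?_⟩
  set H := Subgroup.closure ({Cm, Gd l 0 hl0 * Cm * (Gd l 0 hl0)⁻¹} : Set (SpecialLinearGroup (Fin 3) F)) with hH
  have hC : Cm ∈ H := Subgroup.subset_closure (by simp)
  have hv : Gd l 0 hl0 * Cm * (Gd l 0 hl0)⁻¹ ∈ H := Subgroup.subset_closure (by simp)
  have hs := Ss_mem l 0 hl0 hC hv
  set c : F := 3 * (l - 1) with hc
  have hc0 : c ≠ 0 := mul_ne_zero h3 (sub_ne_zero.mpr hl1)
  -- the power of `s`
  have hτ : X02 H c := by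
    set ν : F := l⁻¹ ^ 2 with hν
    set G : ℕ → F := fun m => ∑ i ∈ Finset.range m, ν ^ i * l ^ (m - 1 - i) with hGdef
    have hG0 : G 0 = 0 := by simp [hGdef]
    have hG1 : ∀ m, G (m + 1) = G m * l + ν ^ m := by
      intro m
      simp only [hGdef]
      rw [Finset.sum_range_succ, Finset.sum_mul]
      congr 1
      · refine Finset.sum_congr rfl fun i hi => ?_
        have him := Finset.mem_range.mp hi
        have e : m + 1 - 1 - i = m - 1 - i + 1 := by omega
        rw [e, pow_succ]
        ring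
      · simp
    have hGr : ∀ m, (ν - l) * G m = ν ^ m - l ^ m := by
      intro m
      induction m with
      | zero => simp [hG0]
      | succ m ih =>
        rw [hG1, mul_add, ← mul_assoc, ih, pow_succ, pow_succ]
        ring
    have hq : Fintype.card F - 1 + 1 = Fintype.card F := by
      have := Fintype.card_pos (α := F)
      omega
    have hl' : l ^ (Fintype.card F - 1) = 1 := hpow1 l hl0
    have hν' : ν ^ (Fintype.card F - 1) = 1 := hpow1 ν (by simp [hν, hl0])
    have hνl : ν - l ≠ 0 := by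
      intro h
      apply hl3
      have e : ν = l := sub_eq_zero.mp h
      have e2 : l⁻¹ ^ 2 * l ^ 2 = 1 := by field_simp
      rw [← hν, e] at e2
      rw [← e2]
      ring
    have hG0' : G (Fintype.card F - 1) = 0 := by
      have := hGr (Fintype.card F - 1)
      rw [hl', hν', sub_self] at this
      exact (mul_eq_zero.mp this).resolve_left hνl
    have hcast : ((Fintype.card F - 1 : ℕ) : F) = -1 := by
      have h1 : ((Fintype.card F - 1 + 1 : ℕ) : F) = 0 := by
        rw [hq]
        exact Nat.cast_card_eq_zero F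
      push_cast at h1
      linear_combination h1
    have h1 := H.pow_mem hs (Fintype.card F - 1)
    have e := Ss_pow l hl0 (Fintype.card F - 1) G hG0 hG1
    rw [hl', hν', hG0', hcast] at e
    have hdot : (c • ev 2 : Fin 3 → F) ⬝ᵥ ev 0 = 0 := by
      rw [smul_dotProduct, dot_ev, ev_apply]; simp
    refine ⟨hdot, ?_⟩
    convert h1 using 1
    apply sl_ext
    rw [e, Tv_coe]
    ext i j
    fin_cases i <;> fin_cases j <;>
      simp [Matrix.one_apply, vecMulVec_apply, ev_apply, hc] <;> ring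
  -- the field of multipliers
  set K : F → Prop := fun a => ∀ x, X12 H x → X12 H (a * x) with hK
  have Kmul : ∀ {a a' : F}, K a → K a' → K (a * a') := by
    intro a a' h h' x hx
    rw [mul_assoc]
    exact h _ (h' _ hx)
  have Kone : K 1 := fun x hx => by simpa using hx
  have Kpow : ∀ {a : F}, K a → ∀ k : ℕ, K (a ^ k) := by
    intro a h k
    induction k with
    | zero => simpa using Kone
    | succ k ih =>
      rw [pow_succ]
      exact Kmul ih h
  have Kadd : ∀ {a a' : F}, K a → K a' → K (a + a') := by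
    intro a a' h h' x hx
    rw [add_mul]
    exact X12_add (h _ hx) (h' _ hx)
  have Kneg : ∀ {a : F}, K a → K (-a) := by
    intro a h x hx
    rw [neg_mul]
    exact X12_neg (h _ hx)
  have Knat : ∀ n : ℕ, K (n : F) := by
    intro n
    induction n with
    | zero =>
      intro x _
      simpa using X12_zero
    | succ n ih =>
      push_cast
      exact Kadd ih Kone
  have Kinv : ∀ {a : F}, a ≠ 0 → K a → K a⁻¹ := by
    intro a ha h
    have h1 : a ^ (Fintype.card F - 1) = 1 := hpow1 a ha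
    have hcard : 2 ≤ Fintype.card F := Fintype.one_lt_card
    have h2' : a⁻¹ = a ^ (Fintype.card F - 2) := by
      have e : Fintype.card F - 1 = Fintype.card F - 2 + 1 := by omega
      rw [e, pow_succ] at h1
      field_simp
      rw [mul_comm]
      exact h1.symm
    rw [h2']
    exact Kpow h _
  have hX12c : X12 H (c * c) := X12_comm (X10_of_X02 hC hτ) hτ
  have hX20c : X20 H (c * c) := X20_of_X12 hC hX12c
  have Kc : K (c ^ 3) := by
    intro x hx
    have h1 := X10_comm hx hX20c
    have h2' := X12_comm h1 hτ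
    have e : x * (c * c) * c = c ^ 3 * x := by ring
    rwa [e] at h2'
  -- conjugating by `s`
  have Kl : K (l ^ 3) := by
    have hν0 : l⁻¹ ≠ 0 := inv_ne_zero hl0
    suffices Kli : K (l ^ 3)⁻¹ by
      have := Kinv (inv_ne_zero (pow_ne_zero 3 hl0)) Kli
      rwa [inv_inv] at this
    intro x hx
    have h1 := RR_move (Ss l 0 hl0) hs hx
    have e1 : ((Ss l 0 hl0 : SpecialLinearGroup (Fin 3) F) : Matrix (Fin 3) (Fin 3) F) *ᵥ ev 1 = (l⁻¹ ^ 2) • ev 1 := by
      ext y
      rw [mulVec_ev, Ss_coe]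
      fin_cases y <;> simp [ev_apply]
    have e2 : (x • ev 2 : Fin 3 → F) ᵥ* (((Ss l 0 hl0)⁻¹ : SpecialLinearGroup (Fin 3) F) : Matrix (Fin 3) (Fin 3) F) = (x * l⁻¹) • ev 2 := by
      have e3 : ((l⁻¹ • ev 2 : Fin 3 → F)) ᵥ* ((Ss l 0 hl0 : SpecialLinearGroup (Fin 3) F) : Matrix (Fin 3) (Fin 3) F) = ev 2 := by
        rw [smul_vecMul]
        ext y
        rw [Pi.smul_apply, ev_vecMul, Ss_coe, ev_apply]
        fin_cases y <;> simp [hl0]
      have e4 : (ev 2 : Fin 3 → F) ᵥ* (((Ss l 0 hl0)⁻¹ : SpecialLinearGroup (Fin 3) F) : Matrix (Fin 3) (Fin 3) F) = l⁻¹ • ev 2 := by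
        conv_lhs => rw [← e3]
        rw [vecMul_vecMul, coe_mul_inv, vecMul_one]
      rw [smul_vecMul, e4, smul_smul]
    rw [e1, e2] at h1
    have h2' := RR_smul_left _ h1
    have e5 : (l⁻¹ ^ 2) • (x * l⁻¹) • ev 2 = ((l ^ 3)⁻¹ * x) • (ev 2 : Fin 3 → F) := by
      rw [smul_smul]
      congr 1
      field_simp
    rw [e5] at h2'
    exact h2'
  have Kd : K ((l - 1) ^ 3) := by
    have h27 : (27 : F) ≠ 0 := by
      have : (27 : F) = 3 ^ 3 := by norm_num
      rw [this]
      exact pow_ne_zero 3 h3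
    have h1 := Kmul (Kinv h27 (by exact_mod_cast Knat 27)) Kc
    have e : (27 : F)⁻¹ * c ^ 3 = (l - 1) ^ 3 := by
      rw [hc]
      field_simp
      ring
    rwa [e] at h1
  have KA : K (l ^ 2 - l) := by
    have h1 := Kmul (Kinv h3 (by exact_mod_cast Knat 3)) (Kadd (Kadd Kl (Kneg Kone)) (Kneg Kd))
    have e : (3 : F)⁻¹ * (l ^ 3 + -1 + -(l - 1) ^ 3) = l ^ 2 - l := by
      field_simp
      ring
    rwa [e] at h1
  have Kall : ∀ x : F, K x := by
    by_cases hA : 1 + (l ^ 2 - l) = 0
    · -- the exceptional case: the field is a prime field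
      have hl6 : l ^ 6 = 1 := by
        have e : l ^ 6 - 1 = (l ^ 3 - 1) * (l + 1) * (1 + (l ^ 2 - l)) := by ring
        rw [hA, mul_zero] at e
        exact sub_eq_zero.mp e
      have hall6 : ∀ x : F, x ≠ 0 → x ^ 6 = 1 := by
        intro x hx
        obtain ⟨k, hk⟩ := hlg x hx
        rw [hk, ← pow_mul, mul_comm, pow_mul, hl6, one_pow]
      have hcardle : Fintype.card F ≤ 7 := by
        classical
        have hsub : (Finset.univ.erase (0 : F)) ⊆ (Polynomial.nthRoots 6 (1 : F)).toFinset := by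
          intro x hx
          have hx0 : x ≠ 0 := (Finset.mem_erase.mp hx).1
          rw [Multiset.mem_toFinset, Polynomial.mem_nthRoots (by norm_num)]
          exact hall6 x hx0
        have h1 := Finset.card_le_card hsub
        have h2' : ((Polynomial.nthRoots 6 (1 : F)).toFinset).card ≤ 6 :=
          (Multiset.toFinset_card_le _).trans (Polynomial.card_nthRoots 6 1)
        rw [Finset.card_erase_of_mem (Finset.mem_univ _), Finset.card_univ] at h1
        omega
      obtain ⟨n, hpn, hn⟩ := FiniteField.card F p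
      have hpge : 5 ≤ p := by
        have h2le := hpp.two_le
        have : p ≠ 4 := by
          rintro rfl
          exact absurd hpp (by decide)
        omega
      have hcardp : Fintype.card F = p := by
        rw [hn] at hcardle ⊢
        have hn1 : (n : ℕ) = 1 := by
          by_contra hne
          have hn2 : 2 ≤ (n : ℕ) := by
            have := n.pos
            omega
          have : p ^ 2 ≤ p ^ (n : ℕ) := Nat.pow_le_pow_right hpp.pos hn2
          nlinarith
        rw [hn1, pow_one]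
      intro x
      obtain ⟨m, hm⟩ := exists_nat_of_card_prime hcardp x
      rw [← hm]
      exact Knat m
    · have Kl1 : K l := by
        have h1 := Kmul (Kinv hA (Kadd Kone KA)) (Kadd Kl (Kneg KA))
        have e : (1 + (l ^ 2 - l))⁻¹ * (l ^ 3 + -(l ^ 2 - l)) = l := by
          rw [inv_mul_eq_div, div_eq_iff hA]
          ring
        rwa [e] at h1
      intro x
      by_cases hx : x = 0
      · subst hx
        intro y _
        simpa using X12_zero
      · obtain ⟨k, hk⟩ := hlg x hx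
        rw [hk]
        exact Kpow Kl1 k
  have A12 : ∀ a, X12 H a := by
    intro a
    have := Kall (a / (c * c)) _ hX12c
    have e : a / (c * c) * (c * c) = a := by field_simp
    rwa [e] at this
  have A10 : ∀ a, X10 H a := by
    intro a
    have := X10_comm (A12 a) (X20_of_X12 hC (A12 1))
    rwa [mul_one] at this
  exact top_of_X hC A10 A12

end Large

end Cfsg.Agent.Lib.KS2.Reg
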