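import Mathlib
import Cfsg.Agent.Lib.KS2.RegPair3
import Cfsg.Agent.Lib.KS2.RegN3b

/-!
`SL_3(F)`, characteristic two: generated by two conjugates of the regular unipotent element `uu`.
-/

set_option autoImplicit false
set_option linter.unusedSimpArgs false
set_option linter.unusedVariables false

namespace Cfsg.Agent.Lib.KS2.Reg

open Matrix Module
open scoped MatrixGroups

section General

variable {F : Type*} [Field F] {n : ℕ} {i0 il : Fin n} {H : Subgroup (SpecialLinearGroup (Fin n) F)}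

/-- All transvections with centre `ev il`. -/
lemma RR_of_all₃ (h0 : (i0 : ℕ) = 0) (hl : (il : ℕ) + 1 = n)
    (hall : ∀ d, d + 2 ≤ n → ∀ a : F, Pd H i0 il d a) (f : Fin n → F) (hf : f ⬝ᵥ ev il = 0) :
    RR H (ev il) f := by
  have key : ∀ r t : ℕ, r + t + 2 ≤ n → ∀ a : F,
      RR H (ev il) (a • ((ev i0 : Fin n → F) ᵥ* ((NN : Matrix (Fin n) (Fin n) F) ^ r * Ui ^ t))) := by
    intro r
    induction r with
    | zero =>
      intro t ht a
      have := hall t (by omega) a 0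
      rw [zero_add, Lv_zero] at this
      rw [pow_zero, one_mul]
      exact this
    | succ r ih =>
      intro t ht a
      have e : (NN : Matrix (Fin n) (Fin n) F) ^ (r + 1) * Ui ^ t = NN ^ r * Ui ^ t - NN ^ r * Ui ^ (t + 1) := by
        have e1 : (NN : Matrix (Fin n) (Fin n) F) * Ui ^ t = Ui ^ t - Ui ^ (t + 1) := by
          have e2 : (NN : Matrix (Fin n) (Fin n) F) = 1 - Ui := by unfold Ui; abel
          rw [e2, sub_mul, one_mul, ← pow_succ']
        rw [pow_succ, mul_assoc, e1, mul_sub]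
      rw [e, vecMul_sub, smul_sub]
      exact RR_sub (ih t (by omega) a) (ih (t + 1) (by omega) a)
  have hev : ∀ (j : Fin n), j ≠ il → ∀ a : F, RR H (ev il) (a • (ev j : Fin n → F)) := by
    intro j hj a
    have hj2 : (j : ℕ) + 2 ≤ n := by
      have h1 : (j : ℕ) ≠ il := fun h => hj (Fin.ext h)
      have := j.2
      omega
    have h1 := key j 0 (by omega) a
    have e : (ev i0 : Fin n → F) ᵥ* ((NN : Matrix (Fin n) (Fin n) F) ^ (j : ℕ) * Ui ^ 0) = ev j := by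
      ext x
      rw [pow_zero, mul_one, ev_vecMul, NN_pow, ev_apply, h0, zero_add]
      have : (x : ℕ) = j ↔ x = j := Fin.ext_iff.symm
      simp only [this]
    rwa [e] at h1
  rw [sum_ev f]
  apply RR_sum
  intro j _
  by_cases hj : j = il
  · subst hj
    rw [dot_ev] at hf
    rw [hf, zero_smul]
    exact RR_zero
  · exact hev j hj _

theorem top_of_Pd_all [Nontrivial (Fin n)] (h0 : (i0 : ℕ) = 0) (hl : (il : ℕ) + 1 = n) (huu : uu ∈ H)
    (hall : ∀ d, d + 2 ≤ n → ∀ a : F, Pd H i0 il d a) : H = ⊤ := by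
  refine top_of_span H (ev il) (fun f hf => (RR_of_all₃ h0 hl hall f hf).2) ?_
  set W : Submodule F (Fin n → F) := Submodule.span F {y | ∃ h ∈ H, y = (h : Matrix (Fin n) (Fin n) F) *ᵥ ev il} with hW
  have h1 : (ev il : Fin n → F) ∈ W := by
    apply Submodule.subset_span
    exact ⟨1, H.one_mem, by simp⟩
  have hst : ∀ y ∈ W, (Ui : Matrix (Fin n) (Fin n) F) *ᵥ y ∈ W := by
    intro y hy
    induction hy using Submodule.span_induction with
    | mem y hy =>
      obtain ⟨k, hk, rfl⟩ := hy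
      apply Submodule.subset_span
      refine ⟨uu⁻¹ * k, H.mul_mem (H.inv_mem huu) hk, ?_⟩
      simp only [Matrix.SpecialLinearGroup.coe_mul, ← mulVec_mulVec, uu_inv_coe]
    | zero => simp
    | add x y _ _ hx hy =>
      rw [mulVec_add]
      exact Submodule.add_mem _ hx hy
    | smul c x _ hx =>
      rw [mulVec_smul]
      exact Submodule.smul_mem _ c hx
  have hNN : ∀ y ∈ W, (NN : Matrix (Fin n) (Fin n) F) *ᵥ y ∈ W := by
    intro y hy
    have e : (NN : Matrix (Fin n) (Fin n) F) *ᵥ y = y - (Ui : Matrix (Fin n) (Fin n) F) *ᵥ y := by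
      unfold Ui
      rw [sub_mulVec, one_mulVec]
      abel
    rw [e]
    exact W.sub_mem hy (hst y hy)
  have hpow : ∀ k : ℕ, ((NN : Matrix (Fin n) (Fin n) F) ^ k) *ᵥ ev il ∈ W := by
    intro k
    induction k with
    | zero => simpa using h1
    | succ k ih =>
      rw [pow_succ', ← mulVec_mulVec]
      exact hNN _ ih
  have hev : ∀ j : Fin n, (ev j : Fin n → F) ∈ W := by
    intro j
    have h2 := hpow (n - 1 - j)
    have e : ((NN : Matrix (Fin n) (Fin n) F) ^ (n - 1 - (j : ℕ))) *ᵥ ev il = ev j := by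
      ext x
      rw [mulVec_ev, NN_pow, ev_apply]
      have := j.2
      have := x.2
      have e2 : ((il : ℕ) = (x : ℕ) + (n - 1 - (j : ℕ))) ↔ x = j := by
        rw [Fin.ext_iff]
        omega
      simp only [e2]
    rwa [e] at h2
  rw [eq_top_iff]
  intro f _
  rw [sum_ev f]
  exact W.sum_mem fun j _ => W.smul_mem _ (hev j)

end General

section Two

variable {F : Type*} [Field F] [CharP F 2]

lemma two_eq_zero₃ : (2 : F) = 0 := CharTwo.two_eq_zero

lemma neg_eq₃ (a : F) : -a = a := CharTwo.neg_eq a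

def Ggt (κ : F) : SpecialLinearGroup (Fin 3) F :=
  ⟨!![0, 0, 1; 0, 1, 0; 1, κ, 0], by
    rw [Matrix.det_fin_three]
    simp [neg_eq₃]⟩

lemma Ggt_coe (κ : F) : ((Ggt κ : SpecialLinearGroup (Fin 3) F) : Matrix (Fin 3) (Fin 3) F) = !![0, 0, 1; 0, 1, 0; 1, κ, 0] := rfl

def Ggti (κ : F) : SpecialLinearGroup (Fin 3) F :=
  ⟨!![0, κ, 1; 0, 1, 0; 1, 0, 0], by
    rw [Matrix.det_fin_three]
    simp [neg_eq₃]⟩

lemma Ggti_coe (κ : F) : ((Ggti κ : SpecialLinearGroup (Fin 3) F) : Matrix (Fin 3) (Fin 3) F) = !![0, κ, 1; 0, 1, 0; 1, 0, 0] := rfl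

lemma Ggt_mul_i (κ : F) : Ggt κ * Ggti κ = 1 := by
  apply sl_ext
  rw [Matrix.SpecialLinearGroup.coe_mul, Ggt_coe, Ggti_coe]
  ext i j
  have h2 : κ + κ = 0 := CharTwo.add_self_eq_zero κ
  fin_cases i <;> fin_cases j <;> simp [Matrix.mul_apply, Fin.sum_univ_three, h2]

lemma Ggt_inv (κ : F) : (Ggt κ)⁻¹ = Ggti κ := inv_eq_of_mul_eq_one_right (Ggt_mul_i κ)

lemma uu_three : (((uu : SpecialLinearGroup (Fin 3) F)) : Matrix (Fin 3) (Fin 3) F) = !![1, 1, 1; 0, 1, 1; 0, 0, 1] := by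
  rw [uu_coe]
  ext i j
  fin_cases i <;> fin_cases j <;> simp [Um_apply, Fin.le_def]

lemma Tv02_coe : ((Tv (ev 0) (ev 2) (by rw [dot_ev, ev_apply]; simp) : SpecialLinearGroup (Fin 3) F) : Matrix (Fin 3) (Fin 3) F) = !![1, 0, 1; 0, 1, 0; 0, 0, 1] := by
  rw [Tv_coe]
  ext i j
  fin_cases i <;> fin_cases j <;> simp [Matrix.one_apply, vecMulVec_apply, ev_apply]

lemma Tv20_coe (κ : F) : ((Tv (ev 2) (κ • ev 0) (by rw [dot_ev]; simp [ev_apply]) : SpecialLinearGroup (Fin 3) F) : Matrix (Fin 3) (Fin 3) F) = !![1, 0, 0; 0, 1, 0; κ, 0, 1] := by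
  rw [Tv_coe]
  ext i j
  fin_cases i <;> fin_cases j <;> simp [Matrix.one_apply, vecMulVec_apply, ev_apply]

lemma Tv20'_coe : ((Tv (ev 2) (ev 0) (by rw [dot_ev, ev_apply]; simp) : SpecialLinearGroup (Fin 3) F) : Matrix (Fin 3) (Fin 3) F) = !![1, 0, 0; 0, 1, 0; 1, 0, 1] := by
  rw [Tv_coe]
  ext i j
  fin_cases i <;> fin_cases j <;> simp [Matrix.one_apply, vecMulVec_apply, ev_apply]

lemma uu_sq_three : ((uu : SpecialLinearGroup (Fin 3) F)) ^ 2 =
    Tv (ev 0) (ev 2) (by rw [dot_ev, ev_apply]; simp) := by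
  apply sl_ext
  rw [pow_two, Matrix.SpecialLinearGroup.coe_mul, uu_three, Tv02_coe]
  have h2 : (1 : F) + 1 = 0 := CharTwo.add_self_eq_zero 1
  ext i j
  fin_cases i <;> fin_cases j <;>
    simp [Matrix.mul_apply, Fin.sum_univ_three, Matrix.one_apply, vecMulVec_apply, ev_apply, h2]

lemma Ggt_conj_sq (κ : F) : Ggt κ * (Tv (ev 0) (ev 2) (by rw [dot_ev, ev_apply]; simp)) * (Ggt κ)⁻¹
    = Tv (ev 2) (ev 0) (by rw [dot_ev, ev_apply]; simp) := by
  apply sl_ext
  rw [Ggt_inv, Matrix.SpecialLinearGroup.coe_mul, Matrix.SpecialLinearGroup.coe_mul, Ggt_coe, Ggti_coe, Tv02_coe, Tv20'_coe]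
  have h2 : κ + κ = 0 := CharTwo.add_self_eq_zero κ
  ext i j
  fin_cases i <;> fin_cases j <;>
    simp [Matrix.mul_apply, Fin.sum_univ_three, Matrix.one_apply, vecMulVec_apply, ev_apply, h2]

lemma Ggt_zero : Ggt (0 : F) = (Tv (ev 0) (ev 2) (by rw [dot_ev, ev_apply]; simp)) * (Tv (ev 2) (ev 0) (by rw [dot_ev, ev_apply]; simp)) * (Tv (ev 0) (ev 2) (by rw [dot_ev, ev_apply]; simp)) := by
  apply sl_ext
  rw [Matrix.SpecialLinearGroup.coe_mul, Matrix.SpecialLinearGroup.coe_mul, Ggt_coe, Tv02_coe, Tv20'_coe]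
  have h2 : (1 : F) + 1 = 0 := CharTwo.add_self_eq_zero 1
  ext i j
  fin_cases i <;> fin_cases j <;>
    simp [Matrix.mul_apply, Fin.sum_univ_three, Matrix.one_apply, vecMulVec_apply, ev_apply, h2]

lemma Ggt_conj_uu (κ : F) : Ggt κ * uu * (Ggt κ)⁻¹
    = Tv (ev 2) (κ • ev 0) (by rw [dot_ev]; simp [ev_apply]) * (Ggt 0 * uu * (Ggt 0)⁻¹) := by
  apply sl_ext
  rw [Ggt_inv, Ggt_inv]
  simp only [Matrix.SpecialLinearGroup.coe_mul]
  rw [uu_three, Ggt_coe, Ggti_coe, Ggt_coe, Ggti_coe, Tv20_coe]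
  have h2 : κ + κ = 0 := CharTwo.add_self_eq_zero κ
  have h3 : (1 : F) + 1 = 0 := CharTwo.add_self_eq_zero 1
  have h4 : (2 : F) = 0 := CharTwo.two_eq_zero
  ext i j
  fin_cases i <;> fin_cases j <;>
    simp [Matrix.mul_apply, Fin.sum_univ_three, Matrix.one_apply, vecMulVec_apply, ev_apply, h2, h3]
  · ring
  · linear_combination h2

theorem sl3_char2 [Fintype F] :
    ∃ g : SpecialLinearGroup (Fin 3) F, Subgroup.closure ({uu, g * uu * g⁻¹} : Set (SpecialLinearGroup (Fin 3) F)) = ⊤ := by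
  obtain ⟨κ, hκ0, hκg⟩ := exists_gen (F := F)
  refine ⟨Ggt κ, ?_⟩
  set H := Subgroup.closure ({uu, Ggt κ * uu * (Ggt κ)⁻¹} : Set (SpecialLinearGroup (Fin 3) F)) with hH
  have huu : uu ∈ H := Subgroup.subset_closure (by simp)
  have hv : Ggt κ * uu * (Ggt κ)⁻¹ ∈ H := Subgroup.subset_closure (by simp)
  set i0 : Fin 3 := 0 with hi0
  set il : Fin 3 := 2 with hil
  have h0 : (i0 : ℕ) = 0 := rfl
  have hl : (il : ℕ) + 1 = 3 := rfl
  have hne : i0 ≠ il := by decide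
  have hA : Tv (F := F) (ev 0) (ev 2) (by rw [dot_ev, ev_apply]; simp) ∈ H := by
    rw [← uu_sq_three]
    exact H.pow_mem huu 2
  have hB : Tv (F := F) (ev 2) (ev 0) (by rw [dot_ev, ev_apply]; simp) ∈ H := by
    rw [← Ggt_conj_sq κ, ← uu_sq_three, ← conj_pow]
    exact H.pow_mem hv 2
  have hw : Ggt (0 : F) ∈ H := by
    rw [Ggt_zero]
    exact H.mul_mem (H.mul_mem hA hB) hA
  have hS : Tv (F := F) (ev 2) (κ • ev 0) (by rw [dot_ev]; simp [ev_apply]) ∈ H := by
    have h1 := H.mul_mem hv (H.inv_mem (H.mul_mem (H.mul_mem hw huu) (H.inv_mem hw)))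
    rw [Ggt_conj_uu κ, mul_inv_cancel_right] at h1
    exact h1
  have P0 : ∀ a : F, ∀ hf, Tv (F := F) (ev 2) (a • ev 0) hf ∈ H → Pd H i0 il 0 a := by
    intro a hf hm
    apply Pd_of huu (k0 := 0)
    rw [Lv_zero, add_zero, Cv_zero]
    exact ⟨hf, hm⟩
  have P1 : Pd H i0 il 0 (1 : F) := by
    apply P0 1 (by rw [dot_ev]; simp [ev_apply])
    simpa using hB
  have Pκ : Pd H i0 il 0 κ := P0 κ _ hS
  have mul01 : ∀ {a β : F}, Pd H i0 il 0 a → Pd H i0 il 0 β → Pd H i0 il 1 (a * β) := by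
    intro a β ha hβ
    have hT : ∀ i j, TK hne β i * (TK hne β j)⁻¹ ∈ H := by
      intro i j
      exact H.mul_mem (hβ i).2 (H.inv_mem (hβ j).2)
    have := Pd_move hne h0 hl huu hT (s := 1) ha (by omega)
    rwa [Ee_one i0 il h0, mul_one, zero_add] at this
  have mul11 : ∀ {a a' : F}, Pd H i0 il 1 a → Pd H i0 il 1 a' → Pd H i0 il 0 (a * a') := by
    intro a a' ha ha'
    have := Pd_wrap huu (by norm_num) ha ha' (A := 0) (by norm_num) (Dd_zero hne)
    rw [Dd_top i0 il h0 hl] at this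
    simpa using this
  have toP1 : ∀ {a : F}, Pd H i0 il 0 a → Pd H i0 il 1 a := by
    intro a ha
    have := mul01 ha P1
    rwa [mul_one] at this
  have mul00 : ∀ {a a' : F}, Pd H i0 il 0 a → Pd H i0 il 0 a' → Pd H i0 il 0 (a * a') :=
    fun ha ha' => mul11 (toP1 ha) (toP1 ha')
  have pows : ∀ k : ℕ, Pd H i0 il 0 (κ ^ k) := by
    intro k
    induction k with
    | zero => simpa using P1
    | succ k ih =>
      rw [pow_succ]
      exact mul00 ih Pκ
  have all0 : ∀ a : F, Pd H i0 il 0 a := by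
    intro a
    by_cases ha : a = 0
    · rw [ha]; exact Pd_zero
    · obtain ⟨k, hk⟩ := hκg a ha
      rw [hk]
      exact pows k
  refine top_of_Pd_all h0 hl huu ?_
  intro d hd a
  rcases (by omega : d = 0 ∨ d = 1) with rfl | rfl
  · exact all0 a
  · exact toP1 (all0 a)

end Two

end Cfsg.Agent.Lib.KS2.Reg
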