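import Mathlib

/-!
Products of two regular unipotent maps, part 1: gluing a map on a hyperplane with a vector.
-/

set_option autoImplicit false
set_option linter.unusedSectionVars false
set_option linter.unusedVariables false

namespace Cfsg.Agent.Lib.KS2.RegU

open Module

universe u v
variable {K : Type u} [Field K] {V : Type v} [AddCommGroup V] [Module K V]

/-- The field has at least four elements. -/
def Big (K : Type u) [Field K] : Prop := ∀ x₁ x₂ x₃ : K, ∃ y, y ≠ x₁ ∧ y ≠ x₂ ∧ y ≠ x₃

section Glue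

variable (φ : Dual K V) (v : V) (hv : φ v = 1)

/-- The projection along `v` onto `ker φ`. -/
def prj : V →ₗ[K] LinearMap.ker φ :=
  LinearMap.codRestrict _ (LinearMap.id - φ.smulRight v) (by intro x; simp [hv])

lemma prj_coe (x : V) : ((prj φ v hv x : LinearMap.ker φ) : V) = x - φ x • v := by
  change (LinearMap.id - φ.smulRight v : V →ₗ[K] V) x = _
  simp

lemma prj_v : prj φ v hv v = 0 := by
  apply Subtype.ext; rw [prj_coe]; simp [hv]

lemma prj_w (w : LinearMap.ker φ) : prj φ v hv (w : V) = w := by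
  apply Subtype.ext; rw [prj_coe]
  have : φ (w : V) = 0 := w.2
  simp [this]

lemma decomp (x : V) : x = φ x • v + ((prj φ v hv x : LinearMap.ker φ) : V) := by
  rw [prj_coe]; abel

include hv in
lemma ext_hyper {W : Type*} [AddCommGroup W] [Module K W] (f₁ f₂ : V →ₗ[K] W) (h₁ : f₁ v = f₂ v)
    (h₂ : ∀ w : LinearMap.ker φ, f₁ (w : V) = f₂ (w : V)) : f₁ = f₂ := by
  ext x
  rw [decomp φ v hv x, map_add, map_smul, map_add, map_smul, h₁, h₂]

/-- The map acting as `T` on `ker φ` and sending `v` to `v + ξ`. -/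
def glue (T : End K (LinearMap.ker φ)) (ξ : LinearMap.ker φ) : End K V :=
  φ.smulRight (v + (ξ : V)) + (LinearMap.ker φ).subtype ∘ₗ T ∘ₗ prj φ v hv

lemma glue_v (T : End K (LinearMap.ker φ)) (ξ : LinearMap.ker φ) :
    glue φ v hv T ξ v = v + (ξ : V) := by
  simp [glue, hv, prj_v]

lemma glue_w (T : End K (LinearMap.ker φ)) (ξ : LinearMap.ker φ) (w : LinearMap.ker φ) :
    glue φ v hv T ξ (w : V) = (T w : V) := by
  have : φ (w : V) = 0 := w.2
  simp [glue, this, prj_w]

lemma glue_sub_w (T : End K (LinearMap.ker φ)) (ξ : LinearMap.ker φ) (w : LinearMap.ker φ) :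
    (glue φ v hv T ξ - 1) (w : V) = (((T - 1) w : LinearMap.ker φ) : V) := by
  simp [glue_w]

lemma glue_pow_w (T : End K (LinearMap.ker φ)) (ξ : LinearMap.ker φ) (k : ℕ) (w : LinearMap.ker φ) :
    ((glue φ v hv T ξ - 1) ^ k) (w : V) = ((((T - 1) ^ k) w : LinearMap.ker φ) : V) := by
  induction k generalizing w with
  | zero => simp
  | succ k ih =>
    rw [pow_succ, pow_succ, Module.End.mul_apply, Module.End.mul_apply, glue_sub_w, ih]

lemma glue_pow_v (T : End K (LinearMap.ker φ)) (ξ : LinearMap.ker φ) (k : ℕ) :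
    ((glue φ v hv T ξ - 1) ^ (k + 1)) v = ((((T - 1) ^ k) ξ : LinearMap.ker φ) : V) := by
  rw [pow_succ, Module.End.mul_apply]
  have : (glue φ v hv T ξ - 1) v = (ξ : V) := by simp [glue_v]
  rw [this, glue_pow_w]

lemma glue_nil (T : End K (LinearMap.ker φ)) (ξ : LinearMap.ker φ) (d : ℕ)
    (hT : (T - 1) ^ d = 0) : (glue φ v hv T ξ - 1) ^ (d + 1) = 0 := by
  ext x
  rw [decomp φ v hv x, map_add, map_smul, glue_pow_v, hT]
  rw [pow_succ', Module.End.mul_apply, glue_pow_w, hT]
  simp

lemma glue_cyc (T : End K (LinearMap.ker φ)) (ξ : LinearMap.ker φ) (d : ℕ)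
    (hT : (T - 1) ^ (d + 1) = 0) (a : V) :
    ((glue φ v hv T ξ - 1) ^ (d + 1)) a = φ a • ((((T - 1) ^ d) ξ : LinearMap.ker φ) : V) := by
  conv_lhs => rw [decomp φ v hv a]
  rw [map_add, map_smul, glue_pow_v, glue_pow_w, hT]
  simp

/-- The map acting on `ker φ` as `T` plus `β` times `v`, and fixing `v`. -/
def glueU (T : End K (LinearMap.ker φ)) (β : Dual K (LinearMap.ker φ)) : End K V :=
  φ.smulRight v + (LinearMap.ker φ).subtype ∘ₗ T ∘ₗ prj φ v hv + (β ∘ₗ prj φ v hv).smulRight v

lemma glueU_v (T : End K (LinearMap.ker φ)) (β : Dual K (LinearMap.ker φ)) :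
    glueU φ v hv T β v = v := by
  simp [glueU, hv, prj_v]

lemma glueU_w (T : End K (LinearMap.ker φ)) (β : Dual K (LinearMap.ker φ)) (w : LinearMap.ker φ) :
    glueU φ v hv T β (w : V) = (T w : V) + β w • v := by
  have : φ (w : V) = 0 := w.2
  simp [glueU, this, prj_w]

lemma glueU_sub_v (T : End K (LinearMap.ker φ)) (β : Dual K (LinearMap.ker φ)) :
    (glueU φ v hv T β - 1) v = 0 := by
  simp [glueU_v]

lemma glueU_sub_w (T : End K (LinearMap.ker φ)) (β : Dual K (LinearMap.ker φ))
    (w : LinearMap.ker φ) :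
    (glueU φ v hv T β - 1) (w : V) = (((T - 1) w : LinearMap.ker φ) : V) + β w • v := by
  simp [glueU_w]; abel

lemma glueU_pow_w (T : End K (LinearMap.ker φ)) (β : Dual K (LinearMap.ker φ)) (k : ℕ)
    (w : LinearMap.ker φ) :
    ((glueU φ v hv T β - 1) ^ (k + 1)) (w : V)
      = ((((T - 1) ^ (k + 1)) w : LinearMap.ker φ) : V) + β (((T - 1) ^ k) w) • v := by
  induction k generalizing w with
  | zero => simpa using glueU_sub_w φ v hv T β w
  | succ k ih =>
    rw [pow_succ', Module.End.mul_apply, ih, map_add, map_smul, glueU_sub_v, glueU_sub_w]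
    rw [pow_succ' (T - 1) (k + 1), Module.End.mul_apply]
    simp [pow_succ' (T - 1) k]

lemma glueU_pow_v (T : End K (LinearMap.ker φ)) (β : Dual K (LinearMap.ker φ)) (k : ℕ) :
    ((glueU φ v hv T β - 1) ^ (k + 1)) v = 0 := by
  rw [pow_succ, Module.End.mul_apply, glueU_sub_v, map_zero]

lemma glueU_nil (T : End K (LinearMap.ker φ)) (β : Dual K (LinearMap.ker φ)) (d : ℕ)
    (hT : (T - 1) ^ d = 0) : (glueU φ v hv T β - 1) ^ (d + 1) = 0 := by
  ext x
  rw [decomp φ v hv x, map_add, map_smul, glueU_pow_v, glueU_pow_w, hT, pow_succ', hT]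
  simp

end Glue

section Comp

variable (g : End K V) (φ : Dual K V) (v : V)

/-- The Schur complement of `g` on `ker φ`, for `φ (g v) = 1`. -/
def gp (h : φ (g v) = 1) : End K (LinearMap.ker φ) :=
  LinearMap.codRestrict _ ((g - (φ ∘ₗ g).smulRight (g v)) ∘ₗ (LinearMap.ker φ).subtype)
    (by intro x; simp [h])

lemma gp_coe (h : φ (g v) = 1) (w : LinearMap.ker φ) :
    ((gp g φ v h w : LinearMap.ker φ) : V) = g w - φ (g w) • g v := by
  change ((g - (φ ∘ₗ g).smulRight (g v)) ∘ₗ (LinearMap.ker φ).subtype) w = _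
  simp

/-- The vector `g v - v` in `ker φ`. -/
def aP (hv : φ v = 1) (h : φ (g v) = 1) : LinearMap.ker φ :=
  ⟨g v - v, by simp [h, hv]⟩

/-- The functional `φ ∘ g` on `ker φ`. -/
def bP : Dual K (LinearMap.ker φ) := (φ ∘ₗ g) ∘ₗ (LinearMap.ker φ).subtype

lemma bP_apply (w : LinearMap.ker φ) : bP g φ w = φ (g w) := rfl

/-- The factorisation of `g` from one of `gp g φ v h`. -/
lemma glue_mul_glueU (hv : φ v = 1) (h : φ (g v) = 1) (L' U' : End K (LinearMap.ker φ))
    (hLU : L' * U' = gp g φ v h) :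
    glue φ v hv L' (aP g φ v hv h) * glueU φ v hv U' (bP g φ) = g := by
  apply ext_hyper φ v hv
  · rw [Module.End.mul_apply, glueU_v, glue_v]; simp [aP]
  · intro w
    rw [Module.End.mul_apply, glueU_w, map_add, map_smul, glue_w, glue_v]
    have e2 : ((L' (U' w) : LinearMap.ker φ) : V) = ((gp g φ v h w : LinearMap.ker φ) : V) := by
      rw [← hLU]; rfl
    rw [e2, gp_coe, bP_apply]
    simp [aP]

/-- The determinant of the Schur complement. -/
lemma det_gp [FiniteDimensional K V] (hv : φ v = 1) (h : φ (g v) = 1) :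
    LinearMap.det (gp g φ v h) = LinearMap.det g := by
  set G₀ : End K V := glue φ v hv (gp g φ v h) 0 with hG₀
  have hdG : LinearMap.det G₀ = LinearMap.det (gp g φ v h) := by
    have hle : LinearMap.ker φ ≤ (LinearMap.ker φ).comap G₀ := by
      intro w hw
      have := glue_w φ v hv (gp g φ v h) 0 ⟨w, hw⟩
      simp only [Submodule.mem_comap]
      rw [hG₀]
      simp only at this
      rw [this]
      exact (gp g φ v h ⟨w, hw⟩).2
    rw [LinearMap.det_eq_det_mul_det (LinearMap.ker φ) G₀ hle]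
    have h1 : G₀.restrict hle = gp g φ v h := by
      ext w
      simp only [LinearMap.coe_restrict_apply]
      exact glue_w φ v hv (gp g φ v h) 0 w
    have h2 : (LinearMap.ker φ).mapQ (LinearMap.ker φ) G₀ hle = LinearMap.id := by
      apply Submodule.linearMap_qext
      ext x
      simp only [LinearMap.coe_comp, Function.comp_apply, Submodule.mkQ_apply,
        Submodule.mapQ_apply, LinearMap.id_coe, id_eq]
      rw [Submodule.Quotient.eq]
      have : G₀ x - x = (((gp g φ v h - 1) (prj φ v hv x) : LinearMap.ker φ) : V) := by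
        conv_lhs => rw [decomp φ v hv x]
        rw [map_add, map_smul, hG₀, glue_v, glue_w]
        simp
      rw [this]
      exact Subtype.property _
    rw [h1, h2, LinearMap.det_id, mul_one]
  rw [← hdG]
  set L₀ : End K V := LinearMap.transvection φ (g v - v) with hL₀
  set U₀ : End K V := LinearMap.transvection ((φ ∘ₗ g) ∘ₗ
    ((LinearMap.ker φ).subtype ∘ₗ prj φ v hv)) v with hU₀
  have hg : g = L₀ * G₀ * U₀ := by
    apply ext_hyper φ v hv
    · simp only [Module.End.mul_apply, hL₀, hU₀, LinearMap.transvection.apply, LinearMap.comp_apply,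
        prj_v, map_zero, zero_smul, add_zero, hG₀, glue_v]
      simp [hv]
    · intro w
      have hw : φ (w : V) = 0 := w.2
      simp only [Module.End.mul_apply, hL₀, hU₀, LinearMap.transvection.apply, LinearMap.comp_apply,
        prj_w, Submodule.subtype_apply, map_add, map_smul, hG₀, glue_v, glue_w, smul_add]
      have h4 : φ ((gp g φ v h w : LinearMap.ker φ) : V) = 0 := (gp g φ v h w).2
      rw [gp_coe] at h4 ⊢
      simp only [ZeroMemClass.coe_zero, add_zero, hv, h4]
      simp [smul_sub]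
  have hd : LinearMap.det g = LinearMap.det L₀ * LinearMap.det G₀ * LinearMap.det U₀ := by
    rw [← map_mul, ← map_mul, ← hg]
  have dL : LinearMap.det L₀ = 1 := by
    rw [hL₀, LinearMap.transvection.det]; simp [h, hv]
  have dU : LinearMap.det U₀ = 1 := by
    rw [hU₀, LinearMap.transvection.det]; simp [prj_v]
  rw [hd, dL, dU]; ring

end Comp

end Cfsg.Agent.Lib.KS2.RegU
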