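import Cfsg.Agent.Lib.KS2.RegU1

/-!
Products of two regular unipotent maps, part 2: avoiding subspaces, the Schur complement's invariants.
-/

set_option autoImplicit false
set_option linter.unusedSectionVars false
set_option linter.unusedVariables false

namespace Cfsg.Agent.Lib.KS2.RegU

open Module

universe u v
variable {K : Type u} [Field K] {V : Type v} [AddCommGroup V] [Module K V]

lemma one_bad (P : Submodule K V) (y x : V) (h : x ∉ P ∨ y ∉ P) :
    ∃ s₀ : K, ∀ s, s ≠ s₀ → y + s • x ∉ P := by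
  by_cases hx : x ∈ P
  · have hy : y ∉ P := h.resolve_left (not_not.mpr hx)
    refine ⟨0, fun s _ hs => hy ?_⟩
    have : y = (y + s • x) - s • x := by abel
    rw [this]; exact P.sub_mem hs (P.smul_mem _ hx)
  · by_cases hex : ∃ s : K, y + s • x ∈ P
    · obtain ⟨s₀, hs₀⟩ := hex
      refine ⟨s₀, fun s hs hm => hx ?_⟩
      have h1 : (s - s₀) • x ∈ P := by
        have : (s - s₀) • x = (y + s • x) - (y + s₀ • x) := by rw [sub_smul]; abel
        rw [this]; exact P.sub_mem hm hs₀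
      have := P.smul_mem (s - s₀)⁻¹ h1
      rwa [smul_smul, inv_mul_cancel₀ (sub_ne_zero.mpr hs), one_smul] at this
    · exact ⟨0, fun s _ hm => hex ⟨s, hm⟩⟩

lemma exists_notMem {P : Submodule K V} (h : P ≠ ⊤) : ∃ y, y ∉ P := by
  by_contra hh
  push Not at hh
  exact h (eq_top_iff.mpr fun y _ => hh y)

lemma avoid_step (hK : Big K) {P₁ P₂ P₃ P₄ : Submodule K V} (x : V) (h₁ : x ∉ P₁) (h₂ : x ∉ P₂)
    (h₃ : x ∉ P₃) (h₄ : P₄ ≠ ⊤) : ∃ y, y ∉ P₁ ∧ y ∉ P₂ ∧ y ∉ P₃ ∧ y ∉ P₄ := by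
  by_cases hx : x ∈ P₄
  · obtain ⟨y₀, hy₀⟩ := exists_notMem h₄
    obtain ⟨s₁, hs₁⟩ := one_bad P₁ y₀ x (Or.inl h₁)
    obtain ⟨s₂, hs₂⟩ := one_bad P₂ y₀ x (Or.inl h₂)
    obtain ⟨s₃, hs₃⟩ := one_bad P₃ y₀ x (Or.inl h₃)
    obtain ⟨s, h1, h2, h3⟩ := hK s₁ s₂ s₃
    refine ⟨y₀ + s • x, hs₁ s h1, hs₂ s h2, hs₃ s h3, fun hm => hy₀ ?_⟩
    have : y₀ = (y₀ + s • x) - s • x := by abel
    rw [this]; exact P₄.sub_mem hm (P₄.smul_mem _ hx)
  · exact ⟨x, h₁, h₂, h₃, hx⟩

lemma avoid4 (hK : Big K) {P₁ P₂ P₃ P₄ : Submodule K V} (h₁ : P₁ ≠ ⊤) (h₂ : P₂ ≠ ⊤)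
    (h₃ : P₃ ≠ ⊤) (h₄ : P₄ ≠ ⊤) : ∃ y, y ∉ P₁ ∧ y ∉ P₂ ∧ y ∉ P₃ ∧ y ∉ P₄ := by
  obtain ⟨x₁, hx₁⟩ := exists_notMem h₁
  obtain ⟨x₂, a1, -, -, a2⟩ := avoid_step hK (P₁ := P₁) (P₂ := P₁) (P₃ := P₁) (P₄ := P₂) x₁ hx₁ hx₁ hx₁ h₂
  obtain ⟨x₃, b1, b2, -, b3⟩ := avoid_step hK (P₁ := P₁) (P₂ := P₂) (P₃ := P₂) (P₄ := P₃) x₂ a1 a2 a2 h₃
  exact avoid_step hK (P₁ := P₁) (P₂ := P₂) (P₃ := P₃) (P₄ := P₄) x₃ b1 b2 b3 h₄

lemma exists_noneigen (hK : Big K) {A B : Submodule K V} (hA : A ≠ ⊤) (hB : B ≠ ⊤) (g : End K V)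
    (hg : ¬ ∃ c : K, g = c • (1 : End K V)) :
    ∃ v, v ∉ A ∧ v ∉ B ∧ ∀ μ : K, g v ≠ μ • v := by
  by_contra hcon
  push Not at hcon
  obtain ⟨u₀, hu₀A, hu₀B, -, -⟩ := avoid4 hK hA hB hA hA
  obtain ⟨μ, hμ⟩ := hcon u₀ hu₀A hu₀B
  apply hg
  refine ⟨μ, LinearMap.ext fun x => ?_⟩
  by_contra hx
  have hx' : g x ≠ μ • x := by simpa using hx
  obtain ⟨s₁, hs₁⟩ := one_bad A u₀ x (Or.inr hu₀A)
  obtain ⟨s₂, hs₂⟩ := one_bad B u₀ x (Or.inr hu₀B)
  obtain ⟨s, hs0, h1, h2⟩ := hK 0 s₁ s₂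
  set u₁ := u₀ + s • x with hu₁
  have hu₁A : u₁ ∉ A := hs₁ s h1
  have hu₁B : u₁ ∉ B := hs₂ s h2
  obtain ⟨μ₁, hμ₁⟩ := hcon u₁ hu₁A hu₁B
  have hne : μ₁ ≠ μ := by
    rintro rfl
    apply hx'
    have : s • g x = s • (μ₁ • x) := by
      have e := hμ₁
      rw [hu₁, map_add, map_smul, hμ, smul_add] at e
      have e' := add_left_cancel e
      rw [e', smul_comm]
    exact smul_right_injective V hs0 this
  obtain ⟨r₁, hr₁⟩ := one_bad A u₀ u₁ (Or.inr hu₀A)
  obtain ⟨r₂, hr₂⟩ := one_bad B u₀ u₁ (Or.inr hu₀B)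
  obtain ⟨r, hr0, h3, h4⟩ := hK 0 r₁ r₂
  obtain ⟨μ₂, hμ₂⟩ := hcon (u₀ + r • u₁) (hr₁ r h3) (hr₂ r h4)
  have hμ₂' : μ • u₀ + r • μ₁ • u₁ = μ₂ • u₀ + μ₂ • r • u₁ := by
    have := hμ₂
    rw [map_add, map_smul, hμ, hμ₁] at this
    rw [this, smul_add]
  have hu0 : u₀ ≠ 0 := fun h => hu₀A (h ▸ A.zero_mem)
  have hu1 : u₁ ≠ 0 := fun h => hu₁A (h ▸ A.zero_mem)
  -- `(μ - μ₂) u₀ + r (μ₁ - μ₂) u₁ = 0`
  have e1 : (μ - μ₂) • u₀ + (r * (μ₁ - μ₂)) • u₁ = 0 := by
    have : (μ - μ₂) • u₀ + (r * (μ₁ - μ₂)) • u₁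
        = (μ • u₀ + r • μ₁ • u₁) - (μ₂ • u₀ + μ₂ • r • u₁) := by
      simp only [sub_smul, mul_smul, smul_sub]
      rw [smul_comm r μ₂ u₁]
      abel
    rw [this, hμ₂', sub_self]
  have e2 : (μ - μ₂) • μ • u₀ + (r * (μ₁ - μ₂)) • μ₁ • u₁ = 0 := by
    have := congrArg g e1
    rw [map_add, map_smul, map_smul, hμ, hμ₁, map_zero] at this
    exact this
  have e3 : ((μ - μ₂) * (μ - μ₁)) • u₀ = 0 := by
    have : ((μ - μ₂) * (μ - μ₁)) • u₀
        = ((μ - μ₂) • μ • u₀ + (r * (μ₁ - μ₂)) • μ₁ • u₁)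
          - μ₁ • ((μ - μ₂) • u₀ + (r * (μ₁ - μ₂)) • u₁) := by
      simp only [smul_add, smul_smul]
      have h5 : (μ - μ₂) * (μ - μ₁) = (μ - μ₂) * μ - μ₁ * (μ - μ₂) := by ring
      rw [h5, sub_smul]
      have h6 : r * (μ₁ - μ₂) * μ₁ = μ₁ * (r * (μ₁ - μ₂)) := by ring
      rw [h6]
      abel
    rw [this, e1, e2]; simp
  have e4 : μ - μ₂ = 0 := by
    have := (smul_eq_zero.mp e3).resolve_right hu0
    exact (mul_eq_zero.mp this).resolve_right (sub_ne_zero.mpr (Ne.symm hne))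
  have e5 : r * (μ₁ - μ₂) = 0 := by
    rw [e4, zero_smul, zero_add] at e1
    exact (smul_eq_zero.mp e1).resolve_right hu1
  have e6 : μ₁ - μ₂ = 0 := (mul_eq_zero.mp e5).resolve_left hr0
  exact hne (by rw [sub_eq_zero] at e4 e6; rw [e6, e4])

/-- `g - 1` has rank at least two. -/
lemma rank_ge2 [FiniteDimensional K V] (g : End K V) (hdet : LinearMap.det g = 1)
    (hnil : ¬ IsNilpotent (g - 1)) (a : V) : ∃ x, (g - 1) x ∉ Submodule.span K {a} := by
  by_contra hcon
  push Not at hcon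
  by_cases ha : a = 0
  · apply hnil
    refine ⟨1, ?_⟩
    ext x
    have := hcon x
    simp only [ha, Submodule.span_zero_singleton, Submodule.mem_bot] at this
    simp [this]
  · obtain ⟨f, hf⟩ : ∃ f : Dual K V, f a = 1 := by
      obtain ⟨f, hf, -⟩ := Submodule.exists_le_ker_of_notMem (p := (⊥ : Submodule K V)) (v := a) (by simpa using ha)
      exact ⟨(f a)⁻¹ • f, by simp [hf]⟩
    set ψ : Dual K V := f ∘ₗ (g - 1) with hψ
    have h1 : ∀ x, (g - 1) x = ψ x • a := by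
      intro x
      obtain ⟨c, hc⟩ := Submodule.mem_span_singleton.mp (hcon x)
      simp only [hψ, LinearMap.comp_apply]
      rw [← hc]; simp [hf]
    have h2 : g = LinearMap.transvection ψ a := by
      ext x
      have := h1 x
      rw [LinearMap.transvection.apply, ← this]
      simp
    have h3 : ψ a = 0 := by
      have := LinearMap.transvection.det ψ a
      rw [← h2, hdet] at this
      simpa using this.symm
    apply hnil
    refine ⟨2, ?_⟩
    ext x
    rw [pow_two, Module.End.mul_apply, h1 x, map_smul, h1 a, h3]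
    simp

lemma pow_finrank_of_nil [FiniteDimensional K V] (f : End K V) (h : IsNilpotent f) :
    f ^ finrank K V = 0 := by
  have h1 := (LinearMap.isNilpotent_iff_charpoly f).1 h
  have h2 := LinearMap.aeval_self_charpoly f
  rw [h1] at h2
  simpa using h2

section Comp

variable (g : End K V) (φ : Dual K V) (v : V)

lemma trace_gp [FiniteDimensional K V] (hv : φ v = 1) (h : φ (g v) = 1) :
    LinearMap.trace K _ (gp g φ v h) = LinearMap.trace K V g - φ (g (g v)) := by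
  set E : End K V := (LinearMap.ker φ).subtype ∘ₗ (gp g φ v h ∘ₗ prj φ v hv) with hE
  have h1 : LinearMap.trace K V E = LinearMap.trace K _ (gp g φ v h) := by
    rw [hE, LinearMap.trace_comp_comm']
    congr 1
    ext w
    simp [prj_w]
  set ψ : Dual K V := φ + (φ ∘ₗ g) ∘ₗ ((LinearMap.ker φ).subtype ∘ₗ prj φ v hv) with hψ
  have h2 : g = E + ψ.smulRight (g v) := by
    apply ext_hyper φ v hv
    · simp [hE, hψ, hv, prj_v]
    · intro w
      have hw : φ (w : V) = 0 := w.2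
      simp [hE, hψ, prj_w, gp_coe, hw]
  have h3 : ψ (g v) = φ (g (g v)) := by
    simp only [hψ, LinearMap.add_apply, LinearMap.comp_apply, Submodule.subtype_apply, prj_coe, h,
      map_sub, map_smul, one_smul]
    ring
  have h4 : LinearMap.trace K V g = LinearMap.trace K V E + ψ (g v) := by
    conv_lhs => rw [h2]
    rw [map_add, LinearMap.trace_smulRight]
  rw [h4, ← h1, h3]; ring

/-- The scalar and nilpotency exclusions when `v, g v, g² v` are independent. -/
lemma T_case [FiniteDimensional K V] (hv : φ v = 1) (h : φ (g v) = 1)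
    (hT : g (g v) ∉ Submodule.span K {v, g v})
    (hy : φ (g (g v)) ≠ LinearMap.trace K V g - (finrank K (LinearMap.ker φ) : K)) :
    (¬ ∃ c : K, gp g φ v h = c • (1 : End K (LinearMap.ker φ))) ∧
      ¬ IsNilpotent (gp g φ v h - 1) := by
  constructor
  · rintro ⟨c, hc⟩
    apply hT
    have h1 := gp_coe g φ v h (aP g φ v hv h)
    rw [hc] at h1
    have h2 : ((aP g φ v hv h : LinearMap.ker φ) : V) = g v - v := rfl
    simp only [LinearMap.smul_apply, Module.End.one_apply, Submodule.coe_smul, h2, map_sub, h] at h1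
    rw [Submodule.mem_span_pair]
    refine ⟨-c, φ (g (g v)) + c, ?_⟩
    have h3 : g (g v) = c • (g v - v) + (φ (g (g v)) - 1) • g v + g v := by
      rw [h1]; simp only [sub_smul, one_smul]; abel
    rw [add_smul, neg_smul]
    conv_rhs => rw [h3]
    simp only [smul_sub, sub_smul, one_smul]; abel
  · intro hnil
    apply hy
    have h1 := (LinearMap.isNilpotent_trace_of_isNilpotent hnil).eq_zero
    rw [map_sub, LinearMap.trace_one, trace_gp g φ v hv h, sub_eq_zero] at h1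
    rw [← h1]; ring

lemma K2_gp_c (hv : φ v = 1) (h : φ (g v) = 1) (τ σ : K) (e : g (g v) = τ • g v - σ • v) :
    gp g φ v h (aP g φ v hv h) = σ • aP g φ v hv h := by
  apply Subtype.ext
  rw [gp_coe]
  have h2 : ((aP g φ v hv h : LinearMap.ker φ) : V) = g v - v := rfl
  rw [Submodule.coe_smul, h2, map_sub, e]
  simp only [map_sub, map_smul, hv, h, smul_eq_mul, mul_one]
  simp only [sub_smul, smul_sub, one_smul]
  abel

lemma K2_nonscalar (hv : φ v = 1) (h : φ (g v) = 1) (τ σ : K) (e : g (g v) = τ • g v - σ • v)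
    (hc0 : g v ≠ v) (w : V) (hw : φ w = 0) (hw2 : (g - σ • 1) w ∉ Submodule.span K {g v}) :
    ¬ ∃ c : K, gp g φ v h = c • (1 : End K (LinearMap.ker φ)) := by
  rintro ⟨c, hc⟩
  have h1 := K2_gp_c g φ v hv h τ σ e
  rw [hc] at h1
  have hne : aP g φ v hv h ≠ 0 := by
    intro h0
    apply hc0
    have : ((aP g φ v hv h : LinearMap.ker φ) : V) = 0 := by rw [h0]; rfl
    exact sub_eq_zero.mp this
  have hcσ : c = σ := by
    have h2 : (c - σ) • aP g φ v hv h = 0 := by
      rw [sub_smul, sub_eq_zero]; simpa using h1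
    exact sub_eq_zero.mp ((smul_eq_zero.mp h2).resolve_right hne)
  subst hcσ
  apply hw2
  have h3 := gp_coe g φ v h ⟨w, hw⟩
  rw [hc] at h3
  simp only [LinearMap.smul_apply, Module.End.one_apply, Submodule.coe_smul] at h3
  rw [Submodule.mem_span_singleton]
  refine ⟨φ (g w), ?_⟩
  simp only [LinearMap.sub_apply, LinearMap.smul_apply, Module.End.one_apply]
  rw [h3]; abel

lemma K2_nonnil (hv : φ v = 1) (h : φ (g v) = 1) (τ σ : K) (e : g (g v) = τ • g v - σ • v)
    (hc0 : g v ≠ v) (hσ : σ ≠ 1) : ¬ IsNilpotent (gp g φ v h - 1) := by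
  rintro ⟨N, hN⟩
  have h1 := K2_gp_c g φ v hv h τ σ e
  have hne : aP g φ v hv h ≠ 0 := by
    intro h0
    apply hc0
    have : ((aP g φ v hv h : LinearMap.ker φ) : V) = 0 := by rw [h0]; rfl
    exact sub_eq_zero.mp this
  have h2 : ∀ k : ℕ, ((gp g φ v h - 1) ^ k) (aP g φ v hv h) = (σ - 1) ^ k • aP g φ v hv h := by
    intro k
    induction k with
    | zero => simp
    | succ k ih =>
      rw [pow_succ, Module.End.mul_apply]
      have : (gp g φ v h - 1) (aP g φ v hv h) = (σ - 1) • aP g φ v hv h := by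
        simp [h1, sub_smul]
      rw [this, map_smul, ih, smul_smul, pow_succ, mul_comm]
  have h3 := h2 N
  rw [hN] at h3
  simp only [LinearMap.zero_apply] at h3
  have h4 := (smul_eq_zero.mp h3.symm).resolve_right hne
  exact sub_ne_zero.mpr hσ (eq_zero_of_pow_eq_zero h4)

/-- If `σ = 1` and the Schur complement is unipotent, the image of a large power of `g - 1` is
the span of `v` and `g v`. -/
lemma K2_nil_one [FiniteDimensional K V] (hv : φ v = 1) (h : φ (g v) = 1) (τ : K)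
    (e : g (g v) = τ • g v - v) (hnilg : ¬ IsNilpotent (g - 1))
    (hnil : IsNilpotent (gp g φ v h - 1)) :
    (∀ x, ((g - 1) ^ finrank K V) x ∈ Submodule.span K {v, g v}) ∧
      v ∈ LinearMap.range ((g - 1) ^ finrank K V) := by
  set P := Submodule.span K {v, g v} with hP
  have hvP : v ∈ P := Submodule.subset_span (by simp)
  have hgvP : g v ∈ P := Submodule.subset_span (by simp)
  have hinv : ∀ u ∈ P, g u ∈ P := by
    intro u hu
    obtain ⟨α, β, rfl⟩ := Submodule.mem_span_pair.mp hu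
    rw [map_add, map_smul, map_smul, e]
    refine P.add_mem (P.smul_mem _ hgvP) (P.smul_mem _ (P.sub_mem (P.smul_mem _ hgvP) hvP))
  have hinv1 : ∀ u ∈ P, (g - 1) u ∈ P := by
    intro u hu
    simpa using P.sub_mem (hinv u hu) hu
  have hinvk : ∀ k : ℕ, ∀ u ∈ P, ((g - 1) ^ k) u ∈ P := by
    intro k
    induction k with
    | zero => intro u hu; simpa using hu
    | succ k ih =>
      intro u hu
      rw [pow_succ, Module.End.mul_apply]
      exact ih _ (hinv1 u hu)
  have hw : ∀ k : ℕ, ∀ w : LinearMap.ker φ,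
      ((g - 1) ^ k) (w : V) - ((((gp g φ v h - 1) ^ k) w : LinearMap.ker φ) : V) ∈ P := by
    intro k
    induction k with
    | zero => intro w; simp
    | succ k ih =>
      intro w
      rw [pow_succ', pow_succ', Module.End.mul_apply, Module.End.mul_apply]
      set w' := ((gp g φ v h - 1) ^ k) w with hw'
      have h1 : ((g - 1) ^ k) (w : V) = (w' : V) + (((g - 1) ^ k) (w : V) - (w' : V)) := by abel
      rw [h1, map_add]
      have h2 : (g - 1) (w' : V) - (((gp g φ v h - 1) w' : LinearMap.ker φ) : V)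
          = φ (g w') • g v := by
        simp [gp_coe]
      have h3 : (g - 1) (w' : V) + (g - 1) (((g - 1) ^ k) (w : V) - (w' : V))
          - (((gp g φ v h - 1) w' : LinearMap.ker φ) : V)
          = φ (g w') • g v + (g - 1) (((g - 1) ^ k) (w : V) - (w' : V)) := by
        rw [← h2]; abel
      rw [h3]
      exact P.add_mem (P.smul_mem _ hgvP) (hinv1 _ (ih w))
  have hD : (gp g φ v h - 1) ^ finrank K V = 0 := by
    have h1 := pow_finrank_of_nil _ hnil
    exact pow_eq_zero_of_le (Submodule.finrank_le _) h1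
  have hall : ∀ x, ((g - 1) ^ finrank K V) x ∈ P := by
    intro x
    rw [decomp φ v hv x, map_add, map_smul]
    refine P.add_mem (P.smul_mem _ (hinvk _ _ hvP)) ?_
    have := hw (finrank K V) (prj φ v hv x)
    rw [hD] at this
    simpa using this
  refine ⟨hall, ?_⟩
  by_cases hτ : τ = 2
  · exfalso
    apply hnilg
    have h20 : (g - 1) ((g - 1) v) = 0 := by
      simp only [LinearMap.sub_apply, Module.End.one_apply, map_sub, e, hτ]
      simp only [two_smul]
      abel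
    have h21 : (g - 1) ((g - 1) (g v)) = 0 := by
      have : (g - 1) ((g - 1) (g v)) = g ((g - 1) ((g - 1) v)) := by
        simp only [LinearMap.sub_apply, Module.End.one_apply, map_sub]
      rw [this, h20, map_zero]
    refine ⟨2 + finrank K V, ?_⟩
    ext x
    rw [pow_add, pow_two, Module.End.mul_apply, Module.End.mul_apply]
    obtain ⟨α, β, hαβ⟩ := Submodule.mem_span_pair.mp (hall x)
    rw [← hαβ, map_add, map_smul, map_smul, map_add, map_smul, map_smul, h20, h21]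
    simp
  · have hτ' : τ - 2 ≠ 0 := sub_ne_zero.mpr hτ
    have hsur : ∀ u ∈ P, ∃ u' ∈ P, (g - 1) u' = u := by
      intro u hu
      refine ⟨(τ - 2)⁻¹ • (g u + (1 - τ) • u), P.smul_mem _ (P.add_mem (hinv u hu)
        (P.smul_mem _ hu)), ?_⟩
      have hq : ∀ u ∈ P, g (g u) = τ • g u - u := by
        intro u hu
        obtain ⟨α, β, rfl⟩ := Submodule.mem_span_pair.mp hu
        have hggg : g (g (g v)) = τ • (τ • g v - v) - g v := by
          rw [e, map_sub, map_smul, e]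
        simp only [map_add, map_smul]
        rw [hggg, e]
        (module)
      rw [map_smul, map_add, map_smul]
      simp only [LinearMap.sub_apply, Module.End.one_apply, hq u hu]
      have : τ • g u - u - g u + (1 - τ) • (g u - u) = (τ - 2) • u := by
        simp only [sub_smul, smul_sub, one_smul, two_smul]
        abel
      rw [this, smul_smul, inv_mul_cancel₀ hτ', one_smul]
    have hsurk : ∀ k : ℕ, ∀ u ∈ P, ∃ u' ∈ P, ((g - 1) ^ k) u' = u := by
      intro k
      induction k with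
      | zero => intro u hu; exact ⟨u, hu, by simp⟩
      | succ k ih =>
        intro u hu
        obtain ⟨u₁, hu₁, h1⟩ := hsur u hu
        obtain ⟨u₂, hu₂, h2⟩ := ih u₁ hu₁
        exact ⟨u₂, hu₂, by rw [pow_succ', Module.End.mul_apply, h2, h1]⟩
    obtain ⟨u', -, hu'⟩ := hsurk (finrank K V) v hvP
    exact ⟨u', hu'⟩

end Comp

end Cfsg.Agent.Lib.KS2.RegU
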