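import Cfsg.Agent.Lib.KS2.RegU2

/-!
Products of two regular unipotent maps, part 3: the inductive step and the main recursion.
-/

set_option autoImplicit false
set_option linter.unusedSectionVars false
set_option linter.unusedVariables false

namespace Cfsg.Agent.Lib.KS2.RegU

open Module

universe u v
variable {K : Type u} [Field K] {V : Type v} [AddCommGroup V] [Module K V]

lemma avoid_two (hK : Big K) (P : Submodule K V) (z₁ z₂ : V) :
    ∃ ψ : Dual K V, (∀ u ∈ P, ψ u = 0) ∧ (z₁ ∉ P → ψ z₁ ≠ 0) ∧ (z₂ ∉ P → ψ z₂ ≠ 0) ∧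
      (P ≠ ⊤ → ψ ≠ 0) := by
  classical
  by_cases hP : P = ⊤
  · exact ⟨0, by simp, by simp [hP], by simp [hP], fun h => absurd hP h⟩
  obtain ⟨x, hx⟩ := exists_notMem hP
  obtain ⟨y₁, hy₁, hy₁'⟩ : ∃ y, y ∉ P ∧ (z₁ ∉ P → y = z₁) := by
    by_cases h : z₁ ∈ P
    · exact ⟨x, hx, fun h' => absurd h h'⟩
    · exact ⟨z₁, h, fun _ => rfl⟩
  obtain ⟨y₂, hy₂, hy₂'⟩ : ∃ y, y ∉ P ∧ (z₂ ∉ P → y = z₂) := by
    by_cases h : z₂ ∈ P
    · exact ⟨x, hx, fun h' => absurd h h'⟩
    · exact ⟨z₂, h, fun _ => rfl⟩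
  obtain ⟨f₁, hf₁, hf₁P⟩ := Submodule.exists_le_ker_of_notMem hy₁
  obtain ⟨f₂, hf₂, hf₂P⟩ := Submodule.exists_le_ker_of_notMem hy₂
  obtain ⟨t, h1, h2, -⟩ := hK (-(f₁ y₁) / (f₂ y₁)) (-(f₁ y₂) / (f₂ y₂)) 0
  have hψ1 : (f₁ + t • f₂) y₁ ≠ 0 := by
    by_cases hz : f₂ y₁ = 0
    · simpa [hz] using hf₁
    · intro h0
      apply h1
      simp only [LinearMap.add_apply, LinearMap.smul_apply, smul_eq_mul] at h0
      field_simp
      linear_combination h0
  have hψ2 : (f₁ + t • f₂) y₂ ≠ 0 := by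
    intro h0
    apply h2
    simp only [LinearMap.add_apply, LinearMap.smul_apply, smul_eq_mul] at h0
    field_simp
    linear_combination h0
  refine ⟨f₁ + t • f₂, ?_, ?_, ?_, ?_⟩
  · intro u hu
    have e1 : f₁ u = 0 := hf₁P hu
    have e2 : f₂ u = 0 := hf₂P hu
    simp [e1, e2]
  · intro h; rw [← hy₁' h]; exact hψ1
  · intro h; rw [← hy₂' h]; exact hψ2
  · intro _ h; rw [h] at hψ1; simp at hψ1

lemma pow_eig (g : End K V) (v : V) (μ : K) (h : g v = μ • v) (k : ℕ) :
    ((g - 1) ^ k) v = (μ - 1) ^ k • v := by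
  induction k with
  | zero => simp
  | succ k ih =>
    rw [pow_succ, Module.End.mul_apply]
    have : (g - 1) v = (μ - 1) • v := by simp [h, sub_smul]
    rw [this, map_smul, ih, smul_smul, pow_succ, mul_comm]

lemma finrank_span_pair_lt {v w : V} [FiniteDimensional K V] (h : 3 ≤ finrank K V) :
    Submodule.span K {v, w} ≠ ⊤ := by
  intro htop
  classical
  have h1 : finrank K (Submodule.span K (({v, w} : Finset V) : Set V)) ≤ 2 :=
    (finrank_span_finset_le_card _).trans Finset.card_le_two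
  rw [Finset.coe_insert, Finset.coe_singleton, htop, finrank_top] at h1
  omega

/-- The inductive step: choosing `v` and `φ`. -/
lemma step [FiniteDimensional K V] (hK : Big K) (g : End K V) (hdet : LinearMap.det g = 1)
    (hns : ¬ ∃ c : K, g = c • (1 : End K V)) (hnil : ¬ IsNilpotent (g - 1))
    (hdim : 2 ≤ finrank K V) (a : V) (b : Dual K V) (ha : a ≠ 0) (hb : b ≠ 0) :
    ∃ (v : V) (φ : Dual K V) (hv : φ v = 1) (h : φ (g v) = 1),
      φ a ≠ 0 ∧ b v ≠ 0 ∧ aP g φ v hv h ≠ 0 ∧ bP g φ ≠ 0 ∧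
      (3 ≤ finrank K V → (¬ ∃ c : K, gp g φ v h = c • (1 : End K (LinearMap.ker φ))) ∧
        ¬ IsNilpotent (gp g φ v h - 1)) := by
  classical
  set D := finrank K V with hD
  have hA : LinearMap.ker b ≠ ⊤ := fun h => hb (LinearMap.ker_eq_top.mp h)
  have hB : (Submodule.span K {a}).comap (g - 1) ≠ ⊤ := by
    intro h
    obtain ⟨x, hx⟩ := rank_ge2 g hdet hnil a
    apply hx
    have : x ∈ (Submodule.span K {a}).comap (g - 1) := by rw [h]; trivial
    exact this
  obtain ⟨v, hvA, hvB, hvE, hvI⟩ : ∃ v, v ∉ LinearMap.ker b ∧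
      v ∉ (Submodule.span K {a}).comap (g - 1) ∧ (∀ μ : K, g v ≠ μ • v) ∧
      (LinearMap.range ((g - 1) ^ D) ≠ ⊤ → v ∉ LinearMap.range ((g - 1) ^ D)) := by
    by_cases hI : LinearMap.range ((g - 1) ^ D) = ⊤
    · obtain ⟨v, h1, h2, h3⟩ := exists_noneigen hK hA hB g hns
      exact ⟨v, h1, h2, h3, fun h => absurd hI h⟩
    · have hN : LinearMap.ker ((g - 1) ^ D) ≠ ⊤ := by
        intro h
        apply hnil
        exact ⟨D, LinearMap.ker_eq_top.mp h⟩
      obtain ⟨v, h1, h2, h3, h4⟩ := avoid4 hK hA hB hI hN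
      refine ⟨v, h1, h2, ?_, fun _ => h3⟩
      intro μ hμ
      have hp := pow_eig g v μ hμ D
      by_cases hμ1 : μ = 1
      · apply h4
        rw [LinearMap.mem_ker, hp, hμ1, sub_self, zero_pow (by omega), zero_smul]
      · apply h3
        refine ⟨((μ - 1) ^ D)⁻¹ • v, ?_⟩
        rw [map_smul, hp, smul_smul, inv_mul_cancel₀ (pow_ne_zero _ (sub_ne_zero.mpr hμ1)),
          one_smul]
  have hbv : b v ≠ 0 := hvA
  have hv0 : v ≠ 0 := by rintro rfl; simp at hbv
  set c := g v - v with hc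
  have hgv1 : g v ≠ v := by
    intro h; apply hvE 1; rw [one_smul]; exact h
  have hc0 : c ≠ 0 := sub_ne_zero.mpr hgv1
  have hca : c ∉ Submodule.span K {a} := hvB
  have hvc : v ∉ Submodule.span K {c} := by
    intro hm
    obtain ⟨r, hr⟩ := Submodule.mem_span_singleton.mp hm
    have hr0 : r ≠ 0 := by
      intro h0; rw [h0, zero_smul] at hr; exact hv0 hr.symm
    apply hvE ((1 + r) * r⁻¹)
    have h1 : r • g v = (1 + r) • v := by
      have : r • c = r • g v - r • v := by rw [hc, smul_sub]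
      rw [this] at hr
      calc r • g v = (r • g v - r • v) + r • v := by abel
        _ = v + r • v := by rw [hr]
        _ = (1 + r) • v := by rw [add_smul, one_smul]
    have h2 : ((1 + r) * r⁻¹) • v = r⁻¹ • ((1 + r) • v) := by rw [smul_smul, mul_comm]
    rw [h2, ← h1, smul_smul, inv_mul_cancel₀ hr0, one_smul]
  obtain ⟨φ₀, hφ₀v, hφ₀c⟩ : ∃ φ₀ : Dual K V, φ₀ v = 1 ∧ φ₀ c = 0 := by
    obtain ⟨f, hf, hfc⟩ := Submodule.exists_le_ker_of_notMem hvc
    refine ⟨(f v)⁻¹ • f, by simp [hf], ?_⟩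
    have : f c = 0 := hfc (Submodule.mem_span_singleton_self c)
    simp [this]
  have hφ₀g : φ₀ (g v) = 1 := by
    have : φ₀ c = φ₀ (g v) - φ₀ v := by rw [hc, map_sub]
    rw [hφ₀c, hφ₀v] at this
    exact (sub_eq_zero.mp this.symm)
  set P₂ := Submodule.span K {v, g v} with hP₂
  have hvP : v ∈ P₂ := Submodule.subset_span (by simp)
  have hgvP : g v ∈ P₂ := Submodule.subset_span (by simp)
  -- the key linear choice
  have key : ∀ ψ : Dual K V, (∀ u ∈ P₂, ψ u = 0) → ∀ z, z ∉ Submodule.span K {c} →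
      (z ∉ P₂ → ψ z ≠ 0) → ∃ s₀ : K, ∀ s : K, s ≠ s₀ → (φ₀ + s • ψ) z ≠ 0 := by
    intro ψ hψ z hz hz2
    by_cases hzP : z ∈ P₂
    · refine ⟨0, fun s _ => ?_⟩
      rw [LinearMap.add_apply, LinearMap.smul_apply, hψ z hzP, smul_zero, add_zero]
      obtain ⟨α, β, hαβ⟩ := Submodule.mem_span_pair.mp hzP
      intro h0
      apply hz
      rw [← hαβ, map_add, map_smul, map_smul, hφ₀v, hφ₀g, smul_eq_mul, smul_eq_mul, mul_one,
        mul_one] at h0
      rw [Submodule.mem_span_singleton]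
      refine ⟨β, ?_⟩
      have : α = -β := by linear_combination h0
      rw [← hαβ, this, hc, smul_sub, neg_smul]
      abel
    · have hψz := hz2 hzP
      refine ⟨-(φ₀ z) / ψ z, fun s hs h0 => hs ?_⟩
      simp only [LinearMap.add_apply, LinearMap.smul_apply, smul_eq_mul] at h0
      field_simp
      linear_combination h0
  have haz : a ∉ Submodule.span K {c} := by
    intro hm
    obtain ⟨r, hr⟩ := Submodule.mem_span_singleton.mp hm
    have hr0 : r ≠ 0 := by
      intro h0; rw [h0, zero_smul] at hr; exact ha hr.symm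
    apply hca
    rw [Submodule.mem_span_singleton]
    refine ⟨r⁻¹, ?_⟩
    rw [← hr, smul_smul, inv_mul_cancel₀ hr0, one_smul]
  by_cases hT : g (g v) ∈ P₂
  · -- two dimensional Krylov space
    obtain ⟨σ', τ, hst⟩ := Submodule.mem_span_pair.mp hT
    set σ := -σ' with hσ
    have e : g (g v) = τ • g v - σ • v := by
      rw [← hst, hσ, neg_smul]; abel
    have hginj : Function.Injective g := by
      have hu : IsUnit g := (LinearMap.isUnit_iff_isUnit_det g).2 (by rw [hdet]; exact isUnit_one)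
      exact ((Module.End.isUnit_iff g).1 hu).1
    have hσ0 : σ ≠ 0 := by
      intro h0
      rw [h0, zero_smul, sub_zero] at e
      apply hvE τ
      apply hginj
      rw [e, map_smul]
    obtain ⟨w₁, hw₁⟩ := rank_ge2 g hdet hnil c
    obtain ⟨ψ, hψP, hψa, hψz, hψ0⟩ := avoid_two hK P₂ a ((g - 1) w₁)
    obtain ⟨s_a, hs_a⟩ := key ψ hψP a haz hψa
    obtain ⟨s_F, hs_F⟩ := key ψ hψP ((g - 1) w₁) hw₁ hψz
    have hψv : ψ v = 0 := hψP v hvP
    have hψg : ψ (g v) = 0 := hψP _ hgvP
    have hvW : (g - σ • 1) v ∉ Submodule.span K {g v} := by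
      intro hm
      obtain ⟨r, hr⟩ := Submodule.mem_span_singleton.mp hm
      apply hvE ((1 - r) * σ⁻¹ * 0 + σ * (1 - r)⁻¹ * 0 + r⁻¹ * 0 + (1 - r)⁻¹ * σ)
      simp only [LinearMap.sub_apply, LinearMap.smul_apply, Module.End.one_apply] at hr
      have hr1 : (1 - r) • g v = σ • v := by
        rw [sub_smul, one_smul, hr]; abel
      have hr2 : 1 - r ≠ 0 := by
        intro h0
        rw [h0, zero_smul] at hr1
        exact (smul_ne_zero hσ0 hv0) hr1.symm
      have : g v = (1 - r)⁻¹ • (σ • v) := by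
        rw [← hr1, smul_smul, inv_mul_cancel₀ hr2, one_smul]
      rw [this, smul_smul]
      congr 1
      ring
    obtain ⟨s_S, hs_S⟩ : ∃ s_S : K, ∀ s : K, s ≠ s_S → 3 ≤ D →
        ∃ w, (φ₀ + s • ψ) w = 0 ∧ (g - σ • 1) w ∉ Submodule.span K {g v} := by
      by_cases hD3 : 3 ≤ D
      · have hPne : P₂ ≠ ⊤ := finrank_span_pair_lt hD3
        have hψne := hψ0 hPne
        obtain ⟨x₀, hx₀⟩ : ∃ x₀, ψ x₀ ≠ 0 := by
          by_contra hh
          push Not at hh
          exact hψne (LinearMap.ext hh)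
        by_cases hex : ∃ s₀ : K, ∀ w, (φ₀ + s₀ • ψ) w = 0 → (g - σ • 1) w ∈ Submodule.span K {g v}
        · obtain ⟨s₀, hs₀⟩ := hex
          refine ⟨s₀, fun s hs _ => ?_⟩
          by_contra hcon
          push Not at hcon
          have hφv : ∀ t : K, (φ₀ + t • ψ) v = 1 := by intro t; simp [hφ₀v, hψv]
          have w1 := hs₀ (x₀ - (φ₀ + s₀ • ψ) x₀ • v) (by rw [map_sub, map_smul, hφv]; simp)
          have w2 := hcon (x₀ - (φ₀ + s • ψ) x₀ • v) (by rw [map_sub, map_smul, hφv]; simp)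
          apply hvW
          have h3 := Submodule.sub_mem _ w2 w1
          have h4 : (g - σ • 1) (x₀ - (φ₀ + s • ψ) x₀ • v) - (g - σ • 1) (x₀ - (φ₀ + s₀ • ψ) x₀ • v)
              = (-((s - s₀) * ψ x₀)) • (g - σ • 1) v := by
            simp only [map_sub, map_smul, LinearMap.add_apply, LinearMap.smul_apply, smul_eq_mul]
            (module)
          rw [h4] at h3
          have h5 : -((s - s₀) * ψ x₀) ≠ 0 :=
            neg_ne_zero.mpr (mul_ne_zero (sub_ne_zero.mpr hs) hx₀)
          exact (Submodule.smul_mem_iff _ h5).mp h3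
        · push Not at hex
          refine ⟨0, fun s _ _ => ?_⟩
          exact hex s
      · exact ⟨0, fun _ _ h => absurd h hD3⟩
    obtain ⟨s, h1, h2, h3⟩ := hK s_a s_F s_S
    set φ := φ₀ + s • ψ with hφ
    have hv : φ v = 1 := by simp [hφ, hφ₀v, hψv]
    have h : φ (g v) = 1 := by simp [hφ, hφ₀g, hψg]
    refine ⟨v, φ, hv, h, hs_a s h1, hbv, ?_, ?_, ?_⟩
    · intro h0
      apply hc0
      have : ((aP g φ v hv h : LinearMap.ker φ) : V) = 0 := by rw [h0]; rfl
      exact this
    · intro h0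
      apply hs_F s h2
      have h4 := LinearMap.congr_fun h0 (prj φ v hv w₁)
      rw [bP_apply, prj_coe, map_sub, map_smul, map_sub, map_smul, h] at h4
      simp only [smul_eq_mul, mul_one, LinearMap.zero_apply] at h4
      change φ ((g - 1) w₁) = 0
      rw [LinearMap.sub_apply, Module.End.one_apply, map_sub]
      exact h4
    · intro hD3
      obtain ⟨w, hw, hw2⟩ := hs_S s h3 hD3
      refine ⟨K2_nonscalar g φ v hv h τ σ e hgv1 w hw hw2, ?_⟩
      by_cases hσ1 : σ = 1
      · intro hn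
        have e' : g (g v) = τ • g v - v := by rw [e, hσ1, one_smul]
        obtain ⟨hall, hr⟩ := K2_nil_one g φ v hv h τ e' hnil hn
        by_cases hI : LinearMap.range ((g - 1) ^ D) = ⊤
        · apply finrank_span_pair_lt (K := K) (v := v) (w := g v) hD3
          rw [eq_top_iff]
          intro x _
          have : x ∈ LinearMap.range ((g - 1) ^ D) := by rw [hI]; trivial
          obtain ⟨y, rfl⟩ := this
          exact hall y
        · exact hvI hI hr
      · exact K2_nonnil g φ v hv h τ σ e hgv1 hσ1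
  · -- three dimensional Krylov space
    obtain ⟨ψ, hψP, hψa, hψe, -⟩ := avoid_two hK P₂ a (g (g v))
    obtain ⟨s_a, hs_a⟩ := key ψ hψP a haz hψa
    have hψv : ψ v = 0 := hψP v hvP
    have hψg : ψ (g v) = 0 := hψP _ hgvP
    have hψe' := hψe hT
    set t₀ := LinearMap.trace K V g - ((D - 1 : ℕ) : K) with ht₀
    obtain ⟨s, h1, h2, h3⟩ := hK s_a ((t₀ - φ₀ (g (g v))) / ψ (g (g v)))
      ((1 - φ₀ (g (g v))) / ψ (g (g v)))
    set φ := φ₀ + s • ψ with hφ
    have hv : φ v = 1 := by simp [hφ, hφ₀v, hψv]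
    have h : φ (g v) = 1 := by simp [hφ, hφ₀g, hψg]
    have hφe : φ (g (g v)) = φ₀ (g (g v)) + s * ψ (g (g v)) := by simp [hφ]
    have hφne : φ ≠ 0 := by
      intro h0; rw [h0] at hv; simp at hv
    have hfr : finrank K (LinearMap.ker φ) = D - 1 := by
      have := Module.Dual.finrank_ker_add_one_of_ne_zero hφne
      omega
    refine ⟨v, φ, hv, h, hs_a s h1, hbv, ?_, ?_, ?_⟩
    · intro h0
      apply hc0
      have : ((aP g φ v hv h : LinearMap.ker φ) : V) = 0 := by rw [h0]; rfl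
      exact this
    · intro h0
      have h4 := LinearMap.congr_fun h0 (aP g φ v hv h)
      rw [bP_apply] at h4
      have h5 : ((aP g φ v hv h : LinearMap.ker φ) : V) = g v - v := rfl
      rw [h5, map_sub, map_sub, h, hφe] at h4
      apply h3
      simp only [LinearMap.zero_apply] at h4
      field_simp
      linear_combination h4
    · intro hD3
      refine T_case g φ v hv h hT ?_
      rw [hfr, hφe]
      intro h0
      apply h2
      field_simp
      linear_combination h0

/-- The main recursion: factorisation into a "lower" and an "upper" regular unipotent map. -/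
theorem lu_main (hK : Big K) : ∀ (m : ℕ) (V : Type v) [AddCommGroup V] [Module K V]
    [FiniteDimensional K V], finrank K V = m + 1 → ∀ (g : End K V) (a : V) (b : Dual K V),
    LinearMap.det g = 1 →
    (1 ≤ m → (¬ ∃ c : K, g = c • (1 : End K V)) ∧ ¬ IsNilpotent (g - 1)) → a ≠ 0 → b ≠ 0 →
    ∃ L U : End K V, L * U = g ∧ (L - 1) ^ (m + 1) = 0 ∧ (U - 1) ^ (m + 1) = 0 ∧
      ((L - 1) ^ m) a ≠ 0 ∧ b ∘ₗ ((U - 1) ^ m) ≠ 0 := by
  intro m
  induction m with
  | zero =>
    intro V _ _ _ hV g a b hdet _ ha hb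
    have hg : g = 1 := by
      obtain ⟨x₀, hx₀, hspan⟩ := finrank_eq_one_iff'.mp hV
      obtain ⟨c, hc⟩ := hspan (g x₀)
      have h1 : g = c • (1 : End K V) := by
        ext w
        obtain ⟨r, rfl⟩ := hspan w
        simp only [map_smul, LinearMap.smul_apply, Module.End.one_apply, ← hc]
      have h2 : c = 1 := by
        rw [h1, LinearMap.det_smul, hV] at hdet
        simpa using hdet
      rw [h1, h2, one_smul]
    refine ⟨1, 1, by simp [hg], by simp, by simp, by simpa using ha, ?_⟩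
    intro h0
    apply hb
    ext x
    simpa using LinearMap.congr_fun h0 x
  | succ m ih =>
    intro V _ _ _ hV g a b hdet hcl ha hb
    obtain ⟨hns, hnil⟩ := hcl (by omega)
    obtain ⟨v, φ, hv, h, hφa, hbv, ha', hb', hcl'⟩ :=
      step hK g hdet hns hnil (by omega) a b ha hb
    have hφne : φ ≠ 0 := by
      intro h0; rw [h0] at hv; simp at hv
    have hfr : finrank K (LinearMap.ker φ) = m + 1 := by
      have := Module.Dual.finrank_ker_add_one_of_ne_zero hφne
      omega
    obtain ⟨L', U', hLU, hL', hU', hLa, hUb⟩ := ih (LinearMap.ker φ) hfr (gp g φ v h)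
      (aP g φ v hv h) (bP g φ) (by rw [det_gp g φ v hv h, hdet])
      (fun hm => hcl' (by omega)) ha' hb'
    refine ⟨glue φ v hv L' (aP g φ v hv h), glueU φ v hv U' (bP g φ),
      glue_mul_glueU g φ v hv h L' U' hLU, glue_nil φ v hv _ _ _ hL', glueU_nil φ v hv _ _ _ hU', ?_,
      ?_⟩
    · rw [glue_cyc φ v hv L' _ m hL' a]
      refine smul_ne_zero hφa ?_
      intro h0
      exact hLa (Subtype.ext h0)
    · intro h0
      apply hUb
      ext w
      have h1 := LinearMap.congr_fun h0 (w : V)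
      rw [LinearMap.comp_apply, glueU_pow_w, hU'] at h1
      simp only [LinearMap.zero_apply, ZeroMemClass.coe_zero, zero_add, map_smul, smul_eq_mul,
        mul_eq_zero, hbv, or_false] at h1
      simpa using h1

end Cfsg.Agent.Lib.KS2.RegU
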