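import Cfsg.Agent.Lib.KS2.RegU3

/-!
Products of two regular unipotent maps, part 4: the unipotent case, conjugacy to the Jordan block.
-/

set_option autoImplicit false
set_option linter.unusedSectionVars false
set_option linter.unusedVariables false

namespace Cfsg.Agent.Lib.KS2.RegU

open Module

universe u v
variable {K : Type u} [Field K] {V : Type v} [AddCommGroup V] [Module K V]

theorem uni_main (hK : Big K) : ∀ (m : ℕ) (V : Type v) [AddCommGroup V] [Module K V]
    [FiniteDimensional K V], finrank K V = m + 1 → ∀ g : End K V, IsNilpotent (g - 1) →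
    ∃ X Y : End K V, X * Y = g ∧ (X - 1) ^ (m + 1) = 0 ∧ (Y - 1) ^ (m + 1) = 0 ∧
      (X - 1) ^ m ≠ 0 ∧ (Y - 1) ^ m ≠ 0 := by
  intro m
  induction m with
  | zero =>
    intro V _ _ _ hV g hg
    have h1 := pow_finrank_of_nil _ hg
    rw [hV, pow_one, sub_eq_zero] at h1
    have hnt : Nontrivial V := Module.nontrivial_of_finrank_pos (R := K) (by omega)
    have h10 : (1 : End K V) ≠ 0 := one_ne_zero
    refine ⟨1, 1, by simp [h1], by simp, by simp, by simpa using h10, by simpa using h10⟩
  | succ m ih =>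
    intro V _ _ _ hV g hg
    have hnt : Nontrivial V := Module.nontrivial_of_finrank_pos (R := K) (by omega)
    have hrange : LinearMap.range (g - 1) ≠ ⊤ := by
      intro htop
      have hsur : Function.Surjective ⇑(g - 1) := LinearMap.range_eq_top.mp htop
      obtain ⟨N, hN⟩ := hg
      have hs : Function.Surjective ⇑((g - 1) ^ N) := by
        rw [Module.End.coe_pow]
        exact hsur.iterate N
      rw [hN] at hs
      obtain ⟨x, hx⟩ := exists_ne (0 : V)
      obtain ⟨y, hy⟩ := hs x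
      exact hx (by simpa using hy.symm)
    obtain ⟨φ₀, hφ₀, hle⟩ := Submodule.exists_le_ker_of_lt_top _ (lt_top_iff_ne_top.mpr hrange)
    obtain ⟨z₀, hz₀⟩ : ∃ z, φ₀ z ≠ 0 := by
      by_contra hh
      push Not at hh
      exact hφ₀ (LinearMap.ext hh)
    set z := (φ₀ z₀)⁻¹ • z₀ with hz
    have hφz : φ₀ z = 1 := by simp [hz, hz₀]
    have hφg : ∀ x, φ₀ (g x) = φ₀ x := by
      intro x
      have h1 : (g - 1) x ∈ LinearMap.ker φ₀ := hle (LinearMap.mem_range_self _ x)
      have h2 : φ₀ ((g - 1) x) = 0 := h1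
      simp only [LinearMap.sub_apply, Module.End.one_apply, map_sub] at h2
      exact sub_eq_zero.mp h2
    have hgz : φ₀ (g z) = 1 := by rw [hφg, hφz]
    have hfr : finrank K (LinearMap.ker φ₀) = m + 1 := by
      have := Module.Dual.finrank_ker_add_one_of_ne_zero hφ₀
      omega
    have hgp : ∀ w : LinearMap.ker φ₀, ((gp g φ₀ z hgz w : LinearMap.ker φ₀) : V) = g w := by
      intro w
      have hw : φ₀ (w : V) = 0 := w.2
      rw [gp_coe, hφg, hw]; simp
    have hpow : ∀ k : ℕ, ∀ w : LinearMap.ker φ₀,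
        ((((gp g φ₀ z hgz - 1) ^ k) w : LinearMap.ker φ₀) : V) = ((g - 1) ^ k) (w : V) := by
      intro k
      induction k with
      | zero => intro w; simp
      | succ k ihk =>
        intro w
        rw [pow_succ, pow_succ, Module.End.mul_apply, Module.End.mul_apply, ihk]
        congr 1
        simp [hgp]
    have hnil' : IsNilpotent (gp g φ₀ z hgz - 1) := by
      obtain ⟨N, hN⟩ := hg
      refine ⟨N, ?_⟩
      ext w
      rw [hpow, hN]; simp
    obtain ⟨X', Y', hXY, hX0, hY0, hX1, hY1⟩ := ih (LinearMap.ker φ₀) hfr _ hnil'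
    set ζ := aP g φ₀ z hφz hgz with hζ
    obtain ⟨x, hx⟩ : ∃ x, ((Y' - 1) ^ m) x ≠ 0 := by
      by_contra hh
      push Not at hh
      exact hY1 (LinearMap.ext hh)
    obtain ⟨y, hy⟩ : ∃ y, ((X' - 1) ^ m) y ≠ 0 := by
      by_contra hh
      push Not at hh
      exact hX1 (LinearMap.ext hh)
    obtain ⟨η, hη1, hη2⟩ : ∃ η, ((Y' - 1) ^ m) η ≠ 0 ∧ ((X' - 1) ^ m) η ≠ ((X' - 1) ^ m) ζ := by
      by_cases hc : ((X' - 1) ^ m) x = ((X' - 1) ^ m) ζ
      · have hxk : x ∉ LinearMap.ker ((Y' - 1) ^ m) := hx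
        obtain ⟨s₀, hs₀⟩ := one_bad (LinearMap.ker ((Y' - 1) ^ m)) x y (Or.inr hxk)
        obtain ⟨s, h1, h2, -⟩ := hK 0 s₀ 0
        refine ⟨x + s • y, hs₀ s h2, ?_⟩
        rw [map_add, map_smul, hc]
        intro h0
        have : s • ((X' - 1) ^ m) y = 0 := by simpa using h0
        exact (smul_ne_zero h1 hy) this
      · exact ⟨x, hx, hc⟩
    set ξ := ζ - X' η with hξ
    refine ⟨glue φ₀ z hφz X' ξ, glue φ₀ z hφz Y' η, ?_, glue_nil _ _ _ _ _ _ hX0,
      glue_nil _ _ _ _ _ _ hY0, ?_, ?_⟩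
    · apply ext_hyper φ₀ z hφz
      · rw [Module.End.mul_apply, glue_v, map_add, glue_v, glue_w]
        have e1 : ((ξ : LinearMap.ker φ₀) : V) = (g z - z) - ((X' η : LinearMap.ker φ₀) : V) := rfl
        rw [e1]; abel
      · intro w
        rw [Module.End.mul_apply, glue_w, glue_w, ← hgp]
        rw [← hXY]; rfl
    · intro h0
      have h1 := LinearMap.congr_fun h0 z
      rw [glue_cyc φ₀ z hφz X' ξ m hX0 z, hφz, one_smul] at h1
      apply hη2
      have h2 : ((X' - 1) ^ m) ξ = 0 := Subtype.ext (by simpa using h1)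
      rw [hξ, map_sub, sub_eq_zero] at h2
      have h3 : ((X' - 1) ^ m) (X' η) = ((X' - 1) ^ m) η := by
        have h4 : X' η = (X' - 1) η + η := by simp
        rw [h4, map_add]
        have h5 : ((X' - 1) ^ m) ((X' - 1) η) = 0 := by
          rw [← Module.End.mul_apply, ← pow_succ, hX0]; rfl
        rw [h5, zero_add]
      rw [← h3, h2]
    · intro h0
      have h1 := LinearMap.congr_fun h0 z
      rw [glue_cyc φ₀ z hφz Y' η m hY0 z, hφz, one_smul] at h1
      exact hη1 (Subtype.ext (by simpa using h1))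

section Conj

variable {n : ℕ}

open Matrix

lemma indep_pow (N : Matrix (Fin n) (Fin n) K) (a : Fin n → K) (hn : 0 < n)
    (h0 : (N ^ n) *ᵥ a = 0) (h1 : (N ^ (n - 1)) *ᵥ a ≠ 0) :
    LinearIndependent K (fun i : Fin n => (N ^ (i : ℕ)) *ᵥ a) := by
  rw [Fintype.linearIndependent_iff]
  intro c hc
  have hzero : ∀ k : ℕ, k ≥ n → (N ^ k) *ᵥ a = 0 := by
    intro k hk
    obtain ⟨d, rfl⟩ := Nat.exists_eq_add_of_le hk
    rw [add_comm, pow_add, ← Matrix.mulVec_mulVec, h0, Matrix.mulVec_zero]
  have key : ∀ k : ℕ, ∀ i : Fin n, (i : ℕ) = k → c i = 0 := by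
    intro k
    induction k using Nat.strong_induction_on with
    | _ k ih =>
      intro i hi
      have h2 := congrArg (fun w => (N ^ (n - 1 - k)) *ᵥ w) hc
      simp only [Matrix.mulVec_zero, Matrix.mulVec_sum, Matrix.mulVec_smul,
        Matrix.mulVec_mulVec, ← pow_add] at h2
      rw [Finset.sum_eq_single i] at h2
      · rw [hi] at h2
        have hexp : n - 1 - k + k = n - 1 := by
          have : (i : ℕ) < n := i.2
          omega
        rw [hexp] at h2
        exact (smul_eq_zero.mp h2).resolve_right h1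
      · intro j _ hj
        by_cases hlt : (j : ℕ) < k
        · rw [ih _ hlt j rfl, zero_smul]
        · have hgt : (j : ℕ) > k := by
            have : (j : ℕ) ≠ k := fun h => hj (Fin.ext (h.trans hi.symm))
            omega
          have hge : n - 1 - k + (j : ℕ) ≥ n := by
            have : (i : ℕ) < n := i.2
            omega
          rw [hzero _ hge, smul_zero]
      · intro h; exact absurd (Finset.mem_univ i) h
  intro i
  exact key i i rfl

/-- A regular unipotent matrix is conjugate to the Jordan block. -/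
theorem conj_J (J M : Matrix (Fin n) (Fin n) K)
    (hJ : ∀ i j : Fin n, J i j = if i = j then 1 else if j.val = i.val + 1 then 1 else 0)
    (hn : 0 < n) (h0 : (M - 1) ^ n = 0) (h1 : (M - 1) ^ (n - 1) ≠ 0) :
    ∃ x y : Matrix (Fin n) (Fin n) K, x * y = 1 ∧ y * x = 1 ∧ M = x * J * y := by
  set N := M - 1 with hN
  obtain ⟨a, ha⟩ : ∃ a, (N ^ (n - 1)) *ᵥ a ≠ 0 := by
    by_contra hh
    push Not at hh
    apply h1
    apply Matrix.mulVec_injective
    funext a
    rw [hh a, Matrix.zero_mulVec]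
  have ha0 : (N ^ n) *ᵥ a = 0 := by rw [h0, Matrix.zero_mulVec]
  -- the columns
  set f : Fin n → (Fin n → K) := fun j => (N ^ (n - 1 - (j : ℕ))) *ᵥ a with hf
  have hind : LinearIndependent K f := by
    have h2 := indep_pow N a hn ha0 ha
    have h3 := h2.comp (Fin.rev) Fin.rev_injective
    have h4 : (fun i : Fin n => (N ^ (i : ℕ)) *ᵥ a) ∘ Fin.rev = f := by
      funext j
      simp only [Function.comp, hf, Fin.val_rev]
      congr 2
      have : (j : ℕ) < n := j.2
      omega
    rwa [h4] at h3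
  set P : Matrix (Fin n) (Fin n) K := Matrix.of fun i j => f j i with hP
  have hPu : IsUnit P := by
    apply Matrix.linearIndependent_cols_iff_isUnit.mp
    have : P.col = f := by
      funext j i
      simp [hP, Matrix.col]
    rw [this]
    exact hind
  have hMP : M * P = P * J := by
    have hM : M = 1 + N := by simp [hN]
    ext i j
    rw [hM, add_mul, one_mul, Matrix.add_apply]
    have hNP : (N * P) i j = (N *ᵥ f j) i := by
      simp [Matrix.mul_apply, Matrix.mulVec, dotProduct, hP]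
    rw [hNP, Matrix.mul_apply]
    have hJsplit : ∀ k : Fin n, P i k * J k j
        = P i k * (if k = j then 1 else 0) + P i k * (if j.val = k.val + 1 then 1 else 0) := by
      intro k
      rw [hJ k j]
      by_cases hkj : k = j
      · subst hkj; simp
      · simp [hkj]
    rw [Finset.sum_congr rfl (fun k _ => hJsplit k), Finset.sum_add_distrib]
    simp only [mul_ite, mul_one, mul_zero, Finset.sum_ite_eq', Finset.mem_univ, if_true]
    congr 1
    by_cases hj0 : (j : ℕ) = 0
    · have h3 : N *ᵥ f j = 0 := by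
        simp only [hf]
        rw [Matrix.mulVec_mulVec, ← pow_succ']
        have : n - 1 - (j : ℕ) + 1 = n := by omega
        rw [this, ha0]
      rw [h3]
      simp only [Pi.zero_apply]
      symm
      apply Finset.sum_eq_zero
      intro k _
      rw [if_neg (by omega)]
    · have hj1 : (j : ℕ) - 1 < n := by have := j.2; omega
      rw [Finset.sum_eq_single (⟨(j : ℕ) - 1, hj1⟩ : Fin n)]
      · rw [if_pos (by simp; omega)]
        simp only [hP, Matrix.of_apply, hf]
        rw [Matrix.mulVec_mulVec, ← pow_succ']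
        have hexp : n - 1 - (j : ℕ) + 1 = n - 1 - ((j : ℕ) - 1) := by
          have := j.2
          omega
        rw [hexp]
      · intro k _ hk
        rw [if_neg]
        intro h5
        apply hk
        apply Fin.ext
        change (k : ℕ) = (j : ℕ) - 1
        omega
      · intro h; exact absurd (Finset.mem_univ _) h
  obtain ⟨u, hu⟩ := hPu
  refine ⟨(u : Matrix (Fin n) (Fin n) K), ((u⁻¹ : (Matrix (Fin n) (Fin n) K)ˣ) : Matrix (Fin n) (Fin n) K),
    u.mul_inv, u.inv_mul, ?_⟩
  rw [hu, ← hMP, Matrix.mul_assoc, ← hu, u.mul_inv, Matrix.mul_one]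

end Conj

lemma big_of_card (h : 4 ≤ Cardinal.mk K) : Big K := by
  classical
  intro x₁ x₂ x₃
  by_contra hcon
  push Not at hcon
  have hsub : (Set.univ : Set K) ⊆ (({x₁, x₂, x₃} : Finset K) : Set K) := by
    intro y _
    by_cases h1 : y = x₁
    · simp [h1]
    by_cases h2 : y = x₂
    · simp [h2]
    have := hcon y h1 h2
    simp [this]
  have h1 := Cardinal.mk_le_mk_of_subset hsub
  rw [Cardinal.mk_univ, Finset.coe_sort_coe, Cardinal.mk_coe_finset] at h1
  have h2 : (({x₁, x₂, x₃} : Finset K).card : Cardinal) ≤ 3 := by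
    exact_mod_cast Finset.card_le_three
  have h3 := h.trans (h1.trans h2)
  have h4 : ((4 : ℕ) : Cardinal.{u}) ≤ ((3 : ℕ) : Cardinal.{u}) := by exact_mod_cast h3
  have h5 : (4 : ℕ) ≤ 3 := by exact_mod_cast h4
  omega

/-- Every non-scalar matrix of determinant one is a product of two regular unipotent matrices. -/
theorem two_reg {n : ℕ} (hK : Big K) (hn : 2 ≤ n) (G : Matrix (Fin n) (Fin n) K)
    (hns : ¬ ∃ c : K, G = c • (1 : Matrix (Fin n) (Fin n) K)) (hdet : G.det = 1) :
    ∃ A B : Matrix (Fin n) (Fin n) K, G = A * B ∧ (A - 1) ^ n = 0 ∧ (B - 1) ^ n = 0 ∧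
      (A - 1) ^ (n - 1) ≠ 0 ∧ (B - 1) ^ (n - 1) ≠ 0 := by
  obtain ⟨m, rfl⟩ : ∃ m, n = m + 1 := ⟨n - 1, by omega⟩
  set Φ := Matrix.toLinAlgEquiv' (R := K) (n := Fin (m + 1)) with hΦ
  set g : End K (Fin (m + 1) → K) := Φ G with hg
  have hfr : finrank K (Fin (m + 1) → K) = m + 1 := by simp
  have back : ∀ (L U : End K (Fin (m + 1) → K)), L * U = g → (L - 1) ^ (m + 1) = 0 →
      (U - 1) ^ (m + 1) = 0 → (L - 1) ^ m ≠ 0 → (U - 1) ^ m ≠ 0 →
      ∃ A B : Matrix (Fin (m + 1)) (Fin (m + 1)) K, G = A * B ∧ (A - 1) ^ (m + 1) = 0 ∧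
        (B - 1) ^ (m + 1) = 0 ∧ (A - 1) ^ (m + 1 - 1) ≠ 0 ∧ (B - 1) ^ (m + 1 - 1) ≠ 0 := by
    intro L U hLU hL hU hL1 hU1
    have hconv : ∀ (T : End K (Fin (m + 1) → K)) (k : ℕ), (Φ.symm T - 1) ^ k = Φ.symm ((T - 1) ^ k) := by
      intro T k
      rw [map_pow, map_sub, map_one]
    refine ⟨Φ.symm L, Φ.symm U, ?_, ?_, ?_, ?_, ?_⟩
    · rw [← map_mul, hLU, hg]; simp
    · rw [hconv, hL, map_zero]
    · rw [hconv, hU, map_zero]
    · simp only [Nat.add_sub_cancel]
      rw [hconv]
      intro h0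
      exact hL1 (Φ.symm.injective (h0.trans (map_zero _).symm))
    · simp only [Nat.add_sub_cancel]
      rw [hconv]
      intro h0
      exact hU1 (Φ.symm.injective (h0.trans (map_zero _).symm))
  by_cases hnil : IsNilpotent (g - 1)
  · obtain ⟨X, Y, h1, h2, h3, h4, h5⟩ := uni_main hK m (Fin (m + 1) → K) hfr g hnil
    exact back X Y h1 h2 h3 h4 h5
  · have hgdet : LinearMap.det g = 1 := by
      have : g = Matrix.toLin' G := rfl
      rw [this, LinearMap.det_toLin', hdet]
    have hgns : ¬ ∃ c : K, g = c • (1 : End K (Fin (m + 1) → K)) := by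
      rintro ⟨c, hc⟩
      apply hns
      refine ⟨c, Φ.injective ?_⟩
      rw [map_smul, map_one]
      exact hc
    set a : Fin (m + 1) → K := Pi.single 0 1 with ha
    set b : Dual K (Fin (m + 1) → K) := LinearMap.proj 0 with hb
    have hba : b a = 1 := by simp [ha, hb]
    have ha0 : a ≠ 0 := by
      intro h0; rw [h0] at hba; simp at hba
    have hb0 : b ≠ 0 := by
      intro h0; rw [h0] at hba; simp at hba
    obtain ⟨L, U, h1, h2, h3, h4, h5⟩ := lu_main hK m (Fin (m + 1) → K) hfr g a b hgdet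
      (fun _ => ⟨hgns, hnil⟩) ha0 hb0
    refine back L U h1 h2 h3 ?_ ?_
    · intro h0; apply h4; rw [h0]; rfl
    · intro h0; apply h5; rw [h0]; ext x; simp

end Cfsg.Agent.Lib.KS2.RegU
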