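import Mathlib
import Cfsg.Agent.Lib.KS2.GLType

/-!
# Determinants on products and on cyclic modules
-/

set_option autoImplicit false
set_option linter.unusedSimpArgs false
set_option linter.unusedVariables false
set_option linter.deprecated false

universe u

namespace Cfsg.Agent.Lib.KS2.SLCl

open Polynomial Module Cfsg.Agent.Lib.KS2.GLCount Cfsg.Agent.Lib.KS2.GLType Cfsg.Agent.Lib.KS2.SSConj

variable {F : Type u} [Field F]

/-- The map acting componentwise. -/
def piM {ι : Type u} {Q : ι → Type u} [∀ j, AddCommGroup (Q j)] [∀ j, Module F (Q j)]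
    (Y : ∀ j, Q j →ₗ[F] Q j) : (∀ j, Q j) →ₗ[F] (∀ j, Q j) where
  toFun z j := Y j (z j)
  map_add' a b := by funext j; simp
  map_smul' c a := by funext j; simp

/-- Splitting off the component `none`. -/
def piOptE {ι : Type u} (Q : Option ι → Type u) [∀ j, AddCommGroup (Q j)] [∀ j, Module F (Q j)] :
    (∀ j, Q j) ≃ₗ[F] (Q none × ∀ j : ι, Q (some j)) :=
  { Equiv.piOptionEquivProd with
    map_add' := fun _ _ => rfl
    map_smul' := fun _ _ => rfl }

theorem det_piM_aux : ∀ (ι : Type u) [Fintype ι] (Q : ι → Type u) [∀ j, AddCommGroup (Q j)] [∀ j, Module F (Q j)]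
    [∀ j, FiniteDimensional F (Q j)] (Y : ∀ j, Q j →ₗ[F] Q j),
    LinearMap.det (piM Y) = ∏ j, LinearMap.det (Y j) := by
  intro ι inst
  refine Fintype.induction_empty_option (P := fun (ι : Type u) (inst : Fintype ι) =>
    ∀ (Q : ι → Type u) [∀ j, AddCommGroup (Q j)] [∀ j, Module F (Q j)]
    [∀ j, FiniteDimensional F (Q j)] (Y : ∀ j, Q j →ₗ[F] Q j),
    LinearMap.det (piM Y) = ∏ j, LinearMap.det (Y j)) ?_ ?_ ?_ ι
  · intro α β _ e ih Q _ _ _ Y
    letI : Fintype α := Fintype.ofEquiv β e.symm
    have h1 := ih (fun a => Q (e a)) (fun a => Y (e a))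
    let E : (∀ a, Q (e a)) ≃ₗ[F] (∀ b, Q b) := LinearEquiv.piCongrLeft F Q e
    have h2 : piM Y = E.toLinearMap ∘ₗ piM (fun a => Y (e a)) ∘ₗ E.symm.toLinearMap := by
      refine LinearMap.ext fun z => ?_
      obtain ⟨w, rfl⟩ := E.surjective z
      simp only [LinearMap.comp_apply, LinearEquiv.coe_coe, LinearEquiv.symm_apply_apply]
      funext b
      obtain ⟨a, rfl⟩ := e.surjective b
      show Y (e a) (E w (e a)) = E (piM (fun a => Y (e a)) w) (e a)
      have h3 : ∀ w' : ∀ a, Q (e a), E w' (e a) = w' a := fun w' =>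
        Equiv.piCongrLeft'_symm_apply_apply Q e.symm w' a
      rw [h3, h3]
      rfl
    rw [h2, LinearMap.det_conj, h1]
    exact Fintype.prod_equiv e _ _ (fun a => rfl)
  · intro Q _ _ _ Y
    have : Subsingleton (∀ j, Q j) := ⟨fun a b => funext fun j => j.elim⟩
    rw [LinearMap.det_eq_one_of_subsingleton]
    simp
  · intro α _ ih Q _ _ _ Y
    have h1 := ih (fun a => Q (some a)) (fun a => Y (some a))
    let E := piOptE (F := F) Q
    have h2 : (E.toLinearMap ∘ₗ piM Y ∘ₗ E.symm.toLinearMap) = (Y none).prodMap (piM (fun a => Y (some a))) := by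
      refine LinearMap.ext fun z => ?_
      obtain ⟨w, rfl⟩ := E.surjective z
      simp only [LinearMap.comp_apply, LinearEquiv.coe_coe, LinearEquiv.symm_apply_apply]
      rfl
    have h3 := LinearMap.det_conj (piM Y) E
    rw [h2, LinearMap.det_prodMap, h1] at h3
    rw [← h3, Fintype.prod_option]

theorem det_piM {ι : Type u} [Fintype ι] {Q : ι → Type u} [∀ j, AddCommGroup (Q j)] [∀ j, Module F (Q j)]
    [∀ j, FiniteDimensional F (Q j)] (Y : ∀ j, Q j →ₗ[F] Q j) :
    LinearMap.det (piM Y) = ∏ j, LinearMap.det (Y j) :=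
  det_piM_aux ι Q Y

section Res

variable {ι : Type*} [Fintype ι] [DecidableEq ι]

/-- The determinant of a polynomial in a matrix over a splitting field. -/
lemma det_aeval_multiset {K : Type*} [Field K] (M : Matrix ι ι K) (s : Multiset K) :
    (aeval M (s.map (fun r => X - C r)).prod).det =
      (s.map (fun r => (-1) ^ (Fintype.card ι) * eval r M.charpoly)).prod := by
  induction s using Multiset.induction_on with
  | empty => simp
  | cons r s ih =>
    rw [Multiset.map_cons, Multiset.prod_cons, map_mul, Matrix.det_mul, ih, Multiset.map_cons, Multiset.prod_cons]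
    congr 1
    rw [Matrix.eval_charpoly]
    simp only [map_sub, aeval_X, aeval_C]
    have h1 : M - (algebraMap K (Matrix ι ι K)) r = -(Matrix.scalar ι r - M) := by
      rw [Matrix.algebraMap_eq_diagonal]
      simp [Matrix.scalar_apply]
    rw [h1, Matrix.det_neg]

/-- The formula for the determinant of a polynomial in a matrix. -/
lemma det_aeval_formula (M : Matrix ι ι F) (w : F[X]) :
    algebraMap F (AlgebraicClosure F) (aeval M w).det =
      (w.map (algebraMap F (AlgebraicClosure F))).leadingCoeff ^ (Fintype.card ι) *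
        ((w.map (algebraMap F (AlgebraicClosure F))).roots.map
          (fun r => (-1) ^ (Fintype.card ι) * eval r (M.charpoly.map (algebraMap F (AlgebraicClosure F))))).prod := by
  let K := AlgebraicClosure F
  let M' : Matrix ι ι K := (algebraMap F K).mapMatrix M
  have h1 : algebraMap F K (aeval M w).det = (aeval M' (w.map (algebraMap F K))).det := by
    rw [RingHom.map_det]
    congr 1
    have h2 : (algebraMap F K).mapMatrix (aeval M w) = (Algebra.ofId F K).mapMatrix (aeval M w) := rfl
    rw [h2, ← aeval_algHom_apply, aeval_map_algebraMap]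
    rfl
  have hsplit : (w.map (algebraMap F K)).Splits := IsAlgClosed.splits _
  have h3 := hsplit.eq_prod_roots
  rw [h1]
  conv_lhs => rw [h3]
  rw [map_mul, aeval_C, Algebra.algebraMap_eq_smul_one, Matrix.smul_mul, Matrix.one_mul, Matrix.det_smul,
    det_aeval_multiset]
  have h4 : M'.charpoly = M.charpoly.map (algebraMap F K) := by
    rw [← Matrix.charpoly_map]
    rfl
  rw [h4]

/-- The determinant of a polynomial depends only on the characteristic polynomial. -/
lemma det_aeval_pow_mat {ι' : Type*} [Fintype ι'] [DecidableEq ι'] (M₁ : Matrix ι ι F) (M₂ : Matrix ι' ι' F) (j : ℕ)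
    (h : M₁.charpoly = M₂.charpoly ^ j) (w : F[X]) :
    (aeval M₁ w).det = (aeval M₂ w).det ^ j := by
  apply (algebraMap F (AlgebraicClosure F)).injective
  rw [map_pow, det_aeval_formula, det_aeval_formula, h]
  have hN : Fintype.card ι = j * Fintype.card ι' := by
    have h1 := congrArg natDegree h
    rw [natDegree_pow, Matrix.charpoly_natDegree_eq_dim, Matrix.charpoly_natDegree_eq_dim] at h1
    exact h1
  rw [hN, mul_pow, ← pow_mul, mul_comm j, ← Multiset.prod_map_pow]
  congr 2
  refine Multiset.map_congr rfl fun r _ => ?_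
  simp only [Polynomial.map_pow, eval_pow]
  rw [mul_pow, ← pow_mul]

end Res

section LM

variable {V₁ V₂ : Type*} [AddCommGroup V₁] [Module F V₁] [FiniteDimensional F V₁]
  [AddCommGroup V₂] [Module F V₂] [FiniteDimensional F V₂]

lemma det_aeval_toMatrix {n : ℕ} (b : Module.Basis (Fin n) F V₁) (T : Module.End F V₁) (w : F[X]) :
    LinearMap.det (aeval T w) = (aeval (LinearMap.toMatrix b b T) w).det := by
  rw [← LinearMap.det_toMatrix b]
  congr 1
  have h2 : LinearMap.toMatrix b b T = LinearMap.toMatrixAlgEquiv b T := rfl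
  rw [h2, aeval_algEquiv]
  rfl

/-- Linear map version. -/
theorem det_aeval_pow (T₁ : Module.End F V₁) (T₂ : Module.End F V₂) (j : ℕ)
    (h : T₁.charpoly = T₂.charpoly ^ j) (w : F[X]) :
    LinearMap.det (aeval T₁ w) = LinearMap.det (aeval T₂ w) ^ j := by
  classical
  let b₁ := Module.finBasis F V₁
  let b₂ := Module.finBasis F V₂
  rw [det_aeval_toMatrix b₁, det_aeval_toMatrix b₂]
  apply det_aeval_pow_mat
  rw [LinearMap.charpoly_toMatrix, LinearMap.charpoly_toMatrix, h]

end LM

section Qt

/-- Multiplication by a polynomial on a quotient. -/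
noncomputable def mulQ (f w : F[X]) : Module.End F (Qt f) := Algebra.lsmul F F (Qt f) w

lemma mulQ_apply (f w : F[X]) (z : Qt f) : mulQ f w z = w • z := rfl

lemma aeval_mulQ (f w : F[X]) : aeval (mulQ f X) w = mulQ f w := by
  unfold mulQ
  rw [aeval_algHom_apply, aeval_X_left_apply]

lemma cyc_mulQ (f : F[X]) [Fact f.Monic] :
    CycF (mulQ f X) f (Submodule.Quotient.mk (1 : F[X])) := by
  constructor
  · intro r
    rw [aeval_mulQ, mulQ_apply, ← Submodule.Quotient.mk_smul, Submodule.Quotient.mk_eq_zero,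
      Submodule.mem_span_singleton, smul_eq_mul, mul_one]
    constructor
    · rintro ⟨c, hc⟩
      exact ⟨c, by rw [← hc, smul_eq_mul, mul_comm]⟩
    · rintro ⟨c, hc⟩
      exact ⟨c, by rw [hc, smul_eq_mul, mul_comm]⟩
  · intro v
    obtain ⟨r, rfl⟩ := Submodule.Quotient.mk_surjective _ v
    refine ⟨r, ?_⟩
    rw [aeval_mulQ, mulQ_apply, ← Submodule.Quotient.mk_smul, smul_eq_mul, mul_one]

lemma charpoly_mulQ (f : F[X]) [Fact f.Monic] : (mulQ f X).charpoly = f :=
  charpoly_of_cyc (Fact.out) (cyc_mulQ f)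

/-- The sign-corrected constant term. -/
noncomputable def eta (h : F[X]) : F := (-1) ^ h.natDegree * h.coeff 0

lemma det_mulQ (f : F[X]) [Fact f.Monic] : LinearMap.det (mulQ f X) = eta f := by
  rw [LinearMap.det_eq_sign_charpoly_coeff, charpoly_mulQ, finrank_Qt]
  rfl

lemma eta_mul {f g : F[X]} (hf : f.Monic) (hg : g.Monic) : eta (f * g) = eta f * eta g := by
  unfold eta
  rw [hf.natDegree_mul hg, mul_coeff_zero, pow_add]
  ring

lemma eta_one : eta (1 : F[X]) = 1 := by simp [eta]

lemma eta_pow {f : F[X]} (hf : f.Monic) (e : ℕ) : eta (f ^ e) = eta f ^ e := by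
  induction e with
  | zero => simp [eta_one]
  | succ e ih => rw [pow_succ, eta_mul (hf.pow e) hf, ih, pow_succ]

lemma eta_prod {α : Type*} (s : Finset α) (g : α → F[X]) (hg : ∀ a ∈ s, (g a).Monic) :
    eta (∏ a ∈ s, g a) = ∏ a ∈ s, eta (g a) := by
  classical
  induction s using Finset.induction_on with
  | empty => simp [eta_one]
  | insert a s ha ih =>
    rw [Finset.prod_insert ha, Finset.prod_insert ha, eta_mul (hg a (Finset.mem_insert_self _ _))
      (monic_prod_of_monic _ _ fun b hb => hg b (Finset.mem_insert_of_mem hb)),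
      ih fun b hb => hg b (Finset.mem_insert_of_mem hb)]

lemma eta_ne_zero {f : F[X]} (h : f.coeff 0 ≠ 0) : eta f ≠ 0 := by
  unfold eta
  exact mul_ne_zero (pow_ne_zero _ (neg_ne_zero.mpr one_ne_zero)) h

/-- The determinant on the primary piece is a power of a norm, and norms are surjective. -/
theorem exists_det_mulQ [Fintype F] (π : F[X]) (hπ : Irreducible π) (hm : π.Monic) (e : ℕ) (a : F) :
    ∃ w : F[X], LinearMap.det (mulQ (π ^ e) w) = a ^ e := by
  classical
  haveI : Fact (Irreducible π) := ⟨hπ⟩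
  haveI : Fact (π ^ e).Monic := ⟨hm.pow e⟩
  let E := AdjoinRoot π
  haveI : Module.Finite F E := (AdjoinRoot.powerBasis hπ.ne_zero).finite
  haveI : Finite E := Module.finite_of_finite F
  obtain ⟨x, hx⟩ := FiniteField.norm_surjective F E a
  obtain ⟨w, rfl⟩ := AdjoinRoot.mk_surjective x
  refine ⟨w, ?_⟩
  let T₂ : Module.End F E := Algebra.lmul F E (AdjoinRoot.root π)
  have hT₂ : ∀ r : F[X], aeval T₂ r = Algebra.lmul F E (AdjoinRoot.mk π r) := by
    intro r
    show aeval (Algebra.lmul F E (AdjoinRoot.root π)) r = _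
    rw [aeval_algHom_apply, AdjoinRoot.aeval_eq]
  have hcyc : CycF T₂ π (1 : E) := by
    constructor
    · intro r
      rw [hT₂]
      show (AdjoinRoot.mk π r) * 1 = 0 ↔ _
      rw [mul_one, AdjoinRoot.mk_eq_zero]
    · intro v
      obtain ⟨r, rfl⟩ := AdjoinRoot.mk_surjective v
      refine ⟨r, ?_⟩
      rw [hT₂]
      show (AdjoinRoot.mk π r) * 1 = _
      rw [mul_one]
  have hchar : T₂.charpoly = π := charpoly_of_cyc hm hcyc
  have h1 := det_aeval_pow (mulQ (π ^ e) X) T₂ e (by rw [charpoly_mulQ, hchar]) w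
  rw [aeval_mulQ, hT₂] at h1
  rw [h1, ← hx]
  rfl

end Qt

end Cfsg.Agent.Lib.KS2.SLCl
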