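import Mathlib
import Cfsg.Agent.Lib.KS2.SLCl1

/-!
# The tuple of a decomposition: determinant and centralizer
-/

set_option autoImplicit false
set_option linter.unusedSimpArgs false
set_option linter.unusedVariables false
set_option linter.deprecated false

universe u

namespace Cfsg.Agent.Lib.KS2.SLCl

open Polynomial Module Cfsg.Agent.Lib.KS2.GLCount Cfsg.Agent.Lib.KS2.GLType Cfsg.Agent.Lib.KS2.SSConj

variable {F : Type u} [Field F]

/-- The determinant attached to a tuple. -/
noncomputable def dt {n : ℕ} (τ : Fin n → F[X]) : F := ∏ k : Fin n, eta (τ k) ^ ((k : ℕ) + 1)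

section Dec

variable {V : Type u} [AddCommGroup V] [Module F V] [FiniteDimensional F V] {T : V →ₗ[F] V}

/-- The linear equivalence to the product. -/
noncomputable def _root_.Cfsg.Agent.Lib.KS2.GLType.Dec.L (D : Dec T) : V ≃ₗ[F] (∀ i, Qt (D.p i ^ D.e i)) :=
  (AEval'.of T).trans (D.φ.restrictScalars F)

lemma _root_.Cfsg.Agent.Lib.KS2.GLType.Dec.L_T (D : Dec T) (v : V) : D.L (T v) = (X : F[X]) • D.L v := by
  show D.φ (AEval'.of T (T v)) = (X : F[X]) • D.φ (AEval'.of T v)
  rw [← map_smul, AEval'.X_smul_of]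

lemma _root_.Cfsg.Agent.Lib.KS2.GLType.Dec.L_symm_smul (D : Dec T) (z : ∀ i, Qt (D.p i ^ D.e i)) :
    D.L.symm ((X : F[X]) • z) = T (D.L.symm z) := by
  rw [LinearEquiv.symm_apply_eq, D.L_T, LinearEquiv.apply_symm_apply]

lemma _root_.Cfsg.Agent.Lib.KS2.GLType.Dec.fact (D : Dec T) (i : D.ι) : Fact (D.p i ^ D.e i).Monic := ⟨(D.hm i).pow _⟩

/-- The product of the primary pieces determines the determinant. -/
theorem _root_.Cfsg.Agent.Lib.KS2.GLType.Dec.det_eq_prod (D : Dec T) :
    (letI := D.ft; LinearMap.det T = ∏ i, eta (D.p i) ^ D.e i) := by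
  letI := D.ft
  haveI := D.fact
  have h1 : (D.L.toLinearMap ∘ₗ T ∘ₗ D.L.symm.toLinearMap) = piM (fun i => mulQ (D.p i ^ D.e i) X) := by
    refine LinearMap.ext fun z => ?_
    simp only [LinearMap.comp_apply, LinearEquiv.coe_coe]
    rw [D.L_T, LinearEquiv.apply_symm_apply]
    rfl
  have h2 := LinearMap.det_conj T D.L
  rw [h1, det_piM] at h2
  rw [← h2]
  refine Finset.prod_congr rfl fun i _ => ?_
  rw [det_mulQ, eta_pow (D.hm i)]

/-- The determinant is read from the tuple. -/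
theorem _root_.Cfsg.Agent.Lib.KS2.GLType.Dec.dt_eq_prod (D : Dec T) (n : ℕ) (hn : Module.finrank F V = n) :
    (letI := D.ft; dt (D.tup n) = ∏ i, eta (D.p i) ^ D.e i) := by
  classical
  letI := D.ft
  have h1 : ∀ k : Fin n, eta (D.tup n k) = ∏ i ∈ Finset.univ.filter (fun i => D.e i = (k : ℕ) + 1), eta (D.p i) := by
    intro k
    unfold Dec.tup
    exact eta_prod _ _ (fun i _ => D.hm i)
  unfold dt
  simp only [h1, ← Finset.prod_pow, Finset.prod_filter, ite_pow, one_pow]
  rw [Finset.prod_comm]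
  refine Finset.prod_congr rfl fun i _ => ?_
  have hlt : D.e i - 1 < n := by
    have h3 := D.e_le i
    have h4 := D.he i
    omega
  refine (Finset.prod_eq_single (f := fun k : Fin n => if D.e i = (k : ℕ) + 1 then eta (D.p i) ^ ((k : ℕ) + 1) else 1) (s := Finset.univ) (⟨D.e i - 1, hlt⟩ : Fin n) ?_ ?_).trans ?_
  · intro k _ hk
    rw [if_neg]
    intro h
    apply hk
    apply Fin.ext
    simp only
    omega
  · intro h
    exact absurd (Finset.mem_univ _) h
  · have h4 := D.he i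
    have h5 : D.e i = D.e i - 1 + 1 := by omega
    simp only [← h5, if_true]

theorem _root_.Cfsg.Agent.Lib.KS2.GLType.Dec.det_eq (D : Dec T) (n : ℕ) (hn : Module.finrank F V = n) :
    LinearMap.det T = dt (D.tup n) := by
  rw [D.det_eq_prod, D.dt_eq_prod n hn]

lemma mulQ_comm (f w w' : F[X]) (z : Qt f) : mulQ f w (mulQ f w' z) = mulQ f w' (mulQ f w z) := by
  simp only [mulQ_apply]
  rw [smul_smul, smul_smul, mul_comm]

lemma mulQ_one (f : F[X]) : mulQ f 1 = 1 := by
  unfold mulQ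
  exact map_one _

/-- An element of the centralizer with a prescribed determinant. -/
theorem _root_.Cfsg.Agent.Lib.KS2.GLType.Dec.exists_cent [Fintype F] (D : Dec T) (i : D.ι) (a : F) :
    ∃ c : V →ₗ[F] V, (∀ v, c (T v) = T (c v)) ∧ LinearMap.det c = a ^ D.e i := by
  classical
  letI := D.ft
  haveI := D.fact
  obtain ⟨w, hw⟩ := exists_det_mulQ (D.p i) (D.hp i) (D.hm i) (D.e i) a
  let E : (∀ i, Qt (D.p i ^ D.e i)) →ₗ[F] (∀ i, Qt (D.p i ^ D.e i)) :=
    piM (fun j => mulQ (D.p j ^ D.e j) (if j = i then w else 1))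
  refine ⟨D.L.symm.toLinearMap ∘ₗ E ∘ₗ D.L.toLinearMap, ?_, ?_⟩
  · intro v
    simp only [LinearMap.comp_apply, LinearEquiv.coe_coe]
    rw [D.L_T, ← D.L_symm_smul]
    congr 1
    funext j
    exact mulQ_comm _ _ _ _
  · have h := LinearMap.det_conj E D.L.symm
    rw [LinearEquiv.symm_symm] at h
    rw [h, det_piM]
    rw [Finset.prod_eq_single i]
    · rw [if_pos rfl, hw]
    · intro j _ hj
      rw [if_neg hj, mulQ_one, map_one]
    · intro h'
      exact absurd (Finset.mem_univ _) h'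

lemma _root_.Cfsg.Agent.Lib.KS2.GLType.Dec.exists_idx (D : Dec T) (n : ℕ) (k : Fin n) (hk : D.tup n k ≠ 1) : ∃ i, D.e i = (k : ℕ) + 1 := by
  classical
  letI := D.ft
  by_contra hc
  push Not at hc
  apply hk
  unfold Dec.tup
  refine Finset.prod_eq_one fun i hi => ?_
  exact absurd (Finset.mem_filter.mp hi).2 (hc i)

end Dec

section Mat

variable {n : ℕ}

/-- The determinant of a matrix from a decomposition. -/
theorem det_eq_dt (x : Matrix (Fin n) (Fin n) F) (D : Dec (Matrix.toLin' x)) : x.det = dt (D.tup n) := by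
  rw [← LinearMap.det_toLin' x]
  exact D.det_eq n (by simp)

/-- An element of the matrix centralizer. -/
theorem exists_cent_mat [Fintype F] (x : Matrix (Fin n) (Fin n) F) (D : Dec (Matrix.toLin' x)) (k : Fin n)
    (hk : D.tup n k ≠ 1) (a : F) :
    ∃ y : Matrix (Fin n) (Fin n) F, y * x = x * y ∧ y.det = a ^ ((k : ℕ) + 1) := by
  obtain ⟨i, hi⟩ := D.exists_idx n k hk
  obtain ⟨c, hc, hdet⟩ := D.exists_cent i a
  refine ⟨LinearMap.toMatrix' c, ?_, ?_⟩
  · have h1 : c ∘ₗ Matrix.toLin' x = Matrix.toLin' x ∘ₗ c := LinearMap.ext hc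
    have h2 := congrArg LinearMap.toMatrix' h1
    rw [LinearMap.toMatrix'_comp, LinearMap.toMatrix'_comp, LinearMap.toMatrix'_toLin'] at h2
    exact h2
  · rw [LinearMap.det_toMatrix', hdet, hi]

end Mat

end Cfsg.Agent.Lib.KS2.SLCl
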