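import Mathlib
import Cfsg.Agent.Lib.KS2.SLCl2

/-!
# Classes of `SL_n` inside a class of `GL_n`
-/

set_option autoImplicit false
set_option linter.unusedSimpArgs false
set_option linter.unusedVariables false
set_option linter.deprecated false

universe u

namespace Cfsg.Agent.Lib.KS2.SLCl

open Polynomial Module Cfsg.Agent.Lib.KS2.GLCount Cfsg.Agent.Lib.KS2.GLType Cfsg.Agent.Lib.KS2.SSConj

variable {F : Type u} [Field F]

open Classical in
/-- The gcd of the occurring multiplicities. -/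
noncomputable def nu {n : ℕ} (τ : Fin n → F[X]) : ℕ :=
  (Finset.univ.filter (fun k : Fin n => τ k ≠ 1)).gcd (fun k => (k : ℕ) + 1)

lemma dvd_nu_iff {n : ℕ} (τ : Fin n → F[X]) (c : ℕ) : c ∣ nu τ ↔ ∀ k : Fin n, τ k ≠ 1 → c ∣ (k : ℕ) + 1 := by
  classical
  unfold nu
  rw [Finset.dvd_gcd_iff]
  simp only [Finset.mem_filter, Finset.mem_univ, true_and]

lemma gcd_closure {G α : Type*} [CommGroup G] (C : Subgroup G) (s : Finset α) (f : α → ℕ)
    (h : ∀ k ∈ s, ∀ a : G, a ^ f k ∈ C) : ∀ a : G, a ^ (s.gcd f) ∈ C := by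
  classical
  induction s using Finset.induction_on with
  | empty =>
    intro a
    simp
  | insert b s hb ih =>
    intro a
    rw [Finset.gcd_insert]
    have h1 := h b (Finset.mem_insert_self _ _)
    have h2 := ih fun k hk => h k (Finset.mem_insert_of_mem hk)
    show a ^ (Nat.gcd (f b) (s.gcd f)) ∈ C
    have h3 : a ^ (Nat.gcd (f b) (s.gcd f)) = (a ^ f b) ^ (Nat.gcdA (f b) (s.gcd f)) * (a ^ (s.gcd f)) ^ (Nat.gcdB (f b) (s.gcd f)) := by
      rw [← zpow_natCast, Nat.gcd_eq_gcd_ab, zpow_add]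
      simp only [zpow_mul, zpow_natCast]
    rw [h3]
    exact C.mul_mem (C.zpow_mem (h1 a) _) (C.zpow_mem (h2 a) _)

variable {n : ℕ}

local notation "S" => Matrix.SpecialLinearGroup (Fin n) F
local notation "G" => GL (Fin n) F

variable [Fintype F]

/-- Fibers of the map from classes of `SL_n` to classes of `GL_n`. -/
theorem fiber_le (x₀ : S) (C : Subgroup Fˣ)
    (hC : ∀ b ∈ C, ∃ z : G, z * Matrix.SpecialLinearGroup.toGL x₀ = Matrix.SpecialLinearGroup.toGL x₀ * z ∧
      Matrix.GeneralLinearGroup.det z = b) :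
    Nat.card {c : ConjClasses S // ∃ y : S, ConjClasses.mk y = c ∧
      IsConj (Matrix.SpecialLinearGroup.toGL x₀) (Matrix.SpecialLinearGroup.toGL y)} ≤ C.index := by
  classical
  let ι := Matrix.SpecialLinearGroup.toGL (n := Fin n) (R := F)
  let X := {c : ConjClasses S // ∃ y : S, ConjClasses.mk y = c ∧ IsConj (ι x₀) (ι y)}
  let yy : X → S := fun c => c.2.choose
  have hyy : ∀ c : X, ConjClasses.mk (yy c) = c.1 ∧ IsConj (ι x₀) (ι (yy c)) := fun c => c.2.choose_spec
  have hu : ∀ c : X, ∃ u : G, u * ι x₀ * u⁻¹ = ι (yy c) := fun c => isConj_iff.mp (hyy c).2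
  let uu : X → G := fun c => (hu c).choose
  have huu : ∀ c : X, uu c * ι x₀ * (uu c)⁻¹ = ι (yy c) := fun c => (hu c).choose_spec
  let Ψ : X → Fˣ ⧸ C := fun c => QuotientGroup.mk (Matrix.GeneralLinearGroup.det (uu c))
  have hΨ : Function.Injective Ψ := by
    intro c c' h
    have h1 := QuotientGroup.eq.mp h
    obtain ⟨z, hz1, hz2⟩ := hC _ h1
    -- the element of `SL_n`
    let s : G := uu c * z * (uu c')⁻¹
    have hs : Matrix.GeneralLinearGroup.det s = 1 := by
      simp only [s, map_mul, map_inv, hz2]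
      simp
    have hs' : (s : Matrix (Fin n) (Fin n) F).det = 1 := by
      have := congrArg (fun t : Fˣ => (t : F)) hs
      simpa [Matrix.GeneralLinearGroup.det] using this
    let s₀ : S := ⟨s, hs'⟩
    have hs0 : ι s₀ = s := Units.ext rfl
    have h2 : ι (s₀ * yy c' * s₀⁻¹) = ι (yy c) := by
      rw [map_mul, map_mul, map_inv, hs0, ← huu c, ← huu c']
      simp only [s]
      have h3 : z * ι x₀ * z⁻¹ = ι x₀ := by rw [hz1, mul_inv_cancel_right]
      calc uu c * z * (uu c')⁻¹ * (uu c' * ι x₀ * (uu c')⁻¹) * (uu c * z * (uu c')⁻¹)⁻¹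
          = uu c * (z * ι x₀ * z⁻¹) * (uu c)⁻¹ := by group
        _ = _ := by rw [h3]
    have h3 : s₀ * yy c' * s₀⁻¹ = yy c := Matrix.SpecialLinearGroup.toGL_injective h2
    apply Subtype.ext
    rw [← (hyy c).1, ← (hyy c').1]
    apply ConjClasses.mk_eq_mk_iff_isConj.mpr
    exact (isConj_iff.mpr ⟨s₀, h3⟩).symm
  exact Nat.card_le_card_of_injective Ψ hΨ

lemma toLin_inj (x : S) : Function.Injective (Matrix.toLin' (x : Matrix (Fin n) (Fin n) F)) := by
  intro v w hvw
  have h1 : (x : Matrix (Fin n) (Fin n) F).mulVec v = (x : Matrix (Fin n) (Fin n) F).mulVec w := by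
    simpa [Matrix.toLin'_apply] using hvw
  have h2 := congrArg (fun z => ((x⁻¹ : S) : Matrix (Fin n) (Fin n) F).mulVec z) h1
  have h3 : ((x⁻¹ : S) : Matrix (Fin n) (Fin n) F) * (x : Matrix (Fin n) (Fin n) F) = 1 := by
    rw [← Matrix.SpecialLinearGroup.coe_mul]
    simp
  simp only [Matrix.mulVec_mulVec, h3, Matrix.one_mulVec] at h2
  exact h2

/-- Two elements of `SL_n` with the same tuple are conjugate in `GL_n`. -/
lemma isConj_of_tup (x y : S) (Dx : Dec (Matrix.toLin' (x : Matrix (Fin n) (Fin n) F)))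
    (Dy : Dec (Matrix.toLin' (y : Matrix (Fin n) (Fin n) F))) (h : Dx.tup n = Dy.tup n) :
    IsConj (Matrix.SpecialLinearGroup.toGL x) (Matrix.SpecialLinearGroup.toGL y) := by
  have hdim : Module.finrank F (Fin n → F) = n := by simp
  obtain ⟨ψ⟩ := Dx.iso_of_tup Dy n hdim hdim h
  exact conj_of_iso (Matrix.SpecialLinearGroup.toGL x) (Matrix.SpecialLinearGroup.toGL y) ψ

/-- The centralizer determinants of an element with a given decomposition. -/
lemma cent_det (x₀ : S) (D : Dec (Matrix.toLin' (x₀ : Matrix (Fin n) (Fin n) F))) :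
    ∃ C : Subgroup Fˣ, (powMonoidHom (nu (D.tup n)) : Fˣ →* Fˣ).range ≤ C ∧
      ∀ b ∈ C, ∃ z : G, z * Matrix.SpecialLinearGroup.toGL x₀ = Matrix.SpecialLinearGroup.toGL x₀ * z ∧
      Matrix.GeneralLinearGroup.det z = b := by
  classical
  let ι := Matrix.SpecialLinearGroup.toGL (n := Fin n) (R := F)
  let C : Subgroup Fˣ := ((Subgroup.centralizer {ι x₀}).map Matrix.GeneralLinearGroup.det)
  refine ⟨C, ?_, ?_⟩
  · rintro _ ⟨a, rfl⟩
    show a ^ (nu (D.tup n)) ∈ C
    refine gcd_closure C _ _ ?_ a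
    intro k hk b
    have hk' : D.tup n k ≠ 1 := (Finset.mem_filter.mp hk).2
    obtain ⟨y, hy1, hy2⟩ := exists_cent_mat (x₀ : Matrix (Fin n) (Fin n) F) D k hk' (b : F)
    have hdet : y.det ≠ 0 := by
      rw [hy2]
      exact pow_ne_zero _ b.ne_zero
    let z : G := Matrix.GeneralLinearGroup.mkOfDetNeZero y hdet
    refine ⟨z, ?_, ?_⟩
    · show z ∈ Subgroup.centralizer {ι x₀}
      rw [Subgroup.mem_centralizer_iff]
      intro g hg
      rw [Set.mem_singleton_iff] at hg
      subst hg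
      apply Units.ext
      exact hy1.symm
    · apply Units.ext
      show y.det = _
      rw [hy2]
      simp
  · rintro b ⟨z, hz, rfl⟩
    refine ⟨z, ?_, rfl⟩
    have hz : z ∈ Subgroup.centralizer {ι x₀} := hz
    rw [Subgroup.mem_centralizer_iff] at hz
    exact (hz _ (Set.mem_singleton _)).symm

/-- The number of classes in one fiber. -/
theorem fiber_le_gcd (x₀ : S) (D : Dec (Matrix.toLin' (x₀ : Matrix (Fin n) (Fin n) F))) :
    Nat.card {c : ConjClasses S // ∃ y : S, ConjClasses.mk y = c ∧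
      IsConj (Matrix.SpecialLinearGroup.toGL x₀) (Matrix.SpecialLinearGroup.toGL y)} ≤
      Nat.gcd (Fintype.card F - 1) (nu (D.tup n)) := by
  obtain ⟨C, hC1, hC2⟩ := cent_det x₀ D
  refine (fiber_le x₀ C hC2).trans ?_
  have h1 : (powMonoidHom (nu (D.tup n)) : Fˣ →* Fˣ).range.index = Nat.gcd (Fintype.card F - 1) (nu (D.tup n)) := by
    rw [IsCyclic.index_powMonoidHom_range, Nat.card_units, Nat.card_eq_fintype_card]
  rw [← h1]
  apply Nat.le_of_dvd
  · rw [Nat.pos_iff_ne_zero]
    exact Subgroup.index_ne_zero_of_finite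
  · exact Subgroup.index_dvd_of_le hC1

open Classical in
/-- The main inequality. -/
theorem card_classes_le_sum (n : ℕ) :
    Nat.card (ConjClasses (Matrix.SpecialLinearGroup (Fin n) F)) ≤
      ∑ c ∈ (Fintype.card F - 1).divisors, Nat.totient c *
        Nat.card {τ : TT F n n // dt τ.1 = 1 ∧ c ∣ nu τ.1} := by
  haveI := finite_TT (F := F) n n
  letI : Fintype (TT F n n) := Fintype.ofFinite _
  have hq : 1 < Fintype.card F := Fintype.one_lt_card
  let S' := Matrix.SpecialLinearGroup (Fin n) F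
  have hrep : ∀ c : ConjClasses S', ∃ g : S', ConjClasses.mk g = c := fun c => ConjClasses.exists_rep c
  let rep : ConjClasses S' → S' := fun c => (hrep c).choose
  have hrep' : ∀ c, ConjClasses.mk (rep c) = c := fun c => (hrep c).choose_spec
  let dd : ∀ c, Dec (Matrix.toLin' ((rep c : S') : Matrix (Fin n) (Fin n) F)) := fun c => (exists_dec _).some
  have hdim : Module.finrank F (Fin n → F) = n := by simp
  let Φ : ConjClasses S' → TT F n n := fun c =>
    ⟨(dd c).tup n, fun k => ⟨(dd c).tup_monic n k, (dd c).tup_coeff (toLin_inj (rep c)) n k⟩, (dd c).tup_sum n hdim⟩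
  have hdt : ∀ c, dt (Φ c).1 = 1 := by
    intro c
    show dt ((dd c).tup n) = 1
    rw [← det_eq_dt]
    exact (rep c).2
  -- fibres
  let W : TT F n n → ℕ := fun τ => if dt τ.1 = 1 then Nat.gcd (Fintype.card F - 1) (nu τ.1) else 0
  have hfib : ∀ τ : TT F n n, Nat.card {c // Φ c = τ} ≤ W τ := by
    intro τ
    by_cases hne : ∃ c₀, Φ c₀ = τ
    · obtain ⟨c₀, rfl⟩ := hne
      have h1 := fiber_le_gcd (rep c₀) (dd c₀)
      have hW : W (Φ c₀) = Nat.gcd (Fintype.card F - 1) (nu ((dd c₀).tup n)) := by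
        show (if dt (Φ c₀).1 = 1 then _ else _) = _
        rw [if_pos (hdt c₀)]
      rw [hW]
      refine le_trans ?_ h1
      have : Finite (ConjClasses S') := inferInstance
      refine Nat.card_le_card_of_injective (fun c => ⟨c.1, rep c.1, hrep' _, ?_⟩) ?_
      · apply isConj_of_tup _ _ (dd c₀) (dd c.1)
        exact congrArg Subtype.val c.2.symm
      · intro a b hab
        apply Subtype.ext
        exact Subtype.mk.inj hab
    · have : IsEmpty {c // Φ c = τ} := ⟨fun c => hne ⟨c.1, c.2⟩⟩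
      rw [Nat.card_of_isEmpty]
      exact Nat.zero_le _
  have h1 : Nat.card (ConjClasses S') ≤ ∑ τ : TT F n n, W τ := by
    have h2 : Nat.card (ConjClasses S') = Nat.card (Σ τ : TT F n n, {c // Φ c = τ}) :=
      Nat.card_congr (Equiv.sigmaFiberEquiv Φ).symm
    rw [h2, Nat.card_sigma]
    exact Finset.sum_le_sum fun τ _ => hfib τ
  refine h1.trans (le_of_eq ?_)
  have h3 : ∀ τ : TT F n n, W τ = ∑ c ∈ (Fintype.card F - 1).divisors,
      if (dt τ.1 = 1 ∧ c ∣ nu τ.1) then Nat.totient c else 0 := by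
    intro τ
    show (if dt τ.1 = 1 then _ else _) = _
    by_cases hτ : dt τ.1 = 1
    · rw [if_pos hτ]
      simp only [hτ, true_and]
      rw [← Finset.sum_filter]
      conv_lhs => rw [← Nat.sum_totient (Nat.gcd (Fintype.card F - 1) (nu τ.1))]
      refine Finset.sum_congr ?_ fun _ _ => rfl
      ext c
      simp only [Nat.mem_divisors, Finset.mem_filter]
      constructor
      · rintro ⟨h4, h5⟩
        exact ⟨⟨h4.trans (Nat.gcd_dvd_left _ _), by omega⟩, h4.trans (Nat.gcd_dvd_right _ _)⟩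
      · rintro ⟨⟨h4, h5⟩, h6⟩
        exact ⟨Nat.dvd_gcd h4 h6, Nat.gcd_ne_zero_left h5⟩
    · rw [if_neg hτ]
      simp [hτ]
  simp only [h3]
  rw [Finset.sum_comm]
  refine Finset.sum_congr rfl fun c _ => ?_
  rw [Finset.sum_ite, Finset.sum_const_zero, add_zero, Finset.sum_const, smul_eq_mul, mul_comm]
  congr 1
  rw [Nat.card_eq_fintype_card, Fintype.card_subtype]

end Cfsg.Agent.Lib.KS2.SLCl
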