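import Mathlib
import Cfsg.Agent.Lib.KS2.SLCl3

/-!
# Counting tuples without parts of small size
-/

set_option autoImplicit false
set_option linter.unusedSimpArgs false
set_option linter.unusedVariables false
set_option linter.deprecated false

universe u

namespace Cfsg.Agent.Lib.KS2.SLCl

open Polynomial Module Cfsg.Agent.Lib.KS2.GLCount Cfsg.Agent.Lib.KS2.GLType Cfsg.Agent.Lib.KS2.SSConj

/-- The numerical bound for tuples. -/
def ah (q : ℕ) : ℕ → ℕ → ℕ → ℕ
  | 0, _, N => if N = 0 then 1 else 0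
  | m + 1, s, N => ∑ d ∈ Finset.range (N / s + 1), cc q d * ah q m (s + 1) (N - s * d)

lemma ah_zero (q s N : ℕ) : ah q 0 s N = if N = 0 then 1 else 0 := by
  simp [ah]

lemma ah_succ (q m s N : ℕ) : ah q (m + 1) s N = ∑ d ∈ Finset.range (N / s + 1), cc q d * ah q m (s + 1) (N - s * d) := rfl

lemma ah_lt (q m s N : ℕ) (h : N < s) : ah q (m + 1) s N = ah q m (s + 1) N := by
  rw [ah_succ, Nat.div_eq_of_lt h]
  simp [cc]

lemma ah_two (q m s N : ℕ) (hs : 0 < s) (h1 : s ≤ N) (h2 : N < 2 * s) :
    ah q (m + 1) s N = ah q m (s + 1) N + (q - 1) * ah q m (s + 1) (N - s) := by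
  have h3 : N / s = 1 := by
    apply Nat.div_eq_of_lt_le <;> omega
  rw [ah_succ, h3, Finset.sum_range_succ, Finset.sum_range_succ]
  simp [cc]

lemma cc_succ_le (q d : ℕ) (hq : 1 ≤ q) : cc q (d + 1) ≤ q * cc q d := by
  cases d with
  | zero => simp [cc]
  | succ d =>
    show (q - 1) * q ^ (d + 1) ≤ q * ((q - 1) * q ^ d)
    apply le_of_eq
    ring

lemma ah_step (q m s N : ℕ) (hq : 1 ≤ q) (hs : 0 < s) (h1 : s ≤ N) :
    ah q (m + 1) s N ≤ ah q m (s + 1) N + q * ah q (m + 1) s (N - s) := by
  obtain ⟨N', rfl⟩ : ∃ N', N = s + N' := ⟨N - s, by omega⟩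
  have h2 : (s + N') / s = N' / s + 1 := by
    rw [Nat.add_comm, Nat.add_div_right _ hs]
  rw [ah_succ, h2, Finset.sum_range_succ']
  have h3 : s + N' - s = N' := by omega
  rw [h3, ah_succ q m s N', Finset.mul_sum]
  simp only [mul_zero, Nat.sub_zero]
  have h4 : cc q 0 = 1 := rfl
  rw [h4, one_mul, add_comm]
  refine Nat.add_le_add_left ?_ _
  refine Finset.sum_le_sum fun d _ => ?_
  have h5 : s + N' - s * (d + 1) = N' - s * d := by
    rw [Nat.mul_succ]
    omega
  rw [h5, ← mul_assoc]
  exact Nat.mul_le_mul_right _ (cc_succ_le q d hq)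

/-- The four bounds. -/
lemma ah_bound (q : ℕ) (hq : 2 ≤ q) (m : ℕ) : ∀ s N, 2 ≤ s →
    (N = 0 → ah q m s N ≤ 1) ∧ (0 < N → N < s → ah q m s N = 0) ∧
    (s ≤ N → N < 2 * s → ah q m s N ≤ q - 1) ∧ (s ≤ N → ah q m s N ≤ (q - 1) * q ^ (N - s)) := by
  induction m with
  | zero =>
    intro s N hs
    rw [ah_zero]
    refine ⟨?_, ?_, ?_, ?_⟩
    · intro h; simp [h]
    · intro h0 _; simp [Nat.ne_of_gt h0]
    · intro h1 _
      rw [if_neg (by omega)]
      exact Nat.zero_le _
    · intro h1
      rw [if_neg (by omega)]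
      exact Nat.zero_le _
  | succ m ih =>
    intro s N hs
    have h1 : ∀ N, N = 0 → ah q (m + 1) s N ≤ 1 := by
      intro N h
      rw [ah_lt _ _ _ _ (by omega)]
      exact (ih (s + 1) N (by omega)).1 h
    have h2 : ∀ N, 0 < N → N < s → ah q (m + 1) s N = 0 := by
      intro N h0 hN
      rw [ah_lt _ _ _ _ hN]
      exact (ih (s + 1) N (by omega)).2.1 h0 (by omega)
    have h3 : ∀ N, s ≤ N → N < 2 * s → ah q (m + 1) s N ≤ q - 1 := by
      intro N hN1 hN2
      rw [ah_two _ _ _ _ (by omega) hN1 hN2]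
      by_cases he : N = s
      · subst he
        have h4 := (ih (N + 1) N (by omega)).2.1 (by omega) (by omega)
        have h5 := (ih (N + 1) (N - N) (by omega)).1 (by omega)
        rw [h4, zero_add]
        calc (q - 1) * ah q m (N + 1) (N - N) ≤ (q - 1) * 1 := Nat.mul_le_mul_left _ h5
          _ = q - 1 := mul_one _
      · have h4 := (ih (s + 1) (N - s) (by omega)).2.1 (by omega) (by omega)
        have h5 := (ih (s + 1) N (by omega)).2.2.1 (by omega) (by omega)
        rw [h4, mul_zero, add_zero]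
        exact h5
    have h4' : ∀ N, s ≤ N → ah q (m + 1) s N ≤ (q - 1) * q ^ (N - s) := by
      intro N
      induction N using Nat.strong_induction_on with
      | _ N ihN =>
        intro hsN
        by_cases hN : N < 2 * s
        · have := h3 N hsN hN
          calc ah q (m + 1) s N ≤ q - 1 := this
            _ = (q - 1) * 1 := (mul_one _).symm
            _ ≤ _ := Nat.mul_le_mul_left _ (Nat.one_le_pow _ _ (by omega))
        · have h4 := ah_step q m s N (by omega) (by omega) hsN
          have h5 := (ih (s + 1) N (by omega)).2.2.2 (by omega)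
          have h6 : ah q (m + 1) s (N - s) ≤ (q - 1) * q ^ (N - s - s) :=
            ihN (N - s) (by omega) (by omega)
          refine h4.trans ?_
          obtain ⟨t, ht⟩ : ∃ t, N - s = t + 1 := ⟨N - s - 1, by omega⟩
          have h7 : N - (s + 1) = t := by omega
          rw [h7] at h5
          have h8 : N - s - s + 1 ≤ t := by omega
          have h9 : q * q ^ (N - s - s) ≤ q ^ t := by
            rw [← pow_succ']
            exact Nat.pow_le_pow_right (by omega) h8
          calc ah q m (s + 1) N + q * ah q (m + 1) s (N - s)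
              ≤ (q - 1) * q ^ t + q * ((q - 1) * q ^ (N - s - s)) := Nat.add_le_add h5 (Nat.mul_le_mul_left _ h6)
            _ = (q - 1) * q ^ t + (q - 1) * (q * q ^ (N - s - s)) := by ring
            _ ≤ (q - 1) * q ^ t + (q - 1) * q ^ t := Nat.add_le_add_left (Nat.mul_le_mul_left _ h9) _
            _ = (q - 1) * (2 * q ^ t) := by ring
            _ ≤ (q - 1) * (q * q ^ t) := Nat.mul_le_mul_left _ (Nat.mul_le_mul_right _ hq)
            _ = (q - 1) * q ^ (N - s) := by rw [ht, pow_succ']
    exact ⟨h1 N, h2 N, h3 N, h4' N⟩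

lemma ah_two_one (q m : ℕ) (hq : 2 ≤ q) : ah q m 2 1 = 0 :=
  (ah_bound q hq m 2 1 (by omega)).2.1 (by omega) (by omega)

lemma ah_two_two (q m : ℕ) (hq : 2 ≤ q) : ah q m 2 2 ≤ q - 1 :=
  (ah_bound q hq m 2 2 (by omega)).2.2.1 (by omega) (by omega)

lemma ah_two_three (q m : ℕ) (hq : 2 ≤ q) : ah q m 2 3 ≤ q - 1 :=
  (ah_bound q hq m 2 3 (by omega)).2.2.1 (by omega) (by omega)

lemma ah_two_four (q m : ℕ) (hq : 2 ≤ q) : ah q m 2 4 ≤ q ^ 2 - 1 := by
  cases m with
  | zero =>
    rw [ah_zero]
    simp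
  | succ m =>
    have h1 := ah_step q m 2 4 (by omega) (by omega) (by omega)
    have h2 := (ah_bound q hq m 3 4 (by omega)).2.2.1 (by omega) (by omega)
    have h3 := ah_two_two q (m + 1) hq
    have h4 : q ^ 2 - 1 = (q - 1) + q * (q - 1) := by
      obtain ⟨r, rfl⟩ : ∃ r, q = r + 1 := ⟨q - 1, by omega⟩
      simp only [Nat.add_sub_cancel]
      have : (r + 1) ^ 2 = r + (r + 1) * r + 1 := by ring
      omega
    rw [h4]
    exact h1.trans (Nat.add_le_add h2 (Nat.mul_le_mul_left _ h3))

/-- The main bound for partitions without parts of size one. -/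
lemma ah_two_le (q m : ℕ) (hq : 2 ≤ q) (N : ℕ) (hN : 3 ≤ N) : ah q m 2 N ≤ q ^ (N - 2) := by
  induction N using Nat.strong_induction_on with
  | _ N ih =>
    by_cases h3 : N = 3
    · subst h3
      have := ah_two_three q m hq
      simp only [Nat.reduceSub, pow_one]
      omega
    by_cases h4 : N = 4
    · subst h4
      have := ah_two_four q m hq
      simp only [Nat.reduceSub]
      omega
    cases m with
    | zero =>
      rw [ah_zero, if_neg (by omega)]
      exact Nat.zero_le _
    | succ m =>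
      have h5 := ah_step q m 2 N (by omega) (by omega) (by omega)
      have h6 := (ah_bound q hq m 3 N (by omega)).2.2.2 (by omega)
      have h7 := ih (N - 2) (by omega) (by omega)
      refine h5.trans ?_
      obtain ⟨t, ht⟩ : ∃ t, N - 3 = t := ⟨_, rfl⟩
      have h8 : N - 2 = t + 1 := by omega
      have h9 : N - 2 - 2 + 1 = t := by omega
      have h6 : ah q m (2 + 1) N ≤ (q - 1) * q ^ t := by
        rw [← ht]
        exact h6
      have h10 : q * q ^ (N - 2 - 2) = q ^ t := by
        rw [← pow_succ', h9]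
      calc ah q m (2 + 1) N + q * ah q (m + 1) 2 (N - 2)
          ≤ (q - 1) * q ^ t + q * q ^ (N - 2 - 2) := Nat.add_le_add h6 (Nat.mul_le_mul_left _ h7)
        _ = (q - 1) * q ^ t + q ^ t := by rw [h10]
        _ = (q - 1 + 1) * q ^ t := by ring
        _ = q * q ^ t := by rw [Nat.sub_add_cancel (by omega)]
        _ = q ^ (N - 2) := by rw [h8, pow_succ']

variable {F : Type u} [Field F]

/-- Tuples with weights `i + s`. -/
abbrev TS (F : Type u) [Field F] (s m N : ℕ) :=
  { g : Fin m → F[X] // (∀ i, (g i).Monic ∧ (g i).coeff 0 ≠ 0) ∧ ∑ i : Fin m, ((i : ℕ) + s) * (g i).natDegree = N }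

/-- Splitting off the first polynomial. -/
noncomputable def splitTS (s m N : ℕ) (hs : 0 < s) (g : TS F s (m + 1) N) :
    Σ d : Fin (N / s + 1), Pd F d.1 × TS F (s + 1) m (N - s * d.1) := by
  have hsum : ∑ i : Fin m, ((i : ℕ) + (s + 1)) * (g.1 (Fin.succ i)).natDegree + s * (g.1 0).natDegree = N := by
    refine Eq.trans ?_ g.2.2
    rw [Fin.sum_univ_succ, add_comm]
    simp only [Fin.val_zero, zero_add, Fin.val_succ]
    congr 1
    refine Finset.sum_congr rfl fun i _ => ?_
    congr 1
    omega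
  have hd : (g.1 0).natDegree < N / s + 1 := by
    have h1 : (g.1 0).natDegree ≤ N / s := by
      rw [Nat.le_div_iff_mul_le hs, mul_comm]
      omega
    omega
  exact ⟨⟨(g.1 0).natDegree, hd⟩, ⟨g.1 0, (g.2.1 _).1, rfl, (g.2.1 _).2⟩,
    ⟨fun i => g.1 (Fin.succ i), fun i => g.2.1 _, Nat.eq_sub_of_add_eq hsum⟩⟩

lemma splitTS_inj (s m N : ℕ) (hs : 0 < s) : Function.Injective (splitTS (F := F) s m N hs) := by
  intro g g' h
  have h1 : (g.1 0) = (g'.1 0) := by
    have h2 := congrArg (fun z => z.2.1.1) h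
    simpa [splitTS] using h2
  have h3 : ∀ i : Fin m, g.1 (Fin.succ i) = g'.1 (Fin.succ i) := by
    intro i
    have h2 := congrArg (fun z => z.2.2.1 i) h
    simpa [splitTS] using h2
  apply Subtype.ext
  funext i
  refine Fin.cases ?_ ?_ i
  · exact h1
  · exact h3

section Fin'

variable [Fintype F]

lemma finite_TS : ∀ (m s N : ℕ) (hs : 0 < s), Finite (TS F s m N) := by
  intro m
  induction m with
  | zero =>
    intro s N hs
    have : Subsingleton (TS F s 0 N) := ⟨fun f g => Subtype.ext (funext fun i => i.elim0)⟩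
    infer_instance
  | succ m ih =>
    intro s N hs
    have hfin : ∀ d : Fin (N / s + 1), Finite (Pd F d.1 × TS F (s + 1) m (N - s * d.1)) := by
      intro d
      haveI := finite_Pd (F := F) d.1
      haveI := ih (s + 1) (N - s * d.1) (Nat.succ_pos _)
      infer_instance
    exact Finite.of_injective _ (splitTS_inj (F := F) s m N hs)

lemma card_TS_le : ∀ (m s N : ℕ), 0 < s → Nat.card (TS F s m N) ≤ ah (Fintype.card F) m s N := by
  intro m
  induction m with
  | zero =>
    intro s N hs
    rw [ah_zero]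
    split_ifs with h
    · have : Subsingleton (TS F s 0 N) := ⟨fun f g => Subtype.ext (funext fun i => i.elim0)⟩
      exact Finite.card_le_one_iff_subsingleton.mpr this
    · have : IsEmpty (TS F s 0 N) := ⟨fun f => h (by
        have := f.2.2
        simpa using this.symm)⟩
      simp
  | succ m ih =>
    intro s N hs
    have hfin : ∀ d : Fin (N / s + 1), Finite (Pd F d.1 × TS F (s + 1) m (N - s * d.1)) := by
      intro d
      haveI := finite_Pd (F := F) d.1
      haveI := finite_TS (F := F) m (s + 1) (N - s * d.1) (Nat.succ_pos _)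
      infer_instance
    have h1 := Nat.card_le_card_of_injective _ (splitTS_inj (F := F) s m N hs)
    refine h1.trans ?_
    rw [Nat.card_sigma, ah_succ, Finset.sum_range]
    refine Finset.sum_le_sum fun d _ => ?_
    rw [Nat.card_prod, card_Pd]
    exact Nat.mul_le_mul_left _ (ih (s + 1) _ (Nat.succ_pos _))

/-- The number of tuples with no polynomial of weight one. -/
noncomputable def Ac (F : Type u) [Field F] (m : ℕ) : ℕ :=
  Nat.card {τ : TT F (m + 1) (m + 1) // τ.1 0 = 1}

lemma Ac_le (m : ℕ) : Ac F m ≤ ah (Fintype.card F) m 2 (m + 1) := by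
  refine le_trans ?_ (card_TS_le (F := F) m 2 (m + 1) (by omega))
  haveI := finite_TS (F := F) m 2 (m + 1) (by omega)
  refine Nat.card_le_card_of_injective (fun τ => ⟨fun i => τ.1.1 (Fin.succ i), fun i => τ.1.2.1 _, ?_⟩) ?_
  · have h1 := τ.1.2.2
    rw [Fin.sum_univ_succ] at h1
    simp only [Fin.val_zero, zero_add, Fin.val_succ, τ.2, natDegree_one, mul_zero] at h1
    refine Eq.trans ?_ h1
    refine Finset.sum_congr rfl fun i _ => ?_
    congr 1
  · intro τ σ h
    apply Subtype.ext
    apply Subtype.ext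
    funext i
    refine Fin.cases ?_ (fun j => ?_) i
    · rw [τ.2, σ.2]
    · have h2 := congrArg (fun z => z.1 j) h
      exact h2

end Fin'

end Cfsg.Agent.Lib.KS2.SLCl
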