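import Mathlib
import Cfsg.Agent.Lib.KS2.SLCl4

/-!
# Scaling the first polynomial of a tuple
-/

set_option autoImplicit false
set_option linter.unusedSimpArgs false
set_option linter.unusedVariables false
set_option linter.deprecated false

universe u

namespace Cfsg.Agent.Lib.KS2.SLCl

open Polynomial Module Cfsg.Agent.Lib.KS2.GLCount Cfsg.Agent.Lib.KS2.GLType Cfsg.Agent.Lib.KS2.SSConj

variable {F : Type u} [Field F]

/-- Scaling the constant coefficient. -/
noncomputable def scaleC (a : F) (f : F[X]) : F[X] := f + C ((a - 1) * f.coeff 0)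

lemma deg_pos_of_ne_one {f : F[X]} (hf : f.Monic) (h : f ≠ 1) : 0 < f.natDegree := by
  rw [Nat.pos_iff_ne_zero]
  intro h0
  exact h (eq_one_of_monic_natDegree_zero hf h0)

lemma ne_one_of_deg_pos {f : F[X]} (h : 0 < f.natDegree) : f ≠ 1 := by
  rintro rfl
  simp at h

lemma scaleC_natDegree (a : F) (f : F[X]) : (scaleC a f).natDegree = f.natDegree :=
  natDegree_add_C

lemma scaleC_monic (a : F) {f : F[X]} (hf : f.Monic) (h : 0 < f.natDegree) : (scaleC a f).Monic := by
  apply hf.add_of_left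
  refine lt_of_le_of_lt degree_C_le ?_
  exact natDegree_pos_iff_degree_pos.mp h

lemma scaleC_coeff (a : F) (f : F[X]) : (scaleC a f).coeff 0 = a * f.coeff 0 := by
  simp only [scaleC, coeff_add, coeff_C_zero]
  ring

lemma eta_scaleC (a : F) (f : F[X]) : eta (scaleC a f) = a * eta f := by
  unfold eta
  rw [scaleC_natDegree, scaleC_coeff]
  ring

lemma scaleC_inv {a : F} (ha : a ≠ 0) (f : F[X]) : scaleC a⁻¹ (scaleC a f) = f := by
  unfold scaleC
  rw [coeff_add, coeff_C_zero, add_assoc, ← C_add]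
  have h1 : (a - 1) * f.coeff 0 + (a⁻¹ - 1) * (f.coeff 0 + (a - 1) * f.coeff 0) = 0 := by
    field_simp
    ring
  rw [h1, C_0, add_zero]

lemma dt_succ {m : ℕ} (τ : Fin (m + 1) → F[X]) :
    dt τ = eta (τ 0) * ∏ j : Fin m, eta (τ j.succ) ^ ((j : ℕ) + 2) := by
  unfold dt
  rw [Fin.prod_univ_succ]
  simp

lemma dt_ne_zero {n : ℕ} (τ : Fin n → F[X]) (h : ∀ k, (τ k).coeff 0 ≠ 0) : dt τ ≠ 0 :=
  Finset.prod_ne_zero_iff.mpr fun k _ => pow_ne_zero _ (eta_ne_zero (h k))

/-- Scaling on tuples. -/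
noncomputable def scT (a : F) (ha : a ≠ 0) {m : ℕ} (τ : TT F (m + 1) (m + 1)) (h : τ.1 0 ≠ 1) : TT F (m + 1) (m + 1) :=
  ⟨Function.update τ.1 0 (scaleC a (τ.1 0)), by
    have hpos := deg_pos_of_ne_one (τ.2.1 0).1 h
    intro i
    refine Fin.cases ?_ (fun j => ?_) i
    · rw [Function.update_self]
      refine ⟨scaleC_monic a (τ.2.1 0).1 hpos, ?_⟩
      rw [scaleC_coeff]
      exact mul_ne_zero ha (τ.2.1 0).2
    · rw [Function.update_of_ne (Fin.succ_ne_zero j)]
      exact τ.2.1 _, by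
    refine Eq.trans ?_ τ.2.2
    rw [Fin.sum_univ_succ, Fin.sum_univ_succ, Function.update_self, scaleC_natDegree]
    congr 1⟩

lemma scT_ne (a : F) (ha : a ≠ 0) {m : ℕ} (τ : TT F (m + 1) (m + 1)) (h : τ.1 0 ≠ 1) : (scT a ha τ h).1 0 ≠ 1 := by
  have hpos := deg_pos_of_ne_one (τ.2.1 0).1 h
  show Function.update τ.1 0 (scaleC a (τ.1 0)) 0 ≠ 1
  rw [Function.update_self]
  apply ne_one_of_deg_pos
  rw [scaleC_natDegree]
  exact hpos

lemma scT_dt (a : F) (ha : a ≠ 0) {m : ℕ} (τ : TT F (m + 1) (m + 1)) (h : τ.1 0 ≠ 1) :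
    dt (scT a ha τ h).1 = a * dt τ.1 := by
  show dt (Function.update τ.1 0 (scaleC a (τ.1 0))) = _
  rw [dt_succ, dt_succ, Function.update_self, eta_scaleC, mul_assoc]
  congr 2

lemma scT_inv (a : F) (ha : a ≠ 0) {m : ℕ} (τ : TT F (m + 1) (m + 1)) (h : τ.1 0 ≠ 1) :
    scT a⁻¹ (inv_ne_zero ha) (scT a ha τ h) (scT_ne a ha τ h) = τ := by
  apply Subtype.ext
  show Function.update (Function.update τ.1 0 (scaleC a (τ.1 0))) 0 (scaleC a⁻¹ (Function.update τ.1 0 (scaleC a (τ.1 0)) 0)) = τ.1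
  rw [Function.update_self, scaleC_inv ha, Function.update_idem, Function.update_eq_self]

/-- The number of tuples of determinant `δ` with a nontrivial first polynomial. -/
abbrev VV (F : Type u) [Field F] (m : ℕ) (δ : F) := {τ : TT F (m + 1) (m + 1) // τ.1 0 ≠ 1 ∧ dt τ.1 = δ}

/-- The scaling equivalence. -/
noncomputable def VVeq (m : ℕ) (δ : F) (a : F) (ha : a ≠ 0) : VV F m δ ≃ VV F m (a * δ) where
  toFun τ := ⟨scT a ha τ.1 τ.2.1, scT_ne a ha τ.1 τ.2.1, by rw [scT_dt, τ.2.2]⟩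
  invFun τ := ⟨scT a⁻¹ (inv_ne_zero ha) τ.1 τ.2.1, scT_ne _ _ τ.1 τ.2.1, by
    rw [scT_dt, τ.2.2, ← mul_assoc, inv_mul_cancel₀ ha, one_mul]⟩
  left_inv τ := Subtype.ext (scT_inv a ha τ.1 τ.2.1)
  right_inv τ := by
    apply Subtype.ext
    have := scT_inv a⁻¹ (inv_ne_zero ha) τ.1 τ.2.1
    simp only [inv_inv] at this
    exact this

/-- The number of tuples of determinant one with a nontrivial first polynomial. -/
noncomputable def Uc (F : Type u) [Field F] (m : ℕ) : ℕ := Nat.card (VV F m 1)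

lemma card_VV (m : ℕ) (δ : F) (hδ : δ ≠ 0) : Nat.card (VV F m δ) = Uc F m := by
  have h := Nat.card_congr (VVeq (F := F) m 1 δ hδ)
  rw [mul_one] at h
  exact h.symm

variable [Fintype F]

lemma finite_VV (m : ℕ) (δ : F) : Finite (VV F m δ) := by
  haveI := finite_TT (F := F) (m + 1) (m + 1)
  infer_instance

/-- The basic relation. -/
theorem card_rel (m : ℕ) :
    (Fintype.card F - 1) * Uc F m + Ac F m ≤ Nat.card (TT F (m + 1) (m + 1)) := by
  classical
  haveI := finite_TT (F := F) (m + 1) (m + 1)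
  have hV := finite_VV (F := F) m
  let Y := (Σ δ : Fˣ, VV F m (δ : F)) ⊕ {τ : TT F (m + 1) (m + 1) // τ.1 0 = 1}
  have h1 : Nat.card Y = (Fintype.card F - 1) * Uc F m + Ac F m := by
    have hVu : ∀ δ : Fˣ, Finite (VV F m (δ : F)) := fun δ => hV _
    rw [Nat.card_sum, Nat.card_sigma]
    congr 1
    have h2 : ∀ δ : Fˣ, Nat.card (VV F m (δ : F)) = Uc F m := fun δ => card_VV m _ δ.ne_zero
    simp only [h2, Finset.sum_const, smul_eq_mul]
    congr 1
    rw [Finset.card_univ, ← Nat.card_eq_fintype_card, Nat.card_units, Nat.card_eq_fintype_card]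
  rw [← h1]
  refine Nat.card_le_card_of_injective (fun y => match y with
    | Sum.inl z => z.2.1
    | Sum.inr z => z.1) ?_
  rintro (⟨δ, τ⟩ | τ) (⟨δ', τ'⟩ | τ') h
  · simp only at h
    have h3 : δ = δ' := by
      apply Units.ext
      rw [← τ.2.2, ← τ'.2.2, h]
    subst h3
    have h4 : τ = τ' := Subtype.ext h
    rw [h4]
  · simp only at h
    exact absurd (by rw [h]; exact τ'.2) τ.2.1
  · simp only at h
    exact absurd (by rw [← h]; exact τ.2) τ'.2.1
  · simp only at h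
    have h4 : τ = τ' := Subtype.ext h
    rw [h4]

/-- Tuples whose determinant is a `c`-th root of a given element. -/
theorem card_pow_le' (m c : ℕ) (δ₀ : F) (hδ₀ : δ₀ ≠ 0) (hc : 0 < c) :
    Nat.card {τ : TT F (m + 1) (m + 1) // (dt τ.1) ^ c = δ₀} ≤ c * Uc F m + Ac F m := by
  classical
  haveI := finite_TT (F := F) (m + 1) (m + 1)
  have hV := finite_VV (F := F) m
  let R : Finset F := (Polynomial.nthRoots c δ₀).toFinset
  have hR : ∀ δ : F, δ ∈ R ↔ δ ^ c = δ₀ := by
    intro δ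
    simp only [R, Multiset.mem_toFinset]
    exact Polynomial.mem_nthRoots hc
  have hRc : R.card ≤ c := (Multiset.toFinset_card_le _).trans (Polynomial.card_nthRoots c δ₀)
  let Y := (Σ δ : R, VV F m (δ : F)) ⊕ {τ : TT F (m + 1) (m + 1) // τ.1 0 = 1}
  have h1 : Nat.card Y ≤ c * Uc F m + Ac F m := by
    have hVu : ∀ δ : R, Finite (VV F m (δ : F)) := fun δ => hV _
    rw [Nat.card_sum, Nat.card_sigma]
    refine Nat.add_le_add_right ?_ _
    have h2 : ∀ δ : R, Nat.card (VV F m (δ : F)) = Uc F m := fun δ => by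
      apply card_VV
      intro h0
      have h3 := (hR _).mp δ.2
      rw [h0, zero_pow hc.ne'] at h3
      exact hδ₀ h3.symm
    simp only [h2, Finset.sum_const, smul_eq_mul]
    refine Nat.mul_le_mul_right _ ?_
    simpa using hRc
  refine le_trans ?_ h1
  haveI : Finite Y := by
    have hVu : ∀ δ : R, Finite (VV F m (δ : F)) := fun δ => hV _
    infer_instance
  refine Nat.card_le_card_of_injective (fun τ => if h : τ.1.1 0 = 1 then Sum.inr ⟨τ.1, h⟩ else
    Sum.inl ⟨⟨dt τ.1.1, (hR _).mpr τ.2⟩, τ.1, h, rfl⟩) ?_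
  intro τ τ' h
  by_cases h1 : τ.1.1 0 = 1 <;> by_cases h2 : τ'.1.1 0 = 1
  · simp only [dif_pos h1, dif_pos h2] at h
    have h3 := Sum.inr.inj h
    exact Subtype.ext (Subtype.mk.inj h3)
  · simp only [dif_pos h1, dif_neg h2] at h
    exact absurd h (by simp)
  · simp only [dif_neg h1, dif_pos h2] at h
    exact absurd h (by simp)
  · simp only [dif_neg h1, dif_neg h2] at h
    have h3 := Sum.inl.inj h
    have h5 : τ.1 = τ'.1 := congrArg (fun z : Σ δ : R, VV F m (δ : F) => z.2.1) h3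
    exact Subtype.ext h5

/-- Tuples whose determinant is a root of unity. -/
theorem card_pow_le (m c : ℕ) (hc : 0 < c) :
    Nat.card {τ : TT F (m + 1) (m + 1) // (dt τ.1) ^ c = 1} ≤ c * Uc F m + Ac F m :=
  card_pow_le' m c 1 one_ne_zero hc

end Cfsg.Agent.Lib.KS2.SLCl
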