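import Mathlib
import Cfsg.Agent.Lib.KS2.SLCl5

/-!
# Tuples supported on multiples of `c`
-/

set_option autoImplicit false
set_option linter.unusedSimpArgs false
set_option linter.unusedVariables false
set_option linter.deprecated false

universe u

namespace Cfsg.Agent.Lib.KS2.SLCl

open Polynomial Module Cfsg.Agent.Lib.KS2.GLCount Cfsg.Agent.Lib.KS2.GLType Cfsg.Agent.Lib.KS2.SSConj

variable {F : Type u} [Field F]

lemma dvd_of_nu {n : ℕ} (τ : TT F n n) (c : ℕ) (h : c ∣ nu τ.1) : c ∣ n := by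
  have h1 : c ∣ ∑ k : Fin n, ((k : ℕ) + 1) * (τ.1 k).natDegree := by
    refine Finset.dvd_sum fun k _ => ?_
    by_cases hk : τ.1 k = 1
    · rw [hk]
      simp
    · exact Dvd.dvd.mul_right ((dvd_nu_iff _ _).mp h k hk) _
  rwa [τ.2.2] at h1

/-- The index of the `j`-th multiple of `c`. -/
def idx (c m : ℕ) (hc : 0 < c) (j : Fin (m + 1)) : Fin (c * (m + 1)) :=
  ⟨c * ((j : ℕ) + 1) - 1, by
    have h1 : c * ((j : ℕ) + 1) ≤ c * (m + 1) := Nat.mul_le_mul_left _ (by omega)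
    have h2 : 0 < c * ((j : ℕ) + 1) := Nat.mul_pos hc (by omega)
    omega⟩

lemma idx_val (c m : ℕ) (hc : 0 < c) (j : Fin (m + 1)) : ((idx c m hc j : Fin (c * (m + 1))) : ℕ) + 1 = c * ((j : ℕ) + 1) := by
  have h2 : 0 < c * ((j : ℕ) + 1) := Nat.mul_pos hc (by omega)
  show c * ((j : ℕ) + 1) - 1 + 1 = _
  omega

lemma idx_inj (c m : ℕ) (hc : 0 < c) : Function.Injective (idx c m hc) := by
  intro j j' h
  have h1 := idx_val c m hc j
  have h2 := idx_val c m hc j'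
  rw [h] at h1
  have h3 : c * ((j : ℕ) + 1) = c * ((j' : ℕ) + 1) := h1.symm.trans h2
  have h4 := Nat.eq_of_mul_eq_mul_left hc h3
  apply Fin.ext
  omega

lemma idx_range (c m : ℕ) (hc : 0 < c) (k : Fin (c * (m + 1))) (h : c ∣ (k : ℕ) + 1) :
    ∃ j, idx c m hc j = k := by
  obtain ⟨t, ht⟩ := h
  have h1 : 1 ≤ t := by
    by_contra hc'
    have : t = 0 := by omega
    subst this
    simp at ht
  have h2 : t ≤ m + 1 := by
    have h3 : c * t ≤ c * (m + 1) := by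
      have := k.2
      omega
    exact Nat.le_of_mul_le_mul_left h3 hc
  refine ⟨⟨t - 1, by omega⟩, ?_⟩
  apply Fin.ext
  have h3 : t - 1 + 1 = t := by omega
  show c * ((t - 1) + 1) - 1 = _
  rw [h3]
  omega

/-- The compressed tuple. -/
def cmp (c m : ℕ) (hc : 0 < c) (τ : TT F (c * (m + 1)) (c * (m + 1))) (h : c ∣ nu τ.1) : TT F (m + 1) (m + 1) :=
  ⟨fun j => τ.1 (idx c m hc j), fun j => τ.2.1 _, by
    have h1 : ∑ j : Fin (m + 1), c * (((j : ℕ) + 1) * (τ.1 (idx c m hc j)).natDegree) =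
        ∑ k : Fin (c * (m + 1)), ((k : ℕ) + 1) * (τ.1 k).natDegree := by
      refine Fintype.sum_of_injective (idx c m hc) (idx_inj c m hc) _ _ ?_ ?_
      · intro k hk
        have hk1 : τ.1 k = 1 := by
          by_contra hk2
          obtain ⟨j, hj⟩ := idx_range c m hc k ((dvd_nu_iff _ _).mp h k hk2)
          exact hk ⟨j, hj⟩
        rw [hk1]
        simp
      · intro j
        rw [idx_val, ← mul_assoc]
    rw [← Finset.mul_sum, τ.2.2] at h1
    exact Nat.eq_of_mul_eq_mul_left hc h1⟩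

lemma dt_cmp (c m : ℕ) (hc : 0 < c) (τ : TT F (c * (m + 1)) (c * (m + 1))) (h : c ∣ nu τ.1) :
    (dt (cmp c m hc τ h).1) ^ c = dt τ.1 := by
  unfold dt
  rw [← Finset.prod_pow]
  refine Fintype.prod_of_injective (idx c m hc) (idx_inj c m hc) _ _ ?_ ?_
  · intro k hk
    have hk1 : τ.1 k = 1 := by
      by_contra hk2
      obtain ⟨j, hj⟩ := idx_range c m hc k ((dvd_nu_iff _ _).mp h k hk2)
      exact hk ⟨j, hj⟩
    rw [hk1, eta_one, one_pow]
  · intro j
    rw [idx_val, ← pow_mul, mul_comm]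
    rfl

lemma cmp_inj (c m : ℕ) (hc : 0 < c) (τ σ : TT F (c * (m + 1)) (c * (m + 1))) (h : c ∣ nu τ.1) (h' : c ∣ nu σ.1)
    (he : cmp c m hc τ h = cmp c m hc σ h') : τ = σ := by
  apply Subtype.ext
  funext k
  by_cases hk : c ∣ (k : ℕ) + 1
  · obtain ⟨j, rfl⟩ := idx_range c m hc k hk
    exact congrFun (congrArg Subtype.val he) j
  · have h1 : τ.1 k = 1 := by
      by_contra h2
      exact hk ((dvd_nu_iff _ _).mp h k h2)
    have h2 : σ.1 k = 1 := by
      by_contra h2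
      exact hk ((dvd_nu_iff _ _).mp h' k h2)
    rw [h1, h2]

variable [Fintype F]

theorem card_D_le' (c m n : ℕ) (δ₀ : F) (hδ₀ : δ₀ ≠ 0) (hc : 0 < c) (hn : n = c * (m + 1)) :
    Nat.card {τ : TT F n n // dt τ.1 = δ₀ ∧ c ∣ nu τ.1} ≤ c * Uc F m + Ac F m := by
  subst hn
  refine le_trans ?_ (card_pow_le' (F := F) m c δ₀ hδ₀ hc)
  haveI := finite_TT (F := F) (m + 1) (m + 1)
  refine Nat.card_le_card_of_injective (fun τ => ⟨cmp c m hc τ.1 τ.2.2, ?_⟩) ?_
  · rw [dt_cmp, τ.2.1]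
  · intro τ σ h
    apply Subtype.ext
    exact cmp_inj c m hc _ _ _ _ (Subtype.mk.inj h)

theorem card_D_le (c m n : ℕ) (hc : 0 < c) (hn : n = c * (m + 1)) :
    Nat.card {τ : TT F n n // dt τ.1 = 1 ∧ c ∣ nu τ.1} ≤ c * Uc F m + Ac F m :=
  card_D_le' c m n 1 one_ne_zero hc hn

/-- The number that bounds the class number. -/
noncomputable def BB (F : Type u) [Field F] [Fintype F] (n : ℕ) : ℕ :=
  ∑ c ∈ (Nat.gcd (Fintype.card F - 1) n).divisors, Nat.totient c *
        (c * Uc F (n / c - 1) + Ac F (n / c - 1))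

/-- The sum over tuples of prescribed determinant. -/
theorem sum_D_le (n : ℕ) (hn : 0 < n) (δ₀ : F) (hδ₀ : δ₀ ≠ 0) :
    ∑ c ∈ (Fintype.card F - 1).divisors, Nat.totient c *
        Nat.card {τ : TT F n n // dt τ.1 = δ₀ ∧ c ∣ nu τ.1} ≤ BB F n := by
  classical
  have hq : 1 < Fintype.card F := Fintype.one_lt_card
  have h1 : (Nat.gcd (Fintype.card F - 1) n).divisors ⊆ (Fintype.card F - 1).divisors := by
    intro c hc
    rw [Nat.mem_divisors] at hc ⊢
    exact ⟨hc.1.trans (Nat.gcd_dvd_left _ _), by omega⟩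
  unfold BB
  rw [← Finset.sum_subset h1]
  · refine Finset.sum_le_sum fun c hc => ?_
    rw [Nat.mem_divisors] at hc
    have hcn : c ∣ n := hc.1.trans (Nat.gcd_dvd_right _ _)
    have hc0 : 0 < c := Nat.pos_of_dvd_of_pos hcn hn
    refine Nat.mul_le_mul_left _ ?_
    apply card_D_le' c (n / c - 1) n δ₀ hδ₀ hc0
    have h2 : 0 < n / c := Nat.div_pos (Nat.le_of_dvd hn hcn) hc0
    have h3 : n / c - 1 + 1 = n / c := by omega
    rw [h3, Nat.mul_div_cancel' hcn]
  · intro c hc hc'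
    have hempty : IsEmpty {τ : TT F n n // dt τ.1 = δ₀ ∧ c ∣ nu τ.1} := by
      refine ⟨fun τ => hc' ?_⟩
      rw [Nat.mem_divisors] at hc ⊢
      exact ⟨Nat.dvd_gcd hc.1 (dvd_of_nu τ.1 c τ.2.2), Nat.gcd_ne_zero_left hc.2⟩
    rw [Nat.card_of_isEmpty, mul_zero]

/-- The main bound with the numbers `U`, `A`. -/
theorem card_classes_le_B (n : ℕ) (hn : 0 < n) :
    Nat.card (ConjClasses (Matrix.SpecialLinearGroup (Fin n) F)) ≤ BB F n :=
  (card_classes_le_sum (F := F) n).trans (sum_D_le n hn 1 one_ne_zero)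

end Cfsg.Agent.Lib.KS2.SLCl
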