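import Mathlib
import Cfsg.Agent.Lib.KS2.SLCl6

/-!
# The numerical bounds for the class number of `SL_n`
-/

set_option autoImplicit false
set_option linter.unusedSimpArgs false
set_option linter.unusedVariables false
set_option linter.deprecated false

universe u

namespace Cfsg.Agent.Lib.KS2.SLCl

open Polynomial Module Cfsg.Agent.Lib.KS2.GLCount Cfsg.Agent.Lib.KS2.GLType Cfsg.Agent.Lib.KS2.SSConj

variable {F : Type u} [Field F] [Fintype F]

lemma two_le_q : 2 ≤ Fintype.card F := Fintype.one_lt_card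

/-- A slightly improved bound for the number of tuples. -/
lemma K_le (n : ℕ) (hn : 1 ≤ n) : Nat.card (TT F n n) + 1 ≤ Fintype.card F ^ n := by
  have hq : 1 < Fintype.card F := Fintype.one_lt_card
  have h1 := bound (F := F) hq n n hn
  have hq0 : ((Fintype.card F : ℕ) : ℚ) ≠ 0 := by
    have : 0 < Fintype.card F := by omega
    exact_mod_cast this.ne'
  have h2 : ((Fintype.card F : ℕ) : ℚ) ^ n * (1 - (((Fintype.card F : ℕ) : ℚ)⁻¹) ^ n) = ((Fintype.card F : ℕ) : ℚ) ^ n - 1 := by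
    rw [mul_sub, mul_one, ← mul_pow, mul_inv_cancel₀ hq0, one_pow]
  rw [h2] at h1
  have h3 : ((Nat.card (TT F n n) + 1 : ℕ) : ℚ) ≤ ((Fintype.card F ^ n : ℕ) : ℚ) := by
    push_cast
    linarith
  exact_mod_cast h3

lemma K_three : Nat.card (TT F 3 3) + Fintype.card F ≤ Fintype.card F ^ 3 := by
  have hq : 2 ≤ Fintype.card F := two_le_q
  obtain ⟨r, hr⟩ : ∃ r, Fintype.card F = r + 1 := ⟨Fintype.card F - 1, by omega⟩
  have h1 := card_TT_rec (F := F) 2 3
  have h2 := card_TT_rec (F := F) 1 3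
  have h3 := card_TT_rec (F := F) 0 3
  have h4 := card_TT_rec (F := F) 0 1
  have h5 := card_TT_N_zero (F := F) 2
  have h6 := card_TT_zero_zero (F := F)
  have h7 := fun N hN => card_TT_zero_pos (F := F) N hN
  simp only [Nat.reduceDiv, Nat.reduceAdd, zero_add, Nat.reduceMul, one_mul, Nat.sub_zero, mul_one] at h1 h2 h3 h4
  rw [Finset.sum_range_succ, Finset.sum_range_succ, Finset.sum_range_zero] at h1 h2 h4
  rw [Finset.sum_range_succ, Finset.sum_range_succ, Finset.sum_range_succ, Finset.sum_range_succ,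
    Finset.sum_range_zero] at h3
  simp only [Nat.reduceMul, Nat.reduceSub, mul_zero, Nat.sub_zero, mul_one, zero_add, Nat.sub_self, one_mul] at h1 h2 h3 h4
  rw [h7 3 (by omega), h7 2 (by omega), h7 1 (by omega), h6] at h3
  rw [h7 1 (by omega), h6] at h4
  simp only [hr] at h1 h2 h3 h4 ⊢
  simp only [cc, Nat.add_sub_cancel, mul_zero, mul_one, zero_add, pow_zero, add_zero] at h1 h2 h3 h4
  have h8 : Nat.card (TT F 2 0) ≤ 1 := h5
  have h9 : r * Nat.card (TT F 2 0) ≤ r := by nlinarith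
  have h10 : r * Nat.card (TT F 1 1) ≤ r * r := Nat.mul_le_mul_left _ h4
  nlinarith

lemma A_zero : Ac F 0 = 0 := by
  have h1 := Ac_le (F := F) 0
  rw [ah_zero] at h1
  simpa using h1

lemma A_one : Ac F 1 ≤ Fintype.card F - 1 :=
  (Ac_le (F := F) 1).trans (ah_two_two _ 1 two_le_q)

lemma A_two : Ac F 2 ≤ Fintype.card F - 1 :=
  (Ac_le (F := F) 2).trans (ah_two_three _ 2 two_le_q)

lemma A_three : Ac F 3 ≤ Fintype.card F ^ 2 - 1 :=
  (Ac_le (F := F) 3).trans (ah_two_four _ 3 two_le_q)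

lemma A_le (m : ℕ) (hm : 2 ≤ m) : Ac F m ≤ Fintype.card F ^ (m - 1) := by
  refine (Ac_le (F := F) m).trans ?_
  have := ah_two_le (Fintype.card F) m two_le_q (m + 1) (by omega)
  have h2 : m + 1 - 2 = m - 1 := by omega
  rwa [h2] at this

lemma U_zero : Uc F 0 ≤ 1 := by
  have hq : 2 ≤ Fintype.card F := two_le_q
  have h1 := card_rel (F := F) 0
  have h2 := K_le (F := F) 1 (by omega)
  obtain ⟨r, hr⟩ : ∃ r, Fintype.card F = r + 2 := ⟨Fintype.card F - 2, by omega⟩
  rw [hr] at h1 h2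
  simp only [pow_one, Nat.reduceAdd] at h1 h2
  have h3 : r + 2 - 1 = r + 1 := by omega
  rw [h3] at h1
  by_contra hc
  have hc' : 2 ≤ Uc F 0 := by omega
  nlinarith

lemma VV_one_aux (τ : VV F 1 1) : τ.1.1 1 = 1 ∧ (τ.1.1 0).natDegree = 2 ∧ (τ.1.1 0).coeff 0 = 1 := by
  have h1 := τ.1.2.2
  rw [Fin.sum_univ_two] at h1
  simp only [Fin.val_zero, zero_add, one_mul, Fin.val_one, Nat.reduceAdd] at h1
  have h2 := deg_pos_of_ne_one (τ.1.2.1 0).1 τ.2.1
  have h3 : (τ.1.1 1).natDegree = 0 := by omega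
  have h4 : (τ.1.1 0).natDegree = 2 := by omega
  have h5 : τ.1.1 1 = 1 := eq_one_of_monic_natDegree_zero (τ.1.2.1 1).1 h3
  refine ⟨h5, h4, ?_⟩
  have h6 := τ.2.2
  rw [dt_succ] at h6
  simp only [Fin.prod_univ_one, Fin.val_zero, zero_add] at h6
  have h7 : (Fin.succ (0 : Fin 1)) = (1 : Fin 2) := rfl
  rw [h7, h5, eta_one, one_pow, mul_one] at h6
  unfold eta at h6
  rw [h4] at h6
  simpa using h6

lemma U_one : Uc F 1 ≤ Fintype.card F := by
  have h1 := card_poly_const (F := F) 1 1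
  rw [pow_one] at h1
  rw [← h1]
  have hfin : Finite {f : F[X] // f.Monic ∧ f.natDegree = 1 + 1 ∧ f.coeff 0 = 1} := by
    apply Nat.finite_of_card_ne_zero
    rw [h1]
    exact Fintype.card_ne_zero
  refine Nat.card_le_card_of_injective (f := fun τ : VV F 1 1 => (⟨τ.1.1 0, (τ.1.2.1 0).1, (VV_one_aux τ).2.1, (VV_one_aux τ).2.2⟩ : {f : F[X] // f.Monic ∧ f.natDegree = 1 + 1 ∧ f.coeff 0 = 1})) ?_
  intro τ σ h
  apply Subtype.ext
  apply Subtype.ext
  funext i
  fin_cases i
  · exact Subtype.mk.inj h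
  · show τ.1.1 1 = σ.1.1 1
    rw [(VV_one_aux τ).1, (VV_one_aux σ).1]

/-- The term `c = 1`. -/
lemma T1_le (m : ℕ) (hm : 2 ≤ m) : Uc F m + Ac F m ≤ (Fintype.card F + 2) * Fintype.card F ^ (m - 1) := by
  have hq : 2 ≤ Fintype.card F := two_le_q
  have h1 := card_rel (F := F) m
  have h2 := K_le (F := F) (m + 1) (by omega)
  have h3 := A_le (F := F) m hm
  obtain ⟨r, hr⟩ : ∃ r, Fintype.card F = r + 2 := ⟨Fintype.card F - 2, by omega⟩
  rw [hr] at h1 h2 h3 ⊢
  have h4 : r + 2 - 1 = r + 1 := by omega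
  rw [h4] at h1
  obtain ⟨t, rfl⟩ : ∃ t, m = t + 1 := ⟨m - 1, by omega⟩
  simp only [Nat.add_sub_cancel] at h3 ⊢
  have h5 : (r + 2) ^ (t + 1 + 1) = (r + 2) ^ 2 * (r + 2) ^ t := by ring
  rw [h5] at h2
  obtain ⟨x, hx⟩ : ∃ x, x = (r + 2) ^ t := ⟨_, rfl⟩
  rw [← hx] at h2 h3 ⊢
  refine Nat.le_of_mul_le_mul_left (c := r + 1) ?_ (by omega)
  have h6 : r * Ac F (t + 1) ≤ r * x := Nat.mul_le_mul_left _ h3
  nlinarith

lemma geom_le (q : ℕ) (hq : 1 ≤ q) (J : ℕ) : (q - 1) * ∑ j ∈ Finset.Ico 1 (J + 1), q ^ j ≤ q ^ (J + 1) := by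
  induction J with
  | zero => simp
  | succ J ih =>
    rw [Finset.sum_Ico_succ_top (by omega), mul_add]
    calc (q - 1) * ∑ j ∈ Finset.Ico 1 (J + 1), q ^ j + (q - 1) * q ^ (J + 1)
        ≤ q ^ (J + 1) + (q - 1) * q ^ (J + 1) := Nat.add_le_add_right ih _
      _ = (q - 1 + 1) * q ^ (J + 1) := by ring
      _ = q * q ^ (J + 1) := by rw [Nat.sub_add_cancel hq]
      _ = q ^ (J + 1 + 1) := (pow_succ' q (J + 1)).symm

/-- For `c ≤ q - 1` the term is bounded by the number of all tuples. -/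
lemma B_le (c m : ℕ) (hc : c ≤ Fintype.card F - 1) : c * Uc F m + Ac F m ≤ Fintype.card F ^ (m + 1) := by
  have h1 := card_rel (F := F) m
  have h2 := K_le (F := F) (m + 1) (by omega)
  have h3 : c * Uc F m ≤ (Fintype.card F - 1) * Uc F m := Nat.mul_le_mul_right _ hc
  omega

/-- The terms with `c ≥ 2`. -/
lemma rest_le (n : ℕ) (hn : 5 ≤ n) :
    ∑ c ∈ (Nat.gcd (Fintype.card F - 1) n).divisors.erase 1, Nat.totient c *
        (c * Uc F (n / c - 1) + Ac F (n / c - 1)) ≤ Fintype.card F ^ (n - 2) := by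
  classical
  have hq : 2 ≤ Fintype.card F := two_le_q
  set q := Fintype.card F with hqq
  set S := (Nat.gcd (q - 1) n).divisors.erase 1 with hS
  have hmem : ∀ c ∈ S, c ∣ n ∧ c ∣ q - 1 ∧ c ≠ 1 ∧ 0 < c := by
    intro c hc
    rw [hS, Finset.mem_erase, Nat.mem_divisors] at hc
    have h1 := hc.2.1.trans (Nat.gcd_dvd_right _ _)
    exact ⟨h1, hc.2.1.trans (Nat.gcd_dvd_left _ _), hc.1, Nat.pos_of_dvd_of_pos h1 (by omega)⟩
  have h1 : ∀ c ∈ S, Nat.totient c * (c * Uc F (n / c - 1) + Ac F (n / c - 1)) ≤ (q - 1) * q ^ (n / c) := by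
    intro c hc
    obtain ⟨h2, h3, h4, h5⟩ := hmem c hc
    have h6 : c ≤ q - 1 := Nat.le_of_dvd (by omega) h3
    have h7 : Nat.totient c ≤ q - 1 := (Nat.totient_le c).trans h6
    have h8 := B_le (F := F) c (n / c - 1) h6
    have h9 : 0 < n / c := Nat.div_pos (Nat.le_of_dvd (by omega) h2) h5
    have h10 : n / c - 1 + 1 = n / c := by omega
    rw [h10] at h8
    exact Nat.mul_le_mul h7 h8
  refine (Finset.sum_le_sum h1).trans ?_
  rw [← Finset.mul_sum]
  have hinj : Set.InjOn (fun c => n / c) (S : Set ℕ) := by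
    intro c hc c' hc' h
    obtain ⟨h2, -, -, h5⟩ := hmem c hc
    obtain ⟨h2', -, -, h5'⟩ := hmem c' hc'
    simp only at h
    have h3 := Nat.div_mul_cancel h2
    have h3' := Nat.div_mul_cancel h2'
    have h9 : 0 < n / c := Nat.div_pos (Nat.le_of_dvd (by omega) h2) h5
    rw [h] at h3
    exact Nat.eq_of_mul_eq_mul_left (by rwa [← h]) (h3.trans h3'.symm)
  have h2 : ∑ c ∈ S, q ^ (n / c) = ∑ j ∈ S.image (fun c => n / c), q ^ j :=
    (Finset.sum_image hinj).symm
  rw [h2]
  have hsub : S.image (fun c => n / c) ⊆ Finset.Ico 1 (n / 2 + 1) := by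
    intro j hj
    obtain ⟨c, hc, rfl⟩ := Finset.mem_image.mp hj
    obtain ⟨h3, -, h5, h6⟩ := hmem c hc
    have h7 : 2 ≤ c := by omega
    rw [Finset.mem_Ico]
    refine ⟨Nat.div_pos (Nat.le_of_dvd (by omega) h3) h6, ?_⟩
    have : n / c ≤ n / 2 := Nat.div_le_div_left h7 (by omega)
    omega
  have h3 : ∑ j ∈ S.image (fun c => n / c), q ^ j ≤ ∑ j ∈ Finset.Ico 1 (n / 2 + 1), q ^ j :=
    Finset.sum_le_sum_of_subset hsub
  refine (Nat.mul_le_mul_left _ h3).trans ((geom_le q (by omega) (n / 2)).trans ?_)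
  exact Nat.pow_le_pow_right (by omega) (by omega)

theorem BB_ge5 (n : ℕ) (hn : 5 ≤ n) :
    BB F n ≤ Fintype.card F ^ (n - 1) + 3 * Fintype.card F ^ (n - 2) := by
  classical
  unfold BB
  suffices h1 : ∀ k, k ≤ ∑ c ∈ (Nat.gcd (Fintype.card F - 1) n).divisors, Nat.totient c *
        (c * Uc F (n / c - 1) + Ac F (n / c - 1)) → k ≤ Fintype.card F ^ (n - 1) + 3 * Fintype.card F ^ (n - 2) from h1 _ le_rfl
  intro k h1
  have hq : 2 ≤ Fintype.card F := two_le_q
  have h2 : 1 ∈ (Nat.gcd (Fintype.card F - 1) n).divisors := by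
    rw [Nat.one_mem_divisors]
    exact Nat.gcd_ne_zero_right (by omega)
  rw [← Finset.add_sum_erase _ _ h2] at h1
  have h3 := rest_le (F := F) n hn
  have h4 := T1_le (F := F) (n - 1) (by omega)
  simp only [Nat.totient_one, one_mul, Nat.div_one] at h1
  have h5 : n - 1 - 1 = n - 2 := by omega
  rw [h5] at h4
  have h6 : Fintype.card F ^ (n - 1) = Fintype.card F * Fintype.card F ^ (n - 2) := by
    rw [← pow_succ']
    congr 1
    omega
  rw [h6]
  have h7 : (Fintype.card F + 2) * Fintype.card F ^ (n - 2) = Fintype.card F * Fintype.card F ^ (n - 2) + 2 * Fintype.card F ^ (n - 2) := by ring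
  omega

theorem bound_ge5 (n : ℕ) (hn : 5 ≤ n) :
    Nat.card (ConjClasses (Matrix.SpecialLinearGroup (Fin n) F)) ≤
      Fintype.card F ^ (n - 1) + 3 * Fintype.card F ^ (n - 2) :=
  (card_classes_le_B (F := F) n (by omega)).trans (BB_ge5 n hn)

lemma BB_two' : BB F 2 ≤ 2 * Fintype.card F + 1 := by
  have h1 : BB F 2 ≤ ∑ c ∈ (Nat.gcd (Fintype.card F - 1) 2).divisors, Nat.totient c *
        (c * Uc F (2 / c - 1) + Ac F (2 / c - 1)) := le_rfl
  have hq : 2 ≤ Fintype.card F := two_le_q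
  have hU1 := U_one (F := F)
  have hA1 := A_one (F := F)
  have hU0 := U_zero (F := F)
  have hA0 := A_zero (F := F)
  have hg : Nat.gcd (Fintype.card F - 1) 2 ∣ 2 := Nat.gcd_dvd_right _ _
  rcases (Nat.dvd_prime Nat.prime_two).mp hg with hg | hg
  · rw [hg] at h1
    simp only [Nat.divisors_one, Finset.sum_singleton, Nat.totient_one, one_mul, Nat.div_one] at h1
    norm_num at h1
    omega
  · rw [hg] at h1
    have hd : Nat.divisors 2 = {1, 2} := by decide
    rw [hd, Finset.sum_pair (by decide)] at h1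
    simp only [Nat.totient_one, one_mul, Nat.div_one, Nat.totient_two] at h1
    norm_num at h1
    omega

lemma BB_two : 2 * BB F 2 ≤ 5 * Fintype.card F := by
  have h1 := BB_two' (F := F)
  have hq : 2 ≤ Fintype.card F := two_le_q
  omega

lemma bound_two : 2 * Nat.card (ConjClasses (Matrix.SpecialLinearGroup (Fin 2) F)) ≤ 5 * Fintype.card F :=
  (Nat.mul_le_mul_left 2 (card_classes_le_B (F := F) 2 (by omega))).trans BB_two

lemma BB_three : BB F 3 ≤ Fintype.card F ^ 2 + 3 * Fintype.card F := by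
  have h1 : BB F 3 ≤ ∑ c ∈ (Nat.gcd (Fintype.card F - 1) 3).divisors, Nat.totient c *
        (c * Uc F (3 / c - 1) + Ac F (3 / c - 1)) := le_rfl
  have hq : 2 ≤ Fintype.card F := two_le_q
  have hU0 := U_zero (F := F)
  have hA0 := A_zero (F := F)
  have hT : Uc F 2 + Ac F 2 + 2 ≤ Fintype.card F ^ 2 + 2 * Fintype.card F := by
    have h2 := card_rel (F := F) 2
    have h3 := K_three (F := F)
    have h4 := A_two (F := F)
    obtain ⟨r, hr⟩ : ∃ r, Fintype.card F = r + 2 := ⟨Fintype.card F - 2, by omega⟩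
    rw [hr] at h2 h3 h4 ⊢
    have h5 : r + 2 - 1 = r + 1 := by omega
    rw [h5] at h2 h4
    refine Nat.le_of_mul_le_mul_left (c := r + 1) ?_ (by omega)
    have h6 : r * Ac F 2 ≤ r * (r + 1) := Nat.mul_le_mul_left _ h4
    nlinarith
  have hg : Nat.gcd (Fintype.card F - 1) 3 ∣ 3 := Nat.gcd_dvd_right _ _
  rcases (Nat.dvd_prime Nat.prime_three).mp hg with hg | hg
  · rw [hg] at h1
    simp only [Nat.divisors_one, Finset.sum_singleton, Nat.totient_one, one_mul, Nat.div_one] at h1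
    norm_num at h1
    nlinarith
  · have h3q : 3 ∣ Fintype.card F - 1 := by
      rw [← hg]
      exact Nat.gcd_dvd_left _ _
    have hq4 : 4 ≤ Fintype.card F := by
      have := Nat.le_of_dvd (by omega) h3q
      omega
    rw [hg] at h1
    have hd : Nat.divisors 3 = {1, 3} := by decide
    have ht : Nat.totient 3 = 2 := by decide
    rw [hd, Finset.sum_pair (by decide), ht] at h1
    simp only [Nat.totient_one, one_mul, Nat.div_one] at h1
    norm_num at h1
    omega

lemma bound_three : Nat.card (ConjClasses (Matrix.SpecialLinearGroup (Fin 3) F)) ≤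
    Fintype.card F ^ 2 + 3 * Fintype.card F :=
  (card_classes_le_B (F := F) 3 (by omega)).trans BB_three

lemma BB_four : BB F 4 ≤ Fintype.card F ^ 3 + 3 * Fintype.card F ^ 2 := by
  have h1 : BB F 4 ≤ ∑ c ∈ (Nat.gcd (Fintype.card F - 1) 4).divisors, Nat.totient c *
        (c * Uc F (4 / c - 1) + Ac F (4 / c - 1)) := le_rfl
  have hq : 2 ≤ Fintype.card F := two_le_q
  have hU0 := U_zero (F := F)
  have hA0 := A_zero (F := F)
  have hU1 := U_one (F := F)
  have hA1 := A_one (F := F)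
  have hT : Uc F 3 + Ac F 3 + 1 ≤ Fintype.card F ^ 3 + 2 * Fintype.card F ^ 2 := by
    have h2 := card_rel (F := F) 3
    have h3 := K_le (F := F) 4 (by omega)
    have h4 := A_three (F := F)
    obtain ⟨r, hr⟩ : ∃ r, Fintype.card F = r + 2 := ⟨Fintype.card F - 2, by omega⟩
    rw [hr] at h2 h3 h4 ⊢
    have h5 : r + 2 - 1 = r + 1 := by omega
    rw [h5] at h2
    have h4' : Ac F 3 + 1 ≤ (r + 2) ^ 2 := by
      have : 1 ≤ (r + 2) ^ 2 := Nat.one_le_pow _ _ (by omega)
      omega
    refine Nat.le_of_mul_le_mul_left (c := r + 1) ?_ (by omega)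
    have h6 : r * (Ac F 3 + 1) ≤ r * (r + 2) ^ 2 := Nat.mul_le_mul_left _ h4'
    nlinarith
  have hg : Nat.gcd (Fintype.card F - 1) 4 ∣ 4 := Nat.gcd_dvd_right _ _
  have hcases : Nat.gcd (Fintype.card F - 1) 4 = 1 ∨ Nat.gcd (Fintype.card F - 1) 4 = 2 ∨ Nat.gcd (Fintype.card F - 1) 4 = 4 := by
    have h2 : Nat.gcd (Fintype.card F - 1) 4 ≤ 4 := Nat.le_of_dvd (by omega) hg
    interval_cases (Nat.gcd (Fintype.card F - 1) 4) <;> simp_all
  have hq2 : Fintype.card F ^ 2 = Fintype.card F * Fintype.card F := by ring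
  have hA1' : Ac F 1 + 1 ≤ Fintype.card F := by omega
  rcases hcases with hg | hg | hg
  · rw [hg] at h1
    simp only [Nat.divisors_one, Finset.sum_singleton, Nat.totient_one, one_mul, Nat.div_one] at h1
    norm_num at h1
    nlinarith
  · have h3q : 2 ∣ Fintype.card F - 1 := by
      rw [← hg]
      exact Nat.gcd_dvd_left _ _
    have hq4 : 3 ≤ Fintype.card F := by
      have := Nat.le_of_dvd (by omega) h3q
      omega
    rw [hg] at h1
    have hd : Nat.divisors 2 = {1, 2} := by decide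
    rw [hd, Finset.sum_pair (by decide)] at h1
    simp only [Nat.totient_one, one_mul, Nat.div_one, Nat.totient_two] at h1
    norm_num at h1
    have h2q : 3 * Fintype.card F ≤ Fintype.card F * Fintype.card F + 2 := by nlinarith
    rw [hq2] at hT ⊢
    linarith
  · have h3q : 4 ∣ Fintype.card F - 1 := by
      rw [← hg]
      exact Nat.gcd_dvd_left _ _
    have hq4 : 5 ≤ Fintype.card F := by
      have := Nat.le_of_dvd (by omega) h3q
      omega
    rw [hg] at h1
    have hd : Nat.divisors 4 = {1, 2, 4} := by decide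
    have ht : Nat.totient 4 = 2 := by decide
    rw [hd, Finset.sum_insert (by decide), Finset.sum_pair (by decide), ht] at h1
    simp only [Nat.totient_one, one_mul, Nat.div_one, Nat.totient_two] at h1
    norm_num at h1
    have h2q : 3 * Fintype.card F + 6 ≤ Fintype.card F * Fintype.card F := by nlinarith
    rw [hq2] at hT ⊢
    linarith

lemma bound_four : Nat.card (ConjClasses (Matrix.SpecialLinearGroup (Fin 4) F)) ≤
    Fintype.card F ^ 3 + 3 * Fintype.card F ^ 2 :=
  (card_classes_le_B (F := F) 4 (by omega)).trans BB_four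

lemma BB_one : BB F 1 ≤ 1 := by
  have h1 : BB F 1 ≤ ∑ c ∈ (Nat.gcd (Fintype.card F - 1) 1).divisors, Nat.totient c *
        (c * Uc F (1 / c - 1) + Ac F (1 / c - 1)) := le_rfl
  have hU0 := U_zero (F := F)
  have hA0 := A_zero (F := F)
  simp only [Nat.gcd_one_right, Nat.divisors_one, Finset.sum_singleton, Nat.totient_one, one_mul, Nat.div_one] at h1
  norm_num at h1
  omega

/-- A uniform bound. -/
lemma BB_le (m : ℕ) (hm : 1 ≤ m) : BB F m ≤ 3 * Fintype.card F ^ (m - 1) := by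
  have hq : 2 ≤ Fintype.card F := two_le_q
  by_cases h5 : 5 ≤ m
  · have h1 := BB_ge5 (F := F) m h5
    have h6 : Fintype.card F ^ (m - 1) = Fintype.card F * Fintype.card F ^ (m - 2) := by
      rw [← pow_succ']
      congr 1
      omega
    rw [h6] at h1 ⊢
    nlinarith [Nat.zero_le (Fintype.card F ^ (m - 2))]
  · have h6 : m = 1 ∨ m = 2 ∨ m = 3 ∨ m = 4 := by omega
    rcases h6 with rfl | rfl | rfl | rfl
    · have := BB_one (F := F)
      simp only [Nat.sub_self, pow_zero]
      omega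
    · have := BB_two (F := F)
      simp only [Nat.reduceSub, pow_one]
      omega
    · have := BB_three (F := F)
      simp only [Nat.reduceSub]
      nlinarith
    · have := BB_four (F := F)
      simp only [Nat.reduceSub]
      nlinarith

/-- The class number is bigger than the number of semisimple classes. -/
theorem lt_card_classes (n : ℕ) (hn : 2 ≤ n) :
    Fintype.card F ^ (n - 1) < Nat.card (ConjClasses (Matrix.SpecialLinearGroup (Fin n) F)) := by
  classical
  obtain ⟨p, hp⟩ := CharP.exists F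
  haveI : Fact p.Prime := ⟨CharP.char_is_prime F p⟩
  obtain ⟨k, rfl⟩ : ∃ k, n = k + 1 := ⟨n - 1, by omega⟩
  have h1 := card_classes_sl (F := F) (p := p) k
  rw [Nat.add_sub_cancel, ← h1]
  have hk : 0 < k := by omega
  let i : Fin (k + 1) := 0
  let j : Fin (k + 1) := ⟨1, by omega⟩
  have hij : i ≠ j := by
    intro h
    have := congrArg Fin.val h
    simp [i, j] at this
  let t : Matrix.SpecialLinearGroup (Fin (k + 1)) F := ⟨Matrix.transvection i j 1, Matrix.det_transvection_of_ne i j hij 1⟩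
  have htp : ∀ m : ℕ, ((t ^ m : Matrix.SpecialLinearGroup (Fin (k + 1)) F) : Matrix (Fin (k + 1)) (Fin (k + 1)) F) = Matrix.transvection i j (m : F) := by
    intro m
    induction m with
    | zero => simp
    | succ m ih =>
      rw [pow_succ, Matrix.SpecialLinearGroup.coe_mul, ih]
      show Matrix.transvection i j (m : F) * Matrix.transvection i j 1 = _
      rw [Matrix.transvection_mul_transvection_same _ _ hij]
      push_cast
      rfl
  have hord : orderOf t = p := by
    apply orderOf_eq_prime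
    · apply Subtype.ext
      rw [htp]
      simp [CharP.cast_eq_zero F p]
    · intro h
      have h2 := congrArg (fun z : Matrix.SpecialLinearGroup (Fin (k + 1)) F => (z : Matrix (Fin (k + 1)) (Fin (k + 1)) F) i j) h
      simp [t, Matrix.transvection, Matrix.one_apply, hij, Matrix.single] at h2
  refine Finite.card_subtype_lt (x := ConjClasses.mk t) ?_
  rintro ⟨g, hg, hg2⟩
  have h2 := ConjClasses.mk_eq_mk_iff_isConj.mp hg
  obtain ⟨u, hu⟩ := isConj_iff.mp h2
  have h3 : orderOf g = orderOf t := by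
    rw [← hu]
    exact (orderOf_injective (MulAut.conj u).toMonoidHom (MulAut.conj u).injective g).symm ▸ rfl
  rw [h3, hord] at hg2
  exact (Fact.out : p.Prime).one_lt.ne' (Nat.coprime_self p |>.mp hg2)

end Cfsg.Agent.Lib.KS2.SLCl
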