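import Mathlib
import Cfsg.Agent.Lib.KS2.SLCl3

/-!
# Uniqueness of elementary divisors
-/

set_option autoImplicit false
set_option linter.unusedSimpArgs false
set_option linter.unusedVariables false
set_option linter.deprecated false

universe u

namespace Cfsg.Agent.Lib.KS2.SLCl

open Polynomial Module Cfsg.Agent.Lib.KS2.GLCount Cfsg.Agent.Lib.KS2.GLType Cfsg.Agent.Lib.KS2.SSConj

variable {F : Type u} [Field F]

section Ker

/-- The kernel of `a` on the cyclic module of `a * b`. -/
lemma finrank_ker_mulQ_mul (a b : F[X]) (ha : a.Monic) (hb : b.Monic) :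
    finrank F (LinearMap.ker (mulQ (a * b) a)) = a.natDegree := by
  have ha0 := ha.ne_zero
  have hb0 := hb.ne_zero
  let Φ : F[X] →ₗ[F[X]] Qt (a * b) := LinearMap.toSpanSingleton F[X] (Qt (a * b)) (Submodule.Quotient.mk b)
  have hΦ : ∀ g, Φ g = Submodule.Quotient.mk (g * b) := by
    intro g
    show g • (Submodule.Quotient.mk b : Qt (a * b)) = _
    rw [← Submodule.Quotient.mk_smul, smul_eq_mul]
  have h0 : ∀ g : F[X], (Submodule.Quotient.mk g : Qt (a * b)) = 0 ↔ a * b ∣ g := by
    intro g
    rw [Submodule.Quotient.mk_eq_zero, Submodule.mem_span_singleton]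
    constructor
    · rintro ⟨c, hc⟩
      exact ⟨c, by rw [← hc, smul_eq_mul, mul_comm]⟩
    · rintro ⟨c, hc⟩
      exact ⟨c, by rw [hc, smul_eq_mul, mul_comm]⟩
  have hle : (Submodule.span F[X] {a} : Submodule F[X] F[X]) ≤ LinearMap.ker Φ := by
    rw [Submodule.span_singleton_le_iff_mem, LinearMap.mem_ker, hΦ, h0]
  let Ψ : Qt a →ₗ[F[X]] Qt (a * b) := Submodule.liftQ _ Φ hle
  have hΨ : ∀ g, Ψ (Submodule.Quotient.mk g) = Submodule.Quotient.mk (g * b) := by
    intro g
    show Φ g = _
    exact hΦ g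
  let Ψ' : Qt a →ₗ[F] Qt (a * b) := Ψ.restrictScalars F
  have hinj : Function.Injective Ψ' := by
    rw [← LinearMap.ker_eq_bot, LinearMap.ker_eq_bot']
    intro z hz
    obtain ⟨g, rfl⟩ := Submodule.Quotient.mk_surjective _ z
    have h1 : Ψ (Submodule.Quotient.mk g) = 0 := hz
    rw [hΨ, h0] at h1
    obtain ⟨c, hc⟩ := h1
    have h2 : g = a * c := by
      have : b * g = b * (a * c) := by
        rw [mul_comm b g, hc]
        ring
      exact mul_left_cancel₀ hb0 this
    rw [Submodule.Quotient.mk_eq_zero, Submodule.mem_span_singleton]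
    exact ⟨c, by rw [h2, smul_eq_mul, mul_comm]⟩
  have hrange : LinearMap.ker (mulQ (a * b) a) = LinearMap.range Ψ' := by
    ext v
    obtain ⟨g, rfl⟩ := Submodule.Quotient.mk_surjective _ v
    rw [LinearMap.mem_ker, mulQ_apply, ← Submodule.Quotient.mk_smul, smul_eq_mul, h0]
    constructor
    · rintro ⟨c, hc⟩
      have h2 : g = b * c := by
        have : a * g = a * (b * c) := by
          rw [hc]
          ring
        exact mul_left_cancel₀ ha0 this
      refine ⟨Submodule.Quotient.mk c, ?_⟩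
      show Ψ _ = _
      rw [hΨ, h2, mul_comm c b]
    · rintro ⟨z, hz⟩
      obtain ⟨c, rfl⟩ := Submodule.Quotient.mk_surjective _ z
      have h1 : Ψ (Submodule.Quotient.mk c) = Submodule.Quotient.mk g := hz
      rw [hΨ, Submodule.Quotient.eq, Submodule.mem_span_singleton] at h1
      obtain ⟨d, hd⟩ := h1
      rw [smul_eq_mul] at hd
      refine ⟨c - d * a, ?_⟩
      have h2 : g = c * b - d * (a * b) := by
        rw [hd]
        ring
      rw [h2]
      ring
  rw [hrange, LinearMap.finrank_range_of_inj hinj, finrank_Qt]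

/-- The case of the same prime. -/
lemma finrank_ker_mulQ_same (π : F[X]) (hπ : π.Monic) (e j : ℕ) :
    finrank F (LinearMap.ker (mulQ (π ^ e) (π ^ j))) = min j e * π.natDegree := by
  by_cases h : j ≤ e
  · obtain ⟨t, rfl⟩ : ∃ t, e = j + t := ⟨e - j, by omega⟩
    have h1 : π ^ (j + t) = π ^ j * π ^ t := pow_add _ _ _
    have h2 := finrank_ker_mulQ_mul (π ^ j) (π ^ t) (hπ.pow j) (hπ.pow t)
    rw [← h1, hπ.natDegree_pow] at h2
    rw [h2, min_eq_left h]
  · have h1 : mulQ (π ^ e) (π ^ j) = 0 := by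
      refine LinearMap.ext fun z => ?_
      obtain ⟨g, rfl⟩ := Submodule.Quotient.mk_surjective _ z
      rw [LinearMap.zero_apply, mulQ_apply, ← Submodule.Quotient.mk_smul, Submodule.Quotient.mk_eq_zero, Submodule.mem_span_singleton]
      refine ⟨π ^ (j - e) * g, ?_⟩
      simp only [smul_eq_mul]
      have h3 : π ^ j = π ^ (j - e) * π ^ e := by
        rw [← pow_add]
        congr 1
        omega
      rw [h3]
      ring
    rw [h1, LinearMap.ker_zero, finrank_top, finrank_Qt, hπ.natDegree_pow, min_eq_right (by omega)]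

/-- The case of different primes. -/
lemma finrank_ker_mulQ_ne (p π : F[X]) (hp : Irreducible p) (hpm : p.Monic) (hπ : Irreducible π) (hπm : π.Monic)
    (hne : p ≠ π) (e j : ℕ) : finrank F (LinearMap.ker (mulQ (p ^ e) (π ^ j))) = 0 := by
  have hcop : IsCoprime (p ^ e) (π ^ j) := by
    apply IsCoprime.pow
    refine (irreducible_iff_prime.mp hp).coprime_iff_not_dvd.mpr ?_
    intro hd
    have h1 := (hp.dvd_irreducible_iff_associated hπ).mp hd
    exact hne (eq_of_monic_of_associated hpm hπm h1)
  have h1 : LinearMap.ker (mulQ (p ^ e) (π ^ j)) = ⊥ := by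
    rw [LinearMap.ker_eq_bot']
    intro z hz
    obtain ⟨g, rfl⟩ := Submodule.Quotient.mk_surjective _ z
    rw [mulQ_apply, ← Submodule.Quotient.mk_smul, Submodule.Quotient.mk_eq_zero, Submodule.mem_span_singleton] at hz
    obtain ⟨c, hc⟩ := hz
    rw [Submodule.Quotient.mk_eq_zero, Submodule.mem_span_singleton]
    have h2 : p ^ e ∣ π ^ j * g := ⟨c, by
      simp only [smul_eq_mul] at hc
      rw [← hc, mul_comm]⟩
    obtain ⟨d, hd⟩ := hcop.dvd_of_dvd_mul_left h2
    exact ⟨d, by rw [hd, smul_eq_mul, mul_comm]⟩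
  rw [h1, finrank_bot]

/-- Kernels on products. -/
noncomputable def kerPiE {ι : Type u} {Q : ι → Type u} [∀ j, AddCommGroup (Q j)] [∀ j, Module F (Q j)]
    (Y : ∀ j, Q j →ₗ[F] Q j) : LinearMap.ker (piM Y) ≃ₗ[F] ∀ j, LinearMap.ker (Y j) where
  toFun z j := ⟨z.1 j, congrFun (LinearMap.mem_ker.mp z.2) j⟩
  map_add' a b := rfl
  map_smul' c a := rfl
  invFun z := ⟨fun j => (z j).1, LinearMap.mem_ker.mpr (funext fun j => (z j).2)⟩
  left_inv z := rfl
  right_inv z := rfl

lemma finrank_ker_piM {ι : Type u} [Fintype ι] {Q : ι → Type u} [∀ j, AddCommGroup (Q j)] [∀ j, Module F (Q j)]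
    [∀ j, FiniteDimensional F (Q j)] (Y : ∀ j, Q j →ₗ[F] Q j) :
    finrank F (LinearMap.ker (piM Y)) = ∑ j, finrank F (LinearMap.ker (Y j)) := by
  rw [(kerPiE Y).finrank_eq, Module.finrank_pi_fintype]

/-- Kernels of polynomials under conjugation. -/
lemma finrank_ker_conj {V V' : Type*} [AddCommGroup V] [Module F V] [AddCommGroup V'] [Module F V']
    (L : V ≃ₗ[F] V') (A : Module.End F V) (B : Module.End F V') (h : ∀ v, L (A v) = B (L v)) (w : F[X]) :
    finrank F (LinearMap.ker (aeval A w)) = finrank F (LinearMap.ker (aeval B w)) := by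
  have h1 : ∀ w : F[X], ∀ v, L (aeval A w v) = aeval B w (L v) := by
    intro w
    induction w using Polynomial.induction_on' with
    | add p q hp hq =>
      intro v
      simp [hp, hq]
    | monomial n a =>
      intro v
      simp only [aeval_monomial, Module.End.mul_apply, Module.algebraMap_end_apply, map_smul]
      congr 1
      induction n generalizing v with
      | zero => simp
      | succ n ih =>
        rw [pow_succ, pow_succ, Module.End.mul_apply, Module.End.mul_apply, ih, h]
  have h2 : LinearMap.ker (aeval B w) = (LinearMap.ker (aeval A w)).map L.toLinearMap := by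
    ext v
    obtain ⟨u, rfl⟩ := L.surjective v
    rw [LinearMap.mem_ker, ← h1]
    simp only [Submodule.mem_map, LinearMap.mem_ker, LinearEquiv.coe_coe]
    constructor
    · intro h3
      exact ⟨u, by simpa using h3, rfl⟩
    · rintro ⟨u', h3, h4⟩
      rw [← L.injective h4, h3, map_zero]
  rw [h2, LinearEquiv.finrank_map_eq]

end Ker

section Dec

variable {V : Type u} [AddCommGroup V] [Module F V] [FiniteDimensional F V] {T : V →ₗ[F] V}

open Classical in
/-- The partial sums attached to a decomposition. -/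
noncomputable def sD (D : Dec T) (π : F[X]) (j : ℕ) : ℕ :=
  letI := D.ft
  ∑ i, if D.p i = π then min j (D.e i) else 0

lemma aeval_piM (D : Dec T) (w : F[X]) :
    aeval (piM (fun i => mulQ (D.p i ^ D.e i) X)) w = piM (fun i => mulQ (D.p i ^ D.e i) w) := by
  have h1 : ∀ w : F[X], piM (fun i => mulQ (D.p i ^ D.e i) w) = Algebra.lsmul F F (∀ i, Qt (D.p i ^ D.e i)) w := by
    intro w
    rfl
  rw [h1, h1, aeval_algHom_apply, aeval_X_left_apply]

/-- The dimension of kernels of powers of a prime. -/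
theorem finrank_ker_eq (D : Dec T) (π : F[X]) (hπ : Irreducible π) (hm : π.Monic) (j : ℕ) :
    finrank F (LinearMap.ker (aeval T (π ^ j))) = sD D π j * π.natDegree := by
  classical
  letI := D.ft
  haveI := D.fact
  have h1 := finrank_ker_conj D.L T (piM (fun i => mulQ (D.p i ^ D.e i) X)) (fun v => by
    rw [D.L_T]
    rfl) (π ^ j)
  rw [h1, aeval_piM, finrank_ker_piM]
  unfold sD
  rw [Finset.sum_mul]
  refine Finset.sum_congr rfl fun i _ => ?_
  by_cases hi : D.p i = π
  · rw [if_pos hi, hi, finrank_ker_mulQ_same π hm]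
  · rw [if_neg hi, finrank_ker_mulQ_ne _ _ (D.hp i) (D.hm i) hπ hm hi, zero_mul]

open Classical in
/-- Second differences count the elementary divisors. -/
lemma sD_count (D : Dec T) (π : F[X]) (k : ℕ) (hk : 1 ≤ k) :
    sD D π (k - 1) + sD D π (k + 1) + Nat.card {i : D.ι // D.p i = π ∧ D.e i = k} = 2 * sD D π k := by
  letI := D.ft
  have h1 : Nat.card {i : D.ι // D.p i = π ∧ D.e i = k} = ∑ i, if D.p i = π ∧ D.e i = k then 1 else 0 := by
    rw [Nat.card_eq_fintype_card, Fintype.card_subtype, Finset.card_filter]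
  rw [h1]
  unfold sD
  rw [← Finset.sum_add_distrib, ← Finset.sum_add_distrib, Finset.mul_sum]
  refine Finset.sum_congr rfl fun i _ => ?_
  by_cases hi : D.p i = π
  · simp only [hi, if_true, true_and]
    split_ifs with h2 <;> omega
  · simp [hi]

/-- Uniqueness of elementary divisors. -/
theorem count_eq_of_ker {V' : Type u} [AddCommGroup V'] [Module F V'] [FiniteDimensional F V'] {T' : V' →ₗ[F] V'}
    (D : Dec T) (D' : Dec T') (π π' : F[X]) (hπ : Irreducible π) (hm : π.Monic) (hπ' : Irreducible π') (hm' : π'.Monic)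
    (hdeg : π'.natDegree = π.natDegree)
    (h : ∀ j, finrank F (LinearMap.ker (aeval T (π ^ j))) = finrank F (LinearMap.ker (aeval T' (π' ^ j))))
    (k : ℕ) (hk : 1 ≤ k) :
    Nat.card {i : D.ι // D.p i = π ∧ D.e i = k} = Nat.card {i : D'.ι // D'.p i = π' ∧ D'.e i = k} := by
  classical
  have hpos : 0 < π.natDegree := by
    rw [Nat.pos_iff_ne_zero]
    intro h0
    exact hπ.not_isUnit (by rw [eq_one_of_monic_natDegree_zero hm h0]; exact isUnit_one)
  have hs : ∀ j, sD D π j = sD D' π' j := by
    intro j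
    have h1 := h j
    rw [finrank_ker_eq D π hπ hm, finrank_ker_eq D' π' hπ' hm', hdeg] at h1
    exact Nat.eq_of_mul_eq_mul_right hpos h1
  have h1 := sD_count D π k hk
  have h2 := sD_count D' π' k hk
  rw [hs, hs (k + 1), hs k] at h1
  omega

end Dec

end Cfsg.Agent.Lib.KS2.SLCl
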