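import Mathlib
import Cfsg.Agent.Lib.KS2.SLCl7
import Cfsg.Agent.Lib.KS2.SLCl8

/-!
# Tuples invariant under scaling the variable
-/

set_option autoImplicit false
set_option linter.unusedSimpArgs false
set_option linter.unusedVariables false
set_option linter.deprecated false

universe u

namespace Cfsg.Agent.Lib.KS2.SLCl

open Polynomial Module Cfsg.Agent.Lib.KS2.GLCount Cfsg.Agent.Lib.KS2.GLType Cfsg.Agent.Lib.KS2.SSConj

variable {F : Type u} [Field F]

section Sh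

lemma Sh_inv {ζ : F} (hζ : ζ ≠ 0) (f : F[X]) : (f.scaleRoots ζ).scaleRoots ζ⁻¹ = f := by
  rw [← scaleRoots_mul, mul_inv_cancel₀ hζ, scaleRoots_one]

lemma Sh_inv' {ζ : F} (hζ : ζ ≠ 0) (f : F[X]) : (f.scaleRoots ζ⁻¹).scaleRoots ζ = f := by
  rw [← scaleRoots_mul, inv_mul_cancel₀ hζ, scaleRoots_one]

lemma Sh_irr {ζ : F} (hζ : ζ ≠ 0) {π : F[X]} (hπ : Irreducible π) : Irreducible (π.scaleRoots ζ) := by
  have hunit : ∀ a : F[X], a ≠ 0 → a.natDegree = 0 → IsUnit a := by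
    intro a ha h
    rw [Polynomial.isUnit_iff_degree_eq_zero, degree_eq_natDegree ha, h]
    rfl
  have hunit' : ∀ a : F[X], IsUnit a → a.natDegree = 0 := fun a ha => natDegree_eq_zero_of_isUnit ha
  constructor
  · intro h
    apply hπ.not_isUnit
    apply hunit _ hπ.ne_zero
    rw [← natDegree_scaleRoots π ζ]
    exact hunit' _ h
  · intro a b hab
    have h1 : π = a.scaleRoots ζ⁻¹ * b.scaleRoots ζ⁻¹ := by
      rw [← mul_scaleRoots_of_noZeroDivisors, ← hab, Sh_inv hζ]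
    have hπ0 : π.scaleRoots ζ ≠ 0 := scaleRoots_ne_zero hπ.ne_zero _
    have ha0 : a ≠ 0 := by
      rintro rfl
      simp at hab
      exact hπ0 hab
    have hb0 : b ≠ 0 := by
      rintro rfl
      simp at hab
      exact hπ0 hab
    rcases hπ.isUnit_or_isUnit h1 with h | h
    · left
      apply hunit _ ha0
      rw [← natDegree_scaleRoots a ζ⁻¹]
      exact hunit' _ h
    · right
      apply hunit _ hb0
      rw [← natDegree_scaleRoots b ζ⁻¹]
      exact hunit' _ h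

variable {V : Type*} [AddCommGroup V] [Module F V]

lemma aeval_smul_Sh (ζ : F) (T : Module.End F V) (π : F[X]) :
    aeval (ζ • T) (π.scaleRoots ζ) = ζ ^ π.natDegree • aeval T π := by
  have h1 : (π.scaleRoots ζ).comp (C ζ * X) = C (ζ ^ π.natDegree) * π := by
    ext n
    rw [comp_C_mul_X_coeff, coeff_scaleRoots, coeff_C_mul]
    by_cases h : n ≤ π.natDegree
    · rw [mul_assoc, ← pow_add, Nat.sub_add_cancel h, mul_comm]
    · rw [coeff_eq_zero_of_natDegree_lt (by omega)]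
      simp
  have h2 : ∀ f : F[X], aeval (ζ • T) f = aeval T (f.comp (C ζ * X)) := by
    intro f
    rw [aeval_comp]
    congr 2
    simp [Algebra.smul_def]
  rw [h2, h1, map_mul, aeval_C, Algebra.algebraMap_eq_smul_one, smul_mul_assoc, one_mul]

lemma finrank_shift (L : V ≃ₗ[F] V) (T : Module.End F V) {ζ : F} (hζ : ζ ≠ 0) (h : ∀ v, L (T v) = (ζ • T) (L v))
    (π : F[X]) (j : ℕ) :
    finrank F (LinearMap.ker (aeval T (π ^ j))) = finrank F (LinearMap.ker (aeval T ((π.scaleRoots ζ) ^ j))) := by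
  have h1 : aeval (ζ • T) ((π.scaleRoots ζ) ^ j) = (ζ ^ π.natDegree) ^ j • aeval T (π ^ j) := by
    rw [map_pow, aeval_smul_Sh, _root_.smul_pow, map_pow]
  rw [finrank_ker_conj L T (ζ • T) h ((π.scaleRoots ζ) ^ j), h1,
    LinearMap.ker_smul _ _ (pow_ne_zero _ (pow_ne_zero _ hζ))]

end Sh

section Tup

lemma scaleRoots_prod {α : Type*} (s : Finset α) (g : α → F[X]) (ζ : F) :
    (∏ i ∈ s, g i).scaleRoots ζ = ∏ i ∈ s, (g i).scaleRoots ζ := by
  classical
  induction s using Finset.induction_on with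
  | empty => simp
  | insert a s ha ih =>
    rw [Finset.prod_insert ha, Finset.prod_insert ha, mul_scaleRoots_of_noZeroDivisors, ih]

lemma prod_fibers {α M : Type*} [CommMonoid M] [DecidableEq M] (s : Finset α) (f g : α → M)
    (h : ∀ c, (s.filter (fun a => f a = c)).card = (s.filter (fun a => g a = c)).card) :
    ∏ a ∈ s, f a = ∏ a ∈ s, g a := by
  have h1 : s.val.map f = s.val.map g := by
    ext c
    rw [Multiset.count_map, Multiset.count_map]
    have h2 := h c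
    simp only [Finset.card, Finset.filter_val] at h2
    convert h2 using 2
    · exact Multiset.filter_congr fun a _ => eq_comm
    · exact Multiset.filter_congr fun a _ => eq_comm
  show (s.val.map f).prod = (s.val.map g).prod
  rw [h1]

variable {V : Type u} [AddCommGroup V] [Module F V] [FiniteDimensional F V] {T : V →ₗ[F] V}

/-- The tuple of a decomposition is invariant. -/
theorem tup_shift (D : Dec T) (L : V ≃ₗ[F] V) {ζ : F} (hζ : ζ ≠ 0) (h : ∀ v, L (T v) = (ζ • T) (L v))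
    (n : ℕ) (k : Fin n) : (D.tup n k).scaleRoots ζ = D.tup n k := by
  classical
  letI := D.ft
  unfold Dec.tup
  rw [scaleRoots_prod]
  apply prod_fibers
  intro c
  -- the two fibres
  have hcard : ∀ π : F[X], ((Finset.univ.filter (fun i => D.e i = (k : ℕ) + 1)).filter (fun i => D.p i = π)).card =
      Nat.card {i : D.ι // D.p i = π ∧ D.e i = (k : ℕ) + 1} := by
    intro π
    rw [Nat.card_eq_fintype_card, Fintype.card_subtype, Finset.filter_filter]
    congr 1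
    ext i
    simp only [Finset.mem_filter, Finset.mem_univ, true_and]
    exact and_comm
  have h1 : ((Finset.univ.filter (fun i => D.e i = (k : ℕ) + 1)).filter (fun i => (D.p i).scaleRoots ζ = c)) =
      ((Finset.univ.filter (fun i => D.e i = (k : ℕ) + 1)).filter (fun i => D.p i = c.scaleRoots ζ⁻¹)) := by
    ext i
    simp only [Finset.mem_filter, Finset.mem_univ, true_and]
    refine and_congr_right fun _ => ?_
    constructor
    · intro h2
      rw [← h2, Sh_inv hζ]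
    · intro h2
      rw [h2, Sh_inv' hζ]
  rw [h1, hcard, hcard]
  by_cases hc : Irreducible (c.scaleRoots ζ⁻¹) ∧ (c.scaleRoots ζ⁻¹).Monic
  · have hc2 : c = (c.scaleRoots ζ⁻¹).scaleRoots ζ := (Sh_inv' hζ c).symm
    have := count_eq_of_ker D D (c.scaleRoots ζ⁻¹) ((c.scaleRoots ζ⁻¹).scaleRoots ζ) hc.1 hc.2 (Sh_irr hζ hc.1)
      ((monic_scaleRoots_iff ζ).mpr hc.2) (natDegree_scaleRoots _ _)
      (fun j => finrank_shift L T hζ h _ j) ((k : ℕ) + 1) (by omega)
    rw [← hc2] at this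
    exact this
  · have h2 : IsEmpty {i : D.ι // D.p i = c.scaleRoots ζ⁻¹ ∧ D.e i = (k : ℕ) + 1} := by
      refine ⟨fun i => hc ?_⟩
      rw [← i.2.1]
      exact ⟨D.hp _, D.hm _⟩
    have h3 : IsEmpty {i : D.ι // D.p i = c ∧ D.e i = (k : ℕ) + 1} := by
      refine ⟨fun i => hc ?_⟩
      have h4 : c.scaleRoots ζ⁻¹ = (D.p i.1).scaleRoots ζ⁻¹ := by rw [i.2.1]
      rw [h4]
      exact ⟨Sh_irr (inv_ne_zero hζ) (D.hp _), (monic_scaleRoots_iff _).mpr (D.hm _)⟩
    rw [Nat.card_of_isEmpty, Nat.card_of_isEmpty]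

end Tup

section Poly

variable [Fintype F]

/-- The support of an invariant polynomial. -/
lemma support_of_shift {h : F[X]} (h0 : h.coeff 0 ≠ 0) (ζ : Fˣ) (hs : h.scaleRoots (ζ : F) = h) (j : ℕ)
    (hj : h.coeff j ≠ 0) : orderOf ζ ∣ j ∧ orderOf ζ ∣ h.natDegree := by
  have key : ∀ j, h.coeff j ≠ 0 → orderOf ζ ∣ h.natDegree - j := by
    intro j hj
    have h1 := congrArg (fun f => f.coeff j) hs
    simp only [coeff_scaleRoots] at h1
    have h2 : (ζ : F) ^ (h.natDegree - j) = 1 := by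
      have := mul_left_cancel₀ hj (h1.trans (mul_one _).symm)
      exact this
    rw [orderOf_dvd_iff_pow_eq_one]
    apply Units.ext
    simpa using h2
  have h3 := key 0 h0
  have h4 := key j hj
  rw [Nat.sub_zero] at h3
  refine ⟨?_, h3⟩
  have h5 : j ≤ h.natDegree := le_natDegree_of_ne_zero hj
  have h6 := (Nat.dvd_sub h3 h4)
  have h7 : h.natDegree - (h.natDegree - j) = j := by omega
  rwa [h7] at h6

/-- An invariant polynomial is a polynomial in `X ^ e`. -/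
lemma expand_contract_of_shift {h : F[X]} (h0 : h.coeff 0 ≠ 0) (ζ : Fˣ) (hs : h.scaleRoots (ζ : F) = h) :
    h = expand F (orderOf ζ) (contract (orderOf ζ) h) := by
  have he : 0 < orderOf ζ := orderOf_pos ζ
  ext n
  rw [coeff_expand he]
  split_ifs with hn
  · rw [coeff_contract he.ne', Nat.div_mul_cancel hn]
  · by_contra hc
    exact hn (support_of_shift h0 ζ hs n hc).1

lemma eta_expand (e : ℕ) (he : 0 < e) (H : F[X]) : eta (expand F e H) = (-1) ^ ((e - 1) * H.natDegree) * eta H := by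
  unfold eta
  rw [natDegree_expand]
  have h1 : (expand F e H).coeff 0 = H.coeff 0 := by
    have := coeff_expand_mul he H 0
    simpa using this
  rw [h1, ← mul_assoc, ← pow_add]
  congr 2
  obtain ⟨t, rfl⟩ : ∃ t, e = t + 1 := ⟨e - 1, by omega⟩
  simp only [Nat.add_sub_cancel]
  ring

end Poly

section Cmp

variable [Fintype F]

/-- Invariant tuples. -/
def Inv (ζ : Fˣ) {n : ℕ} (τ : Fin n → F[X]) : Prop := ∀ k, (τ k).scaleRoots (ζ : F) = τ k

variable (ζ : Fˣ) (m : ℕ)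

local notation "e" => orderOf ζ

lemma e_pos : 0 < orderOf ζ := orderOf_pos ζ

lemma H_props {n : ℕ} (τ : TT F n n) (hinv : Inv ζ τ.1) (k : Fin n) :
    (contract (orderOf ζ) (τ.1 k)).Monic ∧ (contract (orderOf ζ) (τ.1 k)).coeff 0 ≠ 0 ∧
      τ.1 k = expand F (orderOf ζ) (contract (orderOf ζ) (τ.1 k)) ∧
      (τ.1 k).natDegree = (contract (orderOf ζ) (τ.1 k)).natDegree * orderOf ζ := by
  have h1 := expand_contract_of_shift (τ.2.1 k).2 ζ (hinv k)
  refine ⟨?_, ?_, h1, ?_⟩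
  · rw [← monic_expand_iff (e_pos ζ), ← h1]
    exact (τ.2.1 k).1
  · rw [coeff_contract (e_pos ζ).ne']
    simpa using (τ.2.1 k).2
  · conv_lhs => rw [h1, natDegree_expand]

lemma tau_eq_one (τ : TT F (orderOf ζ * m) (orderOf ζ * m)) (hinv : Inv ζ τ.1) (k : Fin (orderOf ζ * m)) (hk : m ≤ k) : τ.1 k = 1 := by
  have he := e_pos ζ
  obtain ⟨-, -, -, h4⟩ := H_props ζ τ hinv k
  have h1 : ((k : ℕ) + 1) * (τ.1 k).natDegree ≤ ∑ k : Fin (orderOf ζ * m), ((k : ℕ) + 1) * (τ.1 k).natDegree :=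
    Finset.single_le_sum (f := fun k : Fin (orderOf ζ * m) => ((k : ℕ) + 1) * (τ.1 k).natDegree) (fun _ _ => Nat.zero_le _) (Finset.mem_univ k)
  rw [τ.2.2, h4] at h1
  have h2 : ((k : ℕ) + 1) * (contract (orderOf ζ) (τ.1 k)).natDegree ≤ m := by
    have h3 : orderOf ζ * (((k : ℕ) + 1) * (contract (orderOf ζ) (τ.1 k)).natDegree) ≤ orderOf ζ * m := by
      calc _ = ((k : ℕ) + 1) * ((contract (orderOf ζ) (τ.1 k)).natDegree * orderOf ζ) := by ring
        _ ≤ _ := h1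
    exact Nat.le_of_mul_le_mul_left h3 he
  have h3 : (contract (orderOf ζ) (τ.1 k)).natDegree = 0 := by
    by_contra h5
    have h6 : ((k : ℕ) + 1) * 1 ≤ ((k : ℕ) + 1) * (contract (orderOf ζ) (τ.1 k)).natDegree :=
      Nat.mul_le_mul_left _ (by omega)
    omega
  apply eq_one_of_monic_natDegree_zero (τ.2.1 k).1
  rw [h4, h3, zero_mul]

lemma hle_m : m ≤ orderOf ζ * m := Nat.le_mul_of_pos_left m (e_pos ζ)

lemma off_range (k : Fin (orderOf ζ * m)) (hk : k ∉ Set.range (Fin.castLE (hle_m ζ m))) : m ≤ (k : ℕ) := by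
  by_contra h
  exact hk ⟨⟨k, by omega⟩, rfl⟩

/-- The compressed tuple. -/
noncomputable def cmpE (τ : TT F (orderOf ζ * m) (orderOf ζ * m)) (hinv : Inv ζ τ.1) : TT F m m :=
  ⟨fun j => contract (orderOf ζ) (τ.1 (Fin.castLE (hle_m ζ m) j)),
    fun j => ⟨(H_props ζ τ hinv _).1, (H_props ζ τ hinv _).2.1⟩, by
    have he := e_pos ζ
    have h1 : ∑ j : Fin m, orderOf ζ * (((j : ℕ) + 1) * (contract (orderOf ζ) (τ.1 (Fin.castLE (hle_m ζ m) j))).natDegree) =
        ∑ k : Fin (orderOf ζ * m), ((k : ℕ) + 1) * (τ.1 k).natDegree := by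
      refine Fintype.sum_of_injective (Fin.castLE (hle_m ζ m)) (Fin.castLE_injective _) _ _ ?_ ?_
      · intro k hk
        rw [tau_eq_one ζ m τ hinv k (off_range ζ m k hk)]
        simp
      · intro j
        rw [(H_props ζ τ hinv (Fin.castLE (hle_m ζ m) j)).2.2.2]
        simp only [Fin.val_castLE]
        ring
    rw [← Finset.mul_sum, τ.2.2] at h1
    exact Nat.eq_of_mul_eq_mul_left he h1⟩

lemma dt_cmpE (τ : TT F (orderOf ζ * m) (orderOf ζ * m)) (hinv : Inv ζ τ.1) :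
    dt τ.1 = (-1) ^ ((orderOf ζ - 1) * m) * dt (cmpE ζ m τ hinv).1 := by
  have he := e_pos ζ
  have h1 : ∏ j : Fin m, ((-1 : F) ^ ((orderOf ζ - 1) * (contract (orderOf ζ) (τ.1 (Fin.castLE (hle_m ζ m) j))).natDegree) *
      eta (contract (orderOf ζ) (τ.1 (Fin.castLE (hle_m ζ m) j)))) ^ ((j : ℕ) + 1) = dt τ.1 := by
    refine Fintype.prod_of_injective (Fin.castLE (hle_m ζ m)) (Fin.castLE_injective _) _ _ ?_ ?_
    · intro k hk
      rw [tau_eq_one ζ m τ hinv k (off_range ζ m k hk), eta_one, one_pow]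
    · intro j
      have h2 := (H_props ζ τ hinv (Fin.castLE (hle_m ζ m) j)).2.2.1
      conv_rhs => rw [h2, eta_expand _ he]
      simp only [Fin.val_castLE]
  rw [← h1]
  unfold dt
  simp only [mul_pow, Finset.prod_mul_distrib]
  congr 1
  simp only [← pow_mul]
  rw [Finset.prod_pow_eq_pow_sum]
  congr 1
  have h3 := (cmpE ζ m τ hinv).2.2
  have h4 : ∑ i : Fin m, (orderOf ζ - 1) * (contract (orderOf ζ) (τ.1 (Fin.castLE (hle_m ζ m) i))).natDegree * ((i : ℕ) + 1) =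
      (orderOf ζ - 1) * ∑ i : Fin m, ((i : ℕ) + 1) * ((cmpE ζ m τ hinv).1 i).natDegree := by
    rw [Finset.mul_sum]
    refine Finset.sum_congr rfl fun i _ => ?_
    show _ = (orderOf ζ - 1) * (((i : ℕ) + 1) * (contract (orderOf ζ) (τ.1 (Fin.castLE (hle_m ζ m) i))).natDegree)
    ring
  rw [h4, h3]

lemma cmpE_inj (τ σ : TT F (orderOf ζ * m) (orderOf ζ * m)) (hτ : Inv ζ τ.1) (hσ : Inv ζ σ.1)
    (h : cmpE ζ m τ hτ = cmpE ζ m σ hσ) : τ = σ := by
  apply Subtype.ext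
  funext k
  by_cases hk : m ≤ (k : ℕ)
  · rw [tau_eq_one ζ m τ hτ k hk, tau_eq_one ζ m σ hσ k hk]
  · have h1 : k = Fin.castLE (hle_m ζ m) ⟨k, by omega⟩ := rfl
    have h2 := congrFun (congrArg Subtype.val h) ⟨k, by omega⟩
    have h3 : contract (orderOf ζ) (τ.1 k) = contract (orderOf ζ) (σ.1 k) := h2
    rw [(H_props ζ τ hτ k).2.2.1, (H_props ζ σ hσ k).2.2.1, h3]

lemma nu_cmpE (τ : TT F (orderOf ζ * m) (orderOf ζ * m)) (hinv : Inv ζ τ.1) (c : ℕ) (h : c ∣ nu τ.1) :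
    c ∣ nu (cmpE ζ m τ hinv).1 := by
  rw [dvd_nu_iff] at h ⊢
  intro k hk
  have h1 := h (Fin.castLE (hle_m ζ m) k) (by
    intro h2
    apply hk
    show contract (orderOf ζ) (τ.1 (Fin.castLE (hle_m ζ m) k)) = 1
    have h3 := (H_props ζ τ hinv (Fin.castLE (hle_m ζ m) k))
    apply eq_one_of_monic_natDegree_zero h3.1
    have h4 := h3.2.2.2
    have h8 : (τ.1 (Fin.castLE (hle_m ζ m) k)).natDegree = 0 := by rw [h2, natDegree_one]
    rw [h8] at h4
    exact (Nat.mul_eq_zero.mp h4.symm).resolve_right (e_pos ζ).ne')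
  simpa using h1

/-- The count of invariant tuples. -/
theorem card_inv_le (c : ℕ) :
    Nat.card {τ : TT F (orderOf ζ * m) (orderOf ζ * m) // (dt τ.1 = 1 ∧ Inv ζ τ.1) ∧ c ∣ nu τ.1} ≤
      Nat.card {τ : TT F m m // dt τ.1 = (-1) ^ ((orderOf ζ - 1) * m) ∧ c ∣ nu τ.1} := by
  haveI := finite_TT (F := F) m m
  refine Nat.card_le_card_of_injective (fun τ => ⟨cmpE ζ m τ.1 τ.2.1.2, ?_, nu_cmpE ζ m τ.1 τ.2.1.2 c τ.2.2⟩) ?_
  · have h1 := τ.2.1.1.symm.trans (dt_cmpE ζ m τ.1 τ.2.1.2)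
    have h2 : ((-1 : F) ^ ((orderOf ζ - 1) * m)) * ((-1 : F) ^ ((orderOf ζ - 1) * m)) = 1 := by
      rw [← mul_pow]
      simp
    calc dt (cmpE ζ m τ.1 τ.2.1.2).1 = (((-1 : F) ^ ((orderOf ζ - 1) * m)) * ((-1 : F) ^ ((orderOf ζ - 1) * m))) * dt (cmpE ζ m τ.1 τ.2.1.2).1 := by
          rw [h2, one_mul]
      _ = (-1 : F) ^ ((orderOf ζ - 1) * m) * ((-1 : F) ^ ((orderOf ζ - 1) * m) * dt (cmpE ζ m τ.1 τ.2.1.2).1) := by
          rw [mul_assoc]
      _ = _ := by rw [← h1, mul_one]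
  · intro τ σ h
    apply Subtype.ext
    exact cmpE_inj ζ m _ _ _ _ (Subtype.mk.inj h)

/-- The sum for invariant tuples. -/
theorem sum_inv_le (hm : 0 < m) :
    ∑ c ∈ (Fintype.card F - 1).divisors, Nat.totient c *
      Nat.card {τ : TT F (orderOf ζ * m) (orderOf ζ * m) // (dt τ.1 = 1 ∧ Inv ζ τ.1) ∧ c ∣ nu τ.1} ≤ BB F m := by
  refine le_trans ?_ (sum_D_le (F := F) m hm ((-1) ^ ((orderOf ζ - 1) * m)) (pow_ne_zero _ (neg_ne_zero.mpr one_ne_zero)))
  exact Finset.sum_le_sum fun c _ => Nat.mul_le_mul_left _ (card_inv_le ζ m c)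

end Cmp

end Cfsg.Agent.Lib.KS2.SLCl
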