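import Mathlib
import Cfsg.Agent.Lib.KS2.SLCl9

/-!
# Burnside for central quotients, and fixed classes in `SL_n`
-/

set_option autoImplicit false
set_option linter.unusedSimpArgs false
set_option linter.unusedVariables false
set_option linter.deprecated false

universe u

namespace Cfsg.Agent.Lib.KS2.SLCl

open Polynomial Module Cfsg.Agent.Lib.KS2.GLCount Cfsg.Agent.Lib.KS2.GLType Cfsg.Agent.Lib.KS2.SSConj

section Burnside

variable {G : Type*} [Group G]

/-- Multiplication of classes by a central element. -/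
def zact (z : Subgroup.center G) (C : ConjClasses G) : ConjClasses G :=
  Quotient.map (fun x => (z : G) * x) (by
    intro a b hab
    have hab' : IsConj a b := hab
    obtain ⟨u, hu⟩ := isConj_iff.mp hab'
    show IsConj _ _
    rw [isConj_iff]
    refine ⟨u, ?_⟩
    have hz : ∀ g : G, g * (z : G) = (z : G) * g := fun g => (Subgroup.mem_center_iff.mp z.2 g)
    calc u * ((z : G) * a) * u⁻¹ = (u * (z : G)) * a * u⁻¹ := by group
      _ = ((z : G) * u) * a * u⁻¹ := by rw [hz u]
      _ = (z : G) * (u * a * u⁻¹) := by group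
      _ = _ := by rw [hu]) C

lemma zact_mk (z : Subgroup.center G) (x : G) : zact z (ConjClasses.mk x) = ConjClasses.mk ((z : G) * x) := rfl

instance zactAction : MulAction (Subgroup.center G) (ConjClasses G) where
  smul := zact
  one_smul := by
    intro C
    obtain ⟨x, rfl⟩ := ConjClasses.exists_rep C
    show zact 1 _ = _
    rw [zact_mk]
    simp
  mul_smul := by
    intro a b C
    obtain ⟨x, rfl⟩ := ConjClasses.exists_rep C
    show zact (a * b) _ = zact a (zact b _)
    rw [zact_mk, zact_mk, zact_mk]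
    simp [mul_assoc]

lemma zact_smul (z : Subgroup.center G) (C : ConjClasses G) : z • C = zact z C := rfl

/-- Burnside's lemma for the central quotient. -/
theorem burnside_central [Finite G] :
    Nat.card (ConjClasses (G ⧸ Subgroup.center G)) * Nat.card (Subgroup.center G) =
      ∑ᶠ z : Subgroup.center G, Nat.card {C : ConjClasses G // zact z C = C} := by
  classical
  letI : Fintype (Subgroup.center G) := Fintype.ofFinite _
  letI : Fintype (ConjClasses G) := Fintype.ofFinite _
  letI : ∀ z : Subgroup.center G, Fintype (MulAction.fixedBy (ConjClasses G) z) := fun z => Fintype.ofFinite _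
  letI : Fintype (Quotient (MulAction.orbitRel (Subgroup.center G) (ConjClasses G))) := Fintype.ofFinite _
  have h1 := MulAction.sum_card_fixedBy_eq_card_orbits_mul_card_group (G := Subgroup.center G) (X := ConjClasses G)
  -- the orbit space
  let Z := Subgroup.center G
  let f : ConjClasses G → ConjClasses (G ⧸ Z) := ConjClasses.map (QuotientGroup.mk' Z)
  have hf : ∀ C C', f C = f C' ↔ (MulAction.orbitRel Z (ConjClasses G)) C C' := by
    intro C C'
    obtain ⟨x, rfl⟩ := ConjClasses.exists_rep C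
    obtain ⟨x', rfl⟩ := ConjClasses.exists_rep C'
    rw [MulAction.orbitRel_apply, MulAction.mem_orbit_iff]
    constructor
    · intro h
      have h2 : IsConj (QuotientGroup.mk' Z x) (QuotientGroup.mk' Z x') := ConjClasses.mk_eq_mk_iff_isConj.mp h
      obtain ⟨ū, hu⟩ := isConj_iff.mp h2
      obtain ⟨u, rfl⟩ := QuotientGroup.mk'_surjective Z ū
      have h3 : QuotientGroup.mk' Z (u * x * u⁻¹) = QuotientGroup.mk' Z x' := by
        rw [map_mul, map_mul, map_inv]
        exact hu
      have h4 : x'⁻¹ * (u * x * u⁻¹) ∈ Z := by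
        have := QuotientGroup.eq.mp h3.symm
        exact this
      refine ⟨⟨_, h4⟩, ?_⟩
      rw [zact_smul, zact_mk]
      apply ConjClasses.mk_eq_mk_iff_isConj.mpr
      rw [isConj_iff]
      refine ⟨u⁻¹, ?_⟩
      have hz := Subgroup.mem_center_iff.mp h4
      simp only
      have h5 : (x'⁻¹ * (u * x * u⁻¹)) * x' = u * x * u⁻¹ := by
        have := hz x'
        rw [← this]
        group
      rw [h5]
      group
    · rintro ⟨z, hz⟩
      rw [zact_smul] at hz
      rw [← hz, zact_mk]
      apply ConjClasses.mk_eq_mk_iff_isConj.mpr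
      have h2 : QuotientGroup.mk' Z ((z : G) * x') = QuotientGroup.mk' Z x' := by
        rw [map_mul]
        have : QuotientGroup.mk' Z (z : G) = 1 := (QuotientGroup.eq_one_iff _).mpr z.2
        rw [this, one_mul]
      rw [h2]
  let g : Quotient (MulAction.orbitRel Z (ConjClasses G)) → ConjClasses (G ⧸ Z) :=
    Quotient.lift f (fun a b hab => (hf a b).mpr hab)
  have hg : Function.Bijective g := by
    constructor
    · intro a b
      obtain ⟨a, rfl⟩ := Quotient.exists_rep a
      obtain ⟨b, rfl⟩ := Quotient.exists_rep b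
      intro h
      exact Quotient.sound ((hf a b).mp h)
    · intro C
      obtain ⟨D, hD⟩ := ConjClasses.map_surjective (QuotientGroup.mk'_surjective Z) C
      exact ⟨Quotient.mk _ D, hD⟩
  have h2 : Nat.card (ConjClasses (G ⧸ Z)) = Fintype.card (Quotient (MulAction.orbitRel Z (ConjClasses G))) := by
    rw [← Nat.card_eq_fintype_card]
    exact (Nat.card_eq_of_bijective g hg).symm
  have h3 : Nat.card (Subgroup.center G) = Fintype.card (Subgroup.center G) := Nat.card_eq_fintype_card
  rw [h2, h3, ← h1, finsum_eq_sum_of_fintype]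
  refine Finset.sum_congr rfl fun z _ => ?_
  rw [← Nat.card_eq_fintype_card]
  rfl

end Burnside

variable {F : Type u} [Field F] [Fintype F]

section Sub

variable {n : ℕ}

local notation "S" => Matrix.SpecialLinearGroup (Fin n) F

open Classical in
/-- The main inequality for a subset of the classes. -/
theorem card_classes_sub_le (P : ConjClasses S → Prop) (R : (Fin n → F[X]) → Prop)
    (hR : ∀ (y : S) (D : Dec (Matrix.toLin' (y : Matrix (Fin n) (Fin n) F))), P (ConjClasses.mk y) → R (D.tup n)) :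
    Nat.card {C : ConjClasses S // P C} ≤
      ∑ c ∈ (Fintype.card F - 1).divisors, Nat.totient c *
        Nat.card {τ : TT F n n // (dt τ.1 = 1 ∧ R τ.1) ∧ c ∣ nu τ.1} := by
  haveI := finite_TT (F := F) n n
  letI : Fintype (TT F n n) := Fintype.ofFinite _
  have hq : 1 < Fintype.card F := Fintype.one_lt_card
  let S' := Matrix.SpecialLinearGroup (Fin n) F
  have hrep : ∀ c : ConjClasses S', ∃ g : S', ConjClasses.mk g = c := fun c => ConjClasses.exists_rep c
  let rep : ConjClasses S' → S' := fun c => (hrep c).choose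
  have hrep' : ∀ c, ConjClasses.mk (rep c) = c := fun c => (hrep c).choose_spec
  let dd : ∀ c, Dec (Matrix.toLin' ((rep c : S') : Matrix (Fin n) (Fin n) F)) := fun c => (exists_dec _).some
  have hdim : Module.finrank F (Fin n → F) = n := by simp
  let Φ : {C : ConjClasses S' // P C} → TT F n n := fun c =>
    ⟨(dd c.1).tup n, fun k => ⟨(dd c.1).tup_monic n k, (dd c.1).tup_coeff (toLin_inj (rep c.1)) n k⟩, (dd c.1).tup_sum n hdim⟩
  have hdt : ∀ c, dt (Φ c).1 = 1 ∧ R (Φ c).1 := by
    intro c
    refine ⟨?_, ?_⟩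
    · show dt ((dd c.1).tup n) = 1
      rw [← det_eq_dt]
      exact (rep c.1).2
    · apply hR
      rw [hrep']
      exact c.2
  let W : TT F n n → ℕ := fun τ => if dt τ.1 = 1 ∧ R τ.1 then Nat.gcd (Fintype.card F - 1) (nu τ.1) else 0
  have hfib : ∀ τ : TT F n n, Nat.card {c // Φ c = τ} ≤ W τ := by
    intro τ
    by_cases hne : ∃ c₀, Φ c₀ = τ
    · obtain ⟨c₀, rfl⟩ := hne
      have h1 := fiber_le_gcd (rep c₀.1) (dd c₀.1)
      have hW : W (Φ c₀) = Nat.gcd (Fintype.card F - 1) (nu ((dd c₀.1).tup n)) := by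
        show (if dt (Φ c₀).1 = 1 ∧ R (Φ c₀).1 then _ else _) = _
        rw [if_pos (hdt c₀)]
      rw [hW]
      refine le_trans ?_ h1
      have : Finite (ConjClasses S') := inferInstance
      refine Nat.card_le_card_of_injective (fun c => ⟨c.1.1, rep c.1.1, hrep' _, ?_⟩) ?_
      · apply isConj_of_tup _ _ (dd c₀.1) (dd c.1.1)
        exact congrArg Subtype.val c.2.symm
      · intro a b hab
        apply Subtype.ext
        apply Subtype.ext
        exact Subtype.mk.inj hab
    · have : IsEmpty {c // Φ c = τ} := ⟨fun c => hne ⟨c.1, c.2⟩⟩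
      rw [Nat.card_of_isEmpty]
      exact Nat.zero_le _
  have h1 : Nat.card {C : ConjClasses S' // P C} ≤ ∑ τ : TT F n n, W τ := by
    have h2 : Nat.card {C : ConjClasses S' // P C} = Nat.card (Σ τ : TT F n n, {c // Φ c = τ}) :=
      Nat.card_congr (Equiv.sigmaFiberEquiv Φ).symm
    rw [h2, Nat.card_sigma]
    exact Finset.sum_le_sum fun τ _ => hfib τ
  refine h1.trans (le_of_eq ?_)
  have h3 : ∀ τ : TT F n n, W τ = ∑ c ∈ (Fintype.card F - 1).divisors,
      if ((dt τ.1 = 1 ∧ R τ.1) ∧ c ∣ nu τ.1) then Nat.totient c else 0 := by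
    intro τ
    show (if dt τ.1 = 1 ∧ R τ.1 then _ else _) = _
    by_cases hτ : dt τ.1 = 1 ∧ R τ.1
    · rw [if_pos hτ]
      simp only [hτ, true_and]
      rw [← Finset.sum_filter]
      conv_lhs => rw [← Nat.sum_totient (Nat.gcd (Fintype.card F - 1) (nu τ.1))]
      refine Finset.sum_congr ?_ fun _ _ => rfl
      ext c
      simp only [Nat.mem_divisors, Finset.mem_filter]
      constructor
      · rintro ⟨h4, h5⟩
        exact ⟨⟨h4.trans (Nat.gcd_dvd_left _ _), by omega⟩, h4.trans (Nat.gcd_dvd_right _ _)⟩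
      · rintro ⟨⟨h4, h5⟩, h6⟩
        exact ⟨Nat.dvd_gcd h4 h6, Nat.gcd_ne_zero_left h5⟩
    · rw [if_neg hτ]
      simp [hτ]
  simp only [h3]
  rw [Finset.sum_comm]
  refine Finset.sum_congr rfl fun c _ => ?_
  rw [Finset.sum_ite, Finset.sum_const_zero, add_zero, Finset.sum_const, smul_eq_mul, mul_comm]
  congr 1
  rw [Nat.card_eq_fintype_card, Fintype.card_subtype]

end Sub

section Fix

lemma aux_mat {ι : Type*} [Fintype ι] [DecidableEq ι] (a b c : Matrix ι ι F) (t : F) (hab : a * b = 1)
    (h : t • (b * c * a) = c) : a * c = t • (c * a) := by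
  calc a * c = a * (t • (b * c * a)) := by rw [h]
    _ = t • (a * (b * c * a)) := Matrix.mul_smul _ _ _
    _ = t • ((a * b) * c * a) := by simp only [Matrix.mul_assoc]
    _ = t • (c * a) := by rw [hab, Matrix.one_mul]

/-- The classes fixed by a nontrivial scalar. -/
theorem fix_le (ζ : Fˣ) (m : ℕ) (hm : 0 < m) (z : Subgroup.center (Matrix.SpecialLinearGroup (Fin (orderOf ζ * m)) F))
    (hz : ((z : Matrix.SpecialLinearGroup (Fin (orderOf ζ * m)) F) : Matrix (Fin (orderOf ζ * m)) (Fin (orderOf ζ * m)) F) = Matrix.scalar _ (ζ : F)) :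
    Nat.card {C : ConjClasses (Matrix.SpecialLinearGroup (Fin (orderOf ζ * m)) F) // zact z C = C} ≤ BB F m := by
  classical
  refine le_trans ?_ (sum_inv_le ζ m hm)
  refine card_classes_sub_le (n := orderOf ζ * m) (fun C => zact z C = C) (Inv ζ) ?_
  intro y D hy
  rw [zact_mk] at hy
  have h1 := ConjClasses.mk_eq_mk_iff_isConj.mp hy
  obtain ⟨u, hu⟩ := isConj_iff.mp h1
  -- the linear equivalence
  let M := Matrix (Fin (orderOf ζ * m)) (Fin (orderOf ζ * m)) F
  have hu1 : ((u⁻¹ : Matrix.SpecialLinearGroup _ F) : M) * (u : M) = 1 := by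
    rw [← Matrix.SpecialLinearGroup.coe_mul]
    simp
  have hu2 : (u : M) * ((u⁻¹ : Matrix.SpecialLinearGroup _ F) : M) = 1 := by
    rw [← Matrix.SpecialLinearGroup.coe_mul]
    simp
  let L : (Fin (orderOf ζ * m) → F) ≃ₗ[F] (Fin (orderOf ζ * m) → F) :=
    LinearEquiv.ofLinear (Matrix.toLin' ((u⁻¹ : Matrix.SpecialLinearGroup _ F) : M)) (Matrix.toLin' (u : M))
      (by rw [← Matrix.toLin'_mul, hu1, Matrix.toLin'_one]) (by rw [← Matrix.toLin'_mul, hu2, Matrix.toLin'_one])
  have hmat : ((u⁻¹ : Matrix.SpecialLinearGroup _ F) : M) * (y : M) = (ζ : F) • ((y : M) * ((u⁻¹ : Matrix.SpecialLinearGroup _ F) : M)) := by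
    have h2 := congrArg (fun g : Matrix.SpecialLinearGroup _ F => (g : M)) hu
    simp only [Matrix.SpecialLinearGroup.coe_mul, hz] at h2
    -- `u * (ζ * y) * u⁻¹ = y`
    have h3 : (u : M) * (Matrix.scalar _ (ζ : F) * (y : M)) * ((u⁻¹ : Matrix.SpecialLinearGroup _ F) : M) = (ζ : F) • ((u : M) * (y : M) * ((u⁻¹ : Matrix.SpecialLinearGroup _ F) : M)) := by
      have h4 : Matrix.scalar _ (ζ : F) * (y : M) = (ζ : F) • (y : M) := by
        rw [Matrix.scalar_apply, ← Matrix.smul_one_eq_diagonal, Matrix.smul_mul, Matrix.one_mul]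
      rw [h4]
      simp only [Matrix.mul_smul, Matrix.smul_mul]
    rw [h3] at h2
    exact aux_mat _ _ _ _ hu1 h2
  intro k
  refine tup_shift D L ζ.ne_zero ?_ _ k
  intro v
  show Matrix.toLin' ((u⁻¹ : Matrix.SpecialLinearGroup _ F) : M) (Matrix.toLin' (y : M) v) =
    ((ζ : F) • Matrix.toLin' (y : M)) (Matrix.toLin' ((u⁻¹ : Matrix.SpecialLinearGroup _ F) : M) v)
  simp only [Matrix.toLin'_apply, Matrix.mulVec_mulVec, LinearMap.smul_apply]
  rw [hmat, Matrix.smul_mulVec]

end Fix

end Cfsg.Agent.Lib.KS2.SLCl
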