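import Mathlib
import Cfsg.Agent.Lib.KS2.SLCl10

/-!
# The class number of `PSL_n`
-/

set_option autoImplicit false
set_option linter.unusedSimpArgs false
set_option linter.unusedVariables false
set_option linter.deprecated false

universe u

namespace Cfsg.Agent.Lib.KS2.SLCl

open Polynomial Module Cfsg.Agent.Lib.KS2.GLCount Cfsg.Agent.Lib.KS2.GLType Cfsg.Agent.Lib.KS2.SSConj

variable {F : Type u} [Field F] [Fintype F]

/-- The order of the center of `SL_n`. -/
lemma card_center (n : ℕ) (hn : 1 ≤ n) :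
    Nat.card (Subgroup.center (Matrix.SpecialLinearGroup (Fin n) F)) = Nat.gcd n (Fintype.card F - 1) := by
  classical
  rw [Nat.card_congr (Matrix.SpecialLinearGroup.center_equiv_rootsOfUnity (n := Fin n) (R := F)).toEquiv]
  simp only [Fintype.card_fin, max_eq_left hn]
  have h1 : rootsOfUnity n F = (powMonoidHom n : Fˣ →* Fˣ).ker := by
    ext u
    rw [mem_rootsOfUnity, MonoidHom.mem_ker]
    rfl
  rw [h1, IsCyclic.card_powMonoidHom_ker, Nat.card_units, Nat.card_eq_fintype_card, Nat.gcd_comm]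

lemma fix_le' (ζ : Fˣ) (m : ℕ) (hm : 0 < m) (n : ℕ) (hn : n = orderOf ζ * m)
    (z : Subgroup.center (Matrix.SpecialLinearGroup (Fin n) F))
    (hz : ((z : Matrix.SpecialLinearGroup (Fin n) F) : Matrix (Fin n) (Fin n) F) = Matrix.scalar _ (ζ : F)) :
    Nat.card {C : ConjClasses (Matrix.SpecialLinearGroup (Fin n) F) // zact z C = C} ≤ BB F m := by
  subst hn
  exact fix_le ζ m hm z hz

/-- A nontrivial central element fixes few classes. -/
lemma fix_le_div (n : ℕ) (hn : 1 ≤ n) (z : Subgroup.center (Matrix.SpecialLinearGroup (Fin n) F)) (hz : z ≠ 1) :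
    ∃ e m : ℕ, 2 ≤ e ∧ n = e * m ∧ 0 < m ∧
      Nat.card {C : ConjClasses (Matrix.SpecialLinearGroup (Fin n) F) // zact z C = C} ≤ BB F m := by
  classical
  obtain ⟨r, hr1, hr2⟩ := Matrix.SpecialLinearGroup.mem_center_iff.mp z.2
  have hr0 : r ≠ 0 := by
    rintro rfl
    rw [zero_pow] at hr1
    · exact zero_ne_one hr1
    · simp only [Fintype.card_fin]
      omega
  let ζ : Fˣ := Units.mk0 r hr0
  have hζ : ζ ^ n = 1 := by
    apply Units.ext
    simpa [ζ] using hr1
  have hdvd : orderOf ζ ∣ n := orderOf_dvd_of_pow_eq_one hζ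
  obtain ⟨m, hm⟩ := hdvd
  have hm0 : 0 < m := by
    rcases Nat.eq_zero_or_pos m with rfl | h
    · simp at hm
      omega
    · exact h
  have he : orderOf ζ ≠ 1 := by
    intro h
    rw [orderOf_eq_one_iff] at h
    have h1 : r = 1 := congrArg Units.val h
    apply hz
    apply Subtype.ext
    apply Subtype.ext
    show ((z : Matrix.SpecialLinearGroup (Fin n) F) : Matrix (Fin n) (Fin n) F) = 1
    rw [← hr2, h1]
    simp
  have he0 : 0 < orderOf ζ := orderOf_pos ζ
  refine ⟨orderOf ζ, m, by omega, hm, hm0, fix_le' ζ m hm0 n hm z ?_⟩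
  rw [← hr2]
  rfl

/-- The main inequalities of Burnside type. -/
theorem psl_burnside (n : ℕ) (hn : 1 ≤ n) (W : ℕ)
    (hW : ∀ z : Subgroup.center (Matrix.SpecialLinearGroup (Fin n) F), z ≠ 1 →
      Nat.card {C : ConjClasses (Matrix.SpecialLinearGroup (Fin n) F) // zact z C = C} ≤ W) :
    Nat.card (ConjClasses (Matrix.SpecialLinearGroup (Fin n) F)) ≤
        Nat.gcd n (Fintype.card F - 1) * Nat.card (ConjClasses (Matrix.ProjectiveSpecialLinearGroup (Fin n) F)) ∧
    Nat.gcd n (Fintype.card F - 1) * Nat.card (ConjClasses (Matrix.ProjectiveSpecialLinearGroup (Fin n) F)) ≤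
      Nat.card (ConjClasses (Matrix.SpecialLinearGroup (Fin n) F)) + (Nat.gcd n (Fintype.card F - 1) - 1) * W := by
  classical
  have h1 := burnside_central (G := Matrix.SpecialLinearGroup (Fin n) F)
  rw [card_center n hn, mul_comm] at h1
  have h1' : Nat.gcd n (Fintype.card F - 1) * Nat.card (ConjClasses (Matrix.ProjectiveSpecialLinearGroup (Fin n) F)) = _ := h1
  rw [h1']
  letI : Fintype (Subgroup.center (Matrix.SpecialLinearGroup (Fin n) F)) := Fintype.ofFinite _
  rw [finsum_eq_sum_of_fintype]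
  have hmem : (1 : Subgroup.center (Matrix.SpecialLinearGroup (Fin n) F)) ∈ (Finset.univ : Finset (Subgroup.center (Matrix.SpecialLinearGroup (Fin n) F))) := Finset.mem_univ _
  rw [← Finset.add_sum_erase _ _ hmem]
  have h2 : Nat.card {C : ConjClasses (Matrix.SpecialLinearGroup (Fin n) F) // zact 1 C = C} =
      Nat.card (ConjClasses (Matrix.SpecialLinearGroup (Fin n) F)) := by
    apply Nat.card_congr
    refine Equiv.subtypeUnivEquiv fun C => ?_
    obtain ⟨x, rfl⟩ := ConjClasses.exists_rep C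
    rw [zact_mk]
    simp
  rw [h2]
  refine ⟨Nat.le_add_right _ _, Nat.add_le_add_left ?_ _⟩
  refine (Finset.sum_le_card_nsmul _ _ W fun z hz => hW z (Finset.ne_of_mem_erase hz)).trans ?_
  rw [smul_eq_mul]
  refine Nat.mul_le_mul_right _ (le_of_eq ?_)
  rw [Finset.card_erase_of_mem hmem, Finset.card_univ, ← Nat.card_eq_fintype_card, card_center n hn]

/-- Tuples for `n = 2`. -/
lemma D1_two : Nat.card {τ : TT F 2 2 // dt τ.1 = 1 ∧ 1 ∣ nu τ.1} ≤ Uc F 1 + 2 := by
  classical
  haveI := finite_TT (F := F) 2 2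
  have hV := finite_VV (F := F) 1 1
  let R : Finset F := (Polynomial.nthRoots 2 (1 : F)).toFinset
  have hR : ∀ δ : F, δ ∈ R ↔ δ ^ 2 = 1 := by
    intro δ
    simp only [R, Multiset.mem_toFinset]
    exact Polynomial.mem_nthRoots (by omega)
  have hRc : R.card ≤ 2 := (Multiset.toFinset_card_le _).trans (Polynomial.card_nthRoots 2 1)
  have haux : ∀ τ : TT F 2 2, τ.1 0 = 1 → (τ.1 1).natDegree = 1 := by
    intro τ h
    have h1 := τ.2.2
    rw [Fin.sum_univ_two, h] at h1
    simp at h1
    exact h1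
  have hdt : ∀ τ : TT F 2 2, τ.1 0 = 1 → dt τ.1 = (eta (τ.1 1)) ^ 2 := by
    intro τ h
    rw [dt_succ]
    simp only [Fin.prod_univ_one, Fin.val_zero, zero_add, h, eta_one, one_mul]
    rfl
  have h1 : Nat.card (VV F 1 1 ⊕ R) ≤ Uc F 1 + 2 := by
    rw [Nat.card_sum, Nat.card_eq_fintype_card (α := R), Fintype.card_coe]
    exact Nat.add_le_add_left hRc _
  refine le_trans ?_ h1
  refine Nat.card_le_card_of_injective (fun τ => if h : τ.1.1 0 = 1 then Sum.inr ⟨eta (τ.1.1 1), (hR _).mpr (by
    rw [← hdt τ.1 h]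
    exact τ.2.1)⟩ else Sum.inl ⟨τ.1, h, τ.2.1⟩) ?_
  intro τ τ' h
  by_cases h1 : τ.1.1 0 = 1 <;> by_cases h2 : τ'.1.1 0 = 1
  · simp only [dif_pos h1, dif_pos h2] at h
    have h3 : eta (τ.1.1 1) = eta (τ'.1.1 1) := Subtype.mk.inj (Sum.inr.inj h)
    have h4 := haux τ.1 h1
    have h5 := haux τ'.1 h2
    unfold eta at h3
    rw [h4, h5] at h3
    have h6 : (τ.1.1 1).coeff 0 = (τ'.1.1 1).coeff 0 := by
      simpa using h3
    apply Subtype.ext
    apply Subtype.ext
    funext i
    fin_cases i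
    · show τ.1.1 0 = τ'.1.1 0
      rw [h1, h2]
    · show τ.1.1 1 = τ'.1.1 1
      rw [(τ.1.2.1 1).1.eq_X_add_C h4, (τ'.1.2.1 1).1.eq_X_add_C h5, h6]
  · simp only [dif_pos h1, dif_neg h2] at h
    exact absurd h (by simp)
  · simp only [dif_neg h1, dif_pos h2] at h
    exact absurd h (by simp)
  · simp only [dif_neg h1, dif_neg h2] at h
    have h3 := Sum.inl.inj h
    exact Subtype.ext (Subtype.mk.inj h3)

/-- A sharper bound for `SL₂`. -/
lemma card_two_le :
    Nat.card (ConjClasses (Matrix.SpecialLinearGroup (Fin 2) F)) ≤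
      Fintype.card F + 2 + 2 * (Nat.gcd 2 (Fintype.card F - 1) - 1) := by
  classical
  have hq : 2 ≤ Fintype.card F := two_le_q
  refine (card_classes_le_sum (F := F) 2).trans ?_
  have h1 : (Nat.gcd (Fintype.card F - 1) 2).divisors ⊆ (Fintype.card F - 1).divisors := by
    intro c hc
    rw [Nat.mem_divisors] at hc ⊢
    exact ⟨hc.1.trans (Nat.gcd_dvd_left _ _), by omega⟩
  rw [← Finset.sum_subset h1]
  · have hU1 := U_one (F := F)
    have hU0 := U_zero (F := F)
    have hA0 := A_zero (F := F)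
    have hD1 := D1_two (F := F)
    have hD2 := card_D_le (F := F) 2 0 2 (by omega) rfl
    rw [Nat.gcd_comm 2]
    have hg : Nat.gcd (Fintype.card F - 1) 2 ∣ 2 := Nat.gcd_dvd_right _ _
    rcases (Nat.dvd_prime Nat.prime_two).mp hg with hg | hg
    · rw [hg]
      simp only [Nat.divisors_one, Finset.sum_singleton, Nat.totient_one, one_mul]
      omega
    · rw [hg]
      have hd : Nat.divisors 2 = {1, 2} := by decide
      rw [hd, Finset.sum_pair (by decide)]
      simp only [Nat.totient_one, one_mul, Nat.totient_two]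
      omega
  · intro c hc hc'
    have hempty : IsEmpty {τ : TT F 2 2 // dt τ.1 = 1 ∧ c ∣ nu τ.1} := by
      refine ⟨fun τ => hc' ?_⟩
      rw [Nat.mem_divisors] at hc ⊢
      exact ⟨Nat.dvd_gcd hc.1 (dvd_of_nu τ.1 c τ.2.2), Nat.gcd_ne_zero_left hc.2⟩
    rw [Nat.card_of_isEmpty, mul_zero]

/-- The bounds. -/
theorem psl_bounds (n : ℕ) (hn : 2 ≤ n) :
    Fintype.card F ^ (n - 1) ≤ Nat.gcd n (Fintype.card F - 1) * Nat.card (ConjClasses (Matrix.ProjectiveSpecialLinearGroup (Fin n) F)) ∧
      Nat.gcd n (Fintype.card F - 1) * Nat.card (ConjClasses (Matrix.ProjectiveSpecialLinearGroup (Fin n) F)) ≤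
        Fintype.card F ^ (n - 1) + 5 * Fintype.card F ^ (n - 2) := by
  classical
  have hq : 2 ≤ Fintype.card F := two_le_q
  have hlow := lt_card_classes (F := F) n hn
  -- the lower bound only needs a trivial bound
  have hgen := fun W hW => psl_burnside (F := F) n (by omega) W hW
  have hd : Nat.gcd n (Fintype.card F - 1) - 1 ≤ Fintype.card F - 2 := by
    have h1 : Nat.gcd n (Fintype.card F - 1) ≤ Fintype.card F - 1 := Nat.gcd_le_right _ (by omega)
    omega
  have hdn : Nat.gcd n (Fintype.card F - 1) ≤ n := Nat.gcd_le_left _ (by omega)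
  by_cases h5 : 5 ≤ n
  · -- large `n`
    have hW : ∀ z : Subgroup.center (Matrix.SpecialLinearGroup (Fin n) F), z ≠ 1 →
        Nat.card {C : ConjClasses (Matrix.SpecialLinearGroup (Fin n) F) // zact z C = C} ≤ 3 * Fintype.card F ^ (n / 2 - 1) := by
      intro z hz
      obtain ⟨e, m, he, hnm, hm, hfix⟩ := fix_le_div n (by omega) z hz
      refine hfix.trans ((BB_le m hm).trans (Nat.mul_le_mul_left _ (Nat.pow_le_pow_right (by omega) ?_)))
      have h2 : m ≤ n / 2 := by
        rw [Nat.le_div_iff_mul_le (by omega), hnm, mul_comm]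
        exact Nat.mul_le_mul_right _ he
      omega
    obtain ⟨h1, h2⟩ := hgen _ hW
    refine ⟨by omega, h2.trans ?_⟩
    have h3 := bound_ge5 (F := F) n h5
    have h4 : (Nat.gcd n (Fintype.card F - 1) - 1) * (3 * Fintype.card F ^ (n / 2 - 1)) ≤ 2 * Fintype.card F ^ (n - 2) := by
      obtain ⟨J, hJ⟩ : ∃ J, n / 2 - 1 = J := ⟨_, rfl⟩
      have hJ2 : J + 2 ≤ n - 2 := by omega
      have hq' : Fintype.card F ^ (J + 2) ≤ Fintype.card F ^ (n - 2) := Nat.pow_le_pow_right (by omega) hJ2
      rw [hJ]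
      have hle : Nat.gcd n (Fintype.card F - 1) - 1 ≤ Fintype.card F := by omega
      calc (Nat.gcd n (Fintype.card F - 1) - 1) * (3 * Fintype.card F ^ J)
          ≤ Fintype.card F * (3 * Fintype.card F ^ J) := Nat.mul_le_mul_right _ hle
        _ = 3 * Fintype.card F ^ (J + 1) := by rw [pow_succ]; ring
        _ ≤ 2 * Fintype.card F * Fintype.card F ^ (J + 1) := Nat.mul_le_mul_right _ (by omega)
        _ = 2 * Fintype.card F ^ (J + 2) := by rw [pow_succ _ (J + 1)]; ring
        _ ≤ _ := Nat.mul_le_mul_left _ hq'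
    omega
  · have hcases : n = 2 ∨ n = 3 ∨ n = 4 := by omega
    rcases hcases with rfl | rfl | rfl
    · -- n = 2
      have hW : ∀ z : Subgroup.center (Matrix.SpecialLinearGroup (Fin 2) F), z ≠ 1 →
          Nat.card {C : ConjClasses (Matrix.SpecialLinearGroup (Fin 2) F) // zact z C = C} ≤ 1 := by
        intro z hz
        obtain ⟨e, m, he, hnm, hm, hfix⟩ := fix_le_div 2 (by omega) z hz
        have hm1 : m = 1 := by
          rcases Nat.lt_or_ge m 2 with h | h
          · omega
          · have : 2 * 2 ≤ e * m := Nat.mul_le_mul he h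
            omega
        subst hm1
        exact hfix.trans BB_one
      obtain ⟨h1, h2⟩ := hgen 1 hW
      refine ⟨by omega, h2.trans ?_⟩
      have h3 := card_two_le (F := F)
      simp only [Nat.reduceSub, pow_one, pow_zero]
      simp only [mul_one]
      omega
    · -- n = 3
      have hW : ∀ z : Subgroup.center (Matrix.SpecialLinearGroup (Fin 3) F), z ≠ 1 →
          Nat.card {C : ConjClasses (Matrix.SpecialLinearGroup (Fin 3) F) // zact z C = C} ≤ 1 := by
        intro z hz
        obtain ⟨e, m, he, hnm, hm, hfix⟩ := fix_le_div 3 (by omega) z hz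
        have hm1 : m = 1 := by
          rcases Nat.lt_or_ge m 2 with h | h
          · omega
          · have : 2 * 2 ≤ e * m := Nat.mul_le_mul he h
            omega
        subst hm1
        exact hfix.trans BB_one
      obtain ⟨h1, h2⟩ := hgen 1 hW
      refine ⟨by omega, h2.trans ?_⟩
      have h3 := bound_three (F := F)
      simp only [Nat.reduceSub, pow_one]
      have : Nat.gcd 3 (Fintype.card F - 1) ≤ 3 := hdn
      omega
    · -- n = 4
      have hW : ∀ z : Subgroup.center (Matrix.SpecialLinearGroup (Fin 4) F), z ≠ 1 →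
          Nat.card {C : ConjClasses (Matrix.SpecialLinearGroup (Fin 4) F) // zact z C = C} ≤ 2 * Fintype.card F + 1 := by
        intro z hz
        obtain ⟨e, m, he, hnm, hm, hfix⟩ := fix_le_div 4 (by omega) z hz
        have hm1 : m = 1 ∨ m = 2 := by
          rcases Nat.lt_or_ge m 3 with h | h
          · omega
          · have : 2 * 3 ≤ e * m := Nat.mul_le_mul he h
            omega
        rcases hm1 with rfl | rfl
        · have := BB_one (F := F)
          omega
        · exact hfix.trans BB_two'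
      obtain ⟨h1, h2⟩ := hgen _ hW
      refine ⟨by omega, h2.trans ?_⟩
      have h3 := bound_four (F := F)
      simp only [Nat.reduceSub]
      have h4 : (Nat.gcd 4 (Fintype.card F - 1) - 1) * (2 * Fintype.card F + 1) ≤ 2 * Fintype.card F ^ 2 := by
        obtain ⟨r, hr⟩ : ∃ r, Fintype.card F = r + 2 := ⟨Fintype.card F - 2, by omega⟩
        have h5 : Nat.gcd 4 (Fintype.card F - 1) - 1 ≤ r := by omega
        rw [hr] at h5 ⊢
        calc _ ≤ r * (2 * (r + 2) + 1) := Nat.mul_le_mul_right _ h5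
          _ ≤ _ := by nlinarith
      omega

end Cfsg.Agent.Lib.KS2.SLCl
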