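import Mathlib
import Cfsg.Agent.Lib.KS2.SU3Inv4

/-!
Involutions of `SU₃(q)`, `q` odd: the commuting involution graph at `t₀ = diag(1,-1,-1)`.
-/

set_option autoImplicit false
set_option linter.unusedSectionVars false
set_option linter.unusedVariables false

namespace Cfsg.Agent.Lib.KS2.SU3Inv

open Matrix Polynomial Cfsg.Agent.Lib.Classical

section Transport

variable {G : Type*} [Group G]

lemma comm_map (φ : G ≃* G) (a b : G) : Commute (φ a) (φ b) ↔ Commute a b := by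
  constructor
  · intro h
    have h1 : φ (a * b) = φ (b * a) := by
      rw [map_mul, map_mul]
      exact h.eq
    exact φ.injective h1
  · intro h
    change φ a * φ b = φ b * φ a
    rw [← map_mul, ← map_mul, h.eq]

lemma inv_map (φ : G ≃* G) (x : G) : (φ x ≠ 1 ↔ x ≠ 1) ∧ (φ x * φ x = 1 ↔ x * x = 1) := by
  constructor
  · simp
  · rw [← map_mul, map_eq_one_iff φ φ.injective]

theorem transport_1 (φ : G ≃* G) (t : G) :
    Nat.card {x : G // x ≠ 1 ∧ x * x = 1 ∧ x ≠ t ∧ Commute t x} =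
      Nat.card {x : G // x ≠ 1 ∧ x * x = 1 ∧ x ≠ φ t ∧ Commute (φ t) x} := by
  refine Nat.card_congr (φ.toEquiv.subtypeEquiv ?_)
  intro x
  change _ ↔ φ x ≠ 1 ∧ φ x * φ x = 1 ∧ φ x ≠ φ t ∧ Commute (φ t) (φ x)
  rw [(inv_map φ x).1, (inv_map φ x).2, comm_map, φ.injective.ne_iff]

theorem transport_2 (φ : G ≃* G) (t : G) :
    Nat.card {x : G // x ≠ 1 ∧ x * x = 1 ∧ ¬ Commute t x ∧ ∃ y : G, y ≠ 1 ∧ y * y = 1 ∧ Commute t y ∧ Commute y x} =
      Nat.card {x : G // x ≠ 1 ∧ x * x = 1 ∧ ¬ Commute (φ t) x ∧ ∃ y : G, y ≠ 1 ∧ y * y = 1 ∧ Commute (φ t) y ∧ Commute y x} := by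
  refine Nat.card_congr (φ.toEquiv.subtypeEquiv ?_)
  intro x
  change _ ↔ φ x ≠ 1 ∧ φ x * φ x = 1 ∧ ¬ Commute (φ t) (φ x) ∧ ∃ y : G, y ≠ 1 ∧ y * y = 1 ∧ Commute (φ t) y ∧ Commute y (φ x)
  rw [(inv_map φ x).1, (inv_map φ x).2, comm_map]
  have : (∃ y : G, y ≠ 1 ∧ y * y = 1 ∧ Commute (φ t) y ∧ Commute y (φ x)) ↔
      ∃ y : G, y ≠ 1 ∧ y * y = 1 ∧ Commute t y ∧ Commute y x := by
    constructor
    · rintro ⟨y, h1, h2, h3, h4⟩
      refine ⟨φ.symm y, ?_⟩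
      have hy : φ (φ.symm y) = y := φ.apply_symm_apply y
      rw [← hy] at h1 h2 h3 h4
      rw [(inv_map φ _).1] at h1
      rw [(inv_map φ _).2] at h2
      rw [comm_map] at h3 h4
      exact ⟨h1, h2, h3, h4⟩
    · rintro ⟨y, h1, h2, h3, h4⟩
      refine ⟨φ y, ?_⟩
      rw [(inv_map φ _).1, (inv_map φ _).2, comm_map, comm_map]
      exact ⟨h1, h2, h3, h4⟩
  rw [this]

theorem transport_3 (φ : G ≃* G) (t : G) :
    Nat.card {x : G // x ≠ 1 ∧ x * x = 1 ∧ ¬ Commute t x ∧ ∀ y : G, y ≠ 1 → y * y = 1 → ¬ (Commute t y ∧ Commute y x)} =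
      Nat.card {x : G // x ≠ 1 ∧ x * x = 1 ∧ ¬ Commute (φ t) x ∧ ∀ y : G, y ≠ 1 → y * y = 1 → ¬ (Commute (φ t) y ∧ Commute y x)} := by
  refine Nat.card_congr (φ.toEquiv.subtypeEquiv ?_)
  intro x
  change _ ↔ φ x ≠ 1 ∧ φ x * φ x = 1 ∧ ¬ Commute (φ t) (φ x) ∧ ∀ y : G, y ≠ 1 → y * y = 1 → ¬ (Commute (φ t) y ∧ Commute y (φ x))
  rw [(inv_map φ x).1, (inv_map φ x).2, comm_map]
  have : (∀ y : G, y ≠ 1 → y * y = 1 → ¬ (Commute (φ t) y ∧ Commute y (φ x))) ↔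
      ∀ y : G, y ≠ 1 → y * y = 1 → ¬ (Commute t y ∧ Commute y x) := by
    constructor
    · intro h y h1 h2
      have := h (φ y) ((inv_map φ _).1.mpr h1) ((inv_map φ _).2.mpr h2)
      rwa [comm_map, comm_map] at this
    · intro h y h1 h2
      have hy : φ (φ.symm y) = y := φ.apply_symm_apply y
      rw [← hy] at h1 h2 ⊢
      rw [comm_map, comm_map]
      exact h _ ((inv_map φ _).1.mp h1) ((inv_map φ _).2.mp h2)
  rw [this]

theorem transport_4 (φ : G ≃* G) (t : G)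
    (h : ∀ x : G, x ≠ 1 → x * x = 1 → ∃ y z : G, y ≠ 1 ∧ y * y = 1 ∧ z ≠ 1 ∧ z * z = 1 ∧
        Commute (φ t) y ∧ Commute y z ∧ Commute z x) :
    ∀ x : G, x ≠ 1 → x * x = 1 → ∃ y z : G, y ≠ 1 ∧ y * y = 1 ∧ z ≠ 1 ∧ z * z = 1 ∧
        Commute t y ∧ Commute y z ∧ Commute z x := by
  intro x hx hx2
  obtain ⟨y, z, h1, h2, h3, h4, h5, h6, h7⟩ := h (φ x) ((inv_map φ _).1.mpr hx) ((inv_map φ _).2.mpr hx2)
  have hy : φ (φ.symm y) = y := φ.apply_symm_apply y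
  have hz : φ (φ.symm z) = z := φ.apply_symm_apply z
  rw [← hy] at h1 h2 h5 h6
  rw [← hz] at h3 h4 h6 h7
  rw [(inv_map φ _).1] at h1 h3
  rw [(inv_map φ _).2] at h2 h4
  rw [comm_map] at h5 h6 h7
  exact ⟨_, _, h1, h2, h3, h4, h5, h6, h7⟩

end Transport

variable {F : Type*} [Field F] [Fintype F] {q : ℕ}

/-- The first basis vector. -/
def e0 (F : Type*) [Field F] : Fin 3 → F := Pi.single 0 1

lemma H_e0_left (u : Fin 3 → F) : H F q (e0 F) u = (u 0) ^ q := hermForm_single_left 0 u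

lemma H_e0_right (hF : Fintype.card F = q ^ 2) (u : Fin 3 → F) : H F q u (e0 F) = u 0 := hermForm_single_right hF 0 u

lemma q_ne_zero (hF : Fintype.card F = q ^ 2) : q ≠ 0 := by
  have := one_lt_q hF
  omega

lemma H_e0_e0 (hF : Fintype.card F = q ^ 2) : H F q (e0 F) (e0 F) = 1 := by
  rw [H_e0_right hF]
  simp [e0]

/-- The reference involution. -/
def t0 (hF : Fintype.card F = q ^ 2) : Cfsg.SU 3 F q := tE hF (e0 F) (H_e0_e0 hF)

lemma H_self_split (u : Fin 3 → F) :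
    H F q u u = (u 0) ^ (q + 1) + (u 1) ^ (q + 1) + (u 2) ^ (q + 1) := by
  rw [H_eq]
  ring

/-- When is `tU u = t₀`. -/
lemma tU_eq_t0 (hF : Fintype.card F = q ^ 2) (hq : Odd q) (u : U F q) :
    tU hF u = t0 hF ↔ (u.1 1 = 0 ∧ u.1 2 = 0) := by
  constructor
  · intro h
    obtain ⟨c, -, hc⟩ := (tE_eq_iff hF hq (e0 F) u.1 (H_e0_e0 hF) u.2).mp h
    rw [hc]
    simp [e0]
  · rintro ⟨h1, h2⟩
    have hq0 := q_ne_zero hF
    have hN : (u.1 0) ^ (q + 1) = 1 := by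
      have := u.2
      rw [H_self_split, h1, h2] at this
      simpa [hq0] using this
    refine tE_eq_of hF (e0 F) u.1 (H_e0_e0 hF) u.2 hN ?_
    ext k
    fin_cases k <;> simp [e0, h1, h2]

lemma t0_comm (hF : Fintype.card F = q ^ 2) (hq : Odd q) (u : U F q) :
    Commute (t0 hF) (tU hF u) ↔ (u.1 1 = 0 ∧ u.1 2 = 0) ∨ u.1 0 = 0 := by
  have hq0 := q_ne_zero hF
  have h1 := tE_comm_iff hF hq (e0 F) u.1 (H_e0_e0 hF) u.2
  rw [H_e0_left, pow_eq_zero_iff hq0] at h1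
  change Commute (t0 hF) (tU hF u) ↔ t0 hF = tU hF u ∨ u.1 0 = 0 at h1
  rw [h1, eq_comm, tU_eq_t0 hF hq]

/-- The key computation with an isotropic second component. -/
lemma no_perp (hF : Fintype.card F = q ^ 2) {w₁ w₂ b₁ b₂ : F} (h1 : w₁ * b₁ ^ q + w₂ * b₂ ^ q = 0)
    (h2 : w₁ ^ (q + 1) + w₂ ^ (q + 1) = 1) (h3 : b₁ ^ (q + 1) + b₂ ^ (q + 1) = 0) : b₁ ^ (q + 1) = 0 := by
  have h1' : w₁ ^ q * b₁ + w₂ ^ q * b₂ = 0 := by
    have := congrArg (fun x => x ^ q) h1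
    simp only [pow_q_add hF, mul_pow, pow_q_pow_q hF] at this
    rw [this, zero_pow (q_ne_zero hF)]
  simp only [pow_succ] at h2 h3 ⊢
  linear_combination (-(b₁ * b₁ ^ q)) * h2 + (w₁ ^ q * b₁) * h1 - (w₂ * b₂ ^ q) * h1' + (w₂ * w₂ ^ q) * h3

/-- The predicate for existence of a common commuting involution. -/
theorem exists_y_iff (hF : Fintype.card F = q ^ 2) (hq : Odd q) (u : U F q) (hnc : ¬ Commute (t0 hF) (tU hF u)) :
    (∃ y : Cfsg.SU 3 F q, y ≠ 1 ∧ y * y = 1 ∧ Commute (t0 hF) y ∧ Commute y (tU hF u)) ↔ (u.1 0) ^ (q + 1) ≠ 1 := by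
  have hq0 := q_ne_zero hF
  constructor
  · rintro ⟨y, hy, hy2, h1, h2⟩ hN
    obtain ⟨w, hw, rfl⟩ := exists_unit hF hq y hy hy2
    have h3 : H F q (e0 F) w = 0 := by
      rcases (tE_comm_iff hF hq (e0 F) w (H_e0_e0 hF) hw).mp h1 with h | h
      · exfalso
        apply hnc
        change Commute (tE hF (e0 F) (H_e0_e0 hF)) _
        rw [h]
        exact h2
      · exact h
    have h4 : H F q w u.1 = 0 := by
      rcases (tE_comm_iff hF hq w u.1 hw u.2).mp h2 with h | h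
      · exfalso
        apply hnc
        change Commute _ (tE hF u.1 u.2)
        rw [← h]
        exact h1
      · exact h
    rw [H_e0_left, pow_eq_zero_iff hq0] at h3
    rw [H_eq, h3, zero_mul, zero_add] at h4
    have hw' := hw
    rw [H_self_split, h3, zero_pow (by omega), zero_add] at hw'
    have hu' := u.2
    rw [H_self_split, hN] at hu'
    have h5 : (u.1 1) ^ (q + 1) + (u.1 2) ^ (q + 1) = 0 := by linear_combination hu'
    have h6 := no_perp hF h4 hw' h5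
    have h7 : u.1 1 = 0 := by
      rwa [pow_eq_zero_iff (by omega)] at h6
    have h8 : u.1 2 = 0 := by
      rw [h6, zero_add, pow_eq_zero_iff (by omega)] at h5
      exact h5
    exact hnc ((t0_comm hF hq u).mpr (Or.inl ⟨h7, h8⟩))
  · intro hN
    obtain ⟨z, hz, hz1, hz2⟩ := exists_perp hF (e0 F) u.1 (by
      rw [H_e0_e0 hF, u.2, H_e0_left, H_e0_right hF, one_mul, sub_ne_zero]
      intro h
      apply hN
      rw [pow_succ]
      exact h.symm)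
    exact ⟨tE hF z hz, tE_ne_one hF hq z hz, tE_mul_self hF z hz, (tE_comm_iff hF hq _ _ _ _).mpr (Or.inr hz1),
      (tE_comm_iff hF hq _ _ _ _).mpr (Or.inr (H_flip hF hz2))⟩

end Cfsg.Agent.Lib.KS2.SU3Inv
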