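import Mathlib
import Cfsg.Agent.Lib.KS2.SU3Inv5

/-!
Involutions of `SU₃(q)`, `q` odd: the counts of the commuting involution graph at `t₀`.
-/

set_option autoImplicit false
set_option linter.unusedSectionVars false
set_option linter.unusedVariables false

namespace Cfsg.Agent.Lib.KS2.SU3Inv

open Matrix Polynomial Cfsg.Agent.Lib.Classical

variable {F : Type*} [Field F] [Fintype F] {q : ℕ}

lemma herm2 (b : Fin 2 → F) : Cfsg.hermForm 2 F q b b = (b 0) ^ (q + 1) + (b 1) ^ (q + 1) := by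
  simp only [Cfsg.hermForm, Fin.sum_univ_two]
  ring

/-- Vectors with first coordinate zero. -/
lemma card_first_zero (hF : Fintype.card F = q ^ 2) :
    Nat.card {u : U F q // u.1 0 = 0} = hcnt 2 F q 1 := by
  have hq0 := q_ne_zero hF
  refine Nat.card_congr
    { toFun := fun u => ⟨![u.1.1 1, u.1.1 2], ?_⟩
      invFun := fun b => ⟨⟨![0, b.1 0, b.1 1], ?_⟩, ?_⟩
      left_inv := ?_
      right_inv := ?_ }
  · have := u.1.2
    rw [H_self_split, u.2, zero_pow (by omega), zero_add] at this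
    rw [herm2]
    simpa using this
  · have := b.2
    rw [herm2] at this
    rw [H_self_split]
    simpa [hq0] using this
  · simp
  · intro u
    apply Subtype.ext
    apply Subtype.ext
    ext k
    fin_cases k <;> simp [u.2]
  · intro b
    apply Subtype.ext
    ext k
    fin_cases k <;> simp

/-- Vectors with first coordinate of norm one and nonzero tail. -/
lemma card_first_norm (hF : Fintype.card F = q ^ 2) :
    Nat.card {u : U F q // ¬ (u.1 1 = 0 ∧ u.1 2 = 0) ∧ (u.1 0) ^ (q + 1) = 1} =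
      (q + 1) * (hcnt 2 F q 0 - 1) := by
  classical
  have hq0 := q_ne_zero hF
  have hN : Nat.card {c : F // c ^ (q + 1) = 1} = q + 1 :=
    card_norm_fiber hF 1 one_ne_zero (one_pow _)
  have hb : Nat.card {b : Fin 2 → F // Cfsg.hermForm 2 F q b b = 0 ∧ ¬ b = 0} = hcnt 2 F q 0 - 1 := by
    have h1 := card_split (fun b : Fin 2 → F => Cfsg.hermForm 2 F q b b = 0) (fun b => b = 0)
    have h2 : Nat.card {b : Fin 2 → F // Cfsg.hermForm 2 F q b b = 0 ∧ b = 0} = 1 := by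
      rw [Nat.card_eq_one_iff_unique]
      refine ⟨⟨fun a b => Subtype.ext (a.2.2.trans b.2.2.symm)⟩, ⟨⟨0, ?_, rfl⟩⟩⟩
      simp [Cfsg.hermForm, hq0]
    rw [h2] at h1
    change hcnt 2 F q 0 = _ at h1
    omega
  rw [show (q + 1) * (hcnt 2 F q 0 - 1) = Nat.card {c : F // c ^ (q + 1) = 1} * Nat.card {b : Fin 2 → F // Cfsg.hermForm 2 F q b b = 0 ∧ ¬ b = 0} by rw [hN, hb], ← Nat.card_prod]
  refine Nat.card_congr
    { toFun := fun u => (⟨u.1.1 0, u.2.2⟩, ⟨![u.1.1 1, u.1.1 2], ?_, ?_⟩)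
      invFun := fun p => ⟨⟨![p.1.1, p.2.1 0, p.2.1 1], ?_⟩, ?_, ?_⟩
      left_inv := ?_
      right_inv := ?_ }
  · have := u.1.2
    rw [H_self_split, u.2.2] at this
    rw [herm2]
    simp only [Matrix.cons_val_zero, Matrix.cons_val_one, Matrix.cons_val_fin_one]
    linear_combination this
  · intro h
    apply u.2.1
    have h0 := congrFun h 0
    have h1 := congrFun h 1
    simp at h0 h1
    exact ⟨h0, h1⟩
  · have := p.2.2.1
    rw [herm2] at this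
    rw [H_self_split]
    simp only [Matrix.cons_val_zero, Matrix.cons_val_one, Matrix.cons_val]
    rw [p.1.2]
    linear_combination this
  · rintro ⟨h1, h2⟩
    apply p.2.2.2
    ext k
    fin_cases k
    · simpa using h1
    · simpa using h2
  · simpa using p.1.2
  · intro u
    apply Subtype.ext
    apply Subtype.ext
    ext k
    fin_cases k <;> simp
  · rintro ⟨c, b⟩
    apply Prod.ext
    · apply Subtype.ext
      simp
    · apply Subtype.ext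
      ext k
      fin_cases k <;> simp

lemma q_ge_three (hF : Fintype.card F = q ^ 2) (hq : Odd q) : 3 ≤ q := by
  have h1 := one_lt_q hF
  obtain ⟨k, hk⟩ := hq
  omega

lemma sq_sub_one_eq (hq : 1 ≤ q) : q ^ 2 - 1 = (q + 1) * (q - 1) := by
  obtain ⟨r, rfl⟩ : ∃ r, q = r + 1 := ⟨q - 1, by omega⟩
  simp only [Nat.add_sub_cancel]
  have : (r + 1) ^ 2 = (r + 1 + 1) * r + 1 := by ring
  omega

theorem card_C1 (hF : Fintype.card F = q ^ 2) (hq : Odd q) :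
    Nat.card {x : Cfsg.SU 3 F q // x ≠ 1 ∧ x * x = 1 ∧ x ≠ t0 hF ∧ Commute (t0 hF) x} = q * (q - 1) := by
  have hq0 := q_ne_zero hF
  have h1 := card_fib hF hq (fun x => x ≠ t0 hF ∧ Commute (t0 hF) x)
  have h2 : Nat.card {x : Cfsg.SU 3 F q // (x ≠ 1 ∧ x * x = 1) ∧ x ≠ t0 hF ∧ Commute (t0 hF) x} =
      Nat.card {x : Cfsg.SU 3 F q // x ≠ 1 ∧ x * x = 1 ∧ x ≠ t0 hF ∧ Commute (t0 hF) x} :=
    Nat.card_congr (Equiv.subtypeEquivRight (fun x => and_assoc))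
  have h3 : Nat.card {u : U F q // tU hF u ≠ t0 hF ∧ Commute (t0 hF) (tU hF u)} = Nat.card {u : U F q // u.1 0 = 0} := by
    refine Nat.card_congr (Equiv.subtypeEquivRight ?_)
    intro u
    rw [t0_comm hF hq, Ne, tU_eq_t0 hF hq]
    constructor
    · rintro ⟨h4, h5⟩
      exact h5.resolve_left h4
    · intro h4
      refine ⟨?_, Or.inr h4⟩
      rintro ⟨h5, h6⟩
      have := u.2
      rw [H_self_split, h4, h5, h6] at this
      simp [hq0] at this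
  rw [h2, h3, card_first_zero hF, (hcnt_values hF).2.1] at h1
  have h4 : 0 < q + 1 := by omega
  apply Nat.eq_of_mul_eq_mul_right h4
  rw [← h1]
  ring

theorem card_C3 (hF : Fintype.card F = q ^ 2) (hq : Odd q) :
    Nat.card {x : Cfsg.SU 3 F q // x ≠ 1 ∧ x * x = 1 ∧ ¬ Commute (t0 hF) x ∧
      ∀ y : Cfsg.SU 3 F q, y ≠ 1 → y * y = 1 → ¬ (Commute (t0 hF) y ∧ Commute y x)} = (q + 1) * (q ^ 2 - 1) := by
  have hq0 := q_ne_zero hF
  have hq1 := one_lt_q hF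
  have h1 := card_fib hF hq (fun x => ¬ Commute (t0 hF) x ∧
      ∀ y : Cfsg.SU 3 F q, y ≠ 1 → y * y = 1 → ¬ (Commute (t0 hF) y ∧ Commute y x))
  have h2 : Nat.card {x : Cfsg.SU 3 F q // (x ≠ 1 ∧ x * x = 1) ∧ ¬ Commute (t0 hF) x ∧
      ∀ y : Cfsg.SU 3 F q, y ≠ 1 → y * y = 1 → ¬ (Commute (t0 hF) y ∧ Commute y x)} =
      Nat.card {x : Cfsg.SU 3 F q // x ≠ 1 ∧ x * x = 1 ∧ ¬ Commute (t0 hF) x ∧
      ∀ y : Cfsg.SU 3 F q, y ≠ 1 → y * y = 1 → ¬ (Commute (t0 hF) y ∧ Commute y x)} :=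
    Nat.card_congr (Equiv.subtypeEquivRight (fun x => and_assoc))
  have h3 : Nat.card {u : U F q // ¬ Commute (t0 hF) (tU hF u) ∧
      ∀ y : Cfsg.SU 3 F q, y ≠ 1 → y * y = 1 → ¬ (Commute (t0 hF) y ∧ Commute y (tU hF u))} =
      Nat.card {u : U F q // ¬ (u.1 1 = 0 ∧ u.1 2 = 0) ∧ (u.1 0) ^ (q + 1) = 1} := by
    refine Nat.card_congr (Equiv.subtypeEquivRight ?_)
    intro u
    constructor
    · rintro ⟨h4, h5⟩
      have h6 : (u.1 0) ^ (q + 1) = 1 := by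
        by_contra h7
        obtain ⟨y, hy, hy2, hy3, hy4⟩ := (exists_y_iff hF hq u h4).mpr h7
        exact h5 y hy hy2 ⟨hy3, hy4⟩
      refine ⟨?_, h6⟩
      intro h7
      exact h4 ((t0_comm hF hq u).mpr (Or.inl h7))
    · rintro ⟨h4, h5⟩
      have h6 : ¬ Commute (t0 hF) (tU hF u) := by
        intro h7
        rcases (t0_comm hF hq u).mp h7 with h8 | h8
        · exact h4 h8
        · rw [h8, zero_pow (by omega)] at h5
          exact zero_ne_one h5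
      refine ⟨h6, ?_⟩
      intro y hy hy2 hy3
      exact (exists_y_iff hF hq u h6).mp ⟨y, hy, hy2, hy3.1, hy3.2⟩ h5
  rw [h2, h3, card_first_norm hF, (hcnt_values hF).2.2, Nat.add_sub_cancel] at h1
  have h4 : 0 < q + 1 := by omega
  apply Nat.eq_of_mul_eq_mul_right h4
  rw [← h1, sq_sub_one_eq (by omega)]
  ring

theorem card_C2 (hF : Fintype.card F = q ^ 2) (hq : Odd q) :
    Nat.card {x : Cfsg.SU 3 F q // x ≠ 1 ∧ x * x = 1 ∧ ¬ Commute (t0 hF) x ∧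
      ∃ y : Cfsg.SU 3 F q, y ≠ 1 ∧ y * y = 1 ∧ Commute (t0 hF) y ∧ Commute y x} = q * (q - 2) * (q ^ 2 - 1) := by
  classical
  have hq3 := q_ge_three hF hq
  have h1 := card_split (fun x : Cfsg.SU 3 F q => x ≠ 1 ∧ x * x = 1) (fun x => Commute (t0 hF) x)
  have h2 := card_split (fun x : Cfsg.SU 3 F q => (x ≠ 1 ∧ x * x = 1) ∧ Commute (t0 hF) x) (fun x => x = t0 hF)
  have h3 := card_split (fun x : Cfsg.SU 3 F q => (x ≠ 1 ∧ x * x = 1) ∧ ¬ Commute (t0 hF) x)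
    (fun x => ∃ y : Cfsg.SU 3 F q, y ≠ 1 ∧ y * y = 1 ∧ Commute (t0 hF) y ∧ Commute y x)
  have h4 : Nat.card {x : Cfsg.SU 3 F q // ((x ≠ 1 ∧ x * x = 1) ∧ Commute (t0 hF) x) ∧ x = t0 hF} = 1 := by
    rw [Nat.card_eq_one_iff_unique]
    refine ⟨⟨fun a b => Subtype.ext (a.2.2.trans b.2.2.symm)⟩, ⟨⟨t0 hF, ⟨⟨tE_ne_one hF hq _ _, tE_mul_self hF _ _⟩, Commute.refl _⟩, rfl⟩⟩⟩
  have h5 : Nat.card {x : Cfsg.SU 3 F q // ((x ≠ 1 ∧ x * x = 1) ∧ Commute (t0 hF) x) ∧ ¬ x = t0 hF} = q * (q - 1) := by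
    rw [← card_C1 hF hq]
    refine Nat.card_congr (Equiv.subtypeEquivRight ?_)
    intro x
    tauto
  have h6 : Nat.card {x : Cfsg.SU 3 F q // ((x ≠ 1 ∧ x * x = 1) ∧ ¬ Commute (t0 hF) x) ∧
      ∃ y : Cfsg.SU 3 F q, y ≠ 1 ∧ y * y = 1 ∧ Commute (t0 hF) y ∧ Commute y x} =
      Nat.card {x : Cfsg.SU 3 F q // x ≠ 1 ∧ x * x = 1 ∧ ¬ Commute (t0 hF) x ∧
      ∃ y : Cfsg.SU 3 F q, y ≠ 1 ∧ y * y = 1 ∧ Commute (t0 hF) y ∧ Commute y x} := by
    refine Nat.card_congr (Equiv.subtypeEquivRight ?_)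
    intro x
    simp only [and_assoc]
  have h7 : Nat.card {x : Cfsg.SU 3 F q // ((x ≠ 1 ∧ x * x = 1) ∧ ¬ Commute (t0 hF) x) ∧
      ¬ ∃ y : Cfsg.SU 3 F q, y ≠ 1 ∧ y * y = 1 ∧ Commute (t0 hF) y ∧ Commute y x} = (q + 1) * (q ^ 2 - 1) := by
    rw [← card_C3 hF hq]
    refine Nat.card_congr (Equiv.subtypeEquivRight ?_)
    intro x
    constructor
    · rintro ⟨⟨⟨h8, h9⟩, h10⟩, h11⟩
      exact ⟨h8, h9, h10, fun y h12 h13 h14 => h11 ⟨y, h12, h13, h14.1, h14.2⟩⟩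
    · rintro ⟨h8, h9, h10, h11⟩
      exact ⟨⟨⟨h8, h9⟩, h10⟩, fun ⟨y, h12, h13, h14, h15⟩ => h11 y h12 h13 ⟨h14, h15⟩⟩
  rw [card_inv hF hq] at h1
  rw [h4, h5] at h2
  rw [h6, h7] at h3
  rw [h2, h3] at h1
  set C := Nat.card {x : Cfsg.SU 3 F q // x ≠ 1 ∧ x * x = 1 ∧ ¬ Commute (t0 hF) x ∧
      ∃ y : Cfsg.SU 3 F q, y ≠ 1 ∧ y * y = 1 ∧ Commute (t0 hF) y ∧ Commute y x} with hC
  obtain ⟨r, rfl⟩ : ∃ r, q = r + 3 := ⟨q - 3, by omega⟩
  have e1 : (r + 3) ^ 2 - (r + 3) + 1 = r ^ 2 + 5 * r + 7 := by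
    have : (r + 3) ^ 2 = r ^ 2 + 5 * r + 6 + (r + 3) := by ring
    omega
  have e2 : r + 3 - 1 = r + 2 := by omega
  have e3 : r + 3 - 2 = r + 1 := by omega
  have e4 : (r + 3) ^ 2 - 1 = r ^ 2 + 6 * r + 8 := by
    have : (r + 3) ^ 2 = r ^ 2 + 6 * r + 8 + 1 := by ring
    omega
  rw [e1, e2, e4] at h1
  rw [e3, e4]
  have e5 : (r + 3) ^ 2 * (r ^ 2 + 5 * r + 7) = (1 + (r + 3) * (r + 2)) + ((r + 3) * (r + 1) * (r ^ 2 + 6 * r + 8) + (r + 3 + 1) * (r ^ 2 + 6 * r + 8)) := by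
    ring
  omega

/-- Norm values: there is a nonzero element not of norm one. -/
lemma exists_not_norm_one (hF : Fintype.card F = q ^ 2) (hq : Odd q) : ∃ s : F, s ≠ 0 ∧ s ^ (q + 1) ≠ 1 := by
  classical
  have hq3 := q_ge_three hF hq
  by_contra hcon
  push Not at hcon
  have hN : Nat.card {c : F // c ^ (q + 1) = 1} = q + 1 :=
    card_norm_fiber hF 1 one_ne_zero (one_pow _)
  have h1 : Nat.card Fˣ ≤ Nat.card {c : F // c ^ (q + 1) = 1} := by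
    refine Nat.card_le_card_of_injective (fun u : Fˣ => ⟨(u : F), hcon _ u.ne_zero⟩) ?_
    intro a b h
    exact Units.ext (congrArg Subtype.val h)
  rw [hN, Nat.card_eq_fintype_card, Fintype.card_units, hF] at h1
  have h2 : (q + 1) * 2 ≤ q ^ 2 - 1 := by
    rw [sq_sub_one_eq (by omega)]
    exact Nat.mul_le_mul_left _ (by omega)
  omega

/-- Existence of unit vectors with a prescribed pairing with an isotropic vector. -/
lemma exists_w (hF : Fintype.card F = q ^ 2) (hq : Odd q) {b₁ b₂ s : F} (hb₁ : b₁ ≠ 0) (hb : b₁ ^ (q + 1) + b₂ ^ (q + 1) = 0) (hs : s ≠ 0) :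
    ∃ w₁ w₂ : F, w₁ * b₁ ^ q + w₂ * b₂ ^ q = s ∧ w₁ ^ (q + 1) + w₂ ^ (q + 1) = 1 := by
  have h2 := two_ne hF hq
  have hq0 := q_ne_zero hF
  have hB : b₁ ^ q ≠ 0 := pow_ne_zero _ hb₁
  have hS : s ^ q ≠ 0 := pow_ne_zero _ hs
  have hb' : b₁ ^ q * b₁ + b₂ ^ q * b₂ = 0 := by
    simp only [pow_succ] at hb
    exact hb
  set ν := s ^ (q + 1) / b₁ ^ (q + 1) with hν
  have hνq : ν ^ q = ν := by
    rw [hν, div_pow, norm_pow_q hF, norm_pow_q hF]
  set ξ := (1 - ν) / 2 with hξ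
  have hξq : ξ ^ q = ξ := by
    have h2q : (2 : F) ^ q = 2 := by
      have := map_ofNat (conjQ hF) 2
      simpa using this
    rw [hξ, div_pow, conjQ_sub hF, one_pow, hνq, h2q]
  set τ := ξ / s ^ q with hτ
  have hτq : τ ^ q = ξ / s := by
    rw [hτ, div_pow, hξq, pow_q_pow_q hF]
  refine ⟨s / b₁ ^ q + τ * b₁, τ * b₂, ?_, ?_⟩
  · have : (s / b₁ ^ q + τ * b₁) * b₁ ^ q + τ * b₂ * b₂ ^ q = s + τ * (b₁ ^ q * b₁ + b₂ ^ q * b₂) := by
      field_simp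
      ring
    rw [this, hb', mul_zero, add_zero]
  · have h3 : (s / b₁ ^ q + τ * b₁) ^ q = s ^ q / b₁ + τ ^ q * b₁ ^ q := by
      rw [pow_q_add hF, div_pow, mul_pow, pow_q_pow_q hF]
    have h4 : (τ * b₂) ^ q = τ ^ q * b₂ ^ q := mul_pow _ _ _
    rw [pow_succ, pow_succ, h3, h4]
    have h5 : (s / b₁ ^ q + τ * b₁) * (s ^ q / b₁ + τ ^ q * b₁ ^ q) + τ * b₂ * (τ ^ q * b₂ ^ q) =
        s * s ^ q / (b₁ ^ q * b₁) + s * τ ^ q + τ * s ^ q + τ * τ ^ q * (b₁ ^ q * b₁ + b₂ ^ q * b₂) := by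
      field_simp
      ring
    have h6 : s * τ ^ q = ξ := by
      rw [hτq]
      field_simp
    have h7 : τ * s ^ q = ξ := by
      rw [hτ]
      field_simp
    have h8 : s * s ^ q / (b₁ ^ q * b₁) = ν := by
      rw [hν, pow_succ, pow_succ]
      ring
    have h9 : (s / b₁ ^ q + τ * b₁) * (s ^ q / b₁ + τ ^ q * b₁ ^ q) + τ * b₂ * (τ ^ q * b₂ ^ q) = ν + 2 * ξ := by
      rw [h5, h6, h7, h8, hb']
      ring
    have h10 : (s / b₁ ^ q + τ * b₁) ^ q = s ^ q / b₁ + τ ^ q * b₁ ^ q := h3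
    linear_combination h9 + (by rw [hξ]; field_simp; ring : ν + 2 * ξ = 1)

/-- Connectivity at `t₀`. -/
theorem path_t0 (hF : Fintype.card F = q ^ 2) (hq : Odd q) (x : Cfsg.SU 3 F q) (hx : x ≠ 1) (hx2 : x * x = 1) :
    ∃ y z : Cfsg.SU 3 F q, y ≠ 1 ∧ y * y = 1 ∧ z ≠ 1 ∧ z * z = 1 ∧
      Commute (t0 hF) y ∧ Commute y z ∧ Commute z x := by
  have hq0 := q_ne_zero hF
  obtain ⟨u, rfl⟩ := exists_tU hF hq x hx hx2
  have ht1 : t0 hF ≠ 1 := tE_ne_one hF hq _ _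
  have ht2 : t0 hF * t0 hF = 1 := tE_mul_self hF _ _
  by_cases hc : Commute (t0 hF) (tU hF u)
  · exact ⟨t0 hF, tU hF u, ht1, ht2, hx, hx2, Commute.refl _, hc, Commute.refl _⟩
  by_cases hN : (u.1 0) ^ (q + 1) = 1
  swap
  · obtain ⟨y, hy, hy2, hy3, hy4⟩ := (exists_y_iff hF hq u hc).mpr hN
    exact ⟨y, y, hy, hy2, hy, hy2, hy3, Commute.refl _, hy4⟩
  have hu := u.2
  rw [H_self_split, hN] at hu
  have hb : (u.1 1) ^ (q + 1) + (u.1 2) ^ (q + 1) = 0 := by linear_combination hu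
  have hb₁ : u.1 1 ≠ 0 := by
    intro h0
    rw [h0, zero_pow (by omega), zero_add, pow_eq_zero_iff (by omega)] at hb
    exact hc ((t0_comm hF hq u).mpr (Or.inl ⟨h0, hb⟩))
  obtain ⟨s, hs, hsN⟩ := exists_not_norm_one hF hq
  obtain ⟨w₁, w₂, hw1, hw2⟩ := exists_w hF hq hb₁ hb hs
  set w : Fin 3 → F := ![0, w₁, w₂] with hw
  have hww : H F q w w = 1 := by
    rw [H_self_split]
    simp [hw, hq0, hw2]
  have hwu : H F q w u.1 = s := by
    rw [H_eq]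
    simp [hw, hw1]
  have he : H F q (e0 F) w = 0 := by
    rw [H_e0_left]
    simp [hw, hq0]
  obtain ⟨z, hz, hz1, hz2⟩ := exists_perp hF w u.1 (by
    rw [hww, u.2, hwu, ← H_symm hF w u.1, hwu, one_mul, sub_ne_zero]
    intro h
    apply hsN
    rw [pow_succ, mul_comm]
    exact h.symm)
  refine ⟨tE hF w hww, tE hF z hz, tE_ne_one hF hq _ _, tE_mul_self hF _ _, tE_ne_one hF hq _ _, tE_mul_self hF _ _, ?_, ?_, ?_⟩
  · exact (tE_comm_iff hF hq _ _ _ _).mpr (Or.inr he)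
  · exact (tE_comm_iff hF hq _ _ _ _).mpr (Or.inr hz1)
  · exact (tE_comm_iff hF hq _ _ _ _).mpr (Or.inr (H_flip hF hz2))

end Cfsg.Agent.Lib.KS2.SU3Inv
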