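import Mathlib

/-!
Thompson's commutator theorem, part 1: Krylov functionals, assigning the characteristic polynomial
by a rank one update (pole placement), similarity of cyclic operators.
-/

set_option autoImplicit false
set_option linter.unusedSectionVars false
set_option linter.unusedVariables false

namespace Cfsg.Agent.Lib.KS2.Thomp

open Polynomial Module

variable {F V : Type*} [Field F] [AddCommGroup V] [Module F V]

/-- No nonzero vector is annihilated by all Krylov functionals of `(X, r)`. -/
def Obs (X : Module.End F V) (r : Module.Dual F V) : Prop :=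
  ∀ v, (∀ k : ℕ, r ((X ^ k) v) = 0) → v = 0

lemma dual_aeval (X : Module.End F V) (r : Module.Dual F V) (p : F[X]) (v : V) :
    r (aeval X p v) = ∑ i ∈ Finset.range (p.natDegree + 1), p.coeff i * r ((X ^ i) v) := by
  rw [aeval_eq_sum_range]
  simp [LinearMap.sum_apply, map_sum]

lemma dual_congr (M X : Module.End F V) (ρ r : Module.Dual F V) (u v : V) (e : ℕ)
    (h : ∀ j < e, ρ ((M ^ j) u) = r ((X ^ j) v)) (s : F[X]) (hs : s.degree < e) :
    ρ (aeval M s u) = r (aeval X s v) := by
  rw [dual_aeval, dual_aeval]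
  refine Finset.sum_congr rfl fun i _ => ?_
  by_cases hi : i < e
  · rw [h i hi]
  · rw [coeff_eq_zero_of_degree_lt (lt_of_lt_of_le hs (by exact_mod_cast not_lt.mp hi))]; simp

lemma agree (M N : Module.End F V) (ρ r : Module.Dual F V) (p : F[X]) (hp : p ≠ 0)
    (hρ : ∀ w, ρ (aeval M p w) = 0) (hr : ∀ w, r (aeval N p w) = 0) (u v : V)
    (h : ∀ j < p.natDegree, ρ ((M ^ j) u) = r ((N ^ j) v)) (k : ℕ) :
    ρ ((M ^ k) u) = r ((N ^ k) v) := by
  have hdiv := EuclideanDomain.mod_add_div (X ^ k : F[X]) p
  have hs : ((X ^ k : F[X]) % p).degree < p.natDegree := by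
    rw [← degree_eq_natDegree hp]; exact degree_mod_lt _ hp
  have h1 : ∀ Y : Module.End F V, Y ^ k = aeval Y ((X ^ k : F[X]) % p)
      + aeval Y p * aeval Y ((X ^ k : F[X]) / p) := by
    intro Y
    rw [← map_mul, ← map_add, hdiv]; simp
  rw [h1 M, h1 N]
  simp only [LinearMap.add_apply, Module.End.mul_apply, map_add, hρ, hr, add_zero]
  exact dual_congr M N ρ r u v _ h _ hs

lemma all_zero (X : Module.End F V) (r : Module.Dual F V) (p : F[X]) (hp : p ≠ 0)
    (hr : ∀ w, r (aeval X p w) = 0) (v : V) (h : ∀ j < p.natDegree, r ((X ^ j) v) = 0) (k : ℕ) :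
    r ((X ^ k) v) = 0 := by
  have := agree X (0 : Module.End F V) r (0 : Module.Dual F V) p hp hr (by simp) v 0
    (fun j hj => by simpa using h j hj) k
  simpa using this

lemma obs_deg [FiniteDimensional F V] {X : Module.End F V} {r : Module.Dual F V} (hO : Obs X r)
    (p : F[X]) (hp : p ≠ 0) (hr : ∀ w, r (aeval X p w) = 0) : finrank F V ≤ p.natDegree := by
  by_contra hlt
  push Not at hlt
  let Ψ : V →ₗ[F] (Fin p.natDegree → F) := LinearMap.pi fun k => r ∘ₗ (X ^ (k : ℕ))
  have hk : LinearMap.ker Ψ ≠ ⊥ := LinearMap.ker_ne_bot_of_finrank_lt (by simpa using hlt)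
  obtain ⟨v, hv, hv0⟩ := Submodule.exists_mem_ne_zero_of_ne_bot hk
  apply hv0
  apply hO
  apply all_zero X r p hp hr v
  intro j hj
  have := congrFun (LinearMap.mem_ker.mp hv) ⟨j, hj⟩
  simpa [Ψ] using this

lemma kry_inj {X : Module.End F V} {r : Module.Dual F V} (hO : Obs X r)
    (p : F[X]) (hp : p ≠ 0) (hr : ∀ w, r (aeval X p w) = 0) (v : V)
    (h : ∀ j < p.natDegree, r ((X ^ j) v) = 0) : v = 0 :=
  hO v (all_zero X r p hp hr v h)

lemma exists_vec [FiniteDimensional F V] {e : ℕ} (he : e = finrank F V)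
    (l : Fin e → Module.Dual F V) (hl : LinearIndependent F l) (a : Fin e → F) :
    ∃ y, ∀ k, l k y = a k := by
  rcases Nat.eq_zero_or_pos e with h0 | hpos
  · subst h0
    exact ⟨0, fun k => k.elim0⟩
  haveI : Nonempty (Fin e) := ⟨⟨0, hpos⟩⟩
  have hc : Fintype.card (Fin e) = finrank F (Module.Dual F V) := by
    simp [he, Subspace.dual_finrank_eq]
  let b := basisOfLinearIndependentOfCardEqFinrank hl hc
  let φ : Module.Dual F (Module.Dual F V) := b.constr F a
  refine ⟨(Module.evalEquiv F V).symm φ, fun k => ?_⟩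
  have h1 : l k ((Module.evalEquiv F V).symm φ) = φ (l k) :=
    Module.apply_evalEquiv_symm_apply F V (l k) φ
  rw [h1]
  have h2 : l k = b k := by simp [b]
  rw [h2]
  simp [φ, Module.Basis.constr_basis]

lemma obs_add {X₀ : Module.End F V} {r : Module.Dual F V} (hO : Obs X₀ r) (y : V) :
    Obs (X₀ + r.smulRight y) r := by
  intro v hv
  apply hO
  have key : ∀ k : ℕ, ((X₀ + r.smulRight y) ^ k) v = (X₀ ^ k) v := by
    intro k
    induction k with
    | zero => simp
    | succ k ih =>
      rw [pow_succ', pow_succ', Module.End.mul_apply, Module.End.mul_apply]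
      simp only [LinearMap.add_apply, LinearMap.smulRight_apply]
      rw [hv k, zero_smul, add_zero, ih]
  intro k
  rw [← key k]
  exact hv k

/-- Pole placement: assigning a prescribed annihilating polynomial to the functional `r` by a rank
one update. -/
theorem pp [FiniteDimensional F V] (X₀ : Module.End F V) (r : Module.Dual F V) (hO : Obs X₀ r)
    (g : F[X]) (hg : g.Monic) (hd : g.natDegree = finrank F V) :
    ∃ y : V, ∀ w, r (aeval (X₀ + r.smulRight y) g w) = 0 := by
  classical
  set e := finrank F V with he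
  set χ := LinearMap.charpoly X₀ with hχ
  have hχm : χ.Monic := LinearMap.charpoly_monic X₀
  have hχd : χ.natDegree = e := LinearMap.charpoly_natDegree X₀
  have hχa : aeval X₀ χ = 0 := LinearMap.aeval_self_charpoly X₀
  have hgne : g ≠ 0 := hg.ne_zero
  set E := (X ^ e * χ) /ₘ g with hE
  set Rr := (X ^ e * χ) %ₘ g with hRr
  have hdiv : Rr + g * E = X ^ e * χ := modByMonic_add_div _ g
  have hRd : Rr.degree < e := by
    have := degree_modByMonic_lt (X ^ e * χ) hg
    rwa [degree_eq_natDegree hgne, hd] at this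
  have hmon : (X ^ e * χ : F[X]).Monic := (monic_X_pow e).mul hχm
  have hnd : (X ^ e * χ : F[X]).natDegree = e + e := by
    rw [(monic_X_pow e).natDegree_mul hχm, natDegree_X_pow, hχd]
  have hEd : E.natDegree = e := by
    rw [hE, natDegree_divByMonic _ hg, hnd, hd]; omega
  have hEm : E.Monic := by
    have hdl : g.degree ≤ (X ^ e * χ : F[X]).degree := by
      rw [degree_eq_natDegree hgne, degree_eq_natDegree hmon.ne_zero, hnd, hd]
      exact_mod_cast Nat.le_add_left _ _
    have h := leadingCoeff_divByMonic_of_monic (p := X ^ e * χ) hg hdl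
    exact h.trans hmon
  have hEe : E.coeff e = 1 := by
    have := hEm.coeff_natDegree; rwa [hEd] at this
  have hEgt : ∀ n, e < n → E.coeff n = 0 := fun n hn =>
    coeff_eq_zero_of_natDegree_lt (by rwa [hEd])
  -- the Horner polynomials
  let D : ℕ → F[X] := fun k => divX^[k] E
  have hDc : ∀ k n, (D k).coeff n = E.coeff (n + k) := by
    intro k
    induction k with
    | zero => intro n; simp [D]
    | succ k ih =>
      intro n
      have : D (k + 1) = divX (D k) := Function.iterate_succ_apply' _ _ _
      rw [this, coeff_divX, ih]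
      congr 1; omega
  let H : ℕ → F[X] := fun k => D (e - k)
  have hHc : ∀ k n, (H k).coeff n = E.coeff (n + (e - k)) := fun k n => hDc _ _
  have hH0 : H 0 = 1 := by
    ext n
    rw [hHc, coeff_one]
    by_cases hn : n = 0
    · subst hn; simp [hEe]
    · rw [if_neg hn, hEgt]; omega
  let a : ℕ → F := fun k => (D (e - k - 1)).coeff 0
  have hrec : ∀ k, k < e → H (k + 1) = H k * X + C (a k) := by
    intro k hk
    have h1 : H k = divX (D (e - k - 1)) := by
      have h2 : e - k = (e - k - 1) + 1 := by omega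
      show D (e - k) = _
      rw [h2]
      exact Function.iterate_succ_apply' _ _ _
    have h3 : H (k + 1) = D (e - k - 1) := by
      show D (e - (k + 1)) = _
      congr 1
    rw [h3, h1]
    exact (divX_mul_X_add _).symm
  -- choice of `y`
  have hli : LinearIndependent F (fun k : Fin e => r ∘ₗ aeval X₀ (H (k : ℕ))) := by
    rw [Fintype.linearIndependent_iff]
    intro c hc
    set P : F[X] := ∑ k : Fin e, c k • H (k : ℕ) with hP
    have hPc : ∀ n, P.coeff n = ∑ k : Fin e, c k * E.coeff (n + (e - (k : ℕ))) := by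
      intro n
      rw [hP, finset_sum_coeff]
      exact Finset.sum_congr rfl fun k _ => by rw [coeff_smul, hHc, smul_eq_mul]
    have hP0 : ∀ w, r (aeval X₀ P w) = 0 := by
      intro w
      have := LinearMap.congr_fun hc w
      simp only [LinearMap.sum_apply, LinearMap.smul_apply, LinearMap.comp_apply,
        LinearMap.zero_apply] at this
      rw [hP, map_sum, LinearMap.sum_apply, map_sum, ← this]
      exact Finset.sum_congr rfl fun k _ => by simp
    have hPz : P = 0 := by
      by_contra hne
      have h1 := obs_deg hO P hne hP0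
      have h2 : P.degree < e := by
        rw [degree_lt_iff_coeff_zero]
        intro m hm
        rw [hPc]
        refine Finset.sum_eq_zero fun k _ => ?_
        rw [hEgt _ (by have := k.2; omega), mul_zero]
      have h3 := (natDegree_lt_iff_degree_lt hne).2 h2
      omega
    intro i
    by_contra hci
    obtain ⟨k₀, hk₀, hmax⟩ := Finset.exists_max_image (Finset.univ.filter fun k : Fin e => c k ≠ 0)
      (fun k => (k : ℕ)) ⟨i, by simpa using hci⟩
    have hc0 : P.coeff k₀ = c k₀ := by
      rw [hPc, Finset.sum_eq_single k₀]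
      · have : (k₀ : ℕ) + (e - (k₀ : ℕ)) = e := by have := k₀.2; omega
        rw [this, hEe, mul_one]
      · intro k _ hk
        by_cases hck : c k = 0
        · rw [hck, zero_mul]
        · have hle := hmax k (by simpa using hck)
          have hlt : (k : ℕ) < k₀ := lt_of_le_of_ne hle (fun h => hk (Fin.ext h))
          rw [hEgt _ (by have := k₀.2; omega), mul_zero]
      · simp
    rw [hPz, coeff_zero] at hc0
    exact (by simpa using hk₀ : c k₀ ≠ 0) hc0.symm
  obtain ⟨y, hy⟩ := exists_vec he.symm _ hli (fun k => a (k : ℕ))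
  refine ⟨y, ?_⟩
  set Y := X₀ + r.smulRight y with hY
  have hind : ∀ k, k ≤ e → ∀ w, r ((Y ^ k) w) = r (aeval X₀ (H k) w) := by
    intro k
    induction k with
    | zero => intro _ w; simp [hH0]
    | succ k ih =>
      intro hk w
      have hk' : k < e := hk
      have h1 : r (aeval X₀ (H k) y) = a k := by simpa using hy ⟨k, hk'⟩
      rw [pow_succ, Module.End.mul_apply, ih hk'.le, hrec k hk', hY]
      simp only [LinearMap.add_apply, LinearMap.smulRight_apply, map_add, map_smul, h1, map_mul,
        aeval_X, Module.End.mul_apply, aeval_C, Module.algebraMap_end_apply, smul_eq_mul]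
      ring
  set S : F[X] := ∑ k ∈ Finset.range (e + 1), g.coeff k • H k with hS
  have hSχ : S = χ := by
    have hg' : g = ∑ k ∈ Finset.range (e + 1), C (g.coeff k) * X ^ k := by
      have := g.as_sum_range_C_mul_X_pow
      rwa [hd] at this
    have hgE : g * E = ∑ k ∈ Finset.range (e + 1), g.coeff k • (X ^ k * E) := by
      conv_lhs => rw [hg']
      rw [Finset.sum_mul]
      refine Finset.sum_congr rfl fun k _ => ?_
      rw [smul_eq_C_mul, mul_assoc]
    ext n
    have h1 : χ.coeff n = (X ^ e * χ).coeff (n + e) := (coeff_X_pow_mul _ _ _).symm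
    rw [h1, ← hdiv, coeff_add, coeff_eq_zero_of_degree_lt
      (lt_of_lt_of_le hRd (by exact_mod_cast Nat.le_add_left _ _)), zero_add, hgE, hS,
      finset_sum_coeff, finset_sum_coeff]
    refine Finset.sum_congr rfl fun k hk => ?_
    have hke : k ≤ e := Nat.lt_succ_iff.mp (Finset.mem_range.mp hk)
    rw [coeff_smul, coeff_smul, hHc, coeff_X_pow_mul', if_pos (by omega)]
    congr 2
    omega
  intro w
  rw [dual_aeval, hd]
  have h1 : r (aeval X₀ S w) = 0 := by
    rw [hSχ, hχa]; simp
  rw [← h1, hS, map_sum, LinearMap.sum_apply, map_sum]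
  refine Finset.sum_congr rfl fun k hk => ?_
  have hke : k ≤ e := Nat.lt_succ_iff.mp (Finset.mem_range.mp hk)
  rw [hind k hke]
  simp

/-- A functional observing `X` and annihilated by a monic polynomial of the right degree determines
the characteristic polynomial. -/
theorem charpoly_eq [FiniteDimensional F V] {X : Module.End F V} {r : Module.Dual F V}
    (hO : Obs X r) (g : F[X]) (hg : g.Monic) (hd : g.natDegree = finrank F V)
    (hr : ∀ w, r (aeval X g w) = 0) : LinearMap.charpoly X = g := by
  by_contra hne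
  have hq : LinearMap.charpoly X - g ≠ 0 := sub_ne_zero.mpr hne
  have hm := LinearMap.charpoly_monic X
  have hdeg : (LinearMap.charpoly X).degree = g.degree := by
    rw [degree_eq_natDegree hm.ne_zero, degree_eq_natDegree hg.ne_zero,
      LinearMap.charpoly_natDegree, hd]
  have h1 := degree_sub_lt hdeg hm.ne_zero (by rw [hm.leadingCoeff, hg.leadingCoeff])
  have h2 := obs_deg hO _ hq (by
    intro w
    rw [map_sub, LinearMap.aeval_self_charpoly]
    simp [hr w])
  have h3 := natDegree_lt_natDegree hq h1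
  rw [LinearMap.charpoly_natDegree] at h3
  omega

/-- Two operators observed by functionals with the same monic annihilating polynomial are similar. -/
theorem sim [FiniteDimensional F V] {M N : Module.End F V} {ρ r : Module.Dual F V}
    (hM : Obs M ρ) (hX : Obs N r) (f : F[X]) (hf : f.Monic) (hd : f.natDegree = finrank F V)
    (hρ : ∀ w, ρ (aeval M f w) = 0) (hr : ∀ w, r (aeval N f w) = 0) :
    ∃ P : V ≃ₗ[F] V, ∀ v, M (P v) = P (N v) := by
  classical
  have hfne := hf.ne_zero
  let ΨM : V →ₗ[F] (Fin f.natDegree → F) := LinearMap.pi fun k => ρ ∘ₗ (M ^ (k : ℕ))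
  let ΨX : V →ₗ[F] (Fin f.natDegree → F) := LinearMap.pi fun k => r ∘ₗ (N ^ (k : ℕ))
  have hinj : ∀ (Y : Module.End F V) (s : Module.Dual F V), Obs Y s →
      (∀ w, s (aeval Y f w) = 0) →
      LinearMap.ker (LinearMap.pi fun k : Fin f.natDegree => s ∘ₗ (Y ^ (k : ℕ))) = ⊥ := by
    intro Y s hO hs
    rw [LinearMap.ker_eq_bot']
    intro v hv
    refine kry_inj hO f hfne hs v fun j hj => ?_
    have := congrFun hv ⟨j, hj⟩
    simpa using this
  have hdimF : finrank F V = finrank F (Fin f.natDegree → F) := by simp [hd]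
  let EM : V ≃ₗ[F] (Fin f.natDegree → F) := ΨM.linearEquivOfInjective
    (LinearMap.ker_eq_bot.mp (hinj M ρ hM hρ)) hdimF
  let EX : V ≃ₗ[F] (Fin f.natDegree → F) := ΨX.linearEquivOfInjective
    (LinearMap.ker_eq_bot.mp (hinj N r hX hr)) hdimF
  refine ⟨EX.trans EM.symm, fun v => ?_⟩
  set P : V ≃ₗ[F] V := EX.trans EM.symm with hP
  have hPk : ∀ u : V, ∀ j : Fin f.natDegree, ρ ((M ^ (j : ℕ)) (P u)) = r ((N ^ (j : ℕ)) u) := by
    intro u j
    have h1 : EM (P u) = EX u := by simp [hP]
    have h2 := congrFun h1 j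
    simpa [EM, EX, ΨM, ΨX] using h2
  have hall : ∀ u : V, ∀ k : ℕ, ρ ((M ^ k) (P u)) = r ((N ^ k) u) := by
    intro u k
    exact agree M N ρ r f hfne hρ hr (P u) u (fun j hj => hPk u ⟨j, hj⟩) k
  apply EM.injective
  funext j
  have h3 : EM (M (P v)) j = ρ ((M ^ (j : ℕ)) (M (P v))) := by simp [EM, ΨM]
  have h4 : EM (P (N v)) j = ρ ((M ^ (j : ℕ)) (P (N v))) := by simp [EM, ΨM]
  rw [h3, h4, hPk (N v) j]
  have h5 := hall v ((j : ℕ) + 1)
  rw [pow_succ, pow_succ, Module.End.mul_apply, Module.End.mul_apply] at h5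
  exact h5

end Cfsg.Agent.Lib.KS2.Thomp
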