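import Mathlib
import Cfsg.Agent.Lib.KS2.Th1

/-!
Thompson's commutator theorem, part 2: from an operator `T` with the two observability properties
to a factorisation of `A` as a commutator.
-/

set_option autoImplicit false
set_option linter.unusedSectionVars false
set_option linter.unusedVariables false

namespace Cfsg.Agent.Lib.KS2.Thomp

open Polynomial Module

variable {F V : Type*} [Field F] [AddCommGroup V] [Module F V]

lemma coe_pow_compat (H : Submodule F V) (N' : Module.End F H) (N : Module.End F V)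
    (hc : ∀ u : H, ((N' u : H) : V) = N u) (k : ℕ) (u : H) :
    (((N' ^ k) u : H) : V) = (N ^ k) (u : V) := by
  induction k with
  | zero => simp
  | succ k ih => rw [pow_succ', pow_succ', Module.End.mul_apply, Module.End.mul_apply, hc, ih]

lemma coe_aeval_compat (H : Submodule F V) (N' : Module.End F H) (N : Module.End F V)
    (hc : ∀ u : H, ((N' u : H) : V) = N u) (p : F[X]) (u : H) :
    ((aeval N' p u : H) : V) = aeval N p (u : V) := by
  rw [aeval_eq_sum_range, aeval_eq_sum_range]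
  simp [LinearMap.sum_apply, coe_pow_compat H N' N hc]

lemma dual_eigen (M : Module.End F V) (ξ : Module.Dual F V) (μ : F) (h : ∀ x, ξ (M x) = μ * ξ x)
    (p : F[X]) (x : V) : ξ (aeval M p x) = p.eval μ * ξ x := by
  have hk : ∀ (k : ℕ) (x : V), ξ ((M ^ k) x) = μ ^ k * ξ x := by
    intro k
    induction k with
    | zero => intro x; simp
    | succ k ih =>
      intro x
      rw [pow_succ, Module.End.mul_apply, ih, h, pow_succ]; ring
  rw [dual_aeval, eval_eq_sum_range, Finset.sum_mul]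
  refine Finset.sum_congr rfl fun i _ => ?_
  rw [hk]; ring

theorem assembly [FiniteDimensional F V] (A Ai : Module.End F V) (hA : A * Ai = 1)
    (hA' : Ai * A = 1)
    (hdet : LinearMap.det A = 1) (ξ : Module.Dual F V) (c' : V) (T : Module.End F V)
    (h1 : ξ c' = 0) (h2 : ξ (A c') = 1) (h3 : ∀ v, ξ (T v) = 0) (h4 : T c' = 0)
    (hii : ∀ W : Submodule F V, W ≤ LinearMap.ker ξ ⊓ LinearMap.ker (ξ ∘ₗ A) →
      (∀ u ∈ W, Ai (T u) ∈ W) → W = ⊥)
    (hi : ∀ W : Submodule F V, W ≤ LinearMap.ker ξ ⊓ LinearMap.ker (ξ ∘ₗ A) →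
      (∀ u ∈ W, T u ∈ W) → (∀ w ∈ W, ∃ u ∈ W, T u = w) → W = ⊥)
    (h : F[X]) (μ₀ : F) (hh : h.Monic) (hhd : h.natDegree + 1 = finrank F V)
    (hμ : h.eval μ₀ ≠ 0)
    (hμ₀ : μ₀ * ((-1) ^ h.natDegree * h.coeff 0) = 1) :
    ∃ z M : Module.End F V, LinearMap.det z = 1 ∧ LinearMap.det M = 1 ∧ (A * M) * z = z * M := by
  classical
  have hAi : ∀ x, A (Ai x) = x := fun x => by
    have := LinearMap.congr_fun hA x; simpa using this
  have hiA : ∀ x, Ai (A x) = x := fun x => by
    have := LinearMap.congr_fun hA' x; simpa using this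
  set c := A c' with hc
  have hξc : ξ c = 1 := h2
  have hξ0 : ξ ≠ 0 := by
    intro h0; rw [h0] at hξc; simp at hξc
  set ζ : Module.Dual F V := ξ ∘ₗ Ai with hζ
  have hζ_apply : ∀ x, ζ x = ξ (Ai x) := fun x => rfl
  have hζc : ζ c = 0 := by rw [hζ_apply, hc, hiA, h1]
  set D : Module.End F V := T * Ai with hD
  have hD_apply : ∀ x, D x = T (Ai x) := fun x => rfl
  have hξD : ∀ x, ξ (D x) = 0 := fun x => h3 _
  set H := LinearMap.ker ξ with hH
  have hmemH : ∀ x, x ∈ H ↔ ξ x = 0 := fun x => LinearMap.mem_ker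
  have hDH : ∀ x ∈ H, D x ∈ H := fun x _ => (hmemH _).2 (hξD x)
  let D' : Module.End F H := D.restrict hDH
  let ζH : Module.Dual F H := ζ ∘ₗ H.subtype
  have hD'c : ∀ u : H, ((D' u : H) : V) = D u := fun u => rfl
  have hfrH : finrank F H + 1 = finrank F V := Module.Dual.finrank_ker_add_one_of_ne_zero hξ0
  have hfrH' : h.natDegree = finrank F H := by omega
  -- observability of D'
  have hO1 : Obs D' ζH := by
    intro v hv
    set W₀ : Submodule F V := (⨅ k : ℕ, LinearMap.ker (ζ ∘ₗ (D ^ k))) ⊓ H with hW₀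
    have hmem : ∀ x, x ∈ W₀ ↔ (∀ k : ℕ, ζ ((D ^ k) x) = 0) ∧ ξ x = 0 := by
      intro x; simp [hW₀, Submodule.mem_inf, Submodule.mem_iInf, hmemH]
    have hW' : W₀.map Ai = ⊥ := by
      apply hii
      · rintro _ ⟨x, hx, rfl⟩
        obtain ⟨hx1, hx2⟩ := (hmem x).1 hx
        refine Submodule.mem_inf.2 ⟨(hmemH _).2 ?_, LinearMap.mem_ker.2 ?_⟩
        · have := hx1 0; simpa [hζ_apply] using this
        · show ξ (A (Ai x)) = 0
          rw [hAi]; exact hx2
      · rintro _ ⟨x, hx, rfl⟩
        refine ⟨D x, (hmem _).2 ⟨fun k => ?_, hξD x⟩, rfl⟩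
        obtain ⟨hx1, -⟩ := (hmem x).1 hx
        have := hx1 (k + 1)
        rwa [pow_succ, Module.End.mul_apply] at this
    have hvm : (v : V) ∈ W₀ := by
      refine (hmem _).2 ⟨fun k => ?_, (hmemH _).1 v.2⟩
      have := hv k
      have h5 : (ζH ((D' ^ k) v)) = ζ (((D' ^ k) v : H) : V) := rfl
      rw [h5, coe_pow_compat H D' D hD'c] at this
      exact this
    have h6 : Ai (v : V) ∈ W₀.map Ai := ⟨_, hvm, rfl⟩
    rw [hW', Submodule.mem_bot] at h6
    have h7 : (v : V) = 0 := by rw [← hAi (v : V), h6, map_zero]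
    exact Subtype.ext h7
  obtain ⟨y, hy⟩ := pp D' ζH hO1 h hh hfrH'
  set M' : Module.End F H := D' + ζH.smulRight y with hM'
  have hO2 : Obs M' ζH := obs_add hO1 y
  set M₁ : Module.End F V := D + ζ.smulRight (y : V) with hM₁
  have hM₁_apply : ∀ x, M₁ x = D x + ζ x • (y : V) := fun x => rfl
  have hξy : ξ (y : V) = 0 := (hmemH _).1 y.2
  have hξM₁ : ∀ x, ξ (M₁ x) = 0 := by
    intro x; rw [hM₁_apply, map_add, map_smul, hξD, hξy]; simp
  have hM'c : ∀ u : H, ((M' u : H) : V) = M₁ u := fun u => rfl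
  -- M' injective
  have hh0 : h.coeff 0 ≠ 0 := by
    intro h0; rw [h0] at hμ₀; simp at hμ₀
  have hM'inj : ∀ u : H, M' u = 0 → u = 0 := by
    intro u hu
    apply hO2
    have hk : ∀ k : ℕ, ζH ((M' ^ (k + 1)) u) = 0 := by
      intro k; rw [pow_succ, Module.End.mul_apply, hu]; simp
    intro k
    cases k with
    | succ k => exact hk k
    | zero =>
      have h5 := hy u
      rw [dual_aeval, Finset.sum_range_succ'] at h5
      rw [Finset.sum_eq_zero (fun i _ => by rw [hk i, mul_zero]), zero_add] at h5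
      simpa [hh0] using h5
  have hM₁inj : ∀ x, ξ x = 0 → M₁ x = 0 → x = 0 := by
    intro x hx hMx
    have := hM'inj ⟨x, (hmemH x).2 hx⟩ (Subtype.ext (by rw [hM'c]; simpa using hMx))
    simpa using congrArg Subtype.val this
  set N : Module.End F V := A * M₁ with hN
  have hN_apply : ∀ x, N x = A (M₁ x) := fun x => rfl
  have hO3 : Obs N ξ := by
    intro v hv
    set W : Submodule F V := ⨅ k : ℕ, LinearMap.ker (ξ ∘ₗ (N ^ k)) with hW
    have hmem : ∀ x, x ∈ W ↔ ∀ k : ℕ, ξ ((N ^ k) x) = 0 := by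
      intro x; simp [hW, Submodule.mem_iInf]
    have hWH : ∀ x ∈ W, ξ x = 0 := fun x hx => by simpa using (hmem x).1 hx 0
    have hNW : ∀ x ∈ W, N x ∈ W := by
      intro x hx
      refine (hmem _).2 fun k => ?_
      have := (hmem x).1 hx (k + 1)
      rwa [pow_succ, Module.End.mul_apply] at this
    have hsurj : ∀ w ∈ W, ∃ u ∈ W, N u = w := by
      let NW : Module.End F W := N.restrict hNW
      have hinj : Function.Injective NW := by
        rw [← LinearMap.ker_eq_bot, LinearMap.ker_eq_bot']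
        intro u hu
        have h5 : N (u : V) = 0 := by simpa [NW] using congrArg Subtype.val hu
        have h6 : M₁ (u : V) = 0 := by
          rw [← hiA (M₁ u)]
          have : A (M₁ u) = 0 := h5
          rw [this, map_zero]
        exact Subtype.ext (hM₁inj _ (hWH _ u.2) h6)
      have hs := LinearMap.injective_iff_surjective.mp hinj
      intro w hw
      obtain ⟨u, hu⟩ := hs ⟨w, hw⟩
      exact ⟨u, u.2, by simpa [NW] using congrArg Subtype.val hu⟩
    have hζW : ∀ x ∈ W, ζ x = 0 := by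
      intro x hx
      obtain ⟨u, hu, rfl⟩ := hsurj x hx
      rw [hζ_apply, hN_apply, hiA, hξM₁]
    have hkeyT : ∀ x ∈ W, T (Ai x) = M₁ x := by
      intro x hx
      rw [hM₁_apply, hζW x hx, zero_smul, add_zero]; rfl
    have hW'' : W.map Ai = ⊥ := by
      apply hi
      · rintro _ ⟨x, hx, rfl⟩
        refine Submodule.mem_inf.2 ⟨(hmemH _).2 (hζW x hx), LinearMap.mem_ker.2 ?_⟩
        show ξ (A (Ai x)) = 0
        rw [hAi]; exact hWH x hx
      · rintro _ ⟨x, hx, rfl⟩
        refine ⟨N x, hNW x hx, ?_⟩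
        rw [hkeyT x hx, hN_apply, hiA]
      · rintro _ ⟨x, hx, rfl⟩
        obtain ⟨u, hu, rfl⟩ := hsurj x hx
        refine ⟨Ai u, ⟨u, hu, rfl⟩, ?_⟩
        rw [hkeyT u hu, hN_apply, hiA]
    have hvW : v ∈ W := (hmem v).2 hv
    have h6 : Ai v ∈ W.map Ai := ⟨v, hvW, rfl⟩
    rw [hW'', Submodule.mem_bot] at h6
    rw [← hAi v, h6, map_zero]
  set f : F[X] := (X - C μ₀) * h with hf
  have hfm : f.Monic := (monic_X_sub_C μ₀).mul hh
  have hfd : f.natDegree = finrank F V := by
    rw [hf, (monic_X_sub_C μ₀).natDegree_mul hh, natDegree_X_sub_C]; omega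
  obtain ⟨y', hy'⟩ := pp N ξ hO3 f hfm hfd
  set Xm : Module.End F V := N + ξ.smulRight y' with hXm
  have hO4 : Obs Xm ξ := obs_add hO3 y'
  set M : Module.End F V := Ai * Xm with hMdef
  have hAM : A * M = Xm := by rw [hMdef, ← mul_assoc, hA, one_mul]
  set μ := ξ (Ai y') with hμdef
  have hM_apply : ∀ x, M x = M₁ x + ξ x • Ai y' := by
    intro x
    show Ai (N x + ξ x • y') = _
    rw [map_add, map_smul, hN_apply, hiA]
  have hξM : ∀ x, ξ (M x) = μ * ξ x := by
    intro x; rw [hM_apply, map_add, map_smul, hξM₁, zero_add, smul_eq_mul, mul_comm]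
  have hMc : ∀ u : H, ((M' u : H) : V) = M u := by
    intro u; rw [hM_apply, (hmemH _).1 u.2, zero_smul, add_zero]; rfl
  have hMH : ∀ x ∈ H, M x ∈ H := by
    intro x hx; rw [hmemH] at hx ⊢; rw [hξM, hx, mul_zero]
  -- determinants
  have hXch : LinearMap.charpoly Xm = f := charpoly_eq hO4 f hfm hfd hy'
  have hM'ch : LinearMap.charpoly M' = h := charpoly_eq hO2 h hh hfrH' hy
  have hdetX : LinearMap.det Xm = 1 := by
    rw [LinearMap.det_eq_sign_charpoly_coeff, hXch, hf, mul_coeff_zero, ← hhd, coeff_sub, coeff_X_zero,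
      coeff_C_zero, pow_succ]
    linear_combination hμ₀
  have hdetM' : LinearMap.det M' = (-1) ^ h.natDegree * h.coeff 0 := by
    rw [LinearMap.det_eq_sign_charpoly_coeff, hM'ch, ← hfrH']
  have hfrQ : finrank F (V ⧸ H) = 1 := by
    have := Submodule.finrank_quotient_add_finrank H
    omega
  have hdetMμ : LinearMap.det M = LinearMap.det M' * μ := by
    have hcomap : H ≤ H.comap M := fun x hx => hMH x hx
    rw [LinearMap.det_eq_det_mul_det H M hcomap]
    have e1 : M.restrict hcomap = M' := by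
      ext u
      rw [hMc]; rfl
    have e2 : H.mapQ H M hcomap = μ • LinearMap.id := by
      refine LinearMap.ext fun x => Submodule.Quotient.induction_on _ x fun w => ?_
      rw [Submodule.mapQ_apply, LinearMap.smul_apply, LinearMap.id_apply, ← Submodule.Quotient.mk_smul,
        Submodule.Quotient.eq, hmemH, map_sub, map_smul, hξM, smul_eq_mul, sub_self]
    rw [e1, e2, LinearMap.det_smul, LinearMap.det_id, mul_one, hfrQ, pow_one]
  have hdetM : LinearMap.det M = 1 := by
    have : LinearMap.det A * LinearMap.det M = LinearMap.det Xm :=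
      (map_mul LinearMap.det A M).symm.trans (by rw [hAM])
    rw [hdet, one_mul, hdetX] at this
    exact this
  have hmu : μ = μ₀ := by
    rw [hdetMμ, hdetM'] at hdetM
    have h5 : ((-1) ^ h.natDegree * h.coeff 0) * μ = ((-1) ^ h.natDegree * h.coeff 0) * μ₀ := by
      rw [hdetM, mul_comm _ μ₀, hμ₀]
    have h6 : ((-1 : F) ^ h.natDegree * h.coeff 0) ≠ 0 := by
      intro h0; rw [h0] at hμ₀; simp at hμ₀
    exact mul_left_cancel₀ h6 h5
  have hμ' : h.eval μ ≠ 0 := by rw [hmu]; exact hμ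
  have hξh : ∀ x, ξ (aeval M h x) = h.eval μ * ξ x := dual_eigen M ξ μ hξM h
  set κ₀ := ζ (aeval M h c) with hκ₀
  set τ := (1 - κ₀) / h.eval μ with hτ
  set ρ : Module.Dual F V := ζ + τ • ξ with hρ
  have hρ_apply : ∀ x, ρ x = ζ x + τ * ξ x := fun x => rfl
  have hρc : ρ (aeval M h c) = 1 := by
    rw [hρ_apply, hξh, hξc, mul_one, hτ, ← hκ₀]
    field_simp
    ring
  have hρH : ∀ x, ξ x = 0 → ρ (aeval M h x) = 0 := by
    intro x hx
    rw [hρ_apply, hξh, hx, mul_zero, mul_zero, add_zero]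
    have e := hy ⟨x, (hmemH x).2 hx⟩
    have e2 : ζH (aeval M' h ⟨x, (hmemH x).2 hx⟩) = ζ (aeval M h x) := by
      show ζ ((aeval M' h ⟨x, (hmemH x).2 hx⟩ : H) : V) = _
      rw [coe_aeval_compat H M' M hMc]
    rw [← e2]; exact e
  have hρh : ∀ x, ρ (aeval M h x) = ξ x := by
    intro x
    have h5 : ξ (x - ξ x • c) = 0 := by simp [hξc]
    have h6 := hρH _ h5
    rw [map_sub, map_sub, map_smul, map_smul, hρc, smul_eq_mul, mul_one, sub_eq_zero] at h6
    exact h6
  have hfμ : f = h * (X - C μ) := by rw [hf, hmu, mul_comm]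
  have hρf : ∀ x, ρ (aeval M f x) = 0 := by
    intro x
    rw [hfμ, map_mul, Module.End.mul_apply, hρh, map_sub, aeval_X, aeval_C]
    simp [hξM]
  have hO5 : Obs M ρ := by
    intro v hv
    have hξv : ξ v = 0 := by
      rw [← hρh v, dual_aeval]
      exact Finset.sum_eq_zero fun i _ => by rw [hv i, mul_zero]
    let u : H := ⟨v, (hmemH v).2 hξv⟩
    have hu : u = 0 := by
      apply hO2
      intro k
      show ζ (((M' ^ k) u : H) : V) = 0
      rw [coe_pow_compat H M' M hMc]
      have h5 : ξ ((M ^ k) v) = 0 := by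
        have h7 := coe_pow_compat H M' M hMc k u
        have h8 : (u : V) = v := rfl
        rw [h8] at h7
        rw [← h7]
        exact (hmemH _).1 (Subtype.coe_prop _)
      have := hv k
      rw [hρ_apply, h5, mul_zero, add_zero] at this
      exact this
    simpa [u] using congrArg Subtype.val hu
  obtain ⟨P, hP⟩ := sim hO5 hO4 f hfm hfd hρf hy'
  have hMch : LinearMap.charpoly M = f := charpoly_eq hO5 f hfm hfd hρf
  have hMf : aeval M f = 0 := by rw [← hMch]; exact LinearMap.aeval_self_charpoly M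
  set v₁ := (h.eval μ)⁻¹ • aeval M h c with hv₁
  have hξv₁ : ξ v₁ = 1 := by
    rw [hv₁, map_smul, hξh, hξc, mul_one, smul_eq_mul, inv_mul_cancel₀ hμ']
  have hMv₁ : M v₁ = μ • v₁ := by
    have e : (aeval M f) c = 0 := by rw [hMf]; simp
    rw [hf, ← hmu, map_mul, Module.End.mul_apply, map_sub, aeval_X, aeval_C] at e
    have e' : M (aeval M h c) = μ • aeval M h c := by
      have := sub_eq_zero.mp e
      simpa using this
    rw [hv₁, map_smul, e', smul_comm]
  set δ := LinearMap.det (P : V →ₗ[F] V) with hδ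
  let E : Module.End F V := LinearMap.transvection ξ ((δ - 1) • v₁)
  have hE_apply : ∀ x, E x = x + ξ x • ((δ - 1) • v₁) := fun x => rfl
  have hdetE : LinearMap.det E = δ := by
    rw [LinearMap.transvection.det, map_smul, hξv₁]
    simp
  have hEM : ∀ x, M (E x) = E (M x) := by
    intro x
    rw [hE_apply, hE_apply, map_add, map_smul, map_smul, hMv₁, hξM]
    simp only [smul_smul]
    congr 2
    ring
  refine ⟨(P.symm : V →ₗ[F] V) * E, M, ?_, hdetM, ?_⟩
  · rw [map_mul, hdetE, hδ]
    exact LinearEquiv.det_symm_mul_det P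
  · rw [hAM]
    refine LinearMap.ext fun x => ?_
    simp only [Module.End.mul_apply, LinearEquiv.coe_coe]
    have e := hP (P.symm (E x))
    rw [LinearEquiv.apply_symm_apply] at e
    rw [← hEM, e, LinearEquiv.symm_apply_apply]

end Cfsg.Agent.Lib.KS2.Thomp
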