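import Mathlib

/-!
Thompson's commutator theorem, part 3: for an injective `B` there are a nilpotent `Z` and a functional
`β` such that `B * Z` has no nonzero invariant subspace inside `ker β`. The proof uses a Hessenberg basis
of `B`.
-/

set_option autoImplicit false
set_option linter.unusedSectionVars false
set_option linter.unusedVariables false

namespace Cfsg.Agent.Lib.KS2.Thomp

open Module

variable {F R : Type*} [Field F] [AddCommGroup R] [Module F R]

lemma hess_aux [FiniteDimensional F R] (B : Module.End F R) (k : ℕ) (hk : k ≤ finrank F R) :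
    ∃ e : ℕ → R, LinearIndependent F (fun i : Fin k => e i) ∧
      ∀ j, j + 1 < k → B (e j) = e (j + 1) ∨
        B (e j) ∈ Submodule.span F (e '' Set.Iio (j + 1)) := by
  classical
  induction k with
  | zero => exact ⟨fun _ => 0, linearIndependent_empty_type, fun j hj => by omega⟩
  | succ k ih =>
    obtain ⟨e, he, hH⟩ := ih (by omega)
    set S := Submodule.span F (e '' Set.Iio k) with hS
    have hSr : S = Submodule.span F (Set.range fun i : Fin k => e i) := by
      rw [hS]
      congr 1
      ext x
      constructor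
      · rintro ⟨i, hi, rfl⟩; exact ⟨⟨i, hi⟩, rfl⟩
      · rintro ⟨i, rfl⟩; exact ⟨i, i.2, rfl⟩
    have hSlt : S ≠ ⊤ := by
      intro htop
      have h1 : finrank F S ≤ k := by
        rw [hSr]
        have := finrank_range_le_card (R := F) (fun i : Fin k => e i)
        simpa [Set.finrank] using this
      rw [htop, finrank_top] at h1
      omega
    obtain ⟨x₀, hx₀⟩ : ∃ x, x ∉ S := by
      by_contra h
      push Not at h
      exact hSlt (eq_top_iff.2 fun x _ => h x)
    let x : R := if h : 1 ≤ k ∧ B (e (k - 1)) ∉ S then B (e (k - 1)) else x₀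
    have hx : x ∉ S := by
      by_cases h : 1 ≤ k ∧ B (e (k - 1)) ∉ S
      · simp only [x, dif_pos h]; exact h.2
      · simp only [x, dif_neg h]; exact hx₀
    have hupd : ∀ i, i < k → Function.update e k x i = e i :=
      fun i hi => Function.update_of_ne (by omega) _ _
    have hupdk : Function.update e k x k = x := Function.update_self ..
    refine ⟨Function.update e k x, ?_, ?_⟩
    · have h1 : (fun i : Fin (k + 1) => Function.update e k x i)
          = Fin.snoc (fun i : Fin k => e i) x := by
        funext i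
        refine Fin.lastCases ?_ (fun i => ?_) i
        · simp [hupdk]
        · simp [Fin.snoc_castSucc, hupd _ i.2]
      rw [h1, linearIndependent_fin_snoc]
      exact ⟨he, by rw [← hSr]; exact hx⟩
    · intro j hj
      have himg : ∀ m, m ≤ k → Function.update e k x '' Set.Iio m = e '' Set.Iio m := by
        intro m hm
        apply Set.image_congr
        intro i hi
        exact hupd i (lt_of_lt_of_le hi hm)
      rw [himg (j + 1) (by omega), hupd j (by omega)]
      by_cases hjk : j + 1 < k
      · rw [hupd (j + 1) hjk]; exact hH j hjk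
      · have hjk' : j + 1 = k := by omega
        have hj1 : k - 1 = j := by omega
        rw [hjk']
        by_cases hm : B (e j) ∈ S
        · right; exact hm
        · left
          rw [hupdk]
          have h2 : 1 ≤ k ∧ B (e (k - 1)) ∉ S := ⟨by omega, by rw [hj1]; exact hm⟩
          simp only [x, dif_pos h2, hj1]

lemma hess_coords [FiniteDimensional F R] (B : Module.End F R) :
    ∃ (s : ℕ) (e : ℕ → R) (co : ℕ → Module.Dual F R),
      (∀ u, u = ∑ i ∈ Finset.range s, co i u • e i) ∧
      (∀ i j, i < s → j < s → co i (e j) = if i = j then 1 else 0) ∧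
      (∀ j, j + 1 < s → B (e j) = e (j + 1) ∨ ∀ i, j + 1 ≤ i → i < s → co i (B (e j)) = 0) := by
  classical
  obtain ⟨e, he, hH⟩ := hess_aux B (finrank F R) le_rfl
  set s := finrank F R with hs
  have hcard : Fintype.card (Fin s) = finrank F R := by simp [hs]
  let b : Basis (Fin s) F R := Basis.mk he (he.span_eq_top_of_card_eq_finrank' hcard).ge
  let co : ℕ → Module.Dual F R := fun i => if h : i < s then b.coord ⟨i, h⟩ else 0
  have hb : ∀ i : Fin s, b i = e i := fun i => by simp [b]
  have hco : ∀ i (h : i < s) u, co i u = b.repr u ⟨i, h⟩ := fun i h u => by simp [co, h]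
  have hdelta : ∀ i j, i < s → j < s → co i (e j) = if i = j then 1 else 0 := by
    intro i j hi hj
    rw [hco i hi, ← (show b ⟨j, hj⟩ = e j from hb _), b.repr_self]
    by_cases hij : i = j
    · subst hij; simp
    · rw [if_neg hij, Finsupp.single_apply, if_neg]
      intro h
      exact hij (by simpa using h.symm)
  refine ⟨s, e, co, ?_, hdelta, ?_⟩
  · intro u
    rw [Finset.sum_range]
    conv_lhs => rw [← b.sum_repr u]
    refine Finset.sum_congr rfl fun i _ => ?_
    rw [hco _ i.2, hb]
  · intro j hj
    refine (hH j hj).imp_right fun hm i hji his => ?_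
    have hle : Submodule.span F (e '' Set.Iio (j + 1)) ≤ LinearMap.ker (co i) := by
      rw [Submodule.span_le]
      rintro _ ⟨l, hl, rfl⟩
      have hl' : l < j + 1 := hl
      have : co i (e l) = 0 := by
        rw [hdelta i l his (by omega), if_neg (by omega)]
      exact this
    exact hle hm

theorem rl [FiniteDimensional F R] (B : Module.End F R) (hB : ∀ x, B x = 0 → x = 0) :
    ∃ (Z : Module.End F R) (β : Module.Dual F R), IsNilpotent Z ∧
      ∀ W : Submodule F R, (∀ u ∈ W, B (Z u) ∈ W) → (∀ u ∈ W, β u = 0) → W = ⊥ := by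
  classical
  obtain ⟨s, e, co, hsum, hdelta, hH⟩ := hess_coords B
  let J : ℕ → Prop := fun j => 1 ≤ j ∧ j < s ∧ B (e (j - 1)) = e j
  let pd : ℕ → ℕ := fun j => Nat.findGreatest J (j - 1)
  have hpd_lt : ∀ j, 1 ≤ j → pd j < j := fun j hj => by
    have := Nat.findGreatest_le (P := J) (j - 1)
    show Nat.findGreatest J (j - 1) < j
    omega
  have hpdJ : ∀ j, pd j ≠ 0 → J (pd j) := fun j h => Nat.findGreatest_of_ne_zero rfl h
  have hpd_ge : ∀ j l, J l → l < j → l ≤ pd j :=
    fun j l hl hlj => Nat.le_findGreatest (by omega) hl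
  have hpd_inj : ∀ j l, J j → J l → pd j = pd l → j = l := by
    intro j l hj hl h
    by_contra hne
    rcases lt_or_gt_of_ne hne with hlt | hlt
    · have h1 := hpd_ge l j hj hlt
      have h2 := hpd_lt j hj.1
      omega
    · have h1 := hpd_ge j l hl hlt
      have h2 := hpd_lt l hl.1
      omega
  let z : ℕ → R := fun j => if j = 0 then 0 else
    if J j ∧ pd j ≠ 0 then e (j - 1) + e (pd j - 1) else e (j - 1)
  let Z : Module.End F R := ∑ j ∈ Finset.range s, (co j).smulRight (z j)
  have hZ_apply : ∀ u, Z u = ∑ j ∈ Finset.range s, co j u • z j := fun u => by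
    simp [Z, LinearMap.sum_apply]
  let bv : ℕ → F := fun j => if j = 0 ∨ (J j ∧ pd j = 0) then 1 else 0
  let β : Module.Dual F R := ∑ j ∈ Finset.range s, bv j • co j
  have hβ_apply : ∀ u, β u = ∑ j ∈ Finset.range s, co j u * bv j := fun u => by
    simp [β, LinearMap.sum_apply, mul_comm]
  have hz0 : z 0 = 0 := by simp [z]
  -- coordinates of `z`
  have hzc : ∀ l i, l < s → l ≤ i → i < s → co i (z l) = 0 := by
    intro l i hl hli his
    by_cases hl0 : l = 0
    · rw [hl0, hz0, map_zero]
    · simp only [z, if_neg hl0]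
      split_ifs with h
      · have := hpd_lt l (by omega)
        rw [map_add, hdelta i _ his (by omega), hdelta i _ his (by omega), if_neg (by omega),
          if_neg (by omega), add_zero]
      · rw [hdelta i _ his (by omega), if_neg (by omega)]
  have hZc : ∀ i u, co i (Z u) = ∑ l ∈ Finset.range s, co l u * co i (z l) := by
    intro i u
    rw [hZ_apply, map_sum]
    simp
  -- nilpotence
  have hZstep : ∀ k u, (∀ i, k + 1 ≤ i → i < s → co i u = 0) →
      ∀ i, k ≤ i → i < s → co i (Z u) = 0 := by
    intro k u hu i hki his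
    rw [hZc]
    refine Finset.sum_eq_zero fun l hl => ?_
    have hls := Finset.mem_range.mp hl
    by_cases hlk : l ≤ k
    · rw [hzc l i hls (by omega) his, mul_zero]
    · rw [hu l (by omega) hls, zero_mul]
  have hZpow : ∀ k u, ∀ i, s ≤ i + k → i < s → co i ((Z ^ k) u) = 0 := by
    intro k
    induction k with
    | zero => intro u i h1 h2; omega
    | succ k ih =>
      intro u i h1 h2
      rw [pow_succ', Module.End.mul_apply]
      refine hZstep (s - (k + 1)) _ (fun i' h3 h4 => ih u i' (by omega) h4) i (by omega) h2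
  have hnil : Z ^ s = 0 := by
    refine LinearMap.ext fun u => ?_
    rw [hsum ((Z ^ s) u)]
    refine (Finset.sum_eq_zero fun i hi => ?_)
    rw [hZpow s u i (by omega) (Finset.mem_range.mp hi), zero_smul]
  -- the matrix of `Y = B Z`
  have hYz0 : B (z 0) = 0 := by rw [hz0, map_zero]
  have hYN : ∀ l, l ≠ 0 → ¬ J l → l < s → ∀ i, l ≤ i → i < s → co i (B (z l)) = 0 := by
    intro l hl0 hJ hls i hli his
    have hzl : z l = e (l - 1) := by
      simp only [z, if_neg hl0]
      rw [if_neg (fun h => hJ h.1)]
    rw [hzl]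
    rcases hH (l - 1) (by omega) with h | h
    · exfalso
      apply hJ
      refine ⟨by omega, hls, ?_⟩
      rw [h]
      congr 1
      omega
    · exact h i (by omega) his
  have hYJ : ∀ l, J l → ∀ i, i < s →
      co i (B (z l)) = (if i = l then 1 else 0) + (if pd l ≠ 0 ∧ i = pd l then 1 else 0) := by
    intro l hJ i his
    have hl0 : l ≠ 0 := by have := hJ.1; omega
    by_cases hpd0 : pd l = 0
    · have hzl : z l = e (l - 1) := by
        simp only [z, if_neg hl0]
        rw [if_neg (fun h => h.2 hpd0)]
      have h0 : ¬ (pd l ≠ 0 ∧ i = pd l) := fun h => h.1 hpd0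
      rw [hzl, hJ.2.2, hdelta i l his hJ.2.1, if_neg h0, add_zero]
    · have hzl : z l = e (l - 1) + e (pd l - 1) := by
        simp only [z, if_neg hl0]
        rw [if_pos ⟨hJ, hpd0⟩]
      have hJp := hpdJ l hpd0
      rw [hzl, map_add, hJ.2.2, hJp.2.2, map_add, hdelta i l his hJ.2.1,
        hdelta i _ his hJp.2.1]
      by_cases hip : i = pd l
      · have h1 : pd l ≠ 0 ∧ i = pd l := ⟨hpd0, hip⟩
        rw [if_pos hip, if_pos h1]
      · have h1 : ¬ (pd l ≠ 0 ∧ i = pd l) := fun h => hip h.2
        rw [if_neg hip, if_neg h1]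
  have htri : ∀ l i, l < i → i < s → co i (B (z l)) = 0 := by
    intro l i hli his
    by_cases hl0 : l = 0
    · rw [hl0, hYz0, map_zero]
    by_cases hJ : J l
    · rw [hYJ l hJ i his, if_neg (by omega), if_neg, add_zero]
      rintro ⟨-, h⟩
      have := hpd_lt l hJ.1
      omega
    · exact hYN l hl0 hJ (by omega) i hli.le his
  refine ⟨Z, β, ⟨s, hnil⟩, fun W hinv hβW => ?_⟩
  by_contra hne
  obtain ⟨u₀, hu₀, hu₀ne⟩ := Submodule.exists_mem_ne_zero_of_ne_bot hne
  let P : ℕ → Prop := fun k => ∃ u ∈ W, u ≠ 0 ∧ ∀ i, k ≤ i → i < s → co i u = 0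
  have hPs : P s := ⟨u₀, hu₀, hu₀ne, fun i h1 h2 => by omega⟩
  have hex : ∃ k, P k := ⟨s, hPs⟩
  have hk₁ := Nat.find_spec hex
  have hk₁0 : Nat.find hex ≠ 0 := by
    intro h0
    obtain ⟨u, _, hu, hc⟩ := hk₁
    rw [h0] at hc
    apply hu
    rw [hsum u]
    exact Finset.sum_eq_zero fun i hi => by
      rw [hc i (Nat.zero_le _) (Finset.mem_range.mp hi), zero_smul]
  obtain ⟨k, hk⟩ : ∃ k, Nat.find hex = k + 1 := Nat.exists_eq_succ_of_ne_zero hk₁0
  have hkmin : ¬ P k := Nat.find_min hex (by omega)
  have hkle : k + 1 ≤ s := by rw [← hk]; exact Nat.find_min' hex hPs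
  obtain ⟨u, huW, hune, hutop⟩ : P (k + 1) := hk ▸ hk₁
  have hutop' : ∀ i, k < i → i < s → co i u = 0 := fun i h1 h2 => hutop i h1 h2
  have hminW : ∀ w ∈ W, (∀ i, k ≤ i → i < s → co i w = 0) → w = 0 := by
    intro w hw hc
    by_contra hw0
    exact hkmin ⟨w, hw, hw0, hc⟩
  have ht : co k u ≠ 0 := by
    intro h0
    apply hune
    apply hminW u huW
    intro i h1 h2
    rcases eq_or_lt_of_le h1 with rfl | h3
    · exact h0
    · exact hutop' i h3 h2
  have hYc : ∀ i, co i (B (Z u)) = ∑ l ∈ Finset.range s, co l u * co i (B (z l)) := by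
    intro i
    rw [hZ_apply, map_sum, map_sum]
    simp
  have hYtop : ∀ i, k < i → i < s → co i (B (Z u)) = 0 := by
    intro i h1 h2
    rw [hYc]
    refine Finset.sum_eq_zero fun l hl => ?_
    by_cases hlk : k < l
    · rw [hutop' l hlk (Finset.mem_range.mp hl), zero_mul]
    · rw [htri l i (by omega) h2, mul_zero]
  have hYk : co k (B (Z u)) = co k u * co k (B (z k)) := by
    rw [hYc]
    refine Finset.sum_eq_single k (fun l hl hlk => ?_) (fun h => ?_)
    · rcases lt_or_gt_of_ne hlk with h | h
      · rw [htri l k h (by omega), mul_zero]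
      · rw [hutop' l h (Finset.mem_range.mp hl), zero_mul]
    · exact absurd (Finset.mem_range.mpr (by omega)) h
  have heig : B (Z u) = co k (B (z k)) • u := by
    have hw : B (Z u) - co k (B (z k)) • u ∈ W := W.sub_mem (hinv u huW) (W.smul_mem _ huW)
    refine sub_eq_zero.mp (hminW _ hw ?_)
    intro i h1 h2
    rw [map_sub, map_smul, smul_eq_mul]
    rcases eq_or_lt_of_le h1 with rfl | h3
    · rw [hYk]; ring
    · rw [hYtop i h3 h2, hutop' i h3 h2]; simp
  have hβu := hβW u huW
  have hks : k < s := by omega
  by_cases hJk : J k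
  · -- eigenvalue one
    have hdiag : co k (B (z k)) = 1 := by
      rw [hYJ k hJk k hks, if_pos rfl, if_neg, add_zero]
      rintro ⟨-, h⟩
      have := hpd_lt k hJk.1
      omega
    rw [hdiag, one_smul] at heig
    have hfix : ∀ i, ∑ l ∈ Finset.range s, co l u * co i (B (z l)) = co i u := by
      intro i
      rw [← hYc, heig]
    have hA : ∀ i, i < s → ¬ J i → co i u = 0 := by
      by_contra hcon
      push Not at hcon
      obtain ⟨i₁, hi₁s, hi₁J, hi₁u⟩ := hcon
      obtain ⟨i₀, hi₀, hmax⟩ := Finset.exists_max_image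
        ((Finset.range s).filter fun i => ¬ J i ∧ co i u ≠ 0) id
        ⟨i₁, by simp [hi₁s, hi₁J, hi₁u]⟩
      simp only [Finset.mem_filter, Finset.mem_range] at hi₀ hmax
      obtain ⟨hi₀s, hi₀J, hi₀u⟩ := hi₀
      apply hi₀u
      rw [← hfix i₀]
      refine Finset.sum_eq_zero fun l hl => ?_
      have hls := Finset.mem_range.mp hl
      by_cases hJl : J l
      · have h3 : i₀ ≠ l := fun h => hi₀J (by rw [h]; exact hJl)
        have h4 : ¬ (pd l ≠ 0 ∧ i₀ = pd l) := by
          rintro ⟨h1, h2⟩
          exact hi₀J (by rw [h2]; exact hpdJ l h1)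
        rw [hYJ l hJl i₀ hi₀s, if_neg h3, if_neg h4, add_zero, mul_zero]
      · by_cases hlu : co l u = 0
        · rw [hlu, zero_mul]
        · have hli : l ≤ i₀ := hmax l ⟨hls, hJl, hlu⟩
          by_cases hl0 : l = 0
          · rw [hl0, hYz0, map_zero, mul_zero]
          · rw [hYN l hl0 hJl hls i₀ hli hi₀s, mul_zero]
    have hB' : ∀ j, J j → pd j ≠ 0 → co j u = 0 := by
      intro j hJj hpj
      have hJP := hpdJ j hpj
      have hPs : pd j < s := hJP.2.1
      have h1 := hfix (pd j)
      have h2 : ∀ l ∈ Finset.range s, co l u * co (pd j) (B (z l))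
          = co l u * (if l = pd j then 1 else 0) + co l u * (if l = j then 1 else 0) := by
        intro l hl
        have hls := Finset.mem_range.mp hl
        by_cases hJl : J l
        · rw [hYJ l hJl _ hPs, mul_add]
          congr 2
          · by_cases h : l = pd j
            · rw [if_pos h, if_pos h.symm]
            · rw [if_neg h, if_neg (fun h' => h h'.symm)]
          · by_cases h : l = j
            · subst h
              rw [if_pos rfl, if_pos ⟨hpj, rfl⟩]
            · rw [if_neg h, if_neg]
              rintro ⟨h3, h4⟩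
              exact h (hpd_inj l j hJl hJj h4.symm)
        · rw [hA l hls hJl]; simp
      rw [Finset.sum_congr rfl h2, Finset.sum_add_distrib] at h1
      simp only [mul_ite, mul_one, mul_zero, Finset.sum_ite_eq', Finset.mem_range, if_pos hPs,
        if_pos hJj.2.1] at h1
      exact left_eq_add.mp h1.symm
    have hpk : pd k = 0 := by
      by_contra h
      exact ht (hB' k hJk h)
    apply ht
    rw [hβ_apply, Finset.sum_eq_single k] at hβu
    · have : bv k = 1 := by
        simp only [bv]
        rw [if_pos (Or.inr ⟨hJk, hpk⟩)]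
      rwa [this, mul_one] at hβu
    · intro l hl hlk
      have hls := Finset.mem_range.mp hl
      by_cases hJl : J l
      · by_cases hpl : pd l = 0
        · exact absurd (hpd_inj l k hJl hJk (by rw [hpl, hpk])) hlk
        · rw [hB' l hJl hpl, zero_mul]
      · rw [hA l hls hJl, zero_mul]
    · exact fun h => absurd (Finset.mem_range.mpr hks) h
  · -- eigenvalue zero
    have hdiag : co k (B (z k)) = 0 := by
      by_cases hk0 : k = 0
      · rw [hk0, hYz0, map_zero]
      · exact hYN k hk0 hJk hks k le_rfl hks
    rw [hdiag, zero_smul] at heig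
    have hZu := hB _ heig
    by_cases hk0 : k = 0
    · apply ht
      rw [hβ_apply, Finset.sum_eq_single k] at hβu
      · have : bv k = 1 := by
          simp only [bv]
          rw [if_pos (Or.inl hk0)]
        rwa [this, mul_one] at hβu
      · intro l hl hlk
        have hls := Finset.mem_range.mp hl
        rw [hutop' l (by omega) hls, zero_mul]
      · exact fun h => absurd (Finset.mem_range.mpr hks) h
    · apply ht
      have h1 : co (k - 1) (Z u) = 0 := by rw [hZu, map_zero]
      rw [hZc, Finset.sum_eq_single k] at h1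
      · have hzk : z k = e (k - 1) := by
          simp only [z, if_neg hk0]
          rw [if_neg (fun h => hJk h.1)]
        rwa [hzk, hdelta _ _ (by omega) (by omega), if_pos rfl, mul_one] at h1
      · intro l hl hlk
        have hls := Finset.mem_range.mp hl
        rcases lt_or_gt_of_ne hlk with h | h
        · rw [hzc l (k - 1) hls (by omega) (by omega), mul_zero]
        · rw [hutop' l h hls, zero_mul]
      · exact fun h => absurd (Finset.mem_range.mpr hks) h

end Cfsg.Agent.Lib.KS2.Thomp
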