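import Mathlib
import Cfsg.Agent.Lib.KS2.Th3

/-!
Thompson's commutator theorem, part 4: for a non-scalar invertible `A`, construction of a functional `ξ`
and an operator `T` with the observability properties needed for the commutator factorisation.
-/

set_option autoImplicit false
set_option linter.unusedSectionVars false
set_option linter.unusedVariables false

namespace Cfsg.Agent.Lib.KS2.Thomp

open Module

variable {F V : Type*} [Field F] [AddCommGroup V] [Module F V]

lemma tri_zero (A : Module.End F V) (ξ : Module.Dual F V) (v : V) (D : ℕ)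
    (h0 : ∀ k < D, ξ ((A ^ k) v) = 0) (h1 : ξ ((A ^ D) v) = 1)
    (t : Fin (D + 1) → F)
    (ht : ∀ k : Fin (D + 1), ∑ j, t j * ξ ((A ^ ((k : ℕ) + (j : ℕ))) v) = 0) : t = 0 := by
  have key : ∀ i, ∀ h : i ≤ D, t ⟨D - i, by omega⟩ = 0 := by
    intro i
    induction i using Nat.strong_induction_on with
    | _ i ih =>
      intro hi
      have h2 := ht ⟨i, by omega⟩
      rw [Finset.sum_eq_single ⟨D - i, by omega⟩] at h2
      · have h3 : i + (D - i) = D := by omega
        simp only [h3, h1, mul_one] at h2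
        exact h2
      · intro j _ hj
        have hjv : (j : ℕ) ≠ D - i := fun h => hj (Fin.ext h)
        by_cases hlt : (j : ℕ) < D - i
        · rw [h0 _ (by simp only; omega), mul_zero]
        · have hj2 := j.2
          have h4 := ih (D - j) (by omega) (by omega)
          have e : (⟨D - (D - (j : ℕ)), by omega⟩ : Fin (D + 1)) = j :=
            Fin.ext (by simp only; omega)
          rw [e] at h4
          rw [h4, zero_mul]
      · simp
  funext j
  have hj := j.2
  have h4 := key (D - j) (by omega)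
  have e : (⟨D - (D - (j : ℕ)), by omega⟩ : Fin (D + 1)) = j := Fin.ext (by simp only; omega)
  rw [e] at h4
  exact h4

/-- The combination of the vectors `A^j v`. -/
noncomputable def kG (A : Module.End F V) (v : V) (D : ℕ) : (Fin (D + 1) → F) →ₗ[F] V :=
  ∑ j : Fin (D + 1), (LinearMap.proj j : (Fin (D + 1) → F) →ₗ[F] F).smulRight ((A ^ (j : ℕ)) v)

lemma kG_apply (A : Module.End F V) (v : V) (D : ℕ) (t : Fin (D + 1) → F) :
    kG A v D t = ∑ j, t j • (A ^ (j : ℕ)) v := by
  simp [kG, LinearMap.sum_apply]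

/-- The Krylov functionals. -/
noncomputable def kP (A : Module.End F V) (ξ : Module.Dual F V) (D : ℕ) :
    V →ₗ[F] (Fin (D + 1) → F) :=
  LinearMap.pi fun k : Fin (D + 1) => ξ ∘ₗ (A ^ (k : ℕ))

lemma kP_apply (A : Module.End F V) (ξ : Module.Dual F V) (D : ℕ) (x : V) (k : Fin (D + 1)) :
    kP A ξ D x k = ξ ((A ^ (k : ℕ)) x) := rfl

lemma kPG_inj (A : Module.End F V) (ξ : Module.Dual F V) (v : V) (D : ℕ)
    (h0 : ∀ k < D, ξ ((A ^ k) v) = 0) (h1 : ξ ((A ^ D) v) = 1) :
    Function.Injective (kP A ξ D ∘ₗ kG A v D) := by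
  rw [← LinearMap.ker_eq_bot, LinearMap.ker_eq_bot']
  intro t ht
  apply tri_zero A ξ v D h0 h1 t
  intro k
  have h2 : kP A ξ D (kG A v D t) k = 0 := congrFun ht k
  rw [kP_apply, kG_apply, map_sum, map_sum] at h2
  rw [← h2]
  refine Finset.sum_congr rfl fun j _ => ?_
  rw [map_smul, map_smul, smul_eq_mul, ← Module.End.mul_apply, ← pow_add]

lemma kP_bound [FiniteDimensional F V] (A : Module.End F V) (ξ : Module.Dual F V) (v : V) (D : ℕ)
    (h0 : ∀ k < D, ξ ((A ^ k) v) = 0) (h1 : ξ ((A ^ D) v) = 1) : D + 1 ≤ finrank F V := by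
  have hinj := kPG_inj A ξ v D h0 h1
  have h2 : Function.Injective (kG A v D) := fun a b h => hinj (by simp [LinearMap.comp_apply, h])
  have := LinearMap.finrank_le_finrank_of_injective h2
  simpa using this

lemma decomp [FiniteDimensional F V] (A : Module.End F V) (ξ : Module.Dual F V) (v : V) (D : ℕ)
    (h0 : ∀ k < D, ξ ((A ^ k) v) = 0) (h1 : ξ ((A ^ D) v) = 1) :
    ∃ (R : Submodule F V) (π : V →ₗ[F] R) (aa : ℕ → Module.Dual F V),
      (∀ r, r ∈ R ↔ ∀ k ≤ D, ξ ((A ^ k) r) = 0) ∧
      (∀ x, x = (π x : V) + ∑ j ∈ Finset.range (D + 1), aa j x • (A ^ j) v) ∧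
      (∀ r : R, π r = r) ∧ (∀ (r : R) (i : ℕ), aa i r = 0) ∧
      (∀ j ≤ D, π ((A ^ j) v) = 0) ∧
      (∀ i j, i ≤ D → j ≤ D → aa i ((A ^ j) v) = if i = j then 1 else 0) := by
  classical
  have hinj := kPG_inj A ξ v D h0 h1
  have hsurj := LinearMap.injective_iff_surjective.mp hinj
  let Q : (Fin (D + 1) → F) ≃ₗ[F] (Fin (D + 1) → F) :=
    LinearEquiv.ofBijective (kP A ξ D ∘ₗ kG A v D) ⟨hinj, hsurj⟩
  have hQ : ∀ t, kP A ξ D (kG A v D t) = Q t := fun t => rfl
  let a : V →ₗ[F] (Fin (D + 1) → F) := Q.symm.toLinearMap ∘ₗ kP A ξ D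
  have ha : ∀ x, a x = Q.symm (kP A ξ D x) := fun x => rfl
  have haG : ∀ t, a (kG A v D t) = t := fun t => by rw [ha, hQ, LinearEquiv.symm_apply_apply]
  let R : Submodule F V := LinearMap.ker (kP A ξ D)
  have hR : ∀ r, r ∈ R ↔ ∀ k ≤ D, ξ ((A ^ k) r) = 0 := by
    intro r
    constructor
    · intro hr k hk
      have : kP A ξ D r = 0 := hr
      exact congrFun this ⟨k, by omega⟩
    · intro hr
      refine LinearMap.mem_ker.2 (funext fun k => hr k (by have := k.2; omega))
  have hmem : ∀ x, x - kG A v D (a x) ∈ R := by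
    intro x
    refine LinearMap.mem_ker.2 ?_
    rw [map_sub, hQ, ha, LinearEquiv.apply_symm_apply, sub_self]
  let π : V →ₗ[F] R := LinearMap.codRestrict R (LinearMap.id - kG A v D ∘ₗ a) hmem
  have hπ : ∀ x, (π x : V) = x - kG A v D (a x) := fun x => rfl
  have har : ∀ r : R, a r = 0 := by
    intro r
    have h2 : kP A ξ D (r : V) = 0 := r.2
    rw [ha, h2, map_zero]
  let aa : ℕ → Module.Dual F V := fun j =>
    if h : j ≤ D then (LinearMap.proj (⟨j, by omega⟩ : Fin (D + 1)) : (Fin (D + 1) → F) →ₗ[F] F) ∘ₗ a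
    else 0
  have haa : ∀ j (h : j ≤ D) x, aa j x = a x ⟨j, by omega⟩ := fun j h x => by simp [aa, h]
  have hGsingle : ∀ j (h : j ≤ D), (A ^ j) v = kG A v D (Pi.single ⟨j, by omega⟩ 1) := by
    intro j h
    rw [kG_apply, Finset.sum_eq_single ⟨j, by omega⟩]
    · simp
    · intro b _ hb
      simp [Pi.single_apply, hb]
    · simp
  refine ⟨R, π, aa, hR, ?_, ?_, ?_, ?_, ?_⟩
  · intro x
    rw [hπ, kG_apply, Finset.sum_range]
    have : ∀ j : Fin (D + 1), aa j x = a x j := fun j => by
      rw [haa j (by have := j.2; omega)]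
    simp [this]
  · intro r
    apply Subtype.ext
    rw [hπ, har, map_zero, sub_zero]
  · intro r i
    by_cases hi : i ≤ D
    · rw [haa i hi, har]; rfl
    · simp [aa, hi]
  · intro j hj
    apply Subtype.ext
    rw [hπ]
    conv_lhs => rw [hGsingle j hj]
    rw [haG, sub_self]; rfl
  · intro i j hi hj
    rw [haa i hi, hGsingle j hj, haG, Pi.single_apply]
    by_cases hij : i = j
    · simp [hij]
    · rw [if_neg hij, if_neg]
      intro h
      exact hij (by simpa using h)

theorem stageA [FiniteDimensional F V] (A Ai : Module.End F V) (hA : A * Ai = 1) (hA' : Ai * A = 1)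
    (hns : ∀ a : F, A ≠ a • 1) :
    ∃ (ξ : Module.Dual F V) (c' : V) (T : Module.End F V),
      ξ c' = 0 ∧ ξ (A c') = 1 ∧ (∀ v, ξ (T v) = 0) ∧ T c' = 0 ∧
      (∀ W : Submodule F V, W ≤ LinearMap.ker ξ ⊓ LinearMap.ker (ξ ∘ₗ A) →
        (∀ u ∈ W, Ai (T u) ∈ W) → W = ⊥) ∧
      (∀ W : Submodule F V, W ≤ LinearMap.ker ξ ⊓ LinearMap.ker (ξ ∘ₗ A) →
        (∀ u ∈ W, T u ∈ W) → (∀ w ∈ W, ∃ u ∈ W, T u = w) → W = ⊥) := by
  classical
  have hAi : ∀ x, A (Ai x) = x := fun x => by
    have := LinearMap.congr_fun hA x; simpa using this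
  have hiA : ∀ x, Ai (A x) = x := fun x => by
    have := LinearMap.congr_fun hA' x; simpa using this
  -- a non-eigen functional
  obtain ⟨w, hw⟩ : ∃ w, LinearIndependent F ![w, A w] := by
    by_contra h
    push Not at h
    obtain ⟨a, ha⟩ := LinearMap.exists_eq_smul_id_of_forall_notLinearIndependent h
    exact hns a ha
  have hAw : A w ∉ Submodule.span F {w} := by
    intro hmem
    obtain ⟨a, ha⟩ := Submodule.mem_span_singleton.mp hmem
    have := (LinearIndependent.pair_iff.mp hw) a (-1) (by simp [ha])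
    simp at this
  obtain ⟨f, hf1, hf2⟩ := Submodule.exists_dual_map_eq_bot_of_notMem hAw inferInstance
  have hfw : f w = 0 := by
    have : f w ∈ (Submodule.span F {w}).map f :=
      Submodule.mem_map_of_mem (Submodule.mem_span_singleton_self w)
    rw [hf2] at this
    exact (Submodule.mem_bot F).mp this
  set ξ : Module.Dual F V := (f (A w))⁻¹ • f with hξ
  have hξw : ξ w = 0 := by simp [hξ, hfw]
  have hξAw : ξ (A w) = 1 := by simp [hξ, hf1]
  -- the longest chain
  let P' : ℕ → Prop := fun D => ∃ v, (∀ k < D, ξ ((A ^ k) v) = 0) ∧ ξ ((A ^ D) v) = 1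
  have hP1 : P' 1 := ⟨w, fun k hk => by
    have : k = 0 := by omega
    subst this
    simpa using hξw, by simpa using hξAw⟩
  have hbound : ∀ D, P' D → D + 1 ≤ finrank F V := fun D ⟨v, h0, h1⟩ => kP_bound A ξ v D h0 h1
  have hfr := hbound 1 hP1
  set D := Nat.findGreatest P' (finrank F V) with hD
  have hPD : P' D := Nat.findGreatest_spec (by omega) hP1
  have hD1 : 1 ≤ D := Nat.le_findGreatest (by omega) hP1
  have hnot : ¬ P' (D + 1) := by
    intro h
    have h2 := hbound _ h
    have h3 : D + 1 ≤ D := Nat.le_findGreatest (by omega) h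
    omega
  obtain ⟨E, hE⟩ : ∃ E, D = E + 1 := ⟨D - 1, by omega⟩
  rw [hE] at hPD hnot
  obtain ⟨v, h0, h1⟩ := hPD
  clear_value D
  subst hE
  obtain ⟨R, π, aa, hR, hd1, hd2, hd2', hd3, hd3'⟩ := decomp A ξ v (E + 1) h0 h1
  have hmax : ∀ r, (∀ k ≤ E + 1, ξ ((A ^ k) r) = 0) → ξ ((A ^ (E + 2)) r) = 0 := by
    intro r hr
    by_contra hne
    apply hnot
    refine ⟨(ξ ((A ^ (E + 2)) r))⁻¹ • r, fun k hk => ?_, ?_⟩
    · rw [map_smul, map_smul, hr k (by omega), smul_zero]
    · rw [map_smul, map_smul, smul_eq_mul, inv_mul_cancel₀ hne]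
  set c : ℕ → V := fun j => (A ^ j) v with hc
  have hcA : ∀ j, A (c j) = c (j + 1) := fun j => by
    simp only [hc]; rw [pow_succ', Module.End.mul_apply]
  have hAR : ∀ r ∈ R, A r ∈ R := by
    intro r hr
    rw [hR] at hr ⊢
    intro k hk
    have e : ξ ((A ^ k) (A r)) = ξ ((A ^ (k + 1)) r) := by
      rw [pow_succ, Module.End.mul_apply]
    rw [e]
    by_cases hk' : k + 1 ≤ E + 1
    · exact hr _ hk'
    · have : k = E + 1 := by omega
      subst this
      exact hmax r hr
  let A_R : Module.End F R := A.restrict hAR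
  have hA_R : ∀ r : R, ((A_R r : R) : V) = A r := fun r => rfl
  have hA_Rinj : Function.Injective A_R := by
    rw [← LinearMap.ker_eq_bot, LinearMap.ker_eq_bot']
    intro r hr
    apply Subtype.ext
    have h2 : A (r : V) = 0 := by rw [← hA_R, hr]; rfl
    rw [← hiA (r : V), h2, map_zero]; rfl
  have hA_Rsurj := LinearMap.injective_iff_surjective.mp hA_Rinj
  have hAiR : ∀ r ∈ R, Ai r ∈ R := by
    intro r hr
    obtain ⟨r', hr'⟩ := hA_Rsurj ⟨r, hr⟩
    have h2 : A (r' : V) = r := by rw [← hA_R, hr']
    rw [← h2, hiA]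
    exact r'.2
  let B' : Module.End F R := Ai.restrict hAiR
  have hB' : ∀ r : R, ((B' r : R) : V) = Ai r := fun r => rfl
  obtain ⟨Z, β, hnil, hobs⟩ := rl B' (by
    intro x hx
    apply Subtype.ext
    have h2 : Ai (x : V) = 0 := by rw [← hB', hx]; rfl
    rw [← hAi (x : V), h2, map_zero]; rfl)
  -- basic values
  have hξr : ∀ r : R, ξ (r : V) = 0 := fun r => by
    have := (hR r).1 r.2 0 (by omega)
    simpa using this
  have hξAr : ∀ r : R, ξ (A (r : V)) = 0 := fun r => by
    have := (hR r).1 r.2 1 (by omega)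
    simpa using this
  have hξc : ∀ j ≤ E, ξ (c j) = 0 := fun j hj => h0 j (by omega)
  have hξc1 : ξ (c (E + 1)) = 1 := h1
  have hδ : ∀ i j, i ≤ E + 1 → j ≤ E + 1 → aa i (c j) = if i = j then 1 else 0 := hd3'
  have hπc : ∀ j ≤ E + 1, π (c j) = 0 := hd3
  have hsum : ∀ x, x = (π x : V) + ∑ j ∈ Finset.range (E + 2), aa j x • c j := hd1
  have hξaa : ∀ x, ξ x = aa (E + 1) x := by
    intro x
    conv_lhs => rw [hsum x]
    rw [map_add, hξr, zero_add, map_sum, Finset.sum_range_succ, Finset.sum_eq_zero]
    · rw [map_smul, hξc1, smul_eq_mul, mul_one, zero_add]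
    · intro j hj
      rw [map_smul, hξc j (by have := Finset.mem_range.mp hj; omega), smul_zero]
  have hAform : ∀ x, aa (E + 1) x = 0 →
      A x = ((A_R (π x) : R) : V) + ∑ l ∈ Finset.range (E + 1), aa l x • c (l + 1) := by
    intro x hx
    conv_lhs => rw [hsum x]
    rw [map_add, map_sum, Finset.sum_range_succ, hx, map_smul, zero_smul, add_zero]
    congr 1
    refine Finset.sum_congr rfl fun j _ => ?_
    rw [map_smul, hcA]
  have hξAaa : ∀ x, aa (E + 1) x = 0 → ξ (A x) = aa E x := by
    intro x hx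
    rw [hAform x hx, map_add, hA_R, hξAr, zero_add, map_sum, Finset.sum_range_succ,
      Finset.sum_eq_zero]
    · rw [map_smul, hξc1, smul_eq_mul, mul_one, zero_add]
    · intro j hj
      rw [map_smul, hξc (j + 1) (by have := Finset.mem_range.mp hj; omega), smul_zero]
  have haaA0 : ∀ x, aa (E + 1) x = 0 → aa 0 (A x) = 0 := by
    intro x hx
    rw [hAform x hx, map_add, hd2', zero_add, map_sum]
    refine Finset.sum_eq_zero fun l hl => ?_
    have hl' := Finset.mem_range.mp hl
    rw [map_smul, hδ 0 (l + 1) (by omega) (by omega), if_neg (by omega), smul_zero]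
  have haaAs : ∀ i ≤ E, ∀ x, aa (E + 1) x = 0 → aa (i + 1) (A x) = aa i x := by
    intro i hi x hx
    rw [hAform x hx, map_add, hd2', zero_add, map_sum, Finset.sum_eq_single i]
    · rw [map_smul, hδ _ _ (by omega) (by omega), if_pos rfl, smul_eq_mul, mul_one]
    · intro l hl hli
      have hl' := Finset.mem_range.mp hl
      rw [map_smul, hδ _ _ (by omega) (by omega), if_neg (by omega), smul_zero]
    · intro h
      exact absurd (Finset.mem_range.mpr (by omega)) h
  have hπA : ∀ x, aa (E + 1) x = 0 → π (A x) = A_R (π x) := by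
    intro x hx
    rw [hAform x hx, map_add, hd2, map_sum, Finset.sum_eq_zero, add_zero]
    intro l hl
    have hl' := Finset.mem_range.mp hl
    rw [map_smul, hπc _ (by omega), smul_zero]
  -- the operator
  let T : Module.End F V := R.subtype ∘ₗ Z ∘ₗ π + (β ∘ₗ π).smulRight (c E)
    + ∑ l ∈ Finset.range E, (aa l).smulRight (c (l + 1) + c l)
  have hT : ∀ x, T x = ((Z (π x) : R) : V) + β (π x) • c E
      + ∑ l ∈ Finset.range E, aa l x • (c (l + 1) + c l) := by
    intro x
    simp [T, LinearMap.sum_apply]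
  have hπT : ∀ x, π (T x) = Z (π x) := by
    intro x
    rw [hT, map_add, map_add, hd2, map_smul, hπc E (by omega), smul_zero, add_zero, map_sum,
      Finset.sum_eq_zero, add_zero]
    intro l hl
    have hl' := Finset.mem_range.mp hl
    rw [map_smul, map_add, hπc _ (by omega), hπc _ (by omega), add_zero, smul_zero]
  have hT0 : ∀ x, aa 0 (T x) = (if 0 = E then β (π x) else 0) + (if 0 < E then aa 0 x else 0) := by
    intro x
    rw [hT, map_add, map_add, hd2', zero_add, map_smul, hδ 0 E (by omega) (by omega), smul_eq_mul,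
      mul_ite, mul_one, mul_zero, map_sum]
    congr 1
    by_cases hE0 : 0 < E
    · rw [if_pos hE0, Finset.sum_eq_single 0]
      · rw [map_smul, map_add, hδ 0 1 (by omega) (by omega), hδ 0 0 (by omega) (by omega),
          if_neg (by omega), if_pos rfl, zero_add, smul_eq_mul, mul_one]
      · intro l hl hl0
        have hl' := Finset.mem_range.mp hl
        rw [map_smul, map_add, hδ 0 _ (by omega) (by omega), hδ 0 _ (by omega) (by omega),
          if_neg (by omega), if_neg (by omega), add_zero, smul_zero]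
      · intro h
        exact absurd (Finset.mem_range.mpr hE0) h
    · rw [if_neg hE0]
      have : E = 0 := by omega
      subst this
      simp
  have hTs : ∀ i ≤ E, ∀ x, aa (i + 1) (T x) = (if i + 1 = E then β (π x) else 0)
      + ((if i < E then aa i x else 0) + (if i + 1 < E then aa (i + 1) x else 0)) := by
    intro i hi x
    rw [hT, map_add, map_add, hd2', zero_add, map_smul, hδ (i + 1) E (by omega) (by omega),
      smul_eq_mul, mul_ite, mul_one, mul_zero, map_sum]
    congr 1
    have e : ∀ l ∈ Finset.range E, aa (i + 1) (aa l x • (c (l + 1) + c l))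
        = (if i = l then aa l x else 0) + (if i + 1 = l then aa l x else 0) := by
      intro l hl
      have hl' := Finset.mem_range.mp hl
      rw [map_smul, map_add, hδ _ _ (by omega) (by omega), hδ _ _ (by omega) (by omega),
        smul_eq_mul, mul_add]
      congr 1
      · by_cases h : i = l
        · rw [if_pos (by omega), if_pos h, mul_one]
        · rw [if_neg (by omega), if_neg h, mul_zero]
      · by_cases h : i + 1 = l
        · rw [if_pos h, if_pos h, mul_one]
        · rw [if_neg h, if_neg h, mul_zero]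
    rw [Finset.sum_congr rfl e, Finset.sum_add_distrib, Finset.sum_ite_eq, Finset.sum_ite_eq]
    simp only [Finset.mem_range]
  have hH₂ : ∀ W : Submodule F V, W ≤ LinearMap.ker ξ ⊓ LinearMap.ker (ξ ∘ₗ A) →
      ∀ u ∈ W, aa (E + 1) u = 0 ∧ aa E u = 0 := by
    intro W hW u hu
    have h2 := hW hu
    have h3 : ξ u = 0 := (Submodule.mem_inf.mp h2).1
    have h4 : ξ (A u) = 0 := (Submodule.mem_inf.mp h2).2
    have h5 : aa (E + 1) u = 0 := by rw [← hξaa]; exact h3
    exact ⟨h5, by rw [← hξAaa u h5]; exact h4⟩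
  have hzero : ∀ u, (π u = 0) → (∀ j ≤ E + 1, aa j u = 0) → u = 0 := by
    intro u h2 h3
    rw [hsum u, h2, Finset.sum_eq_zero]
    · simp
    · intro j hj
      rw [h3 j (by have := Finset.mem_range.mp hj; omega), zero_smul]
  refine ⟨ξ, c E, T, hξc E le_rfl, ?_, ?_, ?_, ?_, ?_⟩
  · rw [hcA]; exact hξc1
  · intro x
    rw [hT, map_add, map_add, hξr, zero_add, map_smul, hξc E le_rfl, smul_zero, zero_add, map_sum]
    refine Finset.sum_eq_zero fun l hl => ?_
    have hl' := Finset.mem_range.mp hl
    rw [map_smul, map_add, hξc _ (by omega), hξc _ (by omega), add_zero, smul_zero]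
  · rw [hT, hπc E (by omega), map_zero, map_zero, zero_smul, Submodule.coe_zero, zero_add, zero_add]
    refine Finset.sum_eq_zero fun l hl => ?_
    have hl' := Finset.mem_range.mp hl
    rw [hδ _ _ (by omega) (by omega), if_neg (by omega), zero_smul]
  · -- the second observability property
    intro W hW hinv
    have hH := hH₂ W hW
    have hlow : ∀ j, j < E → ∀ u ∈ W, aa j u = 0 := by
      intro j
      induction j with
      | zero =>
        intro hE u hu
        have e1 := hT0 u
        have e2 := haaA0 (Ai (T u)) (hH _ (hinv u hu)).1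
        rw [hAi] at e2
        rw [e2, if_neg (by omega), if_pos hE, zero_add] at e1
        exact e1.symm
      | succ j ih =>
        intro hE u hu
        have e1 := hTs j (by omega) u
        have e2 := haaAs j (by omega) (Ai (T u)) (hH _ (hinv u hu)).1
        rw [hAi] at e2
        rw [e2, ih (by omega) _ (hinv u hu), if_neg (by omega), if_pos (by omega), if_pos hE,
          ih (by omega) u hu, zero_add, zero_add] at e1
        exact e1.symm
    have hall : ∀ u ∈ W, ∀ j ≤ E + 1, aa j u = 0 := by
      intro u hu j hj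
      by_cases h2 : j < E
      · exact hlow j h2 u hu
      · have : j = E ∨ j = E + 1 := by omega
        rcases this with h3 | h3
        · rw [h3]; exact (hH u hu).2
        · rw [h3]; exact (hH u hu).1
    have hβ0 : ∀ u ∈ W, β (π u) = 0 := by
      intro u hu
      rcases Nat.eq_zero_or_pos E with hE0 | hEpos
      · subst hE0
        have e1 := hT0 u
        have e2 := haaA0 (Ai (T u)) (hH _ (hinv u hu)).1
        rw [hAi] at e2
        rw [e2, if_pos rfl, if_neg (by omega), add_zero] at e1
        exact e1.symm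
      · obtain ⟨E', rfl⟩ : ∃ E', E = E' + 1 := ⟨E - 1, by omega⟩
        have e1 := hTs E' (by omega) u
        have e2 := haaAs E' (by omega) (Ai (T u)) (hH _ (hinv u hu)).1
        rw [hAi] at e2
        rw [e2, hall _ (hinv u hu) E' (by omega), if_pos rfl, if_pos (by omega),
          hall u hu E' (by omega), if_neg (by omega), add_zero, add_zero] at e1
        exact e1.symm
    have hWR : W.map π = ⊥ := by
      apply hobs
      · rintro _ ⟨u, hu, rfl⟩
        refine ⟨Ai (T u), hinv u hu, ?_⟩
        apply Subtype.ext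
        have e1 := hπA (Ai (T u)) (hH _ (hinv u hu)).1
        rw [hAi, hπT] at e1
        rw [hB', e1, hA_R, hiA]
      · rintro _ ⟨u, hu, rfl⟩
        exact hβ0 u hu
    rw [Submodule.eq_bot_iff]
    intro u hu
    have h2 : π u ∈ W.map π := Submodule.mem_map_of_mem hu
    rw [hWR, Submodule.mem_bot] at h2
    exact hzero u h2 (hall u hu)
  · -- the first observability property
    intro W hW hinv hsurj
    have hH := hH₂ W hW
    have hπ0 : ∀ u ∈ W, π u = 0 := by
      obtain ⟨N, hN⟩ := hnil
      have hpow : ∀ k, ∀ u ∈ W, ∃ u' ∈ W, π u = (Z ^ k) (π u') := by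
        intro k
        induction k with
        | zero => intro u hu; exact ⟨u, hu, by simp⟩
        | succ k ih =>
          intro u hu
          obtain ⟨u', hu', e1⟩ := ih u hu
          obtain ⟨u'', hu'', e2⟩ := hsurj u' hu'
          refine ⟨u'', hu'', ?_⟩
          rw [e1, ← e2, hπT, pow_succ, Module.End.mul_apply]
      intro u hu
      obtain ⟨u', _, e1⟩ := hpow N u hu
      rw [e1, hN]
      rfl
    have hC : ∀ i, ∀ u ∈ W, ∀ j, E ≤ j + i → j ≤ E + 1 → aa j u = 0 := by
      intro i
      induction i with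
      | zero =>
        intro u hu j h2 h3
        have : j = E ∨ j = E + 1 := by omega
        rcases this with h4 | h4
        · rw [h4]; exact (hH u hu).2
        · rw [h4]; exact (hH u hu).1
      | succ i ih =>
        intro u hu j h2 h3
        by_cases h4 : E ≤ j + i
        · exact ih u hu j h4 h3
        · have hj : j + 1 + i = E := by omega
          have e1 := hTs j (by omega) u
          rw [ih _ (hinv u hu) (j + 1) (by omega) (by omega), hπ0 u hu, map_zero,
            ite_self, zero_add, if_pos (by omega)] at e1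
          have e2 : (if j + 1 < E then aa (j + 1) u else 0) = 0 := by
            split_ifs
            · exact ih u hu (j + 1) (by omega) (by omega)
            · rfl
          rw [e2, add_zero] at e1
          exact e1.symm
    rw [Submodule.eq_bot_iff]
    intro u hu
    exact hzero u (hπ0 u hu) (fun j hj => hC (E + 1) u hu j (by omega) hj)

end Cfsg.Agent.Lib.KS2.Thomp
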