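import Mathlib
import Cfsg.Agent.Lib.KS2.Th2
import Cfsg.Agent.Lib.KS2.Th4

/-!
Thompson's commutator theorem, part 5: scalar matrices as commutators, choice of polynomials and the
theorem itself.
-/

set_option autoImplicit false
set_option linter.unusedSectionVars false
set_option linter.unusedVariables false

namespace Cfsg.Agent.Lib.KS2.Thomp

open Polynomial Module Matrix
open scoped Kronecker

variable {F : Type*} [Field F]

lemma perm_entry (k : ℕ) (i j : Fin (k + 1)) :
    ((finRotate (k + 1)).permMatrix F) i j = if finRotate (k + 1) i = j then 1 else 0 := by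
  simp [Equiv.Perm.permMatrix, PEquiv.toMatrix_apply, Matrix.one_apply]

lemma rot_rel (k : ℕ) (s : Fin (k + 1) → F) (lam ν : F)
    (h1 : ∀ i, i ≠ Fin.last k → s i ≠ 0 → lam ^ ((i : ℕ) + 1) = ν * lam ^ (i : ℕ))
    (h2 : s (Fin.last k) ≠ 0 → 1 = ν * lam ^ k) :
    (diagonal s * (finRotate (k + 1)).permMatrix F) * diagonal (fun i : Fin (k + 1) => lam ^ (i : ℕ))
      = ν • (diagonal (fun i : Fin (k + 1) => lam ^ (i : ℕ))
        * (diagonal s * (finRotate (k + 1)).permMatrix F)) := by
  ext i j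
  simp only [mul_diagonal, Matrix.smul_apply, diagonal_mul, smul_eq_mul]
  rw [perm_entry]
  by_cases hij : finRotate (k + 1) i = j
  · subst hij
    rw [if_pos rfl]
    by_cases hs : s i = 0
    · simp [hs]
    by_cases hi : i = Fin.last k
    · subst hi
      rw [finRotate_last]
      have h3 := h2 hs
      simp only [Fin.val_zero, pow_zero, Fin.val_last]
      linear_combination (s (Fin.last k)) * h3
    · rw [coe_finRotate_of_ne_last hi]
      have h3 := h1 i hi hs
      rw [h3]
      ring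
  · rw [if_neg hij]
    simp

lemma det_D (k : ℕ) (lam : F) :
    det (diagonal (fun i : Fin (k + 1) => lam ^ (i : ℕ)))
      = lam ^ (∑ i ∈ Finset.range (k + 1), i) := by
  rw [det_diagonal, Finset.prod_pow_eq_pow_sum, Finset.sum_range]

lemma det_rot_sq (k : ℕ) : (det ((finRotate (k + 1)).permMatrix F)) ^ 2 = 1 := by
  rw [Matrix.det_permutation]
  rcases Int.units_eq_one_or (Equiv.Perm.sign (finRotate (k + 1))) with h | h <;> simp [h]

lemma scal_good (k : ℕ) (lam : F) (hl : lam ^ (k + 1) = 1)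
    (hd : lam ^ (∑ i ∈ Finset.range (k + 1), i) = 1) :
    ∃ M z : Matrix (Fin (k + 1)) (Fin (k + 1)) F, det M = 1 ∧ det z = 1 ∧ M * z = lam • (z * M) := by
  classical
  let s : Fin (k + 1) → F := fun i => if i = Fin.last k then (-1) ^ k else 1
  refine ⟨diagonal s * (finRotate (k + 1)).permMatrix F,
    diagonal (fun i : Fin (k + 1) => lam ^ (i : ℕ)), ?_, ?_, ?_⟩
  · rw [det_mul, det_diagonal, Matrix.det_permutation, sign_finRotate]
    have h1 : ∏ i, s i = (-1) ^ k := by
      simp only [s]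
      rw [Finset.prod_ite_eq']
      simp
    rw [h1]
    simp only [Nat.add_sub_cancel, Units.val_pow_eq_pow_val, Units.val_neg, Units.val_one,
      Int.cast_pow, Int.cast_neg, Int.cast_one]
    rw [← mul_pow]
    simp
  · rw [det_D, hd]
  · apply rot_rel
    · intro i _ _
      rw [pow_succ, mul_comm]
    · intro _
      rw [← hl, pow_succ, mul_comm]

lemma scal_bad [Fintype F] (k : ℕ) (lam : F) (hl : lam ^ (k + 1) = -1) (hne : (-1 : F) ≠ 1) :
    ∃ M z : Matrix (Fin 2 × Fin (k + 1)) (Fin 2 × Fin (k + 1)) F,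
      det M = 1 ∧ det z = 1 ∧ M * z = lam • (z * M) := by
  classical
  have hchar : ringChar F ≠ 2 := by
    intro h
    haveI := ringChar.of_eq h
    exact hne (CharTwo.neg_eq 1)
  have hodd := FiniteField.odd_card_of_char_ne_two hchar
  obtain ⟨a, b, hab⟩ := FiniteField.exists_root_sum_quadratic
    (f := (X ^ 2 : F[X])) (g := (X ^ 2 - C lam : F[X])) (by simp) (by
      rw [degree_sub_C] <;> simp) hodd
  have hab' : a ^ 2 + b ^ 2 = lam := by
    simp at hab
    linear_combination hab
  let u : Fin (k + 1) → F := fun i => if i = Fin.last k then 0 else 1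
  let u' : Fin (k + 1) → F := fun i => if i = Fin.last k then 1 else 0
  let P : Matrix (Fin (k + 1)) (Fin (k + 1)) F := (finRotate (k + 1)).permMatrix F
  let D : Matrix (Fin (k + 1)) (Fin (k + 1)) F := diagonal (fun i : Fin (k + 1) => lam ^ (i : ℕ))
  let J : Matrix (Fin 2) (Fin 2) F := !![0, -1; 1, 0]
  let z₁ : Matrix (Fin 2) (Fin 2) F := !![a, b; b, -a]
  have hN : (diagonal u * P) * D = lam • (D * (diagonal u * P)) := by
    apply rot_rel
    · intro i _ _
      rw [pow_succ, mul_comm]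
    · intro h
      exact absurd (by simp [u]) h
  have hQ : (diagonal u' * P) * D = (-lam) • (D * (diagonal u' * P)) := by
    apply rot_rel
    · intro i hi h
      exact absurd (by simp [u', hi]) h
    · intro _
      rw [neg_mul, ← pow_succ', hl, neg_neg]
  have hJ : J * z₁ = (-1 : F) • (z₁ * J) := by
    ext i j
    fin_cases i <;> fin_cases j <;> simp [J, z₁, Matrix.mul_apply, Fin.sum_univ_two]
  have hdetJ : det J = 1 := by simp [J, det_fin_two]
  have hdetz₁ : det z₁ = -lam := by
    simp only [z₁, det_fin_two_of]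
    linear_combination -hab'
  let G : Matrix (Fin 2 × Fin (k + 1)) (Fin 2 × Fin (k + 1)) F :=
    (1 ⊗ₖ diagonal u) + (J ⊗ₖ diagonal u')
  have hG : G = blockDiagonal (fun o : Fin (k + 1) => if o = Fin.last k then J else 1) := by
    ext ⟨i, o⟩ ⟨j, o'⟩
    simp only [G, Matrix.add_apply, kronecker_apply, blockDiagonal_apply, diagonal_apply]
    by_cases hoo : o = o'
    · subst hoo
      by_cases ho : o = Fin.last k
      · simp [ho, u, u']
      · simp [ho, u, u']
    · simp [hoo]
  have hdetG : det G = 1 := by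
    rw [hG, det_blockDiagonal]
    have : ∀ o : Fin (k + 1), det (if o = Fin.last k then J else 1)
        = if o = Fin.last k then det J else 1 := by
      intro o
      split_ifs <;> simp
    simp only [this]
    rw [Finset.prod_ite_eq']
    simp [hdetJ]
  refine ⟨(1 ⊗ₖ (diagonal u * P)) + (J ⊗ₖ (diagonal u' * P)), z₁ ⊗ₖ D, ?_, ?_, ?_⟩
  · have h1 : (1 ⊗ₖ (diagonal u * P)) + (J ⊗ₖ (diagonal u' * P))
        = G * ((1 : Matrix (Fin 2) (Fin 2) F) ⊗ₖ P) := by
      simp only [G, add_mul]
      rw [← mul_kronecker_mul, ← mul_kronecker_mul, _root_.mul_one, _root_.mul_one]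
    rw [h1, det_mul, hdetG, det_kronecker, det_one, one_pow, one_mul, one_mul]
    simpa [P] using det_rot_sq (F := F) k
  · rw [det_kronecker, hdetz₁, det_D, ← pow_mul]
    simp only [Fintype.card_fin]
    have h2 : (∑ i ∈ Finset.range (k + 1), i) * 2 = (k + 1) * k := by
      have := Finset.sum_range_id_mul_two (k + 1)
      simpa using this
    rw [h2, pow_mul, hl, neg_pow, hl]
    have h3 : ((-1 : F) ^ k) ^ 2 = 1 := by
      rw [← pow_mul, mul_comm, pow_mul]; simp
    rw [pow_succ]
    generalize (-1 : F) ^ k = x at h3 ⊢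
    linear_combination h3
  · rw [add_mul, ← mul_kronecker_mul, ← mul_kronecker_mul, mul_add, ← mul_kronecker_mul,
      ← mul_kronecker_mul, hN, hQ, hJ, _root_.one_mul, _root_.mul_one, smul_kronecker, kronecker_smul,
      kronecker_smul, smul_smul, smul_add]
    congr 2
    ring

/-- Scalar matrices of determinant one are commutators. -/
theorem scal_all [Fintype F] (n : ℕ) (hn : 2 ≤ n) (lam : F) (hl : lam ^ n = 1) :
    ∃ M z : Matrix (Fin n) (Fin n) F, det M = 1 ∧ det z = 1 ∧ M * z = lam • (z * M) := by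
  classical
  obtain ⟨k, rfl⟩ : ∃ k, n = k + 1 := ⟨n - 1, by omega⟩
  have hS := Finset.sum_range_id_mul_two (k + 1)
  simp only [Nat.add_sub_cancel] at hS
  rcases Nat.even_or_odd' (k + 1) with ⟨m, hm | hm⟩
  · -- even degree
    have hS' : (∑ i ∈ Finset.range (k + 1), i) = m * k := by
      have : (k + 1) * k = (m * k) * 2 := by rw [hm]; ring
      omega
    by_cases hm1 : lam ^ m = 1
    · refine scal_good k lam hl ?_
      rw [hS', pow_mul, hm1, one_pow]
    · have hsq : (lam ^ m) ^ 2 = 1 := by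
        rw [← pow_mul, mul_comm, ← hm]; exact hl
      have hm2 : lam ^ m = -1 := by
        have : (lam ^ m - 1) * (lam ^ m + 1) = 0 := by linear_combination hsq
        rcases mul_eq_zero.mp this with h | h
        · exact absurd (sub_eq_zero.mp h) hm1
        · exact eq_neg_of_add_eq_zero_left h
      have hne : (-1 : F) ≠ 1 := by
        intro h
        apply hm1
        rw [hm2, h]
      obtain ⟨l, rfl⟩ : ∃ l, m = l + 1 := ⟨m - 1, by omega⟩
      obtain ⟨M, z, h1, h2, h3⟩ := scal_bad l lam hm2 hne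
      have hcard : 2 * (l + 1) = k + 1 := hm.symm
      let e : Fin 2 × Fin (l + 1) ≃ Fin (k + 1) := finProdFinEquiv.trans (finCongr hcard)
      refine ⟨M.submatrix e.symm e.symm, z.submatrix e.symm e.symm, ?_, ?_, ?_⟩
      · rw [det_submatrix_equiv_self, h1]
      · rw [det_submatrix_equiv_self, h2]
      · rw [submatrix_mul_equiv, submatrix_mul_equiv, h3, submatrix_smul]
        rfl
  · -- odd degree
    have hk : k = 2 * m := by omega
    have hS' : (∑ i ∈ Finset.range (k + 1), i) = (k + 1) * m := by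
      have : (k + 1) * k = ((k + 1) * m) * 2 := by
        rw [hk]; ring
      omega
    refine scal_good k lam hl ?_
    rw [hS', pow_mul, hl, one_pow]

/-- The non-scalar case. -/
theorem nonscalar_all (n : ℕ) (g : Matrix.SpecialLinearGroup (Fin n) F)
    (hns : ∀ a : F, (g : Matrix (Fin n) (Fin n) F) ≠ a • 1)
    (h : F[X]) (μ₀ : F) (hh : h.Monic) (hhd : h.natDegree + 1 = n) (hμ : h.eval μ₀ ≠ 0)
    (hμ₀ : μ₀ * ((-1) ^ h.natDegree * h.coeff 0) = 1) :
    ∃ a b : Matrix.SpecialLinearGroup (Fin n) F, g = a * b * a⁻¹ * b⁻¹ := by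
  classical
  let A : Module.End F (Fin n → F) := Matrix.toLin' (g : Matrix (Fin n) (Fin n) F)
  let Ai : Module.End F (Fin n → F) := Matrix.toLin' ((g⁻¹ : Matrix.SpecialLinearGroup (Fin n) F) : Matrix (Fin n) (Fin n) F)
  have hA : A * Ai = 1 := by
    show Matrix.toLin' _ * Matrix.toLin' _ = _
    rw [Module.End.mul_eq_comp, ← Matrix.toLin'_mul, ← Matrix.SpecialLinearGroup.coe_mul, mul_inv_cancel]
    simp [Module.End.one_eq_id]
  have hA' : Ai * A = 1 := by
    show Matrix.toLin' _ * Matrix.toLin' _ = _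
    rw [Module.End.mul_eq_comp, ← Matrix.toLin'_mul, ← Matrix.SpecialLinearGroup.coe_mul, inv_mul_cancel]
    simp [Module.End.one_eq_id]
  have hdet : LinearMap.det A = 1 := by
    rw [LinearMap.det_toLin']
    exact g.2
  have hns' : ∀ a : F, A ≠ a • 1 := by
    intro a ha
    apply hns a
    have h1 := congrArg LinearMap.toMatrix' ha
    rw [LinearMap.toMatrix'_toLin'] at h1
    rw [h1]
    ext i j
    simp [LinearMap.toMatrix'_apply, Matrix.one_apply, Pi.single_apply]
  obtain ⟨ξ, c', T, h1, h2, h3, h4, hii, hi⟩ := stageA A Ai hA hA' hns'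
  obtain ⟨z, M, hz, hM, hzM⟩ := assembly A Ai hA hA' hdet ξ c' T h1 h2 h3 h4 hii hi h μ₀ hh
    (by simpa using hhd) hμ hμ₀
  let a : Matrix.SpecialLinearGroup (Fin n) F := ⟨LinearMap.toMatrix' z, by rw [LinearMap.det_toMatrix', hz]⟩
  let b : Matrix.SpecialLinearGroup (Fin n) F := ⟨LinearMap.toMatrix' M, by rw [LinearMap.det_toMatrix', hM]⟩
  refine ⟨a, b, ?_⟩
  have hrel : g * b * a = a * b := by
    apply Subtype.ext
    have h5 := congrArg LinearMap.toMatrix' hzM
    simp only [Module.End.mul_eq_comp, LinearMap.toMatrix'_comp] at h5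
    simp only [A, LinearMap.toMatrix'_toLin'] at h5
    exact h5
  calc g = g * b * a * (a⁻¹ * b⁻¹) := by group
    _ = a * b * a⁻¹ * b⁻¹ := by rw [hrel]; group

lemma exists_poly_ge3 (m : ℕ) (hm : 2 ≤ m) : ∃ (h : F[X]) (μ₀ : F), h.Monic ∧ h.natDegree = m ∧
    h.eval μ₀ ≠ 0 ∧ μ₀ * ((-1) ^ h.natDegree * h.coeff 0) = 1 := by
  set ε : F := (-1) ^ m with hε
  have hε2 : ε * ε = 1 := by
    rw [hε, ← mul_pow]; simp
  have hdeg : (C (-ε) * X + C ε : F[X]).degree < (m : ℕ) := by
    refine lt_of_le_of_lt degree_linear_le ?_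
    exact_mod_cast (by omega : 1 < m)
  have hmon : (X ^ m + (C (-ε) * X + C ε) : F[X]).Monic := monic_X_pow_add hdeg
  have hnat : (X ^ m + (C (-ε) * X + C ε) : F[X]).natDegree = m := by
    rw [natDegree_add_eq_left_of_degree_lt (by rwa [degree_X_pow]), natDegree_X_pow]
  have hc0 : (X ^ m + (C (-ε) * X + C ε) : F[X]).coeff 0 = ε := by
    have : m ≠ 0 := by omega
    simp [coeff_X_pow, this.symm]
  refine ⟨X ^ m + (C (-ε) * X + C ε), 1, hmon, hnat, ?_, ?_⟩
  · simp
  · rw [hnat, hc0, ← hε, one_mul]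
    exact hε2

lemma exists_poly_two [Fintype F] (hF : 4 ≤ Fintype.card F) : ∃ (h : F[X]) (μ₀ : F), h.Monic ∧
    h.natDegree = 1 ∧ h.eval μ₀ ≠ 0 ∧ μ₀ * ((-1) ^ h.natDegree * h.coeff 0) = 1 := by
  classical
  obtain ⟨a, ha⟩ : ∃ a : F, a ∉ ({0, 1, -1} : Finset F) := by
    by_contra hcon
    push Not at hcon
    have h1 : (Finset.univ : Finset F) ⊆ {0, 1, -1} := fun x _ => hcon x
    have h2 := Finset.card_le_card h1
    have h3 : ({0, 1, -1} : Finset F).card ≤ 3 := Finset.card_le_three
    rw [Finset.card_univ] at h2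
    omega
  simp only [Finset.mem_insert, Finset.mem_singleton, not_or] at ha
  obtain ⟨ha0, ha1, ha2⟩ := ha
  refine ⟨X - C a, a⁻¹, monic_X_sub_C a, natDegree_X_sub_C a, ?_, ?_⟩
  · simp only [eval_sub, eval_X, eval_C]
    intro h0
    have h1 : a⁻¹ = a := sub_eq_zero.mp h0
    have h2 : a * a = 1 := by
      nth_rw 1 [← h1]
      exact inv_mul_cancel₀ ha0
    have h3 : (a - 1) * (a + 1) = 0 := by linear_combination h2
    rcases mul_eq_zero.mp h3 with h4 | h4
    · exact ha1 (sub_eq_zero.mp h4)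
    · exact ha2 (eq_neg_of_add_eq_zero_left h4)
  · rw [natDegree_X_sub_C]
    simp [ha0]

/-- Every element of `SL(n, F)` is a commutator, apart from the two small exceptions. -/
theorem thompson [Fintype F] (n : ℕ) (hn : 2 ≤ n) (hex : n = 2 → 4 ≤ Fintype.card F)
    (g : Matrix.SpecialLinearGroup (Fin n) F) :
    ∃ a b : Matrix.SpecialLinearGroup (Fin n) F, g = a * b * a⁻¹ * b⁻¹ := by
  classical
  by_cases hs : ∃ lam : F, (g : Matrix (Fin n) (Fin n) F) = lam • 1
  · obtain ⟨lam, hlam⟩ := hs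
    have hl : lam ^ n = 1 := by
      have h1 := g.2
      rw [hlam, det_smul, det_one] at h1
      simpa using h1
    obtain ⟨M, z, h1, h2, h3⟩ := scal_all n hn lam hl
    let a : Matrix.SpecialLinearGroup (Fin n) F := ⟨M, h1⟩
    let b : Matrix.SpecialLinearGroup (Fin n) F := ⟨z, h2⟩
    refine ⟨a, b, ?_⟩
    have hrel : g * (b * a) = a * b := by
      apply Subtype.ext
      show (g : Matrix (Fin n) (Fin n) F) * (z * M) = M * z
      rw [hlam, h3, Matrix.smul_mul, _root_.one_mul]
    calc g = g * (b * a) * (a⁻¹ * b⁻¹) := by group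
      _ = a * b * a⁻¹ * b⁻¹ := by rw [hrel]; group
  · push Not at hs
    by_cases hn2 : n = 2
    · obtain ⟨h, μ₀, h1, h2, h3, h4⟩ := exists_poly_two (hex hn2)
      exact nonscalar_all n g hs h μ₀ h1 (by omega) h3 h4
    · obtain ⟨h, μ₀, h1, h2, h3, h4⟩ := exists_poly_ge3 (F := F) (n - 1) (by omega)
      exact nonscalar_all n g hs h μ₀ h1 (by omega) h3 h4

end Cfsg.Agent.Lib.KS2.Thomp
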