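import Mathlib
import Cfsg.Agent.Lib.KS2.PermSL

/-!
# Thompson-type factorisation in `SL₃`: Sourour's factorisation for `n = 3`
-/

set_option autoImplicit false
set_option linter.unusedSimpArgs false
set_option linter.unusedVariables false
set_option linter.deprecated false

namespace Cfsg.Agent.Lib.KS2.Thom3

open Matrix Cfsg.Agent.Lib.KS2.PermSL
open scoped MatrixGroups

universe u

variable {F : Type u} [Field F] [Fintype F]

/-- The diagonal matrices we factor into. -/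
def dg (a b c : F) : Matrix (Fin 3) (Fin 3) F := !![a, 0, 0; 0, b, 0; 0, 0, c]

/-- Conjugate (under `GL₃`) of `dg a b c`. -/
def IsC (a b c : F) (A : Matrix (Fin 3) (Fin 3) F) : Prop :=
  ∃ P P' : Matrix (Fin 3) (Fin 3) F, P * P' = 1 ∧ A = P * dg a b c * P'

/-- Product of two conjugates of `dg a b c`. -/
def IsP (a b c : F) (y : Matrix (Fin 3) (Fin 3) F) : Prop :=
  ∃ A B, IsC a b c A ∧ IsC a b c B ∧ y = A * B

lemma mul_comm_of_eq {P P' : Matrix (Fin 3) (Fin 3) F} (h : P * P' = 1) : P' * P = 1 :=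
  mul_eq_one_comm.mp h

lemma IsC.conj {a b c : F} {A : Matrix (Fin 3) (Fin 3) F} (hA : IsC a b c A) {Q Q' : Matrix (Fin 3) (Fin 3) F} (hQ : Q * Q' = 1) :
    IsC a b c (Q * A * Q') := by
  obtain ⟨P, P', hP, rfl⟩ := hA
  refine ⟨Q * P, P' * Q', ?_, ?_⟩
  · calc Q * P * (P' * Q') = Q * (P * P') * Q' := by simp only [Matrix.mul_assoc]
      _ = 1 := by rw [hP, Matrix.mul_one, hQ]
  · simp only [Matrix.mul_assoc]

lemma IsP.conj {a b c : F} {y : Matrix (Fin 3) (Fin 3) F} (hy : IsP a b c y) {Q Q' : Matrix (Fin 3) (Fin 3) F} (hQ : Q * Q' = 1) :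
    IsP a b c (Q * y * Q') := by
  obtain ⟨A, B, hA, hB, rfl⟩ := hy
  refine ⟨Q * A * Q', Q * B * Q', hA.conj hQ, hB.conj hQ, ?_⟩
  have hQ2 := mul_comm_of_eq hQ
  calc Q * (A * B) * Q' = Q * A * (Q' * Q) * B * Q' := by
        rw [hQ2, Matrix.mul_one]; simp only [Matrix.mul_assoc]
    _ = Q * A * Q' * (Q * B * Q') := by simp only [Matrix.mul_assoc]

lemma isC_of_mul {a b c : F} {A P P' : Matrix (Fin 3) (Fin 3) F} (hP : P * P' = 1) (h : A * P = P * dg a b c) :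
    IsC a b c A := by
  refine ⟨P, P', hP, ?_⟩
  rw [← h, Matrix.mul_assoc, hP, Matrix.mul_one]

lemma solve_eq (c a b : F) (h : a ≠ b) : ∃ u, c + u * b = a * u := by
  have e : a - b ≠ 0 := sub_ne_zero.mpr h
  refine ⟨c / (a - b), ?_⟩
  field_simp
  ring

/-- Diagonalising a lower triangular matrix. -/
lemma lower_isC (a b c : F) (h1 : a ≠ b) (h2 : a ≠ c) (h3 : b ≠ c) (x y z : F) :
    IsC a b c !![a, 0, 0; x, b, 0; y, z, c] := by
  obtain ⟨u, hu⟩ := solve_eq x a b h1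
  obtain ⟨w, hw⟩ := solve_eq z b c h3
  obtain ⟨v, hv⟩ := solve_eq (y + u * z) a c h2
  refine isC_of_mul (P := !![1, 0, 0; u, 1, 0; v, w, 1]) (P' := !![1, 0, 0; -u, 1, 0; u * w - v, -w, 1]) ?_ ?_
  · ext i j
    fin_cases i <;> fin_cases j <;> simp [Matrix.mul_apply, Fin.sum_univ_three] <;> ring
  · ext i j
    fin_cases i <;> fin_cases j <;> simp [Matrix.mul_apply, Fin.sum_univ_three, dg]
    · linear_combination hu
    · linear_combination hv
    · linear_combination hw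

/-- Diagonalising an upper triangular matrix. -/
lemma upper_isC (a b c : F) (h1 : a ≠ b) (h2 : a ≠ c) (h3 : b ≠ c) (x y z : F) :
    IsC a b c !![a, x, y; 0, b, z; 0, 0, c] := by
  obtain ⟨u, hu⟩ := solve_eq x b a h1.symm
  obtain ⟨w, hw⟩ := solve_eq z c b h3.symm
  obtain ⟨v, hv⟩ := solve_eq (y + w * x) c a h2.symm
  refine isC_of_mul (P := !![1, u, v; 0, 1, w; 0, 0, 1]) (P' := !![1, -u, u * w - v; 0, 1, -w; 0, 0, 1]) ?_ ?_
  · ext i j
    fin_cases i <;> fin_cases j <;> simp [Matrix.mul_apply, Fin.sum_univ_three] <;> ring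
  · ext i j
    fin_cases i <;> fin_cases j <;> simp [Matrix.mul_apply, Fin.sum_univ_three, dg]
    · linear_combination hu
    · linear_combination hv
    · linear_combination hw

/-- The pivots of a matrix. -/
def Good (a b c : F) (m : Matrix (Fin 3) (Fin 3) F) : Prop :=
  m 0 0 = a * a ∧ m 0 0 * m 1 1 - m 0 1 * m 1 0 = a * a * (b * b) ∧ m.det = a * a * (b * b) * (c * c)

/-- Good matrices factor. -/
lemma isP_of_good (a b c : F) (ha : a ≠ 0) (hb : b ≠ 0) (hc : c ≠ 0) (h1 : a ≠ b) (h2 : a ≠ c) (h3 : b ≠ c)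
    {m : Matrix (Fin 3) (Fin 3) F} (hm : Good a b c m) : IsP a b c m := by
  obtain ⟨h00, h01, hdet⟩ := hm
  obtain ⟨x₁, hx₁⟩ : ∃ x, x = m 0 1 / a := ⟨_, rfl⟩
  obtain ⟨x₂, hx₂⟩ : ∃ x, x = m 0 2 / a := ⟨_, rfl⟩
  obtain ⟨y₁, hy₁⟩ : ∃ x, x = m 1 0 / a := ⟨_, rfl⟩
  obtain ⟨y₂, hy₂⟩ : ∃ x, x = m 2 0 / a := ⟨_, rfl⟩
  obtain ⟨z₁, hz₁⟩ : ∃ x, x = (m 1 2 - y₁ * x₂) / b := ⟨_, rfl⟩
  obtain ⟨z₂, hz₂⟩ : ∃ x, x = (m 2 1 - y₂ * x₁) / b := ⟨_, rfl⟩
  have e1 : m 0 1 = a * x₁ := by rw [hx₁]; field_simp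
  have e2 : m 0 2 = a * x₂ := by rw [hx₂]; field_simp
  have e3 : m 1 0 = a * y₁ := by rw [hy₁]; field_simp
  have e4 : m 2 0 = a * y₂ := by rw [hy₂]; field_simp
  have e5 : m 1 2 = y₁ * x₂ + b * z₁ := by rw [hz₁]; field_simp; first | ring | skip
  have e6 : m 2 1 = y₂ * x₁ + b * z₂ := by rw [hz₂]; field_simp; first | ring | skip
  have e7 : m 1 1 = y₁ * x₁ + b * b := by
    rw [h00, e1, e3] at h01
    have : a * a * (m 1 1 - y₁ * x₁ - b * b) = 0 := by linear_combination h01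
    have h := (mul_eq_zero.mp this).resolve_left (mul_ne_zero ha ha)
    linear_combination h
  have e8 : m 2 2 = y₂ * x₂ + z₂ * z₁ + c * c := by
    rw [Matrix.det_fin_three, h00, e1, e2, e3, e4, e5, e6, e7] at hdet
    have : a * a * (b * b) * (m 2 2 - y₂ * x₂ - z₂ * z₁ - c * c) = 0 := by linear_combination hdet
    have h := (mul_eq_zero.mp this).resolve_left (mul_ne_zero (mul_ne_zero ha ha) (mul_ne_zero hb hb))
    linear_combination h
  refine ⟨_, _, lower_isC a b c h1 h2 h3 y₁ y₂ z₂, upper_isC a b c h1 h2 h3 x₁ x₂ z₁, ?_⟩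
  ext i j
  fin_cases i <;> fin_cases j <;> simp [Matrix.mul_apply, Fin.sum_univ_three]
  · rw [h00]
  · rw [e1]
  · rw [e2]
  · rw [e3]; ring
  · rw [e7]
  · rw [e5]
  · rw [e4]; ring
  · rw [e6]; ring
  · rw [e8]

/-- Conjugating by `diag(1, Q)` fixes the `(0,0)` entry and rescales the second pivot. -/
lemma pivot_step (M : Matrix (Fin 3) (Fin 3) F) (d d' : F) (hd : d ≠ 0) (h00 : M 0 0 = d) (h10 : M 1 0 = 1) (h20 : M 2 0 = 0)
    (hne : (M 1 1 - M 0 1 / d = M 2 2 ∧ M 1 2 - M 0 2 / d = 0 ∧ M 2 1 = 0) → False) :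
    ∃ Q Q' : Matrix (Fin 3) (Fin 3) F, Q * Q' = 1 ∧
      (Q' * M * Q) 0 0 = d ∧ (Q' * M * Q) 0 0 * (Q' * M * Q) 1 1 - (Q' * M * Q) 0 1 * (Q' * M * Q) 1 0 = d * d' := by
  obtain ⟨p, hp⟩ : ∃ x, x = M 1 1 - M 0 1 / d := ⟨_, rfl⟩
  obtain ⟨q, hq⟩ : ∃ x, x = M 1 2 - M 0 2 / d := ⟨_, rfl⟩
  obtain ⟨s, hs⟩ : ∃ x, x = M 2 1 := ⟨_, rfl⟩
  obtain ⟨t, ht⟩ : ∃ x, x = M 2 2 := ⟨_, rfl⟩
  -- a non-eigenvector `(α, γ)` of `[[p,q],[s,t]]`
  obtain ⟨α, γ, hΔ⟩ : ∃ α γ : F, α * (s * α + t * γ) - γ * (p * α + q * γ) ≠ 0 := by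
    by_contra hc
    push Not at hc
    have h1 := hc 1 0
    have h2 := hc 0 1
    have h3 := hc 1 1
    simp only [one_mul, mul_zero, add_zero, zero_add, mul_one, zero_mul, sub_zero] at h1 h2 h3
    apply hne
    have hs0 : M 2 1 = 0 := by rw [← hs]; exact h1
    have hq00 : q = 0 := by linear_combination -h2
    have hq0 : M 1 2 - M 0 2 / d = 0 := by
      rw [← hq]
      exact hq00
    refine ⟨?_, hq0, hs0⟩
    rw [← hp, ← ht]
    linear_combination -h3 + h1 - hq00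
  obtain ⟨β, hβ⟩ : ∃ x, x = p * α + q * γ - d' * α := ⟨_, rfl⟩
  obtain ⟨δ, hδ⟩ : ∃ x, x = s * α + t * γ - d' * γ := ⟨_, rfl⟩
  have hD : α * δ - β * γ ≠ 0 := by
    intro h
    apply hΔ
    rw [hβ, hδ] at h
    linear_combination h
  obtain ⟨D, hDdef⟩ : ∃ x, x = α * δ - β * γ := ⟨_, rfl⟩
  rw [← hDdef] at hD
  obtain ⟨Q', hQ'⟩ : ∃ Q' : Matrix (Fin 3) (Fin 3) F, Q' = !![1, 0, 0; 0, δ / D, -β / D; 0, -γ / D, α / D] := ⟨_, rfl⟩
  obtain ⟨Q, hQ⟩ : ∃ Q : Matrix (Fin 3) (Fin 3) F, Q = !![1, 0, 0; 0, α, β; 0, γ, δ] := ⟨_, rfl⟩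
  have h_a : (Q' * M * Q) 0 0 = d := by
    subst hQ hQ'
    simp [Matrix.mul_apply, Fin.sum_univ_three, Matrix.vecMul, dotProduct, h00]
  have h_b : (Q' * M * Q) 0 1 = M 0 1 * α + M 0 2 * γ := by
    subst hQ hQ'
    simp [Matrix.mul_apply, Fin.sum_univ_three, Matrix.vecMul, dotProduct, h00]
  have h_c : (Q' * M * Q) 1 0 = δ / D := by
    subst hQ hQ'
    simp [Matrix.mul_apply, Fin.sum_univ_three, Matrix.vecMul, dotProduct, h10, h20]
  have h_d : (Q' * M * Q) 1 1 = (δ / D) * (M 1 1 * α + M 1 2 * γ) + (-β / D) * (M 2 1 * α + M 2 2 * γ) := by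
    subst hQ hQ'
    simp [Matrix.mul_apply, Fin.sum_univ_three, Matrix.vecMul, dotProduct, h10, h20]
    ring
  refine ⟨Q, Q', ?_, h_a, ?_⟩
  · subst hQ hQ'
    ext i j
    fin_cases i <;> fin_cases j <;> simp [Matrix.mul_apply, Fin.sum_univ_three]
    · linear_combination (mul_inv_cancel₀ hD) - D⁻¹ * hDdef
    · ring
    · ring
    · linear_combination (mul_inv_cancel₀ hD) - D⁻¹ * hDdef
  · rw [h_a, h_b, h_c, h_d]
    have e1 : M 1 1 = p + M 0 1 / d := by rw [hp]; ring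
    have e2 : M 1 2 = q + M 0 2 / d := by rw [hq]; ring
    rw [e1, e2, ← hs, ← ht]
    have e3 : p * α + q * γ = β + d' * α := by rw [hβ]; ring
    have e4 : s * α + t * γ = δ + d' * γ := by rw [hδ]; ring
    have e5 : d * ((δ / D) * ((p + M 0 1 / d) * α + (q + M 0 2 / d) * γ) + (-β / D) * (s * α + t * γ)) -
        (M 0 1 * α + M 0 2 * γ) * (δ / D) = d * (δ * (p * α + q * γ) - β * (s * α + t * γ)) / D := by
      field_simp
      ring
    rw [e5, e3, e4]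
    have e6 : δ * (β + d' * α) - β * (δ + d' * γ) = d' * D := by rw [hDdef]; ring
    rw [e6]
    field_simp


/-- The first-column normal form gives the pivots. -/
lemma pivot_all (M : Matrix (Fin 3) (Fin 3) F) (d d' : F) (hd : d ≠ 0) (h00 : M 0 0 = d) (h10 : M 1 0 = 1) (h20 : M 2 0 = 0)
    (hdet : M.det ≠ 0) :
    ∃ Q Q' : Matrix (Fin 3) (Fin 3) F, Q * Q' = 1 ∧
      (Q' * M * Q) 0 0 = d ∧ (Q' * M * Q) 0 0 * (Q' * M * Q) 1 1 - (Q' * M * Q) 0 1 * (Q' * M * Q) 1 0 = d * d' := by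
  by_cases hne : M 1 1 - M 0 1 / d = M 2 2 ∧ M 1 2 - M 0 2 / d = 0 ∧ M 2 1 = 0
  · obtain ⟨h1, h2, h3⟩ := hne
    have h22 : M 2 2 ≠ 0 := by
      intro h
      apply hdet
      rw [Matrix.det_fin_three, h20, h3, h]
      ring
    obtain ⟨E', hE'⟩ : ∃ E' : Matrix (Fin 3) (Fin 3) F, E' = !![1, 0, 1; 0, 1, 0; 0, 0, 1] := ⟨_, rfl⟩
    obtain ⟨E, hE⟩ : ∃ E : Matrix (Fin 3) (Fin 3) F, E = !![1, 0, -1; 0, 1, 0; 0, 0, 1] := ⟨_, rfl⟩
    have hEE : E * E' = 1 := by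
      subst hE hE'
      ext i j
      fin_cases i <;> fin_cases j <;> simp [Matrix.mul_apply, Fin.sum_univ_three]
    obtain ⟨N, hN⟩ : ∃ N, N = E' * M * E := ⟨_, rfl⟩
    have n00 : N 0 0 = d := by
      subst hE hE' hN
      simp [Matrix.mul_apply, Fin.sum_univ_three, Matrix.vecMul, dotProduct, h00, h20]
    have n10 : N 1 0 = 1 := by
      subst hE hE' hN
      simp [Matrix.mul_apply, Fin.sum_univ_three, Matrix.vecMul, dotProduct, h10]
    have n20 : N 2 0 = 0 := by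
      subst hE hE' hN
      simp [Matrix.mul_apply, Fin.sum_univ_three, Matrix.vecMul, dotProduct, h20]
    have n02 : N 0 2 = M 0 2 + M 2 2 - d := by
      subst hE hE' hN
      simp [Matrix.mul_apply, Fin.sum_univ_three, Matrix.vecMul, dotProduct, h00, h20]
      ring
    have n12 : N 1 2 = M 1 2 - 1 := by
      subst hE hE' hN
      simp [Matrix.mul_apply, Fin.sum_univ_three, Matrix.vecMul, dotProduct, h10]
      ring
    obtain ⟨Q, Q', hQ, hh1, hh2⟩ := pivot_step N d d' hd n00 n10 n20 (by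
      rintro ⟨_, h5, _⟩
      rw [n02, n12] at h5
      apply h22
      have h6 : M 1 2 - 1 - (M 0 2 + M 2 2 - d) / d = (M 1 2 - M 0 2 / d) - M 2 2 / d := by
        field_simp
        ring
      rw [h6, h2, zero_sub, neg_eq_zero] at h5
      exact (div_eq_zero_iff.mp h5).resolve_right hd)
    refine ⟨E * Q, Q' * E', ?_, ?_, ?_⟩
    · calc E * Q * (Q' * E') = E * (Q * Q') * E' := by simp only [Matrix.mul_assoc]
        _ = 1 := by rw [hQ, Matrix.mul_one, hEE]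
    · have : Q' * E' * M * (E * Q) = Q' * N * Q := by rw [hN]; simp only [Matrix.mul_assoc]
      rw [this]
      exact hh1
    · have : Q' * E' * M * (E * Q) = Q' * N * Q := by rw [hN]; simp only [Matrix.mul_assoc]
      rw [this]
      exact hh2
  · exact pivot_step M d d' hd h00 h10 h20 hne

lemma exists_not_eigen (y : Matrix (Fin 3) (Fin 3) F) (h : ¬ ∃ r : F, y = r • 1) :
    ∃ v : Fin 3 → F, v ≠ 0 ∧ Ind v (y *ᵥ v) := by
  by_contra hc
  push Not at hc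
  have key : ∀ v : Fin 3 → F, v ≠ 0 → ∃ c : F, y *ᵥ v = c • v := by
    intro v hv
    have := hc v hv
    unfold Ind at this
    push Not at this
    exact this
  have e₀ : (![1, 0, 0] : Fin 3 → F) ≠ 0 := by
    intro h0
    have := congrFun h0 0
    simp at this
  have e₁ : (![0, 1, 0] : Fin 3 → F) ≠ 0 := by
    intro h0
    have := congrFun h0 1
    simp at this
  have e₂ : (![0, 0, 1] : Fin 3 → F) ≠ 0 := by
    intro h0
    have := congrFun h0 2
    simp at this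
  have e₃ : (![1, 1, 0] : Fin 3 → F) ≠ 0 := by
    intro h0
    have := congrFun h0 0
    simp at this
  have e₄ : (![1, 0, 1] : Fin 3 → F) ≠ 0 := by
    intro h0
    have := congrFun h0 0
    simp at this
  obtain ⟨c₀, h₀⟩ := key _ e₀
  obtain ⟨c₁, h₁⟩ := key _ e₁
  obtain ⟨c₂, h₂⟩ := key _ e₂
  obtain ⟨c₃, h₃⟩ := key _ e₃
  obtain ⟨c₄, h₄⟩ := key _ e₄
  have p0 := fun i => congrFun h₀ i
  have p1 := fun i => congrFun h₁ i
  have p2 := fun i => congrFun h₂ i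
  have p3 := fun i => congrFun h₃ i
  have p4 := fun i => congrFun h₄ i
  simp only [Matrix.mulVec, dotProduct, Fin.sum_univ_three, Pi.smul_apply, smul_eq_mul] at p0 p1 p2 p3 p4
  have q00 := p0 0
  have q01 := p0 1
  have q02 := p0 2
  have q10 := p1 0
  have q11 := p1 1
  have q12 := p1 2
  have q20 := p2 0
  have q21 := p2 1
  have q22 := p2 2
  have q30 := p3 0
  have q31 := p3 1
  have q40 := p4 0
  have q42 := p4 2
  simp at q00 q01 q02 q10 q11 q12 q20 q21 q22 q30 q31 q40 q42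
  apply h
  refine ⟨c₀, ?_⟩
  have hc1 : c₁ = c₀ := by
    rw [q00, q10] at q30
    rw [q01, q11] at q31
    simp at q30 q31
    rw [q30, q31]
  have hc2 : c₂ = c₀ := by
    rw [q00, q20] at q40
    rw [q02, q22] at q42
    simp at q40 q42
    rw [q40, q42]
  ext i j
  fin_cases i <;> fin_cases j <;> simp [q00, q01, q02, q10, q11, q12, q20, q21, q22, hc1, hc2, Matrix.one_apply]

/-- The `Ind` relation persists under shifting the second vector. -/
lemma ind_sub {v w : Fin 3 → F} (h : Ind v w) (d : F) : Ind v (w - d • v) := by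
  intro c hc
  apply h (c + d)
  rw [add_smul, ← hc]
  simp

/-- Non-scalar matrices are conjugate to a matrix with prescribed pivots. -/
theorem exists_good (y : Matrix (Fin 3) (Fin 3) F) (h : ¬ ∃ r : F, y = r • 1) (hdet : y.det ≠ 0) (d d' : F) (hd : d ≠ 0) :
    ∃ Q Q' : Matrix (Fin 3) (Fin 3) F, Q * Q' = 1 ∧
      (Q' * y * Q) 0 0 = d ∧ (Q' * y * Q) 0 0 * (Q' * y * Q) 1 1 - (Q' * y * Q) 0 1 * (Q' * y * Q) 1 0 = d * d' := by
  classical
  obtain ⟨v, hv, hind⟩ := exists_not_eigen y h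
  obtain ⟨g, hg0, hg1⟩ := exists_sl (F := F) (n := 3) 0 1 2 (by decide) (by decide) (by decide) hv (ind_sub hind d)
  obtain ⟨G, hGdef⟩ : ∃ G : Matrix (Fin 3) (Fin 3) F, G = (g : Matrix (Fin 3) (Fin 3) F) := ⟨_, rfl⟩
  obtain ⟨G', hG'def⟩ : ∃ G' : Matrix (Fin 3) (Fin 3) F, G' = ((g⁻¹ : SL(3, F)) : Matrix (Fin 3) (Fin 3) F) := ⟨_, rfl⟩
  rw [← hGdef] at hg0 hg1
  have hGG : G * G' = 1 := by
    rw [hGdef, hG'def, ← Matrix.SpecialLinearGroup.coe_mul]
    simp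
  have hG'G : G' * G = 1 := mul_comm_of_eq hGG
  obtain ⟨M, hM⟩ : ∃ M, M = G' * y * G := ⟨_, rfl⟩
  have hM0 : M *ᵥ Pi.single 0 1 = Pi.single 1 1 + d • Pi.single 0 1 := by
    have h1 : y *ᵥ v = G *ᵥ (Pi.single 1 1) + d • v := by
      rw [hg1]
      simp
    have h2 : G' *ᵥ v = Pi.single 0 1 := by
      rw [← hg0, Matrix.mulVec_mulVec, hG'G, Matrix.one_mulVec]
    rw [hM, ← Matrix.mulVec_mulVec, ← Matrix.mulVec_mulVec, hg0, h1, Matrix.mulVec_add, Matrix.mulVec_smul, h2,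
      Matrix.mulVec_mulVec, hG'G, Matrix.one_mulVec]
  have h00 : M 0 0 = d := by
    have := congrFun hM0 0
    simpa [Matrix.mulVec, dotProduct, Fin.sum_univ_three, Pi.single_apply] using this
  have h10 : M 1 0 = 1 := by
    have := congrFun hM0 1
    simpa [Matrix.mulVec, dotProduct, Fin.sum_univ_three, Pi.single_apply] using this
  have h20 : M 2 0 = 0 := by
    have := congrFun hM0 2
    simpa [Matrix.mulVec, dotProduct, Fin.sum_univ_three, Pi.single_apply] using this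
  have hMdet : M.det ≠ 0 := by
    rw [hM, Matrix.det_mul, Matrix.det_mul, mul_comm (G'.det), mul_assoc, ← Matrix.det_mul, hG'G]
    simpa using hdet
  obtain ⟨Q, Q', hQ, hh1, hh2⟩ := pivot_all M d d' hd h00 h10 h20 hMdet
  refine ⟨G * Q, Q' * G', ?_, ?_, ?_⟩
  · calc G * Q * (Q' * G') = G * (Q * Q') * G' := by simp only [Matrix.mul_assoc]
      _ = 1 := by rw [hQ, Matrix.mul_one, hGG]
  · have : Q' * G' * y * (G * Q) = Q' * M * Q := by rw [hM]; simp only [Matrix.mul_assoc]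
    rw [this]
    exact hh1
  · have : Q' * G' * y * (G * Q) = Q' * M * Q := by rw [hM]; simp only [Matrix.mul_assoc]
    rw [this]
    exact hh2

/-- Non-scalar matrices of determinant `(abc)²` are products of two conjugates of `diag(a,b,c)`. -/
theorem isP_of_nonscalar (a b c : F) (ha : a ≠ 0) (hb : b ≠ 0) (hc : c ≠ 0) (h1 : a ≠ b) (h2 : a ≠ c) (h3 : b ≠ c)
    (y : Matrix (Fin 3) (Fin 3) F) (h : ¬ ∃ r : F, y = r • 1) (hdet : y.det = a * a * (b * b) * (c * c)) :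
    IsP a b c y := by
  have hd0 : y.det ≠ 0 := by
    rw [hdet]
    exact mul_ne_zero (mul_ne_zero (mul_ne_zero ha ha) (mul_ne_zero hb hb)) (mul_ne_zero hc hc)
  obtain ⟨Q, Q', hQ, hh1, hh2⟩ := exists_good y h hd0 (a * a) (b * b) (mul_ne_zero ha ha)
  have hgood : Good a b c (Q' * y * Q) := by
    refine ⟨hh1, hh2, ?_⟩
    rw [Matrix.det_mul, Matrix.det_mul, mul_comm (Q'.det), mul_assoc, ← Matrix.det_mul, mul_comm_of_eq hQ]
    simpa using hdet
  have h4 := (isP_of_good a b c ha hb hc h1 h2 h3 hgood).conj hQ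
  have h5 : Q * (Q' * y * Q) * Q' = y := by
    calc Q * (Q' * y * Q) * Q' = (Q * Q') * y * (Q * Q') := by simp only [Matrix.mul_assoc]
      _ = y := by rw [hQ]; simp
  rwa [h5] at h4

/-- Over `SL₃`. -/
theorem exists_sl_conj (a b c : F) (habc : a * b * c = 1) {A : Matrix (Fin 3) (Fin 3) F} (hA : IsC a b c A)
    (x : SL(3, F)) (hx : (x : Matrix (Fin 3) (Fin 3) F) = dg a b c) :
    ∃ S : SL(3, F), A = ((S * x * S⁻¹ : SL(3, F)) : Matrix (Fin 3) (Fin 3) F) := by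
  obtain ⟨P, P', hP, rfl⟩ := hA
  have hPd : P.det * P'.det = 1 := by rw [← Matrix.det_mul, hP, Matrix.det_one]
  have hP0 : P.det ≠ 0 := left_ne_zero_of_mul_eq_one hPd
  obtain ⟨T, hT⟩ : ∃ T : Matrix (Fin 3) (Fin 3) F, T = !![P'.det, 0, 0; 0, 1, 0; 0, 0, 1] := ⟨_, rfl⟩
  obtain ⟨T', hT'⟩ : ∃ T' : Matrix (Fin 3) (Fin 3) F, T' = !![P.det, 0, 0; 0, 1, 0; 0, 0, 1] := ⟨_, rfl⟩
  have hTT : T * T' = 1 := by
    subst hT hT'
    ext i j
    fin_cases i <;> fin_cases j <;> simp [Matrix.mul_apply, Fin.sum_univ_three, hPd, mul_comm (Matrix.det P') (Matrix.det P)]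
  have hTD : T * dg a b c * T' = dg a b c := by
    subst hT hT'
    ext i j
    fin_cases i <;> fin_cases j <;> simp [Matrix.mul_apply, Fin.sum_univ_three, dg]
    calc P'.det * a * P.det = (P.det * P'.det) * a := by ring
      _ = a := by rw [hPd, one_mul]
  have hTdet : T.det = P'.det := by
    subst hT
    rw [Matrix.det_fin_three]
    simp
  have hSdet : (P * T).det = 1 := by
    rw [Matrix.det_mul, hTdet, hPd]
  let S : SL(3, F) := ⟨P * T, hSdet⟩
  have hS' : ((S⁻¹ : SL(3, F)) : Matrix (Fin 3) (Fin 3) F) = T' * P' := by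
    have h1 : (S : Matrix (Fin 3) (Fin 3) F) * ((S⁻¹ : SL(3, F)) : Matrix (Fin 3) (Fin 3) F) = 1 := by
      rw [← Matrix.SpecialLinearGroup.coe_mul]
      simp
    have h2 : (T' * P') * (S : Matrix (Fin 3) (Fin 3) F) = 1 := by
      show T' * P' * (P * T) = 1
      calc T' * P' * (P * T) = T' * (P' * P) * T := by simp only [Matrix.mul_assoc]
        _ = 1 := by rw [mul_comm_of_eq hP, Matrix.mul_one, mul_comm_of_eq hTT]
    calc ((S⁻¹ : SL(3, F)) : Matrix (Fin 3) (Fin 3) F) = ((T' * P') * (S : Matrix (Fin 3) (Fin 3) F)) * ((S⁻¹ : SL(3, F)) : Matrix (Fin 3) (Fin 3) F) := by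
          rw [h2, Matrix.one_mul]
      _ = T' * P' := by rw [Matrix.mul_assoc, h1, Matrix.mul_one]
  refine ⟨S, ?_⟩
  rw [Matrix.SpecialLinearGroup.coe_mul, Matrix.SpecialLinearGroup.coe_mul, hS', hx]
  show P * dg a b c * P' = P * T * dg a b c * (T' * P')
  calc P * dg a b c * P' = P * (T * dg a b c * T') * P' := by rw [hTD]
    _ = P * T * dg a b c * (T' * P') := by simp only [Matrix.mul_assoc]

/-- The main factorisation in `SL₃`. -/
theorem sl_factor (a b c : F) (ha : a ≠ 0) (hb : b ≠ 0) (hc : c ≠ 0) (h1 : a ≠ b) (h2 : a ≠ c) (h3 : b ≠ c)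
    (habc : a * b * c = 1) (x y : SL(3, F)) (hx : (x : Matrix (Fin 3) (Fin 3) F) = dg a b c)
    (h : ¬ ∃ r : F, (y : Matrix (Fin 3) (Fin 3) F) = r • 1) :
    ∃ u v : SL(3, F), y = (u * x * u⁻¹) * (v * x * v⁻¹) := by
  have hdet : (y : Matrix (Fin 3) (Fin 3) F).det = a * a * (b * b) * (c * c) := by
    rw [y.2]
    calc (1 : F) = (a * b * c) * (a * b * c) := by rw [habc, one_mul]
      _ = _ := by ring
  obtain ⟨A, B, hA, hB, hy⟩ := isP_of_nonscalar a b c ha hb hc h1 h2 h3 _ h hdet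
  obtain ⟨u, hu⟩ := exists_sl_conj a b c habc hA x hx
  obtain ⟨v, hv⟩ := exists_sl_conj a b c habc hB x hx
  refine ⟨u, v, ?_⟩
  apply Subtype.ext
  rw [Matrix.SpecialLinearGroup.coe_mul _ _, ← hu, ← hv, hy]

end Cfsg.Agent.Lib.KS2.Thom3
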